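import Cfsg.Agent.CharBase.Central

/-! S3668, piece L33-Y: simple groups of order 5616, values of the characters of degree 12, 27, 16
and centralizers of elements of order 2, 4, 3 -/

set_option autoImplicit false

namespace Cfsg.Agent.H43.L33Y

open Cfsg Cfsg.Agent.CharBase Subgroup
open scoped ComplexConjugate

universe u

/-- data of piece L33-X, plus `inv` (no element of order 13 is inverted by an involution, so the
class constant of involutions vanishes) and `c13` -/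
structure YD {G : Type u} [Group G] [Finite G] (χ ψ θ : IrrCharacter G) : Prop where
  hG : Nat.card G = 5616
  d1 : (χ : G → ℂ) 1 = 12
  d2 : (ψ : G → ℂ) 1 = 27
  d3 : (θ : G → ℂ) 1 = 16
  lin : ∀ g : G, orderOf g ≠ 13 → (ψ : G → ℂ) g = (χ : G → ℂ) g - 1 + (θ : G → ℂ) g
  nrm : ∀ g : G, orderOf g ≠ 13 → 1 + ‖(χ : G → ℂ) g‖ ^ 2 + ‖(ψ : G → ℂ) g‖ ^ 2 +
    4 * ‖(θ : G → ℂ) g‖ ^ 2 ≤ (Nat.card (Subgroup.centralizer ({g} : Set G)) : ℝ)
  p3 : ∀ g : G, 3 ∣ orderOf g → (ψ : G → ℂ) g = 0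
  p2 : ∀ g : G, 2 ∣ orderOf g → (θ : G → ℂ) g = 0
  cls : ∀ g h : G, g ≠ 1 → h ≠ 1 → orderOf g ≠ 13 → orderOf h ≠ 13 →
    ∃ n : ℕ, (13 * n : ℂ) * Nat.card (Subgroup.centralizer ({g} : Set G)) *
      Nat.card (Subgroup.centralizer ({h} : Set G)) =
      5616 * (1 - (χ : G → ℂ) g * (χ : G → ℂ) h / 12 + (ψ : G → ℂ) g * (ψ : G → ℂ) h / 27 -
        (θ : G → ℂ) g * (θ : G → ℂ) h / 16)
  inv : ∀ t : G, orderOf t = 2 → 1 - (χ : G → ℂ) t * (χ : G → ℂ) t / 12 +
    (ψ : G → ℂ) t * (ψ : G → ℂ) t / 27 - (θ : G → ℂ) t * (θ : G → ℂ) t / 16 = 0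
  c13 : ∀ g : G, orderOf g = 13 → Nat.card (Subgroup.centralizer ({g} : Set G)) = 13

/-- character values at involutions are integers. -/
theorem exists_int {G : Type u} [Group G] [Finite G] {t : G} {χ : G → ℂ} (hχ : IsCharacter G χ)
    (ht : orderOf t = 2) : ∃ h : ℤ, χ t = h := by
  obtain ⟨n, ρ, rfl⟩ := hχ
  obtain ⟨s, -, hs, hsum⟩ := exists_roots_of_isCharacter ρ t
  rw [hsum]
  clear hsum
  induction s using Multiset.induction_on with
  | empty => exact ⟨0, by simp⟩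
  | cons a s ih =>
    obtain ⟨k, hk⟩ := ih (fun z hz => hs z (Multiset.mem_cons_of_mem hz))
    have ha := hs a (Multiset.mem_cons_self a s)
    rw [ht] at ha
    rw [Multiset.sum_cons, hk]
    rcases (show a = 1 ∨ a = -1 from by
      have h0 : (a - 1) * (a + 1) = 0 := by linear_combination ha
      rcases mul_eq_zero.1 h0 with h | h
      · left; linear_combination h
      · right; linear_combination h) with h | h
    · exact ⟨1 + k, by rw [h]; push_cast; ring⟩
    · exact ⟨-1 + k, by rw [h]; push_cast; ring⟩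

theorem int_of_rat {r : ℚ} {z : ℂ} (hz : z = (r : ℂ)) (h : IsIntegral ℤ z) : ∃ m : ℤ, r = m := by
  rw [hz] at h
  have h4 : ((r : ℚ) : ℂ) = algebraMap ℚ ℂ r := by simp
  rw [h4] at h
  have h5 : IsIntegral ℤ r := (isIntegral_algebraMap_iff (algebraMap ℚ ℂ).injective).mp h
  obtain ⟨m, hm⟩ := IsIntegrallyClosed.isIntegral_iff.mp h5
  exact ⟨m, by simpa using hm.symm⟩

theorem dvd_of_int {a b : ℤ} (hb : b ≠ 0) {z : ℂ} (hz : z = (a : ℂ) / b) (h : IsIntegral ℤ z) :
    b ∣ a := by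
  obtain ⟨m, hm⟩ := int_of_rat (r := (a : ℚ) / b) (by rw [hz]; push_cast; rfl) h
  have hb' : (b : ℚ) ≠ 0 := by exact_mod_cast hb
  rw [div_eq_iff hb'] at hm
  exact ⟨m, by rw [mul_comm]; exact_mod_cast hm⟩

section

variable {G : Type u} [Group G] [Finite G] {χ ψ θ : IrrCharacter G}

/-- `ω_φ(g)` integral, with integral value `v` -/
theorem omega_dvd (φ : IrrCharacter G) (g : G) {v d : ℤ} (hd : d ≠ 0)
    (hv : (φ : G → ℂ) g = v) (h1 : (φ : G → ℂ) 1 = d) :
    d ∣ ((centralizer ({g} : Set G)).index : ℤ) * v := by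
  haveI := Fintype.ofFinite G
  refine dvd_of_int hd ?_ (isIntegral_centralChar φ.2 g)
  rw [hv, h1]
  push_cast
  ring

theorem not13 (D : YD χ ψ θ) {g : G} (h1 : orderOf g ≠ 1) (h13 : orderOf g ≠ 13) :
    ¬ 13 ∣ Nat.card (centralizer ({g} : Set G)) := by
  intro hd
  haveI : Fact (Nat.Prime 13) := ⟨by norm_num⟩
  obtain ⟨y, hy⟩ := exists_prime_orderOf_dvd_card' (G := centralizer ({g} : Set G)) 13 hd
  have hy' : orderOf (y : G) = 13 := by rw [Subgroup.orderOf_coe, hy]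
  have hc := D.c13 (y : G) hy'
  have hg : g ∈ centralizer ({(y : G)} : Set G) := by
    rw [mem_centralizer_singleton_iff]
    exact (mem_centralizer_singleton_iff.1 y.2).symm
  have h2 : orderOf g ∣ 13 := by
    rw [← hc, ← Subgroup.orderOf_mk g hg]
    exact orderOf_dvd_natCard _
  rcases (Nat.dvd_prime (by norm_num)).1 h2 with h | h
  · exact h1 h
  · exact h13 h

theorem card_mul_index' (D : YD χ ψ θ) (g : G) :
    (Nat.card (centralizer ({g} : Set G)) : ℤ) * ((centralizer ({g} : Set G)).index : ℤ) = 5616 := by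
  rw [← Nat.cast_mul, Subgroup.card_mul_index, D.hG]; rfl

theorem theta_inv (D : YD χ ψ θ) {t : G} (ht : orderOf t = 2) : (θ : G → ℂ) t = 0 :=
  D.p2 t (by rw [ht])

theorem cent48 (D : YD χ ψ θ) {t : G} (ht : orderOf t = 2) :
    (χ : G → ℂ) t = 4 ∧ Nat.card (centralizer ({t} : Set G)) = 48 := by
  obtain ⟨x, hx⟩ := exists_int (irr_isCharacter χ) ht
  have hθ := theta_inv D ht
  have hψ : (ψ : G → ℂ) t = ((x - 1 : ℤ) : ℂ) := by
    rw [D.lin t (by rw [ht]; norm_num), hx, hθ]; push_cast; ring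
  have h0 := D.inv t ht
  rw [hθ, hψ, hx] at h0
  have h1 : ((108 - 9 * x * x + 4 * (x - 1) * (x - 1) : ℤ) : ℂ) = 0 := by
    push_cast at h0 ⊢
    linear_combination 108 * h0
  have h2 : 108 - 9 * x * x + 4 * (x - 1) * (x - 1) = 0 := by exact_mod_cast h1
  have h3 : (4 - x) * (5 * x + 28) = 0 := by linarith
  have hx4 : x = 4 := by
    rcases mul_eq_zero.1 h3 with h | h <;> omega
  subst hx4
  have hχ : (χ : G → ℂ) t = 4 := by rw [hx]; norm_num
  refine ⟨hχ, ?_⟩
  have hn := D.nrm t (by rw [ht]; norm_num)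
  rw [hχ, hψ, hθ] at hn
  have hn' : (26 : ℝ) ≤ Nat.card (centralizer ({t} : Set G)) := by
    refine le_trans ?_ hn
    norm_num
  have hn'' : 26 ≤ Nat.card (centralizer ({t} : Set G)) := by exact_mod_cast hn'
  have hd := omega_dvd ψ t (v := 4 - 1) (d := 27) (by norm_num) hψ (by rw [D.d2]; norm_num)
  have hm := card_mul_index' D t
  have h13 := not13 D (g := t) (by rw [ht]; norm_num) (by rw [ht]; norm_num)
  generalize Nat.card (centralizer ({t} : Set G)) = c at hm h13 hn''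
  generalize ((centralizer ({t} : Set G)).index : ℤ) = i at hd hm
  obtain ⟨m, hm'⟩ : (9 : ℤ) ∣ i := by omega
  have hc : (c : ℤ) * m = 624 := by
    rw [hm'] at hm
    linarith
  have hc2 : (c : ℤ) ∣ 624 := ⟨m, hc.symm⟩
  have hc3 : c ∣ 624 := by exact_mod_cast hc2
  have hcop : Nat.Coprime c 13 := ((Nat.Prime.coprime_iff_not_dvd (by norm_num)).2 h13).symm
  have hc4 : c ∣ 48 := hcop.dvd_of_dvd_mul_right (by simpa using hc3)
  obtain ⟨k, hk⟩ := hc4
  have : k < 2 := by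
    by_contra hk2
    have : 26 * 2 ≤ c * k := Nat.mul_le_mul hn'' (by omega)
    omega
  interval_cases k
  · omega
  · omega

theorem val4 (D : YD χ ψ θ) {w : G} (hw : orderOf w = 4) :
    ((χ : G → ℂ) w = 0 ∧ Nat.card (centralizer ({w} : Set G)) ∣ 8) ∨
      ((χ : G → ℂ) w = 4 ∧ Nat.card (centralizer ({w} : Set G)) = 48) := by
  have ht : orderOf (w ^ 2) = 2 := by
    rw [orderOf_pow, hw]; decide
  obtain ⟨hχt, hct⟩ := cent48 D ht
  have hθt := theta_inv D ht
  have hθ : (θ : G → ℂ) w = 0 := D.p2 w (by rw [hw]; norm_num)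
  have hψt : (ψ : G → ℂ) (w ^ 2) = 3 := by
    rw [D.lin _ (by rw [ht]; norm_num), hχt, hθt]; norm_num
  have hψ : (ψ : G → ℂ) w = (χ : G → ℂ) w - 1 := by
    rw [D.lin _ (by rw [hw]; norm_num), hθ]; ring
  have n1 : w ^ 2 ≠ 1 := fun e => by rw [e, orderOf_one] at ht; norm_num at ht
  have n2 : w ≠ 1 := fun e => by rw [e, orderOf_one] at hw; norm_num at hw
  obtain ⟨n, hn⟩ := D.cls (w ^ 2) w n1 n2 (by rw [ht]; norm_num) (by rw [hw]; norm_num)
  have hle : centralizer ({w} : Set G) ≤ centralizer ({w ^ 2} : Set G) := by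
    intro z hz
    rw [mem_centralizer_singleton_iff] at hz ⊢
    have : Commute z w := hz
    exact (this.pow_right 2).eq
  have hdc := Subgroup.card_dvd_of_le hle
  have h4c : 4 ∣ Nat.card (centralizer ({w} : Set G)) := by
    rw [← hw, ← Subgroup.orderOf_mk w (mem_centralizer_singleton_iff.2 rfl)]
    exact orderOf_dvd_natCard _
  have hnr := D.nrm w (by rw [hw]; norm_num)
  rw [hct] at hdc hn
  rw [hχt, hψt, hθt, hθ, hψ] at hn
  rw [hψ, hθ] at hnr
  generalize hcc : Nat.card (centralizer ({w} : Set G)) = c at hdc hn h4c hnr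
  set a := (χ : G → ℂ) w with ha
  have ha1 : a = (((8 - n * c : ℤ) / 2 : ℚ) : ℂ) := by
    push_cast at hn ⊢
    linear_combination (1 / 1248 : ℂ) * hn
  obtain ⟨m, hm⟩ := int_of_rat ha1 (irr_isIntegral χ w)
  have ha2 : a = (m : ℂ) := by
    rw [ha1, hm]; push_cast; rfl
  have hm2 : (8 - n * c : ℤ) = 2 * m := by
    have : ((8 - n * c : ℤ) : ℚ) = 2 * m := by linarith
    exact_mod_cast this
  have hnr2 : 1 + m ^ 2 + (m - 1) ^ 2 ≤ (c : ℤ) := by
    rw [ha2] at hnr
    have e1 : ‖(m : ℂ)‖ ^ 2 = ((m ^ 2 : ℤ) : ℝ) := by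
      rw [Complex.norm_intCast, sq_abs]; push_cast; rfl
    have e2 : ‖(m : ℂ) - 1‖ ^ 2 = (((m - 1) ^ 2 : ℤ) : ℝ) := by
      rw [show (m : ℂ) - 1 = ((m - 1 : ℤ) : ℂ) by push_cast; ring, Complex.norm_intCast, sq_abs]
      push_cast; rfl
    rw [e1, e2, norm_zero] at hnr
    have : ((1 + m ^ 2 + (m - 1) ^ 2 : ℤ) : ℝ) ≤ ((c : ℤ) : ℝ) := by
      push_cast
      push_cast at hnr
      linarith
    exact_mod_cast this
  have hc48 : c ≤ 48 := Nat.le_of_dvd (by norm_num) hdc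
  have b1 : -5 ≤ m := by nlinarith
  have b2 : m ≤ 5 := by nlinarith
  obtain ⟨k, hk⟩ := h4c
  have hk12 : k ∣ 12 := by
    obtain ⟨j, hj⟩ := hdc
    exact ⟨j, by rw [hk] at hj; nlinarith⟩
  have hkle : k ≤ 12 := Nat.le_of_dvd (by norm_num) hk12
  have hn0 : (0 : ℤ) ≤ n := Int.natCast_nonneg n
  rw [ha2]
  subst hk
  push_cast at hm2 hnr2
  have hkpos : 0 < k := Nat.pos_of_dvd_of_pos hk12 (by norm_num)
  clear hcc hnr hn ha1 hm ha2
  have key : (m = 0 ∧ k ≤ 2) ∨ (m = 4 ∧ k = 12) := by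
    interval_cases k <;> interval_cases m <;> omega
  rcases key with ⟨rfl, hk2⟩ | ⟨rfl, rfl⟩
  · left
    refine ⟨by norm_num, ?_⟩
    interval_cases k <;> norm_num
  · right
    exact ⟨by norm_num, by norm_num⟩

/-- `9 ∣ |C(w)|` for `w` of order 3 if `27 ∣ |G|` -/
theorem nine_dvd (hG : 27 ∣ Nat.card G) {w : G} (hw : orderOf w = 3) :
    9 ∣ Nat.card (centralizer ({w} : Set G)) := by
  haveI : Fact (Nat.Prime 3) := ⟨by norm_num⟩
  have h1 : IsPGroup 3 (zpowers w) := IsPGroup.of_card (n := 1) (by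
    rw [Nat.card_zpowers, hw, pow_one])
  obtain ⟨P, hP⟩ := h1.exists_le_sylow
  have hwP : w ∈ (P : Subgroup G) := hP (mem_zpowers w)
  have hcP : 27 ∣ Nat.card (P : Subgroup G) := by
    have : 3 ^ 3 ∣ Nat.card (P : Subgroup G) := P.pow_dvd_card_of_pow_dvd_card (by norm_num; exact hG)
    simpa using this
  set K := centralizer ({w} : Set G) ⊓ (P : Subgroup G) with hK
  have hKp : IsPGroup 3 K := P.isPGroup'.to_le inf_le_right
  obtain ⟨k, hk⟩ := IsPGroup.iff_card.1 hKp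
  have hKd : Nat.card K ∣ Nat.card (centralizer ({w} : Set G)) := Subgroup.card_dvd_of_le inf_le_left
  have hwK : w ∈ K := ⟨mem_centralizer_singleton_iff.2 rfl, hwP⟩
  have hzK : zpowers w ≤ K := by rwa [zpowers_le]
  have h3K : 3 ∣ Nat.card K := by
    have := Subgroup.card_dvd_of_le hzK
    rwa [Nat.card_zpowers, hw] at this
  rcases Nat.lt_or_ge k 2 with hk2 | hk2
  · exfalso
    have hk1 : k = 1 := by
      rcases Nat.eq_zero_or_pos k with h0 | h0
      · rw [hk, h0, pow_zero] at h3K; omega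
      · omega
    rw [hk1, pow_one] at hk
    have hKz : zpowers w = K := Subgroup.eq_of_le_of_card_ge hzK (by
      rw [Nat.card_zpowers, hw, hk])
    haveI : Nontrivial (P : Subgroup G) := ⟨⟨⟨w, hwP⟩, 1, fun e => by
      have : w = 1 := congrArg Subtype.val e
      rw [this, orderOf_one] at hw; omega⟩⟩
    haveI := P.isPGroup'.center_nontrivial
    obtain ⟨⟨z, hz⟩, hz1⟩ := exists_ne (1 : center (P : Subgroup G))
    have hzG : (z : G) ∈ K := by
      refine ⟨mem_centralizer_singleton_iff.2 ?_, z.2⟩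
      exact congrArg Subtype.val ((mem_center_iff.1 hz) ⟨w, hwP⟩).symm
    have hzc : ∀ y ∈ (P : Subgroup G), y * (z : G) = z * y := fun y hy =>
      congrArg Subtype.val ((mem_center_iff.1 hz) ⟨y, hy⟩)
    have hzne : (z : G) ≠ 1 := fun e => hz1 (Subtype.ext (Subtype.ext e))
    rw [← hKz] at hzG
    have hzo : orderOf (z : G) = 3 := by
      have : orderOf (z : G) ∣ orderOf w := orderOf_dvd_of_mem_zpowers hzG
      rw [hw] at this
      rcases (Nat.dvd_prime (by norm_num)).1 this with h | h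
      · exact absurd (orderOf_eq_one_iff.1 h) hzne
      · exact h
    have hzz : zpowers (z : G) = zpowers w := Subgroup.eq_of_le_of_card_ge (by
      rwa [zpowers_le]) (by rw [Nat.card_zpowers, Nat.card_zpowers, hw, hzo])
    have hwz : w ∈ zpowers (z : G) := by rw [hzz]; exact mem_zpowers w
    obtain ⟨j, hj⟩ := mem_zpowers_iff.1 hwz
    have hPK : (P : Subgroup G) ≤ K := by
      intro y hy
      refine ⟨mem_centralizer_singleton_iff.2 ?_, hy⟩
      rw [← hj]
      have : Commute y (z : G) := hzc y hy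
      exact (this.zpow_right j).eq
    have := Subgroup.card_dvd_of_le hPK
    rw [hk] at this
    have h27 := dvd_trans hcP this
    have := Nat.le_of_dvd (by norm_num) h27
    omega
  · refine dvd_trans ?_ hKd
    rw [hk]
    exact dvd_trans (by norm_num) (pow_dvd_pow 3 hk2)

theorem cw (D : YD χ ψ θ) {t w : G} (ht : orderOf t = 2) (hw : orderOf w = 3)
    (htw : t * w = w * t) :
    Nat.card (centralizer ({w} : Set G)) = 54 ∧ (χ : G → ℂ) w = 3 := by
  obtain ⟨hχt, hct⟩ := cent48 D ht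
  have hθt := theta_inv D ht
  have hψ : (ψ : G → ℂ) w = 0 := D.p3 w (by rw [hw])
  have hψt : (ψ : G → ℂ) t = 3 := by
    rw [D.lin _ (by rw [ht]; norm_num), hχt, hθt]; norm_num
  have hθ : (θ : G → ℂ) w = 1 - (χ : G → ℂ) w := by
    have := D.lin w (by rw [hw]; norm_num)
    rw [hψ] at this
    linear_combination -this
  have n1 : t ≠ 1 := fun e => by rw [e, orderOf_one] at ht; norm_num at ht
  have n2 : w ≠ 1 := fun e => by rw [e, orderOf_one] at hw; norm_num at hw
  obtain ⟨n, hn⟩ := D.cls t w n1 n2 (by rw [ht]; norm_num) (by rw [hw]; norm_num)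
  have h2c : 2 ∣ Nat.card (centralizer ({w} : Set G)) := by
    rw [← ht, ← Subgroup.orderOf_mk t (mem_centralizer_singleton_iff.2 htw)]
    exact orderOf_dvd_natCard _
  have h9c : 9 ∣ Nat.card (centralizer ({w} : Set G)) := nine_dvd (by rw [D.hG]; norm_num) hw
  have hnr := D.nrm w (by rw [hw]; norm_num)
  have h13 := not13 D (g := w) (by rw [hw]; norm_num) (by rw [hw]; norm_num)
  have hidx := card_mul_index' D w
  have hom := fun (v : ℤ) (hv : (θ : G → ℂ) w = v) => omega_dvd θ w (v := v) (d := 16)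
    (by norm_num) hv (by rw [D.d3]; norm_num)
  rw [hct] at hn
  rw [hχt, hψt, hθt, hψ] at hn
  rw [hψ, hθ] at hnr
  rw [hθ] at hom
  generalize hcc : Nat.card (centralizer ({w} : Set G)) = c at hn h2c h9c hnr h13 hidx
  generalize ((centralizer ({w} : Set G)).index : ℤ) = i at hidx hom
  set a := (χ : G → ℂ) w with ha
  have ha1 : a = (((9 - n * c : ℤ) / 3 : ℚ) : ℂ) := by
    push_cast at hn ⊢
    linear_combination (1 / 1872 : ℂ) * hn
  obtain ⟨m, hm⟩ := int_of_rat ha1 (irr_isIntegral χ w)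
  have ha2 : a = (m : ℂ) := by
    rw [ha1, hm]; push_cast; rfl
  have hm2 : (9 - n * c : ℤ) = 3 * m := by
    have : ((9 - n * c : ℤ) : ℚ) = 3 * m := by linarith
    exact_mod_cast this
  have hnr2 : 1 + m ^ 2 + 4 * (1 - m) ^ 2 ≤ (c : ℤ) := by
    rw [ha2] at hnr
    have e1 : ‖(m : ℂ)‖ ^ 2 = ((m ^ 2 : ℤ) : ℝ) := by
      rw [Complex.norm_intCast, sq_abs]; push_cast; rfl
    have e2 : ‖(1 : ℂ) - m‖ ^ 2 = (((1 - m) ^ 2 : ℤ) : ℝ) := by
      rw [show (1 : ℂ) - m = ((1 - m : ℤ) : ℂ) by push_cast; ring, Complex.norm_intCast, sq_abs]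
      push_cast; rfl
    rw [e1, e2, norm_zero] at hnr
    have : ((1 + m ^ 2 + 4 * (1 - m) ^ 2 : ℤ) : ℝ) ≤ ((c : ℤ) : ℝ) := by
      push_cast
      push_cast at hnr
      linarith
    exact_mod_cast this
  have h18 : 18 ∣ c := by omega
  obtain ⟨k, rfl⟩ := h18
  push_cast at hm2 hnr2
  have hn0 : (0 : ℤ) ≤ n := Int.natCast_nonneg n
  have hk0 : (0 : ℤ) ≤ k := Int.natCast_nonneg k
  have hnk : (n : ℤ) * k = 0 := by
    by_contra hne
    have hpos : 1 ≤ (n : ℤ) * k := by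
      have : 0 ≤ (n : ℤ) * k := mul_nonneg hn0 hk0
      omega
    have hnpos : 1 ≤ (n : ℤ) := by
      by_contra hh
      have : (n : ℤ) = 0 := by omega
      rw [this, zero_mul] at hpos
      omega
    have e3 : 6 * ((n : ℤ) * k) = 3 - m := by linarith
    have e4 : (k : ℤ) ≤ (n : ℤ) * k := by nlinarith
    nlinarith
  have hm3 : m = 3 := by
    have e3 : 6 * ((n : ℤ) * k) = 3 - m := by linarith
    rw [hnk] at e3
    omega
  subst hm3
  have ha3 : a = 3 := by rw [ha2]; norm_num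
  refine ⟨?_, ha3⟩
  have hd := hom (-2) (by rw [ha3]; norm_num)
  obtain ⟨j, hj⟩ : (8 : ℤ) ∣ i := by omega
  rw [hj] at hidx
  push_cast at hidx
  have hkj : (k : ℤ) * j = 39 := by linarith
  have hk39 : k ∣ 39 := by
    have : (k : ℤ) ∣ 39 := ⟨j, hkj.symm⟩
    exact_mod_cast this
  have hcop : Nat.Coprime k 13 := by
    have : ¬ 13 ∣ k := fun h => h13 (dvd_mul_of_dvd_right h 18)
    exact ((Nat.Prime.coprime_iff_not_dvd (by norm_num)).2 this).symm
  have hk3 : k ∣ 3 := hcop.dvd_of_dvd_mul_right (by simpa using hk39)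
  have hk3' : k ≤ 3 := Nat.le_of_dvd (by norm_num) hk3
  interval_cases k
  · omega
  · omega
  · omega
  · rfl

end

end Cfsg.Agent.H43.L33Y
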