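import Mathlib
import Cfsg.Agent.S0752

set_option autoImplicit false
set_option linter.unusedSectionVars false
set_option linter.unusedVariables false

/-! Involutions preserving a non-degenerate alternating form in characteristic two. -/

namespace Cfsg.Agent.H43

section symm
variable {F U : Type*} [Field F] [AddCommGroup U] [Module F U] [FiniteDimensional F U]

/-- orthogonal complement of an anisotropic vector -/
theorem exists_orthonormal [CharP F 2] (hsq : ∀ a : F, ∃ b, b * b = a) :
    ∀ (n : ℕ) (U : Type _) [AddCommGroup U] [Module F U] [FiniteDimensional F U] (B : LinearMap.BilinForm F U)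
      (hs : ∀ x y, B x y = B y x) (hn : ∀ x, (∀ y, B x y = 0) → x = 0) (hna : ∃ x, B x x ≠ 0) (hd : Module.finrank F U = n),
      ∃ b : Fin n → U, (∀ i j, B (b i) (b j) = if i = j then 1 else 0) := by
  intro n
  induction n with
  | zero =>
    intro U _ _ _ B hs hn hna hd
    exact ⟨fun i => i.elim0, fun i => i.elim0⟩
  | succ n ih =>
    intro U _ _ _ B hs hn hna hd
    -- a vector `x` of norm one whose complement is either zero or not alternating
    have step : ∀ x : U, B x x = 1 → (n = 0 ∨ ∃ y, B x y = 0 ∧ B y y ≠ 0) →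
        ∃ b : Fin (n + 1) → U, (∀ i j, B (b i) (b j) = if i = j then 1 else 0) := by
      intro x hx hy
      rcases hy with rfl | ⟨y, hxy, hyy⟩
      · refine ⟨fun _ => x, fun i j => ?_⟩
        have hij : i = j := Subsingleton.elim (α := Fin 1) i j
        rw [hx, if_pos hij]
      · let W : Submodule F U := LinearMap.ker (B x)
        have hmem : ∀ w, w ∈ W ↔ B x w = 0 := fun w => LinearMap.mem_ker
        have hr : LinearMap.range (B x) = ⊤ := by
          rw [LinearMap.range_eq_top]
          intro c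
          exact ⟨c • x, by rw [map_smul, hx, smul_eq_mul, mul_one]⟩
        have hW : Module.finrank F W = n := by
          have h1 := LinearMap.finrank_range_add_finrank_ker (B x)
          rw [hr, finrank_top, Module.finrank_self, hd] at h1
          change 1 + Module.finrank F W = n + 1 at h1
          omega
        obtain ⟨b, hb⟩ := ih W (B.restrict W) (fun u v => hs u v) (by
          intro u hu
          have h1 : (u : U) = 0 := by
            apply hn
            intro v
            have h2 := hu ⟨v - B x v • x, by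
              rw [hmem, map_sub, map_smul, hx, smul_eq_mul, mul_one, sub_self]⟩
            have h3 : B u (v - B x v • x) = 0 := h2
            rw [map_sub, map_smul, hs u x, (hmem u).1 u.2, smul_zero, sub_zero] at h3
            exact h3
          exact Subtype.ext h1) ⟨⟨y, (hmem y).2 hxy⟩, hyy⟩ hW
        refine ⟨Fin.cons x (fun i => (b i : U)), ?_⟩
        intro i j
        refine Fin.cases ?_ (fun i => ?_) i <;> refine Fin.cases ?_ (fun j => ?_) j
        · simp [hx]
        · have h1 : B x (b j) = 0 := (hmem _).1 (b j).2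
          simp [h1, (Fin.succ_ne_zero j).symm]
        · have h1 : B x (b i) = 0 := (hmem _).1 (b i).2
          rw [hs] at h1
          simp [h1, (Fin.succ_ne_zero i)]
        · have h1 : B (b i) (b j) = if i = j then 1 else 0 := hb i j
          simp [h1]
    obtain ⟨x₀, hx₀⟩ := hna
    obtain ⟨c, hc⟩ := hsq (B x₀ x₀)⁻¹
    obtain ⟨x, hx1⟩ : ∃ x, B x x = 1 := by
      refine ⟨c • x₀, ?_⟩
      rw [map_smul, map_smul, LinearMap.smul_apply, smul_eq_mul, smul_eq_mul, ← mul_assoc, hc, inv_mul_cancel₀ hx₀]
    by_cases hn0 : n = 0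
    · exact step x hx1 (Or.inl hn0)
    by_cases hy : ∃ y, B x y = 0 ∧ B y y ≠ 0
    · exact step x hx1 (Or.inr hy)
    push Not at hy
    -- the complement is alternating and non-zero
    obtain ⟨e, he0, hxe⟩ : ∃ e, e ≠ 0 ∧ B x e = 0 := by
      by_contra hcon
      push Not at hcon
      have h1 : LinearMap.ker (B x) = ⊥ := by
        rw [LinearMap.ker_eq_bot']
        intro e he
        by_contra h
        exact hcon e h he
      have h2 := LinearMap.finrank_range_add_finrank_ker (B x)
      rw [h1, finrank_bot, add_zero, hd] at h2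
      have h3 := Submodule.finrank_le (LinearMap.range (B x))
      rw [Module.finrank_self] at h3
      omega
    obtain ⟨g, hg⟩ : ∃ g, B e g ≠ 0 := by
      by_contra hcon
      push Not at hcon
      exact he0 (hn e hcon)
    obtain ⟨f, hxf, hef⟩ : ∃ f, B x f = 0 ∧ B e f = 1 := by
      refine ⟨(B e g)⁻¹ • (g - B x g • x), ?_, ?_⟩
      · rw [map_smul, map_sub, map_smul, hx1, smul_eq_mul, smul_eq_mul, mul_one, sub_self, mul_zero]
      · rw [map_smul, map_sub, map_smul, hs e x, hxe, smul_zero, sub_zero, smul_eq_mul, inv_mul_cancel₀ hg]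
    have hee := hy e hxe
    have hff := hy f hxf
    have h2 : (2 : F) = 0 := CharTwo.two_eq_zero
    refine step (x + e) ?_ (Or.inr ⟨x + f, ?_, ?_⟩)
    · rw [map_add, map_add, LinearMap.add_apply, LinearMap.add_apply, hx1, hxe, hs e x, hxe, hee]
      ring
    · rw [map_add, map_add, LinearMap.add_apply, LinearMap.add_apply, hx1, hxf, hs e x, hxe, hef]
      linear_combination h2
    · rw [map_add, map_add, LinearMap.add_apply, LinearMap.add_apply, hx1, hxf, hs f x, hxf, hff]
      simp

end symm

theorem add_self_zero (F : Type*) {V : Type*} [Field F] [CharP F 2] [AddCommGroup V] [Module F V] (v : V) : v + v = 0 := by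
  rw [← two_smul F v, CharTwo.two_eq_zero, zero_smul]

section inv
variable {F V : Type*} [Field F] [AddCommGroup V] [Module F V] [FiniteDimensional F V] [CharP F 2]

/-- `t + 1` -/
def nn (t : V ≃ₗ[F] V) : V →ₗ[F] V := (t : V →ₗ[F] V) + LinearMap.id

theorem nn_apply (t : V ≃ₗ[F] V) (v : V) : nn t v = t v + v := rfl


theorem apply_eq (t : V ≃ₗ[F] V) (v : V) : t v = v + nn t v := by
  rw [nn_apply, add_comm (t v) v, ← add_assoc, add_self_zero F, zero_add]

theorem nn_nn (t : V ≃ₗ[F] V) (ht : ∀ v, t (t v) = v) (v : V) : nn t (nn t v) = 0 := by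
  rw [nn_apply, nn_apply, map_add, ht, add_comm v, add_self_zero F]

variable {f : LinearMap.BilinForm F V}

theorem f_symm (hA : f.IsAlt) (x y : V) : f x y = f y x := by
  rw [← hA.neg_eq, CharTwo.neg_eq]

theorem f_nn_nn (t : V ≃ₗ[F] V) (ht : ∀ v, t (t v) = v) (hf : ∀ x y, f (t x) (t y) = f x y) (x y : V) :
    f x (nn t y) + f (nn t x) y + f (nn t x) (nn t y) = 0 := by
  have h := hf x y
  rw [apply_eq t x, apply_eq t y] at h
  simp only [map_add, LinearMap.add_apply] at h
  linear_combination h

theorem f_nn_nn' (t : V ≃ₗ[F] V) (ht : ∀ v, t (t v) = v) (hf : ∀ x y, f (t x) (t y) = f x y) (x y : V) :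
    f (nn t x) (nn t y) = 0 := by
  have h := f_nn_nn t ht hf x (nn t y)
  rw [nn_nn t ht] at h
  simpa using h

theorem f_nn_comm (hA : f.IsAlt) (t : V ≃ₗ[F] V) (ht : ∀ v, t (t v) = v) (hf : ∀ x y, f (t x) (t y) = f x y) (x y : V) :
    f x (nn t y) = f y (nn t x) := by
  have h := f_nn_nn t ht hf x y
  rw [f_nn_nn' t ht hf, add_zero] at h
  rw [f_symm hA y]
  exact CharTwo.add_eq_zero.1 h

/-- the data of an involution -/
structure IData (f : LinearMap.BilinForm F V) (t : V ≃ₗ[F] V) {ι : Type*} (x : ι → V) (β : ι → ι → F) : Prop where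
  span : ∀ v, nn t v ∈ Submodule.span F (Set.range fun i => nn t (x i))
  li : LinearIndependent F fun i => nn t (x i)
  gram : ∀ i j, f (x i) (nn t (x j)) = β i j

theorem IData.conj (hA : f.IsAlt) (hnd : ∀ x, (∀ y, f x y = 0) → x = 0) {t t' : V ≃ₗ[F] V} (ht : ∀ v, t (t v) = v) (ht' : ∀ v, t' (t' v) = v)
    (hf : ∀ x y, f (t x) (t y) = f x y) (hf' : ∀ x y, f (t' x) (t' y) = f x y) {ι : Type*} [Fintype ι] {x x' : ι → V} {β : ι → ι → F}
    (h : IData f t x β) (h' : IData f t' x' β) (g : V ≃ₗ[F] V) (hg : ∀ x y, f (g x) (g y) = f x y)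
    (hgx : ∀ i, g (nn t (x i)) = nn t' (x' i)) : g * t = t' * g := by
  apply LinearEquiv.ext
  intro v
  change g (t v) = t' (g v)
  rw [apply_eq t, apply_eq t', map_add]
  congr 1
  have h1 := h.span v
  rw [Submodule.mem_span_range_iff_exists_fun] at h1
  obtain ⟨c, hc⟩ := h1
  rw [← hc, map_sum]
  simp only [map_smul, hgx]
  set d := ∑ i, c i • x' i + g v with hd
  have e1 : nn t' d = ∑ i, c i • nn t' (x' i) + nn t' (g v) := by
    rw [hd, map_add, map_sum]
    simp only [map_smul]
  have hz : nn t' d = 0 := by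
    apply hnd
    intro y
    have hj : ∀ j, f d (nn t' (x' j)) = 0 := by
      intro j
      have h2 : f v (nn t (x j)) = ∑ i, c i * β i j := by
        rw [f_nn_comm hA t ht hf v, ← hc, map_sum]
        refine Finset.sum_congr rfl fun i _ => ?_
        rw [map_smul, smul_eq_mul, f_nn_comm hA t ht hf (x j), h.gram]
      rw [hd, map_add, LinearMap.add_apply, map_sum, LinearMap.sum_apply]
      have h4 : f (g v) (nn t' (x' j)) = ∑ i, c i * β i j := by
        rw [← hgx, hg, h2]
      rw [h4, ← Finset.sum_add_distrib]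
      refine Finset.sum_eq_zero fun i _ => ?_
      rw [map_smul, LinearMap.smul_apply, smul_eq_mul, h'.gram]
      exact CharTwo.add_self_eq_zero _
    have h5 := h'.span y
    rw [f_symm hA, f_nn_comm hA t' ht' hf' y d]
    rw [Submodule.mem_span_range_iff_exists_fun] at h5
    obtain ⟨c', hc'⟩ := h5
    rw [← hc', map_sum]
    refine Finset.sum_eq_zero fun i _ => ?_
    rw [map_smul, hj, smul_zero]
  rw [e1] at hz
  have h6 := add_eq_zero_iff_eq_neg.1 hz
  rw [h6]
  have h7 : nn t' (g v) + nn t' (g v) = 0 := add_self_zero F _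
  exact (add_eq_zero_iff_neg_eq.1 h7)

/-- a complement of the kernel -/
theorem exists_compl_data (hA : f.IsAlt) (hnd : ∀ x, (∀ y, f x y = 0) → x = 0) {t : V ≃ₗ[F] V} (ht : ∀ v, t (t v) = v)
    (hf : ∀ x y, f (t x) (t y) = f x y) :
    ∃ (W : Submodule F V) (B : LinearMap.BilinForm F W), (∀ x y : W, B x y = f x (nn t y)) ∧ (∀ x y, B x y = B y x) ∧
      (∀ x, (∀ y, B x y = 0) → x = 0) ∧ Module.finrank F W = Module.finrank F (LinearMap.range (nn t)) ∧
      (∀ v, ∃ w : W, nn t v = nn t w) ∧ (∀ w : W, nn t w = 0 → w = 0) ∧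
      (∀ (ι : Type) [Fintype ι] (b : ι → W) (β : ι → ι → F), LinearIndependent F b → ⊤ ≤ Submodule.span F (Set.range b) →
        (∀ i j, B (b i) (b j) = β i j) → IData f t (fun i => (b i : V)) β) := by
  obtain ⟨W, hW⟩ := Submodule.exists_isCompl (LinearMap.ker (nn t))
  have hsurj : ∀ v, ∃ w : W, nn t v = nn t w := by
    intro v
    have h1 : v ∈ LinearMap.ker (nn t) ⊔ W := by rw [hW.sup_eq_top]; trivial
    obtain ⟨k, hk, w, hw, rfl⟩ := Submodule.mem_sup.1 h1
    exact ⟨⟨w, hw⟩, by rw [map_add, LinearMap.mem_ker.1 hk, zero_add]⟩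
  have hinj : ∀ w : W, nn t w = 0 → w = 0 := by
    intro w hw
    have h1 : (w : V) ∈ LinearMap.ker (nn t) ⊓ W := ⟨LinearMap.mem_ker.2 hw, w.2⟩
    rw [hW.inf_eq_bot, Submodule.mem_bot] at h1
    exact Subtype.ext h1
  let B : LinearMap.BilinForm F W := f.compl₁₂ W.subtype ((nn t).comp W.subtype)
  have hB : ∀ x y : W, B x y = f x (nn t y) := fun x y => rfl
  refine ⟨W, B, hB, ?_, ?_, ?_, hsurj, hinj, ?_⟩
  · intro x y
    rw [hB, hB, f_nn_comm hA t ht hf]
  · intro x hx
    apply hinj
    apply hnd
    intro y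
    rw [f_symm hA, f_nn_comm hA t ht hf]
    obtain ⟨w, hw⟩ := hsurj y
    rw [hw, ← hB]
    exact hx w
  · let e : W →ₗ[F] LinearMap.range (nn t) := (nn t).rangeRestrict.comp W.subtype
    have hb : Function.Bijective e := by
      constructor
      · rw [← LinearMap.ker_eq_bot, LinearMap.ker_eq_bot']
        intro w hw
        exact hinj w (congrArg Subtype.val hw)
      · rintro ⟨_, v, rfl⟩
        obtain ⟨w, hw⟩ := hsurj v
        exact ⟨w, Subtype.ext hw.symm⟩
    exact (LinearEquiv.ofBijective e hb).finrank_eq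
  · intro ι _ b β hli hsp hβ
    refine ⟨?_, ?_, fun i j => hβ i j⟩
    · intro v
      obtain ⟨w, hw⟩ := hsurj v
      rw [hw]
      have h1 : w ∈ Submodule.span F (Set.range b) := hsp trivial
      rw [Submodule.mem_span_range_iff_exists_fun] at h1 ⊢
      obtain ⟨c, hc⟩ := h1
      refine ⟨c, ?_⟩
      rw [← hc, Submodule.coe_sum, map_sum]
      simp
    · rw [Fintype.linearIndependent_iff] at hli ⊢
      intro c hc
      apply hli
      apply hinj
      rw [Submodule.coe_sum, map_sum, ← hc]
      simp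

end inv

end Cfsg.Agent.H43
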