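import Mathlib
import Cfsg.Agent.H43.InvolTwo
import Cfsg.Agent.H43.SympEquiv

set_option autoImplicit false
set_option linter.unusedSectionVars false
set_option linter.unusedVariables false

/-! Involutions preserving a non-degenerate alternating form in characteristic two: data and existence. -/

namespace Cfsg.Agent.H43

section data
variable {F V : Type*} [Field F] [AddCommGroup V] [Module F V] [FiniteDimensional F V] [CharP F 2]
variable {f : LinearMap.BilinForm F V}

theorem exists_data_nonalt (hsq : ∀ a : F, ∃ b, b * b = a) (hA : f.IsAlt) (hnd : ∀ x, (∀ y, f x y = 0) → x = 0) {t : V ≃ₗ[F] V} (ht : ∀ v, t (t v) = v)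
    (hf : ∀ x y, f (t x) (t y) = f x y) (hna : ∃ v, f v (nn t v) ≠ 0) {s : ℕ} (hs : Module.finrank F (LinearMap.range (nn t)) = s) :
    ∃ x : Fin s → V, IData f t x (fun i j => if j = Equiv.refl (Fin s) i then 1 else 0) := by
  obtain ⟨W, B, hB, hBs, hBn, hW, hsurj, hinj, hdata⟩ := exists_compl_data hA hnd ht hf
  have hna' : ∃ w, B w w ≠ 0 := by
    obtain ⟨v, hv⟩ := hna
    obtain ⟨w, hw⟩ := hsurj v
    refine ⟨w, ?_⟩
    rw [hB, ← hw, f_nn_comm hA t ht hf, ← hw]
    exact hv
  obtain ⟨b, hb⟩ := exists_orthonormal hsq s W B hBs hBn hna' (hW.trans hs)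
  have hli : LinearIndependent F b := by
    rw [Fintype.linearIndependent_iff]
    intro c hc i
    have h1 : B (b i) (∑ j, c j • b j) = c i := by
      rw [map_sum]
      simp only [map_smul, hb, smul_eq_mul, mul_ite, mul_one, mul_zero]
      simp
    rw [← h1, hc, map_zero]
  have hsp : ⊤ ≤ Submodule.span F (Set.range b) := by
    rw [hli.span_eq_top_of_card_eq_finrank' (by rw [Fintype.card_fin]; exact (hW.trans hs).symm)]
  refine ⟨fun i => (b i : V), hdata (Fin s) b _ hli hsp ?_⟩
  intro i j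
  rw [hb]
  simp only [Equiv.refl_apply, eq_comm]

theorem exists_data_alt (hA : f.IsAlt) (hnd : ∀ x, (∀ y, f x y = 0) → x = 0) {t : V ≃ₗ[F] V} (ht : ∀ v, t (t v) = v)
    (hf : ∀ x y, f (t x) (t y) = f x y) (halt : ∀ v, f v (nn t v) = 0) :
    ∃ k, Module.finrank F (LinearMap.range (nn t)) = 2 * k ∧
    ∃ x : Fin k ⊕ Fin k → V, IData f t x (fun i j => if j = Equiv.sumComm (Fin k) (Fin k) i then 1 else 0) := by
  obtain ⟨W, B, hB, hBs, hBn, hW, hsurj, hinj, hdata⟩ := exists_compl_data hA hnd ht hf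
  obtain ⟨k, e, he⟩ := exists_symp_equiv B (fun w => by rw [hB]; exact halt w) hBn
  have hk : Module.finrank F W = 2 * k := by
    rw [e.finrank_eq, Module.finrank_fintype_fun_eq_card, Fintype.card_sum, Fintype.card_fin]; ring
  refine ⟨k, hW.symm.trans hk, ?_⟩
  let b : Module.Basis (Fin k ⊕ Fin k) F W := Module.Basis.ofEquivFun e
  have hb : ∀ i, e (b i) = Pi.single i 1 := by
    intro i
    rw [Module.Basis.coe_ofEquivFun, LinearEquiv.apply_symm_apply]
  refine ⟨fun i => (b i : V), hdata (Fin k ⊕ Fin k) b _ b.linearIndependent b.span_eq.ge ?_⟩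
  intro i j
  rw [he, hb, hb, Cfsg.Agent.ClGeo.sympForm_eq]
  rcases i with i | i <;> rcases j with j | j
  · simp [Pi.single_apply]
  · simp [Pi.single_apply, CharTwo.neg_eq, eq_comm]
  · simp [Pi.single_apply, eq_comm]
  · simp [Pi.single_apply]

end data

section existence
variable {F V : Type*} [Field F] [AddCommGroup V] [Module F V] [FiniteDimensional F V] [CharP F 2]
variable (f : LinearMap.BilinForm F V) {ι : Type*} [Fintype ι] [DecidableEq ι]

/-- `x ↦ ∑ f(x, r_i) r_{σ i}` -/
def mkN (r : ι → V) (σ : Equiv.Perm ι) : V →ₗ[F] V := ∑ i, (f.flip (r i)).smulRight (r (σ i))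

theorem mkN_apply (r : ι → V) (σ : Equiv.Perm ι) (x : V) : mkN f r σ x = ∑ i, f x (r i) • r (σ i) := by
  unfold mkN
  rw [LinearMap.sum_apply]
  rfl

variable {f} in
theorem mkN_mkN {r : ι → V} (hr : ∀ i j, f (r i) (r j) = 0) (σ : Equiv.Perm ι) (x : V) : mkN f r σ (mkN f r σ x) = 0 := by
  rw [mkN_apply]
  refine Finset.sum_eq_zero fun i _ => ?_
  have : f (mkN f r σ x) (r i) = 0 := by
    rw [mkN_apply, map_sum, LinearMap.sum_apply]
    refine Finset.sum_eq_zero fun j _ => ?_
    rw [map_smul, LinearMap.smul_apply, hr, smul_zero]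
  rw [this, zero_smul]

variable {f} in
theorem exists_mkT {r : ι → V} (hr : ∀ i j, f (r i) (r j) = 0) (σ : Equiv.Perm ι) :
    ∃ t : V ≃ₗ[F] V, (∀ v, t (t v) = v) ∧ nn t = mkN f r σ := by
  have hinv : Function.Involutive (LinearMap.id + mkN f r σ : V →ₗ[F] V) := by
    intro v
    rw [LinearMap.add_apply, LinearMap.add_apply, LinearMap.id_apply, map_add, mkN_mkN hr, LinearMap.id_apply, add_zero,
      add_assoc, add_self_zero F, add_zero]
  refine ⟨LinearEquiv.ofInvolutive _ hinv, hinv, ?_⟩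
  apply LinearMap.ext
  intro v
  rw [nn_apply]
  change LinearMap.id v + mkN f r σ v + v = _
  rw [LinearMap.id_apply, add_right_comm, add_self_zero F, zero_add]

variable {f} in
theorem mkT_isom (hA : f.IsAlt) {r : ι → V} (hr : ∀ i j, f (r i) (r j) = 0) {σ : Equiv.Perm ι} (hσ : ∀ i, σ (σ i) = i)
    {t : V ≃ₗ[F] V} (ht : nn t = mkN f r σ) (x y : V) : f (t x) (t y) = f x y := by
  rw [apply_eq t x, apply_eq t y, ht]
  simp only [map_add, LinearMap.add_apply]
  have h1 : f (mkN f r σ x) (mkN f r σ y) = 0 := by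
    rw [mkN_apply, mkN_apply, map_sum]
    refine Finset.sum_eq_zero fun i _ => ?_
    rw [map_smul, map_sum, LinearMap.sum_apply]
    rw [Finset.sum_eq_zero fun j _ => ?_, smul_zero]
    rw [map_smul, LinearMap.smul_apply, hr, smul_zero]
  have h2 : f (mkN f r σ x) y = f x (mkN f r σ y) := by
    rw [mkN_apply, mkN_apply, map_sum, map_sum, LinearMap.sum_apply, ← Equiv.sum_comp σ]
    refine Finset.sum_congr rfl fun i _ => ?_
    rw [map_smul, LinearMap.smul_apply, map_smul, smul_eq_mul, smul_eq_mul, hσ, f_symm hA (r i) y]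
    ring
  rw [h1, h2]
  have h3 := CharTwo.add_self_eq_zero (f x (mkN f r σ y))
  linear_combination h3

variable {f} in
theorem exists_dual_vec (hnd : ∀ x, (∀ y, f x y = 0) → x = 0) {r : ι → V} (hr : LinearIndependent F r) (c : ι → F) :
    ∃ x, ∀ i, f x (r i) = c i := by
  obtain ⟨φ, hφ⟩ : ∃ φ : Module.Dual F V, ∀ i, φ (r i) = c i := by
    obtain ⟨g, hg⟩ := LinearMap.exists_extend ((Module.Basis.span hr).constr F c)
    refine ⟨g, fun i => ?_⟩
    have h1 := LinearMap.congr_fun hg (Module.Basis.span hr i)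
    rw [Module.Basis.constr_basis, LinearMap.comp_apply, Submodule.subtype_apply, Module.Basis.span_apply] at h1
    exact h1
  have hinj : Function.Injective f := by
    rw [← LinearMap.ker_eq_bot, LinearMap.ker_eq_bot']
    intro x hx
    apply hnd
    intro y
    rw [hx]; rfl
  have hsurj : Function.Surjective f := by
    refine (LinearMap.injective_iff_surjective_of_finrank_eq_finrank ?_).1 hinj
    exact (Subspace.dual_finrank_eq).symm
  obtain ⟨x, hx⟩ := hsurj φ
  exact ⟨x, fun i => by rw [hx, hφ]⟩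

variable {f} in
theorem finrank_range_mkN (hnd : ∀ x, (∀ y, f x y = 0) → x = 0) {r : ι → V} (hr : LinearIndependent F r) (σ : Equiv.Perm ι) :
    Module.finrank F (LinearMap.range (mkN f r σ)) = Fintype.card ι := by
  have h1 : LinearMap.range (mkN f r σ) = Submodule.span F (Set.range r) := by
    apply le_antisymm
    · rintro _ ⟨x, rfl⟩
      rw [mkN_apply]
      exact Submodule.sum_mem _ fun i _ => Submodule.smul_mem _ _ (Submodule.subset_span ⟨_, rfl⟩)
    · rw [Submodule.span_le]
      rintro _ ⟨i, rfl⟩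
      obtain ⟨x, hx⟩ := exists_dual_vec hnd hr (fun j => if σ j = i then 1 else 0)
      refine ⟨x, ?_⟩
      rw [mkN_apply, Finset.sum_eq_single (σ.symm i)]
      · rw [hx, σ.apply_symm_apply, if_pos rfl, one_smul]
      · intro j _ hj
        rw [hx, if_neg, zero_smul]
        rintro rfl
        exact hj (σ.symm_apply_apply j).symm
      · intro h; exact absurd (Finset.mem_univ _) h
  rw [h1, finrank_span_eq_card hr]

theorem f_mkN (r : ι → V) (σ : Equiv.Perm ι) (x : V) : f x (mkN f r σ x) = ∑ i, f x (r i) * f x (r (σ i)) := by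
  rw [mkN_apply, map_sum]
  refine Finset.sum_congr rfl fun i _ => ?_
  rw [map_smul, smul_eq_mul]

variable {f} in
theorem mkN_nonalt (hnd : ∀ x, (∀ y, f x y = 0) → x = 0) {r : ι → V} (hr : LinearIndependent F r) [Nonempty ι] :
    ∃ x, f x (mkN f r (Equiv.refl ι) x) ≠ 0 := by
  obtain ⟨i⟩ := ‹Nonempty ι›
  obtain ⟨x, hx⟩ := exists_dual_vec hnd hr (fun j => if j = i then 1 else 0)
  refine ⟨x, ?_⟩
  rw [f_mkN]
  simp [hx]

theorem mkN_alt {k : ℕ} (r : Fin k ⊕ Fin k → V) (x : V) : f x (mkN f r (Equiv.sumComm _ _) x) = 0 := by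
  rw [f_mkN, Fintype.sum_sum_type]
  have : ∑ i : Fin k, f x (r (Sum.inr i)) * f x (r (Equiv.sumComm _ _ (Sum.inr i))) = ∑ i : Fin k, f x (r (Sum.inl i)) * f x (r (Equiv.sumComm _ _ (Sum.inl i))) := by
    refine Finset.sum_congr rfl fun i _ => ?_
    exact mul_comm _ _
  rw [this]
  exact CharTwo.add_self_eq_zero _

end existence

end Cfsg.Agent.H43
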