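import Mathlib
import Cfsg.Agent.H43.InvolTwo2

set_option autoImplicit false
set_option linter.unusedSectionVars false
set_option linter.unusedVariables false

/-! Involutions preserving a non-degenerate alternating form in characteristic two: the count. -/

namespace Cfsg.Agent.H43

section count
variable {F V : Type*} [Field F] [AddCommGroup V] [Module F V] [FiniteDimensional F V] [CharP F 2]
variable {f : LinearMap.BilinForm F V} {G : Subgroup (V ≃ₗ[F] V)}

/-- invariants of the conjugacy class -/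
theorem nn_conj {t t' g : V ≃ₗ[F] V} (h : g * t = t' * g) (v : V) : g (nn t v) = nn t' (g v) := by
  have h1 : g (t v) = t' (g v) := congrArg (fun z : V ≃ₗ[F] V => z v) h
  rw [nn_apply, nn_apply, map_add, h1]

theorem finrank_nn_conj {t t' g : V ≃ₗ[F] V} (h : g * t = t' * g) :
    Module.finrank F (LinearMap.range (nn t)) = Module.finrank F (LinearMap.range (nn t')) := by
  have h1 : LinearMap.range (nn t') = (LinearMap.range (nn t)).map (g : V →ₗ[F] V) := by
    ext v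
    rw [LinearMap.mem_range, Submodule.mem_map]
    constructor
    · rintro ⟨w, rfl⟩
      refine ⟨nn t (g.symm w), ⟨_, rfl⟩, ?_⟩
      change g (nn t (g.symm w)) = _
      rw [nn_conj h, LinearEquiv.apply_symm_apply]
    · rintro ⟨_, ⟨w, rfl⟩, rfl⟩
      exact ⟨g w, (nn_conj h w).symm⟩
  rw [h1, LinearEquiv.finrank_map_eq]

theorem alt_conj {t t' g : V ≃ₗ[F] V} (hg : ∀ x y, f (g x) (g y) = f x y) (h : g * t = t' * g) (ha : ∀ v, f v (nn t v) = 0) (v : V) :
    f v (nn t' v) = 0 := by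
  have h1 := ha (g.symm v)
  rw [← hg, nn_conj h, LinearEquiv.apply_symm_apply] at h1
  exact h1

theorem rank_le (hnd : ∀ x, (∀ y, f x y = 0) → x = 0) {t : V ≃ₗ[F] V} (ht : ∀ v, t (t v) = v) {m : ℕ} (hm : Module.finrank F V = 2 * m) :
    Module.finrank F (LinearMap.range (nn t)) ≤ m := by
  have h1 := LinearMap.finrank_range_add_finrank_ker (nn t)
  have h2 : LinearMap.range (nn t) ≤ LinearMap.ker (nn t) := by
    rintro _ ⟨v, rfl⟩
    exact LinearMap.mem_ker.2 (nn_nn t ht v)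
  have h3 := Submodule.finrank_mono h2
  omega

/-- the Witt property -/
def WittProp (f : LinearMap.BilinForm F V) (G : Subgroup (V ≃ₗ[F] V)) : Prop :=
  ∀ t ∈ G, ∀ t' ∈ G, (∀ v, t (t v) = v) → (∀ v, t' (t' v) = v) → ∀ (ι : Type) [Fintype ι] (β : ι → ι → F) (x x' : ι → V),
    IData f t x β → IData f t' x' β → ∃ g ∈ G, ∀ i, g (nn t (x i)) = nn t' (x' i)

theorem conj_of_inv (hsq : ∀ a : F, ∃ b, b * b = a) (hA : f.IsAlt) (hnd : ∀ x, (∀ y, f x y = 0) → x = 0)
    (hG : ∀ g ∈ G, ∀ x y, f (g x) (g y) = f x y) (hW : WittProp f G) {t t' : V ≃ₗ[F] V} (htG : t ∈ G) (htG' : t' ∈ G)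
    (ht : ∀ v, t (t v) = v) (ht' : ∀ v, t' (t' v) = v)
    (hs : Module.finrank F (LinearMap.range (nn t)) = Module.finrank F (LinearMap.range (nn t')))
    (hal : (∀ v, f v (nn t v) = 0) ↔ (∀ v, f v (nn t' v) = 0)) : ∃ g ∈ G, g * t = t' * g := by
  by_cases ha : ∀ v, f v (nn t v) = 0
  · obtain ⟨k, hk, x, hx⟩ := exists_data_alt hA hnd ht (hG t htG) ha
    obtain ⟨k', hk', x', hx'⟩ := exists_data_alt hA hnd ht' (hG t' htG') (hal.1 ha)
    have hkk : k = k' := by omega
    subst hkk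
    obtain ⟨g, hg, hgx⟩ := hW t htG t' htG' ht ht' _ _ x x' hx hx'
    exact ⟨g, hg, hx.conj hA hnd ht ht' (hG t htG) (hG t' htG') hx' g (hG g hg) hgx⟩
  · have ha' : ¬ ∀ v, f v (nn t' v) = 0 := fun h => ha (hal.2 h)
    push Not at ha ha'
    obtain ⟨x, hx⟩ := exists_data_nonalt hsq hA hnd ht (hG t htG) ha rfl
    obtain ⟨x', hx'⟩ := exists_data_nonalt hsq hA hnd ht' (hG t' htG') ha' hs.symm
    obtain ⟨g, hg, hgx⟩ := hW t htG t' htG' ht ht' _ _ x x' hx hx'
    exact ⟨g, hg, hx.conj hA hnd ht ht' (hG t htG) (hG t' htG') hx' g (hG g hg) hgx⟩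

theorem nn_eq_zero_iff (t : V ≃ₗ[F] V) : nn t = 0 ↔ t = 1 := by
  constructor
  · intro h
    apply LinearEquiv.ext
    intro v
    rw [apply_eq t v, h, LinearMap.zero_apply, add_zero]
    rfl
  · rintro rfl
    apply LinearMap.ext
    intro v
    rw [nn_apply]
    exact add_self_zero F v

theorem order_two_iff (g : G) : orderOf g = 2 ↔ (∀ v, (g : V ≃ₗ[F] V) ((g : V ≃ₗ[F] V) v) = v) ∧ Module.finrank F (LinearMap.range (nn (g : V ≃ₗ[F] V))) ≠ 0 := by
  have : Fact (Nat.Prime 2) := ⟨Nat.prime_two⟩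
  rw [orderOf_eq_prime_iff]
  refine and_congr ?_ (not_congr ?_)
  · rw [pow_two]
    constructor
    · intro h v
      exact congrArg (fun z : G => (z : V ≃ₗ[F] V) v) h
    · intro h
      exact Subtype.ext (LinearEquiv.ext h)
  · rw [Submodule.finrank_eq_zero, LinearMap.range_eq_bot, nn_eq_zero_iff]
    constructor
    · intro h; rw [h]; rfl
    · intro h; exact Subtype.ext h

theorem count_involutions (hsq : ∀ a : F, ∃ b, b * b = a) (hA : f.IsAlt) (hnd : ∀ x, (∀ y, f x y = 0) → x = 0)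
    (hG : ∀ g ∈ G, ∀ x y, f (g x) (g y) = f x y) (hW : WittProp f G) {m m' : ℕ} (hm : Module.finrank F V = 2 * m)
    (E1 : ∀ s, 1 ≤ s → s ≤ m → ∃ t ∈ G, (∀ v, t (t v) = v) ∧ Module.finrank F (LinearMap.range (nn t)) = s ∧ ∃ v, f v (nn t v) ≠ 0)
    (E2 : ∀ k, 1 ≤ k → k ≤ m' → ∃ t ∈ G, (∀ v, t (t v) = v) ∧ Module.finrank F (LinearMap.range (nn t)) = 2 * k ∧ ∀ v, f v (nn t v) = 0)
    (B2 : ∀ t ∈ G, (∀ v, t (t v) = v) → (∀ v, f v (nn t v) = 0) → Module.finrank F (LinearMap.range (nn t)) ≤ 2 * m' + 1) :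
    Nat.card {C : ConjClasses G // ∃ g : G, ConjClasses.mk g = C ∧ orderOf g = 2} = m + m' := by
  choose D1 D1G D1i D1s D1n using fun i : Fin m => E1 (i + 1) (by omega) (by have := i.2; omega)
  choose D2 D2G D2i D2s D2a using fun i : Fin m' => E2 (i + 1) (by omega) (by have := i.2; omega)
  let Φ : Fin m ⊕ Fin m' → {C : ConjClasses G // ∃ g : G, ConjClasses.mk g = C ∧ orderOf g = 2} := Sum.elim
    (fun i => ⟨ConjClasses.mk ⟨D1 i, D1G i⟩, ⟨D1 i, D1G i⟩, rfl, (order_two_iff _).2 ⟨D1i i, by rw [D1s]; omega⟩⟩)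
    (fun i => ⟨ConjClasses.mk ⟨D2 i, D2G i⟩, ⟨D2 i, D2G i⟩, rfl, (order_two_iff _).2 ⟨D2i i, by rw [D2s]; omega⟩⟩)
  have key : ∀ a b : G, IsConj a b → ∃ g ∈ G, g * (a : V ≃ₗ[F] V) = (b : V ≃ₗ[F] V) * g := by
    intro a b h
    rw [isConj_iff] at h
    obtain ⟨c, hc⟩ := h
    refine ⟨c, c.2, ?_⟩
    rw [mul_inv_eq_iff_eq_mul] at hc
    exact congrArg Subtype.val hc
  have hinj : Function.Injective Φ := by
    rintro (i | i) (j | j) h
    · have h1 := key _ _ (ConjClasses.mk_eq_mk_iff_isConj.1 (congrArg Subtype.val h))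
      obtain ⟨g, hg, h2⟩ := h1
      have h3 := finrank_nn_conj h2
      change Module.finrank F (LinearMap.range (nn (D1 i))) = Module.finrank F (LinearMap.range (nn (D1 j))) at h3
      rw [D1s, D1s] at h3
      have : i = j := Fin.ext (by omega)
      rw [this]
    · have h1 := key _ _ (ConjClasses.mk_eq_mk_iff_isConj.1 (congrArg Subtype.val h)).symm
      obtain ⟨g, hg, h2⟩ := h1
      obtain ⟨v, hv⟩ := D1n i
      exact absurd (alt_conj (hG g hg) h2 (D2a j) v) hv
    · have h1 := key _ _ (ConjClasses.mk_eq_mk_iff_isConj.1 (congrArg Subtype.val h))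
      obtain ⟨g, hg, h2⟩ := h1
      obtain ⟨v, hv⟩ := D1n j
      exact absurd (alt_conj (hG g hg) h2 (D2a i) v) hv
    · have h1 := key _ _ (ConjClasses.mk_eq_mk_iff_isConj.1 (congrArg Subtype.val h))
      obtain ⟨g, hg, h2⟩ := h1
      have h3 := finrank_nn_conj h2
      change Module.finrank F (LinearMap.range (nn (D2 i))) = Module.finrank F (LinearMap.range (nn (D2 j))) at h3
      rw [D2s, D2s] at h3
      have : i = j := Fin.ext (by omega)
      rw [this]
  have conj : ∀ (a b : G), (∀ v, (a : V ≃ₗ[F] V) ((a : V ≃ₗ[F] V) v) = v) → (∀ v, (b : V ≃ₗ[F] V) ((b : V ≃ₗ[F] V) v) = v) →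
      Module.finrank F (LinearMap.range (nn (a : V ≃ₗ[F] V))) = Module.finrank F (LinearMap.range (nn (b : V ≃ₗ[F] V))) →
      ((∀ v, f v (nn (a : V ≃ₗ[F] V) v) = 0) ↔ (∀ v, f v (nn (b : V ≃ₗ[F] V) v) = 0)) → IsConj a b := by
    intro a b ha hb h1 h2
    obtain ⟨g, hg, h3⟩ := conj_of_inv hsq hA hnd hG hW a.2 b.2 ha hb h1 h2
    rw [isConj_iff]
    refine ⟨⟨g, hg⟩, ?_⟩
    rw [mul_inv_eq_iff_eq_mul]
    exact Subtype.ext h3
  have hsurj : Function.Surjective Φ := by
    rintro ⟨C, g, rfl, hg⟩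
    have hg' := hg
    rw [order_two_iff] at hg'
    obtain ⟨h1, h2⟩ := hg'
    by_cases ha : ∀ v, f v (nn (g : V ≃ₗ[F] V) v) = 0
    · obtain ⟨k, hk, x, hx⟩ := exists_data_alt hA hnd h1 (hG _ g.2) ha
      have h3 := B2 _ g.2 h1 ha
      refine ⟨Sum.inr ⟨k - 1, by omega⟩, ?_⟩
      apply Subtype.ext
      apply ConjClasses.mk_eq_mk_iff_isConj.2
      apply conj
      · exact D2i _
      · exact h1
      · refine (D2s _).trans ?_
        rw [hk]
        change 2 * (k - 1 + 1) = 2 * k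
        omega
      · exact ⟨fun _ => ha, fun _ => D2a _⟩
    · have h3 := rank_le hnd h1 hm
      refine ⟨Sum.inl ⟨Module.finrank F (LinearMap.range (nn (g : V ≃ₗ[F] V))) - 1, by omega⟩, ?_⟩
      apply Subtype.ext
      apply ConjClasses.mk_eq_mk_iff_isConj.2
      apply conj
      · exact D1i _
      · exact h1
      · refine (D1s _).trans ?_
        change Module.finrank F (LinearMap.range (nn (g : V ≃ₗ[F] V))) - 1 + 1 = _
        omega
      · refine ⟨fun h => ?_, fun h => absurd h ha⟩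
        obtain ⟨v, hv⟩ := D1n ⟨Module.finrank F (LinearMap.range (nn (g : V ≃ₗ[F] V))) - 1, by omega⟩
        exact absurd (h v) hv
  rw [← Nat.card_eq_of_bijective Φ ⟨hinj, hsurj⟩, Nat.card_sum, Nat.card_eq_fintype_card, Nat.card_eq_fintype_card, Fintype.card_fin, Fintype.card_fin]

/-- invariance under isomorphism -/
theorem card_classes_congr {G H : Type*} [Group G] [Group H] (e : G ≃* H) :
    Nat.card {C : ConjClasses G // ∃ g : G, ConjClasses.mk g = C ∧ orderOf g = 2} =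
      Nat.card {C : ConjClasses H // ∃ g : H, ConjClasses.mk g = C ∧ orderOf g = 2} := by
  have h1 : ∀ (G' H' : Type _) [Group G'] [Group H'] (e : G' ≃* H') , Function.Injective (ConjClasses.map e.toMonoidHom) := by
    intro G' H' _ _ e a b h
    obtain ⟨a, rfl⟩ := ConjClasses.mk_surjective a
    obtain ⟨b, rfl⟩ := ConjClasses.mk_surjective b
    have h2 : IsConj (e a) (e b) := ConjClasses.mk_eq_mk_iff_isConj.1 h
    apply ConjClasses.mk_eq_mk_iff_isConj.2
    rw [isConj_iff] at h2 ⊢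
    obtain ⟨c, hc⟩ := h2
    refine ⟨e.symm c, ?_⟩
    apply e.injective
    rw [map_mul, map_mul, map_inv, MulEquiv.apply_symm_apply, hc]
  refine Nat.card_eq_of_bijective (fun C => ⟨ConjClasses.map e.toMonoidHom C.1, ?_⟩) ⟨?_, ?_⟩
  · obtain ⟨g, hg, hg2⟩ := C.2
    exact ⟨e g, by rw [← hg]; rfl, by rw [MulEquiv.orderOf_eq, hg2]⟩
  · intro a b h
    exact Subtype.ext (h1 _ _ e (congrArg Subtype.val h))
  · rintro ⟨C, h, rfl, hh⟩
    refine ⟨⟨ConjClasses.mk (e.symm h), e.symm h, rfl, by rw [MulEquiv.orderOf_eq, hh]⟩, ?_⟩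
    apply Subtype.ext
    change ConjClasses.mk (e (e.symm h)) = _
    rw [MulEquiv.apply_symm_apply]

end count

end Cfsg.Agent.H43
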