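import Mathlib
import Cfsg.Agent.H43.InvolTwo3
import Cfsg.Agent.Witt.Basic

set_option autoImplicit false
set_option linter.unusedSectionVars false
set_option linter.unusedVariables false

/-! Classes of involutions in symplectic groups in characteristic two. -/

namespace Cfsg.Agent.H43

open Cfsg.Agent.ClGeo

section sp
variable (F : Type*) [Field F] (m : ℕ)

/-- the symplectic group as linear equivalences -/
def spG : Subgroup ((Fin m ⊕ Fin m → F) ≃ₗ[F] (Fin m ⊕ Fin m → F)) where
  carrier := {g | ∀ x y, sB F m (g x) (g y) = sB F m x y}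
  mul_mem' := by
    intro a b ha hb x y
    exact (ha _ _).trans (hb x y)
  one_mem' := fun x y => rfl
  inv_mem' := by
    intro a ha x y
    have h := ha (a⁻¹ x) (a⁻¹ y)
    have h1 : ∀ z, a (a⁻¹ z) = z := fun z => LinearEquiv.apply_symm_apply a z
    rw [h1, h1] at h
    exact h.symm

/-- the hom from matrices -/
noncomputable def spHom : Matrix.symplecticGroup (Fin m) F →* ((Fin m ⊕ Fin m → F) ≃ₗ[F] (Fin m ⊕ Fin m → F)) :=
  (LinearMap.GeneralLinearGroup.generalLinearEquiv F _).toMonoidHom.comp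
    (((Matrix.toLinAlgEquiv' : Matrix (Fin m ⊕ Fin m) (Fin m ⊕ Fin m) F ≃ₐ[F] _).toMonoidHom.comp
      (Matrix.symplecticGroup (Fin m) F).subtype).toHomUnits)

theorem spHom_apply (g : Matrix.symplecticGroup (Fin m) F) (v : Fin m ⊕ Fin m → F) :
    spHom F m g v = (g : Matrix (Fin m ⊕ Fin m) (Fin m ⊕ Fin m) F).mulVec v := rfl

theorem spHom_mem (g : Matrix.symplecticGroup (Fin m) F) : spHom F m g ∈ spG F m := by
  intro x y
  rw [spHom_apply, spHom_apply, sB_apply, sB_apply]
  exact sympForm_mulVec m g.2 x y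

theorem exists_spEquiv : Nonempty (Matrix.symplecticGroup (Fin m) F ≃* spG F m) := by
  refine ⟨MulEquiv.ofBijective ((spHom F m).codRestrict (spG F m) (spHom_mem F m)) ⟨?_, ?_⟩⟩
  · intro g h hgh
    have h1 : spHom F m g = spHom F m h := congrArg Subtype.val hgh
    apply Subtype.ext
    apply ext_mulVec
    intro x
    rw [← spHom_apply, h1, spHom_apply]
  · rintro ⟨g, hg⟩
    have h1 : LinearMap.toMatrix' (g : (Fin m ⊕ Fin m → F) →ₗ[F] (Fin m ⊕ Fin m → F)) ∈ Matrix.symplecticGroup (Fin m) F := by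
      rw [mem_symplecticGroup_iff]
      intro x y
      rw [LinearMap.toMatrix'_mulVec, LinearMap.toMatrix'_mulVec]
      have := hg x y
      rw [sB_apply, sB_apply] at this
      exact this
    refine ⟨⟨_, h1⟩, ?_⟩
    apply Subtype.ext
    apply LinearEquiv.ext
    intro v
    change spHom F m _ v = g v
    rw [spHom_apply]
    exact LinearMap.toMatrix'_mulVec _ _

variable {F m}

theorem sB_nd (x : Fin m ⊕ Fin m → F) (h : ∀ y, sB F m x y = 0) : x = 0 :=
  sympForm_nondeg_left m x (fun v => by rw [← sB_apply]; exact h v)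

theorem sp_witt [CharP F 2] : WittProp (sB F m) (spG F m) := by
  intro t htG t' htG' ht ht' ι _ β x x' hx hx'
  have hW := (Cfsg.Agent.Witt.isWittForm_of_isAlt (sB F m) (sB_nondegenerate m) (sB_isAlt m))
  obtain ⟨g, hg, hgx⟩ := hW.family (Fintype.card ι) (fun i => nn t (x ((Fintype.equivFin ι).symm i))) (fun i => nn t' (x' ((Fintype.equivFin ι).symm i)))
    (hx.li.comp _ (Equiv.injective _)) (hx'.li.comp _ (Equiv.injective _)) (by
      intro i j
      rw [f_nn_nn' t ht htG, f_nn_nn' t' ht' htG'])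
  refine ⟨g, hg, fun i => ?_⟩
  have := hgx (Fintype.equivFin ι i)
  simpa using this

theorem sp_isotropic {ι : Type*} (e : ι → Fin m) (i j : ι) :
    sB F m (Pi.single (Sum.inl (e i)) 1) (Pi.single (Sum.inl (e j)) 1) = 0 := by
  rw [sB_apply, sympForm_eq]
  simp

theorem single_li {κ ι : Type*} [Fintype κ] [DecidableEq κ] (e : ι → κ) (he : Function.Injective e) :
    LinearIndependent F (fun i => (Pi.single (e i) 1 : κ → F)) := by
  have h := (Pi.basisFun F κ).linearIndependent.comp e he
  convert h using 2 with i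
  simp

theorem count_sp [Fintype F] [CharP F 2] (hm : 1 ≤ m) :
    Nat.card {C : ConjClasses ↥(Matrix.symplecticGroup (Fin m) F) // ∃ g : Matrix.symplecticGroup (Fin m) F, ConjClasses.mk g = C ∧ orderOf g = 2} = m + m / 2 := by
  obtain ⟨e⟩ := exists_spEquiv F m
  rw [card_classes_congr e]
  have hfr : Module.finrank F (Fin m ⊕ Fin m → F) = 2 * m := by
    rw [Module.finrank_fintype_fun_eq_card, Fintype.card_sum, Fintype.card_fin]; ring
  have hsq : ∀ a : F, ∃ b, b * b = a := by
    intro a
    obtain ⟨b, hb⟩ := FiniteField.isSquare_of_char_two (by rw [ringChar.eq_iff]; infer_instance) a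
    exact ⟨b, hb.symm⟩
  refine count_involutions (f := sB F m) (G := spG F m) hsq (sB_isAlt m) (fun x h => sB_nd x h) (fun g hg => hg) sp_witt hfr ?_ ?_ ?_
  · intro s hs1 hs
    have hr : ∀ i j, sB F m (Pi.single (Sum.inl (Fin.castLE hs i)) 1) (Pi.single (Sum.inl (Fin.castLE hs j)) 1) = 0 := fun i j => sp_isotropic _ i j
    obtain ⟨t, ht, htn⟩ := exists_mkT hr (Equiv.refl (Fin s))
    have hli : LinearIndependent F (fun i : Fin s => (Pi.single (Sum.inl (Fin.castLE hs i)) 1 : Fin m ⊕ Fin m → F)) :=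
      single_li _ (Sum.inl_injective.comp (Fin.castLE_injective hs))
    refine ⟨t, mkT_isom (sB_isAlt m) hr (fun i => rfl) htn, ht, ?_, ?_⟩
    · rw [htn, finrank_range_mkN (fun x h => sB_nd x h) hli, Fintype.card_fin]
    · rw [htn]
      have : Nonempty (Fin s) := ⟨⟨0, hs1⟩⟩
      exact mkN_nonalt (fun x h => sB_nd x h) hli
  · intro k hk1 hk
    have hk2 : k + k ≤ m := by omega
    let em : Fin k ⊕ Fin k → Fin m := fun i => Fin.castLE hk2 (finSumFinEquiv i)
    have hem : Function.Injective em := (Fin.castLE_injective hk2).comp finSumFinEquiv.injective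
    have hr : ∀ i j, sB F m (Pi.single (Sum.inl (em i)) 1) (Pi.single (Sum.inl (em j)) 1) = 0 := fun i j => sp_isotropic _ i j
    obtain ⟨t, ht, htn⟩ := exists_mkT hr (Equiv.sumComm (Fin k) (Fin k))
    have hli : LinearIndependent F (fun i : Fin k ⊕ Fin k => (Pi.single (Sum.inl (em i)) 1 : Fin m ⊕ Fin m → F)) :=
      single_li _ (Sum.inl_injective.comp hem)
    refine ⟨t, mkT_isom (sB_isAlt m) hr (fun i => by rcases i with i | i <;> rfl) htn, ht, ?_, ?_⟩
    · rw [htn, finrank_range_mkN (fun x h => sB_nd x h) hli, Fintype.card_sum, Fintype.card_fin]; ring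
    · rw [htn]
      exact mkN_alt _ _
  · intro t htG ht _
    have := rank_le (fun x h => sB_nd x h) ht hfr (f := sB F m)
    omega

end sp

end Cfsg.Agent.H43
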