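import Mathlib
import Cfsg.Agent.H43.InvolTwo3
import Cfsg.Agent.H43.InvolSp
import Cfsg.Agent.Orth.Witt
import Cfsg.Agent.Orth.Bridge
import Cfsg.Agent.Orth.MinusTS

set_option autoImplicit false
set_option linter.unusedSectionVars false
set_option linter.unusedVariables false

/-! Classes of involutions in orthogonal groups in characteristic two. -/

namespace Cfsg.Agent.H43

open Cfsg.Agent.Orth QuadraticMap

section orth
variable {F V : Type*} [Field F] [AddCommGroup V] [Module F V] [FiniteDimensional F V] [CharP F 2] {Q : QuadraticForm F V}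

theorem pB_alt (Q : QuadraticForm F V) : (polarBilin Q).IsAlt := by
  intro x
  rw [pbil, pself, CharTwo.two_eq_zero, zero_mul]

theorem O_isom (g : V ≃ₗ[F] V) (hg : g ∈ OGrp Q) (x y : V) : polarBilin Q (g x) (g y) = polarBilin Q x y := by
  have h : ∀ v, Q (g v) = Q v := hg
  rw [pbil, pbil]
  unfold polar
  rw [← map_add, h, h, h]

theorem Q_nn {t : V ≃ₗ[F] V} (ht : t ∈ OGrp Q) (x : V) : Q (nn t x) = polarBilin Q x (nn t x) := by
  have h : Q (t x) = Q x := ht x
  rw [apply_eq t x, qadd] at h
  have h1 : Q (nn t x) + polar Q x (nn t x) = 0 := by linear_combination h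
  exact CharTwo.add_eq_zero.1 h1

theorem O_witt (hQ : (polarBilin Q).Nondegenerate) : WittProp (polarBilin Q) (OGrp Q) := by
  intro t htG t' htG' ht ht' ι _ β x x' hx hx'
  obtain ⟨g, hgx⟩ := witt_family hQ (Fintype.card ι) (fun i => nn t (x ((Fintype.equivFin ι).symm i))) (fun i => nn t' (x' ((Fintype.equivFin ι).symm i)))
    (hx.li.comp _ (Equiv.injective _)) (hx'.li.comp _ (Equiv.injective _)) (by
      intro i j
      rw [← pbil, ← pbil, f_nn_nn' t ht (O_isom t htG), f_nn_nn' t' ht' (O_isom t' htG')]) (by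
      intro i
      rw [Q_nn htG, Q_nn htG', hx.gram, hx'.gram])
  refine ⟨g, g.2, fun i => ?_⟩
  have := hgx (Fintype.equivFin ι i)
  simpa using this

theorem Q_sum {ι : Type*} {r : ι → V} (hr : ∀ i j, polarBilin Q (r i) (r j) = 0) (c : ι → F) (s : Finset ι) :
    Q (∑ i ∈ s, c i • r i) = ∑ i ∈ s, c i * c i * Q (r i) := by
  classical
  induction s using Finset.induction_on with
  | empty => simp
  | insert a s ha ih =>
    rw [Finset.sum_insert ha, Finset.sum_insert ha, qadd, ih, qsmul, psl]
    have h1 : polar Q (r a) (∑ i ∈ s, c i • r i) = 0 := by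
      rw [← pbil, map_sum]
      refine Finset.sum_eq_zero fun i _ => ?_
      rw [map_smul, hr, smul_zero]
    rw [h1, mul_zero, add_zero]

theorem mkT_mem_O {ι : Type*} [Fintype ι] {r : ι → V} {σ : Equiv.Perm ι} {t : V ≃ₗ[F] V} (ht : nn t = mkN (polarBilin Q) r σ)
    (h : ∀ x, Q (mkN (polarBilin Q) r σ x) = polarBilin Q x (mkN (polarBilin Q) r σ x)) : t ∈ OGrp Q := by
  intro x
  rw [apply_eq t x, qadd, ht, h, pbil]
  have := CharTwo.add_self_eq_zero (polar Q x (mkN (polarBilin Q) r σ x))
  linear_combination this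

theorem E1_O (hnd : ∀ x, (∀ y, polarBilin Q x y = 0) → x = 0) {s : ℕ} (e : Fin s → V) (z : V) (he : ∀ i, Q (e i) = 0) (hee : ∀ i j, polarBilin Q (e i) (e j) = 0)
    (hez : ∀ i, polarBilin Q (e i) z = 0) (hz : Q z = 1) (hli : ∀ (c : Fin s → F) (d : F), ∑ i, c i • e i + d • z = 0 → (∀ i, c i = 0) ∧ d = 0) :
    ∃ t ∈ OGrp Q, (∀ v, t (t v) = v) ∧ Module.finrank F (LinearMap.range (nn t)) = s + 1 ∧ ∃ v, polarBilin Q v (nn t v) ≠ 0 := by
  let r : Fin (s + 1) → V := Fin.cons z (fun i => e i + z)
  have hr0 : r 0 = z := rfl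
  have hrs : ∀ i : Fin s, r i.succ = e i + z := fun i => rfl
  have hzz : polarBilin Q z z = 0 := pB_alt Q z
  have hze : ∀ i, polarBilin Q z (e i) = 0 := fun i => by rw [f_symm (pB_alt Q)]; exact hez i
  have hr : ∀ i j, polarBilin Q (r i) (r j) = 0 := by
    intro i j
    refine Fin.cases ?_ (fun i => ?_) i <;> refine Fin.cases ?_ (fun j => ?_) j
    · rw [hr0]; exact hzz
    · rw [hr0, hrs, map_add, hze, hzz, add_zero]
    · rw [hr0, hrs, map_add, LinearMap.add_apply, hez, hzz, add_zero]
    · rw [hrs, hrs]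
      simp only [map_add, LinearMap.add_apply, hee, hez, hze, hzz, add_zero]
  have hrq : ∀ i, Q (r i) = 1 := by
    intro i
    refine Fin.cases ?_ (fun i => ?_) i
    · rw [hr0]; exact hz
    · rw [hrs, qadd, he, hz, ← pbil, hez]; ring
  have hrli : LinearIndependent F r := by
    rw [Fintype.linearIndependent_iff]
    intro c hc
    rw [Fin.sum_univ_succ] at hc
    simp only [hrs, hr0, smul_add, Finset.sum_add_distrib, ← Finset.sum_smul] at hc
    have h1 := hli (fun i => c i.succ) (c 0 + ∑ i : Fin s, c i.succ) (by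
      rw [add_smul, ← hc]
      abel)
    intro i
    refine Fin.cases ?_ (fun i => ?_) i
    · have h2 := h1.2
      rw [Finset.sum_eq_zero fun i _ => h1.1 i, add_zero] at h2
      exact h2
    · exact h1.1 i
  obtain ⟨t, ht, htn⟩ := exists_mkT hr (Equiv.refl (Fin (s + 1)))
  refine ⟨t, mkT_mem_O htn ?_, ht, ?_, ?_⟩
  · intro x
    rw [f_mkN, mkN_apply]
    simp only [Equiv.refl_apply]
    rw [Q_sum hr]
    refine Finset.sum_congr rfl fun i _ => ?_
    rw [hrq, mul_one]
  · rw [htn, finrank_range_mkN hnd hrli, Fintype.card_fin]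
  · rw [htn]
    exact mkN_nonalt hnd hrli

theorem E2_O (hnd : ∀ x, (∀ y, polarBilin Q x y = 0) → x = 0) {k : ℕ} (r : Fin k ⊕ Fin k → V) (hrq : ∀ i, Q (r i) = 0)
    (hr : ∀ i j, polarBilin Q (r i) (r j) = 0) (hli : LinearIndependent F r) :
    ∃ t ∈ OGrp Q, (∀ v, t (t v) = v) ∧ Module.finrank F (LinearMap.range (nn t)) = 2 * k ∧ ∀ v, polarBilin Q v (nn t v) = 0 := by
  obtain ⟨t, ht, htn⟩ := exists_mkT hr (Equiv.sumComm (Fin k) (Fin k))
  refine ⟨t, mkT_mem_O htn ?_, ht, ?_, ?_⟩
  · intro x
    rw [mkN_alt, mkN_apply, ← Equiv.sum_comp (Equiv.sumComm (Fin k) (Fin k)).symm]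
    simp only [Equiv.apply_symm_apply]
    rw [Q_sum hr]
    refine Finset.sum_eq_zero fun i _ => ?_
    rw [hrq, mul_zero]
  · rw [htn, finrank_range_mkN hnd hli, Fintype.card_sum, Fintype.card_fin]; ring
  · rw [htn]
    exact mkN_alt _ _

end orth

section plus
variable {F : Type*} [Field F] {m : ℕ}

theorem nd_of_nondegenerate {V : Type*} [AddCommGroup V] [Module F V] {B : LinearMap.BilinForm F V} (h : B.Nondegenerate) (x : V) (hx : ∀ y, B x y = 0) : x = 0 :=
  h.1 x hx

theorem plus_inl (i : Fin m) : qfPlus m F (Pi.single (Sum.inl i) 1) = 0 := by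
  rw [qfPlus_apply]
  simp

theorem plus_inl_inl (i j : Fin m) : polarBilin (qfPlus m F) (Pi.single (Sum.inl i) 1) (Pi.single (Sum.inl j) 1) = 0 := by
  rw [pbil, polar_qfPlus]
  simp

theorem hsq_of [Fintype F] [CharP F 2] (a : F) : ∃ b : F, b * b = a := by
  obtain ⟨b, hb⟩ := FiniteField.isSquare_of_char_two (by rw [ringChar.eq_iff]; infer_instance) a
  exact ⟨b, hb.symm⟩

theorem count_plus [Fintype F] [CharP F 2] (hm : 1 ≤ m) :
    Nat.card {C : ConjClasses ↥(Cfsg.isometryGroup F (Cfsg.quadFormPlus m F)) // ∃ g : ↥(Cfsg.isometryGroup F (Cfsg.quadFormPlus m F)), ConjClasses.mk g = C ∧ orderOf g = 2} = m + m / 2 := by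
  classical
  refine (card_classes_congr (bridge (qfPlus m F))).trans ?_
  have hfr : Module.finrank F (Fin m ⊕ Fin m → F) = 2 * m := by
    rw [Module.finrank_fintype_fun_eq_card, Fintype.card_sum, Fintype.card_fin]; ring
  have hnd := nd_of_nondegenerate (qfPlus_nondegenerate m F)
  refine count_involutions (f := polarBilin (qfPlus m F)) (G := OGrp (qfPlus m F)) hsq_of (pB_alt _) hnd (fun g hg => O_isom g hg)
    (O_witt (qfPlus_nondegenerate m F)) hfr ?_ ?_ ?_
  · intro s hs1 hs
    obtain ⟨s, rfl⟩ : ∃ s', s = s' + 1 := ⟨s - 1, by omega⟩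
    let l : Fin m := ⟨s, by omega⟩
    let c : Fin s → Fin m := Fin.castLE (by omega)
    have hcl : ∀ i, c i ≠ l := by
      intro i h
      have : (i : ℕ) = s := congrArg Fin.val h
      have := i.2
      omega
    refine E1_O hnd (fun i : Fin s => Pi.single (Sum.inl (c i)) 1) (Pi.single (Sum.inl l) 1 + Pi.single (Sum.inr l) 1) ?_ ?_ ?_ ?_ ?_
    · intro i; exact plus_inl _
    · intro i j; exact plus_inl_inl _ _
    · intro i
      rw [map_add, plus_inl_inl, pbil, polar_qfPlus]
      simp [Pi.single_apply, (hcl i).symm, (hcl i)]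
    · rw [qfPlus_apply]
      simp [Pi.single_apply]
    · intro a d h
      have hd : d = 0 := by
        have := congrFun h (Sum.inr l)
        simpa using this
      refine ⟨fun i => ?_, hd⟩
      have := congrFun h (Sum.inl (c i))
      rw [hd] at this
      simp only [zero_smul, add_zero, Finset.sum_apply, Pi.smul_apply, smul_eq_mul, Pi.zero_apply] at this
      rw [Finset.sum_eq_single i] at this
      · simpa using this
      · intro j _ hj
        have : c i ≠ c j := fun h => hj ((Fin.castLE_injective _ h).symm)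
        simp [Pi.single_apply, this]
      · intro h; exact absurd (Finset.mem_univ _) h
  · intro k hk1 hk
    have hk2 : k + k ≤ m := by omega
    let em : Fin k ⊕ Fin k → Fin m := fun i => Fin.castLE hk2 (finSumFinEquiv i)
    have hem : Function.Injective em := (Fin.castLE_injective hk2).comp finSumFinEquiv.injective
    exact E2_O hnd (fun i => Pi.single (Sum.inl (em i)) 1) (fun i => plus_inl _) (fun i j => plus_inl_inl _ _)
      (single_li _ (Sum.inl_injective.comp hem))
  · intro t htG ht _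
    have := rank_le hnd ht hfr
    omega

theorem minus_inl (a b : F) (i : Fin m) : qfMinus m F a b (Pi.single (Sum.inl (Sum.inl i)) 1) = 0 := by
  rw [qfMinus_apply]
  simp

theorem minus_inl_inl (a b : F) (i j : Fin m) : polarBilin (qfMinus m F a b) (Pi.single (Sum.inl (Sum.inl i)) 1) (Pi.single (Sum.inl (Sum.inl j)) 1) = 0 := by
  rw [pbil, polar_qfMinus]
  simp

theorem count_minus [Fintype F] [CharP F 2] (a b : F) (hab : ∀ z₁ z₂ : F, z₁ ^ 2 + a * z₁ * z₂ + b * z₂ ^ 2 = 0 → z₁ = 0 ∧ z₂ = 0) :
    Nat.card {C : ConjClasses ↥(Cfsg.isometryGroup F (Cfsg.quadFormMinus m F a b)) // ∃ g : ↥(Cfsg.isometryGroup F (Cfsg.quadFormMinus m F a b)), ConjClasses.mk g = C ∧ orderOf g = 2} = (m + 1) + m / 2 := by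
  classical
  refine (card_classes_congr (bridge (qfMinus m F a b))).trans ?_
  have hfr : Module.finrank F ((Fin m ⊕ Fin m) ⊕ Fin 2 → F) = 2 * (m + 1) := by
    rw [Module.finrank_fintype_fun_eq_card, Fintype.card_sum, Fintype.card_sum, Fintype.card_fin, Fintype.card_fin]; ring
  have hd := disc_ne_zero_of_aniso hab
  have hnd := nd_of_nondegenerate (qfMinus_nondegenerate m F hd)
  refine count_involutions (f := polarBilin (qfMinus m F a b)) (G := OGrp (qfMinus m F a b)) hsq_of (pB_alt _) hnd (fun g hg => O_isom g hg)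
    (O_witt (qfMinus_nondegenerate m F hd)) hfr ?_ ?_ ?_
  · intro s hs1 hs
    obtain ⟨s, rfl⟩ : ∃ s', s = s' + 1 := ⟨s - 1, by omega⟩
    let c : Fin s → Fin m := Fin.castLE (by omega)
    refine E1_O hnd (fun i : Fin s => Pi.single (Sum.inl (Sum.inl (c i))) 1) (Pi.single (Sum.inr 0) 1) ?_ ?_ ?_ ?_ ?_
    · intro i; exact minus_inl _ _ _
    · intro i j; exact minus_inl_inl _ _ _ _
    · intro i
      rw [pbil, polar_qfMinus]
      simp
    · rw [qfMinus_apply]
      simp
    · intro x d h
      have hd : d = 0 := by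
        have := congrFun h (Sum.inr 0)
        simpa using this
      refine ⟨fun i => ?_, hd⟩
      have := congrFun h (Sum.inl (Sum.inl (c i)))
      rw [hd] at this
      simp only [zero_smul, add_zero, Finset.sum_apply, Pi.smul_apply, smul_eq_mul, Pi.zero_apply] at this
      rw [Finset.sum_eq_single i] at this
      · simpa using this
      · intro j _ hj
        have : c i ≠ c j := fun h => hj ((Fin.castLE_injective _ h).symm)
        simp [Pi.single_apply, this]
      · intro h; exact absurd (Finset.mem_univ _) h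
  · intro k hk1 hk
    have hk2 : k + k ≤ m := by omega
    let em : Fin k ⊕ Fin k → Fin m := fun i => Fin.castLE hk2 (finSumFinEquiv i)
    have hem : Function.Injective em := (Fin.castLE_injective hk2).comp finSumFinEquiv.injective
    exact E2_O hnd (fun i => Pi.single (Sum.inl (Sum.inl (em i))) 1) (fun i => minus_inl _ _ _) (fun i j => minus_inl_inl _ _ _ _)
      (single_li _ (Sum.inl_injective.comp (Sum.inl_injective.comp hem)))
  · intro t htG ht hal
    have hts : TS (qfMinus m F a b) (LinearMap.range (nn t)) := by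
      rintro _ ⟨x, rfl⟩
      rw [Q_nn htG, hal]
    have := hts.finrank_le_minus hd hab
    omega

end plus

end Cfsg.Agent.H43
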