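import Mathlib
import Cfsg.Agent.H43.InvolO
import Cfsg.Agent.Orth.Homs
import Cfsg.Agent.Orth.MaxSing
import Cfsg.Agent.ClassO.Main

set_option autoImplicit false
set_option linter.unusedSectionVars false
set_option linter.unusedVariables false

/-! Classes of involutions in `Omega` in characteristic two. -/

namespace Cfsg.Agent.H43

open Cfsg.Agent.Orth QuadraticMap

section abs
variable {F V : Type*} [Field F] [AddCommGroup V] [Module F V] [FiniteDimensional F V] [CharP F 2]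
variable {f : LinearMap.BilinForm F V} {G : Subgroup (V ≃ₗ[F] V)} {Om : Subgroup G}

theorem count_involutions_index_two (hsq : ∀ a : F, ∃ b, b * b = a) (hA : f.IsAlt) (hnd : ∀ x, (∀ y, f x y = 0) → x = 0)
    (hG : ∀ g ∈ G, ∀ x y, f (g x) (g y) = f x y) (hW : WittProp f G) {m m' : ℕ} (hm1 : 1 ≤ m) (hm : Module.finrank F V = 2 * m)
    (E1 : ∀ s, 1 ≤ s → s ≤ m → ∃ t ∈ G, (∀ v, t (t v) = v) ∧ Module.finrank F (LinearMap.range (nn t)) = s ∧ ∃ v, f v (nn t v) ≠ 0)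
    (E2 : ∀ k, 1 ≤ k → k ≤ m' → ∃ t ∈ G, (∀ v, t (t v) = v) ∧ Module.finrank F (LinearMap.range (nn t)) = 2 * k ∧ ∀ v, f v (nn t v) = 0)
    (B2 : ∀ t ∈ G, (∀ v, t (t v) = v) → (∀ v, f v (nn t v) = 0) → Module.finrank F (LinearMap.range (nn t)) ≤ 2 * m' + 1)
    (O1 : ∀ g : G, g ∈ Om ↔ Even (Module.finrank F (LinearMap.range (nn (g : V ≃ₗ[F] V)))))
    (O2 : ∀ g h : G, g ∉ Om → h ∉ Om → g * h ∈ Om) (O3 : ∃ r : G, r ∉ Om)
    (O4 : ∀ t : G, (∀ v, (t : V ≃ₗ[F] V) ((t : V ≃ₗ[F] V) v) = v) → ((∃ v, f v (nn (t : V ≃ₗ[F] V) v) ≠ 0) ∨ Module.finrank F (LinearMap.range (nn (t : V ≃ₗ[F] V))) < m) →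
      ∃ r : G, r ∉ Om ∧ r * t = t * r)
    (O5 : ∀ t : G, (∀ v, (t : V ≃ₗ[F] V) ((t : V ≃ₗ[F] V) v) = v) → (∀ v, f v (nn (t : V ≃ₗ[F] V) v) = 0) → Module.finrank F (LinearMap.range (nn (t : V ≃ₗ[F] V))) = m →
      ∀ r : G, r * t = t * r → r ∈ Om) :
    Nat.card {C : ConjClasses Om // ∃ g : Om, ConjClasses.mk g = C ∧ orderOf g = 2} = m / 2 + m' + (if Even m ∧ m / 2 ≤ m' then 1 else 0) := by
  classical
  choose D1 D1G D1i D1s D1n using fun i : Fin (m / 2) => E1 (2 * (i + 1)) (by omega) (by have := i.2; omega)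
  choose D2 D2G D2i D2s D2a using fun i : Fin m' => E2 (i + 1) (by omega) (by have := i.2; omega)
  obtain ⟨ρ, hρ⟩ := O3
  have hm2 : Even m → 1 ≤ m / 2 := by
    rintro ⟨a, ha⟩
    omega
  -- the extra class
  have hord : ∀ g : Om, orderOf g = 2 ↔ (∀ v, ((g : G) : V ≃ₗ[F] V) (((g : G) : V ≃ₗ[F] V) v) = v) ∧ Module.finrank F (LinearMap.range (nn ((g : G) : V ≃ₗ[F] V))) ≠ 0 := by
    intro g
    rw [← order_two_iff, Subgroup.orderOf_coe]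
  have hmul : ∀ g h : G, g * h ∈ Om ↔ (g ∈ Om ↔ h ∈ Om) := by
    intro g h
    by_cases hg : g ∈ Om <;> by_cases hh : h ∈ Om
    · simp [hg, hh, Om.mul_mem hg hh]
    · simp [hg, hh, Subgroup.mul_mem_cancel_left]
    · simp [hg, hh, Subgroup.mul_mem_cancel_right]
    · simp [hg, hh, O2 g h hg hh]
  have hnorm : ∀ g h : G, h ∈ Om → g * h * g⁻¹ ∈ Om := by
    intro g h hh
    rw [hmul, hmul]
    have : g⁻¹ ∈ Om ↔ g ∈ Om := Subgroup.inv_mem_iff Om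
    tauto
  have hsame : ∀ (t t' : G), (∀ v, (t : V ≃ₗ[F] V) ((t : V ≃ₗ[F] V) v) = v) → (∀ v, (t' : V ≃ₗ[F] V) ((t' : V ≃ₗ[F] V) v) = v) →
      Module.finrank F (LinearMap.range (nn (t : V ≃ₗ[F] V))) = Module.finrank F (LinearMap.range (nn (t' : V ≃ₗ[F] V))) →
      ((∀ v, f v (nn (t : V ≃ₗ[F] V) v) = 0) ↔ (∀ v, f v (nn (t' : V ≃ₗ[F] V) v) = 0)) → ∃ g : G, g * t = t' * g := by
    intro t t' ht ht' h1 h2
    obtain ⟨g, hg, h3⟩ := conj_of_inv hsq hA hnd hG hW t.2 t'.2 ht ht' h1 h2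
    exact ⟨⟨g, hg⟩, Subtype.ext h3⟩
  have hD2le : ∀ i : Fin m', i.1 < m / 2 := by
    intro i
    have h1 := rank_le hnd (D2i i) hm
    rw [D2s] at h1
    omega
  let X : {u : Unit // Even m ∧ m / 2 ≤ m'} → G := fun u =>
    ρ * ⟨D2 ⟨m / 2 - 1, by have h1 := hm2 u.2.1; have h2 := u.2.2; omega⟩, D2G _⟩ * ρ⁻¹
  let R : (Fin (m / 2) ⊕ Fin m') ⊕ {u : Unit // Even m ∧ m / 2 ≤ m'} → G :=
    Sum.elim (Sum.elim (fun i => ⟨D1 i, D1G i⟩) (fun i => ⟨D2 i, D2G i⟩)) X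
  have hXr : ∀ u, Module.finrank F (LinearMap.range (nn (X u : V ≃ₗ[F] V))) = m := by
    intro u
    have h1 : (ρ : V ≃ₗ[F] V) * D2 ⟨m / 2 - 1, by have h1 := hm2 u.2.1; have h2 := u.2.2; omega⟩ = (X u : V ≃ₗ[F] V) * (ρ : V ≃ₗ[F] V) := by
      have : ρ * ⟨D2 ⟨m / 2 - 1, by have h1 := hm2 u.2.1; have h2 := u.2.2; omega⟩, D2G _⟩ = X u * ρ := by
        change _ = ρ * ⟨D2 ⟨m / 2 - 1, _⟩, D2G _⟩ * ρ⁻¹ * ρ
        rw [inv_mul_cancel_right]
      exact congrArg Subtype.val this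
    have h2 := finrank_nn_conj h1
    rw [← h2, D2s]
    obtain ⟨a, ha⟩ := u.2.1
    change 2 * (m / 2 - 1 + 1) = m
    omega
  have hXa : ∀ u v, f v (nn (X u : V ≃ₗ[F] V) v) = 0 := by
    intro u v
    have h1 : (ρ : V ≃ₗ[F] V) * D2 ⟨m / 2 - 1, by have h1 := hm2 u.2.1; have h2 := u.2.2; omega⟩ = (X u : V ≃ₗ[F] V) * (ρ : V ≃ₗ[F] V) := by
      have : ρ * ⟨D2 ⟨m / 2 - 1, by have h1 := hm2 u.2.1; have h2 := u.2.2; omega⟩, D2G _⟩ = X u * ρ := by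
        change _ = ρ * ⟨D2 ⟨m / 2 - 1, _⟩, D2G _⟩ * ρ⁻¹ * ρ
        rw [inv_mul_cancel_right]
      exact congrArg Subtype.val this
    exact alt_conj (hG ρ ρ.2) h1 (D2a _) v
  have hXi : ∀ u v, (X u : V ≃ₗ[F] V) ((X u : V ≃ₗ[F] V) v) = v := by
    intro u
    have hsq' : (⟨D2 ⟨m / 2 - 1, by have h1 := hm2 u.2.1; have h2 := u.2.2; omega⟩, D2G _⟩ : G) * ⟨D2 ⟨m / 2 - 1, by have h1 := hm2 u.2.1; have h2 := u.2.2; omega⟩, D2G _⟩ = 1 :=
      Subtype.ext (LinearEquiv.ext (D2i _))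
    have h1 : X u * X u = 1 := by
      change ρ * ⟨D2 ⟨m / 2 - 1, _⟩, D2G _⟩ * ρ⁻¹ * (ρ * ⟨D2 ⟨m / 2 - 1, _⟩, D2G _⟩ * ρ⁻¹) = 1
      rw [mul_assoc, mul_assoc, mul_assoc, inv_mul_cancel_left, ← mul_assoc (⟨D2 ⟨m / 2 - 1, _⟩, D2G _⟩ : G), hsq', one_mul, mul_inv_cancel]
    intro v
    exact congrArg (fun z : G => (z : V ≃ₗ[F] V) v) h1
  have hRr : ∀ r, Module.finrank F (LinearMap.range (nn (R r : V ≃ₗ[F] V))) = Sum.elim (Sum.elim (fun i : Fin (m / 2) => 2 * ((i : ℕ) + 1)) (fun i : Fin m' => 2 * ((i : ℕ) + 1))) (fun _ => m) r := by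
    rintro ((i | i) | u)
    · exact D1s i
    · exact D2s i
    · exact hXr u
  have hRi : ∀ r v, (R r : V ≃ₗ[F] V) ((R r : V ≃ₗ[F] V) v) = v := by
    rintro ((i | i) | u)
    · exact D1i i
    · exact D2i i
    · exact hXi u
  have hRO : ∀ r, R r ∈ Om := by
    intro r
    rw [O1, hRr]
    rcases r with (i | i) | u
    · exact even_two_mul _
    · exact even_two_mul _
    · exact u.2.1
  have hRne : ∀ r, Module.finrank F (LinearMap.range (nn (R r : V ≃ₗ[F] V))) ≠ 0 := by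
    intro r
    rw [hRr]
    rcases r with (i | i) | u
    · change 2 * ((i : ℕ) + 1) ≠ 0; omega
    · change 2 * ((i : ℕ) + 1) ≠ 0; omega
    · change m ≠ 0; omega
  let Φ : (Fin (m / 2) ⊕ Fin m') ⊕ {u : Unit // Even m ∧ m / 2 ≤ m'} → {C : ConjClasses Om // ∃ g : Om, ConjClasses.mk g = C ∧ orderOf g = 2} :=
    fun r => ⟨ConjClasses.mk ⟨R r, hRO r⟩, ⟨R r, hRO r⟩, rfl, (hord _).2 ⟨hRi r, hRne r⟩⟩
  have key : ∀ r r', Φ r = Φ r' → ∃ g : G, g ∈ Om ∧ g * R r = R r' * g := by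
    intro r r' h
    have h1 : IsConj (⟨R r, hRO r⟩ : Om) ⟨R r', hRO r'⟩ := ConjClasses.mk_eq_mk_iff_isConj.1 (congrArg Subtype.val h)
    rw [isConj_iff] at h1
    obtain ⟨c, hc⟩ := h1
    rw [mul_inv_eq_iff_eq_mul] at hc
    exact ⟨c, c.2, congrArg Subtype.val hc⟩
  have keyr : ∀ r r', Φ r = Φ r' → Module.finrank F (LinearMap.range (nn (R r : V ≃ₗ[F] V))) = Module.finrank F (LinearMap.range (nn (R r' : V ≃ₗ[F] V))) := by
    intro r r' h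
    obtain ⟨g, hg, h1⟩ := key r r' h
    exact finrank_nn_conj (congrArg Subtype.val h1)
  have keya : ∀ r r', Φ r = Φ r' → (∀ v, f v (nn (R r : V ≃ₗ[F] V) v) = 0) → ∀ v, f v (nn (R r' : V ≃ₗ[F] V) v) = 0 := by
    intro r r' h ha
    obtain ⟨g, hg, h1⟩ := key r r' h
    exact alt_conj (hG g g.2) (congrArg Subtype.val h1) ha
  have hcross : ∀ (i : Fin m') (u : {u : Unit // Even m ∧ m / 2 ≤ m'}), Φ (Sum.inl (Sum.inr i)) ≠ Φ (Sum.inr u) := by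
    intro i u h
    have h1 := keyr _ _ h
    rw [hRr, hRr] at h1
    change 2 * ((i : ℕ) + 1) = m at h1
    obtain ⟨g, hg, h2⟩ := key _ _ h
    have hi : i = ⟨m / 2 - 1, by have h1 := hm2 u.2.1; have h2 := u.2.2; omega⟩ := Fin.ext (by
      change (i : ℕ) = m / 2 - 1
      omega)
    have h3 : g * ⟨D2 i, D2G i⟩ = ρ * ⟨D2 i, D2G i⟩ * ρ⁻¹ * g := by
      have h4 : g * ⟨D2 i, D2G i⟩ = (ρ * ⟨D2 ⟨m / 2 - 1, by have h1 := hm2 u.2.1; have h2 := u.2.2; omega⟩, D2G _⟩ * ρ⁻¹) * g := h2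
      have e1 : (⟨D2 ⟨m / 2 - 1, by have h1 := hm2 u.2.1; have h2 := u.2.2; omega⟩, D2G _⟩ : G) = ⟨D2 i, D2G i⟩ := Subtype.ext (congrArg D2 hi.symm)
      rw [e1] at h4
      exact h4
    have h4 : (ρ⁻¹ * g) * ⟨D2 i, D2G i⟩ = ⟨D2 i, D2G i⟩ * (ρ⁻¹ * g) := by
      rw [mul_assoc, h3]
      group
    have h5 := O5 ⟨D2 i, D2G i⟩ (D2i i) (D2a i) (by rw [← h1]; exact D2s i) (ρ⁻¹ * g) h4
    rw [hmul, Subgroup.inv_mem_iff] at h5
    exact hρ (h5.2 hg)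
  have hinj : Function.Injective Φ := by
    rintro ((i | i) | u) ((j | j) | w) h
    · have h1 := keyr _ _ h
      rw [hRr, hRr] at h1
      change 2 * ((i : ℕ) + 1) = 2 * ((j : ℕ) + 1) at h1
      have : i = j := Fin.ext (by omega)
      rw [this]
    · obtain ⟨v, hv⟩ := D1n i
      exact absurd (keya _ _ h.symm (D2a j) v) hv
    · obtain ⟨v, hv⟩ := D1n i
      exact absurd (keya _ _ h.symm (hXa w) v) hv
    · obtain ⟨v, hv⟩ := D1n j
      exact absurd (keya _ _ h (D2a i) v) hv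
    · have h1 := keyr _ _ h
      rw [hRr, hRr] at h1
      change 2 * ((i : ℕ) + 1) = 2 * ((j : ℕ) + 1) at h1
      have : i = j := Fin.ext (by omega)
      rw [this]
    · exact absurd h (hcross i w)
    · obtain ⟨v, hv⟩ := D1n j
      exact absurd (keya _ _ h (hXa u) v) hv
    · exact absurd h.symm (hcross j u)
    · have : u = w := Subsingleton.elim _ _
      rw [this]
  have hsurj : Function.Surjective Φ := by
    rintro ⟨C, g, rfl, hg⟩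
    have hg' := hg
    rw [hord] at hg'
    obtain ⟨h1, h2⟩ := hg'
    have hge := (O1 (g : G)).1 g.2
    obtain ⟨a, ha⟩ := hge
    have hfin : ∀ r, (∃ c : G, c ∈ Om ∧ c * R r = g * c) → Φ r = ⟨ConjClasses.mk g, g, rfl, hg⟩ := by
      rintro r ⟨c, hc, h3⟩
      apply Subtype.ext
      apply ConjClasses.mk_eq_mk_iff_isConj.2
      rw [isConj_iff]
      refine ⟨⟨c, hc⟩, ?_⟩
      rw [mul_inv_eq_iff_eq_mul]
      exact Subtype.ext h3
    have hns : ∀ r, (∃ c : G, c * R r = g * c) → ((∃ v, f v (nn ((g : G) : V ≃ₗ[F] V) v) ≠ 0) ∨ Module.finrank F (LinearMap.range (nn ((g : G) : V ≃ₗ[F] V))) < m) →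
        Φ r = ⟨ConjClasses.mk g, g, rfl, hg⟩ := by
      rintro r ⟨c, hc⟩ h3
      by_cases hcO : c ∈ Om
      · exact hfin r ⟨c, hcO, hc⟩
      · obtain ⟨r0, hr0, h4⟩ := O4 g h1 h3
        refine hfin r ⟨r0 * c, O2 _ _ hr0 hcO, ?_⟩
        rw [mul_assoc, hc, ← mul_assoc, h4, mul_assoc]
    by_cases hal : ∀ v, f v (nn ((g : G) : V ≃ₗ[F] V) v) = 0
    · have h3 := B2 _ (g : G).2 h1 hal
      have h4 : Module.finrank F (LinearMap.range (nn (D2 ⟨a - 1, by omega⟩))) = Module.finrank F (LinearMap.range (nn ((g : G) : V ≃ₗ[F] V))) := by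
        rw [D2s, ha]
        change 2 * (a - 1 + 1) = a + a
        omega
      obtain ⟨c, hc⟩ := hsame ⟨D2 ⟨a - 1, by omega⟩, D2G _⟩ g (D2i _) h1 h4 ⟨fun _ => hal, fun _ => D2a _⟩
      by_cases hlt : Module.finrank F (LinearMap.range (nn ((g : G) : V ≃ₗ[F] V))) < m
      · exact ⟨Sum.inl (Sum.inr ⟨a - 1, by omega⟩), hns _ ⟨c, hc⟩ (Or.inr hlt)⟩
      · have h5 := rank_le hnd h1 hm
        by_cases hcO : c ∈ Om
        · exact ⟨Sum.inl (Sum.inr ⟨a - 1, by omega⟩), hfin _ ⟨c, hcO, hc⟩⟩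
        · have hmE : Even m := ⟨a, by omega⟩
          have hmm : m / 2 ≤ m' := by omega
          refine ⟨Sum.inr ⟨(), hmE, hmm⟩, hfin _ ⟨c * ρ⁻¹, O2 _ _ hcO (by rw [Subgroup.inv_mem_iff]; exact hρ), ?_⟩⟩
          have e1 : (⟨D2 ⟨m / 2 - 1, by have h1 := hm2 hmE; omega⟩, D2G _⟩ : G) = ⟨D2 ⟨a - 1, by omega⟩, D2G _⟩ := by
            apply Subtype.ext
            have : (⟨m / 2 - 1, by have h1 := hm2 hmE; omega⟩ : Fin m') = ⟨a - 1, by omega⟩ := Fin.ext (by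
              change m / 2 - 1 = a - 1
              omega)
            exact congrArg D2 this
          change c * ρ⁻¹ * (ρ * ⟨D2 ⟨m / 2 - 1, _⟩, D2G _⟩ * ρ⁻¹) = g * (c * ρ⁻¹)
          rw [e1, ← mul_assoc, ← mul_assoc, inv_mul_cancel_right, hc, mul_assoc]
    · have h3 := rank_le hnd h1 hm
      have h4 : Module.finrank F (LinearMap.range (nn (D1 ⟨a - 1, by omega⟩))) = Module.finrank F (LinearMap.range (nn ((g : G) : V ≃ₗ[F] V))) := by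
        rw [D1s, ha]
        change 2 * (a - 1 + 1) = a + a
        omega
      obtain ⟨c, hc⟩ := hsame ⟨D1 ⟨a - 1, by omega⟩, D1G _⟩ g (D1i _) h1 h4 (by
        refine ⟨fun h => ?_, fun h => absurd h hal⟩
        obtain ⟨v, hv⟩ := D1n ⟨a - 1, by omega⟩
        exact absurd (h v) hv)
      push Not at hal
      exact ⟨Sum.inl (Sum.inl ⟨a - 1, by omega⟩), hns _ ⟨c, hc⟩ (Or.inl hal)⟩
  rw [← Nat.card_eq_of_bijective Φ ⟨hinj, hsurj⟩, Nat.card_sum, Nat.card_sum, Nat.card_eq_fintype_card, Nat.card_eq_fintype_card, Fintype.card_fin, Fintype.card_fin]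
  congr 1
  split_ifs with h
  · have : Unique {u : Unit // Even m ∧ m / 2 ≤ m'} := ⟨⟨⟨(), h⟩⟩, fun _ => Subsingleton.elim _ _⟩
    exact Nat.card_unique
  · have : IsEmpty {u : Unit // Even m ∧ m / 2 ≤ m'} := ⟨fun u => h u.2⟩
    exact Nat.card_of_isEmpty

end abs

end Cfsg.Agent.H43
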