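import Mathlib
import Cfsg.Agent.H43.InvolOmega

set_option autoImplicit false
set_option linter.unusedSectionVars false
set_option linter.unusedVariables false

/-! Classes of involutions in `Omega` in characteristic two: the orthogonal side. -/

namespace Cfsg.Agent.H43

open Cfsg.Agent.Orth QuadraticMap

section orth
variable {F V : Type*} [Field F] [AddCommGroup V] [Module F V] [FiniteDimensional F V] [CharP F 2] {Q : QuadraticForm F V}

theorem dmap_eq_nn (g : OGrp Q) : dmap g = nn (g : V ≃ₗ[F] V) := by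
  apply LinearMap.ext
  intro x
  rw [dmap_apply, nn_apply, add_comm]
  have : (g : V ≃ₗ[F] V) x + (g : V ≃ₗ[F] V) x = 0 := add_self_zero F _
  rw [sub_eq_add_neg, ← eq_neg_of_add_eq_zero_left this]

theorem parity_iff [Finite F] (hQ : (polarBilin Q).Nondegenerate) (l : List {v : V // Q v ≠ 0}) :
    Even (Module.finrank F (LinearMap.range (nn ((reflProd Q l : OGrp Q) : V ≃ₗ[F] V)))) ↔ Even l.length := by
  obtain ⟨k, u, hu⟩ := exists_wall (reflProd Q l)
  rw [← dmap_eq_nn, ← hu.card]
  exact (wall_reflProd hQ l hu).1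

theorem sq_all [Fintype F] (a : F) : IsSquare a := FiniteField.isSquare_of_char_two (by rw [ringChar.eq_iff]; infer_instance) a

theorem mem_comm_iff [Fintype F] (hQ : (polarBilin Q).Nondegenerate) (hR : RGrp Q = ⊤) (g : OGrp Q) :
    g ∈ commutator (OGrp Q) ↔ Even (Module.finrank F (LinearMap.range (nn (g : V ≃ₗ[F] V)))) := by
  obtain ⟨l, rfl⟩ := exists_reflProd hR g
  rw [parity_iff hQ, reflProd_mem_commutator_iff hQ hR]
  exact and_iff_left (sq_all _)

theorem list_mem_iff [Fintype F] (hQ : (polarBilin Q).Nondegenerate) (hR : RGrp Q = ⊤) (l : List {v : V // Q v ≠ 0}) :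
    reflProd Q l ∈ commutator (OGrp Q) ↔ Even l.length := by
  rw [reflProd_mem_commutator_iff hQ hR]
  exact and_iff_left (sq_all _)

theorem not_mem_mul [Fintype F] (hQ : (polarBilin Q).Nondegenerate) (hR : RGrp Q = ⊤) (g h : OGrp Q) (hg : g ∉ commutator (OGrp Q))
    (hh : h ∉ commutator (OGrp Q)) : g * h ∈ commutator (OGrp Q) := by
  obtain ⟨l, rfl⟩ := exists_reflProd hR g
  obtain ⟨l', rfl⟩ := exists_reflProd hR h
  rw [← reflProd_append, list_mem_iff hQ hR, List.length_append]
  rw [list_mem_iff hQ hR, Nat.not_even_iff_odd] at hg hh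
  exact hg.add_odd hh

theorem refl_not_mem [Fintype F] (hQ : (polarBilin Q).Nondegenerate) (hR : RGrp Q = ⊤) {v : V} (hv : Q v ≠ 0) :
    refl Q v hv ∉ commutator (OGrp Q) := by
  have h1 : refl Q v hv = reflProd Q [⟨v, hv⟩] := by simp [reflProd]
  rw [h1, list_mem_iff hQ hR]
  simp

theorem refl_comm {t : OGrp Q} {u : V} (hu : Q u ≠ 0) (htu : (t : V ≃ₗ[F] V) u = u) : refl Q u hu * t = t * refl Q u hu := by
  have h1 := refl_conj t u hu
  have h2 : t * refl Q u hu * t⁻¹ = refl Q u hu := by
    rw [h1]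
    congr 1
  rw [mul_inv_eq_iff_eq_mul] at h2
  exact h2.symm

theorem fixed_of_nn {t : V ≃ₗ[F] V} {u : V} (h : nn t u = 0) : t u = u := by
  rw [apply_eq t u, h, add_zero]

theorem exists_fixed {m : ℕ} (hQ : (polarBilin Q).Nondegenerate) (hm : Module.finrank F V = 2 * m) (t : OGrp Q)
    (ht : ∀ v, (t : V ≃ₗ[F] V) ((t : V ≃ₗ[F] V) v) = v)
    (h : (∃ v, polarBilin Q v (nn (t : V ≃ₗ[F] V) v) ≠ 0) ∨ Module.finrank F (LinearMap.range (nn (t : V ≃ₗ[F] V))) < m) :
    ∃ u, Q u ≠ 0 ∧ (t : V ≃ₗ[F] V) u = u := by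
  rcases h with ⟨v, hv⟩ | h
  · refine ⟨nn (t : V ≃ₗ[F] V) v, ?_, fixed_of_nn (nn_nn _ ht v)⟩
    rw [Q_nn t.2]
    exact hv
  · by_contra hcon
    push Not at hcon
    have hTS : TS Q (LinearMap.ker (nn (t : V ≃ₗ[F] V))) := by
      intro u hu
      by_contra hne
      exact hcon u hne (fixed_of_nn (LinearMap.mem_ker.1 hu))
    have h1 := LinearMap.finrank_range_add_finrank_ker (nn (t : V ≃ₗ[F] V))
    have h2 := finrank_perp hQ (LinearMap.ker (nn (t : V ≃ₗ[F] V)))
    have h3 := Submodule.finrank_mono hTS.le_perp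
    omega

theorem comm_mem [Fintype F] {m : ℕ} (hQ : (polarBilin Q).Nondegenerate) (hR : RGrp Q = ⊤) (hm : Module.finrank F V = 2 * m) (t : OGrp Q)
    (ht : ∀ v, (t : V ≃ₗ[F] V) ((t : V ≃ₗ[F] V) v) = v) (ha : ∀ v, polarBilin Q v (nn (t : V ≃ₗ[F] V) v) = 0)
    (hr : Module.finrank F (LinearMap.range (nn (t : V ≃ₗ[F] V))) = m) (r : OGrp Q) (hrt : r * t = t * r) : r ∈ commutator (OGrp Q) := by
  have hTS : TS Q (LinearMap.range (nn (t : V ≃ₗ[F] V))) := by
    rintro _ ⟨x, rfl⟩
    rw [Q_nn t.2, ha]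
  obtain ⟨l, rfl⟩ := exists_reflProd hR r
  rw [list_mem_iff hQ hR, ← parity_TS hQ hm hTS hr l]
  have h1 : (LinearMap.range (nn (t : V ≃ₗ[F] V))).map ((reflProd Q l : V ≃ₗ[F] V) : V →ₗ[F] V) = LinearMap.range (nn (t : V ≃ₗ[F] V)) := by
    apply Submodule.eq_of_le_of_finrank_le
    · rintro _ ⟨_, ⟨x, rfl⟩, rfl⟩
      exact ⟨(reflProd Q l : V ≃ₗ[F] V) x, (nn_conj (congrArg Subtype.val hrt) x).symm⟩
    · exact (LinearEquiv.finrank_map_eq (reflProd Q l : V ≃ₗ[F] V) _).ge
  rw [h1, inf_idem, hr, Nat.sub_self]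
  exact Even.zero

theorem RGrp_top_of_index_one (hQ : (polarBilin Q).Nondegenerate) (h : ∀ U : Submodule F V, TS Q U → Module.finrank F U ≤ 1) : RGrp Q = ⊤ := by
  rw [eq_top_iff, ← GGrp_eq_top hQ]
  refine (Subgroup.closure_le _).2 ?_
  rintro g (⟨v, hv, rfl⟩ | ⟨a, b, ha, hab, rfl⟩)
  · exact refl_mem_RGrp hv
  · by_cases hb : Q b = 0
    · have h1 : eich Q a b ha hab = 1 := by
        refine OGrp_ext fun x => ?_
        rw [eich_apply, coe_one_apply, hb, zero_mul, zero_smul, sub_zero]
        by_cases ha0 : a = 0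
        · rw [ha0, smul_zero, polar_zero_right, zero_smul, add_zero, sub_zero]
        obtain ⟨c, rfl⟩ : ∃ c : F, c • a = b := by
          have hTS : TS Q (Submodule.span F {a, b}) := by
            intro u hu
            obtain ⟨c, d, rfl⟩ := Submodule.mem_span_pair.1 hu
            rw [qadd, qsmul, qsmul, ha, hb, psl, psr, hab]
            ring
          have h2 := h _ hTS
          by_contra hcon
          push Not at hcon
          have h3 : LinearIndependent F ![a, b] := by
            rw [LinearIndependent.pair_iff' ha0]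
            exact hcon
          have h4 := finrank_span_eq_card h3
          rw [Fintype.card_fin] at h4
          have h5 : Set.range ![a, b] = {a, b} := by
            simp [Matrix.range_cons, Set.pair_comm]
          rw [h5] at h4
          omega
        rw [psr]
        rw [smul_smul, mul_comm (polar (⇑Q) x a) c, add_sub_cancel_right]
      rw [h1]
      exact (RGrp Q).one_mem
    · exact eich_mem_RGrp_of_ne ha hab hb

end orth

section comm
variable {F : Type*} [Field F] [Fintype F] [CharP F 2] {ι : Type} [Fintype ι] [DecidableEq ι]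

theorem exists_omega_equiv (Q : QuadraticForm F (ι → F)) : Nonempty (↥(Cfsg.Omega F ⇑Q) ≃* ↥(commutator (OGrp Q))) := by
  have h1 : (Cfsg.Omega F ⇑Q).map (bridge Q).toMonoidHom = commutator (OGrp Q) := by
    change Subgroup.map _ (commutator _) = _
    rw [commutator_def, Subgroup.map_commutator, ← MonoidHom.range_eq_map, MonoidHom.range_eq_top.2 (bridge Q).surjective]
    rfl
  exact ⟨((bridge Q).subgroupMap (Cfsg.Omega F ⇑Q)).trans (MulEquiv.subgroupCongr h1)⟩

end comm

section final
variable {F : Type*} [Field F] [Fintype F] [CharP F 2] {m : ℕ}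

theorem count_omega_plus (hm : 1 ≤ m) (h : Fintype.card F ≠ 2 ∨ m ≠ 2) :
    Nat.card {C : ConjClasses ↥(Cfsg.Omega F (Cfsg.quadFormPlus m F)) // ∃ g : ↥(Cfsg.Omega F (Cfsg.quadFormPlus m F)), ConjClasses.mk g = C ∧ orderOf g = 2} = 2 * (m / 2) + (if Even m then 1 else 0) := by
  classical
  have hQ := qfPlus_nondegenerate m F
  have hfr : Module.finrank F (Fin m ⊕ Fin m → F) = 2 * m := by
    rw [Module.finrank_fintype_fun_eq_card, Fintype.card_sum, Fintype.card_fin]; ring
  have hR : RGrp (qfPlus m F) = ⊤ := by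
    apply RGrp_top_of_card hQ
    rw [hfr]
    rcases h with h | h
    · exact Or.inl h
    · right; omega
  obtain ⟨e⟩ := exists_omega_equiv (qfPlus m F)
  refine (card_classes_congr e).trans ?_
  have hnd := nd_of_nondegenerate hQ
  have hmain := count_involutions_index_two (f := polarBilin (qfPlus m F)) (G := OGrp (qfPlus m F)) (Om := commutator (OGrp (qfPlus m F))) (m := m) (m' := m / 2)
    hsq_of (pB_alt _) hnd (fun g hg => O_isom g hg) (O_witt hQ) hm hfr ?_ ?_ ?_ (mem_comm_iff hQ hR) (not_mem_mul hQ hR) ?_ ?_ ?_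
  · rw [hmain, two_mul]
    congr 1
    simp
  · intro s hs1 hs
    obtain ⟨s, rfl⟩ : ∃ s', s = s' + 1 := ⟨s - 1, by omega⟩
    let l : Fin m := ⟨s, by omega⟩
    let c : Fin s → Fin m := Fin.castLE (by omega)
    have hcl : ∀ i, c i ≠ l := by
      intro i h
      have : (i : ℕ) = s := congrArg Fin.val h
      have := i.2
      omega
    refine E1_O hnd (fun i : Fin s => Pi.single (Sum.inl (c i)) 1) (Pi.single (Sum.inl l) 1 + Pi.single (Sum.inr l) 1) ?_ ?_ ?_ ?_ ?_
    · intro i; exact plus_inl _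
    · intro i j; exact plus_inl_inl _ _
    · intro i
      rw [map_add, plus_inl_inl, pbil, polar_qfPlus]
      simp [Pi.single_apply, (hcl i).symm]
    · rw [qfPlus_apply]
      simp [Pi.single_apply]
    · intro a d h
      have hd : d = 0 := by
        have := congrFun h (Sum.inr l)
        simpa using this
      refine ⟨fun i => ?_, hd⟩
      have := congrFun h (Sum.inl (c i))
      rw [hd] at this
      simp only [zero_smul, add_zero, Finset.sum_apply, Pi.smul_apply, smul_eq_mul, Pi.zero_apply] at this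
      rw [Finset.sum_eq_single i] at this
      · simpa using this
      · intro j _ hj
        have : c i ≠ c j := fun h => hj ((Fin.castLE_injective _ h).symm)
        simp [this]
      · intro h; exact absurd (Finset.mem_univ _) h
  · intro k hk1 hk
    have hk2 : k + k ≤ m := by omega
    let em : Fin k ⊕ Fin k → Fin m := fun i => Fin.castLE hk2 (finSumFinEquiv i)
    have hem : Function.Injective em := (Fin.castLE_injective hk2).comp finSumFinEquiv.injective
    exact E2_O hnd (fun i => Pi.single (Sum.inl (em i)) 1) (fun i => plus_inl _) (fun i j => plus_inl_inl _ _)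
      (single_li _ (Sum.inl_injective.comp hem))
  · intro t htG ht _
    have := rank_le hnd ht hfr
    omega
  · have hnt : Nontrivial (Fin m ⊕ Fin m → F) := Module.nontrivial_of_finrank_pos (R := F) (by omega)
    obtain ⟨v, hv⟩ := exists_q_ne_zero hQ hnt
    exact ⟨_, refl_not_mem hQ hR hv⟩
  · intro t ht h1
    obtain ⟨u, hu, htu⟩ := exists_fixed hQ hfr t ht h1
    exact ⟨_, refl_not_mem hQ hR hu, refl_comm hu htu⟩
  · intro t ht ha hr r hrt
    exact comm_mem hQ hR hfr t ht ha hr r hrt

theorem count_omega_minus (a b : F) (hab : ∀ z₁ z₂ : F, z₁ ^ 2 + a * z₁ * z₂ + b * z₂ ^ 2 = 0 → z₁ = 0 ∧ z₂ = 0) :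
    Nat.card {C : ConjClasses ↥(Cfsg.Omega F (Cfsg.quadFormMinus m F a b)) // ∃ g : ↥(Cfsg.Omega F (Cfsg.quadFormMinus m F a b)), ConjClasses.mk g = C ∧ orderOf g = 2} = (m + 1) / 2 + m / 2 := by
  classical
  have hd := disc_ne_zero_of_aniso hab
  have hQ := qfMinus_nondegenerate m F hd
  have hfr : Module.finrank F ((Fin m ⊕ Fin m) ⊕ Fin 2 → F) = 2 * (m + 1) := by
    rw [Module.finrank_fintype_fun_eq_card, Fintype.card_sum, Fintype.card_sum, Fintype.card_fin, Fintype.card_fin]; ring
  have hR : RGrp (qfMinus m F a b) = ⊤ := by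
    by_cases hm : m = 1
    · subst hm
      exact RGrp_top_of_index_one hQ (fun U hU => hU.finrank_le_minus hd hab)
    · exact Cfsg.Agent.ClassO.RGrp_minus hm hab
  obtain ⟨e⟩ := exists_omega_equiv (qfMinus m F a b)
  refine (card_classes_congr e).trans ?_
  have hnd := nd_of_nondegenerate hQ
  have hmain := count_involutions_index_two (f := polarBilin (qfMinus m F a b)) (G := OGrp (qfMinus m F a b)) (Om := commutator (OGrp (qfMinus m F a b))) (m := m + 1) (m' := m / 2)
    hsq_of (pB_alt _) hnd (fun g hg => O_isom g hg) (O_witt hQ) (by omega) hfr ?_ ?_ ?_ (mem_comm_iff hQ hR) (not_mem_mul hQ hR) ?_ ?_ ?_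
  · rw [hmain, if_neg, add_zero]
    rintro ⟨⟨c, hc⟩, h2⟩
    omega
  · intro s hs1 hs
    obtain ⟨s, rfl⟩ : ∃ s', s = s' + 1 := ⟨s - 1, by omega⟩
    let c : Fin s → Fin m := Fin.castLE (by omega)
    refine E1_O hnd (fun i : Fin s => Pi.single (Sum.inl (Sum.inl (c i))) 1) (Pi.single (Sum.inr 0) 1) ?_ ?_ ?_ ?_ ?_
    · intro i; exact minus_inl _ _ _
    · intro i j; exact minus_inl_inl _ _ _ _
    · intro i
      rw [pbil, polar_qfMinus]
      simp
    · rw [qfMinus_apply]
      simp
    · intro x d h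
      have hd : d = 0 := by
        have := congrFun h (Sum.inr 0)
        simpa using this
      refine ⟨fun i => ?_, hd⟩
      have := congrFun h (Sum.inl (Sum.inl (c i)))
      rw [hd] at this
      simp only [zero_smul, add_zero, Finset.sum_apply, Pi.smul_apply, smul_eq_mul, Pi.zero_apply] at this
      rw [Finset.sum_eq_single i] at this
      · simpa using this
      · intro j _ hj
        have : c i ≠ c j := fun h => hj ((Fin.castLE_injective _ h).symm)
        simp [this]
      · intro h; exact absurd (Finset.mem_univ _) h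
  · intro k hk1 hk
    have hk2 : k + k ≤ m := by omega
    let em : Fin k ⊕ Fin k → Fin m := fun i => Fin.castLE hk2 (finSumFinEquiv i)
    have hem : Function.Injective em := (Fin.castLE_injective hk2).comp finSumFinEquiv.injective
    exact E2_O hnd (fun i => Pi.single (Sum.inl (Sum.inl (em i))) 1) (fun i => minus_inl _ _ _) (fun i j => minus_inl_inl _ _ _ _)
      (single_li _ (Sum.inl_injective.comp (Sum.inl_injective.comp hem)))
  · intro t htG ht hal
    have hts : TS (qfMinus m F a b) (LinearMap.range (nn t)) := by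
      rintro _ ⟨x, rfl⟩
      rw [Q_nn htG, hal]
    have := hts.finrank_le_minus hd hab
    omega
  · have hnt : Nontrivial ((Fin m ⊕ Fin m) ⊕ Fin 2 → F) := Module.nontrivial_of_finrank_pos (R := F) (by omega)
    obtain ⟨v, hv⟩ := exists_q_ne_zero hQ hnt
    exact ⟨_, refl_not_mem hQ hR hv⟩
  · intro t ht h1
    obtain ⟨u, hu, htu⟩ := exists_fixed hQ hfr t ht h1
    exact ⟨_, refl_not_mem hQ hR hu, refl_comm hu htu⟩
  · intro t ht ha hr r hrt
    exact comm_mem hQ hR hfr t ht ha hr r hrt

end final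

end Cfsg.Agent.H43
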