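import Cfsg.Agent.Star.AWDef

/-! # S4415, piece 1 (linear algebra over `F₃`) -/

set_option autoImplicit false

namespace Cfsg.Agent.H43.AWP1

open Cfsg.Agent.Star.AW

universe u v

section lin

variable {W : Type v} [AddCommGroup W] [Module (ZMod 3) W]

theorem three (w : W) : w + w + w = 0 := by
  have h : (3 : ZMod 3) • w = 0 := by
    rw [show (3 : ZMod 3) = 0 from rfl, zero_smul]
  rw [show (3 : ZMod 3) = 1 + 1 + 1 from rfl, add_smul, add_smul, one_smul] at h
  exact h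

theorem eq_zero_of_neg {w : W} (h : w = -w) : w = 0 := by
  have h2 : w + w = 0 := by
    nth_rewrite 2 [h]
    exact add_neg_cancel w
  have h3 := three w
  rwa [h2, zero_add] at h3

/-- the data on the level of endomorphisms -/
structure LQ (X Y B : W →ₗ[ZMod 3] W) : Prop where
  x2 : ∀ w, X (X w) = w
  y2 : ∀ w, Y (Y w) = w
  xy : ∀ w, X (Y w) = Y (X w)
  bx : ∀ w, B (X w) = Y (B w)
  bby : ∀ w, B (Y w) = X (Y (B w))
  b3 : ∀ w, B (B (B w)) = w
  x1 : ∃ w, X w ≠ w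
  rk : Module.finrank (ZMod 3) (LinearMap.range (B - 1)) ≤ 2

variable {X Y B : W →ₗ[ZMod 3] W}

namespace LQ

variable (h : LQ X Y B)
include h

theorem binj {w : W} (hw : B w = 0) : w = 0 := by
  have := h.b3 w
  rw [hw, map_zero, map_zero] at this
  exact this.symm

theorem b12 {w : W} (hx : X w = w) (hy : Y w = -w) : X (B w) = -B w ∧ Y (B w) = B w := by
  have e1 : Y (B w) = B w := by rw [← h.bx, hx]
  have e2 := h.bby w
  rw [hy, map_neg, e1] at e2
  exact ⟨e2.symm, e1⟩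

theorem b23 {w : W} (hx : X w = -w) (hy : Y w = w) : X (B w) = -B w ∧ Y (B w) = -B w := by
  have e1 : Y (B w) = -B w := by rw [← h.bx, hx, map_neg]
  have e2 := h.bby w
  rw [hy, e1, map_neg] at e2
  exact ⟨neg_eq_iff_eq_neg.1 e2.symm, e1⟩

theorem b31 {w : W} (hx : X w = -w) (hy : Y w = -w) : X (B w) = B w ∧ Y (B w) = -B w := by
  have e1 : Y (B w) = -B w := by rw [← h.bx, hx, map_neg]
  have e2 := h.bby w
  rw [hy, e1, map_neg, map_neg, neg_inj] at e2
  exact ⟨e2.symm, e1⟩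

theorem b00 {w : W} (hx : X w = w) (hy : Y w = w) : X (B w) = B w ∧ Y (B w) = B w := by
  have e1 : Y (B w) = B w := by rw [← h.bx, hx]
  have e2 := h.bby w
  rw [hy, e1] at e2
  exact ⟨e2.symm, e1⟩

/-- decomposition into weight vectors -/
theorem dec (w : W) : ∃ w₀ w₁ w₂ w₃ : W, w = w₀ + w₁ + w₂ + w₃ ∧ (X w₀ = w₀ ∧ Y w₀ = w₀) ∧
    (X w₁ = w₁ ∧ Y w₁ = -w₁) ∧ (X w₂ = -w₂ ∧ Y w₂ = w₂) ∧ (X w₃ = -w₃ ∧ Y w₃ = -w₃) := by
  refine ⟨w + X w + Y w + X (Y w), w + X w - Y w - X (Y w), w - X w + Y w - X (Y w),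
    w - X w - Y w + X (Y w), ?_, ⟨?_, ?_⟩, ⟨?_, ?_⟩, ⟨?_, ?_⟩, ⟨?_, ?_⟩⟩
  · calc w = w + (w + w + w) := by rw [three, add_zero]
      _ = _ := by abel
  all_goals
    simp only [map_add, map_sub, h.x2, h.y2, h.xy]
    abel

theorem indep {w₀ w₁ w₂ w₃ : W} (hs : w₀ + w₁ + w₂ + w₃ = 0) (h0 : X w₀ = w₀ ∧ Y w₀ = w₀)
    (h1 : X w₁ = w₁ ∧ Y w₁ = -w₁) (h2 : X w₂ = -w₂ ∧ Y w₂ = w₂) (h3 : X w₃ = -w₃ ∧ Y w₃ = -w₃) :
    w₀ = 0 ∧ w₁ = 0 ∧ w₂ = 0 ∧ w₃ = 0 := by
  have ex := congrArg X hs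
  have ey := congrArg Y hs
  have exy := congrArg Y ex
  simp only [map_add, map_zero, h0.1, h0.2, h1.1, h1.2, h2.1, h2.2, h3.1, h3.2, map_neg] at ex ey exy
  refine ⟨?_, ?_, ?_, ?_⟩
  · calc w₀ = w₀ + (w₀ + w₀ + w₀) := by rw [three, add_zero]
      _ = (w₀ + w₁ + w₂ + w₃) + (w₀ + w₁ + -w₂ + -w₃) + (w₀ + -w₁ + w₂ + -w₃) +
        (w₀ + -w₁ + -w₂ + - -w₃) := by abel
      _ = 0 := by rw [hs, ex, ey, exy]; simp
  · calc w₁ = w₁ + (w₁ + w₁ + w₁) := by rw [three, add_zero]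
      _ = (w₀ + w₁ + w₂ + w₃) + (w₀ + w₁ + -w₂ + -w₃) - (w₀ + -w₁ + w₂ + -w₃) -
        (w₀ + -w₁ + -w₂ + - -w₃) := by abel
      _ = 0 := by rw [hs, ex, ey, exy]; simp
  · calc w₂ = w₂ + (w₂ + w₂ + w₂) := by rw [three, add_zero]
      _ = (w₀ + w₁ + w₂ + w₃) - (w₀ + w₁ + -w₂ + -w₃) + (w₀ + -w₁ + w₂ + -w₃) -
        (w₀ + -w₁ + -w₂ + - -w₃) := by abel
      _ = 0 := by rw [hs, ex, ey, exy]; simp
  · calc w₃ = w₃ + (w₃ + w₃ + w₃) := by rw [three, add_zero]
      _ = (w₀ + w₁ + w₂ + w₃) - (w₀ + w₁ + -w₂ + -w₃) - (w₀ + -w₁ + w₂ + -w₃) +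
        (w₀ + -w₁ + -w₂ + - -w₃) := by abel
      _ = 0 := by rw [hs, ex, ey, exy]; simp

theorem rk3 [Finite W] {u₁ u₂ u₃ : W} (h1 : u₁ ∈ LinearMap.range (B - 1))
    (h2 : u₂ ∈ LinearMap.range (B - 1)) (h3 : u₃ ∈ LinearMap.range (B - 1))
    (hi : ∀ a b c : ZMod 3, a • u₁ + b • u₂ + c • u₃ = 0 → a = 0 ∧ b = 0 ∧ c = 0) : False := by
  have hli : LinearIndependent (ZMod 3) ![(⟨u₁, h1⟩ : LinearMap.range (B - 1)), ⟨u₂, h2⟩,
      ⟨u₃, h3⟩] := by
    rw [Fintype.linearIndependent_iff]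
    intro g hg
    have h4 := congrArg Subtype.val hg
    rw [Fin.sum_univ_three] at h4
    have h5 : g 0 • u₁ + g 1 • u₂ + g 2 • u₃ = 0 := by simpa using h4
    obtain ⟨ha, hb, hc⟩ := hi _ _ _ h5
    intro i
    fin_cases i
    · exact ha
    · exact hb
    · exact hc
  haveI : Module.Finite (ZMod 3) W := Module.Finite.of_finite
  have := hli.fintype_card_le_finrank
  rw [Fintype.card_fin] at this
  have := h.rk
  omega

theorem exists_v : ∃ v : W, v ≠ 0 ∧ X v = v ∧ Y v = -v := by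
  obtain ⟨w, hw⟩ := h.x1
  obtain ⟨w₀, w₁, w₂, w₃, hs, h0, h1, h2, h3⟩ := h.dec w
  by_cases hw2 : w₂ = 0
  · by_cases hw3 : w₃ = 0
    · exfalso
      apply hw
      rw [hs, hw2, hw3, add_zero, add_zero, map_add, h0.1, h1.1]
    · exact ⟨B w₃, fun e => hw3 (h.binj e), h.b31 h3.1 h3.2⟩
  · have h4 := h.b23 h2.1 h2.2
    exact ⟨B (B w₂), fun e => hw2 (h.binj (h.binj e)), h.b31 h4.1 h4.2⟩

theorem weights [Finite W] : ∃ v : W, v ≠ 0 ∧ X v = v ∧ Y v = -v ∧
    (∀ w, X w = w → Y w = -w → ∃ c : ZMod 3, w = c • v) ∧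
    (∀ w, X w = w → Y w = w → B w = w) := by
  obtain ⟨v, hv, hxv, hyv⟩ := h.exists_v
  have hb1 := h.b12 hxv hyv
  have hb2 := h.b23 hb1.1 hb1.2
  have hm : ∀ w : W, B w - w ∈ LinearMap.range (B - 1) := fun w => ⟨w, by simp⟩
  have hBv : B v ≠ 0 := fun e => hv (h.binj e)
  have hBBv : B (B v) ≠ 0 := fun e => hBv (h.binj e)
  refine ⟨v, hv, hxv, hyv, ?_, ?_⟩
  · intro w hxw hyw
    by_contra hcon
    push Not at hcon
    have hbw := h.b12 hxw hyw
    refine h.rk3 (hm v) (hm (B v)) (hm w) ?_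
    intro a b c habc
    have key := h.indep (w₀ := 0) (w₁ := -(a • v) - c • w) (w₂ := a • B v - b • B v + c • B w)
      (w₃ := b • B (B v)) ((by simp only [smul_sub]; abel : _ = a • (B v - v) + b • (B (B v) - B v) + c • (B w - w)).trans habc) (by simp)
      (by constructor <;> (simp only [map_sub, map_neg, map_smul, hxv, hyv, hxw, hyw, smul_neg]; try abel))
      (by constructor <;> (simp only [map_sub, map_add, map_smul, hb1.1, hb1.2, hbw.1, hbw.2, smul_neg]; try abel))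
      (by constructor <;> (simp only [map_smul, hb2.1, hb2.2, smul_neg]; try rfl))
    obtain ⟨-, k1, -, k3⟩ := key
    have hb0 : b = 0 := (smul_eq_zero.1 k3).resolve_right hBBv
    have hc0 : c = 0 := by
      by_contra hc
      apply hcon (-(c⁻¹ * a))
      have h5 : c • w = -(a • v) := by
        have := sub_eq_zero.1 k1
        exact this.symm
      calc w = c⁻¹ • (c • w) := by rw [smul_smul, inv_mul_cancel₀ hc, one_smul]
        _ = _ := by rw [h5, smul_neg, smul_smul, neg_smul]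
    refine ⟨?_, hb0, hc0⟩
    rw [hc0, zero_smul, sub_zero, neg_eq_zero] at k1
    exact (smul_eq_zero.1 k1).resolve_right hv
  · intro w hxw hyw
    by_contra hcon
    have hbw := h.b00 hxw hyw
    refine h.rk3 (hm v) (hm (B v)) (hm w) ?_
    intro a b c habc
    have key := h.indep (w₀ := c • (B w - w)) (w₁ := -(a • v)) (w₂ := a • B v - b • B v)
      (w₃ := b • B (B v)) ((by simp only [smul_sub]; abel : _ = a • (B v - v) + b • (B (B v) - B v) + c • (B w - w)).trans habc)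
      (by constructor <;> (simp only [map_sub, map_smul, hxw, hyw, hbw.1, hbw.2]; try rfl))
      (by constructor <;> (simp only [map_neg, map_smul, hxv, hyv, smul_neg]; try rfl))
      (by constructor <;> (simp only [map_sub, map_smul, hb1.1, hb1.2, smul_neg]; try abel))
      (by constructor <;> (simp only [map_smul, hb2.1, hb2.2, smul_neg]; try rfl))
    obtain ⟨k0, k1, -, k3⟩ := key
    refine ⟨?_, (smul_eq_zero.1 k3).resolve_right hBBv, ?_⟩
    · rw [neg_eq_zero] at k1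
      exact (smul_eq_zero.1 k1).resolve_right hv
    · exact (smul_eq_zero.1 k0).resolve_right (sub_ne_zero.2 hcon)

/-- full decomposition -/
theorem dec' [Finite W] {v : W} (hv : v ≠ 0) (hxv : X v = v) (hyv : Y v = -v) (w : W) :
    ∃ (w₀ : W) (a b c : ZMod 3), (X w₀ = w₀ ∧ Y w₀ = w₀) ∧
      w = w₀ + a • v + b • B v + c • B (B v) := by
  obtain ⟨v', hv', -, -, h1, -⟩ := h.weights
  have key : ∀ w, X w = w → Y w = -w → ∃ c : ZMod 3, w = c • v := by
    obtain ⟨c, hc⟩ := h1 v hxv hyv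
    have hc0 : c ≠ 0 := by
      rintro rfl
      rw [zero_smul] at hc
      exact hv hc
    intro w hx hy
    obtain ⟨d, hd⟩ := h1 w hx hy
    refine ⟨d * c⁻¹, ?_⟩
    rw [hd, hc, smul_smul, mul_assoc, inv_mul_cancel₀ hc0, mul_one]
  obtain ⟨w₀, w₁, w₂, w₃, hs, h0, h1, h2, h3⟩ := h.dec w
  obtain ⟨a, ha⟩ := key w₁ h1.1 h1.2
  have h4 := h.b23 h2.1 h2.2
  have h5 := h.b31 h4.1 h4.2
  obtain ⟨b, hb⟩ := key _ h5.1 h5.2
  have h6 := h.b31 h3.1 h3.2
  obtain ⟨c, hc⟩ := key _ h6.1 h6.2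
  refine ⟨w₀, a, b, c, h0, ?_⟩
  have e2 : w₂ = b • B v := by
    rw [← h.b3 w₂, hb, map_smul]
  have e3 : w₃ = c • B (B v) := by
    rw [← h.b3 w₃, hc, map_smul, map_smul]
  rw [hs, ha, e2, e3]

theorem rank_x [Finite W] : Module.finrank (ZMod 3) (LinearMap.range (X - 1)) = 2 := by
  obtain ⟨v, hv, hxv, hyv⟩ := h.exists_v
  have hb1 := h.b12 hxv hyv
  have hb2 := h.b23 hb1.1 hb1.2
  have hBv : B v ≠ 0 := fun e => hv (h.binj e)
  have hBBv : B (B v) ≠ 0 := fun e => hBv (h.binj e)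
  have hli : LinearIndependent (ZMod 3) ![B v, B (B v)] := by
    rw [LinearIndependent.pair_iff]
    intro s t hst
    have key := h.indep (w₀ := 0) (w₁ := 0) (w₂ := s • B v) (w₃ := t • B (B v))
      ((by abel : _ = s • B v + t • B (B v)).trans hst) (by simp) (by simp)
      (by constructor <;> (simp only [map_smul, hb1.1, hb1.2, smul_neg]; try rfl))
      (by constructor <;> (simp only [map_smul, hb2.1, hb2.2, smul_neg]; try rfl))
    exact ⟨(smul_eq_zero.1 key.2.2.1).resolve_right hBv,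
      (smul_eq_zero.1 key.2.2.2).resolve_right hBBv⟩
  have hr : LinearMap.range (X - 1) = Submodule.span (ZMod 3) (Set.range ![B v, B (B v)]) := by
    apply le_antisymm
    · rintro _ ⟨w, rfl⟩
      obtain ⟨w₀, a, b, c, h0, hw⟩ := h.dec' hv hxv hyv w
      have e : (X - 1) w = (-(b + b)) • B v + (-(c + c)) • B (B v) := by
        rw [hw, LinearMap.sub_apply, Module.End.one_apply]
        simp only [map_add, map_smul, h0.1, hxv, hb1.1,
          hb2.1, smul_neg, neg_smul, add_smul]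
        abel
      rw [e]
      exact Submodule.add_mem _ (Submodule.smul_mem _ _ (Submodule.subset_span ⟨0, rfl⟩))
        (Submodule.smul_mem _ _ (Submodule.subset_span ⟨1, rfl⟩))
    · rw [Submodule.span_le]
      rintro _ ⟨i, rfl⟩
      fin_cases i
      · refine ⟨B v, ?_⟩
        show (X - 1) (B v) = B v
        rw [LinearMap.sub_apply, Module.End.one_apply, hb1.1]
        calc -B v - B v = -B v - B v + (B v + B v + B v) := by rw [three, add_zero]
          _ = B v := by abel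
      · refine ⟨B (B v), ?_⟩
        show (X - 1) (B (B v)) = B (B v)
        rw [LinearMap.sub_apply, Module.End.one_apply, hb2.1]
        calc -B (B v) - B (B v) = -B (B v) - B (B v) + (B (B v) + B (B v) + B (B v)) := by
              rw [three, add_zero]
          _ = B (B v) := by abel
  rw [hr, finrank_span_eq_card hli, Fintype.card_fin]

theorem fix_dim [Finite W] :
    Module.finrank (ZMod 3) ((LinearMap.ker (X - 1) ⊓ LinearMap.ker (Y - 1) :
      Submodule (ZMod 3) W)) + 3 = Module.finrank (ZMod 3) W := by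
  obtain ⟨v, hv, hxv, hyv⟩ := h.exists_v
  have hb1 := h.b12 hxv hyv
  have hb2 := h.b23 hb1.1 hb1.2
  haveI : Module.Finite (ZMod 3) W := Module.Finite.of_finite
  have hsup : (LinearMap.ker (X - 1) ⊓ LinearMap.ker (Y - 1)) ⊔ Submodule.span (ZMod 3) {v} =
      LinearMap.ker (X - 1) := by
    apply le_antisymm
    · refine sup_le inf_le_left ?_
      rw [Submodule.span_singleton_le_iff_mem, LinearMap.mem_ker, LinearMap.sub_apply,
        Module.End.one_apply, hxv, sub_self]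
    · intro w hw
      rw [LinearMap.mem_ker, LinearMap.sub_apply, Module.End.one_apply, sub_eq_zero] at hw
      obtain ⟨w₀, w₁, w₂, w₃, hs, h0, h1, h2, h3⟩ := h.dec w
      have e : (0 : W) + 0 + (w₂ + w₂) + (w₃ + w₃) = 0 := by
        have e1 := hw
        rw [hs, map_add, map_add, map_add, h0.1, h1.1, h2.1, h3.1] at e1
        have e2 := sub_eq_zero.2 e1.symm
        exact (by abel : _ = w₀ + w₁ + w₂ + w₃ - (w₀ + w₁ + -w₂ + -w₃)).trans e2
      have key := h.indep e (by simp) (by simp)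
        (by constructor <;> (simp only [map_add, h2.1, h2.2]; try abel))
        (by constructor <;> (simp only [map_add, h3.1, h3.2]; try abel))
      have k2 : w₂ = 0 := by
        have := three w₂
        rwa [key.2.2.1, zero_add] at this
      have k3 : w₃ = 0 := by
        have := three w₃
        rwa [key.2.2.2, zero_add] at this
      rw [hs, k2, k3, add_zero, add_zero]
      refine Submodule.add_mem_sup ⟨?_, ?_⟩ ?_
      · show w₀ ∈ LinearMap.ker (X - 1)
        rw [LinearMap.mem_ker, LinearMap.sub_apply, Module.End.one_apply, h0.1, sub_self]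
      · show w₀ ∈ LinearMap.ker (Y - 1)
        rw [LinearMap.mem_ker, LinearMap.sub_apply, Module.End.one_apply, h0.2, sub_self]
      · obtain ⟨v', hv', -, -, h1', -⟩ := h.weights
        obtain ⟨c, hc⟩ := h1' v hxv hyv
        have hc0 : c ≠ 0 := by
          rintro rfl
          rw [zero_smul] at hc
          exact hv hc
        obtain ⟨d, hd⟩ := h1' w₁ h1.1 h1.2
        rw [Submodule.mem_span_singleton]
        exact ⟨d * c⁻¹, by rw [hd, hc, smul_smul, mul_assoc, inv_mul_cancel₀ hc0, mul_one]⟩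
  have hinf : (LinearMap.ker (X - 1) ⊓ LinearMap.ker (Y - 1)) ⊓ Submodule.span (ZMod 3) {v} = ⊥ := by
    rw [eq_bot_iff]
    rintro w ⟨⟨-, hw⟩, hw'⟩
    obtain ⟨c, rfl⟩ := Submodule.mem_span_singleton.1 hw'
    have hw2 : c • v ∈ LinearMap.ker (Y - 1) := hw
    rw [LinearMap.mem_ker, LinearMap.sub_apply, Module.End.one_apply, sub_eq_zero, map_smul, hyv,
      smul_neg] at hw2
    exact (Submodule.mem_bot _).2 (eq_zero_of_neg hw2.symm)
  have e1 := Submodule.finrank_sup_add_finrank_inf_eq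
    (LinearMap.ker (X - 1) ⊓ LinearMap.ker (Y - 1)) (Submodule.span (ZMod 3) {v})
  rw [hsup, hinf, finrank_bot, finrank_span_singleton hv] at e1
  have e2 := LinearMap.finrank_range_add_finrank_ker (X - 1)
  rw [h.rank_x] at e2
  omega

end LQ

end lin

section grp

variable {G : Type u} [Group G] {W : Type v} [AddCommGroup W] [Module (ZMod 3) W]
  {σ : Representation (ZMod 3) G W} {b x y : G}

theorem sig_mul (g k : G) (w : W) : σ (g * k) w = σ g (σ k w) := by rw [map_mul]; rfl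

theorem sig_eq {g k : G} (hgk : g = k) (w : W) : σ g w = σ k w := by rw [hgk]

theorem toLQ (h : QB σ b x y) : LQ (σ x) (σ y) (σ b) where
  x2 w := by rw [← sig_mul, h.x2, map_one]; rfl
  y2 w := by
    have : y * y = 1 := by
      rw [← h.bx]
      calc b * x * b⁻¹ * (b * x * b⁻¹) = b * (x * x) * b⁻¹ := by group
        _ = 1 := by rw [h.x2]; group
    rw [← sig_mul, this, map_one]; rfl
  xy w := by rw [← sig_mul, ← sig_mul, h.xy]
  bx w := by
    rw [← sig_mul, ← sig_mul]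
    refine sig_eq ?_ w
    rw [← h.bx]; group
  bby w := by
    rw [← sig_mul, ← sig_mul, ← sig_mul]
    refine sig_eq ?_ w
    rw [← h.bby]; group
  b3 w := by
    rw [← sig_mul, ← sig_mul]
    have : b * b * b = 1 := by rw [mul_assoc, ← pow_three]; exact h.b3
    rw [this, map_one]; rfl
  x1 := by
    by_contra hcon
    push Not at hcon
    apply h.x1
    apply h.faith
    rw [map_one]
    ext w
    exact hcon w
  rk := h.rk

theorem weights [Finite W] (h : QB σ b x y) : ∃ v : W, v ≠ 0 ∧ σ x v = v ∧ σ y v = -v ∧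
    (∀ w, σ x w = w → σ y w = -w → ∃ c : ZMod 3, w = c • v) ∧
    (∀ w, σ x w = w → σ y w = w → σ b w = w) := (toLQ h).weights

theorem rank_x [Finite W] (h : QB σ b x y) :
    Module.finrank (ZMod 3) (LinearMap.range (σ x - 1)) = 2 := (toLQ h).rank_x

theorem fix_dim [Finite W] (h : QB σ b x y) :
    Module.finrank (ZMod 3) ((LinearMap.ker (σ x - 1) ⊓ LinearMap.ker (σ y - 1) :
      Submodule (ZMod 3) W)) + 3 = Module.finrank (ZMod 3) W := (toLQ h).fix_dim

theorem z3 (e : ZMod 3) (he : e ≠ 0) : e = 1 ∨ e = -1 := by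
  revert e; decide

theorem comm_cent [Finite W] (h : QB σ b x y) {c : G} (hx : c * x = x * c) (hy : c * y = y * c) :
    c * b * c⁻¹ * b⁻¹ = 1 ∨ c * b * c⁻¹ * b⁻¹ = x ∨ c * b * c⁻¹ * b⁻¹ = y ∨
      c * b * c⁻¹ * b⁻¹ = x * y := by
  have hl := toLQ h
  obtain ⟨v, hv, hxv, hyv, h1, hC⟩ := hl.weights
  have hb1 := hl.b12 hxv hyv
  have hb2 := hl.b23 hb1.1 hb1.2
  have hxw : ∀ w, σ x (σ c w) = σ c (σ x w) := fun w => by rw [← sig_mul, ← sig_mul, hx]
  have hyw : ∀ w, σ y (σ c w) = σ c (σ y w) := fun w => by rw [← sig_mul, ← sig_mul, hy]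
  have hcinj : ∀ w, σ c w = 0 → w = 0 := fun w hw => by
    have : σ c⁻¹ (σ c w) = w := by rw [← sig_mul, inv_mul_cancel, map_one]; rfl
    rw [← this, hw, map_zero]
  have hBv : σ b v ≠ 0 := fun e => hv (hl.binj e)
  have hBBv : σ b (σ b v) ≠ 0 := fun e => hBv (hl.binj e)
  -- eigenvalues of `c`
  obtain ⟨e₁, he₁⟩ := h1 (σ c v) (by rw [hxw, hxv]) (by rw [hyw, hyv, map_neg])
  obtain ⟨e₂, he₂⟩ : ∃ e : ZMod 3, σ c (σ b v) = e • σ b v := by
    have k1 : σ x (σ c (σ b v)) = -σ c (σ b v) := by rw [hxw, hb1.1, map_neg]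
    have k2 : σ y (σ c (σ b v)) = σ c (σ b v) := by rw [hyw, hb1.2]
    have k3 := hl.b23 k1 k2
    have k4 := hl.b31 k3.1 k3.2
    obtain ⟨e, he⟩ := h1 _ k4.1 k4.2
    exact ⟨e, by rw [← hl.b3 (σ c (σ b v)), he, map_smul]⟩
  obtain ⟨e₃, he₃⟩ : ∃ e : ZMod 3, σ c (σ b (σ b v)) = e • σ b (σ b v) := by
    have k1 : σ x (σ c (σ b (σ b v))) = -σ c (σ b (σ b v)) := by rw [hxw, hb2.1, map_neg]
    have k2 : σ y (σ c (σ b (σ b v))) = -σ c (σ b (σ b v)) := by rw [hyw, hb2.2, map_neg]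
    have k3 := hl.b31 k1 k2
    obtain ⟨e, he⟩ := h1 _ k3.1 k3.2
    exact ⟨e, by rw [← hl.b3 (σ c (σ b (σ b v))), he, map_smul, map_smul]⟩
  have n1 : e₁ ≠ 0 := by
    rintro rfl
    rw [zero_smul] at he₁
    exact hv (hcinj _ he₁)
  have n2 : e₂ ≠ 0 := by
    rintro rfl
    rw [zero_smul] at he₂
    exact hBv (hcinj _ he₂)
  have n3 : e₃ ≠ 0 := by
    rintro rfl
    rw [zero_smul] at he₃
    exact hBBv (hcinj _ he₃)
  have hsq : ∀ e : ZMod 3, e ≠ 0 → e * e = 1 := by decide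
  have inv1 : ∀ {e : ZMod 3} {w : W}, e ≠ 0 → σ c w = e • w → σ c⁻¹ w = e • w := by
    intro e w he hw
    have k : σ c⁻¹ (σ c w) = w := by rw [← sig_mul, inv_mul_cancel, map_one]; rfl
    rw [hw, map_smul] at k
    calc σ c⁻¹ w = e • (e • σ c⁻¹ w) := by rw [smul_smul, hsq e he, one_smul]
      _ = e • w := by rw [k]
  have hbi1 : σ b⁻¹ v = σ b (σ b v) := by
    rw [sig_eq (σ := σ) (show b⁻¹ = b * b from by
      rw [inv_eq_iff_mul_eq_one, ← pow_three]; exact h.b3) v, sig_mul]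
  have hbi : ∀ w, σ b⁻¹ (σ b w) = w := fun w => by rw [← sig_mul, inv_mul_cancel, map_one]; rfl
  set k := c * b * c⁻¹ * b⁻¹ with hk
  have hkw : ∀ w, σ k w = σ c (σ b (σ c⁻¹ (σ b⁻¹ w))) := fun w => by
    rw [hk, sig_mul, sig_mul, sig_mul]
  have kv : σ k v = (e₁ * e₃) • v := by
    rw [hkw, hbi1, inv1 n3 he₃, map_smul, hl.b3, map_smul, he₁, smul_smul, mul_comm]
  have kbv : σ k (σ b v) = (e₁ * e₂) • σ b v := by
    rw [hkw, hbi, inv1 n1 he₁, map_smul, map_smul, he₂, smul_smul]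
  have kbbv : σ k (σ b (σ b v)) = (e₂ * e₃) • σ b (σ b v) := by
    rw [hkw, hbi, inv1 n2 he₂, map_smul, map_smul, he₃, smul_smul]
  have k0 : ∀ w, σ x w = w → σ y w = w → σ k w = w := by
    intro w hxw' hyw'
    have j1 : σ b⁻¹ w = w := by
      have := hbi w
      rwa [hC w hxw' hyw'] at this
    have hcx : σ x (σ c⁻¹ w) = σ c⁻¹ w := by
      have : x * c⁻¹ = c⁻¹ * x := by
        rw [mul_inv_eq_iff_eq_mul, mul_assoc, ← hx]; group
      rw [← sig_mul, this, sig_mul, hxw']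
    have hcy : σ y (σ c⁻¹ w) = σ c⁻¹ w := by
      have : y * c⁻¹ = c⁻¹ * y := by
        rw [mul_inv_eq_iff_eq_mul, mul_assoc, ← hy]; group
      rw [← sig_mul, this, sig_mul, hyw']
    rw [hkw, j1, hC _ hcx hcy, ← sig_mul, mul_inv_cancel, map_one]; rfl
  -- comparison
  have cmp : ∀ q : G, (∀ w, σ x w = w → σ y w = w → σ q w = w) → σ k v = σ q v →
      σ k (σ b v) = σ q (σ b v) → σ k (σ b (σ b v)) = σ q (σ b (σ b v)) → k = q := by
    intro q h0 h1' h2 h3
    apply h.faith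
    ext w
    obtain ⟨w₀, α, β, δ, hw0, hw⟩ := hl.dec' hv hxv hyv w
    rw [hw]
    simp only [map_add, map_smul]
    rw [h1', h2, h3, k0 w₀ hw0.1 hw0.2, h0 w₀ hw0.1 hw0.2]
  have hxyw : ∀ w, σ (x * y) w = σ x (σ y w) := fun w => sig_mul x y w
  rcases z3 _ n1 with rfl | rfl <;> rcases z3 _ n2 with rfl | rfl <;> rcases z3 _ n3 with rfl | rfl
  · left; exact cmp 1 (fun w _ _ => by simp) (by simp [kv]) (by simp [kbv]) (by simp [kbbv])
  · right; right; left
    exact cmp y (fun w _ h => h) (by simp [kv, hyv]) (by simp [kbv, hb1.2])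
      (by simp [kbbv, hb2.2])
  · right; left
    exact cmp x (fun w h _ => h) (by simp [kv, hxv]) (by simp [kbv, hb1.1])
      (by simp [kbbv, hb2.1])
  · right; right; right
    exact cmp (x * y) (fun w h h' => by rw [hxyw, h', h]) (by rw [hxyw]; simp [kv, hxv, hyv])
      (by rw [hxyw]; simp [kbv, hb1.1, hb1.2]) (by rw [hxyw]; simp [kbbv, hb2.1, hb2.2])
  · right; right; right
    exact cmp (x * y) (fun w h h' => by rw [hxyw, h', h]) (by rw [hxyw]; simp [kv, hxv, hyv])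
      (by rw [hxyw]; simp [kbv, hb1.1, hb1.2]) (by rw [hxyw]; simp [kbbv, hb2.1, hb2.2])
  · right; left
    exact cmp x (fun w h _ => h) (by simp [kv, hxv]) (by simp [kbv, hb1.1])
      (by simp [kbbv, hb2.1])
  · right; right; left
    exact cmp y (fun w _ h => h) (by simp [kv, hyv]) (by simp [kbv, hb1.2])
      (by simp [kbbv, hb2.2])
  · left; exact cmp 1 (fun w _ _ => by simp) (by simp [kv]) (by simp [kbv]) (by simp [kbbv])

theorem central [Finite W] (h : QB σ b x y)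
    (irr : ∀ U : Submodule (ZMod 3) W, (∀ g : G, ∀ v ∈ U, σ g v ∈ U) → U = ⊥ ∨ U = ⊤)
    {z : G} (hz : ∀ g, z * g = g * z) : σ z = 1 ∨ σ z = -1 := by
  obtain ⟨v, hv, hxv, hyv, h1, -⟩ := weights h
  have hc : ∀ g w, σ g (σ z w) = σ z (σ g w) := fun g w => by rw [← sig_mul, ← sig_mul, hz]
  obtain ⟨e, he⟩ := h1 (σ z v) (by rw [hc, hxv]) (by rw [hc, hyv, map_neg])
  have n : e ≠ 0 := by
    rintro rfl
    rw [zero_smul] at he
    have : σ z⁻¹ (σ z v) = v := by rw [← sig_mul, inv_mul_cancel, map_one]; rfl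
    rw [he, map_zero] at this
    exact hv this.symm
  have hU : (LinearMap.ker (σ z - e • 1) : Submodule (ZMod 3) W) = ⊤ := by
    refine (irr _ ?_).resolve_left ?_
    · intro g w hw
      rw [LinearMap.mem_ker, LinearMap.sub_apply, sub_eq_zero] at hw ⊢
      have hw' : σ z w = e • w := hw
      show σ z (σ g w) = e • σ g w
      rw [← hc, hw', map_smul]
    · intro hb
      have : v ∈ (LinearMap.ker (σ z - e • 1) : Submodule (ZMod 3) W) := by
        rw [LinearMap.mem_ker, LinearMap.sub_apply, sub_eq_zero]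
        exact he
      rw [hb, Submodule.mem_bot] at this
      exact hv this
  have hall : ∀ w, σ z w = e • w := by
    intro w
    have : w ∈ (LinearMap.ker (σ z - e • 1) : Submodule (ZMod 3) W) := by rw [hU]; trivial
    rw [LinearMap.mem_ker, LinearMap.sub_apply, sub_eq_zero] at this
    exact this
  rcases z3 e n with rfl | rfl
  · left
    ext w
    rw [hall, one_smul]; rfl
  · right
    ext w
    rw [hall, neg_smul, one_smul]; rfl

end grp

end Cfsg.Agent.H43.AWP1
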