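import Mathlib
import Cfsg.Agent.H43.Decomp
import Cfsg.Agent.H43.MatEnd

set_option autoImplicit false
set_option linter.unusedSectionVars false

/-! The determinant is surjective on the centralizer of a semisimple element. -/

namespace Cfsg.Agent.H43

open Polynomial

/-- Determinant of an endomorphism acting on one factor of a product. -/
theorem exists_det_factor {F V : Type*} [Field F] [AddCommGroup V] [Module F V] [FiniteDimensional F V]
    {t : ℕ} {A : Fin t → Type*} [∀ i, AddCommGroup (A i)] [∀ i, Module F (A i)]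
    (φ : V ≃ₗ[F] ((i : Fin t) → A i)) (i : Fin t) (a : A i →ₗ[F] A i) :
    ∃ c : V →ₗ[F] V, LinearMap.det c = LinearMap.det a ∧ (∀ v, φ (c v) i = a (φ v i)) ∧ ∀ v j, j ≠ i → φ (c v) j = φ v j := by
  classical
  have hfin : FiniteDimensional F ((i : Fin t) → A i) := φ.finiteDimensional
  obtain ⟨e, he1, he2⟩ : ∃ e : ((i : Fin t) → A i) →ₗ[F] ((i : Fin t) → A i), (∀ y, e y i = a (y i)) ∧
      ∀ y j, j ≠ i → e y j = y j := by
    refine ⟨LinearMap.pi (fun j => if h : j = i then h ▸ (a ∘ₗ LinearMap.proj i) else LinearMap.proj j), ?_, ?_⟩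
    · intro y
      simp
    · intro y j hj
      simp [hj]
  obtain ⟨c, hc⟩ : ∃ c : V →ₗ[F] V, c = (φ.symm : ((i : Fin t) → A i) →ₗ[F] V) ∘ₗ e ∘ₗ (φ : V →ₗ[F] ((i : Fin t) → A i)) := ⟨_, rfl⟩
  have hcv : ∀ v, φ (c v) = e (φ v) := by
    intro v
    rw [hc]
    simp
  refine ⟨c, ?_, ?_, ?_⟩
  · rw [hc]
    have h1 := LinearMap.det_conj e φ.symm
    rw [LinearEquiv.symm_symm] at h1
    rw [h1]
    obtain ⟨W, hWdef⟩ : ∃ W : Submodule F ((i : Fin t) → A i), W = LinearMap.ker (LinearMap.proj i : ((j : Fin t) → A j) →ₗ[F] A i) := ⟨_, rfl⟩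
    have hWm : ∀ y, y ∈ W ↔ y i = 0 := by
      intro y
      rw [hWdef, LinearMap.mem_ker, LinearMap.proj_apply]
    have hW : W ≤ W.comap e := by
      intro y hy
      rw [Submodule.mem_comap, hWm, he1]
      rw [hWm] at hy
      rw [hy, map_zero]
    rw [LinearMap.det_eq_det_mul_det W e hW]
    have h2 : e.restrict hW = LinearMap.id := by
      apply LinearMap.ext
      intro y
      apply Subtype.ext
      funext j
      rw [LinearMap.restrict_apply, LinearMap.id_apply]
      by_cases hj : j = i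
      · subst hj
        have h3 := y.2
        rw [hWm] at h3
        change e y j = (y : (i : Fin t) → A i) j
        rw [he1, h3, map_zero]
      · exact he2 y j hj
    rw [h2, LinearMap.det_id, one_mul]
    have hsurj : Function.Surjective (LinearMap.proj i : ((i : Fin t) → A i) →ₗ[F] A i) := by
      intro z
      exact ⟨Pi.single i z, by simp⟩
    obtain ⟨ψ, hψ⟩ : ∃ ψ : (((i : Fin t) → A i) ⧸ W) ≃ₗ[F] A i, ∀ y, ψ (Submodule.Quotient.mk y) = y i := by
      subst hWdef
      refine ⟨LinearMap.quotKerEquivOfSurjective (LinearMap.proj i : ((j : Fin t) → A j) →ₗ[F] A i) hsurj, fun y => ?_⟩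
      rw [LinearMap.quotKerEquivOfSurjective_apply_mk, LinearMap.proj_apply]
    have h4 := LinearMap.det_conj (W.mapQ W e hW) ψ
    rw [← h4]
    congr 1
    ext z
    obtain ⟨y, rfl⟩ := hsurj z
    have h5 : ψ.symm ((LinearMap.proj i : ((j : Fin t) → A j) →ₗ[F] A i) y) = Submodule.Quotient.mk y := by
      rw [LinearEquiv.symm_apply_eq, hψ, LinearMap.proj_apply]
    rw [LinearMap.comp_apply, LinearMap.comp_apply, LinearEquiv.coe_coe, LinearEquiv.coe_coe, h5, Submodule.mapQ_apply,
      hψ, he1, LinearMap.proj_apply]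
  · intro v
    rw [hcv, he1]
  · intro v j hj
    rw [hcv, he2 _ _ hj]

/-- Norm surjectivity for quotients of `F[X]`. -/
theorem exists_det_mul {F : Type*} [Field F] [Finite F] (p : F[X]) (hp : Irreducible p) (e : ℕ) (he : e = 1) (d : F) (hd : d ≠ 0) :
    ∃ a : F[X] ⧸ Ideal.span {p ^ e}, LinearMap.det (LinearMap.mulLeft F a) = d ∧ IsUnit a := by
  subst he
  rw [pow_one]
  have : Fact (Irreducible p) := ⟨hp⟩
  have hmax : (Ideal.span {p} : Ideal F[X]).IsMaximal := PrincipalIdealRing.isMaximal_of_irreducible hp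
  have hfd : Module.Finite F (AdjoinRoot p) := (AdjoinRoot.powerBasis hp.ne_zero).finite
  have hfin : Finite (AdjoinRoot p) := Module.finite_of_finite F
  obtain ⟨a, ha⟩ := FiniteField.norm_surjective F (AdjoinRoot p) d
  have ha0 : a ≠ 0 := by
    rintro rfl
    rw [Algebra.norm_zero] at ha
    exact hd ha.symm
  refine ⟨a, ?_, ?_⟩
  · rw [← ha]
    rfl
  · exact ha0.isUnit

/-- The determinant is surjective on units commuting with a semisimple automorphism. -/
theorem exists_commute_det {F V : Type*} [Field F] [Finite F] [AddCommGroup V] [Module F V] [FiniteDimensional F V]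
    (f : Module.End F V) (k : ℕ) (hk : (k : F) ≠ 0) (hf : f ^ k = 1) (hV : 0 < Module.finrank F V) (d : F) (hd : d ≠ 0) :
    ∃ c : Module.End F V, Commute c f ∧ LinearMap.det c = d := by
  classical
  obtain ⟨t, p, e, φ, hp, hφ⟩ := exists_decomp f
  have hpow : ∀ (j : ℕ) v i, φ ((f ^ j) v) i = Ideal.Quotient.mk _ (X ^ j) * φ v i := by
    intro j
    induction j with
    | zero => intro v i; simp
    | succ j ih =>
      intro v i
      rw [pow_succ', Module.End.mul_apply, hφ, ih, pow_succ', map_mul, mul_assoc]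
  have hk0 : k ≠ 0 := by rintro rfl; exact hk (by simp)
  have hsep : (X ^ k - 1 : F[X]).Separable := by
    have := separable_X_pow_sub_C (1 : F) hk one_ne_zero
    simpa using this
  have hdvd : ∀ i, p i ^ e i ∣ X ^ k - 1 := by
    intro i
    have h1 := hpow k (φ.symm (Pi.single i 1)) i
    rw [hf, Module.End.one_apply, LinearEquiv.apply_symm_apply, Pi.single_eq_same, mul_one] at h1
    rw [← Ideal.mem_span_singleton, ← Ideal.Quotient.eq_zero_iff_mem, map_sub, ← h1, map_one, sub_self]
  have hle : ∀ i, e i ≤ 1 := by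
    intro i
    by_contra hcon
    push Not at hcon
    have h1 : p i * p i ∣ X ^ k - 1 := by
      rw [← sq]
      exact (pow_dvd_pow _ hcon).trans (hdvd i)
    exact (hp i).not_isUnit (hsep.squarefree _ h1)
  obtain ⟨i, hi⟩ : ∃ i, e i = 1 := by
    by_contra hcon
    push Not at hcon
    have h0 : ∀ i, e i = 0 := fun i => by have := hle i; have := hcon i; omega
    have hsub : Subsingleton ((i : Fin t) → F[X] ⧸ Ideal.span {p i ^ e i}) := by
      refine ⟨fun x y => funext fun i => ?_⟩
      have : Subsingleton (F[X] ⧸ Ideal.span {p i ^ e i}) := by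
        rw [h0 i, pow_zero, Ideal.span_singleton_one]
        infer_instance
      exact Subsingleton.elim _ _
    have : Subsingleton V := φ.injective.subsingleton
    rw [Module.finrank_zero_of_subsingleton] at hV
    exact lt_irrefl _ hV
  obtain ⟨a, ha, hau⟩ := exists_det_mul (p i) (hp i) (e i) hi d hd
  obtain ⟨c, hc1, hc2, hc3⟩ := exists_det_factor φ i (LinearMap.mulLeft F a)
  refine ⟨c, ?_, by rw [hc1, ha]⟩
  apply LinearMap.ext
  intro v
  apply φ.injective
  funext j
  rw [Module.End.mul_apply, Module.End.mul_apply]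
  by_cases hj : j = i
  · subst hj
    rw [hc2, hφ, hφ, hc2, LinearMap.mulLeft_apply, LinearMap.mulLeft_apply]
    ring
  · rw [hc3 _ _ hj, hφ, hφ, hc3 _ _ hj]

end Cfsg.Agent.H43
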