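import Mathlib

set_option autoImplicit false
set_option linter.unusedSectionVars false
set_option linter.unusedVariables false

/-! The combinatorics behind `k(GL_n(q)) ≤ q^n`. -/

namespace Cfsg.Agent.H43

/-- number of monic polynomials of degree `d` with non-zero constant term -/
def cN (q d : ℕ) : ℕ := if d = 0 then 1 else (q - 1) * q ^ (d - 1)

theorem cN_zero (q : ℕ) : cN q 0 = 1 := rfl

theorem cN_succ (q d : ℕ) : cN q (d + 1) = (q - 1) * q ^ d := by
  simp [cN]

theorem cN_rec (q : ℕ) (hq : 1 ≤ q) (d : ℕ) (hd : 1 ≤ d) : cN q (d + 1) = q * cN q d := by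
  obtain ⟨e, rfl⟩ : ∃ e, d = e + 1 := ⟨d - 1, by omega⟩
  rw [cN_succ, cN_succ, pow_succ]; ring

/-- number of label sequences with total degree `m` and weight `n` -/
def hN (q : ℕ) : ℕ → ℕ → ℕ
  | 0, 0 => 1
  | 0, _ + 1 => 0
  | m + 1, n => if h : m + 1 ≤ n then ∑ d : Fin (m + 2), cN q d * hN q (m + 1 - d) (n - (m + 1)) else 0
termination_by m n => (n, m)
decreasing_by
  simp_wf
  left
  omega

theorem hN_zero_zero (q : ℕ) : hN q 0 0 = 1 := by rw [hN]

theorem hN_zero_succ (q n : ℕ) : hN q 0 (n + 1) = 0 := by rw [hN]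

theorem hN_zero_pos (q n : ℕ) (hn : 1 ≤ n) : hN q 0 n = 0 := by
  obtain ⟨e, rfl⟩ : ∃ e, n = e + 1 := ⟨n - 1, by omega⟩
  exact hN_zero_succ q e

theorem hN_lt (q m n : ℕ) (h : n < m) : hN q m n = 0 := by
  obtain ⟨e, rfl⟩ : ∃ e, m = e + 1 := ⟨m - 1, by omega⟩
  rw [hN, dif_neg (by omega)]

theorem hN_succ (q m n : ℕ) (h : m + 1 ≤ n) :
    hN q (m + 1) n = ∑ d ∈ Finset.range (m + 2), cN q d * hN q (m + 1 - d) (n - (m + 1)) := by
  rw [hN, dif_pos h, Finset.sum_range]

/-- the recursion also for `m = 0` -/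
theorem hN_rec (q m n : ℕ) (h : m ≤ n) :
    hN q m n = ∑ d ∈ Finset.range (m + 1), cN q d * hN q (m - d) (n - m) := by
  rcases m with _ | m
  · simp [cN_zero]
  · exact hN_succ q m n h

theorem hN_step (q : ℕ) (hq : 1 ≤ q) (m n : ℕ) (h : m + 1 ≤ n) :
    hN q (m + 1) n + hN q m (n - (m + 1)) = hN q (m + 1) (n - (m + 1)) + q * hN q m (n - 1) := by
  have e1 : n - 1 - m = n - (m + 1) := by omega
  rw [hN_rec q (m + 1) n h, hN_rec q m (n - 1) (by omega), e1, Finset.sum_range_succ', Finset.mul_sum]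
  rw [Finset.sum_range_succ' (fun i => q * (cN q i * hN q (m - i) (n - (m + 1))))]
  rw [Finset.sum_range_succ' (fun k => cN q (k + 1) * hN q (m + 1 - (k + 1)) (n - (m + 1)))]
  have e2 : ∀ i ∈ Finset.range m, cN q (i + 1 + 1) * hN q (m + 1 - (i + 1 + 1)) (n - (m + 1)) =
      q * (cN q (i + 1) * hN q (m - (i + 1)) (n - (m + 1))) := by
    intro i _
    rw [cN_rec q hq (i + 1) (by omega), Nat.add_sub_add_right]
    ring
  rw [Finset.sum_congr rfl e2]
  have e3 : cN q (0 + 1) * hN q (m + 1 - (0 + 1)) (n - (m + 1)) + hN q m (n - (m + 1)) = q * (cN q 0 * hN q (m - 0) (n - (m + 1))) := by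
    rw [cN_succ, pow_zero, mul_one, cN_zero, one_mul, Nat.sub_zero]
    have : m + 1 - (0 + 1) = m := by omega
    rw [this]
    obtain ⟨e, rfl⟩ : ∃ e, q = e + 1 := ⟨q - 1, by omega⟩
    rw [Nat.add_sub_cancel]; ring
  have e4 : cN q 0 * hN q (m + 1 - 0) (n - (m + 1)) = hN q (m + 1) (n - (m + 1)) := by
    rw [cN_zero, one_mul, Nat.sub_zero]
  rw [e4]
  omega

/-- the complementary numbers -/
def rN (q : ℕ) : ℕ → ℕ → ℕ
  | 0, _ => 0
  | m + 1, n => if h : m + 1 ≤ n then hN q m (n - (m + 1)) + rN q (m + 1) (n - (m + 1)) else 0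
termination_by m n => n
decreasing_by
  omega

theorem rN_zero (q n : ℕ) : rN q 0 n = 0 := by rw [rN]

theorem rN_lt (q m n : ℕ) (h : n < m) : rN q m n = 0 := by
  obtain ⟨e, rfl⟩ : ∃ e, m = e + 1 := ⟨m - 1, by omega⟩
  rw [rN, dif_neg (by omega)]

theorem rN_succ (q m n : ℕ) (h : m + 1 ≤ n) :
    rN q (m + 1) n = hN q m (n - (m + 1)) + rN q (m + 1) (n - (m + 1)) := by
  rw [rN, dif_pos h]

theorem key_rec (q : ℕ) (hq : 1 ≤ q) (m n : ℕ) :
    hN q (m + 1) (n + 1) + rN q (m + 1) (n + 1) = q * (hN q m n + rN q (m + 1) n) := by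
  induction n using Nat.strong_induction_on with
  | _ n ih =>
    by_cases h : n < m
    · rw [hN_lt q _ _ (by omega), hN_lt q _ _ h, rN_lt q _ _ (by omega), rN_lt q _ _ (by omega)]
      simp
    · push Not at h
      have h1 := hN_step q hq m (n + 1) (by omega)
      rw [rN_succ q m (n + 1) (by omega)]
      have e1 : n + 1 - (m + 1) = n - m := by omega
      have e2 : n + 1 - 1 = n := by omega
      rw [e1, e2] at h1
      rw [e1]
      by_cases h2 : n = m
      · subst h2
        rw [Nat.sub_self] at h1 ⊢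
        rw [rN_lt q (n + 1) n (by omega), rN_lt q (n + 1) 0 (by omega), add_zero, add_zero]
        rw [hN_lt q (n + 1) 0 (by omega)] at h1
        omega
      · obtain ⟨k, hk⟩ : ∃ k, n - m = k + 1 := ⟨n - m - 1, by omega⟩
        have h3 := ih k (by omega)
        rw [rN_succ q m n (by omega)]
        have e3 : n - (m + 1) = k := by omega
        rw [hk] at h1 ⊢
        rw [e3]
        have h4 : hN q m n + (hN q m k + rN q (m + 1) k) = hN q m n + (hN q m k + rN q (m + 1) k) := rfl
        have h5 : q * (hN q m n + (hN q m k + rN q (m + 1) k)) = q * hN q m n + q * (hN q m k + rN q (m + 1) k) := by ring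
        rw [h5, ← h3]
        omega

/-- number of label sequences of weight `n` -/
def aN (q n : ℕ) : ℕ := ∑ m ∈ Finset.range (n + 1), hN q m n

def RN (q n : ℕ) : ℕ := ∑ m ∈ Finset.range (n + 1), rN q m n

theorem aN_add_RN (q : ℕ) (hq : 1 ≤ q) (n : ℕ) : aN q n + RN q n = q ^ n := by
  induction n with
  | zero => simp [aN, RN, hN_zero_zero, rN_zero]
  | succ n ih =>
    rw [aN, RN, Finset.sum_range_succ', Finset.sum_range_succ' (fun m => rN q m (n + 1)), hN_zero_succ, rN_zero,
      add_zero, add_zero, ← Finset.sum_add_distrib, Finset.sum_congr rfl (fun m _ => key_rec q hq m n), ← Finset.mul_sum,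
      pow_succ, mul_comm (q ^ n), ← ih, Finset.sum_add_distrib]
    congr 1
    rw [aN, RN, Finset.sum_range_succ' (fun m => rN q m n), rN_zero, add_zero, Finset.sum_range_succ (fun m => rN q (m + 1) n),
      rN_lt q (n + 1) n (by omega), add_zero]

theorem RN_pos (q n : ℕ) (hq : 1 ≤ q) (hn : 1 ≤ n) : 1 ≤ RN q n := by
  have h1 : ∀ n, 1 ≤ n → rN q 1 n = 1 := by
    intro n
    induction n with
    | zero => intro h; omega
    | succ n ih =>
      intro _
      rw [rN_succ q 0 (n + 1) (by omega)]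
      have : n + 1 - (0 + 1) = n := by omega
      rw [this]
      rcases n with _ | n
      · rw [hN_zero_zero, rN_lt q _ _ (by omega)]
      · rw [hN_zero_succ]
        have := ih (by omega)
        rw [zero_add] at *
        omega
  have h2 : rN q 1 n ≤ RN q n := by
    unfold RN
    exact Finset.single_le_sum (f := fun m => rN q m n) (fun _ _ => Nat.zero_le _) (Finset.mem_range.2 (by omega))
  rw [h1 n hn] at h2
  exact h2

theorem aN_le (q n : ℕ) (hq : 1 ≤ q) : aN q n ≤ q ^ n := by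
  have := aN_add_RN q hq n
  omega

theorem aN_le' (q n : ℕ) (hq : 1 ≤ q) (hn : 1 ≤ n) : aN q n + 1 ≤ q ^ n := by
  have := aN_add_RN q hq n
  have := RN_pos q n hq hn
  omega

theorem hN_one (q : ℕ) (n : ℕ) (hn : 1 ≤ n) : hN q 1 n = q - 1 := by
  induction n with
  | zero => omega
  | succ n ih =>
    rw [hN_rec q 1 (n + 1) (by omega), Finset.sum_range_succ, Finset.sum_range_one]
    have : n + 1 - 1 = n := by omega
    rw [this, cN_zero, one_mul, Nat.sub_zero, Nat.sub_self, cN_succ, pow_zero, mul_one]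
    rcases n with _ | n
    · rw [hN_lt q 1 0 (by omega), hN_zero_zero]; omega
    · rw [ih (by omega), hN_zero_succ]; omega

theorem aN_one (q : ℕ) : aN q 1 = q - 1 := by
  rw [aN, Finset.sum_range_succ, Finset.sum_range_one, hN_one q 1 le_rfl, hN_zero_succ]; omega

theorem aN_zero (q : ℕ) : aN q 0 = 1 := by
  rw [aN, Finset.sum_range_one, hN_zero_zero]

theorem aN_three_le (q : ℕ) (hq : 1 ≤ q) : aN q 3 + q ≤ q ^ 3 := by
  have h := aN_add_RN q hq 3
  have h1 : RN q 3 ≥ q := by
    unfold RN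
    rw [Finset.sum_range_succ, Finset.sum_range_succ, Finset.sum_range_succ, Finset.sum_range_one]
    have e1 : rN q 2 3 = q - 1 := by
      rw [rN_succ q 1 3 (by omega)]
      have : 3 - (1 + 1) = 1 := rfl
      rw [this, hN_one q 1 le_rfl, rN_lt q _ _ (by omega)]; omega
    have e2 : rN q 1 3 = 1 := by
      rw [rN_succ q 0 3 (by omega)]
      have : 3 - (0 + 1) = 2 := rfl
      rw [this, hN_zero_succ, rN_succ q 0 2 (by omega)]
      have : 2 - (0 + 1) = 1 := rfl
      rw [this, hN_zero_succ, rN_succ q 0 1 (by omega)]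
      have : 1 - (0 + 1) = 0 := rfl
      rw [this, hN_zero_zero, rN_lt q _ _ (by omega)]
    omega
  omega

end Cfsg.Agent.H43
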