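import Mathlib
import Cfsg.Agent.H43.CombH

set_option autoImplicit false
set_option linter.unusedSectionVars false
set_option linter.unusedVariables false

/-! Counting label sequences. -/

namespace Cfsg.Agent.H43

section
universe u
variable {Λ : Type u} (deg : Λ → ℕ)

/-- label sequences of weight `n` -/
def LabT (K n : ℕ) : Type u := {g : Fin K → Λ // ∑ i : Fin K, ((i : ℕ) + 1) * deg (g i) = n}

/-- label sequences of total degree `m` and weight `n` -/
def LabM (K m n : ℕ) : Type u := {g : Fin K → Λ // ∑ i : Fin K, deg (g i) = m ∧ ∑ i : Fin K, ((i : ℕ) + 1) * deg (g i) = n}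

theorem card_LabM (q : ℕ) (hfin : ∀ d, Finite {x // deg x = d}) (hc : ∀ d, Nat.card {x // deg x = d} ≤ cN q d) (K m n : ℕ) :
    Finite (LabM deg K m n) ∧ Nat.card (LabM deg K m n) ≤ hN q m n := by
  induction K generalizing m n with
  | zero =>
    have hsub : Subsingleton (LabM deg 0 m n) := ⟨fun a b => Subtype.ext (Subsingleton.elim _ _)⟩
    refine ⟨inferInstance, ?_⟩
    by_cases h : m = 0 ∧ n = 0
    · obtain ⟨rfl, rfl⟩ := h
      rw [hN_zero_zero]
      exact Finite.card_le_one_iff_subsingleton.2 hsub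
    · have : IsEmpty (LabM deg 0 m n) := by
        refine ⟨fun g => h ?_⟩
        have := g.2
        simp only [Finset.univ_eq_empty, Finset.sum_empty] at this
        exact ⟨this.1.symm, this.2.symm⟩
      rw [Nat.card_of_isEmpty]
      exact Nat.zero_le _
  | succ K ih =>
    have key : ∀ g : LabM deg (K + 1) m n, deg (g.1 0) ≤ m ∧ m ≤ n ∧ ∑ i : Fin K, deg (g.1 i.succ) = m - deg (g.1 0) ∧
        ∑ i : Fin K, ((i : ℕ) + 1) * deg (g.1 i.succ) = n - m := by
      intro g
      obtain ⟨h1, h2⟩ := g.2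
      rw [Fin.sum_univ_succ] at h1 h2
      have h3 : ∑ i : Fin K, (((i.succ : Fin (K + 1)) : ℕ) + 1) * deg (g.1 i.succ) =
          ∑ i : Fin K, ((i : ℕ) + 1) * deg (g.1 i.succ) + ∑ i : Fin K, deg (g.1 i.succ) := by
        rw [← Finset.sum_add_distrib]
        refine Finset.sum_congr rfl fun i _ => ?_
        rw [Fin.val_succ]; ring
      rw [h3] at h2
      simp only [Fin.val_zero, zero_add, one_mul] at h2
      refine ⟨?_, ?_, ?_, ?_⟩ <;> omega
    have hfin' : ∀ (d : Fin (m + 1)), Finite ({x // deg x = (d : ℕ)} × LabM deg K (m - d) (n - m)) := by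
      intro d
      have := hfin d
      have := (ih (m - d) (n - m)).1
      infer_instance
    let f : LabM deg (K + 1) m n → (d : Fin (m + 1)) × ({x // deg x = (d : ℕ)} × LabM deg K (m - d) (n - m)) :=
      fun g => ⟨⟨deg (g.1 0), by have := (key g).1; omega⟩, ⟨g.1 0, rfl⟩, ⟨fun i => g.1 i.succ, (key g).2.2⟩⟩
    have hf : Function.Injective f := by
      intro a b hab
      have h1 : a.1 0 = b.1 0 := by
        have : ∀ x : (d : Fin (m + 1)) × ({x // deg x = (d : ℕ)} × LabM deg K (m - d) (n - m)), x.2.1.1 = x.2.1.1 := fun _ => rfl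
        exact congrArg (fun x : (d : Fin (m + 1)) × ({x // deg x = (d : ℕ)} × LabM deg K (m - d) (n - m)) => x.2.1.1) hab
      have h2 : (fun i : Fin K => a.1 i.succ) = fun i : Fin K => b.1 i.succ :=
        congrArg (fun x : (d : Fin (m + 1)) × ({x // deg x = (d : ℕ)} × LabM deg K (m - d) (n - m)) => x.2.2.1) hab
      apply Subtype.ext
      funext i
      refine Fin.cases h1 (fun j => congrFun h2 j) i
    refine ⟨Finite.of_injective f hf, ?_⟩
    by_cases hmn : m ≤ n
    · rw [hN_rec q m n hmn]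
      refine (Nat.card_le_card_of_injective f hf).trans ?_
      rw [Nat.card_sigma, Finset.sum_range]
      apply Finset.sum_le_sum
      intro d _
      rw [Nat.card_prod]
      exact Nat.mul_le_mul (hc d) (ih _ _).2
    · have : IsEmpty (LabM deg (K + 1) m n) := ⟨fun g => hmn (key g).2.1⟩
      rw [Nat.card_of_isEmpty]
      exact Nat.zero_le _

theorem card_LabT (q : ℕ) (hfin : ∀ d, Finite {x // deg x = d}) (hc : ∀ d, Nat.card {x // deg x = d} ≤ cN q d) (K n : ℕ) :
    Finite (LabT deg K n) ∧ Nat.card (LabT deg K n) ≤ aN q n := by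
  have key : ∀ g : LabT deg K n, ∑ i, deg (g.1 i) < n + 1 := by
    intro g
    have h1 := g.2
    have h2 : ∑ i, deg (g.1 i) ≤ ∑ i : Fin K, ((i : ℕ) + 1) * deg (g.1 i) :=
      Finset.sum_le_sum fun i _ => Nat.le_mul_of_pos_left _ (by omega)
    omega
  let f : LabT deg K n → (m : Fin (n + 1)) × LabM deg K m n := fun g => ⟨⟨_, key g⟩, ⟨g.1, rfl, g.2⟩⟩
  have hf : Function.Injective f := by
    intro a b hab
    apply Subtype.ext
    exact congrArg (fun x : (m : Fin (n + 1)) × LabM deg K m n => x.2.1) hab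
  have hfin' : ∀ m : Fin (n + 1), Finite (LabM deg K m n) := fun m => (card_LabM deg q hfin hc K m n).1
  refine ⟨Finite.of_injective f hf, ?_⟩
  refine (Nat.card_le_card_of_injective f hf).trans ?_
  rw [Nat.card_sigma, aN, Finset.sum_range]
  exact Finset.sum_le_sum fun m _ => (card_LabM deg q hfin hc K m n).2

end

end Cfsg.Agent.H43
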