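import Mathlib
import Cfsg.Agent.H43.Jordan2
import Cfsg.Agent.H43.SympEquiv

set_option autoImplicit false
set_option linter.unusedSectionVars false
set_option linter.unusedVariables false

/-! Jordan types of unipotent isometries. -/

namespace Cfsg.Agent.H43

variable {F : Type*} {V : Type*} [Field F] [AddCommGroup V] [Module F V]

section MN
variable (u : V ≃ₗ[F] V) {N M : Module.End F V} (hN : ∀ x, N x = u x - x) (hM : ∀ x, M x = x - u.symm x)
include hN hM

theorem M_eq (x : V) : M x = u.symm (N x) := by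
  rw [hM, hN, map_sub, LinearEquiv.symm_apply_apply]

theorem Nu_comm (x : V) : N (u.symm x) = u.symm (N x) := by
  rw [hN, hN, map_sub, LinearEquiv.symm_apply_apply, LinearEquiv.apply_symm_apply]

theorem Nu_pow_comm (j : ℕ) (x : V) : (N ^ j) (u.symm x) = u.symm ((N ^ j) x) := by
  induction j generalizing x with
  | zero => rfl
  | succ j ih => rw [pow_succ, Module.End.mul_apply, Nu_comm u hN hM, ih, Module.End.mul_apply]

theorem M_pow_zero (a : ℕ) (x : V) (h : (N ^ a) x = 0) : (M ^ a) x = 0 := by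
  induction a generalizing x with
  | zero => exact h
  | succ a ih =>
    rw [pow_succ, Module.End.mul_apply]
    apply ih
    rw [M_eq u hN hM, Nu_pow_comm u hN hM, ← Module.End.mul_apply, ← pow_succ, h, map_zero]

theorem N_pow_zero (a : ℕ) (x : V) (h : (M ^ a) x = 0) : (N ^ a) x = 0 := by
  have hc : ∀ (j : ℕ) (x : V), (M ^ j) (u x) = u ((M ^ j) x) := by
    intro j
    induction j with
    | zero => intro x; rfl
    | succ j ih =>
      intro x
      rw [pow_succ, Module.End.mul_apply, Module.End.mul_apply, ← ih]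
      congr 1
      rw [hM, hM, map_sub, LinearEquiv.symm_apply_apply, LinearEquiv.apply_symm_apply]
  induction a generalizing x with
  | zero => exact h
  | succ a ih =>
    rw [pow_succ, Module.End.mul_apply]
    apply ih
    have : N x = u (M x) := by rw [M_eq u hN hM, LinearEquiv.apply_symm_apply]
    rw [this, hc, ← Module.End.mul_apply, ← pow_succ, h, map_zero]

theorem M_pow_eq (j : ℕ) (y : V) (h : (N ^ (j + 1)) y = 0) : (M ^ j) y = (N ^ j) y := by
  induction j generalizing y with
  | zero => rfl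
  | succ j ih =>
    rw [pow_succ, Module.End.mul_apply]
    have h1 : (N ^ (j + 1)) (M y) = 0 := by
      rw [M_eq u hN hM, Nu_pow_comm u hN hM, ← Module.End.mul_apply, ← pow_succ, h, map_zero]
    rw [ih _ h1, M_eq u hN hM, Nu_pow_comm u hN hM, ← Module.End.mul_apply, ← pow_succ]
    rw [LinearEquiv.symm_apply_eq]
    have h2 : N ((N ^ (j + 1)) y) = 0 := by rw [← Module.End.mul_apply, ← pow_succ', h]
    rw [hN, sub_eq_zero] at h2
    exact h2.symm

variable {B : LinearMap.BilinForm F V} (hu : ∀ x y, B (u x) (u y) = B x y)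
include hu

theorem B_N (x y : V) : B (N x) y = - B x (M y) := by
  have h : B (u x) y = B x (u.symm y) := by rw [← hu x, LinearEquiv.apply_symm_apply]
  rw [hN, hM, map_sub, LinearMap.sub_apply, map_sub, h]
  ring

theorem B_N_pow (j : ℕ) (x y : V) : B ((N ^ j) x) y = (-1) ^ j * B x ((M ^ j) y) := by
  induction j generalizing x y with
  | zero => simp
  | succ j ih =>
    rw [pow_succ', Module.End.mul_apply, B_N u hN hM hu, ih, ← Module.End.mul_apply, ← pow_succ, pow_succ (-1 : F)]
    ring

/-- alternating form: vanishing for odd `j = 2 i + 1` -/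
theorem alt_vanish (hA : B.IsAlt) (i : ℕ) (x : V) (h : (N ^ (2 * i + 1)) x = 0) : B x ((N ^ (2 * i)) x) = 0 := by
  have h1 : (N ^ (i + 1)) ((N ^ i) x) = 0 := by
    rw [← Module.End.mul_apply, ← pow_add, show i + 1 + i = 2 * i + 1 by ring, h]
  have h2 := M_pow_eq u hN hM i _ h1
  rw [two_mul, pow_add, Module.End.mul_apply, ← h2]
  have h3 := B_N_pow u hN hM hu i x ((N ^ i) x)
  rw [hA] at h3
  have h4 : ((-1 : F) ^ i) ≠ 0 := pow_ne_zero _ (neg_ne_zero.2 one_ne_zero)
  exact (mul_eq_zero.1 h3.symm).resolve_left h4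

/-- symmetric form, odd characteristic: vanishing for `j - 1` odd -/
theorem sym_vanish (hs : ∀ x y, B y x = B x y) (h2 : (2 : F) ≠ 0) (i : ℕ) (hi : Odd i) (x : V) (h : (N ^ (i + 1)) x = 0) :
    B x ((N ^ i) x) = 0 := by
  have h3 := B_N_pow u hN hM hu i x x
  rw [hi.neg_one_pow, M_pow_eq u hN hM i x h, hs] at h3
  have h4 : (2 : F) * B x ((N ^ i) x) = 0 := by linear_combination h3
  exact (mul_eq_zero.1 h4).resolve_left h2

end MN

section parity

variable [FiniteDimensional F V]

theorem even_card_of_vanish {B : LinearMap.BilinForm F V} {ε : F} (hε : ε * ε = 1) (hs : ∀ x y, B y x = ε * B x y)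
    (hnd : B.Nondegenerate) (u : V ≃ₗ[F] V) (hu : ∀ x y, B (u x) (u y) = B x y) {N : Module.End F V} (hN : ∀ x, N x = u x - x)
    {ι : Type*} [Fintype ι] {d : ι → ℕ} {b : Module.Basis ((k : ι) × Fin (d k)) F V} (hJ : JB N d b) (j : ℕ) (hj : 1 ≤ j)
    (hv : ∀ x, (N ^ j) x = 0 → B x ((N ^ (j - 1)) x) = 0) :
    Even (Finset.univ.filter (fun k => d k = j)).card := by
  classical
  obtain ⟨i, rfl⟩ : ∃ i, j = i + 1 := ⟨j - 1, by omega⟩
  rw [Nat.add_sub_cancel] at hv
  obtain ⟨M, hM⟩ : ∃ M : Module.End F V, ∀ x, M x = x - u.symm x :=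
    ⟨LinearMap.id - (u.symm : V →ₗ[F] V), fun x => rfl⟩
  have hrefl : B.IsRefl := by
    intro x y h
    rw [hs, h, mul_zero]
  have horange : ∀ a : ℕ, B.orthogonal (LinearMap.range (N ^ a)) = LinearMap.ker (N ^ a) := by
    intro a
    ext x
    rw [LinearMap.BilinForm.mem_orthogonal_iff, LinearMap.mem_ker]
    constructor
    · intro h
      apply N_pow_zero u hN hM
      apply hnd.2
      intro y
      have h1 := h _ ⟨y, rfl⟩
      rw [B_N_pow u hN hM hu] at h1
      exact (mul_eq_zero.1 h1).resolve_left (pow_ne_zero _ (neg_ne_zero.2 one_ne_zero))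
    · rintro h _ ⟨y, rfl⟩
      rw [B_N_pow u hN hM hu, M_pow_zero u hN hM a x h, map_zero, mul_zero]
  have hOker : ∀ a : ℕ, B.orthogonal (LinearMap.ker (N ^ a)) = LinearMap.range (N ^ a) := by
    intro a
    rw [← horange, LinearMap.BilinForm.orthogonal_orthogonal hnd hrefl]
  have hsup : B.orthogonal (LinearMap.ker (N ^ 1) ⊓ LinearMap.range (N ^ i)) = LinearMap.range (N ^ 1) ⊔ LinearMap.ker (N ^ i) := by
    have h1 : B.orthogonal (LinearMap.range (N ^ 1) ⊔ LinearMap.ker (N ^ i)) = LinearMap.ker (N ^ 1) ⊓ LinearMap.range (N ^ i) := by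
      rw [← horange 1, ← hOker i]
      ext x
      rw [LinearMap.BilinForm.mem_orthogonal_iff, Submodule.mem_inf, LinearMap.BilinForm.mem_orthogonal_iff,
        LinearMap.BilinForm.mem_orthogonal_iff]
      constructor
      · intro h
        exact ⟨fun n hn => h n (Submodule.mem_sup_left hn), fun n hn => h n (Submodule.mem_sup_right hn)⟩
      · rintro ⟨h2, h3⟩ n hn
        obtain ⟨n1, hn1, n2, hn2, rfl⟩ := Submodule.mem_sup.1 hn
        rw [map_add, LinearMap.add_apply, h2 n1 hn1, h3 n2 hn2, add_zero]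
    rw [← h1, LinearMap.BilinForm.orthogonal_orthogonal hnd hrefl]
  -- the space of generators
  let K := {k : ι // d k = i + 1}
  have hK0 : ∀ k : K, 0 < d k.1 := fun k => by rw [k.2]; omega
  obtain ⟨X, hX⟩ : ∃ X : (K → F) →ₗ[F] V, ∀ c, X c = ∑ k : K, c k • b ⟨k.1, ⟨0, hK0 k⟩⟩ :=
    ⟨Fintype.linearCombination F (fun k : K => b ⟨k.1, ⟨0, hK0 k⟩⟩), fun c => by rw [Fintype.linearCombination_apply]⟩
  have hXN : ∀ c, (N ^ (i + 1)) (X c) = 0 := by
    intro c
    rw [hX, map_sum]
    apply Finset.sum_eq_zero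
    intro k _
    rw [map_smul, hJ.pow, dif_neg (by have := k.2; simp; omega), smul_zero]
  obtain ⟨β, hβ⟩ : ∃ β : LinearMap.BilinForm F (K → F), ∀ c c', β c c' = B (X c) ((N ^ i) (X c')) :=
    ⟨B.compl₁₂ X ((N ^ i) ∘ₗ X), fun c c' => rfl⟩
  have hβA : β.IsAlt := by
    intro c
    rw [hβ]
    exact hv _ (hXN c)
  have hβnd : ∀ c, (∀ c', β c c' = 0) → c = 0 := by
    intro c hc
    obtain ⟨x, hx⟩ : ∃ x, x = X c := ⟨_, rfl⟩
    have hxN : (N ^ (i + 1)) x = 0 := by rw [hx]; exact hXN c
    have hxl : ∀ k : K, B x ((N ^ i) (b ⟨k.1, ⟨0, hK0 k⟩⟩)) = 0 := by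
      intro k
      have h1 := hc (Pi.single k 1)
      rw [hβ, ← hx, hX] at h1
      rw [Finset.sum_eq_single k] at h1
      · rw [Pi.single_eq_same, one_smul] at h1
        exact h1
      · intro l _ hl
        rw [Pi.single_eq_of_ne hl, zero_smul]
      · intro h; exact absurd (Finset.mem_univ _) h
    -- orthogonal to N^i (ker N^(i+1))
    have hxo : x ∈ B.orthogonal (LinearMap.ker (N ^ 1) ⊓ LinearMap.range (N ^ i)) := by
      rw [LinearMap.BilinForm.mem_orthogonal_iff]
      intro n hn
      obtain ⟨hn1, y, rfl⟩ := Submodule.mem_inf.1 hn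
      have hy : (N ^ (i + 1)) y = 0 := by
        rw [pow_succ', Module.End.mul_apply]
        rw [LinearMap.mem_ker, pow_one] at hn1
        exact hn1
      apply hrefl
      have hexp : y = ∑ z, b.repr y z • b z := (b.sum_repr y).symm
      have hcoord : ∀ (k : ι) (l : Fin (d k)), (l : ℕ) + (i + 1) < d k → b.repr y ⟨k, l⟩ = 0 := by
        intro k l hl
        have h1 : (b.repr ((N ^ (i + 1)) y)) ⟨k, ⟨(l : ℕ) + (i + 1), hl⟩⟩ = b.repr y ⟨k, l⟩ := by
          conv_lhs => rw [hexp]
          rw [map_sum, map_sum, Finsupp.finsetSum_apply, Finset.sum_eq_single ⟨k, l⟩]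
          · rw [map_smul, hJ.pow, dif_pos hl, map_smul, Module.Basis.repr_self, Finsupp.smul_apply, Finsupp.single_eq_same,
              smul_eq_mul, mul_one]
          · rintro ⟨k', l'⟩ _ hne
            rw [map_smul, hJ.pow]
            by_cases h2 : (l' : ℕ) + (i + 1) < d k'
            · rw [dif_pos h2, map_smul, Module.Basis.repr_self, Finsupp.smul_apply, Finsupp.single_eq_of_ne, smul_zero]
              intro h3
              rw [Sigma.mk.injEq] at h3
              obtain ⟨rfl, h4⟩ := h3
              have h5 := congrArg Fin.val (eq_of_heq h4)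
              simp only at h5
              apply hne
              congr 1
              exact Fin.ext (by omega)
            · rw [dif_neg h2, smul_zero, map_zero]; rfl
          · intro h; exact absurd (Finset.mem_univ _) h
        rw [← h1, hy, map_zero]; rfl
      rw [hexp, map_sum, map_sum]
      apply Finset.sum_eq_zero
      rintro ⟨k, l⟩ _
      rw [map_smul, map_smul]
      by_cases h1 : (l : ℕ) + (i + 1) < d k
      · rw [hcoord k l h1, zero_smul]
      · rw [hJ.pow]
        by_cases h2 : (l : ℕ) + i < d k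
        · rw [dif_pos h2]
          by_cases h3 : (l : ℕ) = 0
          · have hk : d k = i + 1 := by omega
            have h4 := hxl ⟨k, hk⟩
            rw [hJ.pow, dif_pos (by simp; omega)] at h4
            have h5 : b ⟨k, ⟨(l : ℕ) + i, h2⟩⟩ = b ⟨k, ⟨((⟨0, by omega⟩ : Fin (d k)) : ℕ) + i, by simp; omega⟩⟩ := by
              congr 3
              rw [h3]
            rw [h5, h4, smul_zero]
          · have h4 : b ⟨k, ⟨(l : ℕ) + i, h2⟩⟩ = (N ^ (i + 1)) (b ⟨k, ⟨(l : ℕ) - 1, by omega⟩⟩) := by
              rw [hJ.pow, dif_pos (by simp; omega)]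
              congr 3
              simp; omega
            have h5 : B x ((N ^ (i + 1)) (b ⟨k, ⟨(l : ℕ) - 1, by omega⟩⟩)) = 0 := by
              apply hrefl
              rw [B_N_pow u hN hM hu, M_pow_zero u hN hM (i + 1) x hxN, map_zero, mul_zero]
            rw [h4, h5, smul_zero]
        · rw [dif_neg h2, map_zero, smul_zero]
    rw [hsup] at hxo
    obtain ⟨_, ⟨y, rfl⟩, z, hz, hyz⟩ := Submodule.mem_sup.1 hxo
    have hNx : (N ^ i) x = (N ^ (i + 1)) y := by
      rw [← hyz, map_add, (show (N ^ i) z = 0 from hz), add_zero, pow_one, pow_succ, Module.End.mul_apply]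
    funext k
    have hlt : i < d k.1 := by rw [k.2]; omega
    have h1 : (b.repr ((N ^ i) x)) ⟨k.1, ⟨i, hlt⟩⟩ = c k := by
      rw [hx, hX, map_sum, map_sum, Finsupp.finsetSum_apply, Finset.sum_eq_single k]
      · rw [map_smul, hJ.pow, dif_pos (by simpa using hlt), map_smul, Module.Basis.repr_self, Finsupp.smul_apply]
        have e : (⟨k.1, ⟨((⟨0, hK0 k⟩ : Fin (d k.1)) : ℕ) + i, by simpa using hlt⟩⟩ : (k : ι) × Fin (d k)) = ⟨k.1, ⟨i, hlt⟩⟩ := by
          congr 2
          simp
        rw [e, Finsupp.single_eq_same, smul_eq_mul, mul_one]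
      · intro l _ hl
        have hlt' : i < d l.1 := by rw [l.2]; omega
        rw [map_smul, hJ.pow, dif_pos (by simpa using hlt'), map_smul, Module.Basis.repr_self, Finsupp.smul_apply,
          Finsupp.single_eq_of_ne, smul_zero]
        intro h3
        rw [Sigma.mk.injEq] at h3
        exact hl (Subtype.ext h3.1.symm)
      · intro h; exact absurd (Finset.mem_univ _) h
    rw [← h1, hNx]
    conv_lhs => rw [← b.sum_repr y]
    rw [map_sum, map_sum, Finsupp.finsetSum_apply]
    apply Finset.sum_eq_zero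
    rintro ⟨k', l'⟩ _
    rw [map_smul, hJ.pow]
    by_cases h2 : (l' : ℕ) + (i + 1) < d k'
    · rw [dif_pos h2, map_smul, Module.Basis.repr_self, Finsupp.smul_apply, Finsupp.single_eq_of_ne, smul_zero]
      intro h3
      rw [Sigma.mk.injEq] at h3
      obtain ⟨h6, h4⟩ := h3
      have h5 : i = (l' : ℕ) + (i + 1) := by
        have : ∀ (a b : ι) (h : a = b) (x : Fin (d a)) (y : Fin (d b)), HEq x y → (x : ℕ) = y := by
          intro a b h x y hxy
          subst h
          rw [eq_of_heq hxy]
        exact this _ _ h6 _ _ h4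
      omega
    · rw [dif_neg h2, smul_zero, map_zero]; rfl
  obtain ⟨m, e, _⟩ := exists_symp_equiv β hβA hβnd
  have h1 := e.finrank_eq
  rw [Module.finrank_fintype_fun_eq_card, Module.finrank_fintype_fun_eq_card, Fintype.card_sum, Fintype.card_fin,
    Fintype.card_subtype] at h1
  exact ⟨m, h1⟩

end parity

end Cfsg.Agent.H43
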