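import Mathlib
import Cfsg.Agent.H43.Cyclic2
import Cfsg.Agent.H43.MatEnd

set_option autoImplicit false
set_option linter.unusedSectionVars false

/-! Regular unipotent matrices. -/

namespace Cfsg.Agent.H43

variable {F : Type*} [Field F] {ι : Type*} [Fintype ι] [DecidableEq ι]

/-- Data of a matrix `u` with `(u-1)^n = 0` and `rank (u-1) = n-1` in terms of the endomorphism. -/
theorem regular_data {n : ℕ} (hι : Fintype.card ι = n) {u : Matrix ι ι F} (hnil : (u - 1) ^ n = 0)
    (hreg : (u - 1).rank = n - 1) :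
    ((Matrix.toLin' (u - 1) : Module.End F (ι → F)) ^ n = 0) ∧
      Module.finrank F (LinearMap.ker (Matrix.toLin' (u - 1) : Module.End F (ι → F))) ≤ 1 := by
  constructor
  · rw [← Matrix.toLin'_pow, hnil, map_zero]
  · have := finrank_ker_toLin' (u - 1)
    rw [hreg, hι] at this
    omega

theorem exists_mul_eq_of_regular {n : ℕ} (hn : 1 ≤ n) (hι : Fintype.card ι = n) {u u' : Matrix ι ι F}
    (hnil : (u - 1) ^ n = 0) (hreg : (u - 1).rank = n - 1) (hnil' : (u' - 1) ^ n = 0) (hreg' : (u' - 1).rank = n - 1) :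
    ∃ g : GL ι F, (g : Matrix ι ι F) * u = u' * (g : Matrix ι ι F) := by
  obtain ⟨f, hf⟩ : ∃ f : Module.End F (ι → F), f = Matrix.toLin' (u - 1) := ⟨_, rfl⟩
  obtain ⟨f', hf'⟩ : ∃ f' : Module.End F (ι → F), f' = Matrix.toLin' (u' - 1) := ⟨_, rfl⟩
  have h1 := regular_data hι hnil hreg
  have h2 := regular_data hι hnil' hreg'
  rw [← hf] at h1
  rw [← hf'] at h2
  have hfr : n = Module.finrank F (ι → F) := by rw [Module.finrank_fintype_fun_eq_card, hι]
  obtain ⟨g, hg⟩ := exists_conj_regular f f' n hfr hfr hn h1.1 h2.1 h1.2 h2.2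
  obtain ⟨G, hG⟩ : ∃ G : Matrix ι ι F, G = LinearMap.toMatrix' (g : (ι → F) →ₗ[F] (ι → F)) := ⟨_, rfl⟩
  have hGv : ∀ x, G.mulVec x = g x := by
    intro x
    rw [hG, ← Matrix.toLin'_apply, Matrix.toLin'_toMatrix']
    rfl
  have hGu : IsUnit G := by
    rw [← Matrix.mulVec_injective_iff_isUnit]
    intro x y hxy
    have h2 : G.mulVec x = G.mulVec y := hxy
    rw [hGv, hGv] at h2
    exact g.injective h2
  obtain ⟨U, rfl⟩ := hGu
  refine ⟨U, ?_⟩
  have key : (U : Matrix ι ι F) * (u - 1) = (u' - 1) * (U : Matrix ι ι F) := by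
    apply (Matrix.toLin' (R := F) (m := ι) (n := ι)).injective
    apply LinearMap.ext
    intro x
    rw [Matrix.toLin'_apply, Matrix.toLin'_apply, ← Matrix.mulVec_mulVec, ← Matrix.mulVec_mulVec, hGv, hGv]
    have := hg x
    rw [hf, hf', Matrix.toLin'_apply, Matrix.toLin'_apply] at this
    exact this
  rw [mul_sub, sub_mul, mul_one, one_mul] at key
  exact sub_left_injective key

theorem det_of_commute_regular {n : ℕ} (hn : 1 ≤ n) (hι : Fintype.card ι = n) {u : Matrix ι ι F}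
    (hnil : (u - 1) ^ n = 0) (hreg : (u - 1).rank = n - 1) (c : Matrix ι ι F) (hc : c * u = u * c) :
    ∃ a : F, c.det = a ^ n := by
  obtain ⟨f, hf⟩ : ∃ f : Module.End F (ι → F), f = Matrix.toLin' (u - 1) := ⟨_, rfl⟩
  have h1 := regular_data hι hnil hreg
  rw [← hf] at h1
  have hfr : n = Module.finrank F (ι → F) := by rw [Module.finrank_fintype_fun_eq_card, hι]
  obtain ⟨c', hc'⟩ : ∃ c' : Module.End F (ι → F), c' = Matrix.toLin' c := ⟨_, rfl⟩
  have hcc : Commute c' f := by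
    rw [hc', hf, commute_toLin'_iff, mul_sub, sub_mul, hc, mul_one, one_mul]
  obtain ⟨a, ha⟩ := det_commute_regular f n hfr hn h1.1 h1.2 c' hcc
  refine ⟨a, ?_⟩
  rw [← ha, hc', LinearMap.det_toLin']

/-- Regularity is invariant under conjugation. -/
theorem regular_conj {n : ℕ} (g : GL ι F) {u u' : Matrix ι ι F} (h : (g : Matrix ι ι F) * u = u' * (g : Matrix ι ι F))
    (hnil : (u - 1) ^ n = 0) (hreg : (u - 1).rank = n - 1) : (u' - 1) ^ n = 0 ∧ (u' - 1).rank = n - 1 := by
  have h1 : u' - 1 = (g : Matrix ι ι F) * (u - 1) * ((g⁻¹ : GL ι F) : Matrix ι ι F) := by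
    have : u' = (g : Matrix ι ι F) * u * ((g⁻¹ : GL ι F) : Matrix ι ι F) := by
      rw [h, mul_assoc, ← Units.val_mul, mul_inv_cancel, Units.val_one, mul_one]
    rw [this, mul_sub, sub_mul, mul_one, ← Units.val_mul g, mul_inv_cancel, Units.val_one]
  have hgi : ((g⁻¹ : GL ι F) : Matrix ι ι F) * (g : Matrix ι ι F) = 1 := by
    rw [← Units.val_mul, inv_mul_cancel, Units.val_one]
  have hpow : ∀ k : ℕ, (u' - 1) ^ k = (g : Matrix ι ι F) * (u - 1) ^ k * ((g⁻¹ : GL ι F) : Matrix ι ι F) := by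
    intro k
    induction k with
    | zero => rw [pow_zero, pow_zero, mul_one, ← Units.val_mul, mul_inv_cancel, Units.val_one]
    | succ k ih =>
      rw [pow_succ, ih, h1, pow_succ]
      calc _ = (g : Matrix ι ι F) * (u - 1) ^ k * (((g⁻¹ : GL ι F) : Matrix ι ι F) * (g : Matrix ι ι F)) * (u - 1) * ((g⁻¹ : GL ι F) : Matrix ι ι F) := by
            simp only [mul_assoc]
        _ = _ := by rw [hgi, mul_one]; simp only [mul_assoc]
  constructor
  · rw [hpow, hnil, mul_zero, zero_mul]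
  · have hu1 : IsUnit (g : Matrix ι ι F).det := by
      rw [← Matrix.isUnit_iff_isUnit_det]; exact g.isUnit
    have hu2 : IsUnit ((g⁻¹ : GL ι F) : Matrix ι ι F).det := by
      rw [← Matrix.isUnit_iff_isUnit_det]; exact (g⁻¹).isUnit
    rw [h1, Matrix.rank_mul_eq_left_of_isUnit_det _ _ hu2, Matrix.rank_mul_eq_right_of_isUnit_det _ _ hu1, hreg]

/-- The determinant of a unipotent matrix. -/
theorem det_unipotent {n : ℕ} {u : Matrix ι ι F} (hnil : (u - 1) ^ n = 0) : u.det = 1 := by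
  have h1 : IsNilpotent (Matrix.toLin' (u - 1) : Module.End F (ι → F)) :=
    ⟨n, by rw [← Matrix.toLin'_pow, hnil, map_zero]⟩
  have h2 := det_scalar_add_nilpotent (1 : F) _ h1
  rw [map_one, one_pow, toLin'_sub_one, add_sub_cancel, LinearMap.det_toLin'] at h2
  exact h2

end Cfsg.Agent.H43
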