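import Mathlib
import Cfsg.Agent.H43.Jordan2
import Cfsg.Agent.H43.RegMat
import Cfsg.Agent.H43.SympReg4

set_option autoImplicit false
set_option linter.unusedSectionVars false
set_option linter.unusedVariables false

/-! Realizing Jordan types by isometries. -/

namespace Cfsg.Agent.H43

variable {F : Type*} [Field F]

/-- alternating or symmetric, and nondegenerate -/
def GoodForm (kind : Bool) {V : Type*} [AddCommGroup V] [Module F V] (B : LinearMap.BilinForm F V) : Prop :=
  (kind = true → B.IsAlt) ∧ (kind = false → ∀ x y, B y x = B x y) ∧ (∀ x, (∀ y, B x y = 0) → x = 0)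

/-- The type `d` is realized by an isometry of a form of the given kind. -/
def RealT (F : Type*) [Field F] (kind : Bool) {ι : Type*} (d : ι → ℕ) : Prop :=
  ∃ (n : ℕ) (B : LinearMap.BilinForm F (Fin n → F)) (u : (Fin n → F) ≃ₗ[F] (Fin n → F))
    (b : Module.Basis ((k : ι) × Fin (d k)) F (Fin n → F)), GoodForm kind B ∧ (∀ x y, B (u x) (u y) = B x y) ∧
    JB ((u : (Fin n → F) →ₗ[F] (Fin n → F)) - 1) d b

theorem RealT.of {kind : Bool} {ι V : Type*} [AddCommGroup V] [Module F V] [FiniteDimensional F V] {d : ι → ℕ}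
    (B : LinearMap.BilinForm F V) (hB : GoodForm kind B) (u : V ≃ₗ[F] V) (hu : ∀ x y, B (u x) (u y) = B x y)
    (b : Module.Basis ((k : ι) × Fin (d k)) F V) (N : Module.End F V) (hN : ∀ x, N x = u x - x) (hb : JB N d b) : RealT F kind d := by
  let e : V ≃ₗ[F] (Fin (Module.finrank F V) → F) := (Module.finBasis F V).equivFun
  refine ⟨Module.finrank F V, B.compl₁₂ (e.symm : _ →ₗ[F] V) (e.symm : _ →ₗ[F] V), (e.symm.trans u).trans e, b.map e, ⟨?_, ?_, ?_⟩, ?_, ?_⟩
  · intro h x
    exact hB.1 h _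
  · intro h x y
    exact hB.2.1 h _ _
  · intro x hx
    have h1 : e.symm x = 0 := by
      apply hB.2.2
      intro y
      have := hx (e y)
      change B (e.symm x) (e.symm (e y)) = 0 at this
      rwa [LinearEquiv.symm_apply_apply] at this
    exact e.symm.map_eq_zero_iff.1 h1
  · intro x y
    change B (e.symm (e (u (e.symm x)))) (e.symm (e (u (e.symm y)))) = B (e.symm x) (e.symm y)
    rw [LinearEquiv.symm_apply_apply, LinearEquiv.symm_apply_apply, hu]
  · apply hb.map e
    intro x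
    rw [hN, map_sub]
    change _ = e (u (e.symm (e x))) - e x
    rw [LinearEquiv.symm_apply_apply]

theorem RealT.reindex {kind : Bool} {ι ι' : Type*} {d : ι → ℕ} {d' : ι' → ℕ} (h : RealT F kind d) (σ : ι ≃ ι')
    (hσ : ∀ k, d' (σ k) = d k) : RealT F kind d' := by
  obtain ⟨n, B, u, b, hB, hu, hb⟩ := h
  obtain ⟨b', hb'⟩ := hb.reindex σ hσ
  exact ⟨n, B, u, b', hB, hu, hb'⟩

theorem RealT.empty {kind : Bool} {ι : Type*} [IsEmpty ι] (d : ι → ℕ) : RealT F kind d := by
  refine ⟨0, 0, LinearEquiv.refl F _, Module.Basis.empty _, ⟨?_, ?_, ?_⟩, ?_, ?_⟩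
  · intro _ x; rfl
  · intro _ x y; rfl
  · intro x _; exact Subsingleton.elim _ _
  · intro x y; rfl
  · intro k; exact isEmptyElim k

theorem RealT.sum {kind : Bool} {ι ι' : Type*} {d : ι → ℕ} {d' : ι' → ℕ} (h : RealT F kind d) (h' : RealT F kind d') :
    RealT F kind (Sum.elim d d') := by
  obtain ⟨n, B, u, b, hB, hu, hb⟩ := h
  obtain ⟨n', B', u', b', hB', hu', hb'⟩ := h'
  obtain ⟨C, hC⟩ : ∃ C : LinearMap.BilinForm F ((Fin n → F) × (Fin n' → F)), ∀ x y, C x y = B x.1 y.1 + B' x.2 y.2 :=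
    ⟨B.compl₁₂ (LinearMap.fst F _ _) (LinearMap.fst F _ _) + B'.compl₁₂ (LinearMap.snd F _ _) (LinearMap.snd F _ _), fun x y => rfl⟩
  obtain ⟨U, hU⟩ : ∃ U : ((Fin n → F) × (Fin n' → F)) ≃ₗ[F] ((Fin n → F) × (Fin n' → F)), ∀ x, U x = (u x.1, u' x.2) :=
    ⟨u.prodCongr u', fun x => rfl⟩
  obtain ⟨N, hN⟩ : ∃ N : Module.End F ((Fin n → F) × (Fin n' → F)), ∀ x, N x = U x - x :=
    ⟨(U : _ →ₗ[F] _) - LinearMap.id, fun x => rfl⟩
  let E : ((k : ι ⊕ ι') × Fin (Sum.elim d d' k)) ≃ (((k : ι) × Fin (d k)) ⊕ ((k : ι') × Fin (d' k))) :=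
    Equiv.sumSigmaDistrib (fun k : ι ⊕ ι' => Fin (Sum.elim d d' k))
  refine RealT.of C ⟨?_, ?_, ?_⟩ U ?_ ((b.prod b').reindex E.symm) N hN ?_
  · intro h x
    rw [hC, hB.1 h, hB'.1 h, add_zero]
  · intro h x y
    rw [hC, hC, hB.2.1 h, hB'.2.1 h]
  · intro x hx
    apply Prod.ext
    · apply hB.2.2
      intro y
      have := hx (y, 0)
      rw [hC] at this
      simpa using this
    · apply hB'.2.2
      intro y
      have := hx (0, y)
      rw [hC] at this
      simpa using this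
  · intro x y
    rw [hC, hC, hU, hU, hu, hu']
  · have hEl : ∀ (k : ι) (i : Fin (d k)), ((b.prod b').reindex E.symm) ⟨Sum.inl k, i⟩ = (b ⟨k, i⟩, 0) := by
      intro k i
      rw [Module.Basis.reindex_apply, Equiv.symm_symm]
      change (b.prod b') (Sum.inl ⟨k, i⟩) = _
      apply Prod.ext
      · rw [Module.Basis.prod_apply_inl_fst]
      · rw [Module.Basis.prod_apply_inl_snd]
    have hEr : ∀ (k : ι') (i : Fin (d' k)), ((b.prod b').reindex E.symm) ⟨Sum.inr k, i⟩ = (0, b' ⟨k, i⟩) := by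
      intro k i
      rw [Module.Basis.reindex_apply, Equiv.symm_symm]
      change (b.prod b') (Sum.inr ⟨k, i⟩) = _
      apply Prod.ext
      · rw [Module.Basis.prod_apply_inr_fst]
      · rw [Module.Basis.prod_apply_inr_snd]
    rintro (k | k) i
    · have h1 := hb k i
      rw [LinearMap.sub_apply] at h1
      change u (b ⟨k, i⟩) - b ⟨k, i⟩ = _ at h1
      rw [hEl k i, hN, hU]
      by_cases h2 : (i : ℕ) + 1 < d k
      · rw [dif_pos h2] at h1
        rw [dif_pos (show (i : ℕ) + 1 < Sum.elim d d' (Sum.inl k) from h2)]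
        refine Eq.trans ?_ (hEl k ⟨(i : ℕ) + 1, h2⟩).symm
        apply Prod.ext
        · exact h1
        · simp
      · rw [dif_neg h2] at h1
        rw [dif_neg (show ¬ (i : ℕ) + 1 < Sum.elim d d' (Sum.inl k) from h2)]
        apply Prod.ext
        · exact h1
        · simp
    · have h1 := hb' k i
      rw [LinearMap.sub_apply] at h1
      change u' (b' ⟨k, i⟩) - b' ⟨k, i⟩ = _ at h1
      rw [hEr k i, hN, hU]
      by_cases h2 : (i : ℕ) + 1 < d' k
      · rw [dif_pos h2] at h1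
        rw [dif_pos (show (i : ℕ) + 1 < Sum.elim d d' (Sum.inr k) from h2)]
        refine Eq.trans ?_ (hEr k ⟨(i : ℕ) + 1, h2⟩).symm
        apply Prod.ext
        · simp
        · exact h1
      · rw [dif_neg h2] at h1
        rw [dif_neg (show ¬ (i : ℕ) + 1 < Sum.elim d d' (Sum.inr k) from h2)]
        apply Prod.ext
        · simp
        · exact h1

/-- a nilpotent endomorphism with kernel of dimension one -/
theorem exists_JB_single {V : Type*} [AddCommGroup V] [Module F V] [FiniteDimensional F V] (N : Module.End F V) (n : ℕ)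
    (hn : n = Module.finrank F V) (hn1 : 1 ≤ n) (hN : N ^ n = 0) (hk : Module.finrank F (LinearMap.ker N) ≤ 1) :
    ∃ b : Module.Basis ((k : Unit) × Fin ((fun _ : Unit => n) k)) F V, JB N (fun _ : Unit => n) b := by
  obtain ⟨v, h1⟩ : ∃ v, (N ^ (n - 1)) v ≠ 0 := by
    have := exists_cyclic_vector N hk (by omega)
    rwa [← hn] at this
  have h0 : (N ^ n) v = 0 := by rw [hN]; rfl
  let E : Fin n ≃ ((k : Unit) × Fin ((fun _ : Unit => n) k)) :=
    { toFun := fun i => ⟨(), i⟩
      invFun := fun x => x.2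
      left_inv := fun x => rfl
      right_inv := fun x => rfl }
  refine ⟨(cycBasis N n hn v h0 h1).reindex E, ?_⟩
  intro k i
  have hE : ∀ i : Fin n, ((cycBasis N n hn v h0 h1).reindex E) ⟨(), i⟩ = (N ^ (i : ℕ)) v := by
    intro i
    rw [Module.Basis.reindex_apply]
    change (cycBasis N n hn v h0 h1) i = _
    rw [cycBasis_apply]
  rw [hE]
  by_cases h2 : (i : ℕ) + 1 < n
  · rw [dif_pos h2, hE, ← Module.End.mul_apply, ← pow_succ']
  · rw [dif_neg h2]
    have h3 : (i : ℕ) + 1 = n := by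
      have h4 : (i : ℕ) < n := i.2
      omega
    rw [← Module.End.mul_apply, ← pow_succ', h3, h0]

end Cfsg.Agent.H43
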