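import Mathlib
import Cfsg.Agent.H43.JordanReal

set_option autoImplicit false
set_option linter.unusedSectionVars false
set_option linter.unusedVariables false

/-! Building blocks for unipotent isometries. -/

namespace Cfsg.Agent.H43

open Matrix

variable {F : Type*} [Field F]

/-- The standard regular unipotent matrix, and its inverse transpose. -/
theorem exists_unip (F : Type*) [Field F] (n : ℕ) : ∃ A : GL (Fin n) F, (A : Matrix (Fin n) (Fin n) F) = 1 + shiftM F n := by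
  have h : IsNilpotent (shiftM F n) := ⟨n, shiftM_pow F n⟩
  obtain ⟨A, hA⟩ := h.isUnit_one_add
  exact ⟨A, hA⟩

theorem unip_inv (n : ℕ) (A : GL (Fin n) F) (hA : (A : Matrix (Fin n) (Fin n) F) = 1 + shiftM F n) :
    ((A⁻¹ : GL (Fin n) F) : Matrix (Fin n) (Fin n) F)ᵀ - 1 = (-(((A⁻¹ : GL (Fin n) F) : Matrix (Fin n) (Fin n) F) * shiftM F n))ᵀ := by
  have h1 : ((A⁻¹ : GL (Fin n) F) : Matrix (Fin n) (Fin n) F) * (A : Matrix (Fin n) (Fin n) F) = 1 := Units.inv_mul A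
  have h2 : ((A⁻¹ : GL (Fin n) F) : Matrix (Fin n) (Fin n) F) - 1 = -(((A⁻¹ : GL (Fin n) F) : Matrix (Fin n) (Fin n) F) * shiftM F n) := by
    conv_lhs => enter [2]; rw [← h1]
    rw [hA, mul_add, mul_one]
    abel
  rw [← h2, Matrix.transpose_sub, Matrix.transpose_one]

theorem unip_inv_pow (n : ℕ) (A : GL (Fin n) F) (hA : (A : Matrix (Fin n) (Fin n) F) = 1 + shiftM F n) :
    (((A⁻¹ : GL (Fin n) F) : Matrix (Fin n) (Fin n) F)ᵀ - 1) ^ n = 0 := by
  have hc : Commute (A : Matrix (Fin n) (Fin n) F) (shiftM F n) := by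
    rw [hA]
    exact (Commute.one_left _).add_left (Commute.refl _)
  rw [unip_inv n A hA, ← Matrix.transpose_pow, neg_pow, Commute.mul_pow hc.units_inv_left, shiftM_pow]
  simp

theorem unip_inv_rank (n : ℕ) (hn : 1 ≤ n) (A : GL (Fin n) F) (hA : (A : Matrix (Fin n) (Fin n) F) = 1 + shiftM F n) :
    (((A⁻¹ : GL (Fin n) F) : Matrix (Fin n) (Fin n) F)ᵀ - 1).rank = n - 1 := by
  rw [unip_inv n A hA, Matrix.rank_transpose]
  have e : -(((A⁻¹ : GL (Fin n) F) : Matrix (Fin n) (Fin n) F) * shiftM F n) = (-((A⁻¹ : GL (Fin n) F) : Matrix (Fin n) (Fin n) F)) * shiftM F n := by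
    rw [neg_mul]
  rw [e, Matrix.rank_mul_eq_right_of_isUnit_det, shiftM_rank F n hn]
  have : IsUnit (-((A⁻¹ : GL (Fin n) F) : Matrix (Fin n) (Fin n) F)) := (A⁻¹ : GL (Fin n) F).isUnit.neg
  exact (Matrix.isUnit_iff_isUnit_det _).1 this

theorem JB.prod {V W ι ι' : Type*} [AddCommGroup V] [Module F V] [AddCommGroup W] [Module F W] {N : Module.End F V}
    {N' : Module.End F W} {d : ι → ℕ} {d' : ι' → ℕ} {b : Module.Basis ((k : ι) × Fin (d k)) F V} (hb : JB N d b)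
    {b' : Module.Basis ((k : ι') × Fin (d' k)) F W} (hb' : JB N' d' b') (M : Module.End F (V × W))
    (hM : ∀ x, M x = (N x.1, N' x.2)) :
    ∃ b'' : Module.Basis ((k : ι ⊕ ι') × Fin (Sum.elim d d' k)) F (V × W), JB M (Sum.elim d d') b'' := by
  let E : ((k : ι ⊕ ι') × Fin (Sum.elim d d' k)) ≃ (((k : ι) × Fin (d k)) ⊕ ((k : ι') × Fin (d' k))) :=
    Equiv.sumSigmaDistrib (fun k : ι ⊕ ι' => Fin (Sum.elim d d' k))
  refine ⟨(b.prod b').reindex E.symm, ?_⟩
  have hEl : ∀ (k : ι) (i : Fin (d k)), ((b.prod b').reindex E.symm) ⟨Sum.inl k, i⟩ = (b ⟨k, i⟩, 0) := by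
    intro k i
    rw [Module.Basis.reindex_apply, Equiv.symm_symm]
    change (b.prod b') (Sum.inl ⟨k, i⟩) = _
    apply Prod.ext
    · rw [Module.Basis.prod_apply_inl_fst]
    · rw [Module.Basis.prod_apply_inl_snd]
  have hEr : ∀ (k : ι') (i : Fin (d' k)), ((b.prod b').reindex E.symm) ⟨Sum.inr k, i⟩ = (0, b' ⟨k, i⟩) := by
    intro k i
    rw [Module.Basis.reindex_apply, Equiv.symm_symm]
    change (b.prod b') (Sum.inr ⟨k, i⟩) = _
    apply Prod.ext
    · rw [Module.Basis.prod_apply_inr_fst]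
    · rw [Module.Basis.prod_apply_inr_snd]
  rintro (k | k) i
  · have h1 := hb k i
    rw [hEl k i, hM]
    by_cases h2 : (i : ℕ) + 1 < d k
    · rw [dif_pos h2] at h1
      rw [dif_pos (show (i : ℕ) + 1 < Sum.elim d d' (Sum.inl k) from h2)]
      refine Eq.trans ?_ (hEl k ⟨(i : ℕ) + 1, h2⟩).symm
      apply Prod.ext
      · exact h1
      · exact map_zero _
    · rw [dif_neg h2] at h1
      rw [dif_neg (show ¬ (i : ℕ) + 1 < Sum.elim d d' (Sum.inl k) from h2)]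
      apply Prod.ext
      · exact h1
      · exact map_zero _
  · have h1 := hb' k i
    rw [hEr k i, hM]
    by_cases h2 : (i : ℕ) + 1 < d' k
    · rw [dif_pos h2] at h1
      rw [dif_pos (show (i : ℕ) + 1 < Sum.elim d d' (Sum.inr k) from h2)]
      refine Eq.trans ?_ (hEr k ⟨(i : ℕ) + 1, h2⟩).symm
      apply Prod.ext
      · exact map_zero _
      · exact h1
    · rw [dif_neg h2] at h1
      rw [dif_neg (show ¬ (i : ℕ) + 1 < Sum.elim d d' (Sum.inr k) from h2)]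
      apply Prod.ext
      · exact map_zero _
      · exact h1

/-- the hyperbolic form on `W × W*` -/
theorem exists_hypForm (n : ℕ) (ε : F) : ∃ C : LinearMap.BilinForm F ((Fin n → F) × (Fin n → F)),
    ∀ x y, C x y = x.1 ⬝ᵥ y.2 + ε * (x.2 ⬝ᵥ y.1) :=
  ⟨LinearMap.mk₂ F (fun x y => x.1 ⬝ᵥ y.2 + ε * (x.2 ⬝ᵥ y.1))
    (by intro x x' y; simp only [Prod.fst_add, Prod.snd_add, add_dotProduct]; ring)
    (by intro c x y; simp only [Prod.smul_fst, Prod.smul_snd, smul_dotProduct, smul_eq_mul]; ring)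
    (by intro x y y'; simp only [Prod.fst_add, Prod.snd_add, dotProduct_add]; ring)
    (by intro c x y; simp only [Prod.smul_fst, Prod.smul_snd, dotProduct_smul, smul_eq_mul]; ring), fun x y => rfl⟩

theorem hypForm_good (n : ℕ) (kind : Bool) {C : LinearMap.BilinForm F ((Fin n → F) × (Fin n → F))}
    (hC : ∀ x y, C x y = x.1 ⬝ᵥ y.2 + (if kind then -1 else 1) * (x.2 ⬝ᵥ y.1)) : GoodForm kind C := by
  refine ⟨?_, ?_, ?_⟩
  · rintro rfl x
    rw [hC, dotProduct_comm x.1 x.2]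
    simp
  · rintro rfl x y
    rw [hC, hC, dotProduct_comm y.1 x.2, dotProduct_comm y.2 x.1]
    simp
    ring
  · intro x hx
    apply Prod.ext
    · funext i
      have := hx (0, Pi.single i 1)
      rw [hC] at this
      simpa using this
    · funext i
      have := hx (Pi.single i 1, 0)
      rw [hC] at this
      cases kind <;> simpa using this

theorem mulVec_dot (n : ℕ) (A : GL (Fin n) F) (x y : Fin n → F) :
    ((A : Matrix (Fin n) (Fin n) F) *ᵥ x) ⬝ᵥ ((((A⁻¹ : GL (Fin n) F) : Matrix (Fin n) (Fin n) F)ᵀ) *ᵥ y) = x ⬝ᵥ y := by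
  have h1 : ((A⁻¹ : GL (Fin n) F) : Matrix (Fin n) (Fin n) F) * (A : Matrix (Fin n) (Fin n) F) = 1 := Units.inv_mul A
  rw [Matrix.mulVec_transpose, dotProduct_comm, ← Matrix.dotProduct_mulVec, Matrix.mulVec_mulVec, h1, Matrix.one_mulVec, dotProduct_comm]

theorem JB_of_matrix (n : ℕ) (hn : 1 ≤ n) (M : Matrix (Fin n) (Fin n) F) (h1 : (M - 1) ^ n = 0) (h2 : (M - 1).rank = n - 1)
    (N : Module.End F (Fin n → F)) (hN : ∀ x, N x = M *ᵥ x - x) :
    ∃ b : Module.Basis ((k : Unit) × Fin ((fun _ : Unit => n) k)) F (Fin n → F), JB N (fun _ : Unit => n) b := by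
  have e : N = Matrix.toLin' (M - 1) := by
    apply LinearMap.ext
    intro x
    rw [hN, Matrix.toLin'_apply, Matrix.sub_mulVec, Matrix.one_mulVec]
  rw [e]
  apply exists_JB_single _ n (by rw [Module.finrank_fintype_fun_eq_card, Fintype.card_fin]) hn
  · rw [← Matrix.toLin'_pow, h1, map_zero]
  · have := finrank_ker_toLin' (M - 1)
    rw [Fintype.card_fin] at this
    omega

theorem RealT.double (kind : Bool) (n : ℕ) (hn : 1 ≤ n) : RealT F kind (fun _ : Bool => n) := by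
  obtain ⟨C, hC⟩ := exists_hypForm (F := F) n (if kind then -1 else 1)
  obtain ⟨A, hA⟩ := exists_unip F n
  obtain ⟨T, hT⟩ : ∃ T : GL (Fin n) F, (T : Matrix (Fin n) (Fin n) F) = ((A⁻¹ : GL (Fin n) F) : Matrix (Fin n) (Fin n) F)ᵀ :=
    ⟨⟨((A⁻¹ : GL (Fin n) F) : Matrix (Fin n) (Fin n) F)ᵀ, (A : Matrix (Fin n) (Fin n) F)ᵀ,
      by rw [← Matrix.transpose_mul, Units.mul_inv, Matrix.transpose_one],
      by rw [← Matrix.transpose_mul, Units.inv_mul, Matrix.transpose_one]⟩, rfl⟩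
  obtain ⟨U, hU⟩ : ∃ U : ((Fin n → F) × (Fin n → F)) ≃ₗ[F] ((Fin n → F) × (Fin n → F)), ∀ x, U x =
      ((A : Matrix (Fin n) (Fin n) F) *ᵥ x.1, (T : Matrix (Fin n) (Fin n) F) *ᵥ x.2) :=
    ⟨(LinearMap.GeneralLinearGroup.generalLinearEquiv F _ (glEnd A)).prodCongr
      (LinearMap.GeneralLinearGroup.generalLinearEquiv F _ (glEnd T)), fun x => rfl⟩
  obtain ⟨N, hN⟩ : ∃ N : Module.End F ((Fin n → F) × (Fin n → F)), ∀ x, N x = U x - x :=
    ⟨(U : _ →ₗ[F] _) - LinearMap.id, fun x => rfl⟩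
  obtain ⟨N1, hN1⟩ : ∃ N : Module.End F (Fin n → F), ∀ x, N x = (A : Matrix (Fin n) (Fin n) F) *ᵥ x - x :=
    ⟨Matrix.toLin' (A : Matrix (Fin n) (Fin n) F) - LinearMap.id, fun x => rfl⟩
  obtain ⟨N2, hN2⟩ : ∃ N : Module.End F (Fin n → F), ∀ x, N x = (T : Matrix (Fin n) (Fin n) F) *ᵥ x - x :=
    ⟨Matrix.toLin' (T : Matrix (Fin n) (Fin n) F) - LinearMap.id, fun x => rfl⟩
  obtain ⟨b1, hb1⟩ := JB_of_matrix n hn _ (by rw [hA, add_sub_cancel_left, shiftM_pow])
    (by rw [hA, add_sub_cancel_left, shiftM_rank F n hn]) N1 hN1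
  obtain ⟨b2, hb2⟩ := JB_of_matrix n hn _ (by rw [hT]; exact unip_inv_pow n A hA)
    (by rw [hT]; exact unip_inv_rank n hn A hA) N2 hN2
  obtain ⟨b, hb⟩ := hb1.prod hb2 N (by
    intro x
    rw [hN, hU, hN1, hN2]
    rfl)
  have h := RealT.of C (hypForm_good n kind hC) U (by
    intro x y
    rw [hC, hC, hU, hU, hT]
    simp only
    rw [mulVec_dot, dotProduct_comm (((A⁻¹ : GL (Fin n) F) : Matrix (Fin n) (Fin n) F)ᵀ *ᵥ x.2), mulVec_dot, dotProduct_comm y.1]) b N hN hb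
  refine h.reindex (ι' := Bool) (Equiv.boolEquivPUnitSumPUnit.symm) ?_
  rintro (k | k) <;> rfl

end Cfsg.Agent.H43
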