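import Mathlib
import Cfsg.Agent.H43.JordanReal2

set_option autoImplicit false
set_option linter.unusedSectionVars false
set_option linter.unusedVariables false

/-! Building blocks for unipotent isometries, II. -/

namespace Cfsg.Agent.H43

open Matrix

variable {F : Type*} [Field F]

theorem shiftM_apply (n : ℕ) (i j : Fin n) : shiftM F n i j = if (i : ℕ) = (j : ℕ) + 1 then 1 else 0 := rfl

/-- A single block of even size for an alternating form (any characteristic). -/
theorem RealT.single_alt (m : ℕ) (hm : 1 ≤ m) : RealT F true (fun _ : Unit => 2 * m) := by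
  obtain ⟨C, hC⟩ := exists_hypForm (F := F) m (-1)
  obtain ⟨A, hA⟩ := exists_unip F m
  obtain ⟨T, hT⟩ : ∃ T : GL (Fin m) F, (T : Matrix (Fin m) (Fin m) F) = ((A⁻¹ : GL (Fin m) F) : Matrix (Fin m) (Fin m) F)ᵀ :=
    ⟨⟨((A⁻¹ : GL (Fin m) F) : Matrix (Fin m) (Fin m) F)ᵀ, (A : Matrix (Fin m) (Fin m) F)ᵀ,
      by rw [← Matrix.transpose_mul, Units.mul_inv, Matrix.transpose_one],
      by rw [← Matrix.transpose_mul, Units.inv_mul, Matrix.transpose_one]⟩, rfl⟩
  obtain ⟨U0, hU0⟩ : ∃ U : Module.End F ((Fin m → F) × (Fin m → F)), ∀ x, U x =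
      ((A : Matrix (Fin m) (Fin m) F) *ᵥ x.1 + (T : Matrix (Fin m) (Fin m) F) *ᵥ x.2, (T : Matrix (Fin m) (Fin m) F) *ᵥ x.2) :=
    ⟨LinearMap.prod ((Matrix.toLin' (A : Matrix (Fin m) (Fin m) F)) ∘ₗ LinearMap.fst F _ _ +
      (Matrix.toLin' (T : Matrix (Fin m) (Fin m) F)) ∘ₗ LinearMap.snd F _ _) ((Matrix.toLin' (T : Matrix (Fin m) (Fin m) F)) ∘ₗ LinearMap.snd F _ _),
      fun x => rfl⟩
  have hAi : Function.Injective (fun x => (A : Matrix (Fin m) (Fin m) F) *ᵥ x) := by
    intro x y h
    have := congrArg (fun z => ((A⁻¹ : GL (Fin m) F) : Matrix (Fin m) (Fin m) F) *ᵥ z) h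
    simp only [Matrix.mulVec_mulVec, Units.inv_mul, Matrix.one_mulVec] at this
    exact this
  have hTi : Function.Injective (fun x => (T : Matrix (Fin m) (Fin m) F) *ᵥ x) := by
    intro x y h
    have := congrArg (fun z => ((T⁻¹ : GL (Fin m) F) : Matrix (Fin m) (Fin m) F) *ᵥ z) h
    simp only [Matrix.mulVec_mulVec, Units.inv_mul, Matrix.one_mulVec] at this
    exact this
  have hinj : Function.Injective U0 := by
    rw [injective_iff_map_eq_zero]
    intro x hx
    rw [hU0] at hx
    have h1 : (T : Matrix (Fin m) (Fin m) F) *ᵥ x.2 = 0 := congrArg Prod.snd hx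
    have h2 : (A : Matrix (Fin m) (Fin m) F) *ᵥ x.1 + (T : Matrix (Fin m) (Fin m) F) *ᵥ x.2 = 0 := congrArg Prod.fst hx
    rw [h1, add_zero] at h2
    apply Prod.ext
    · apply hAi
      simp only [h2]
      exact (Matrix.mulVec_zero _).symm
    · apply hTi
      simp only [h1]
      exact (Matrix.mulVec_zero _).symm
  obtain ⟨U, hU⟩ : ∃ U : ((Fin m → F) × (Fin m → F)) ≃ₗ[F] ((Fin m → F) × (Fin m → F)), ∀ x, U x =
      ((A : Matrix (Fin m) (Fin m) F) *ᵥ x.1 + (T : Matrix (Fin m) (Fin m) F) *ᵥ x.2, (T : Matrix (Fin m) (Fin m) F) *ᵥ x.2) :=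
    ⟨LinearEquiv.ofInjectiveEndo U0 hinj, hU0⟩
  obtain ⟨N, hN⟩ : ∃ N : Module.End F ((Fin m → F) × (Fin m → F)), ∀ x, N x = U x - x :=
    ⟨(U : _ →ₗ[F] _) - LinearMap.id, fun x => rfl⟩
  have hS : ∀ x, (A : Matrix (Fin m) (Fin m) F) *ᵥ x - x = shiftE F m x := by
    intro x
    rw [hA, Matrix.add_mulVec, Matrix.one_mulVec, add_sub_cancel_left]
    rfl
  have hN1 : ∀ x, (N x).1 = shiftE F m x.1 + (T : Matrix (Fin m) (Fin m) F) *ᵥ x.2 := by
    intro x
    rw [hN, hU, ← hS]
    change (A : Matrix (Fin m) (Fin m) F) *ᵥ x.1 + (T : Matrix (Fin m) (Fin m) F) *ᵥ x.2 - x.1 = _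
    abel
  have hN2 : ∀ x, (N x).2 = ((T : Matrix (Fin m) (Fin m) F) - 1) *ᵥ x.2 := by
    intro x
    rw [hN, hU, Matrix.sub_mulVec, Matrix.one_mulVec]
    rfl
  have hN2pow : ∀ (j : ℕ) x, ((N ^ j) x).2 = (((T : Matrix (Fin m) (Fin m) F) - 1) ^ j) *ᵥ x.2 := by
    intro j
    induction j with
    | zero => intro x; simp
    | succ j ih =>
      intro x
      rw [pow_succ', Module.End.mul_apply, hN2, ih, Matrix.mulVec_mulVec, ← pow_succ']
  have hN1pow : ∀ (j : ℕ) x, x.2 = 0 → (N ^ j) x = ((shiftE F m ^ j) x.1, 0) := by
    intro j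
    induction j with
    | zero => intro x hx; rw [← hx]; rfl
    | succ j ih =>
      intro x hx
      rw [pow_succ', Module.End.mul_apply, ih x hx]
      apply Prod.ext
      · rw [hN1, pow_succ', Module.End.mul_apply, Matrix.mulVec_zero, add_zero]
      · rw [hN2, Matrix.mulVec_zero]
  have hNpow : N ^ (2 * m) = 0 := by
    apply LinearMap.ext
    intro x
    rw [two_mul, pow_add, Module.End.mul_apply]
    have h1 : ((N ^ m) x).2 = 0 := by
      rw [hN2pow, hT, unip_inv_pow m A hA, Matrix.zero_mulVec]
    rw [hN1pow m _ h1, shiftE_pow]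
    rfl
  have hker : ∀ x, N x = 0 → x.2 = 0 ∧ shiftE F m x.1 = 0 := by
    intro x hx
    have h1 : shiftE F m x.1 + (T : Matrix (Fin m) (Fin m) F) *ᵥ x.2 = 0 := by rw [← hN1, hx]; rfl
    have h2 : (T : Matrix (Fin m) (Fin m) F) *ᵥ x.2 = x.2 := by
      have h3 : ((T : Matrix (Fin m) (Fin m) F) - 1) *ᵥ x.2 = 0 := by rw [← hN2, hx]; rfl
      rw [Matrix.sub_mulVec, Matrix.one_mulVec, sub_eq_zero] at h3
      exact h3
    have h3 : (shiftM F m)ᵀ *ᵥ x.2 = 0 := by
      have h4 : (A : Matrix (Fin m) (Fin m) F)ᵀ * (T : Matrix (Fin m) (Fin m) F) = 1 := by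
        rw [hT, ← Matrix.transpose_mul, Units.inv_mul, Matrix.transpose_one]
      have h5 := congrArg (fun z => (A : Matrix (Fin m) (Fin m) F)ᵀ *ᵥ z) h2
      simp only [Matrix.mulVec_mulVec] at h5
      rw [h4, Matrix.one_mulVec, hA, Matrix.transpose_add, Matrix.transpose_one, Matrix.add_mulVec, Matrix.one_mulVec] at h5
      exact (left_eq_add.1 h5)
    rw [h2] at h1
    have h4 : x.2 = 0 := by
      funext i
      by_cases hi : (i : ℕ) = 0
      · have h5 := congrFun h1 i
        rw [Pi.add_apply] at h5
        have h6 : (shiftE F m x.1) i = 0 := by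
          change ∑ j, shiftM F m i j * x.1 j = 0
          apply Finset.sum_eq_zero
          intro j _
          rw [shiftM_apply, if_neg (by omega), zero_mul]
        rw [h6, zero_add] at h5
        exact h5
      · have h5 : ∑ j, shiftM F m j ⟨(i : ℕ) - 1, by have := i.2; omega⟩ * x.2 j = 0 :=
          congrFun h3 ⟨(i : ℕ) - 1, by have := i.2; omega⟩
        rw [Finset.sum_eq_single i] at h5
        · rw [shiftM_apply, if_pos (by simp only; omega), one_mul] at h5
          exact h5
        · intro j _ hj
          rw [shiftM_apply, if_neg, zero_mul]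
          intro h6
          apply hj
          simp only at h6
          exact Fin.ext (by omega)
        · intro h; exact absurd (Finset.mem_univ _) h
    rw [h4, add_zero] at h1
    exact ⟨h4, h1⟩
  have hk1 : Module.finrank F (LinearMap.ker N) ≤ 1 := by
    have h1 : Module.finrank F (LinearMap.ker N) ≤ Module.finrank F (LinearMap.ker (shiftE F m)) := by
      let f : LinearMap.ker N →ₗ[F] LinearMap.ker (shiftE F m) :=
        LinearMap.restrict (p := LinearMap.ker N) (q := LinearMap.ker (shiftE F m)) (LinearMap.fst F (Fin m → F) (Fin m → F)) (fun x hx => (hker x hx).2)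
      apply LinearMap.finrank_le_finrank_of_injective (f := f)
      rw [injective_iff_map_eq_zero]
      intro x hx
      apply Subtype.ext
      apply Prod.ext
      · exact congrArg Subtype.val hx
      · exact (hker x.1 x.2).1
    rw [shiftE_finrank_ker F m hm] at h1
    exact h1
  obtain ⟨b, hb⟩ := exists_JB_single N (2 * m) (by
    rw [Module.finrank_prod, Module.finrank_fintype_fun_eq_card, Fintype.card_fin]; ring) (by omega) hNpow hk1
  refine RealT.of C (hypForm_good m true (by simpa using hC)) U ?_ b N hN hb
  intro x y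
  rw [hC, hC, hU, hU, hT]
  simp only [add_dotProduct, dotProduct_add]
  rw [mulVec_dot, dotProduct_comm (((A⁻¹ : GL (Fin m) F) : Matrix (Fin m) (Fin m) F)ᵀ *ᵥ x.2) ((A : Matrix (Fin m) (Fin m) F) *ᵥ y.1),
    mulVec_dot, dotProduct_comm y.1]
  ring

theorem adB_symm (n : ℕ) (hn : Odd n) (x y : Fin n → F) : adB F n x y = adB F n y x := by
  have key : adB F n = (adB F n).flip := by
    apply (Pi.basisFun F (Fin n)).ext
    intro i
    apply (Pi.basisFun F (Fin n)).ext
    intro j
    rw [eVec_basis, eVec_basis]
    change _ = adB F n (eVec F n j) (eVec F n i)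
    rw [adB_eVec, adB_eVec]
    by_cases h : (i : ℕ) + (j : ℕ) + 1 = n
    · rw [if_pos h, if_pos (by omega)]
      obtain ⟨a, ha⟩ := hn
      rcases Nat.even_or_odd (i : ℕ) with h1 | h1
      · have h2 : Even (j : ℕ) := by
          by_contra h3
          rw [Nat.not_even_iff_odd] at h3
          obtain ⟨c, hc⟩ := h1
          obtain ⟨b, hb⟩ := h3
          omega
        rw [h1.neg_one_pow, h2.neg_one_pow]
      · have h2 : Odd (j : ℕ) := by
          by_contra h3
          rw [Nat.not_odd_iff_even] at h3
          obtain ⟨c, hc⟩ := h1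
          obtain ⟨b, hb⟩ := h3
          omega
        rw [h1.neg_one_pow, h2.neg_one_pow]
    · rw [if_neg h, if_neg (by omega)]
  exact LinearMap.congr_fun (LinearMap.congr_fun key x) y

/-- Cayley transform of a regular nilpotent skew endomorphism. -/
theorem cayley_regular {V : Type*} [AddCommGroup V] [Module F V] [FiniteDimensional F V] {B : LinearMap.BilinForm F V}
    (h2 : (2 : F) ≠ 0) {S : Module.End F V} (hS1 : IsAdj B S (-S)) {n : ℕ} (hS2 : S ^ n = 0)
    (hS3 : Module.finrank F (LinearMap.ker S) = 1) :
    ∃ g : Module.End F V, (∀ x y, B (g x) (g y) = B x y) ∧ (g - 1) ^ n = 0 ∧ Module.finrank F (LinearMap.ker (g - 1)) = 1 ∧ IsUnit g := by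
  have hn : IsNilpotent (-S) := (show IsNilpotent S from ⟨_, hS2⟩).neg
  obtain ⟨g, hg1, hg2, hg3, hg4⟩ := exists_cayley (B := B) (S := S) hn (Commute.refl S).neg_left (by
    rw [neg_neg]
    have := hS1.neg
    rwa [neg_neg] at this)
  obtain ⟨w, hw⟩ := hn.isUnit_one_add
  rw [← hw] at hg1
  have hwS : Commute S (w : Module.End F V) := by
    rw [hw]
    exact (Commute.one_right S).add_right (Commute.refl S).neg_right
  have hwg : Commute g (w : Module.End F V) := by
    rw [hw]
    exact (Commute.one_right g).add_right hg2.neg_right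
  have e1 : (g - 1) * (w : Module.End F V) = (2 : F) • S := by
    rw [sub_mul, one_mul, hg1, hw, two_smul]
    abel
  have e2 : (w : Module.End F V) * (g - 1) = (2 : F) • S := by
    rw [← e1]
    exact (hwg.symm.sub_right (Commute.one_right _))
  have e : g - 1 = S * ((2 : F) • (((w⁻¹ : (Module.End F V)ˣ)) : Module.End F V)) := by
    rw [mul_smul_comm, ← smul_mul_assoc, ← e1, mul_assoc, Units.mul_inv, mul_one]
  refine ⟨g, hg3, ?_, ?_, ?_⟩
  · rw [e]
    rw [Commute.mul_pow (hwS.units_inv_right.smul_right _), hS2, zero_mul]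
  · have hker : LinearMap.ker (g - 1) = LinearMap.ker S := by
      ext x
      rw [LinearMap.mem_ker, LinearMap.mem_ker]
      constructor
      · intro h
        have h3 : ((w : Module.End F V) * (g - 1)) x = 0 := by
          rw [Module.End.mul_apply, h, map_zero]
        rw [e2, LinearMap.smul_apply] at h3
        exact (smul_eq_zero.1 h3).resolve_left h2
      · intro h
        have e3 : g - 1 = ((2 : F) • (((w⁻¹ : (Module.End F V)ˣ)) : Module.End F V)) * S := by
          rw [e]
          exact (hwS.units_inv_right.smul_right _)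
        rw [e3, Module.End.mul_apply, h, map_zero]
    rw [hker]
    exact hS3
  · have : g = 1 + (g - 1) := by abel
    rw [this]
    exact hg4.isUnit_one_add

/-- A single block of odd size for a symmetric form (odd characteristic). -/
theorem RealT.single_sym (h2 : (2 : F) ≠ 0) (n : ℕ) (hn : Odd n) : RealT F false (fun _ : Unit => n) := by
  have hn1 : 1 ≤ n := hn.pos
  obtain ⟨g, hg1, hg2, hg3, hg4⟩ := cayley_regular h2 (adB_shift (F := F) n) (shiftE_pow F n) (shiftE_finrank_ker F n hn1)
  obtain ⟨b, hb⟩ := exists_JB_single (g - 1) n (by rw [Module.finrank_fintype_fun_eq_card, Fintype.card_fin]) hn1 hg2 hg3.le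
  obtain ⟨w, rfl⟩ := hg4
  refine RealT.of (adB F n) ⟨?_, ?_, ?_⟩ (LinearMap.GeneralLinearGroup.generalLinearEquiv F _ w) hg1 b ((w : Module.End F (Fin n → F)) - 1) (fun x => rfl) hb
  · intro h; exact absurd h (by decide)
  · intro _ x y; exact adB_symm n hn y x
  · exact adB_nondeg n

/-- Assembling types. -/
theorem RealT.assemble (kind : Bool) (sing : ℕ → Prop) (h1 : ∀ n, 1 ≤ n → sing n → RealT F kind (fun _ : Unit => n)) :
    ∀ (c : ℕ) (ι : Type) [Fintype ι] [DecidableEq ι] (d : ι → ℕ), Fintype.card ι = c → (∀ k, 1 ≤ d k) →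
      (∀ j, ¬ sing j → Even (Finset.univ.filter (fun k => d k = j)).card) → RealT F kind d := by
  intro c
  induction c using Nat.strong_induction_on with
  | _ c ih =>
    intro ι _ _ d hc hd hpar
    rcases isEmpty_or_nonempty ι with hι | ⟨⟨k0⟩⟩
    · exact RealT.empty d
    have hcount : ∀ (p : ι → Prop) [DecidablePred p] (j : ℕ), (Finset.univ.filter (fun k => d k = j)).card =
        (Finset.univ.filter (fun k : {k // p k} => d k.1 = j)).card + (Finset.univ.filter (fun k : {k // ¬ p k} => d k.1 = j)).card := by
      intro p _ j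
      rw [Finset.card_filter, Finset.card_filter, Finset.card_filter]
      exact (Fintype.sum_subtype_add_sum_subtype p (fun k => if d k = j then 1 else 0)).symm
    by_cases hs : sing (d k0)
    · -- remove k0
      have hr : RealT F kind (fun k : {k // ¬ k = k0} => d k.1) := by
        apply ih (Fintype.card {k // ¬ k = k0}) _ {k // ¬ k = k0} (fun k => d k.1) rfl (fun k => hd k.1)
        · intro j hj
          have h2 := hcount (fun k => k = k0) j
          have h3 : ∀ k : {k // k = k0}, ¬ d k.1 = j := by
            rintro ⟨k, hk⟩ h4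
            simp only at h4
            rw [hk] at h4
            rw [h4] at hs
            exact hj hs
          rw [Finset.filter_false_of_mem (fun k _ => h3 k), Finset.card_empty, zero_add] at h2
          have h5 := hpar j hj
          rw [h2] at h5
          convert h5
        · rw [← hc]
          exact Fintype.card_subtype_lt (x := k0) (by simp)
      have hu : RealT F kind (fun k : {k // k = k0} => d k.1) := by
        refine (h1 (d k0) (hd k0) hs).reindex (Equiv.ofUnique Unit {k // k = k0}) ?_
        intro k
        have := ((Equiv.ofUnique Unit {k // k = k0}) k).2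
        rw [this]
      refine (hu.sum hr).reindex (Equiv.sumCompl (fun k => k = k0)) ?_
      rintro (k | k) <;> rfl
    · -- a pair
      have h2 := hpar _ hs
      obtain ⟨k1, hk1, hne⟩ : ∃ k1, d k1 = d k0 ∧ k1 ≠ k0 := by
        by_contra hcon
        push Not at hcon
        have h3 : Finset.univ.filter (fun k => d k = d k0) = {k0} := by
          ext k
          simp only [Finset.mem_filter, Finset.mem_univ, true_and, Finset.mem_singleton]
          exact ⟨hcon k, fun h => by rw [h]⟩
        rw [h3, Finset.card_singleton] at h2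
        exact absurd h2 (by decide)
      let p : ι → Prop := fun k => k = k0 ∨ k = k1
      let E : Bool ≃ {k // p k} :=
        { toFun := fun b => if b then ⟨k1, Or.inr rfl⟩ else ⟨k0, Or.inl rfl⟩
          invFun := fun k => decide (k.1 = k1)
          left_inv := by
            intro b
            cases b
            · simp [Ne.symm hne]
            · simp
          right_inv := by
            rintro ⟨k, hk | hk⟩
            · subst hk
              simp [Ne.symm hne]
            · subst hk
              simp }
      have hEd : ∀ b, d (E b).1 = d k0 := by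
        intro b
        cases b
        · rfl
        · exact hk1
      have hr : RealT F kind (fun k : {k // ¬ p k} => d k.1) := by
        apply ih (Fintype.card {k // ¬ p k}) _ {k // ¬ p k} (fun k => d k.1) rfl (fun k => hd k.1)
        · intro j hj
          have h3 := hcount p j
          have h4 : Even (Finset.univ.filter (fun k : {k // p k} => d k.1 = j)).card := by
            by_cases hj' : j = d k0
            · subst hj'
              have : Finset.univ.filter (fun k : {k // p k} => d k.1 = d k0) = Finset.univ := by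
                rw [Finset.filter_eq_self]
                intro k _
                obtain ⟨b, rfl⟩ := E.surjective k
                exact hEd b
              rw [this, Finset.card_univ, ← Fintype.card_congr E, Fintype.card_bool]
              exact even_two
            · have : Finset.univ.filter (fun k : {k // p k} => d k.1 = j) = ∅ := by
                rw [Finset.filter_eq_empty_iff]
                intro k _ h5
                obtain ⟨b, rfl⟩ := E.surjective k
                rw [hEd] at h5
                exact hj' h5.symm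
              rw [this, Finset.card_empty]
              exact Even.zero
          have h5 := hpar j hj
          rw [h3] at h5
          exact (Nat.even_add.1 h5).1 h4
        · rw [← hc]
          exact Fintype.card_subtype_lt (x := k0) (by simp [p])
      have hu : RealT F kind (fun k : {k // p k} => d k.1) :=
        (RealT.double kind (d k0) (hd k0)).reindex E hEd
      refine (hu.sum hr).reindex (Equiv.sumCompl p) ?_
      rintro (k | k) <;> rfl

end Cfsg.Agent.H43
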