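import Mathlib
import Cfsg.Agent.H43.JordanReal3
import Cfsg.Agent.H43.JordanForm
import Cfsg.Agent.S2585

set_option autoImplicit false
set_option linter.unusedSectionVars false
set_option linter.unusedVariables false

/-! Which Jordan types occur. -/

namespace Cfsg.Agent.H43

open Matrix Cfsg.Agent.ClGeo

theorem symp_types {F : Type*} [Field F] {m t : ℕ} (d : Fin t → ℕ) (hd : ∀ k, 1 ≤ d k)
    (hsum : ∑ k, d k = 2 * m) :
    (∃ e : ((k : Fin t) × Fin (d k)) ≃ (Fin m ⊕ Fin m), ∃ A : Matrix.symplecticGroup (Fin m) F,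
      IsConj (Matrix.reindex e e (Cfsg.jordanTypeMatrix d F)) (A : Matrix (Fin m ⊕ Fin m) (Fin m ⊕ Fin m) F)) ↔
    ∀ j : ℕ, Odd j → Even (Finset.univ.filter (fun k : Fin t => d k = j)).card := by
  constructor
  · rintro ⟨e, A, hA⟩ j hj
    obtain ⟨b, hb⟩ := (isConj_reindex_iff d e _).1 hA
    obtain ⟨i, rfl⟩ := hj
    obtain ⟨M, hM⟩ : ∃ M : Module.End F (Fin m ⊕ Fin m → F), ∀ x, M x = x -
      (LinearMap.GeneralLinearGroup.generalLinearEquiv F _ (spEnd A)).symm x := ⟨LinearMap.id - (((LinearMap.GeneralLinearGroup.generalLinearEquiv F _ (spEnd A)).symm : _ ≃ₗ[F] _) : _ →ₗ[F] _), fun x => rfl⟩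
    refine even_card_of_vanish (B := sB F m) (ε := -1) (by ring) ?_ (sB_nondegenerate m)
      (LinearMap.GeneralLinearGroup.generalLinearEquiv F _ (spEnd A)) (spEnd_iso A) (fun x => rfl) hb (2 * i + 1) (by omega) ?_
    · intro x y
      rw [← (sB_isAlt (F := F) m).neg_eq]
      ring
    · intro x hx
      rw [Nat.add_sub_cancel]
      exact alt_vanish (LinearMap.GeneralLinearGroup.generalLinearEquiv F _ (spEnd A)) (fun x => rfl) hM (spEnd_iso A) (sB_isAlt m) i x hx
  · intro h
    obtain ⟨n, B, u, b, hB, hu, hb⟩ := RealT.assemble (F := F) true Even (fun n hn1 hn => by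
      obtain ⟨k, rfl⟩ := hn
      rw [← two_mul]
      exact RealT.single_alt k (by omega)) _ (Fin t) d rfl hd (fun j hj => h j (Nat.not_even_iff_odd.1 hj))
    have hn : Module.finrank F (Fin n → F) = 2 * m := by
      rw [Module.finrank_eq_card_basis b, Fintype.card_sigma]
      simp only [Fintype.card_fin]
      exact hsum
    obtain ⟨e0, he0⟩ := exists_symp_equiv' B (hB.1 rfl) hB.2.2 hn
    have he0' : ∀ x y, sB F m (e0 x) (e0 y) = B x y := by
      intro x y; rw [sB_apply, he0]
    obtain ⟨U, hU⟩ : ∃ U : Module.End F (Fin m ⊕ Fin m → F), ∀ x, U (e0 x) = e0 (u x) :=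
      ⟨(e0 : (Fin n → F) →ₗ[F] (Fin m ⊕ Fin m → F)) ∘ₗ (u : (Fin n → F) →ₗ[F] (Fin n → F)) ∘ₗ (e0.symm : (Fin m ⊕ Fin m → F) →ₗ[F] (Fin n → F)), fun x => by simp⟩
    obtain ⟨A, hA⟩ := exists_spEnd U (by
      intro x y
      obtain ⟨x', rfl⟩ := e0.surjective x
      obtain ⟨y', rfl⟩ := e0.surjective y
      rw [hU, hU, he0', he0', hu])
    have hcard : Fintype.card ((k : Fin t) × Fin (d k)) = Fintype.card (Fin m ⊕ Fin m) := by
      rw [Fintype.card_sigma, Fintype.card_sum]
      simp only [Fintype.card_fin]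
      omega
    refine ⟨Fintype.equivOfCardEq hcard, A, (isConj_reindex_iff d _ _).2 ⟨b.map e0, ?_⟩⟩
    apply hb.map e0
    intro x
    have h1 : (Matrix.toLin' (A : Matrix (Fin m ⊕ Fin m) (Fin m ⊕ Fin m) F)) = U := hA
    rw [h1, LinearMap.sub_apply, LinearMap.sub_apply, map_sub, hU]
    rfl

theorem glEnd_iso {F ν : Type*} [Field F] [Fintype ν] [DecidableEq ν] (A : GL ν F) (x : ν → F) :
    (LinearMap.GeneralLinearGroup.generalLinearEquiv F _ (glEnd A)) x = (A : Matrix ν ν F) *ᵥ x := rfl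

theorem exists_gl (F : Type*) {ν : Type*} [Field F] [Fintype ν] [DecidableEq ν] (u : (ν → F) ≃ₗ[F] (ν → F)) :
    ∃ A : GL ν F, ∀ x, (A : Matrix ν ν F) *ᵥ x = u x := by
  obtain ⟨K, hK⟩ : ∃ K : GL ν F, glEnd K = (LinearMap.GeneralLinearGroup.generalLinearEquiv F (ν → F)).symm u :=
    ⟨glEnd.symm _, MulEquiv.apply_symm_apply _ _⟩
  refine ⟨K, fun x => ?_⟩
  rw [← glEnd_apply, hK]
  rfl

theorem orth_types {F : Type*} [Field F] (h2 : (2 : F) ≠ 0) {n t : ℕ} (d : Fin t → ℕ) (hd : ∀ k, 1 ≤ d k)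
    (hsum : ∑ k, d k = n) :
    (∃ Q : QuadraticForm F (Fin n → F), (QuadraticMap.polarBilin Q).Nondegenerate ∧
      ∃ e : ((k : Fin t) × Fin (d k)) ≃ Fin n, ∃ A : ↥(Cfsg.isometryGroup F ⇑Q),
        IsConj (Matrix.reindex e e (Cfsg.jordanTypeMatrix d F)) ((A : Matrix.GeneralLinearGroup (Fin n) F) : Matrix (Fin n) (Fin n) F)) ↔
    ∀ j : ℕ, Even j → 0 < j → Even (Finset.univ.filter (fun k : Fin t => d k = j)).card := by
  constructor
  · rintro ⟨Q, hQ, e, A, hA⟩ j hj hj0
    obtain ⟨b, hb⟩ := (isConj_reindex_iff d e _).1 hA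
    obtain ⟨i, rfl⟩ : ∃ i, j = i + 1 := ⟨j - 1, by omega⟩
    have hi : Odd i := by
      rcases Nat.even_or_odd i with h | h
      · exact absurd hj (by rw [Nat.even_add_one]; exact not_not.2 h)
      · exact h
    have hAQ : ∀ x, Q ((LinearMap.GeneralLinearGroup.generalLinearEquiv F _ (glEnd (A : Matrix.GeneralLinearGroup (Fin n) F))) x) = Q x :=
      fun x => A.2 x 0
    have hAB : ∀ x y, QuadraticMap.polarBilin Q ((LinearMap.GeneralLinearGroup.generalLinearEquiv F _ (glEnd (A : Matrix.GeneralLinearGroup (Fin n) F))) x)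
        ((LinearMap.GeneralLinearGroup.generalLinearEquiv F _ (glEnd (A : Matrix.GeneralLinearGroup (Fin n) F))) y) = QuadraticMap.polarBilin Q x y := by
      intro x y
      rw [QuadraticMap.polarBilin_apply_apply, QuadraticMap.polarBilin_apply_apply]
      unfold QuadraticMap.polar
      rw [← map_add, hAQ, hAQ, hAQ]
    have hsym : ∀ x y, QuadraticMap.polarBilin Q y x = QuadraticMap.polarBilin Q x y := by
      intro x y
      rw [QuadraticMap.polarBilin_apply_apply, QuadraticMap.polarBilin_apply_apply, QuadraticMap.polar_comm]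
    obtain ⟨M, hM⟩ : ∃ M : Module.End F (Fin n → F), ∀ x, M x = x -
      (LinearMap.GeneralLinearGroup.generalLinearEquiv F _ (glEnd (A : Matrix.GeneralLinearGroup (Fin n) F))).symm x :=
        ⟨LinearMap.id - (((LinearMap.GeneralLinearGroup.generalLinearEquiv F _ (glEnd (A : Matrix.GeneralLinearGroup (Fin n) F))).symm : _ ≃ₗ[F] _) : _ →ₗ[F] _), fun x => rfl⟩
    refine even_card_of_vanish (B := QuadraticMap.polarBilin Q) (ε := 1) (by ring) ?_ hQ
      (LinearMap.GeneralLinearGroup.generalLinearEquiv F _ (glEnd (A : Matrix.GeneralLinearGroup (Fin n) F))) hAB (fun x => rfl) hb (i + 1) (by omega) ?_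
    · intro x y
      rw [one_mul]; exact hsym x y
    · intro x hx
      rw [Nat.add_sub_cancel]
      exact sym_vanish (LinearMap.GeneralLinearGroup.generalLinearEquiv F _ (glEnd (A : Matrix.GeneralLinearGroup (Fin n) F)))
        (fun x => rfl) hM hAB hsym h2 i hi x hx
  · intro h
    obtain ⟨n', B, u, b, hB, hu, hb⟩ := RealT.assemble (F := F) false Odd (fun n hn1 hn => RealT.single_sym h2 n hn) _ (Fin t) d rfl hd (fun j hj => by
      rcases Nat.eq_zero_or_pos j with h0 | h0
      · have : Finset.univ.filter (fun k : Fin t => d k = j) = ∅ := by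
          rw [Finset.filter_eq_empty_iff]
          intro k _ h3
          have := hd k
          omega
        rw [this, Finset.card_empty]
        exact Even.zero
      · exact h j (Nat.not_odd_iff_even.1 hj) h0)
    have hn : n' = n := by
      have h1 := Module.finrank_eq_card_basis b
      rw [Module.finrank_fintype_fun_eq_card, Fintype.card_fin, Fintype.card_sigma] at h1
      simp only [Fintype.card_fin] at h1
      rw [h1, hsum]
    subst hn
    obtain ⟨Q, hQ⟩ : ∃ Q : QuadraticForm F (Fin n' → F), Q = LinearMap.BilinMap.toQuadraticMap B := ⟨_, rfl⟩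
    have hQv : ∀ x, Q x = B x x := by intro x; rw [hQ]; rfl
    have hQp : ∀ x y, QuadraticMap.polarBilin Q x y = 2 * B x y := by
      intro x y
      rw [QuadraticMap.polarBilin_apply_apply]
      unfold QuadraticMap.polar
      rw [hQv, hQv, hQv, map_add, map_add, LinearMap.add_apply, LinearMap.add_apply, hB.2.1 rfl x y]
      ring
    obtain ⟨A, hA⟩ := exists_gl F u
    refine ⟨Q, ⟨?_, ?_⟩, Fintype.equivOfCardEq ?_, ⟨A, ?_⟩, ?_⟩
    · intro x hx
      apply hB.2.2
      intro y
      have h1 := hx y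
      rw [hQp] at h1
      exact (mul_eq_zero.1 h1).resolve_left h2
    · intro y hy
      apply hB.2.2
      intro x
      have h1 := hy x
      rw [hQp, hB.2.1 rfl y x] at h1
      exact (mul_eq_zero.1 h1).resolve_left h2
    · rw [Fintype.card_sigma]
      simp only [Fintype.card_fin]
      exact hsum
    · change ∀ v _, Q ((A : Matrix (Fin n') (Fin n') F) *ᵥ v) = Q v
      intro v _
      rw [hA, hQv, hQv, hu]
    · rw [isConj_reindex_iff]
      refine ⟨b, ?_⟩
      have : (Matrix.toLin' (A : Matrix (Fin n') (Fin n') F)) = (u : (Fin n' → F) →ₗ[F] (Fin n' → F)) := by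
        apply LinearMap.ext
        intro x
        exact hA x
      change JB (Matrix.toLin' (A : Matrix (Fin n') (Fin n') F) - 1) d b
      rw [this]
      exact hb

theorem orth2_types {F : Type*} [Field F] [Fintype F] [CharP F 2] {m t : ℕ} (d : Fin t → ℕ) (hd : ∀ k, 1 ≤ d k)
    (hsum : ∑ k, d k = 2 * m) :
    (∃ Q : QuadraticForm F (Fin (2 * m) → F), (QuadraticMap.polarBilin Q).Nondegenerate ∧
      ∃ e : ((k : Fin t) × Fin (d k)) ≃ Fin (2 * m), ∃ A : ↥(Cfsg.isometryGroup F ⇑Q),
        IsConj (Matrix.reindex e e (Cfsg.jordanTypeMatrix d F)) ((A : Matrix.GeneralLinearGroup (Fin (2 * m)) F) : Matrix (Fin (2 * m)) (Fin (2 * m)) F)) ↔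
    ∀ j : ℕ, Odd j → Even (Finset.univ.filter (fun k : Fin t => d k = j)).card := by
  constructor
  · rintro ⟨Q, hQ, e, A, hA⟩ j hj
    obtain ⟨b, hb⟩ := (isConj_reindex_iff d e _).1 hA
    obtain ⟨i, rfl⟩ := hj
    have hAQ : ∀ x, Q ((LinearMap.GeneralLinearGroup.generalLinearEquiv F _ (glEnd (A : Matrix.GeneralLinearGroup (Fin (2 * m)) F))) x) = Q x :=
      fun x => A.2 x 0
    have hAB : ∀ x y, QuadraticMap.polarBilin Q ((LinearMap.GeneralLinearGroup.generalLinearEquiv F _ (glEnd (A : Matrix.GeneralLinearGroup (Fin (2 * m)) F))) x)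
        ((LinearMap.GeneralLinearGroup.generalLinearEquiv F _ (glEnd (A : Matrix.GeneralLinearGroup (Fin (2 * m)) F))) y) = QuadraticMap.polarBilin Q x y := by
      intro x y
      rw [QuadraticMap.polarBilin_apply_apply, QuadraticMap.polarBilin_apply_apply]
      unfold QuadraticMap.polar
      rw [← map_add, hAQ, hAQ, hAQ]
    have hsym : ∀ x y, QuadraticMap.polarBilin Q y x = QuadraticMap.polarBilin Q x y := by
      intro x y
      rw [QuadraticMap.polarBilin_apply_apply, QuadraticMap.polarBilin_apply_apply, QuadraticMap.polar_comm]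
    have halt : (QuadraticMap.polarBilin Q).IsAlt := by
      intro x
      rw [QuadraticMap.polarBilin_apply_apply, QuadraticMap.polar_self, CharTwo.two_nsmul]
    obtain ⟨M, hM⟩ : ∃ M : Module.End F (Fin (2 * m) → F), ∀ x, M x = x -
      (LinearMap.GeneralLinearGroup.generalLinearEquiv F _ (glEnd (A : Matrix.GeneralLinearGroup (Fin (2 * m)) F))).symm x :=
        ⟨LinearMap.id - (((LinearMap.GeneralLinearGroup.generalLinearEquiv F _ (glEnd (A : Matrix.GeneralLinearGroup (Fin (2 * m)) F))).symm : _ ≃ₗ[F] _) : _ →ₗ[F] _), fun x => rfl⟩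
    refine even_card_of_vanish (B := QuadraticMap.polarBilin Q) (ε := 1) (by ring) ?_ hQ
      (LinearMap.GeneralLinearGroup.generalLinearEquiv F _ (glEnd (A : Matrix.GeneralLinearGroup (Fin (2 * m)) F))) hAB (fun x => rfl) hb (2 * i + 1) (by omega) ?_
    · intro x y
      rw [one_mul]; exact hsym x y
    · intro x hx
      rw [Nat.add_sub_cancel]
      exact alt_vanish (LinearMap.GeneralLinearGroup.generalLinearEquiv F _ (glEnd (A : Matrix.GeneralLinearGroup (Fin (2 * m)) F)))
        (fun x => rfl) hM hAB halt i x hx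
  · intro h
    obtain ⟨e, A, hA⟩ := (symp_types (F := F) d hd hsum).2 h
    obtain ⟨Q', hQ1, hQ2⟩ := Cfsg.Agent.S2585.result A
    obtain ⟨b, hb⟩ := (isConj_reindex_iff d e _).1 hA
    let σ : Fin m ⊕ Fin m ≃ Fin (2 * m) := Fintype.equivOfCardEq (by rw [Fintype.card_sum, Fintype.card_fin, Fintype.card_fin]; ring)
    let g : (Fin m ⊕ Fin m → F) ≃ₗ[F] (Fin (2 * m) → F) := LinearEquiv.funCongrLeft F F σ.symm
    obtain ⟨A', hA'⟩ := exists_gl F ((g.symm.trans (LinearMap.GeneralLinearGroup.generalLinearEquiv F _ (spEnd A))).trans g)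
    have hA'g : ∀ x, (A' : Matrix (Fin (2 * m)) (Fin (2 * m)) F) *ᵥ (g x) = g ((A : Matrix (Fin m ⊕ Fin m) (Fin m ⊕ Fin m) F) *ᵥ x) := by
      intro x
      rw [hA']
      change g ((A : Matrix (Fin m ⊕ Fin m) (Fin m ⊕ Fin m) F) *ᵥ (g.symm (g x))) = _
      rw [LinearEquiv.symm_apply_apply]
    have hpol : ∀ x y, QuadraticMap.polarBilin (Q'.comp (g.symm : (Fin (2 * m) → F) →ₗ[F] (Fin m ⊕ Fin m → F))) x y = sB F m (g.symm x) (g.symm y) := by
      intro x y
      rw [sB_apply, ← hQ1, QuadraticMap.polarBilin_apply_apply]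
      unfold QuadraticMap.polar
      simp only [QuadraticMap.comp_apply, map_add]
      rfl
    refine ⟨Q'.comp (g.symm : (Fin (2 * m) → F) →ₗ[F] (Fin m ⊕ Fin m → F)), ⟨?_, ?_⟩, e.trans σ, ⟨A', ?_⟩, ?_⟩
    · intro x hx
      have h1 : g.symm x = 0 := by
        apply sB_nondeg
        intro y
        have := hx (g y)
        rw [hpol, LinearEquiv.symm_apply_apply] at this
        exact this
      exact g.symm.map_eq_zero_iff.1 h1
    · intro x hx
      have h1 : g.symm x = 0 := by
        apply sB_nondeg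
        intro y
        have := hx (g y)
        rw [hpol, LinearEquiv.symm_apply_apply] at this
        rw [← (sB_isAlt (F := F) m).neg_eq, this, neg_zero]
      exact g.symm.map_eq_zero_iff.1 h1
    · change ∀ v _, Q' (g.symm ((A' : Matrix (Fin (2 * m)) (Fin (2 * m)) F) *ᵥ v)) = Q' (g.symm v)
      intro v _
      obtain ⟨v', rfl⟩ := g.surjective v
      rw [hA'g, LinearEquiv.symm_apply_apply, LinearEquiv.symm_apply_apply, hQ2]
    · rw [isConj_reindex_iff]
      refine ⟨b.map g, ?_⟩
      apply hb.map g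
      intro x
      rw [LinearMap.sub_apply, LinearMap.sub_apply, map_sub, Matrix.toLin'_apply, Matrix.toLin'_apply, ← hA'g]
      rfl

end Cfsg.Agent.H43
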