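import Mathlib
import Cfsg.Agent.H43.JordanReal4

set_option autoImplicit false
set_option linter.unusedSectionVars false
set_option linter.unusedVariables false

/-! Classes of elements of order `p` in `GL_n` in characteristic `p`. -/

namespace Cfsg.Agent.H43

open Matrix

theorem exists_gl_of_type (F : Type*) [Field F] {n t : ℕ} (d : Fin t → ℕ) (hsum : ∑ k, d k = n) :
    ∃ (g : GL (Fin n) F) (b : Module.Basis ((k : Fin t) × Fin (d k)) F (Fin n → F)),
      JB (Matrix.toLin' (g : Matrix (Fin n) (Fin n) F) - 1) d b := by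
  have hcard : Fintype.card ((k : Fin t) × Fin (d k)) = Fintype.card (Fin n) := by
    rw [Fintype.card_sigma]
    simp only [Fintype.card_fin]
    exact hsum
  obtain ⟨e⟩ : Nonempty (((k : Fin t) × Fin (d k)) ≃ Fin n) := ⟨Fintype.equivOfCardEq hcard⟩
  obtain ⟨b, hb⟩ := (isConj_reindex_iff d e (Matrix.reindex e e (Cfsg.jordanTypeMatrix d F))).1 (IsConj.refl _)
  obtain ⟨M, hM⟩ : ∃ M : Matrix (Fin n) (Fin n) F, M = Matrix.reindex e e (Cfsg.jordanTypeMatrix d F) := ⟨_, rfl⟩
  rw [← hM] at hb
  have hnil : IsNilpotent (M - 1) := by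
    refine ⟨∑ k, d k, ?_⟩
    apply (Matrix.toLin' (R := F) (m := Fin n) (n := Fin n)).injective
    rw [Matrix.toLin'_pow, toLin'_sub_one, map_zero]
    exact hb.pow_zero _ (fun k => Finset.single_le_sum (f := d) (fun _ _ => Nat.zero_le _) (Finset.mem_univ k))
  obtain ⟨g, hg⟩ : ∃ g : GL (Fin n) F, (g : Matrix (Fin n) (Fin n) F) = M := by
    have h1 : IsUnit M := by
      have : M = (M - 1) + 1 := by abel
      rw [this]
      exact hnil.isUnit_add_one
    exact h1
  exact ⟨g, b, by rw [hg]; exact hb⟩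

theorem isConj_of_JB {F ν : Type*} [Field F] [Fintype ν] [DecidableEq ν] {g g' : GL ν F} {ι : Type*} {d : ι → ℕ}
    {b b' : Module.Basis ((k : ι) × Fin (d k)) F (ν → F)} (h : JB (Matrix.toLin' (g : Matrix ν ν F) - 1) d b)
    (h' : JB (Matrix.toLin' (g' : Matrix ν ν F) - 1) d b') : IsConj g g' := by
  obtain ⟨k, hk⟩ := h.exists_conj h'
  obtain ⟨K, hK⟩ := exists_gl F k
  rw [isConj_iff]
  refine ⟨K, ?_⟩
  rw [mul_inv_eq_iff_eq_mul]
  apply Units.ext
  rw [Units.val_mul, Units.val_mul]
  apply (Matrix.toLin' (R := F) (m := ν) (n := ν)).injective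
  apply LinearMap.ext
  intro x
  rw [Matrix.toLin'_apply, Matrix.toLin'_apply, ← Matrix.mulVec_mulVec, ← Matrix.mulVec_mulVec, hK, hK]
  have h1 := hk x
  rw [LinearMap.sub_apply, LinearMap.sub_apply, map_sub] at h1
  change k ((g : Matrix ν ν F) *ᵥ x) - k x = (g' : Matrix ν ν F) *ᵥ (k x) - k x at h1
  exact sub_left_injective h1

theorem JB_card_eq_of_isConj {F ν : Type*} [Field F] [Fintype ν] [DecidableEq ν] {g g' : GL ν F} (hc : IsConj g g')
    {ι ι' : Type*} [Fintype ι] [Fintype ι'] {d : ι → ℕ} {d' : ι' → ℕ}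
    {b : Module.Basis ((k : ι) × Fin (d k)) F (ν → F)} {b' : Module.Basis ((k : ι') × Fin (d' k)) F (ν → F)}
    (h : JB (Matrix.toLin' (g : Matrix ν ν F) - 1) d b)
    (h' : JB (Matrix.toLin' (g' : Matrix ν ν F) - 1) d' b') (j : ℕ) (hj : 1 ≤ j) :
    (Finset.univ.filter (fun k => d k = j)).card = (Finset.univ.filter (fun k => d' k = j)).card := by
  rw [isConj_iff] at hc
  obtain ⟨c, hc⟩ := hc
  rw [mul_inv_eq_iff_eq_mul] at hc
  have hc' : (c : Matrix ν ν F) * (g : Matrix ν ν F) = (g' : Matrix ν ν F) * (c : Matrix ν ν F) := congrArg Units.val hc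
  apply h.card_eq h' (LinearMap.GeneralLinearGroup.generalLinearEquiv F _ (glEnd c)) _ j hj
  intro x
  change (c : Matrix ν ν F) *ᵥ ((g : Matrix ν ν F) *ᵥ x - x) = (g' : Matrix ν ν F) *ᵥ ((c : Matrix ν ν F) *ᵥ x) - (c : Matrix ν ν F) *ᵥ x
  rw [Matrix.mulVec_sub, Matrix.mulVec_mulVec, Matrix.mulVec_mulVec, hc']

theorem pow_eq_one_iff_nil {F ν : Type*} [Field F] [Fintype ν] [DecidableEq ν] {p : ℕ} [Fact p.Prime] [CharP F p]
    (g : GL ν F) : g ^ p = 1 ↔ (Matrix.toLin' (g : Matrix ν ν F) - 1 : Module.End F (ν → F)) ^ p = 0 := by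
  rcases isEmpty_or_nonempty ν with hν | hν
  · constructor
    · intro _
      exact Subsingleton.elim _ _
    · intro _
      apply Units.ext
      exact Subsingleton.elim _ _
  have hcp : CharP (Matrix ν ν F) p := Matrix.charP p
  have h1 : (Matrix.toLin' (g : Matrix ν ν F) - 1 : Module.End F (ν → F)) ^ p = Matrix.toLin' ((g : Matrix ν ν F) ^ p - 1) := by
    rw [← toLin'_sub_one, ← Matrix.toLin'_pow, sub_pow_char_of_commute p (Commute.one_right _), one_pow]
  rw [h1, (Matrix.toLin' (R := F) (m := ν) (n := ν)).map_eq_zero_iff, sub_eq_zero, Units.ext_iff]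
  rfl

theorem card_order_p_classes {F : Type*} [Field F] {p : ℕ} [Fact p.Prime] [CharP F p] (n : ℕ) :
    Nat.card {C : ConjClasses (GL (Fin n) F) // ∃ g : GL (Fin n) F, ConjClasses.mk g = C ∧ orderOf g = p} =
      (Finset.univ.filter (fun μ : Nat.Partition n => ∀ a ∈ μ.parts, a ≤ p)).card - 1 := by
  classical
  have hp : p.Prime := Fact.out
  -- representing data
  have hrep : ∀ μ : Nat.Partition n, ∃ (t : ℕ) (d : Fin t → ℕ), Multiset.map d Finset.univ.val = μ.parts := by
    intro μ
    obtain ⟨l, hl⟩ := Quot.exists_rep μ.parts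
    refine ⟨l.length, l.get, ?_⟩
    rw [Fin.univ_val_map, List.ofFn_get]
    exact hl
  choose t d hd using hrep
  have hsum : ∀ μ, ∑ k, d μ k = n := by
    intro μ
    rw [← μ.parts_sum, ← hd μ]
    rfl
  have hpos : ∀ μ k, 1 ≤ d μ k := by
    intro μ k
    apply μ.parts_pos
    rw [← hd μ]
    exact Multiset.mem_map_of_mem _ (Finset.mem_univ_val k)
  choose g b hb using fun μ => exists_gl_of_type F (d μ) (hsum μ)
  have hcount : ∀ μ j, (Finset.univ.filter (fun k => d μ k = j)).card = μ.parts.count j := by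
    intro μ j
    rw [← hd μ, Multiset.count_map]
    change Multiset.card _ = _
    congr 1
    rw [Finset.filter_val]
    refine Multiset.filter_congr ?_
    intro k _
    exact eq_comm
  have hle : ∀ μ, (∀ a ∈ μ.parts, a ≤ p) ↔ (g μ) ^ p = 1 := by
    intro μ
    rw [pow_eq_one_iff_nil]
    constructor
    · intro h
      apply (hb μ).pow_zero
      intro k
      apply h
      rw [← hd μ]
      exact Multiset.mem_map_of_mem _ (Finset.mem_univ_val k)
    · intro h a ha
      rw [← hd μ, Multiset.mem_map] at ha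
      obtain ⟨k, _, rfl⟩ := ha
      by_contra hlt
      push Not at hlt
      have h1 := (hb μ).pow p k ⟨0, by omega⟩
      rw [h, dif_pos (by simpa using hlt)] at h1
      exact (b μ).ne_zero _ h1.symm
  have hone : ∀ μ, (∀ a ∈ μ.parts, a = 1) ↔ g μ = 1 := by
    intro μ
    have h0 : g μ = 1 ↔ (Matrix.toLin' (g μ : Matrix (Fin n) (Fin n) F) - 1 : Module.End F (Fin n → F)) = 0 := by
      rw [← toLin'_sub_one, (Matrix.toLin' (R := F) (m := Fin n) (n := Fin n)).map_eq_zero_iff, sub_eq_zero, Units.ext_iff]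
      rfl
    rw [h0]
    constructor
    · intro h
      have := (hb μ).pow_zero 1 (fun k => (h _ (by
        rw [← hd μ]
        exact Multiset.mem_map_of_mem _ (Finset.mem_univ_val k))).le)
      rwa [pow_one] at this
    · intro h a ha
      have hapos := μ.parts_pos ha
      rw [← hd μ, Multiset.mem_map] at ha
      obtain ⟨k, _, rfl⟩ := ha
      by_contra hlt
      have h2 : 1 < d μ k := by omega
      have h1 := (hb μ) k ⟨0, by omega⟩
      rw [h, dif_pos (by simpa using h2)] at h1
      exact (b μ).ne_zero _ h1.symm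
  have hord : ∀ x : GL (Fin n) F, orderOf x = p ↔ x ^ p = 1 ∧ x ≠ 1 := by
    intro x
    constructor
    · intro h
      refine ⟨by rw [← h]; exact pow_orderOf_eq_one x, ?_⟩
      rintro rfl
      rw [orderOf_one] at h
      exact hp.one_lt.ne h
    · rintro ⟨h1, h2⟩
      exact orderOf_eq_prime h1 h2
  -- the bijection
  let P := {μ : Nat.Partition n // (∀ a ∈ μ.parts, a ≤ p) ∧ ¬ ∀ a ∈ μ.parts, a = 1}
  let Φ : P → {C : ConjClasses (GL (Fin n) F) // ∃ g : GL (Fin n) F, ConjClasses.mk g = C ∧ orderOf g = p} := fun μ =>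
    ⟨ConjClasses.mk (g μ.1), g μ.1, rfl, (hord _).2 ⟨(hle _).1 μ.2.1, fun h => μ.2.2 ((hone _).2 h)⟩⟩
  have hΦ : Function.Bijective Φ := by
    constructor
    · rintro ⟨μ, hμ⟩ ⟨μ', hμ'⟩ h
      have h1 : ConjClasses.mk (g μ) = ConjClasses.mk (g μ') := congrArg Subtype.val h
      rw [ConjClasses.mk_eq_mk_iff_isConj] at h1
      apply Subtype.ext
      apply Nat.Partition.ext
      rw [Multiset.ext]
      intro j
      rcases Nat.eq_zero_or_pos j with rfl | hj
      · rw [Multiset.count_eq_zero_of_notMem, Multiset.count_eq_zero_of_notMem]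
        · intro h2; exact absurd (μ'.parts_pos h2) (lt_irrefl 0)
        · intro h2; exact absurd (μ.parts_pos h2) (lt_irrefl 0)
      · rw [← hcount, ← hcount]
        exact JB_card_eq_of_isConj h1 (hb μ) (hb μ') j hj
    · rintro ⟨C, x, rfl, hx⟩
      rw [hord] at hx
      have hnil : (Matrix.toLin' (x : Matrix (Fin n) (Fin n) F) - 1 : Module.End F (Fin n → F)) ^ p = 0 := (pow_eq_one_iff_nil x).1 hx.1
      obtain ⟨t', d', b', hd', hb'⟩ := exists_JB _ ⟨p, hnil⟩
      have hsum' : ∑ k, d' k = n := by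
        have h1 := Module.finrank_eq_card_basis b'
        rw [Module.finrank_fintype_fun_eq_card, Fintype.card_fin, Fintype.card_sigma] at h1
        simp only [Fintype.card_fin] at h1
        exact h1.symm
      let μ : Nat.Partition n := ⟨Multiset.map d' Finset.univ.val, by
        intro i hi
        rw [Multiset.mem_map] at hi
        obtain ⟨k, _, rfl⟩ := hi
        exact hd' k, hsum'⟩
      have hμ : ∀ j, (Finset.univ.filter (fun k => d' k = j)).card = μ.parts.count j := by
        intro j
        change _ = (Multiset.map d' Finset.univ.val).count j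
        rw [Multiset.count_map]
        change Multiset.card _ = _
        congr 1
        rw [Finset.filter_val]
        refine Multiset.filter_congr ?_
        intro k _
        exact eq_comm
      obtain ⟨σ, hσ⟩ := exists_equiv_of_card d' (d μ) (fun j => by rw [hμ, hcount])
      obtain ⟨b'', hb''⟩ := hb'.reindex σ hσ
      have hc : IsConj (g μ) x := isConj_of_JB (hb μ) hb''
      have h1 : (g μ) ^ p = 1 ∧ g μ ≠ 1 := by
        rw [isConj_iff] at hc
        obtain ⟨c, hc⟩ := hc
        have e : g μ = c⁻¹ * x * c := by rw [← hc]; group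
        constructor
        · have : (g μ) ^ p = c⁻¹ * x ^ p * c := by
            rw [e]
            have := conj_pow (i := p) (a := c⁻¹) (b := x)
            rw [inv_inv] at this
            exact this
          rw [this, hx.1]
          group
        · intro h
          apply hx.2
          rw [← hc, h]
          group
      refine ⟨⟨μ, (hle μ).2 h1.1, fun h => h1.2 ((hone μ).1 h)⟩, Subtype.ext ?_⟩
      exact ConjClasses.mk_eq_mk_iff_isConj.2 hc
  rw [← Nat.card_eq_of_bijective Φ hΦ]
  -- counting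
  let ones : Nat.Partition n := ⟨Multiset.replicate n 1, by
    intro i hi
    rw [Multiset.eq_of_mem_replicate hi]
    exact one_pos, by simp⟩
  have hones : ∀ μ : Nat.Partition n, (∀ a ∈ μ.parts, a = 1) ↔ μ = ones := by
    intro μ
    constructor
    · intro h
      apply Nat.Partition.ext
      have h1 : μ.parts = Multiset.replicate (Multiset.card μ.parts) 1 := Multiset.eq_replicate_card.2 h
      have h2 := μ.parts_sum
      rw [h1, Multiset.sum_replicate, smul_eq_mul, mul_one] at h2
      rw [h1, h2]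
    · rintro rfl a ha
      exact Multiset.eq_of_mem_replicate ha
  have hP : Nat.card P = ((Finset.univ.filter (fun μ : Nat.Partition n => ∀ a ∈ μ.parts, a ≤ p)).erase ones).card := by
    rw [Nat.card_eq_fintype_card, Fintype.card_subtype]
    congr 1
    ext μ
    simp only [Finset.mem_filter, Finset.mem_univ, true_and, Finset.mem_erase]
    rw [hones, and_comm]
  rw [hP, Finset.card_erase_of_mem]
  simp only [Finset.mem_filter, Finset.mem_univ, true_and]
  intro a ha
  rw [Multiset.eq_of_mem_replicate ha]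
  exact hp.one_lt.le

end Cfsg.Agent.H43
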