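import Mathlib
import Cfsg.Agent.H43.Decomp
import Cfsg.Agent.H43.MatEnd

set_option autoImplicit false
set_option linter.unusedSectionVars false
set_option linter.unusedVariables false

/-! Semisimple endomorphisms killed by a squarefree polynomial. -/

namespace Cfsg.Agent.H43

open Polynomial

/-- `φ` exhibits `g` as multiplication by `X` on a product of the fields `F[X]/(c i)`. -/
def SB {F V ι : Type*} [Field F] [AddCommGroup V] [Module F V] (g : Module.End F V) (c : ι → F[X])
    (φ : V ≃ₗ[F] ((i : ι) → F[X] ⧸ Ideal.span {c i})) : Prop :=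
  ∀ v i, φ (g v) i = Ideal.Quotient.mk _ X * φ v i

theorem SB.aeval {F V ι : Type*} [Field F] [AddCommGroup V] [Module F V] {g : Module.End F V} {c : ι → F[X]}
    {φ : V ≃ₗ[F] ((i : ι) → F[X] ⧸ Ideal.span {c i})} (h : SB g c φ) (Q : F[X]) (v : V) (i : ι) :
    φ (Polynomial.aeval g Q v) i = Ideal.Quotient.mk _ Q * φ v i := by
  induction Q using Polynomial.induction_on' with
  | add p q hp hq => rw [map_add, LinearMap.add_apply, map_add, Pi.add_apply, hp, hq, map_add, add_mul]
  | monomial n a =>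
    rw [← C_mul_X_pow_eq_monomial, map_mul, aeval_C, map_pow, aeval_X]
    have h1 : ∀ n : ℕ, ∀ v, φ ((g ^ n) v) i = Ideal.Quotient.mk _ (X ^ n) * φ v i := by
      intro n
      induction n with
      | zero => intro v; simp
      | succ n ih =>
        intro v
        rw [pow_succ', Module.End.mul_apply, h, ih, pow_succ', map_mul, mul_assoc]
    rw [Module.End.mul_apply, Module.algebraMap_end_apply, map_smul, Pi.smul_apply, h1, ← smul_eq_C_mul]
    obtain ⟨y, hy⟩ := Ideal.Quotient.mk_surjective (φ v i)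
    rw [← hy, ← map_mul, ← map_mul, smul_mul_assoc]
    rfl

theorem SB.exists_conj {F V W ι ι' : Type*} [Field F] [AddCommGroup V] [Module F V] [AddCommGroup W] [Module F W]
    {g : Module.End F V} {g' : Module.End F W} {c : ι → F[X]} {c' : ι' → F[X]}
    {φ : V ≃ₗ[F] ((i : ι) → F[X] ⧸ Ideal.span {c i})} (h : SB g c φ)
    {φ' : W ≃ₗ[F] ((i : ι') → F[X] ⧸ Ideal.span {c' i})} (h' : SB g' c' φ') (σ : ι ≃ ι') (hσ : ∀ i, c' (σ i) = c i) :
    ∃ k : V ≃ₗ[F] W, ∀ x, k (g x) = g' (k x) := by
  obtain rfl : c = fun i => c' (σ i) := by funext i; rw [hσ]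
  obtain ⟨ψ, hψ⟩ : ∃ ψ : ((i : ι) → F[X] ⧸ Ideal.span {c' (σ i)}) ≃ₗ[F] ((i : ι') → F[X] ⧸ Ideal.span {c' i}),
      ∀ x i, ψ x (σ i) = x i :=
    ⟨LinearEquiv.piCongrLeft F (fun i => F[X] ⧸ Ideal.span {c' i}) σ, fun x i => by
      have h1 : ∀ y, (LinearEquiv.piCongrLeft F (fun i => F[X] ⧸ Ideal.span {c' i}) σ).symm y i = y (σ i) := fun y => rfl
      have h2 := h1 (LinearEquiv.piCongrLeft F (fun i => F[X] ⧸ Ideal.span {c' i}) σ x)
      rw [LinearEquiv.symm_apply_apply] at h2
      exact h2.symm⟩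
  refine ⟨(φ.trans ψ).trans φ'.symm, ?_⟩
  intro x
  apply φ'.injective
  rw [LinearEquiv.trans_apply, LinearEquiv.trans_apply, LinearEquiv.apply_symm_apply]
  funext i
  obtain ⟨j, rfl⟩ := σ.surjective i
  rw [hψ, h, h', LinearEquiv.trans_apply, LinearEquiv.trans_apply, LinearEquiv.apply_symm_apply, hψ]

theorem exists_SB {F V : Type*} [Field F] [AddCommGroup V] [Module F V] [FiniteDimensional F V] (g : Module.End F V)
    (f : F[X]) (hf : Squarefree f) (hg : Polynomial.aeval g f = 0) :
    ∃ (t : ℕ) (c : Fin t → F[X]) (φ : V ≃ₗ[F] ((i : Fin t) → F[X] ⧸ Ideal.span {c i})),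
      (∀ i, (c i).Monic ∧ Irreducible (c i) ∧ c i ∣ f) ∧ SB g c φ := by
  classical
  obtain ⟨t, p, e, φ, hp, hφ⟩ := exists_decomp g
  have hφ' : SB g (fun i => p i ^ e i) φ := hφ
  have hf0 : f ≠ 0 := hf.ne_zero
  -- every factor divides f
  have hdiv : ∀ i, p i ^ e i ∣ f := by
    intro i
    obtain ⟨v, hv⟩ := φ.surjective (fun _ => 1)
    have h1 := hφ'.aeval f v i
    rw [hg, LinearMap.zero_apply, map_zero, hv, mul_one] at h1
    rw [Pi.zero_apply, eq_comm, Ideal.Quotient.eq_zero_iff_mem, Ideal.mem_span_singleton] at h1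
    exact h1
  have he : ∀ i, e i ≠ 0 → e i = 1 := by
    intro i hi
    by_contra h1
    have h2 : p i * p i ∣ f := by
      refine dvd_trans ?_ (hdiv i)
      rw [← pow_two]
      exact pow_dvd_pow _ (by omega)
    exact (hp i).not_isUnit (hf _ h2)
  have hc : ∀ i : {i : Fin t // e i ≠ 0}, ∃ c : F[X], c.Monic ∧ Irreducible c ∧ c ∣ f ∧ Ideal.span {p i.1 ^ e i.1} = Ideal.span {c} := by
    rintro ⟨i, hi⟩
    have h0 := (hp i).ne_zero
    refine ⟨normalize (p i), monic_normalize h0, ?_, ?_, ?_⟩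
    · exact ((normalize_associated (p i)).symm.irreducible (hp i))
    · have : p i ∣ f := by
        have := hdiv i
        rw [he i hi, pow_one] at this
        exact this
      exact (normalize_associated (p i)).dvd.trans this
    · simp only
      rw [he i hi, pow_one, Ideal.span_singleton_eq_span_singleton]
      exact (normalize_associated (p i)).symm
  choose c hc1 hc2 hc3 hc4 using hc
  let q : ∀ i : {i : Fin t // e i ≠ 0}, (F[X] ⧸ Ideal.span {p i.1 ^ e i.1}) ≃ₐ[F] (F[X] ⧸ Ideal.span {c i}) :=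
    fun i => Ideal.quotientEquivAlgOfEq F (hc4 i)
  have hq : ∀ i x, q i (Ideal.Quotient.mk _ x) = Ideal.Quotient.mk _ x := fun i x => Ideal.quotientEquivAlgOfEq_mk F (hc4 i) x
  let ψ0 : ((i : Fin t) → F[X] ⧸ Ideal.span {p i ^ e i}) →ₗ[F] ((i : {i : Fin t // e i ≠ 0}) → F[X] ⧸ Ideal.span {c i}) :=
    LinearMap.pi (fun i => (q i).toLinearMap ∘ₗ LinearMap.proj (R := F) (φ := fun i : Fin t => F[X] ⧸ Ideal.span {p i ^ e i}) i.1)
  have hψ0 : ∀ x i, ψ0 x i = q i (x i.1) := fun x i => rfl
  have hbij : Function.Bijective ψ0 := by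
    constructor
    · rw [injective_iff_map_eq_zero]
      intro x hx
      funext i
      by_cases hi : e i = 0
      · have hsub : Subsingleton (F[X] ⧸ Ideal.span {p i ^ e i}) := by
          rw [hi, pow_zero]
          rw [Ideal.Quotient.subsingleton_iff, Ideal.span_singleton_one]
        exact Subsingleton.elim _ _
      · have h1 := congrFun hx ⟨i, hi⟩
        rw [hψ0] at h1
        exact (map_eq_zero_iff (q ⟨i, hi⟩) (q ⟨i, hi⟩).injective).1 h1
    · intro y
      refine ⟨fun i => if h : e i ≠ 0 then (q ⟨i, h⟩).symm (y ⟨i, h⟩) else 0, ?_⟩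
      funext i
      rw [hψ0, dif_pos i.2, AlgEquiv.apply_symm_apply]
  let ψ := LinearEquiv.ofBijective ψ0 hbij
  have hSB : SB g c (φ.trans ψ) := by
    intro v i
    change ψ0 (φ (g v)) i = _ * ψ0 (φ v) i
    rw [hψ0, hφ, map_mul, hq, hψ0]
  -- reindex by Fin
  let σ := Fintype.equivFin {i : Fin t // e i ≠ 0}
  let ρ : ((i : {i : Fin t // e i ≠ 0}) → F[X] ⧸ Ideal.span {c i}) ≃ₗ[F] ((j : Fin _) → F[X] ⧸ Ideal.span {c (σ.symm j)}) :=
    (LinearEquiv.piCongrLeft F (fun i : {i : Fin t // e i ≠ 0} => F[X] ⧸ Ideal.span {c i}) σ.symm).symm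
  refine ⟨_, fun j => c (σ.symm j), (φ.trans ψ).trans ρ, fun j => ⟨hc1 _, hc2 _, hc3 _⟩, ?_⟩
  intro v j
  change (φ.trans ψ) (g v) (σ.symm j) = _ * (φ.trans ψ) v (σ.symm j)
  exact hSB v (σ.symm j)

/-- dimension of the primary component -/
theorem SB.finrank_ker {F V ι : Type*} [Field F] [AddCommGroup V] [Module F V] [Fintype ι] [DecidableEq F[X]]
    {g : Module.End F V} {c : ι → F[X]} {φ : V ≃ₗ[F] ((i : ι) → F[X] ⧸ Ideal.span {c i})} (h : SB g c φ)
    (hc : ∀ i, (c i).Monic ∧ Irreducible (c i)) (P : F[X]) (hP : P.Monic ∧ Irreducible P) :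
    Module.finrank F (LinearMap.ker (Polynomial.aeval g P)) = (Finset.univ.filter (fun i => c i = P)).card * P.natDegree := by
  classical
  -- membership
  have hmem : ∀ v, v ∈ LinearMap.ker (Polynomial.aeval g P) ↔ ∀ i, c i ≠ P → φ v i = 0 := by
    intro v
    rw [LinearMap.mem_ker]
    constructor
    · intro hv i hi
      have h1 := h.aeval P v i
      rw [hv, map_zero, Pi.zero_apply] at h1
      -- mk P is a unit
      have hcop : IsCoprime P (c i) := by
        rw [hP.2.coprime_iff_not_dvd]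
        intro hd
        apply hi
        have h2 : Associated P (c i) := (hP.2.dvd_irreducible_iff_associated (hc i).2).1 hd
        exact (eq_of_monic_of_associated hP.1 (hc i).1 h2).symm
      obtain ⟨a, b, hab⟩ := hcop
      have h2 : Ideal.Quotient.mk (Ideal.span {c i}) a * Ideal.Quotient.mk (Ideal.span {c i}) P = 1 := by
        rw [← map_mul, ← map_one (Ideal.Quotient.mk (Ideal.span {c i})), ← hab, map_add, map_mul _ b,
          Ideal.Quotient.eq_zero_iff_mem.2 (Ideal.mem_span_singleton_self (c i)), mul_zero, add_zero]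
      calc φ v i = (Ideal.Quotient.mk (Ideal.span {c i}) a * Ideal.Quotient.mk (Ideal.span {c i}) P) * φ v i := by rw [h2, one_mul]
        _ = Ideal.Quotient.mk (Ideal.span {c i}) a * (Ideal.Quotient.mk (Ideal.span {c i}) P * φ v i) := mul_assoc _ _ _
        _ = 0 := by rw [← h1, mul_zero]
    · intro hv
      apply φ.injective
      rw [map_zero]
      funext i
      rw [h.aeval, Pi.zero_apply]
      by_cases hi : c i = P
      · rw [← hi, Ideal.Quotient.eq_zero_iff_mem.2 (Ideal.mem_span_singleton_self (c i)), zero_mul]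
      · rw [hv i hi, mul_zero]
  let K := {i : ι // c i = P}
  let f : LinearMap.ker (Polynomial.aeval g P) →ₗ[F] ((i : K) → F[X] ⧸ Ideal.span {c i.1}) :=
    LinearMap.pi (fun i => (LinearMap.proj (R := F) (φ := fun i : ι => F[X] ⧸ Ideal.span {c i}) i.1) ∘ₗ (φ : V →ₗ[F] _) ∘ₗ
      (LinearMap.ker (Polynomial.aeval g P)).subtype)
  have hf : ∀ v i, f v i = φ v i.1 := fun v i => rfl
  have hbij : Function.Bijective f := by
    constructor
    · rw [injective_iff_map_eq_zero]
      intro v hv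
      apply Subtype.ext
      apply φ.injective
      funext i
      rw [Submodule.coe_zero, map_zero, Pi.zero_apply]
      by_cases hi : c i = P
      · exact congrFun hv ⟨i, hi⟩
      · exact (hmem v).1 v.2 i hi
    · intro y
      refine ⟨⟨φ.symm (fun i => if hi : c i = P then y ⟨i, hi⟩ else 0), ?_⟩, ?_⟩
      · rw [hmem]
        intro i hi
        rw [LinearEquiv.apply_symm_apply, dif_neg hi]
      · funext i
        rw [hf]
        simp only
        rw [LinearEquiv.apply_symm_apply, dif_pos i.2]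
  have hfd : ∀ i : K, Module.Finite F (F[X] ⧸ Ideal.span {c i.1}) := fun i => (hc i.1).1.finite_quotient
  rw [(LinearEquiv.ofBijective f hbij).finrank_eq, Module.finrank_pi_fintype]
  have h1 : ∀ i : K, Module.finrank F (F[X] ⧸ Ideal.span {c i.1}) = P.natDegree := by
    intro i
    rw [finrank_quotient_span_eq_natDegree, i.2]
  simp only [h1]
  rw [Finset.sum_const, smul_eq_mul, Finset.card_univ, Fintype.card_subtype]

end Cfsg.Agent.H43
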