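import Mathlib
import Cfsg.Agent.H43.SSType
import Cfsg.Agent.H43.OrderP
import Cfsg.Agent.H43.SympReg6

set_option autoImplicit false
set_option linter.unusedSectionVars false
set_option linter.unusedVariables false

/-! Classes of semisimple elements of prime order in `GL_n(q)`. -/

namespace Cfsg.Agent.H43

open Polynomial

theorem exists_equiv_of_fiber {ι ι' α : Type*} [Fintype ι] [Fintype ι'] [DecidableEq α] (d : ι → α) (d' : ι' → α)
    (h : ∀ j, (Finset.univ.filter (fun k => d k = j)).card = (Finset.univ.filter (fun k => d' k = j)).card) :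
    ∃ σ : ι ≃ ι', ∀ k, d' (σ k) = d k := by
  classical
  have h1 : ∀ j, Nonempty ({k // d k = j} ≃ {k // d' k = j}) := by
    intro j
    refine ⟨Fintype.equivOfCardEq ?_⟩
    rw [Fintype.card_subtype, Fintype.card_subtype]
    convert h j
  let σ : ι ≃ ι' := (Equiv.sigmaFiberEquiv d).symm.trans ((Equiv.sigmaCongrRight (fun j => (h1 j).some)).trans (Equiv.sigmaFiberEquiv d'))
  refine ⟨σ, ?_⟩
  intro k
  have : σ k = ((h1 (d k)).some ⟨k, rfl⟩ : {k' // d' k' = d k}) := rfl
  rw [this]
  exact ((h1 (d k)).some ⟨k, rfl⟩).2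

theorem exists_SB_gl {F : Type*} [Field F] {κ : Type*} [Fintype κ] (P : κ → F[X]) (hP : ∀ k, (P k).Monic)
    (hX : ∀ k, IsCoprime (P k) X) {n : ℕ} (hsum : ∑ k, (P k).natDegree = n) :
    ∃ (g : GL (Fin n) F) (φ : (Fin n → F) ≃ₗ[F] ((k : κ) → F[X] ⧸ Ideal.span {P k})),
      SB (Matrix.toLin' (g : Matrix (Fin n) (Fin n) F)) P φ := by
  have hfd : ∀ i : κ, Module.Finite F (F[X] ⧸ Ideal.span {P i}) := fun i => (hP i).finite_quotient
  have hdim : Module.finrank F ((k : κ) → F[X] ⧸ Ideal.span {P k}) = n := by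
    rw [Module.finrank_pi_fintype, ← hsum]
    refine Finset.sum_congr rfl fun k _ => ?_
    exact finrank_quotient_span_eq_natDegree
  let e : ((k : κ) → F[X] ⧸ Ideal.span {P k}) ≃ₗ[F] (Fin n → F) := LinearEquiv.ofFinrankEq _ _ (by
    rw [hdim, Module.finrank_fintype_fun_eq_card, Fintype.card_fin])
  let M : Module.End F ((k : κ) → F[X] ⧸ Ideal.span {P k}) := LinearMap.mulLeft F (fun k => Ideal.Quotient.mk _ X)
  have hM : ∀ x k, M x k = Ideal.Quotient.mk _ X * x k := fun x k => rfl
  have hMi : Function.Injective M := by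
    rw [injective_iff_map_eq_zero]
    intro x hx
    funext k
    have h1 := congrFun hx k
    rw [hM] at h1
    obtain ⟨a, b, hab⟩ := hX k
    have h2 : Ideal.Quotient.mk (Ideal.span {P k}) b * Ideal.Quotient.mk (Ideal.span {P k}) X = 1 := by
      rw [← map_mul, ← map_one (Ideal.Quotient.mk (Ideal.span {P k})), ← hab, map_add, map_mul _ a,
        Ideal.Quotient.eq_zero_iff_mem.2 (Ideal.mem_span_singleton_self (P k)), mul_zero, zero_add]
    calc x k = (Ideal.Quotient.mk (Ideal.span {P k}) b * Ideal.Quotient.mk (Ideal.span {P k}) X) * x k := by rw [h2, one_mul]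
      _ = Ideal.Quotient.mk (Ideal.span {P k}) b * (Ideal.Quotient.mk (Ideal.span {P k}) X * x k) := mul_assoc _ _ _
      _ = 0 := by rw [h1, Pi.zero_apply, mul_zero]
  obtain ⟨g, hg⟩ := exists_gl F ((e.symm.trans (LinearEquiv.ofInjectiveEndo M hMi)).trans e)
  refine ⟨g, e.symm, ?_⟩
  intro v k
  rw [Matrix.toLin'_apply, hg]
  change e.symm (e (M (e.symm v))) k = _
  rw [LinearEquiv.symm_apply_apply, hM]

theorem isConj_of_SB {F ι ι' : Type*} [Field F] {n : ℕ} {g g' : GL (Fin n) F} {c : ι → F[X]} {c' : ι' → F[X]}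
    {φ : (Fin n → F) ≃ₗ[F] ((k : ι) → F[X] ⧸ Ideal.span {c k})}
    {φ' : (Fin n → F) ≃ₗ[F] ((k : ι') → F[X] ⧸ Ideal.span {c' k})}
    (h : SB (Matrix.toLin' (g : Matrix (Fin n) (Fin n) F)) c φ) (h' : SB (Matrix.toLin' (g' : Matrix (Fin n) (Fin n) F)) c' φ')
    (σ : ι ≃ ι') (hσ : ∀ i, c' (σ i) = c i) : IsConj g g' := by
  obtain ⟨k, hk⟩ := h.exists_conj h' σ hσ
  obtain ⟨K, hK⟩ := exists_gl F k
  rw [isConj_iff]
  refine ⟨K, ?_⟩
  rw [mul_inv_eq_iff_eq_mul]
  apply Units.ext
  rw [Units.val_mul, Units.val_mul]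
  apply (Matrix.toLin' (R := F) (m := Fin n) (n := Fin n)).injective
  apply LinearMap.ext
  intro x
  rw [Matrix.toLin'_apply, Matrix.toLin'_apply, ← Matrix.mulVec_mulVec, ← Matrix.mulVec_mulVec, hK, hK]
  exact hk x

theorem finrank_ker_aeval_of_isConj {F : Type*} [Field F] {n : ℕ} {g g' : GL (Fin n) F} (h : IsConj g g') (P : F[X]) :
    Module.finrank F (LinearMap.ker (Polynomial.aeval (Matrix.toLin' (g : Matrix (Fin n) (Fin n) F) : Module.End F (Fin n → F)) P)) =
    Module.finrank F (LinearMap.ker (Polynomial.aeval (Matrix.toLin' (g' : Matrix (Fin n) (Fin n) F) : Module.End F (Fin n → F)) P)) := by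
  rw [isConj_iff] at h
  obtain ⟨c, hc⟩ := h
  rw [mul_inv_eq_iff_eq_mul] at hc
  have hc' : (c : Matrix (Fin n) (Fin n) F) * (g : Matrix (Fin n) (Fin n) F) = (g' : Matrix (Fin n) (Fin n) F) * (c : Matrix (Fin n) (Fin n) F) := congrArg Units.val hc
  obtain ⟨k, hk⟩ : ∃ k : (Fin n → F) ≃ₗ[F] (Fin n → F), ∀ x, k x = (c : Matrix (Fin n) (Fin n) F).mulVec x :=
    ⟨LinearMap.GeneralLinearGroup.generalLinearEquiv F _ (glEnd c), fun x => rfl⟩
  have hkg : ∀ x, k ((Matrix.toLin' (g : Matrix (Fin n) (Fin n) F) : Module.End F (Fin n → F)) x) =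
      (Matrix.toLin' (g' : Matrix (Fin n) (Fin n) F) : Module.End F (Fin n → F)) (k x) := by
    intro x
    rw [hk, hk, Matrix.toLin'_apply, Matrix.toLin'_apply, Matrix.mulVec_mulVec, Matrix.mulVec_mulVec, hc']
  have hkP : ∀ x, k (Polynomial.aeval (Matrix.toLin' (g : Matrix (Fin n) (Fin n) F) : Module.End F (Fin n → F)) P x) =
      Polynomial.aeval (Matrix.toLin' (g' : Matrix (Fin n) (Fin n) F) : Module.End F (Fin n → F)) P (k x) := by
    intro x
    induction P using Polynomial.induction_on' with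
    | add p q hp hq => rw [map_add, LinearMap.add_apply, map_add, hp, hq, map_add, LinearMap.add_apply]
    | monomial m a =>
      rw [aeval_monomial, aeval_monomial, Module.End.mul_apply, Module.End.mul_apply, Module.algebraMap_end_apply,
        Module.algebraMap_end_apply, map_smul, pow_conj_eq k hkg]
  exact (finrank_ker_conj k hkP).symm

/-- Stars and bars. -/
theorem card_sum_le {T : Type*} [Fintype T] (N : ℕ) :
    Nat.card {a : T → ℕ // ∑ i, a i ≤ N} = Nat.choose (N + Fintype.card T) (Fintype.card T) := by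
  classical
  have e : {a : T → ℕ // ∑ i, a i ≤ N} ≃ {b : Option T → ℕ // ∑ i, b i = N} :=
    { toFun := fun a => ⟨fun o => Option.elim o (N - ∑ i, a.1 i) a.1, by
        rw [Fintype.sum_option]
        change (N - ∑ i, a.1 i) + ∑ i, a.1 i = N
        have := a.2
        omega⟩
      invFun := fun b => ⟨fun i => b.1 (some i), by
        have := b.2
        rw [Fintype.sum_option] at this
        change ∑ i, b.1 (some i) ≤ N
        omega⟩
      left_inv := fun a => rfl
      right_inv := fun b => by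
        apply Subtype.ext
        funext o
        have := b.2
        rw [Fintype.sum_option] at this
        cases o with
        | none => 
          change N - ∑ i, b.1 (some i) = b.1 none
          omega
        | some i => rfl }
  rw [Nat.card_congr e, ← Nat.card_congr (Sym.equivNatSumOfFintype (Option T) N), Nat.card_eq_fintype_card,
    Sym.card_sym_eq_choose, Fintype.card_option]
  have : Fintype.card T + 1 + N - 1 = N + Fintype.card T := by omega
  rw [this]
  have h2 := Nat.choose_symm_add (a := N) (b := Fintype.card T)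
  exact h2

section primeorder

variable {F : Type*} [Field F] [Fintype F] {p q : ℕ} [Fact p.Prime] [CharP F p]

theorem card_ss_classes (hF : Fintype.card F = q) (n r i t : ℕ) (hr : r.Prime)
    (hrp : r ≠ p) (hi : i = orderOf (q : ZMod r)) (ht : t * i = r - 1) :
    Nat.card {C : ConjClasses (GL (Fin n) F) // ∃ g : GL (Fin n) F, ConjClasses.mk g = C ∧ orderOf g = r} =
      Nat.choose (n / i + t) t - 1 := by
  classical
  have hp : p.Prime := Fact.out
  have : Fact r.Prime := ⟨hr⟩
  obtain ⟨f, _, hf⟩ := FiniteField.card F p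
  have hpr : p.Coprime r := (Nat.coprime_primes hp hr).2 (Ne.symm hrp)
  have hrF : (r : F) ≠ 0 := by
    rw [Ne, CharP.cast_eq_zero_iff F p]
    intro h
    exact hrp ((Nat.prime_dvd_prime_iff_eq hp hr).1 h).symm
  have hK : Fintype.card F = p ^ (f : ℕ) := hf
  obtain ⟨T, hT⟩ : ∃ T : Finset F[X], T = (UniqueFactorizationMonoid.normalizedFactors (cyclotomic r F)).toFinset := ⟨_, rfl⟩
  have hmemT : ∀ P, P ∈ T ↔ P.Monic ∧ Irreducible P ∧ P ∣ cyclotomic r F := by
    intro P
    rw [hT, Multiset.mem_toFinset, UniqueFactorizationMonoid.mem_normalizedFactors_iff' (cyclotomic_ne_zero r F)]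
    constructor
    · rintro ⟨h1, h2, h3⟩
      refine ⟨?_, h1, h3⟩
      rw [← h2]
      exact monic_normalize h1.ne_zero
    · rintro ⟨h1, h2, h3⟩
      exact ⟨h2, h1.normalize_eq_self, h3⟩
  have hord : orderOf (ZMod.unitOfCoprime _ (hpr.pow_left (f : ℕ))) = i := by
    rw [hi, ← orderOf_units, ZMod.coe_unitOfCoprime, ← hK, hF]
  have hi0 : 0 < i := by
    rw [← hord]
    exact orderOf_pos _
  have hdegT : ∀ P ∈ T, P.natDegree = i := by
    intro P hP
    rw [hT, Multiset.mem_toFinset] at hP
    rw [natDegree_of_mem_normalizedFactors_cyclotomic hK hpr hP, hord]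
  have hcardT : T.card = t := by
    rw [hT, normalizedFactors_cyclotomic_card hK hpr, hord, Nat.totient_prime hr, ← ht, Nat.mul_div_cancel _ hi0]
  have hfac : (X : F[X]) ^ r - 1 = cyclotomic r F * (X - 1) := (cyclotomic_prime_mul_X_sub_one F r).symm
  have hsep : Squarefree ((X : F[X]) ^ r - 1) := by
    have := Polynomial.separable_X_pow_sub_C (1 : F) hrF one_ne_zero
    rw [map_one] at this
    exact this.squarefree
  have hX1 : (X - 1 : F[X]).Monic ∧ Irreducible (X - 1 : F[X]) := by
    have e : (X - 1 : F[X]) = X - C 1 := by rw [map_one]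
    rw [e]
    exact ⟨monic_X_sub_C 1, irreducible_X_sub_C 1⟩
  have hX1deg : (X - 1 : F[X]).natDegree = 1 := by
    have e : (X - 1 : F[X]) = X - C 1 := by rw [map_one]
    rw [e, natDegree_X_sub_C]
  have hX1T : (X - 1 : F[X]) ∉ T := by
    intro h
    have h1 := ((hmemT _).1 h).2.2
    have h2 : (X - 1 : F[X]) * (X - 1) ∣ (X : F[X]) ^ r - 1 := by
      rw [hfac]
      exact mul_dvd_mul h1 dvd_rfl
    exact hX1.2.not_isUnit (hsep _ h2)
  have hclass : ∀ P : F[X], P.Monic → Irreducible P → P ∣ (X : F[X]) ^ r - 1 → P = X - 1 ∨ P ∈ T := by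
    intro P h1 h2 h3
    rw [hfac] at h3
    rcases h2.prime.dvd_or_dvd h3 with h4 | h4
    · right
      exact (hmemT P).2 ⟨h1, h2, h4⟩
    · left
      exact eq_of_monic_of_associated h1 hX1.1 ((h2.dvd_irreducible_iff_associated hX1.2).1 h4)
  have hcopX : ∀ P : F[X], P ∣ (X : F[X]) ^ r - 1 → IsCoprime P X := by
    rintro P ⟨Q, hQ⟩
    refine ⟨-Q, X ^ (r - 1), ?_⟩
    have : X ^ (r - 1) * X = (X : F[X]) ^ r := by
      rw [← pow_succ, Nat.sub_add_cancel hr.one_lt.le]
    rw [this, neg_mul, mul_comm Q P, ← hQ]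
    ring
  -- the order in terms of the polynomial
  have hpowr : ∀ g : GL (Fin n) F, g ^ r = 1 ↔
      Polynomial.aeval (Matrix.toLin' (g : Matrix (Fin n) (Fin n) F) : Module.End F (Fin n → F)) ((X : F[X]) ^ r - 1) = 0 := by
    intro g
    rw [map_sub, map_pow, aeval_X, map_one, sub_eq_zero, ← Matrix.toLin'_pow]
    have h1 : (1 : Module.End F (Fin n → F)) = Matrix.toLin' (1 : Matrix (Fin n) (Fin n) F) := by
      rw [Matrix.toLin'_one]; rfl
    rw [h1, (Matrix.toLin' (R := F) (m := Fin n) (n := Fin n)).injective.eq_iff, Units.ext_iff]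
    rfl
  have horder : ∀ x : GL (Fin n) F, orderOf x = r ↔ x ^ r = 1 ∧ x ≠ 1 := by
    intro x
    constructor
    · intro h
      refine ⟨by rw [← h]; exact pow_orderOf_eq_one x, ?_⟩
      rintro rfl
      rw [orderOf_one] at h
      exact hr.one_lt.ne h
    · rintro ⟨h1, h2⟩
      exact orderOf_eq_prime h1 h2
  -- general facts on a decomposition
  have hSBpow : ∀ {ι : Type} [Fintype ι] (g : GL (Fin n) F) (c : ι → F[X]) (φ : (Fin n → F) ≃ₗ[F] ((k : ι) → F[X] ⧸ Ideal.span {c k})),
      SB (Matrix.toLin' (g : Matrix (Fin n) (Fin n) F)) c φ → (∀ k, c k ∣ (X : F[X]) ^ r - 1) → g ^ r = 1 := by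
    intro ι _ g c φ h hc
    rw [hpowr]
    apply LinearMap.ext
    intro v
    apply φ.injective
    funext k
    rw [h.aeval, LinearMap.zero_apply, map_zero, Pi.zero_apply, Ideal.Quotient.eq_zero_iff_mem.2 (Ideal.mem_span_singleton.2 (hc k)), zero_mul]
  have hSBone : ∀ {ι : Type} [Fintype ι] (g : GL (Fin n) F) (c : ι → F[X]) (φ : (Fin n → F) ≃ₗ[F] ((k : ι) → F[X] ⧸ Ideal.span {c k})),
      SB (Matrix.toLin' (g : Matrix (Fin n) (Fin n) F)) c φ → (∀ k, (c k).Monic ∧ Irreducible (c k)) →
      (g = 1 ↔ ∀ k, c k = X - 1) := by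
    intro ι _ g c φ h hc
    have h1 : g = 1 ↔ Polynomial.aeval (Matrix.toLin' (g : Matrix (Fin n) (Fin n) F) : Module.End F (Fin n → F)) (X - 1 : F[X]) = 0 := by
      rw [map_sub, aeval_X, map_one, sub_eq_zero]
      have h1 : (1 : Module.End F (Fin n → F)) = Matrix.toLin' (1 : Matrix (Fin n) (Fin n) F) := by
        rw [Matrix.toLin'_one]; rfl
      rw [h1, (Matrix.toLin' (R := F) (m := Fin n) (n := Fin n)).injective.eq_iff, Units.ext_iff]
      rfl
    rw [h1]
    constructor
    · intro h2 k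
      obtain ⟨v, hv⟩ := φ.surjective (fun _ => 1)
      have h3 := h.aeval (X - 1) v k
      rw [h2, LinearMap.zero_apply, map_zero, hv, mul_one, Pi.zero_apply, eq_comm, Ideal.Quotient.eq_zero_iff_mem,
        Ideal.mem_span_singleton] at h3
      exact eq_of_monic_of_associated (hc k).1 hX1.1 (((hc k).2.dvd_irreducible_iff_associated hX1.2).1 h3)
    · intro h2
      apply LinearMap.ext
      intro v
      apply φ.injective
      funext k
      have h5 : Ideal.Quotient.mk (Ideal.span {c k}) (X - 1) = 0 := by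
        rw [Ideal.Quotient.eq_zero_iff_mem, h2 k]
        exact Ideal.mem_span_singleton_self _
      rw [h.aeval, LinearMap.zero_apply, map_zero, Pi.zero_apply, h5, zero_mul]
  -- representatives
  obtain ⟨τ⟩ : Nonempty (Fin t ≃ T) := ⟨(Fintype.equivFinOfCardEq (by rw [Fintype.card_coe, hcardT])).symm⟩
  have hτ : ∀ j, (τ j : F[X]).Monic ∧ Irreducible (τ j : F[X]) ∧ (τ j : F[X]) ∣ cyclotomic r F := fun j => (hmemT _).1 (τ j).2
  have hτ1 : ∀ j, (τ j : F[X]) ≠ X - 1 := fun j h => hX1T (h ▸ (τ j).2)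
  let A := {a : Fin t → ℕ // ∑ j, a j ≤ n / i}
  have hAn : ∀ a : A, i * ∑ j, a.1 j ≤ n := fun a => (Nat.mul_le_mul_left i a.2).trans (Nat.mul_div_le n i)
  let κ : A → Type := fun a => Fin (n - i * ∑ j, a.1 j) ⊕ ((j : Fin t) × Fin (a.1 j))
  let Pκ : ∀ a : A, κ a → F[X] := fun a k => Sum.elim (fun _ => X - 1) (fun x => (τ x.1 : F[X])) k
  have hPκ : ∀ a k, (Pκ a k).Monic ∧ Irreducible (Pκ a k) ∧ Pκ a k ∣ (X : F[X]) ^ r - 1 := by
    rintro a (k | k)
    · exact ⟨hX1.1, hX1.2, by rw [hfac]; exact dvd_mul_left _ _⟩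
    · exact ⟨(hτ k.1).1, (hτ k.1).2.1, by rw [hfac]; exact (hτ k.1).2.2.trans (dvd_mul_right _ _)⟩
  have hsumκ : ∀ a, ∑ k, (Pκ a k).natDegree = n := by
    intro a
    rw [Fintype.sum_sum_type, ← Finset.univ_sigma_univ, Finset.sum_sigma]
    change ∑ k : Fin (n - i * ∑ j, a.1 j), (X - 1 : F[X]).natDegree + ∑ j, ∑ k : Fin (a.1 j), (τ j : F[X]).natDegree = n
    rw [hX1deg, Finset.sum_const, Finset.card_univ, Fintype.card_fin, smul_eq_mul, mul_one]
    have : ∀ j, ∑ k : Fin (a.1 j), (τ j : F[X]).natDegree = a.1 j * i := by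
      intro j
      rw [hdegT _ (τ j).2, Finset.sum_const, Finset.card_univ, Fintype.card_fin, smul_eq_mul]
    simp only [this]
    rw [← Finset.sum_mul, mul_comm _ i]
    have := hAn a
    omega
  have hcountj : ∀ (a : A) (j : Fin t), (Finset.univ.filter (fun k => Pκ a k = (τ j : F[X]))).card = a.1 j := by
    intro a j
    rw [Finset.card_filter, Fintype.sum_sum_type, ← Finset.univ_sigma_univ, Finset.sum_sigma]
    have h1 : ∑ k : Fin (n - i * ∑ j, a.1 j), (if Pκ a (Sum.inl k) = (τ j : F[X]) then 1 else 0) = 0 := by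
      apply Finset.sum_eq_zero
      intro k _
      exact if_neg (fun h => hτ1 j h.symm)
    rw [h1, zero_add, Finset.sum_eq_single j]
    · have : ∀ k : Fin (a.1 j), (if Pκ a (Sum.inr ⟨j, k⟩) = (τ j : F[X]) then 1 else 0) = 1 := fun k => if_pos rfl
      simp only [this]
      rw [Finset.sum_const, Finset.card_univ, Fintype.card_fin, smul_eq_mul, mul_one]
    · intro j' _ hj'
      apply Finset.sum_eq_zero
      intro k _
      exact if_neg (fun h => hj' (τ.injective (Subtype.ext h)))
    · intro h; exact absurd (Finset.mem_univ _) h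
  have hcount1 : ∀ (a : A), (Finset.univ.filter (fun k => Pκ a k = X - 1)).card = n - i * ∑ j, a.1 j := by
    intro a
    rw [Finset.card_filter, Fintype.sum_sum_type]
    have h1 : ∀ k : Fin (n - i * ∑ j, a.1 j), (if Pκ a (Sum.inl k) = X - 1 then 1 else 0) = 1 := fun k => if_pos rfl
    have h2 : ∑ k : ((j : Fin t) × Fin (a.1 j)), (if Pκ a (Sum.inr k) = X - 1 then 1 else 0) = 0 := by
      apply Finset.sum_eq_zero
      intro k _
      exact if_neg (hτ1 k.1)
    rw [h2, add_zero]
    simp only [h1]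
    rw [Finset.sum_const, Finset.card_univ, Fintype.card_fin, smul_eq_mul, mul_one]
  choose g φ hg using fun a : A => exists_SB_gl (Pκ a) (fun k => (hPκ a k).1) (fun k => hcopX _ (hPκ a k).2.2) (hsumκ a)
  let A' := {a : A // a.1 ≠ 0}
  have hgord : ∀ a : A', orderOf (g a.1) = r := by
    rintro ⟨a, ha⟩
    rw [horder]
    refine ⟨hSBpow _ _ _ (hg a) (fun k => (hPκ a k).2.2), ?_⟩
    intro h
    rw [hSBone _ _ _ (hg a) (fun k => ⟨(hPκ a k).1, (hPκ a k).2.1⟩)] at h
    apply ha
    funext j
    by_contra h0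
    have h1 : 0 < a.1 j := Nat.pos_of_ne_zero h0
    exact hτ1 j (h (Sum.inr ⟨j, ⟨0, h1⟩⟩))
  let Φ : A' → {C : ConjClasses (GL (Fin n) F) // ∃ g : GL (Fin n) F, ConjClasses.mk g = C ∧ orderOf g = r} := fun a =>
    ⟨ConjClasses.mk (g a.1), g a.1, rfl, hgord a⟩
  have hΦ : Function.Bijective Φ := by
    constructor
    · rintro ⟨a, ha⟩ ⟨a', ha'⟩ h
      have h1 : ConjClasses.mk (g a) = ConjClasses.mk (g a') := congrArg Subtype.val h
      rw [ConjClasses.mk_eq_mk_iff_isConj] at h1
      apply Subtype.ext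
      apply Subtype.ext
      funext j
      have h2 := finrank_ker_aeval_of_isConj h1 (τ j : F[X])
      rw [(hg a).finrank_ker (fun k => ⟨(hPκ a k).1, (hPκ a k).2.1⟩) _ ⟨(hτ j).1, (hτ j).2.1⟩,
        (hg a').finrank_ker (fun k => ⟨(hPκ a' k).1, (hPκ a' k).2.1⟩) _ ⟨(hτ j).1, (hτ j).2.1⟩, hcountj, hcountj,
        hdegT _ (τ j).2] at h2
      exact Nat.eq_of_mul_eq_mul_right hi0 h2
    · rintro ⟨C, x, rfl, hx⟩
      rw [horder] at hx
      obtain ⟨t', c, ψ, hc, hψ⟩ := exists_SB _ _ hsep ((hpowr x).1 hx.1)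
      have hdim : ∑ k, (c k).natDegree = n := by
        have hfd : ∀ k, Module.Finite F (F[X] ⧸ Ideal.span {c k}) := fun k => (hc k).1.finite_quotient
        have h1 := ψ.finrank_eq
        rw [Module.finrank_fintype_fun_eq_card, Fintype.card_fin, Module.finrank_pi_fintype] at h1
        rw [h1]
        refine Finset.sum_congr rfl fun k _ => ?_
        rw [finrank_quotient_span_eq_natDegree]
      obtain ⟨a, ha⟩ : ∃ a : Fin t → ℕ, ∀ j, a j = (Finset.univ.filter (fun k => c k = (τ j : F[X]))).card := ⟨_, fun _ => rfl⟩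
      have htot : (Finset.univ.filter (fun k => c k = X - 1)).card + i * ∑ j, a j = n := by
        rw [← hdim]
        have h1 : ∀ k, (c k).natDegree = (if c k = X - 1 then 1 else 0) + i * ∑ j, (if c k = (τ j : F[X]) then 1 else 0) := by
          intro k
          rcases hclass (c k) (hc k).1 (hc k).2.1 (hc k).2.2 with h | h
          · have h3 : ∑ j, (if c k = (τ j : F[X]) then 1 else 0) = 0 := by
              apply Finset.sum_eq_zero
              intro j _
              rw [if_neg]
              rw [h]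
              exact fun h' => hτ1 j h'.symm
            rw [if_pos h, h, hX1deg]
            rw [h] at h3
            rw [h3, mul_zero, add_zero]
          · obtain ⟨j, hj⟩ := τ.surjective ⟨c k, h⟩
            have hj' : (τ j : F[X]) = c k := congrArg Subtype.val hj
            rw [if_neg (show ¬ c k = X - 1 from fun h' => hX1T (h' ▸ h)), hdegT _ h, Finset.sum_eq_single j]
            · rw [if_pos hj'.symm]; ring
            · intro j' _ hne
              rw [if_neg]
              intro h'
              apply hne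
              apply τ.injective
              apply Subtype.ext
              rw [← h', hj']
            · intro h; exact absurd (Finset.mem_univ _) h
        simp only [h1]
        rw [Finset.sum_add_distrib, ← Finset.card_filter, ← Finset.mul_sum, Finset.sum_comm]
        simp only [ha, Finset.card_filter]
      have haA : ∑ j, a j ≤ n / i := by
        rw [Nat.le_div_iff_mul_le hi0, mul_comm]
        omega
      obtain ⟨aA, haA'⟩ : ∃ aA : A, aA.1 = a := ⟨⟨a, haA⟩, rfl⟩
      obtain ⟨σ, hσ⟩ := exists_equiv_of_fiber (Pκ aA) c (by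
        intro P
        by_cases hP1 : P = X - 1
        · subst hP1
          rw [hcount1, haA']
          omega
        · by_cases hP2 : P ∈ T
          · obtain ⟨j, hj⟩ := τ.surjective ⟨P, hP2⟩
            have hj' : (τ j : F[X]) = P := congrArg Subtype.val hj
            rw [← hj', hcountj, haA', ha]
          · have h1 : Finset.univ.filter (fun k => Pκ aA k = P) = ∅ := by
              rw [Finset.filter_eq_empty_iff]
              intro k _ h
              rcases hclass _ (hPκ aA k).1 (hPκ aA k).2.1 (hPκ aA k).2.2 with h' | h'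
              · exact hP1 (h ▸ h')
              · exact hP2 (h ▸ h')
            have h2 : Finset.univ.filter (fun k => c k = P) = ∅ := by
              rw [Finset.filter_eq_empty_iff]
              intro k _ h
              rcases hclass _ (hc k).1 (hc k).2.1 (hc k).2.2 with h' | h'
              · exact hP1 (h ▸ h')
              · exact hP2 (h ▸ h')
            rw [h1, h2, Finset.card_empty, Finset.card_empty])
      have hcj : IsConj (g aA) x := isConj_of_SB (hg aA) hψ σ hσ
      have hne : aA.1 ≠ 0 := by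
        intro h0
        apply hx.2
        rw [hSBone _ _ _ hψ (fun k => ⟨(hc k).1, (hc k).2.1⟩)]
        intro k
        rcases hclass _ (hc k).1 (hc k).2.1 (hc k).2.2 with h' | h'
        · exact h'
        · exfalso
          obtain ⟨j, hj⟩ := τ.surjective ⟨c k, h'⟩
          have hj' : (τ j : F[X]) = c k := congrArg Subtype.val hj
          have h3 := ha j
          rw [← haA', h0, Pi.zero_apply, eq_comm, Finset.card_eq_zero, Finset.filter_eq_empty_iff] at h3
          exact h3 (Finset.mem_univ k) hj'.symm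
      exact ⟨⟨aA, hne⟩, Subtype.ext (ConjClasses.mk_eq_mk_iff_isConj.2 hcj)⟩
  rw [← Nat.card_eq_of_bijective Φ hΦ]
  have hA : Nat.card A = Nat.choose (n / i + t) t := by
    have := card_sum_le (T := Fin t) (n / i)
    rw [Fintype.card_fin] at this
    exact this
  have hfinA : Finite A := by
    apply Nat.finite_of_card_ne_zero
    rw [hA]
    exact (Nat.choose_pos (Nat.le_add_left _ _)).ne'
  have hz : ∑ j : Fin t, (0 : Fin t → ℕ) j ≤ n / i := by simp
  have hA' : Nat.card A' = Nat.card A - 1 := by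
    have := Fintype.ofFinite A
    rw [Nat.card_eq_fintype_card, Nat.card_eq_fintype_card]
    have e : Fintype.card {a : A // a.1 ≠ 0} = Fintype.card {a : A // ¬ a = ⟨0, hz⟩} := by
      apply Fintype.card_congr
      refine Equiv.subtypeEquivRight fun a => ?_
      rw [Subtype.ext_iff]
    change Fintype.card {a : A // a.1 ≠ 0} = _
    rw [e, Fintype.card_subtype_compl, Fintype.card_subtype_eq]
  rw [hA', hA]

end primeorder

end Cfsg.Agent.H43
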