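import Mathlib
import Cfsg.Agent.H43.SSClass

set_option autoImplicit false
set_option linter.unusedSectionVars false
set_option linter.unusedVariables false

/-! Primary decompositions with monic irreducible polynomials and their labels. -/

namespace Cfsg.Agent.H43

open Polynomial

theorem exists_prim {F V : Type*} [Field F] [AddCommGroup V] [Module F V] [FiniteDimensional F V] (g : Module.End F V) :
    ∃ (t : ℕ) (p : Fin t → F[X]) (e : Fin t → ℕ) (φ : V ≃ₗ[F] ((i : Fin t) → F[X] ⧸ Ideal.span {p i ^ e i})),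
      (∀ i, (p i).Monic ∧ Irreducible (p i) ∧ 1 ≤ e i) ∧ SB g (fun i => p i ^ e i) φ := by
  classical
  obtain ⟨t, p, e, φ, hp, hφ⟩ := exists_decomp g
  have hφ' : SB g (fun i => p i ^ e i) φ := hφ
  have hc : ∀ i : {i : Fin t // e i ≠ 0}, ∃ c : F[X], c.Monic ∧ Irreducible c ∧ Ideal.span {p i.1 ^ e i.1} = Ideal.span {c ^ e i.1} := by
    rintro ⟨i, hi⟩
    have h0 := (hp i).ne_zero
    refine ⟨normalize (p i), monic_normalize h0, ?_, ?_⟩
    · exact ((normalize_associated (p i)).symm.irreducible (hp i))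
    · rw [Ideal.span_singleton_eq_span_singleton]
      exact (normalize_associated (p i)).symm.pow_pow
  choose c hc1 hc2 hc4 using hc
  let q : ∀ i : {i : Fin t // e i ≠ 0}, (F[X] ⧸ Ideal.span {p i.1 ^ e i.1}) ≃ₐ[F] (F[X] ⧸ Ideal.span {c i ^ e i.1}) :=
    fun i => Ideal.quotientEquivAlgOfEq F (hc4 i)
  have hq : ∀ i x, q i (Ideal.Quotient.mk _ x) = Ideal.Quotient.mk _ x := fun i x => Ideal.quotientEquivAlgOfEq_mk F (hc4 i) x
  let ψ0 : ((i : Fin t) → F[X] ⧸ Ideal.span {p i ^ e i}) →ₗ[F] ((i : {i : Fin t // e i ≠ 0}) → F[X] ⧸ Ideal.span {c i ^ e i.1}) :=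
    LinearMap.pi (fun i => (q i).toLinearMap ∘ₗ LinearMap.proj (R := F) (φ := fun i : Fin t => F[X] ⧸ Ideal.span {p i ^ e i}) i.1)
  have hψ0 : ∀ x i, ψ0 x i = q i (x i.1) := fun x i => rfl
  have hbij : Function.Bijective ψ0 := by
    constructor
    · rw [injective_iff_map_eq_zero]
      intro x hx
      funext i
      by_cases hi : e i = 0
      · have hsub : Subsingleton (F[X] ⧸ Ideal.span {p i ^ e i}) := by
          rw [hi, pow_zero]
          rw [Ideal.Quotient.subsingleton_iff, Ideal.span_singleton_one]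
        exact Subsingleton.elim _ _
      · have h1 := congrFun hx ⟨i, hi⟩
        rw [hψ0] at h1
        exact (map_eq_zero_iff (q ⟨i, hi⟩) (q ⟨i, hi⟩).injective).1 h1
    · intro y
      refine ⟨fun i => if h : e i ≠ 0 then (q ⟨i, h⟩).symm (y ⟨i, h⟩) else 0, ?_⟩
      funext i
      rw [hψ0, dif_pos i.2, AlgEquiv.apply_symm_apply]
  let ψ := LinearEquiv.ofBijective ψ0 hbij
  have hSB : SB g (fun i : {i : Fin t // e i ≠ 0} => c i ^ e i.1) (φ.trans ψ) := by
    intro v i
    change ψ0 (φ (g v)) i = _ * ψ0 (φ v) i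
    rw [hψ0, hφ, map_mul, hq, hψ0]
  let σ := Fintype.equivFin {i : Fin t // e i ≠ 0}
  let ρ : ((i : {i : Fin t // e i ≠ 0}) → F[X] ⧸ Ideal.span {c i ^ e i.1}) ≃ₗ[F]
      ((j : Fin _) → F[X] ⧸ Ideal.span {c (σ.symm j) ^ e (σ.symm j).1}) :=
    (LinearEquiv.piCongrLeft F (fun i : {i : Fin t // e i ≠ 0} => F[X] ⧸ Ideal.span {c i ^ e i.1}) σ.symm).symm
  refine ⟨_, fun j => c (σ.symm j), fun j => e (σ.symm j).1, (φ.trans ψ).trans ρ,
    fun j => ⟨hc1 _, hc2 _, Nat.one_le_iff_ne_zero.2 (σ.symm j).2⟩, ?_⟩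
  intro v j
  change (φ.trans ψ) (g v) (σ.symm j) = _ * (φ.trans ψ) v (σ.symm j)
  exact hSB v (σ.symm j)

/-- label of a primary decomposition -/
noncomputable def labP {F : Type*} [Field F] {t : ℕ} (p : Fin t → F[X]) (e : Fin t → ℕ) (K : ℕ) (i : Fin K) : F[X] :=
  ∏ j ∈ Finset.univ.filter (fun j => e j = (i : ℕ) + 1), p j

theorem prod_monic_injective {F ι ι' : Type*} [Field F] [DecidableEq F[X]] (s : Finset ι) (s' : Finset ι') (p : ι → F[X]) (p' : ι' → F[X])
    (hp : ∀ i ∈ s, (p i).Monic ∧ Irreducible (p i)) (hp' : ∀ i ∈ s', (p' i).Monic ∧ Irreducible (p' i))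
    (h : ∏ i ∈ s, p i = ∏ i ∈ s', p' i) (P : F[X]) : (s.filter (fun i => p i = P)).card = (s'.filter (fun i => p' i = P)).card := by
  classical
  have h1 : s.val.map p = s'.val.map p' := by
    have h2 : Multiset.Rel Associated (s.val.map p) (s'.val.map p') := by
      apply UniqueFactorizationMonoid.factors_unique
      · intro x hx
        obtain ⟨i, hi, rfl⟩ := Multiset.mem_map.1 hx
        exact (hp i hi).2
      · intro x hx
        obtain ⟨i, hi, rfl⟩ := Multiset.mem_map.1 hx
        exact (hp' i hi).2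
      · change Associated (∏ i ∈ s, p i) (∏ i ∈ s', p' i)
        rw [h]
    have h3 : Multiset.Rel Eq (s.val.map p) (s'.val.map p') := by
      apply h2.mono
      intro x hx y hy hxy
      obtain ⟨i, hi, rfl⟩ := Multiset.mem_map.1 hx
      obtain ⟨j, hj, rfl⟩ := Multiset.mem_map.1 hy
      exact eq_of_monic_of_associated (hp i hi).1 (hp' j hj).1 hxy
    exact Multiset.rel_eq.1 h3
  have h5 : (s.filter (fun i => p i = P)).card = (s.val.map p).count P := by
    rw [Multiset.count_map, Finset.card_def, Finset.filter_val]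
    congr 1
    apply Multiset.filter_congr
    intro x _
    exact eq_comm
  have h6 : (s'.filter (fun i => p' i = P)).card = (s'.val.map p').count P := by
    rw [Multiset.count_map, Finset.card_def, Finset.filter_val]
    congr 1
    apply Multiset.filter_congr
    intro x _
    exact eq_comm
  rw [h5, h6, h1]

theorem labP_eq {F : Type*} [Field F] {t t' : ℕ} {p : Fin t → F[X]} {e : Fin t → ℕ} {p' : Fin t' → F[X]} {e' : Fin t' → ℕ}
    (hp : ∀ i, (p i).Monic ∧ Irreducible (p i) ∧ 1 ≤ e i) (hp' : ∀ i, (p' i).Monic ∧ Irreducible (p' i) ∧ 1 ≤ e' i)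
    (K : ℕ) (hK : ∀ i, e i ≤ K) (hK' : ∀ i, e' i ≤ K) (h : labP p e K = labP p' e' K) :
    ∃ σ : Fin t ≃ Fin t', ∀ i, p' (σ i) = p i ∧ e' (σ i) = e i := by
  classical
  obtain ⟨σ, hσ⟩ := exists_equiv_of_fiber (fun i => (p i, e i)) (fun i => (p' i, e' i)) (by
    rintro ⟨P, k⟩
    by_cases hk : 1 ≤ k ∧ k ≤ K
    · have h1 := congrFun h ⟨k - 1, by omega⟩
      have hk1 : k - 1 + 1 = k := by omega
      unfold labP at h1
      simp only [hk1] at h1
      have h2 := prod_monic_injective _ _ p p' (fun i _ => ⟨(hp i).1, (hp i).2.1⟩) (fun i _ => ⟨(hp' i).1, (hp' i).2.1⟩) h1 P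
      rw [Finset.filter_filter, Finset.filter_filter] at h2
      convert h2 using 3
      · simp [and_comm]
      · simp [and_comm]
    · have h1 : (Finset.univ.filter (fun i => (p i, e i) = (P, k))) = ∅ := by
        rw [Finset.filter_eq_empty_iff]
        intro i _ hi
        apply hk
        rw [Prod.mk.injEq] at hi
        rw [← hi.2]
        exact ⟨(hp i).2.2, hK i⟩
      have h2 : (Finset.univ.filter (fun i => (p' i, e' i) = (P, k))) = ∅ := by
        rw [Finset.filter_eq_empty_iff]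
        intro i _ hi
        apply hk
        rw [Prod.mk.injEq] at hi
        rw [← hi.2]
        exact ⟨(hp' i).2.2, hK' i⟩
      rw [h1, h2]; rfl)
  refine ⟨σ, fun i => ?_⟩
  have := hσ i
  rw [Prod.mk.injEq] at this
  exact this

theorem labP_monic {F : Type*} [Field F] {t : ℕ} {p : Fin t → F[X]} {e : Fin t → ℕ} (hp : ∀ i, (p i).Monic) (K : ℕ) (i : Fin K) :
    (labP p e K i).Monic := monic_prod_of_monic _ _ fun j _ => hp j

/-- The weight of the label is the dimension. -/
theorem labP_weight {F : Type*} [Field F] {t : ℕ} {p : Fin t → F[X]} {e : Fin t → ℕ} (hp : ∀ i, (p i).Monic)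
    (K : ℕ) (h1 : ∀ i, 1 ≤ e i) (hK : ∀ i, e i ≤ K) :
    ∑ i : Fin K, ((i : ℕ) + 1) * (labP p e K i).natDegree = ∑ j, e j * (p j).natDegree := by
  classical
  have h2 : ∀ i : Fin K, ((i : ℕ) + 1) * (labP p e K i).natDegree = ∑ j ∈ Finset.univ.filter (fun j => e j = (i : ℕ) + 1), e j * (p j).natDegree := by
    intro i
    unfold labP
    rw [natDegree_prod_of_monic _ _ (fun j _ => hp j), Finset.mul_sum]
    refine Finset.sum_congr rfl fun j hj => ?_
    rw [(Finset.mem_filter.1 hj).2]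
  rw [Finset.sum_congr rfl (fun i _ => h2 i)]
  have h3 : ∀ i : Fin K, (Finset.univ.filter (fun j : Fin t => e j = (i : ℕ) + 1)) =
      Finset.univ.filter (fun j : Fin t => (⟨e j - 1, by have := h1 j; have := hK j; omega⟩ : Fin K) = i) := by
    intro i
    ext j
    simp only [Finset.mem_filter, Finset.mem_univ, true_and, Fin.ext_iff]
    have := h1 j
    omega
  simp only [h3]
  exact Finset.sum_fiberwise (Finset.univ) (fun j => (⟨e j - 1, by have := h1 j; have := hK j; omega⟩ : Fin K)) (fun j => e j * (p j).natDegree)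

theorem SB.finrank {F V : Type*} [Field F] [AddCommGroup V] [Module F V] {t : ℕ} {g : Module.End F V} {p : Fin t → F[X]} {e : Fin t → ℕ}
    {φ : V ≃ₗ[F] ((i : Fin t) → F[X] ⧸ Ideal.span {p i ^ e i})} (hp : ∀ i, (p i).Monic) (h : SB g (fun i => p i ^ e i) φ) :
    Module.finrank F V = ∑ j, e j * (p j).natDegree := by
  have hfd : ∀ i, Module.Finite F (F[X] ⧸ Ideal.span {p i ^ e i}) := fun i => ((hp i).pow _).finite_quotient
  rw [φ.finrank_eq, Module.finrank_pi_fintype]
  refine Finset.sum_congr rfl fun i _ => ?_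
  rw [finrank_quotient_span_eq_natDegree, (hp i).natDegree_pow]

end Cfsg.Agent.H43
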