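import Mathlib
import Cfsg.Agent.H43.Prim
import Cfsg.Agent.H43.LabCount

set_option autoImplicit false
set_option linter.unusedSectionVars false
set_option linter.unusedVariables false

/-! Labels of elements of `GL_n(q)`. -/

namespace Cfsg.Agent.H43

open Polynomial

/-- monic polynomials with non-zero constant term -/
def PolN (F : Type*) [Field F] := {f : F[X] // f.Monic ∧ f.coeff 0 ≠ 0}

/-- degree -/
def degN {F : Type*} [Field F] (f : PolN F) : ℕ := f.1.natDegree

theorem monic_eq_of_coeff {F : Type*} [Field F] {f g : F[X]} (hf : f.Monic) (hg : g.Monic) (hd : f.natDegree = g.natDegree)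
    (h : ∀ i < f.natDegree, f.coeff i = g.coeff i) : f = g := by
  ext i
  rcases lt_trichotomy i f.natDegree with h1 | h1 | h1
  · exact h i h1
  · rw [h1, hf.coeff_natDegree, hd, hg.coeff_natDegree]
  · rw [coeff_eq_zero_of_natDegree_lt h1, coeff_eq_zero_of_natDegree_lt (hd ▸ h1)]

theorem card_PolN {F : Type*} [Field F] [Fintype F] (d : ℕ) :
    Finite {x : PolN F // degN x = d} ∧ Nat.card {x : PolN F // degN x = d} ≤ cN (Fintype.card F) d := by
  classical
  rcases d with _ | d
  · have h1 : ∀ x : {x : PolN F // degN x = 0}, x.1.1 = 1 := by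
      intro x
      have h2 : x.1.1.natDegree = 0 := x.2
      exact x.1.2.1.natDegree_eq_zero.1 h2
    have hsub : Subsingleton {x : PolN F // degN x = 0} := ⟨fun a b => Subtype.ext (Subtype.ext ((h1 a).trans (h1 b).symm))⟩
    exact ⟨inferInstance, by rw [cN_zero]; exact Finite.card_le_one_iff_subsingleton.2 hsub⟩
  · let f : {x : PolN F // degN x = d + 1} → Fˣ × (Fin d → F) := fun x => (Units.mk0 _ x.1.2.2, fun i => x.1.1.coeff (i + 1))
    have hf : Function.Injective f := by
      intro a b hab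
      apply Subtype.ext
      apply Subtype.ext
      have hda : a.1.1.natDegree = d + 1 := a.2
      have hdb : b.1.1.natDegree = d + 1 := b.2
      apply monic_eq_of_coeff a.1.2.1 b.1.2.1 (by rw [hda, hdb])
      intro i hi
      rw [hda] at hi
      rcases i with _ | i
      · have h1 := congrArg (fun z => ((z.1 : Fˣ) : F)) hab
        exact h1
      · have h1 := congrFun (congrArg (fun z => z.2) hab) ⟨i, by omega⟩
        exact h1
    refine ⟨Finite.of_injective f hf, ?_⟩
    refine (Nat.card_le_card_of_injective f hf).trans ?_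
    rw [Nat.card_prod, Nat.card_units, Nat.card_fun, Nat.card_fin, Nat.card_eq_fintype_card, cN_succ]

section
variable {F : Type*} [Field F] [Fintype F]

theorem SB.coeff_ne {V : Type*} [AddCommGroup V] [Module F V] {t : ℕ} {g : Module.End F V} (hg : Function.Injective g)
    {p : Fin t → F[X]} {e : Fin t → ℕ}
    {φ : V ≃ₗ[F] ((i : Fin t) → F[X] ⧸ Ideal.span {p i ^ e i})} (hp : ∀ i, (p i).Monic ∧ Irreducible (p i) ∧ 1 ≤ e i)
    (h : SB g (fun i => p i ^ e i) φ) (i : Fin t) : (p i).coeff 0 ≠ 0 := by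
  classical
  intro h0
  have hX : X ∣ p i := X_dvd_iff.2 h0
  have hXp : p i = X := by
    have h1 : Associated X (p i) := (irreducible_X.dvd_irreducible_iff_associated (hp i).2.1).1 hX
    exact (eq_of_monic_of_associated monic_X (hp i).1 h1).symm
  obtain ⟨y, hy⟩ := φ.surjective (Pi.single i (Ideal.Quotient.mk _ (X ^ (e i - 1))))
  have h1 : g y = 0 := by
    apply φ.injective
    rw [map_zero]
    funext j
    rw [h, hy]
    by_cases hj : j = i
    · subst hj
      rw [Pi.single_eq_same, ← map_mul, ← pow_succ', Pi.zero_apply, Ideal.Quotient.eq_zero_iff_mem, Ideal.mem_span_singleton]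
      change p j ^ e j ∣ _
      rw [hXp]
      apply pow_dvd_pow
      omega
    · rw [Pi.single_eq_of_ne hj, mul_zero, Pi.zero_apply]
  have h2 : y = 0 := hg (h1.trans (map_zero g).symm)
  rw [h2, map_zero] at hy
  have h3 := congrFun hy i
  rw [Pi.zero_apply, Pi.single_eq_same, eq_comm, Ideal.Quotient.eq_zero_iff_mem, Ideal.mem_span_singleton, hXp] at h3
  have h4 := (hp i).2.2
  have h5 := Polynomial.natDegree_le_of_dvd h3 (pow_ne_zero _ X_ne_zero)
  rw [natDegree_X_pow, natDegree_X_pow] at h5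
  omega

/-- `A` has the label `g`. -/
def HasLab {n : ℕ} (A : GL (Fin n) F) (g : LabT (degN (F := F)) n n) : Prop :=
  ∃ (t : ℕ) (p : Fin t → F[X]) (e : Fin t → ℕ) (φ : (Fin n → F) ≃ₗ[F] ((i : Fin t) → F[X] ⧸ Ideal.span {p i ^ e i})),
    (∀ i, (p i).Monic ∧ Irreducible (p i) ∧ 1 ≤ e i) ∧ SB (Matrix.toLin' (A : Matrix (Fin n) (Fin n) F)) (fun i => p i ^ e i) φ ∧
    (∀ i, e i ≤ n) ∧ ∀ i, (g.1 i).1 = labP p e n i

theorem exists_lab {n : ℕ} (A : GL (Fin n) F) : ∃ g, HasLab A g := by
  classical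
  obtain ⟨t, p, e, φ, hp, hSB⟩ := exists_prim (Matrix.toLin' (A : Matrix (Fin n) (Fin n) F))
  have hinj : Function.Injective (Matrix.toLin' (A : Matrix (Fin n) (Fin n) F)) := by
    intro x y hxy
    rw [Matrix.toLin'_apply, Matrix.toLin'_apply] at hxy
    have h1 := congrArg (fun z => ((A⁻¹ : GL (Fin n) F) : Matrix (Fin n) (Fin n) F).mulVec z) hxy
    simp only [Matrix.mulVec_mulVec, Units.inv_mul, Matrix.one_mulVec] at h1
    exact h1
  have h0 := SB.coeff_ne hinj hp hSB
  have hdim := SB.finrank (fun i => (hp i).1) hSB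
  rw [Module.finrank_fintype_fun_eq_card, Fintype.card_fin] at hdim
  have hle : ∀ i, e i ≤ n := by
    intro i
    have h1 : e i * (p i).natDegree ≤ ∑ j, e j * (p j).natDegree :=
      Finset.single_le_sum (f := fun j => e j * (p j).natDegree) (fun _ _ => Nat.zero_le _) (Finset.mem_univ i)
    have h2 : 1 ≤ (p i).natDegree := (hp i).2.1.natDegree_pos
    calc e i ≤ e i * (p i).natDegree := Nat.le_mul_of_pos_right _ h2
      _ ≤ n := by rw [hdim]; exact h1
  refine ⟨⟨fun i => ⟨labP p e n i, labP_monic (fun i => (hp i).1) n i, ?_⟩, ?_⟩, t, p, e, φ, hp, hSB, hle, fun i => rfl⟩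
  · unfold labP
    rw [coeff_zero_prod]
    exact Finset.prod_ne_zero_iff.2 fun j _ => h0 j
  · change ∑ i : Fin n, ((i : ℕ) + 1) * (labP p e n i).natDegree = n
    rw [labP_weight (fun i => (hp i).1) n (fun i => (hp i).2.2) hle, ← hdim]

theorem HasLab.isConj {n : ℕ} {A B : GL (Fin n) F} {g : LabT (degN (F := F)) n n} (hA : HasLab A g) (hB : HasLab B g) : IsConj A B := by
  obtain ⟨t, p, e, φ, hp, hSB, hle, hg⟩ := hA
  obtain ⟨t', p', e', φ', hp', hSB', hle', hg'⟩ := hB
  obtain ⟨σ, hσ⟩ := labP_eq hp hp' n hle hle' (funext fun i => (hg i).symm.trans (hg' i))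
  exact isConj_of_SB hSB hSB' σ (fun i => by change p' (σ i) ^ e' (σ i) = p i ^ e i; rw [(hσ i).1, (hσ i).2])

theorem card_conjClasses_GL_le (n : ℕ) :
    Nat.card (ConjClasses (GL (Fin n) F)) ≤ aN (Fintype.card F) n := by
  have h := card_LabT (degN (F := F)) (Fintype.card F) (fun d => (card_PolN d).1) (fun d => (card_PolN d).2) n n
  have := h.1
  refine le_trans ?_ h.2
  have h1 : ∀ c : ConjClasses (GL (Fin n) F), ∃ (A : GL (Fin n) F) (g : LabT (degN (F := F)) n n), ConjClasses.mk A = c ∧ HasLab A g := by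
    intro c
    obtain ⟨A, rfl⟩ := ConjClasses.exists_rep c
    obtain ⟨g, hg⟩ := exists_lab A
    exact ⟨A, g, rfl, hg⟩
  choose A g hA hg using h1
  apply Nat.card_le_card_of_injective g
  intro c c' hcc
  rw [← hA c, ← hA c', ConjClasses.mk_eq_mk_iff_isConj]
  exact (hg c).isConj (hcc ▸ hg c')

end

end Cfsg.Agent.H43
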