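import Mathlib
import Cfsg.Agent.H43.LabGL

set_option autoImplicit false
set_option linter.unusedSectionVars false
set_option linter.unusedVariables false

/-! Lower bounds: cyclic matrices. -/

namespace Cfsg.Agent.H43

open Polynomial

section
variable {F : Type*} [Field F]

/-- monic polynomial with prescribed lower coefficients -/
noncomputable def polV {d : ℕ} (v : Fin d → F) : F[X] := X ^ d + ∑ i : Fin d, C (v i) * X ^ (i : ℕ)

theorem polV_degree_lt {d : ℕ} (v : Fin d → F) : (∑ i : Fin d, C (v i) * X ^ (i : ℕ)).degree < (d : WithBot ℕ) := by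
  rw [← Polynomial.mem_degreeLT]
  refine Submodule.sum_mem _ fun i _ => ?_
  rw [Polynomial.mem_degreeLT]
  refine lt_of_le_of_lt (degree_C_mul_X_pow_le _ _) ?_
  exact_mod_cast i.2

theorem polV_monic {d : ℕ} (v : Fin d → F) : (polV v).Monic := monic_X_pow_add (polV_degree_lt v)

theorem polV_natDegree {d : ℕ} (v : Fin d → F) : (polV v).natDegree = d := by
  have h1 : (polV v).degree = (X ^ d : F[X]).degree := by
    unfold polV
    apply degree_add_eq_left_of_degree_lt
    rw [degree_X_pow]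
    exact polV_degree_lt v
  rw [degree_X_pow] at h1
  exact natDegree_eq_of_degree_eq_some h1

theorem polV_coeff {d : ℕ} (v : Fin d → F) (i : Fin d) : (polV v).coeff i = v i := by
  unfold polV
  rw [coeff_add, coeff_X_pow, if_neg (by have := i.2; omega), zero_add, finset_sum_coeff]
  rw [Finset.sum_eq_single i]
  · rw [coeff_C_mul, coeff_X_pow, if_pos rfl, mul_one]
  · intro j _ hj
    rw [coeff_C_mul, coeff_X_pow, if_neg (fun h => hj (Fin.ext h.symm)), mul_zero]
  · intro h; exact absurd (Finset.mem_univ i) h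

theorem polV_injective {d : ℕ} : Function.Injective (polV : (Fin d → F) → F[X]) := by
  intro v w h
  funext i
  rw [← polV_coeff v i, h, polV_coeff]

theorem isCoprime_X_of_coeff {f : F[X]} (h : f.coeff 0 ≠ 0) : IsCoprime f X := by
  rw [isCoprime_comm, irreducible_X.coprime_iff_not_dvd, X_dvd_iff]
  exact h

theorem exists_cyclic_gl {n : ℕ} (f : F[X]) (hf : f.Monic) (hd : f.natDegree = n) (h0 : f.coeff 0 ≠ 0) :
    ∃ (g : GL (Fin n) F) (φ : (Fin n → F) ≃ₗ[F] ((k : Unit) → F[X] ⧸ Ideal.span {f})),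
      SB (Matrix.toLin' (g : Matrix (Fin n) (Fin n) F)) (fun _ : Unit => f) φ := by
  obtain ⟨g, φ, h⟩ := exists_SB_gl (κ := Unit) (fun _ => f) (fun _ => hf) (fun _ => isCoprime_X_of_coeff h0) (n := n) (by simp [hd])
  exact ⟨g, φ, h⟩

theorem aeval_eq_zero_iff_of_SB {V : Type*} [AddCommGroup V] [Module F V] {g : Module.End F V} {f : F[X]}
    {φ : V ≃ₗ[F] ((k : Unit) → F[X] ⧸ Ideal.span {f})} (h : SB g (fun _ : Unit => f) φ) (Q : F[X]) :
    aeval g Q = 0 ↔ f ∣ Q := by
  constructor
  · intro hQ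
    obtain ⟨v, hv⟩ := φ.surjective (fun _ => 1)
    have h1 := h.aeval Q v ()
    rw [hQ, LinearMap.zero_apply, map_zero, hv, mul_one, Pi.zero_apply, eq_comm, Ideal.Quotient.eq_zero_iff_mem,
      Ideal.mem_span_singleton] at h1
    exact h1
  · intro hQ
    apply LinearMap.ext
    intro v
    apply φ.injective
    funext i
    rw [h.aeval, LinearMap.zero_apply, map_zero, Pi.zero_apply, Ideal.Quotient.eq_zero_iff_mem.2 (Ideal.mem_span_singleton.2 hQ), zero_mul]

theorem aeval_conj {V W : Type*} [AddCommGroup V] [Module F V] [AddCommGroup W] [Module F W] {g : Module.End F V} {g' : Module.End F W}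
    (k : V ≃ₗ[F] W) (hk : ∀ x, k (g x) = g' (k x)) (Q : F[X]) (x : V) : k (aeval g Q x) = aeval g' Q (k x) := by
  induction Q using Polynomial.induction_on' with
  | add p q hp hq => rw [map_add, map_add, LinearMap.add_apply, LinearMap.add_apply, map_add, hp, hq]
  | monomial m a =>
    rw [← C_mul_X_pow_eq_monomial, map_mul, map_mul, aeval_C, aeval_C, map_pow, map_pow, aeval_X, aeval_X,
      Module.End.mul_apply, Module.End.mul_apply, Module.algebraMap_end_apply, Module.algebraMap_end_apply, map_smul]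
    congr 1
    induction m with
    | zero => rfl
    | succ m ih => rw [pow_succ', pow_succ', Module.End.mul_apply, Module.End.mul_apply, hk, ih]

theorem eq_of_conj_of_SB {V W : Type*} [AddCommGroup V] [Module F V] [AddCommGroup W] [Module F W] {g : Module.End F V} {g' : Module.End F W}
    (k : V ≃ₗ[F] W) (hk : ∀ x, k (g x) = g' (k x)) {f f' : F[X]} (hf : f.Monic) (hf' : f'.Monic)
    {φ : V ≃ₗ[F] ((k : Unit) → F[X] ⧸ Ideal.span {f})} (h : SB g (fun _ : Unit => f) φ)
    {φ' : W ≃ₗ[F] ((k : Unit) → F[X] ⧸ Ideal.span {f'})} (h' : SB g' (fun _ : Unit => f') φ') : f = f' := by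
  have h1 : f ∣ f' := by
    rw [← aeval_eq_zero_iff_of_SB h]
    apply LinearMap.ext
    intro x
    apply k.injective
    rw [aeval_conj k hk, (aeval_eq_zero_iff_of_SB h' f').2 dvd_rfl, LinearMap.zero_apply, LinearMap.zero_apply, map_zero]
  have h2 : f' ∣ f := by
    rw [← aeval_eq_zero_iff_of_SB h']
    apply LinearMap.ext
    intro x
    obtain ⟨x, rfl⟩ := k.surjective x
    rw [← aeval_conj k hk, (aeval_eq_zero_iff_of_SB h f).2 dvd_rfl, LinearMap.zero_apply, LinearMap.zero_apply, map_zero]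
  exact eq_of_monic_of_associated hf hf' (associated_of_dvd_dvd h1 h2)

theorem conj_toLin' {n : ℕ} {A B : GL (Fin n) F} (h : IsConj A B) :
    ∃ k : (Fin n → F) ≃ₗ[F] (Fin n → F), ∀ x, k (Matrix.toLin' (A : Matrix (Fin n) (Fin n) F) x) =
      Matrix.toLin' (B : Matrix (Fin n) (Fin n) F) (k x) := by
  obtain ⟨c, hc⟩ := isConj_iff.1 h
  refine ⟨LinearEquiv.ofLinearMap (Matrix.toLin' (c : Matrix (Fin n) (Fin n) F)) (Matrix.toLin' ((c⁻¹ : GL (Fin n) F) : Matrix (Fin n) (Fin n) F)) ?_ ?_, ?_⟩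
  · rw [← Matrix.toLin'_mul, Units.mul_inv, Matrix.toLin'_one]
  · rw [← Matrix.toLin'_mul, Units.inv_mul, Matrix.toLin'_one]
  · intro x
    change Matrix.toLin' _ _ = Matrix.toLin' _ (Matrix.toLin' _ _)
    rw [← LinearMap.comp_apply, ← LinearMap.comp_apply, ← Matrix.toLin'_mul, ← Matrix.toLin'_mul, ← Units.val_mul, ← Units.val_mul]
    congr 3
    rw [← hc]; group

theorem card_conjClasses_GL_ge [Fintype F] (n : ℕ) (hn : 1 ≤ n) :
    (Fintype.card F - 1) * Fintype.card F ^ (n - 1) ≤ Nat.card (ConjClasses (GL (Fin n) F)) := by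
  classical
  obtain ⟨m, rfl⟩ : ∃ m, n = m + 1 := ⟨n - 1, by omega⟩
  rw [Nat.add_sub_cancel]
  let f : Fˣ × (Fin m → F) → F[X] := fun x => polV (Fin.cons (x.1 : F) x.2 : Fin (m + 1) → F)
  have hf : Function.Injective f := by
    intro x y h
    have h1 := polV_injective h
    have h2 : (x.1 : F) = (y.1 : F) := by simpa using congrFun h1 0
    have h3 : x.2 = y.2 := by
      funext i
      simpa using congrFun h1 i.succ
    exact Prod.ext (Units.ext h2) h3
  have h0 : ∀ x, (f x).coeff 0 ≠ 0 := by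
    intro x
    have h1 := polV_coeff (Fin.cons (x.1 : F) x.2 : Fin (m + 1) → F) 0
    change (f x).coeff 0 = _ at h1
    rw [h1]
    exact x.1.ne_zero
  have hex : ∀ x, ∃ g : GL (Fin (m + 1)) F, ∃ φ : (Fin (m + 1) → F) ≃ₗ[F] ((k : Unit) → F[X] ⧸ Ideal.span {f x}),
      SB (Matrix.toLin' (g : Matrix (Fin (m + 1)) (Fin (m + 1)) F)) (fun _ : Unit => f x) φ :=
    fun x => exists_cyclic_gl (f x) (polV_monic _) (polV_natDegree _) (h0 x)
  choose g φ hg using hex
  have hcard : Nat.card (Fˣ × (Fin m → F)) = (Fintype.card F - 1) * Fintype.card F ^ m := by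
    rw [Nat.card_prod, Nat.card_units, Nat.card_fun, Nat.card_fin, Nat.card_eq_fintype_card]
  rw [← hcard]
  apply Nat.card_le_card_of_injective (fun x => ConjClasses.mk (g x))
  intro x y h
  rw [ConjClasses.mk_eq_mk_iff_isConj] at h
  obtain ⟨k, hk⟩ := conj_toLin' h
  exact hf (eq_of_conj_of_SB k hk (polV_monic _) (polV_monic _) (hg x) (hg y))

end

end Cfsg.Agent.H43
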