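import Mathlib
import Cfsg.Agent.H43.LabGL2
import Cfsg.Agent.H43.DetCent

set_option autoImplicit false
set_option linter.unusedSectionVars false
set_option linter.unusedVariables false

/-! Determinants of polynomials on `F[X]/(f)`, and of centralizing elements. -/

namespace Cfsg.Agent.H43

open Polynomial

section
variable {F : Type*} [Field F]

/-- determinant of multiplication by `Q` on `F[X]/(f)` -/
noncomputable def dQ (f Q : F[X]) : F := LinearMap.det (LinearMap.mulLeft F (Ideal.Quotient.mk (Ideal.span {f}) Q))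

theorem dQ_X (f : F[X]) (hf : f.Monic) : dQ f X = (-1) ^ f.natDegree * f.coeff 0 := by
  have h1 : dQ f X = Algebra.norm F (AdjoinRoot.root f) := rfl
  rw [h1]
  have h2 := Algebra.PowerBasis.norm_gen_eq_coeff_zero_minpoly (AdjoinRoot.powerBasis hf.ne_zero)
  rw [AdjoinRoot.minpoly_powerBasis_gen_of_monic hf, AdjoinRoot.powerBasis_dim] at h2
  exact h2

theorem dQ_mul (f g Q : F[X]) (hf : f.Monic) (hg : g.Monic) : dQ (f * g) Q = dQ f Q * dQ g Q := by
  have hfd1 : Module.Finite F (F[X] ⧸ Ideal.span {f}) := hf.finite_quotient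
  have hfd2 : Module.Finite F (F[X] ⧸ Ideal.span {g}) := hg.finite_quotient
  have hfd3 : Module.Finite F (F[X] ⧸ Ideal.span {f * g}) := (hf.mul hg).finite_quotient
  have hle : Ideal.span {f * g} ≤ Ideal.span {f} := by
    rw [Ideal.span_singleton_le_span_singleton]; exact dvd_mul_right _ _
  obtain ⟨π, hπ⟩ : ∃ π : (F[X] ⧸ Ideal.span {f * g}) →ₗ[F] (F[X] ⧸ Ideal.span {f}), ∀ x : F[X], π (Ideal.Quotient.mk _ x) = Ideal.Quotient.mk _ x :=
    ⟨(Ideal.Quotient.factorₐ F hle).toLinearMap, fun x => rfl⟩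
  obtain ⟨ι, hι⟩ : ∃ ι : (F[X] ⧸ Ideal.span {g}) →ₗ[F] (F[X] ⧸ Ideal.span {f * g}), ∀ x : F[X], ι (Ideal.Quotient.mk _ x) = Ideal.Quotient.mk _ (f * x) := by
    have h1 : (Ideal.span {g}).restrictScalars F ≤ LinearMap.ker (((Ideal.Quotient.mkₐ F (Ideal.span {f * g})).toLinearMap) ∘ₗ (LinearMap.mulLeft F f)) := by
      intro x hx
      have hx' : x ∈ Ideal.span {g} := hx
      rw [Ideal.mem_span_singleton] at hx'
      rw [LinearMap.mem_ker]
      change Ideal.Quotient.mk _ (f * x) = 0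
      rw [Ideal.Quotient.eq_zero_iff_mem, Ideal.mem_span_singleton]
      exact mul_dvd_mul_left f hx'
    exact ⟨((Ideal.span {g}).restrictScalars F).liftQ _ h1, fun x => rfl⟩
  have hπs : Function.Surjective π := by
    intro y
    obtain ⟨x, rfl⟩ := Ideal.Quotient.mk_surjective y
    exact ⟨_, hπ x⟩
  have hιi : Function.Injective ι := by
    rw [injective_iff_map_eq_zero]
    intro y hy
    obtain ⟨x, rfl⟩ := Ideal.Quotient.mk_surjective y
    rw [hι, Ideal.Quotient.eq_zero_iff_mem, Ideal.mem_span_singleton] at hy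
    rw [Ideal.Quotient.eq_zero_iff_mem, Ideal.mem_span_singleton]
    exact (mul_dvd_mul_iff_left hf.ne_zero).1 hy
  obtain ⟨W, hWdef⟩ : ∃ W : Submodule F (F[X] ⧸ Ideal.span {f * g}), W = LinearMap.ker π := ⟨_, rfl⟩
  have hWr : ∀ y, y ∈ W ↔ ∃ x, ι x = y := by
    intro y
    obtain ⟨x, rfl⟩ := Ideal.Quotient.mk_surjective y
    rw [hWdef, LinearMap.mem_ker, hπ, Ideal.Quotient.eq_zero_iff_mem, Ideal.mem_span_singleton]
    constructor
    · rintro ⟨z, rfl⟩
      exact ⟨Ideal.Quotient.mk _ z, hι z⟩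
    · rintro ⟨z, hz⟩
      obtain ⟨z, rfl⟩ := Ideal.Quotient.mk_surjective z
      rw [hι, Ideal.Quotient.eq, Ideal.mem_span_singleton] at hz
      have h1 : f ∣ f * z - x := (dvd_mul_right f g).trans hz
      exact (dvd_sub_right (dvd_mul_right f z)).1 h1
  obtain ⟨M, hM⟩ : ∃ M : (F[X] ⧸ Ideal.span {f * g}) →ₗ[F] (F[X] ⧸ Ideal.span {f * g}), M = LinearMap.mulLeft F (Ideal.Quotient.mk (Ideal.span {f * g}) Q) := ⟨_, rfl⟩
  have hMm : ∀ x : F[X], M (Ideal.Quotient.mk _ x) = Ideal.Quotient.mk _ (Q * x) := by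
    intro x
    rw [hM, LinearMap.mulLeft_apply, map_mul]
  have hW : W ≤ W.comap M := by
    intro y hy
    rw [Submodule.mem_comap]
    obtain ⟨x, rfl⟩ := (hWr y).1 hy
    obtain ⟨x, rfl⟩ := Ideal.Quotient.mk_surjective x
    rw [hι, hMm]
    refine (hWr _).2 ⟨Ideal.Quotient.mk _ (Q * x), ?_⟩
    rw [hι]
    congr 1
    ring
  have h0 : dQ (f * g) Q = LinearMap.det M := by rw [hM]; rfl
  rw [h0, LinearMap.det_eq_det_mul_det W M hW, mul_comm]
  congr 1
  · obtain ⟨ψ, hψ⟩ : ∃ ψ : ((F[X] ⧸ Ideal.span {f * g}) ⧸ W) ≃ₗ[F] (F[X] ⧸ Ideal.span {f}), ∀ y, ψ (Submodule.Quotient.mk y) = π y := by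
      subst hWdef
      exact ⟨LinearMap.quotKerEquivOfSurjective π hπs, fun y => LinearMap.quotKerEquivOfSurjective_apply_mk π hπs y⟩
    have h4 := LinearMap.det_conj (W.mapQ W M hW) ψ
    rw [← h4]
    unfold dQ
    congr 1
    apply LinearMap.ext
    intro z
    obtain ⟨y, rfl⟩ := hπs z
    have h5 : ψ.symm (π y) = Submodule.Quotient.mk y := by
      rw [LinearEquiv.symm_apply_eq, hψ]
    rw [LinearMap.comp_apply, LinearMap.comp_apply, LinearEquiv.coe_coe, LinearEquiv.coe_coe, h5, Submodule.mapQ_apply, hψ]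
    obtain ⟨x, rfl⟩ := Ideal.Quotient.mk_surjective y
    rw [hMm, hπ, hπ, LinearMap.mulLeft_apply, map_mul]
  · have hbij : Function.Bijective (ι.codRestrict W (fun x => (hWr _).2 ⟨x, rfl⟩)) := by
      constructor
      · intro x y hxy
        exact hιi (congrArg Subtype.val hxy)
      · rintro ⟨y, hy⟩
        obtain ⟨x, rfl⟩ := (hWr y).1 hy
        exact ⟨x, rfl⟩
    obtain ⟨ψ, hψ⟩ : ∃ ψ : (F[X] ⧸ Ideal.span {g}) ≃ₗ[F] W, ∀ x, (ψ x : F[X] ⧸ Ideal.span {f * g}) = ι x := 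
      ⟨LinearEquiv.ofBijective _ hbij, fun x => rfl⟩
    have h4 := LinearMap.det_conj (LinearMap.mulLeft F (Ideal.Quotient.mk (Ideal.span {g}) Q)) ψ
    unfold dQ
    rw [← h4]
    congr 1
    apply LinearMap.ext
    intro z
    obtain ⟨y, rfl⟩ := ψ.surjective z
    apply Subtype.ext
    rw [LinearMap.comp_apply, LinearMap.comp_apply, LinearEquiv.coe_coe, LinearEquiv.coe_coe, LinearEquiv.symm_apply_apply, hψ,
      LinearMap.restrict_apply]
    change M (ψ y : F[X] ⧸ Ideal.span {f * g}) = _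
    rw [hψ]
    obtain ⟨x, rfl⟩ := Ideal.Quotient.mk_surjective y
    rw [hι, hMm, LinearMap.mulLeft_apply, ← map_mul, hι]
    congr 1
    ring

theorem dQ_one (Q : F[X]) : dQ 1 Q = 1 := by
  have h := dQ_mul 1 1 Q monic_one monic_one
  have hs : Subsingleton (F[X] ⧸ Ideal.span {(1 : F[X])}) := by
    rw [Ideal.Quotient.subsingleton_iff, Ideal.span_singleton_one]
  unfold dQ
  have : LinearMap.mulLeft F (Ideal.Quotient.mk (Ideal.span {(1 : F[X])}) Q) = LinearMap.id := LinearMap.ext fun x => Subsingleton.elim _ _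
  rw [this, LinearMap.det_id]

theorem dQ_pow (f Q : F[X]) (hf : f.Monic) (k : ℕ) : dQ (f ^ k) Q = dQ f Q ^ k := by
  induction k with
  | zero => rw [pow_zero, pow_zero, dQ_one]
  | succ k ih => rw [pow_succ, dQ_mul _ _ _ (hf.pow k) hf, ih, pow_succ]

theorem dQ_prod {ι : Type*} (s : Finset ι) (f : ι → F[X]) (Q : F[X]) (hf : ∀ i, (f i).Monic) : dQ (∏ i ∈ s, f i) Q = ∏ i ∈ s, dQ (f i) Q := by
  classical
  induction s using Finset.induction_on with
  | empty => rw [Finset.prod_empty, Finset.prod_empty, dQ_one]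
  | insert i s hi ih =>
    rw [Finset.prod_insert hi, Finset.prod_insert hi, dQ_mul _ _ _ (hf i) (monic_prod_of_monic _ _ fun j _ => hf j), ih]

/-- determinant of a diagonal map -/
theorem det_diag {V : Type*} [AddCommGroup V] [Module F V] [FiniteDimensional F V]
    {t : ℕ} {A : Fin t → Type*} [∀ i, AddCommGroup (A i)] [∀ i, Module F (A i)]
    (φ : V ≃ₗ[F] ((i : Fin t) → A i)) (a : ∀ i, A i →ₗ[F] A i) (g : V →ₗ[F] V) (hg : ∀ v i, φ (g v) i = a i (φ v i)) :
    LinearMap.det g = ∏ i, LinearMap.det (a i) := by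
  classical
  have key : ∀ s : Finset (Fin t), ∃ c : V →ₗ[F] V, LinearMap.det c = ∏ i ∈ s, LinearMap.det (a i) ∧
      (∀ v, ∀ i ∈ s, φ (c v) i = a i (φ v i)) ∧ ∀ v, ∀ j ∉ s, φ (c v) j = φ v j := by
    intro s
    induction s using Finset.induction_on with
    | empty => exact ⟨LinearMap.id, by simp, fun v i hi => absurd hi (Finset.notMem_empty i), fun v j _ => rfl⟩
    | insert i s hi ih =>
      obtain ⟨c, h1, h2, h3⟩ := ih
      obtain ⟨d, h4, h5, h6⟩ := exists_det_factor φ i (a i)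
      refine ⟨d ∘ₗ c, ?_, ?_, ?_⟩
      · rw [LinearMap.det_comp, h4, h1, Finset.prod_insert hi]
      · intro v j hj
        rw [LinearMap.comp_apply]
        rcases Finset.mem_insert.1 hj with rfl | hj
        · rw [h5, h3 v j hi]
        · rw [h6 _ j (fun h => hi (h ▸ hj)), h2 v j hj]
      · intro v j hj
        rw [Finset.mem_insert, not_or] at hj
        rw [LinearMap.comp_apply, h6 _ j hj.1, h3 v j hj.2]
  obtain ⟨c, h1, h2, h3⟩ := key Finset.univ
  rw [← h1]
  congr 1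
  apply LinearMap.ext
  intro v
  apply φ.injective
  funext i
  rw [hg, h2 v i (Finset.mem_univ i)]

theorem SB.det {V : Type*} [AddCommGroup V] [Module F V] [FiniteDimensional F V] {t : ℕ} {g : Module.End F V} {p : Fin t → F[X]} {e : Fin t → ℕ}
    {φ : V ≃ₗ[F] ((i : Fin t) → F[X] ⧸ Ideal.span {p i ^ e i})} (hp : ∀ i, (p i).Monic) (h : SB g (fun i => p i ^ e i) φ) :
    LinearMap.det g = ∏ i, dQ (p i) X ^ e i := by
  rw [det_diag φ (fun i => LinearMap.mulLeft F (Ideal.Quotient.mk _ X)) g (fun v i => h v i)]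
  refine Finset.prod_congr rfl fun i _ => ?_
  rw [← dQ_pow _ _ (hp i)]
  rfl

theorem prod_labP {t : ℕ} {p : Fin t → F[X]} {e : Fin t → ℕ} (hp : ∀ i, (p i).Monic)
    (K : ℕ) (h1 : ∀ i, 1 ≤ e i) (hK : ∀ i, e i ≤ K) (Q : F[X]) :
    ∏ i : Fin K, dQ (labP p e K i) Q ^ ((i : ℕ) + 1) = ∏ j, dQ (p j) Q ^ e j := by
  classical
  have h2 : ∀ i : Fin K, dQ (labP p e K i) Q ^ ((i : ℕ) + 1) = ∏ j ∈ Finset.univ.filter (fun j => e j = (i : ℕ) + 1), dQ (p j) Q ^ e j := by
    intro i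
    unfold labP
    rw [dQ_prod _ _ _ hp, ← Finset.prod_pow]
    refine Finset.prod_congr rfl fun j hj => ?_
    rw [(Finset.mem_filter.1 hj).2]
  rw [Finset.prod_congr rfl (fun i _ => h2 i)]
  have h3 : ∀ i : Fin K, (Finset.univ.filter (fun j : Fin t => e j = (i : ℕ) + 1)) =
      Finset.univ.filter (fun j : Fin t => (⟨e j - 1, by have := h1 j; have := hK j; omega⟩ : Fin K) = i) := by
    intro i
    ext j
    simp only [Finset.mem_filter, Finset.mem_univ, true_and, Fin.ext_iff]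
    have := h1 j
    omega
  simp only [h3]
  exact Finset.prod_fiberwise (Finset.univ) (fun j => (⟨e j - 1, by have := h1 j; have := hK j; omega⟩ : Fin K)) (fun j => dQ (p j) Q ^ e j)

/-- centralizing elements with prescribed determinants -/
theorem exists_commute_det_pow [Finite F] {V : Type*} [AddCommGroup V] [Module F V] [FiniteDimensional F V] {t : ℕ} {g : Module.End F V}
    {p : Fin t → F[X]} {e : Fin t → ℕ}
    {φ : V ≃ₗ[F] ((i : Fin t) → F[X] ⧸ Ideal.span {p i ^ e i})} (hp : ∀ i, (p i).Monic ∧ Irreducible (p i))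
    (h : SB g (fun i => p i ^ e i) φ) (i : Fin t) (d : F) (hd : d ≠ 0) :
    ∃ c : Module.End F V, Commute c g ∧ LinearMap.det c = d ^ e i := by
  obtain ⟨a, ha, -⟩ := exists_det_mul (p i) (hp i).2 1 rfl d hd
  rw [pow_one] at a
  obtain ⟨a, ha, -⟩ := exists_det_mul (p i) (hp i).2 1 rfl d hd
  obtain ⟨Q, rfl⟩ := Ideal.Quotient.mk_surjective a
  have hdQ : dQ (p i) Q = d := by
    have h1 : dQ (p i ^ 1) Q = d := ha
    rwa [pow_one] at h1
  obtain ⟨c, hc1, hc2, hc3⟩ := exists_det_factor φ i (LinearMap.mulLeft F (Ideal.Quotient.mk _ Q))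
  refine ⟨c, ?_, ?_⟩
  · apply LinearMap.ext
    intro v
    apply φ.injective
    funext j
    rw [Module.End.mul_apply, Module.End.mul_apply]
    by_cases hj : j = i
    · subst hj
      rw [hc2, h, h, hc2, LinearMap.mulLeft_apply, LinearMap.mulLeft_apply]
      ring
    · rw [hc3 _ _ hj, h, h, hc3 _ _ hj]
  · rw [hc1, ← hdQ, ← dQ_pow _ _ (hp i).1]
    rfl

end

end Cfsg.Agent.H43
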