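import Mathlib
import Cfsg.Agent.H43.LabCount

set_option autoImplicit false
set_option linter.unusedSectionVars false
set_option linter.unusedVariables false

/-! Weighted sums over label sequences. -/

namespace Cfsg.Agent.H43

section
variable (A : Type*) [CommGroup A]

/-- subgroup generated by the `(i+1)`-st powers, `i ∈ S` -/
def PS {K : ℕ} (S : Set (Fin K)) : Subgroup A := Subgroup.closure {x | ∃ i ∈ S, ∃ a : A, x = a ^ ((i : ℕ) + 1)}

theorem PS_exists {K : ℕ} (S : Set (Fin K)) (x : A) (hx : x ∈ PS A S) :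
    ∃ t : Fin K → A, (∀ i ∉ S, t i = 1) ∧ ∏ i, t i ^ ((i : ℕ) + 1) = x := by
  classical
  induction hx using Subgroup.closure_induction with
  | mem x hx =>
    obtain ⟨i, hi, a, rfl⟩ := hx
    refine ⟨Pi.mulSingle i a, ?_, ?_⟩
    · intro j hj
      rw [Pi.mulSingle_eq_of_ne (by rintro rfl; exact hj hi)]
    · rw [Finset.prod_eq_single i]
      · rw [Pi.mulSingle_eq_same]
      · intro j _ hj
        rw [Pi.mulSingle_eq_of_ne hj, one_pow]
      · intro h; exact absurd (Finset.mem_univ i) h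
  | one => exact ⟨1, fun i _ => rfl, by simp⟩
  | mul x y _ _ hx hy =>
    obtain ⟨t, ht1, ht2⟩ := hx
    obtain ⟨s, hs1, hs2⟩ := hy
    refine ⟨t * s, fun i hi => by rw [Pi.mul_apply, ht1 i hi, hs1 i hi, one_mul], ?_⟩
    rw [← ht2, ← hs2, ← Finset.prod_mul_distrib]
    refine Finset.prod_congr rfl fun i _ => ?_
    rw [Pi.mul_apply, mul_pow]
  | inv x _ hx =>
    obtain ⟨t, ht1, ht2⟩ := hx
    refine ⟨t⁻¹, fun i hi => by rw [Pi.inv_apply, ht1 i hi, inv_one], ?_⟩
    rw [← ht2, ← Finset.prod_inv_distrib]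
    refine Finset.prod_congr rfl fun i _ => ?_
    rw [Pi.inv_apply, inv_pow]

theorem PS_index_dvd [IsCyclic A] [Finite A] {K : ℕ} (S : Set (Fin K)) (i : Fin K) (hi : i ∈ S) : (PS A S).index ∣ (i : ℕ) + 1 := by
  have h1 : (powMonoidHom ((i : ℕ) + 1) : A →* A).range ≤ PS A S := by
    rintro _ ⟨a, rfl⟩
    exact Subgroup.subset_closure ⟨i, hi, a, rfl⟩
  have h2 := Subgroup.index_dvd_of_le h1
  rw [IsCyclic.index_powMonoidHom_range] at h2
  exact h2.trans (Nat.gcd_dvd_right _ _)

end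

section
universe u v
variable {A : Type v} [CommGroup A] [Finite A] [IsCyclic A] {Λ : Type u} (deg : Λ → ℕ) (δ : Λ → A)

/-- support -/
def suppL {K : ℕ} (g : Fin K → Λ) : Set (Fin K) := {i | deg (g i) ≠ 0}

/-- index -/
noncomputable def indL (A : Type v) [CommGroup A] {K : ℕ} (g : Fin K → Λ) : ℕ := (PS A (suppL deg g)).index

/-- determinant -/
def detL {K : ℕ} (g : Fin K → Λ) : A := ∏ i, δ (g i) ^ ((i : ℕ) + 1)

theorem sum_comp_le {α β : Type*} [Fintype α] [Fintype β] (f : β → ℕ) (τ : α → β) (hτ : Function.Injective τ) :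
    ∑ x, f (τ x) ≤ ∑ y, f y := by
  classical
  calc ∑ x, f (τ x) = ∑ y ∈ Finset.univ.image τ, f y := by
        rw [Finset.sum_image (fun x _ y _ h => hτ h)]
    _ ≤ ∑ y, f y := Finset.sum_le_univ_sum_of_nonneg (fun _ => Nat.zero_le _)

theorem sum_det_le (sc : A → Λ → Λ) (hdeg : ∀ a x, deg (sc a x) = deg x) (hinj : ∀ a, Function.Injective (sc a))
    (hδ : ∀ a x, deg x ≠ 0 → δ (sc a x) = a * δ x) (h0 : ∀ x, deg x = 0 → δ x = 1) (K n : ℕ) [Fintype (LabT deg K n)] (c : A)
    [Fintype {g : LabT deg K n // detL δ g.1 = c}] :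
    ∑ g : {g : LabT deg K n // detL δ g.1 = c}, indL deg A g.1.1 * Nat.card A ≤ ∑ g : LabT deg K n, indL deg A g.1 ^ 2 := by
  classical
  have hP : ∀ g : {g : LabT deg K n // detL δ g.1 = c}, Fintype (PS A (suppL deg g.1.1)) := fun g => Fintype.ofFinite _
  -- the elements moving the determinant
  have ht : ∀ (S : Set (Fin K)) (x : A), ∃ t : Fin K → A, x ∈ PS A S → (∀ i ∉ S, t i = 1) ∧ ∏ i, t i ^ ((i : ℕ) + 1) = x := by
    intro S x
    by_cases hx : x ∈ PS A S
    · obtain ⟨t, h⟩ := PS_exists A S x hx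
      exact ⟨t, fun _ => h⟩
    · exact ⟨1, fun h => absurd h hx⟩
  choose t ht using ht
  have hsupp : ∀ (g : Fin K → Λ) (s : Fin K → A), suppL deg (fun i => sc (s i) (g i)) = suppL deg g := by
    intro g s
    ext i
    simp only [suppL, Set.mem_setOf_eq, hdeg]
  have hwt : ∀ (g : LabT deg K n) (s : Fin K → A), ∑ i : Fin K, ((i : ℕ) + 1) * deg (sc (s i) (g.1 i)) = n := by
    intro g s
    simp only [hdeg]
    exact g.2
  have hdet : ∀ (g : Fin K → Λ) (x : A) (hx : x ∈ PS A (suppL deg g)), detL δ (fun i => sc (t (suppL deg g) x i) (g i)) = x * detL δ g := by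
    intro g x hx
    obtain ⟨h1, h2⟩ := ht (suppL deg g) x hx
    have h3 : ∀ i, δ (sc (t (suppL deg g) x i) (g i)) ^ ((i : ℕ) + 1) =
        t (suppL deg g) x i ^ ((i : ℕ) + 1) * δ (g i) ^ ((i : ℕ) + 1) := by
      intro i
      by_cases hi : deg (g i) = 0
      · rw [h1 i (fun h => h hi), h0 _ ((hdeg _ _).trans hi), h0 _ hi]; simp
      · rw [hδ _ _ hi, mul_pow]
    unfold detL
    rw [Finset.prod_congr rfl (fun i _ => h3 i), Finset.prod_mul_distrib, h2]
  let τ : ((g : {g : LabT deg K n // detL δ g.1 = c}) × (PS A (suppL deg g.1.1))) → LabT deg K n :=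
    fun y => ⟨fun i => sc (t (suppL deg y.1.1.1) y.2.1 i) (y.1.1.1 i), hwt y.1.1 _⟩
  have hτ : Function.Injective τ := by
    rintro ⟨g, x⟩ ⟨g', x'⟩ h
    have h1 : (fun i => sc (t (suppL deg g.1.1) x.1 i) (g.1.1 i)) = fun i => sc (t (suppL deg g'.1.1) x'.1 i) (g'.1.1 i) :=
      congrArg Subtype.val h
    have h2 : suppL deg g.1.1 = suppL deg g'.1.1 := by
      rw [← hsupp g.1.1 (t (suppL deg g.1.1) x.1), h1, hsupp]
    have h3 : x.1 = x'.1 := by
      have h4 := hdet g.1.1 x.1 x.2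
      have h5 := hdet g'.1.1 x'.1 x'.2
      rw [h1, h5, g.2, g'.2] at h4
      exact (mul_right_cancel h4).symm
    have h4 : g = g' := by
      apply Subtype.ext
      apply Subtype.ext
      funext i
      have h5 := congrFun h1 i
      have e : t (suppL deg g.1.1) x.1 = t (suppL deg g'.1.1) x'.1 := congrArg₂ t h2 h3
      simp only [e] at h5
      exact hinj _ h5
    subst h4
    rw [Sigma.mk.injEq]
    exact ⟨rfl, heq_of_eq (Subtype.ext h3)⟩
  calc ∑ g : {g : LabT deg K n // detL δ g.1 = c}, indL deg A g.1.1 * Nat.card A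
      = ∑ g : {g : LabT deg K n // detL δ g.1 = c}, ∑ x : PS A (suppL deg g.1.1), indL deg A g.1.1 ^ 2 := by
        refine Finset.sum_congr rfl fun g _ => ?_
        rw [Finset.sum_const, Finset.card_univ, ← Nat.card_eq_fintype_card, smul_eq_mul]
        have h1 := (PS A (suppL deg g.1.1)).card_mul_index
        rw [← h1, indL]; ring
    _ = ∑ y : ((g : {g : LabT deg K n // detL δ g.1 = c}) × (PS A (suppL deg g.1.1))), indL deg A y.1.1.1 ^ 2 := by
        rw [Fintype.sum_sigma]
    _ = ∑ y : ((g : {g : LabT deg K n // detL δ g.1 = c}) × (PS A (suppL deg g.1.1))), indL deg A (τ y).1 ^ 2 := by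
        refine Finset.sum_congr rfl fun y _ => ?_
        unfold indL
        rw [hsupp]
    _ ≤ _ := sum_comp_le (fun g : LabT deg K n => indL deg A g.1 ^ 2) τ hτ

/-- sparse label sequences -/
theorem card_sparse (one : Λ) (hone : deg one = 0) (huniq : ∀ x, deg x = 0 → x = one) (K n f : ℕ) (hf : 1 ≤ f)
    (hfin : Finite (LabT deg K (n / f))) :
    Nat.card {g : LabT deg K n // ∀ i : Fin K, deg (g.1 i) ≠ 0 → f ∣ (i : ℕ) + 1} ≤ Nat.card (LabT deg K (n / f)) := by
  classical
  have hlt : ∀ j : Fin K, f * ((j : ℕ) + 1) ≤ K → f * ((j : ℕ) + 1) - 1 < K := by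
    intro j hj
    have := Nat.mul_pos hf (Nat.succ_pos (j : ℕ))
    simp only [Nat.succ_eq_add_one] at this
    omega
  let T : (Fin K → Λ) → (Fin K → Λ) := fun g j => if h : f * ((j : ℕ) + 1) ≤ K then g ⟨f * ((j : ℕ) + 1) - 1, hlt j h⟩ else one
  have hpos : ∀ j : ℕ, 1 ≤ f * (j + 1) := fun j => Nat.mul_pos hf (Nat.succ_pos j)
  have hwt : ∀ (g : Fin K → Λ), (∑ i : Fin K, ((i : ℕ) + 1) * deg (g i) = n) → (∀ i : Fin K, deg (g i) ≠ 0 → f ∣ (i : ℕ) + 1) →
      ∑ j : Fin K, ((j : ℕ) + 1) * deg (T g j) = n / f := by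
    intro g hg1 hg2
    have h1 : f * ∑ j : Fin K, ((j : ℕ) + 1) * deg (T g j) = n := by
      rw [← hg1, Finset.mul_sum]
      have e1 : ∑ i : Fin K, ((i : ℕ) + 1) * deg (g i) =
          ∑ i ∈ Finset.univ.filter (fun i : Fin K => f ∣ (i : ℕ) + 1), ((i : ℕ) + 1) * deg (g i) := by
        symm
        apply Finset.sum_subset (Finset.filter_subset _ _)
        intro i _ hi
        by_cases h : deg (g i) = 0
        · rw [h, mul_zero]
        · exact absurd (Finset.mem_filter.2 ⟨Finset.mem_univ i, hg2 i h⟩) hi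
      have e2 : ∑ j : Fin K, f * (((j : ℕ) + 1) * deg (T g j)) =
          ∑ j ∈ Finset.univ.filter (fun j : Fin K => f * ((j : ℕ) + 1) ≤ K), f * (((j : ℕ) + 1) * deg (T g j)) := by
        symm
        apply Finset.sum_subset (Finset.filter_subset _ _)
        intro j _ hj
        have h : ¬ f * ((j : ℕ) + 1) ≤ K := fun h => hj (Finset.mem_filter.2 ⟨Finset.mem_univ j, h⟩)
        simp only [T, dif_neg h, hone, mul_zero]
      rw [e1, e2]
      refine Finset.sum_bij' (fun j hj => ⟨f * ((j : ℕ) + 1) - 1, hlt j (Finset.mem_filter.1 hj).2⟩)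
        (fun i hi => ⟨((i : ℕ) + 1) / f - 1, ?_⟩) ?_ ?_ ?_ ?_ ?_
      · have h1 := Nat.div_le_self ((i : ℕ) + 1) f
        have := i.2
        omega
      · intro j hj
        rw [Finset.mem_filter]
        refine ⟨Finset.mem_univ _, ?_⟩
        have h1 := hpos j
        simp only
        rw [Nat.sub_add_cancel h1]
        exact dvd_mul_right _ _
      · intro i hi
        rw [Finset.mem_filter] at hi ⊢
        refine ⟨Finset.mem_univ _, ?_⟩
        obtain ⟨c, hc⟩ := hi.2
        have hc1 : 1 ≤ c := by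
          rcases c with _ | c
          · omega
          · omega
        simp only
        rw [hc, Nat.mul_div_cancel_left _ hf, Nat.sub_add_cancel hc1, ← hc]
        exact i.2
      · intro j hj
        apply Fin.ext
        simp only
        rw [Nat.sub_add_cancel (hpos j), Nat.mul_div_cancel_left _ hf, Nat.add_sub_cancel]
      · intro i hi
        rw [Finset.mem_filter] at hi
        obtain ⟨c, hc⟩ := hi.2
        have hc1 : 1 ≤ c := by
          rcases c with _ | c
          · omega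
          · omega
        apply Fin.ext
        simp only
        rw [hc, Nat.mul_div_cancel_left _ hf, Nat.sub_add_cancel hc1, ← hc, Nat.add_sub_cancel]
      · intro j hj
        have h := (Finset.mem_filter.1 hj).2
        simp only [T, dif_pos h]
        rw [Nat.sub_add_cancel (hpos j)]
        ring
    rw [← h1, Nat.mul_div_cancel_left _ hf]
  let τ : {g : LabT deg K n // ∀ i : Fin K, deg (g.1 i) ≠ 0 → f ∣ (i : ℕ) + 1} → LabT deg K (n / f) :=
    fun g => ⟨T g.1.1, hwt g.1.1 g.1.2 g.2⟩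
  apply Nat.card_le_card_of_injective τ
  intro g g' h
  have h1 : T g.1.1 = T g'.1.1 := congrArg Subtype.val h
  apply Subtype.ext
  apply Subtype.ext
  funext i
  by_cases hi : f ∣ (i : ℕ) + 1
  · obtain ⟨c, hc⟩ := hi
    have hc1 : 1 ≤ c := by
      rcases c with _ | c
      · omega
      · omega
    have hcK : c ≤ K := by
      have h2 : c ≤ f * c := Nat.le_mul_of_pos_left _ hf
      have := i.2
      omega
    have h2 := congrFun h1 ⟨c - 1, by omega⟩
    have h3 : f * (c - 1 + 1) ≤ K := by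
      rw [Nat.sub_add_cancel hc1, ← hc]; exact i.2
    simp only [T, dif_pos h3] at h2
    have h4 : (⟨f * (c - 1 + 1) - 1, by omega⟩ : Fin K) = i := by
      apply Fin.ext
      simp only
      rw [Nat.sub_add_cancel hc1, ← hc, Nat.add_sub_cancel]
    rw [h4] at h2
    exact h2
  · have h2 : deg (g.1.1 i) = 0 := by
      by_contra h; exact hi (g.2 i h)
    have h3 : deg (g'.1.1 i) = 0 := by
      by_contra h; exact hi (g'.2 i h)
    rw [huniq _ h2, huniq _ h3]

theorem sum_ind_sq_le (one : Λ) (hone : deg one = 0) (huniq : ∀ x, deg x = 0 → x = one) (K n : ℕ) (hn : 1 ≤ n)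
    (hfin : ∀ m, Finite (LabT deg K m)) [Fintype (LabT deg K n)] :
    ∑ g : LabT deg K n, indL deg A g.1 ^ 2 ≤ Nat.card (LabT deg K n) +
      ∑ f ∈ (Finset.Icc 2 n).filter (fun f => f ∣ n ∧ f ∣ Nat.card A), (f ^ 2 - 1) * Nat.card (LabT deg K (n / f)) := by
  classical
  -- properties of the index
  have hA : ∀ g : LabT deg K n, indL deg A g.1 ∣ Nat.card A := fun g => Subgroup.index_dvd_card _
  have hi : ∀ g : LabT deg K n, ∀ i : Fin K, deg (g.1 i) ≠ 0 → indL deg A g.1 ∣ (i : ℕ) + 1 := fun g i h => PS_index_dvd A _ i h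
  have hn' : ∀ g : LabT deg K n, indL deg A g.1 ∣ n := by
    intro g
    have h1 : indL deg A g.1 ∣ ∑ i : Fin K, ((i : ℕ) + 1) * deg (g.1 i) := by
      apply Finset.dvd_sum
      intro i _
      by_cases h : deg (g.1 i) = 0
      · rw [h, mul_zero]; exact dvd_zero _
      · exact (hi g i h).mul_right _
    rw [g.2] at h1
    exact h1
  have hpos : ∀ g : LabT deg K n, 1 ≤ indL deg A g.1 := fun g => Nat.pos_of_dvd_of_pos (hn' g) hn
  have h1 : ∀ g : LabT deg K n, indL deg A g.1 ^ 2 = 1 + (indL deg A g.1 ^ 2 - 1) := by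
    intro g
    have := Nat.one_le_pow 2 _ (hpos g)
    omega
  rw [Finset.sum_congr rfl (fun g _ => h1 g), Finset.sum_add_distrib, Finset.sum_const, smul_eq_mul, mul_one, Finset.card_univ,
    Nat.card_eq_fintype_card]
  apply Nat.add_le_add_left
  have h2 : ∀ g : LabT deg K n, indL deg A g.1 ^ 2 - 1 =
      ∑ f ∈ (Finset.Icc 2 n).filter (fun f => f ∣ n ∧ f ∣ Nat.card A), if indL deg A g.1 = f then f ^ 2 - 1 else 0 := by
    intro g
    rw [Finset.sum_ite_eq]
    split_ifs with h
    · rfl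
    · have h3 : indL deg A g.1 = 1 := by
        by_contra hne
        apply h
        rw [Finset.mem_filter, Finset.mem_Icc]
        have := hpos g
        exact ⟨⟨by omega, Nat.le_of_dvd hn (hn' g)⟩, hn' g, hA g⟩
      rw [h3]; rfl
  rw [Finset.sum_congr rfl (fun g _ => h2 g), Finset.sum_comm]
  apply Finset.sum_le_sum
  intro f hf
  rw [Finset.mem_filter, Finset.mem_Icc] at hf
  rw [← Finset.sum_filter, Finset.sum_const, smul_eq_mul, mul_comm]
  apply Nat.mul_le_mul_left
  refine le_trans ?_ (card_sparse deg one hone huniq K n f (by omega) (hfin _))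
  rw [Nat.card_eq_fintype_card, Fintype.card_subtype]
  apply Finset.card_le_card
  intro g hg
  rw [Finset.mem_filter] at hg ⊢
  refine ⟨Finset.mem_univ _, fun i h => ?_⟩
  rw [← hg.2]
  exact hi g i h

end

end Cfsg.Agent.H43
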