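import Mathlib
import Cfsg.Agent.H43.LabSum
import Cfsg.Agent.H43.DetLab

set_option autoImplicit false
set_option linter.unusedSectionVars false
set_option linter.unusedVariables false

/-! Classes of `SL_n(q)` via labels. -/

namespace Cfsg.Agent.H43

open Polynomial

/-- classes of a normal subgroup with abelian quotient -/
theorem card_conj_le {N G A L : Type*} [Group N] [Group G] [CommGroup A] [Finite A] [Fintype L] (ι : N →* G) (hι : Function.Injective ι)
    (d : G →* A) (hd : ∀ x, d x = 1 → x ∈ ι.range) (hd' : ∀ x, d (ι x) = 1) (H : G → L → Prop) (P : L → Subgroup A)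
    (h1 : ∀ x : N, ∃ g, H (ι x) g) (h2 : ∀ x y g, H x g → H y g → IsConj x y)
    (h3 : ∀ x g, H x g → ∀ a ∈ P g, ∃ c, Commute c x ∧ d c = a) :
    Nat.card (ConjClasses N) ≤ ∑ g : L, (P g).index := by
  classical
  have hc : ∀ c : ConjClasses N, ∃ (x : N) (g : L), ConjClasses.mk x = c ∧ H (ι x) g := by
    intro c
    obtain ⟨x, rfl⟩ := ConjClasses.exists_rep c
    obtain ⟨g, hg⟩ := h1 x
    exact ⟨x, g, rfl, hg⟩
  choose x g hx hg using hc
  have hb : ∀ g : L, ∃ b : N, (∃ y : N, H (ι y) g) → H (ι b) g := by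
    intro g
    by_cases h : ∃ y : N, H (ι y) g
    · obtain ⟨y, hy⟩ := h
      exact ⟨y, fun _ => hy⟩
    · exact ⟨1, fun h' => absurd h' h⟩
  choose b hb using hb
  have hh : ∀ c : ConjClasses N, ∃ h : G, h * ι (b (g c)) * h⁻¹ = ι (x c) := by
    intro c
    exact isConj_iff.1 (h2 _ _ (g c) (hb (g c) ⟨_, hg c⟩) (hg c))
  choose h hh using hh
  have hfin : ∀ g, Finite (A ⧸ P g) := fun g => inferInstance
  let τ : ConjClasses N → (g : L) × (A ⧸ P g) := fun c => ⟨g c, (d (h c) : A ⧸ P (g c))⟩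
  have hτ : Function.Injective τ := by
    intro c c' hcc
    have e1 : g c = g c' := congrArg Sigma.fst hcc
    have e2 : (d (h c))⁻¹ * d (h c') ∈ P (g c') := by
      have e3 : ∀ (g₀ g₁ : L) (h : g₀ = g₁) (a b : A), (⟨g₀, (a : A ⧸ P g₀)⟩ : (g : L) × (A ⧸ P g)) = ⟨g₁, (b : A ⧸ P g₁)⟩ → a⁻¹ * b ∈ P g₁ := by
        intro g₀ g₁ h a b hab
        subst h
        rw [Sigma.mk.injEq] at hab
        exact QuotientGroup.eq.1 (eq_of_heq hab.2)
      exact e3 _ _ e1 _ _ hcc
    obtain ⟨z, hz1, hz2⟩ := h3 _ _ (hb (g c') ⟨_, hg c'⟩) _ e2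
    have hk : d (h c' * z⁻¹ * (h c)⁻¹) = 1 := by
      rw [map_mul, map_mul, map_inv, map_inv, hz2]
      rw [mul_inv_rev, inv_inv]
      rw [mul_comm (d (h c'))⁻¹, ← mul_assoc, mul_comm (d (h c'))]
      group
    obtain ⟨k, hk'⟩ := hd _ hk
    rw [← hx c, ← hx c', ConjClasses.mk_eq_mk_iff_isConj, isConj_iff]
    refine ⟨k, hι ?_⟩
    rw [map_mul, map_mul, map_inv, hk', ← hh c, ← hh c', e1]
    have hz3 : z⁻¹ * ι (b (g c')) * z = ι (b (g c')) := by
      rw [mul_assoc, ← hz1.eq, inv_mul_cancel_left]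
    calc h c' * z⁻¹ * (h c)⁻¹ * (h c * ι (b (g c')) * (h c)⁻¹) * (h c' * z⁻¹ * (h c)⁻¹)⁻¹
        = h c' * (z⁻¹ * ι (b (g c')) * z) * (h c')⁻¹ := by group
      _ = _ := by rw [hz3]
  refine (Nat.card_le_card_of_injective τ hτ).trans ?_
  rw [Nat.card_sigma]
  exact le_of_eq (Finset.sum_congr rfl fun g _ => rfl)

section
variable {F : Type*} [Field F] [Fintype F]

/-- the determinant of a label polynomial -/
noncomputable def delN (f : PolN F) : Fˣ := Units.mk0 (dQ f.1 X) (by
  rw [dQ_X _ f.2.1]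
  exact mul_ne_zero (pow_ne_zero _ (neg_ne_zero.2 one_ne_zero)) f.2.2)

theorem delN_coe (f : PolN F) : ((delN f : Fˣ) : F) = (-1) ^ f.1.natDegree * f.1.coeff 0 := dQ_X _ f.2.1

/-- the trivial polynomial -/
noncomputable def oneN (F : Type*) [Field F] : PolN F := ⟨1, monic_one, by simp⟩

theorem degN_one : degN (oneN F) = 0 := natDegree_one

theorem eq_oneN (f : PolN F) (h : degN f = 0) : f = oneN F := Subtype.ext (f.2.1.natDegree_eq_zero.1 h)

/-- scaling the constant term -/
theorem exists_scaling : ∃ sc : Fˣ → PolN F → PolN F, (∀ a x, degN (sc a x) = degN x) ∧ (∀ a, Function.Injective (sc a)) ∧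
    (∀ a x, degN x ≠ 0 → delN (sc a x) = a * delN x) := by
  classical
  have hdeg : ∀ (a : Fˣ) (x : PolN F), degN x ≠ 0 → (C (((a : F) - 1) * x.1.coeff 0)).degree < x.1.degree := by
    intro a x hx
    refine lt_of_le_of_lt degree_C_le ?_
    rw [degree_eq_natDegree x.2.1.ne_zero]
    exact_mod_cast Nat.pos_of_ne_zero hx
  have hcoef : ∀ (a : Fˣ) (x : PolN F), (x.1 + C (((a : F) - 1) * x.1.coeff 0)).coeff 0 = a * x.1.coeff 0 := by
    intro a x
    rw [coeff_add, coeff_C_zero]; ring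
  obtain ⟨sc, hsc1, hsc2⟩ : ∃ sc : Fˣ → PolN F → PolN F, (∀ a x, degN x = 0 → sc a x = x) ∧
      (∀ a x, degN x ≠ 0 → (sc a x).1 = x.1 + C (((a : F) - 1) * x.1.coeff 0)) := by
    refine ⟨fun a x => if h : degN x = 0 then x else ⟨x.1 + C (((a : F) - 1) * x.1.coeff 0), x.2.1.add_of_left (hdeg a x h), ?_⟩, ?_, ?_⟩
    · rw [hcoef]
      exact mul_ne_zero a.ne_zero x.2.2
    · intro a x h
      exact dif_pos h
    · intro a x h
      exact congrArg Subtype.val (dif_neg h)
  have hd : ∀ a x, degN (sc a x) = degN x := by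
    intro a x
    by_cases h : degN x = 0
    · rw [hsc1 a x h]
    · unfold degN
      rw [hsc2 a x h]
      exact natDegree_eq_natDegree (degree_add_eq_left_of_degree_lt (hdeg a x h))
  refine ⟨sc, hd, ?_, ?_⟩
  · intro a x y hxy
    have h1 : degN x = degN y := by rw [← hd a x, hxy, hd]
    by_cases h : degN x = 0
    · rw [eq_oneN x h, eq_oneN y (h1 ▸ h)]
    · have h2 : x.1 + C (((a : F) - 1) * x.1.coeff 0) = y.1 + C (((a : F) - 1) * y.1.coeff 0) := by
        rw [← hsc2 a x h, ← hsc2 a y (fun h' => h (h1.trans h')), hxy]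
      have h3 : x.1.coeff 0 = y.1.coeff 0 := by
        have h4 := congrArg (fun f => coeff f 0) h2
        simp only [hcoef] at h4
        exact mul_left_cancel₀ a.ne_zero h4
      rw [h3] at h2
      exact Subtype.ext (add_right_cancel h2)
  · intro a x h
    apply Units.ext
    rw [Units.val_mul, delN_coe, delN_coe]
    have h1 : (sc a x).1.natDegree = x.1.natDegree := hd a x
    rw [h1, hsc2 a x h, hcoef]
    ring

theorem HasLab.det {n : ℕ} {A : GL (Fin n) F} {g : LabT (degN (F := F)) n n} (h : HasLab A g) :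
    Matrix.GeneralLinearGroup.det A = detL delN g.1 := by
  obtain ⟨t, p, e, φ, hp, hSB, hle, hg⟩ := h
  have h1 := hSB.det (fun i => (hp i).1)
  rw [← prod_labP (fun i => (hp i).1) n (fun i => (hp i).2.2) hle] at h1
  apply Units.ext
  rw [LinearMap.det_toLin'] at h1
  change (A : Matrix (Fin n) (Fin n) F).det = _
  rw [h1, detL, Units.coe_prod]
  refine Finset.prod_congr rfl fun i _ => ?_
  rw [Units.val_pow_eq_pow_val, delN, Units.val_mk0, hg]

theorem HasLab.commute {n : ℕ} {A : GL (Fin n) F} {g : LabT (degN (F := F)) n n} (h : HasLab A g) (a : Fˣ)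
    (ha : a ∈ PS Fˣ (suppL degN g.1)) : ∃ c : GL (Fin n) F, Commute c A ∧ Matrix.GeneralLinearGroup.det c = a := by
  classical
  obtain ⟨t, p, e, φ, hp, hSB, hle, hg⟩ := h
  have key : PS Fˣ (suppL degN g.1) ≤ (Subgroup.centralizer {A}).map Matrix.GeneralLinearGroup.det := by
    unfold PS
    rw [Subgroup.closure_le]
    rintro _ ⟨i, hi, d, rfl⟩
    -- find a block of size `i + 1`
    obtain ⟨j, hj⟩ : ∃ j, e j = (i : ℕ) + 1 := by
      by_contra hcon
      push Not at hcon
      apply hi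
      change (g.1 i).1.natDegree = 0
      rw [hg, labP, Finset.filter_eq_empty_iff.2 (fun j _ => hcon j), Finset.prod_empty, natDegree_one]
    obtain ⟨c, hc1, hc2⟩ := exists_commute_det_pow (fun i => ⟨(hp i).1, (hp i).2.1⟩) hSB j d d.ne_zero
    obtain ⟨C, hC⟩ : ∃ C : Matrix (Fin n) (Fin n) F, Matrix.toLin' C = c := ⟨LinearMap.toMatrix' c, Matrix.toLin'_toMatrix' c⟩
    have hdet : C.det = (d : F) ^ e j := by rw [← LinearMap.det_toLin', hC, hc2]
    have hdet0 : C.det ≠ 0 := by rw [hdet]; exact pow_ne_zero _ d.ne_zero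
    refine ⟨Matrix.GeneralLinearGroup.mkOfDetNeZero C hdet0, ?_, ?_⟩
    · rw [SetLike.mem_coe, Subgroup.mem_centralizer_singleton_iff]
      apply Units.ext
      apply (Matrix.toLin' (R := F) (m := Fin n) (n := Fin n)).injective
      change Matrix.toLin' (C * (A : Matrix (Fin n) (Fin n) F)) = Matrix.toLin' ((A : Matrix (Fin n) (Fin n) F) * C)
      rw [Matrix.toLin'_mul, Matrix.toLin'_mul, hC]
      exact hc1
    · apply Units.ext
      change C.det = _
      rw [hdet, hj, Units.val_pow_eq_pow_val]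
  obtain ⟨c, hc1, hc2⟩ := key ha
  rw [SetLike.mem_coe, Subgroup.mem_centralizer_singleton_iff] at hc1
  exact ⟨c, hc1, hc2⟩

theorem LabT_finite (K n : ℕ) : Finite (LabT (degN (F := F)) K n) ∧ Nat.card (LabT (degN (F := F)) K n) ≤ aN (Fintype.card F) n :=
  card_LabT (degN (F := F)) (Fintype.card F) (fun d => (card_PolN d).1) (fun d => (card_PolN d).2) K n

/-- upper bound for the number of classes of `SL_n(q)` -/
theorem card_conjClasses_SL_le (n : ℕ) (hn : 1 ≤ n) :
    Nat.card (ConjClasses (Matrix.SpecialLinearGroup (Fin n) F)) * (Fintype.card F - 1) ≤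
      aN (Fintype.card F) n + ∑ f ∈ (Finset.Icc 2 n).filter (fun f => f ∣ n ∧ f ∣ Fintype.card F - 1), (f ^ 2 - 1) * aN (Fintype.card F) (n / f) := by
  classical
  have hfinT : ∀ m, Finite (LabT (degN (F := F)) n m) := fun m => (LabT_finite n m).1
  have hcardA : Nat.card Fˣ = Fintype.card F - 1 := by rw [Nat.card_units, Nat.card_eq_fintype_card]
  let i1 : Fintype (LabT (degN (F := F)) n n) := Fintype.ofFinite _
  let i2 : Fintype {g : LabT (degN (F := F)) n n // detL delN g.1 = 1} := Fintype.ofFinite _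
  obtain ⟨sc, h1, h2, h3⟩ := exists_scaling (F := F)
  have hA := card_conj_le (N := Matrix.SpecialLinearGroup (Fin n) F) (G := GL (Fin n) F) (A := Fˣ)
    (L := {g : LabT (degN (F := F)) n n // detL delN g.1 = 1}) Matrix.SpecialLinearGroup.toGL Matrix.SpecialLinearGroup.toGL_injective
    Matrix.GeneralLinearGroup.det
    (by
      intro x hx
      have hdet : (x : Matrix (Fin n) (Fin n) F).det = 1 := congrArg Units.val hx
      exact ⟨⟨x, hdet⟩, Units.ext rfl⟩)
    (by
      intro x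
      apply Units.ext
      exact x.2)
    (fun x g => HasLab x g.1) (fun g => PS Fˣ (suppL degN g.1.1))
    (by
      intro x
      obtain ⟨g, hg⟩ := exists_lab (Matrix.SpecialLinearGroup.toGL x)
      refine ⟨⟨g, ?_⟩, hg⟩
      rw [← hg.det]
      apply Units.ext
      exact x.2)
    (fun x y g hx hy => hx.isConj hy) (fun x g hx a ha => hx.commute a ha)
  have hB := sum_det_le (degN (F := F)) delN sc h1 h2 h3
    (fun x hx => by
      rw [eq_oneN x hx]
      apply Units.ext
      rw [delN_coe]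
      simp [oneN]) n n (1 : Fˣ)
  have hC := sum_ind_sq_le (A := Fˣ) (degN (F := F)) (oneN F) degN_one eq_oneN n n hn hfinT
  rw [hcardA] at hC hB
  calc Nat.card (ConjClasses (Matrix.SpecialLinearGroup (Fin n) F)) * (Fintype.card F - 1)
      ≤ (∑ g : {g : LabT (degN (F := F)) n n // detL delN g.1 = 1}, indL degN Fˣ g.1.1) * (Fintype.card F - 1) :=
        Nat.mul_le_mul_right _ hA
    _ = ∑ g : {g : LabT (degN (F := F)) n n // detL delN g.1 = 1}, indL degN Fˣ g.1.1 * (Fintype.card F - 1) := Finset.sum_mul _ _ _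
    _ ≤ _ := hB
    _ ≤ _ := hC
    _ ≤ _ := by
      apply Nat.add_le_add (LabT_finite n n).2
      apply Finset.sum_le_sum
      intro f _
      exact Nat.mul_le_mul_left _ (LabT_finite n (n / f)).2

end

end Cfsg.Agent.H43
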