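import Mathlib
import Cfsg.Agent.H43.LabSL

set_option autoImplicit false
set_option linter.unusedSectionVars false
set_option linter.unusedVariables false

/-! Uniqueness of labels. -/

namespace Cfsg.Agent.H43

open Polynomial

section
variable {F : Type*} [Field F]

/-- kernel of `Q` on `F[X]/(c)` -/
theorem finrank_ker_mulLeft (Q r : F[X]) (hQ : Q.Monic) (hr : r.Monic) :
    Module.finrank F (LinearMap.ker (LinearMap.mulLeft F (Ideal.Quotient.mk (Ideal.span {Q * r}) Q))) = Q.natDegree := by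
  have hfd2 : Module.Finite F (F[X] ⧸ Ideal.span {Q}) := hQ.finite_quotient
  have hfd3 : Module.Finite F (F[X] ⧸ Ideal.span {Q * r}) := (hQ.mul hr).finite_quotient
  obtain ⟨ι, hι⟩ : ∃ ι : (F[X] ⧸ Ideal.span {Q}) →ₗ[F] (F[X] ⧸ Ideal.span {Q * r}), ∀ x : F[X], ι (Ideal.Quotient.mk _ x) = Ideal.Quotient.mk _ (r * x) := by
    have h1 : (Ideal.span {Q}).restrictScalars F ≤ LinearMap.ker (((Ideal.Quotient.mkₐ F (Ideal.span {Q * r})).toLinearMap) ∘ₗ (LinearMap.mulLeft F r)) := by
      intro x hx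
      have hx' : x ∈ Ideal.span {Q} := hx
      rw [Ideal.mem_span_singleton] at hx'
      rw [LinearMap.mem_ker]
      change Ideal.Quotient.mk _ (r * x) = 0
      rw [Ideal.Quotient.eq_zero_iff_mem, Ideal.mem_span_singleton, mul_comm Q r]
      exact mul_dvd_mul_left r hx'
    exact ⟨((Ideal.span {Q}).restrictScalars F).liftQ _ h1, fun x => rfl⟩
  have hιi : Function.Injective ι := by
    rw [injective_iff_map_eq_zero]
    intro y hy
    obtain ⟨x, rfl⟩ := Ideal.Quotient.mk_surjective y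
    rw [hι, Ideal.Quotient.eq_zero_iff_mem, Ideal.mem_span_singleton, mul_comm Q r] at hy
    rw [Ideal.Quotient.eq_zero_iff_mem, Ideal.mem_span_singleton]
    exact (mul_dvd_mul_iff_left hr.ne_zero).1 hy
  have hr2 : LinearMap.range ι = LinearMap.ker (LinearMap.mulLeft F (Ideal.Quotient.mk (Ideal.span {Q * r}) Q)) := by
    ext y
    obtain ⟨x, rfl⟩ := Ideal.Quotient.mk_surjective y
    rw [LinearMap.mem_ker, LinearMap.mulLeft_apply, ← map_mul, Ideal.Quotient.eq_zero_iff_mem, Ideal.mem_span_singleton, mul_dvd_mul_iff_left hQ.ne_zero]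
    constructor
    · rintro ⟨z, hz⟩
      obtain ⟨z, rfl⟩ := Ideal.Quotient.mk_surjective z
      rw [hι, Ideal.Quotient.eq, Ideal.mem_span_singleton] at hz
      have h1 : r ∣ r * z - x := (dvd_mul_left r Q).trans hz
      exact (dvd_sub_right (dvd_mul_right r z)).1 h1
    · rintro ⟨z, rfl⟩
      exact ⟨Ideal.Quotient.mk _ z, hι z⟩
  rw [← hr2, LinearMap.finrank_range_of_inj hιi, finrank_quotient_span_eq_natDegree]

theorem finrank_ker_pow (p : F[X]) (hp : p.Monic) (k e : ℕ) :
    Module.finrank F (LinearMap.ker (LinearMap.mulLeft F (Ideal.Quotient.mk (Ideal.span {p ^ e}) (p ^ k)))) = min k e * p.natDegree := by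
  rcases Nat.le_total k e with h | h
  · have h1 : p ^ e = p ^ k * p ^ (e - k) := by rw [← pow_add, Nat.add_sub_cancel' h]
    rw [h1, finrank_ker_mulLeft _ _ (hp.pow k) (hp.pow _), hp.natDegree_pow, Nat.min_eq_left h]
  · have h1 : Ideal.Quotient.mk (Ideal.span {p ^ e}) (p ^ k) = 0 := by
      rw [Ideal.Quotient.eq_zero_iff_mem, Ideal.mem_span_singleton]
      exact pow_dvd_pow _ h
    rw [h1, Nat.min_eq_right h]
    have h2 : LinearMap.ker (LinearMap.mulLeft F (0 : F[X] ⧸ Ideal.span {p ^ e})) = ⊤ := by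
      rw [eq_top_iff]
      intro x _
      rw [LinearMap.mem_ker, LinearMap.mulLeft_apply, zero_mul]
    rw [h2, finrank_top, finrank_quotient_span_eq_natDegree, hp.natDegree_pow]

theorem finrank_ker_coprime (P p : F[X]) (k e : ℕ) (h : IsCoprime P p) :
    Module.finrank F (LinearMap.ker (LinearMap.mulLeft F (Ideal.Quotient.mk (Ideal.span {p ^ e}) (P ^ k)))) = 0 := by
  obtain ⟨a, b, hab⟩ : IsCoprime (P ^ k) (p ^ e) := h.pow
  have h2 : Ideal.Quotient.mk (Ideal.span {p ^ e}) a * Ideal.Quotient.mk (Ideal.span {p ^ e}) (P ^ k) = 1 := by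
    rw [← map_mul, ← map_one (Ideal.Quotient.mk (Ideal.span {p ^ e})), ← hab, map_add, map_mul _ b,
      Ideal.Quotient.eq_zero_iff_mem.2 (Ideal.mem_span_singleton_self (p ^ e)), mul_zero, add_zero]
  have h3 : LinearMap.ker (LinearMap.mulLeft F (Ideal.Quotient.mk (Ideal.span {p ^ e}) (P ^ k))) = ⊥ := by
    rw [eq_bot_iff]
    intro x hx
    rw [LinearMap.mem_ker, LinearMap.mulLeft_apply] at hx
    rw [Submodule.mem_bot]
    calc x = (Ideal.Quotient.mk (Ideal.span {p ^ e}) a * Ideal.Quotient.mk (Ideal.span {p ^ e}) (P ^ k)) * x := by rw [h2, one_mul]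
      _ = 0 := by rw [mul_assoc, hx, mul_zero]
  rw [h3, finrank_bot]

/-- dimension of the kernel of a power of an irreducible polynomial -/
theorem SB.finrank_ker_pow [DecidableEq F[X]] {V : Type*} [AddCommGroup V] [Module F V] [FiniteDimensional F V] {t : ℕ} {g : Module.End F V} {p : Fin t → F[X]} {e : Fin t → ℕ}
    {φ : V ≃ₗ[F] ((i : Fin t) → F[X] ⧸ Ideal.span {p i ^ e i})} (hp : ∀ i, (p i).Monic ∧ Irreducible (p i)) (h : SB g (fun i => p i ^ e i) φ)
    (P : F[X]) (hP : P.Monic ∧ Irreducible P) (k : ℕ) :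
    Module.finrank F (LinearMap.ker (Polynomial.aeval g (P ^ k))) = (∑ i ∈ Finset.univ.filter (fun i => p i = P), min k (e i)) * P.natDegree := by
  classical
  have hfd : ∀ i : Fin t, Module.Finite F (F[X] ⧸ Ideal.span {p i ^ e i}) := fun i => ((hp i).1.pow _).finite_quotient
  let M : ∀ i : Fin t, (F[X] ⧸ Ideal.span {p i ^ e i}) →ₗ[F] (F[X] ⧸ Ideal.span {p i ^ e i}) :=
    fun i => LinearMap.mulLeft F (Ideal.Quotient.mk (Ideal.span {p i ^ e i}) (P ^ k))
  have hM : ∀ v i, φ (Polynomial.aeval g (P ^ k) v) i = M i (φ v i) := fun v i => h.aeval (P ^ k) v i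
  let f : LinearMap.ker (Polynomial.aeval g (P ^ k)) →ₗ[F] ((i : Fin t) → LinearMap.ker (M i)) :=
    LinearMap.pi (fun i => ((LinearMap.proj (R := F) (φ := fun i : Fin t => F[X] ⧸ Ideal.span {p i ^ e i}) i) ∘ₗ (φ : V →ₗ[F] _) ∘ₗ
      (LinearMap.ker (Polynomial.aeval g (P ^ k))).subtype).codRestrict _ (by
        intro v
        rw [LinearMap.mem_ker]
        change M i (φ v.1 i) = 0
        rw [← hM, LinearMap.mem_ker.1 v.2, map_zero, Pi.zero_apply]))
  have hf : ∀ v i, ((f v i : LinearMap.ker (M i)) : F[X] ⧸ Ideal.span {p i ^ e i}) = φ v.1 i := fun v i => rfl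
  have hbij : Function.Bijective f := by
    constructor
    · rw [injective_iff_map_eq_zero]
      intro v hv
      apply Subtype.ext
      apply φ.injective
      funext i
      rw [Submodule.coe_zero, map_zero, Pi.zero_apply, ← hf, hv]
      rfl
    · intro y
      refine ⟨⟨φ.symm (fun i => (y i).1), ?_⟩, ?_⟩
      · rw [LinearMap.mem_ker]
        apply φ.injective
        funext i
        rw [hM, LinearEquiv.apply_symm_apply, map_zero, Pi.zero_apply]
        exact LinearMap.mem_ker.1 (y i).2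
      · funext i
        apply Subtype.ext
        rw [hf]
        simp only
        rw [LinearEquiv.apply_symm_apply]
  have hfr : ∀ i, Module.Free F (LinearMap.ker (M i)) := fun i => Module.Free.of_divisionRing F _
  have hfi : ∀ i, Module.Finite F (LinearMap.ker (M i)) := fun i => inferInstance
  rw [(LinearEquiv.ofBijective f hbij).finrank_eq, Module.finrank_pi_fintype, Finset.sum_mul]
  rw [Finset.sum_filter]
  refine Finset.sum_congr rfl fun i _ => ?_
  by_cases hi : p i = P
  · rw [if_pos hi]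
    have h1 := Cfsg.Agent.H43.finrank_ker_pow (p i) (hp i).1 k (e i)
    rw [← hi]
    change Module.finrank F (LinearMap.ker (LinearMap.mulLeft F (Ideal.Quotient.mk (Ideal.span {p i ^ e i}) (P ^ k)))) = _
    rw [← hi]
    exact h1
  · rw [if_neg hi]
    apply finrank_ker_coprime
    rw [hP.2.coprime_iff_not_dvd]
    intro hd
    apply hi
    have h2 : Associated P (p i) := (hP.2.dvd_irreducible_iff_associated (hp i).2).1 hd
    exact (eq_of_monic_of_associated hP.1 (hp i).1 h2).symm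

theorem prim_unique {V W : Type*} [AddCommGroup V] [Module F V] [FiniteDimensional F V] [AddCommGroup W] [Module F W] [FiniteDimensional F W]
    {g : Module.End F V} {g' : Module.End F W} (κ : V ≃ₗ[F] W) (hκ : ∀ x, κ (g x) = g' (κ x))
    {t t' : ℕ} {p : Fin t → F[X]} {e : Fin t → ℕ} {p' : Fin t' → F[X]} {e' : Fin t' → ℕ}
    {φ : V ≃ₗ[F] ((i : Fin t) → F[X] ⧸ Ideal.span {p i ^ e i})} (hp : ∀ i, (p i).Monic ∧ Irreducible (p i) ∧ 1 ≤ e i) (h : SB g (fun i => p i ^ e i) φ)
    {φ' : W ≃ₗ[F] ((i : Fin t') → F[X] ⧸ Ideal.span {p' i ^ e' i})} (hp' : ∀ i, (p' i).Monic ∧ Irreducible (p' i) ∧ 1 ≤ e' i) (h' : SB g' (fun i => p' i ^ e' i) φ') :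
    ∃ σ : Fin t ≃ Fin t', ∀ i, p' (σ i) = p i ∧ e' (σ i) = e i := by
  classical
  -- kernels
  have hker : ∀ Q : F[X], Module.finrank F (LinearMap.ker (aeval g Q)) = Module.finrank F (LinearMap.ker (aeval g' Q)) := by
    intro Q
    have h1 : (LinearMap.ker (aeval g Q)).map (κ : V →ₗ[F] W) = LinearMap.ker (aeval g' Q) := by
      ext y
      constructor
      · rintro ⟨x, hx, rfl⟩
        rw [LinearMap.mem_ker]
        change aeval g' Q (κ x) = 0
        rw [← aeval_conj κ hκ, LinearMap.mem_ker.1 hx, map_zero]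
      · intro hy
        refine ⟨κ.symm y, ?_, κ.apply_symm_apply y⟩
        rw [SetLike.mem_coe, LinearMap.mem_ker]
        apply κ.injective
        rw [aeval_conj κ hκ, κ.apply_symm_apply, map_zero]
        exact hy
    rw [← h1]
    exact (LinearEquiv.finrank_map_eq κ _).symm
  have hsum : ∀ P : F[X], P.Monic ∧ Irreducible P → ∀ k, ∑ i ∈ Finset.univ.filter (fun i => p i = P), min k (e i) =
      ∑ i ∈ Finset.univ.filter (fun i => p' i = P), min k (e' i) := by
    intro P hP k
    have h1 := h.finrank_ker_pow (fun i => ⟨(hp i).1, (hp i).2.1⟩) P hP k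
    have h2 := h'.finrank_ker_pow (fun i => ⟨(hp' i).1, (hp' i).2.1⟩) P hP k
    rw [hker] at h1
    exact Nat.eq_of_mul_eq_mul_right hP.2.natDegree_pos (h1.symm.trans h2)
  have hcount : ∀ (T : ℕ) (u : Fin T → F[X]) (v : Fin T → ℕ) (P : F[X]) (k : ℕ),
      ∑ i ∈ Finset.univ.filter (fun i => u i = P), min (k + 1) (v i) = ∑ i ∈ Finset.univ.filter (fun i => u i = P), min k (v i) +
        (Finset.univ.filter (fun i => u i = P ∧ k + 1 ≤ v i)).card := by
    intro T u v P k
    rw [Finset.card_eq_sum_ones, ← Finset.filter_filter, Finset.sum_filter (fun i => k + 1 ≤ v i), ← Finset.sum_add_distrib]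
    refine Finset.sum_congr rfl fun i _ => ?_
    split_ifs with h
    · rw [Nat.min_eq_left h, Nat.min_eq_left (by omega)]
    · rw [Nat.min_eq_right (by omega), Nat.min_eq_right (by omega), add_zero]
  have hge : ∀ P : F[X], P.Monic ∧ Irreducible P → ∀ k, (Finset.univ.filter (fun i => p i = P ∧ k + 1 ≤ e i)).card =
      (Finset.univ.filter (fun i => p' i = P ∧ k + 1 ≤ e' i)).card := by
    intro P hP k
    have h1 := hcount t p e P k
    have h2 := hcount t' p' e' P k
    rw [hsum P hP (k + 1), hsum P hP k] at h1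
    omega
  have hsplit : ∀ (T : ℕ) (u : Fin T → F[X]) (v : Fin T → ℕ) (P : F[X]) (k : ℕ),
      (Finset.univ.filter (fun i => u i = P ∧ k ≤ v i)).card = (Finset.univ.filter (fun i => u i = P ∧ v i = k)).card +
        (Finset.univ.filter (fun i => u i = P ∧ k + 1 ≤ v i)).card := by
    intro T u v P k
    rw [← Finset.card_union_of_disjoint]
    · congr 1
      ext i
      simp only [Finset.mem_filter, Finset.mem_univ, true_and, Finset.mem_union]
      constructor
      · rintro ⟨h1, h2⟩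
        rcases Nat.eq_or_lt_of_le h2 with h3 | h3
        · exact Or.inl ⟨h1, h3.symm⟩
        · exact Or.inr ⟨h1, h3⟩
      · rintro (⟨h1, h2⟩ | ⟨h1, h2⟩)
        · exact ⟨h1, h2.ge⟩
        · exact ⟨h1, by omega⟩
    · rw [Finset.disjoint_filter]
      rintro i _ ⟨_, h1⟩ ⟨_, h2⟩
      omega
  obtain ⟨σ, hσ⟩ := exists_equiv_of_fiber (fun i => (p i, e i)) (fun i => (p' i, e' i)) (by
    rintro ⟨P, k⟩
    by_cases hk : (P.Monic ∧ Irreducible P) ∧ 1 ≤ k
    · obtain ⟨j, rfl⟩ : ∃ j, k = j + 1 := ⟨k - 1, by omega⟩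
      have h1 := hsplit t p e P (j + 1)
      have h2 := hsplit t' p' e' P (j + 1)
      rw [hge P hk.1 j, hge P hk.1 (j + 1)] at h1
      have h3 : (Finset.univ.filter (fun i => p i = P ∧ e i = j + 1)).card = (Finset.univ.filter (fun i => p' i = P ∧ e' i = j + 1)).card := by omega
      simpa only [Prod.mk.injEq] using h3
    · have h1 : (Finset.univ.filter (fun i => (p i, e i) = (P, k))) = ∅ := by
        rw [Finset.filter_eq_empty_iff]
        intro i _ hi
        apply hk
        rw [Prod.mk.injEq] at hi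
        rw [← hi.2, ← hi.1]
        exact ⟨⟨(hp i).1, (hp i).2.1⟩, (hp i).2.2⟩
      have h2 : (Finset.univ.filter (fun i => (p' i, e' i) = (P, k))) = ∅ := by
        rw [Finset.filter_eq_empty_iff]
        intro i _ hi
        apply hk
        rw [Prod.mk.injEq] at hi
        rw [← hi.2, ← hi.1]
        exact ⟨⟨(hp' i).1, (hp' i).2.1⟩, (hp' i).2.2⟩
      rw [h1, h2]; rfl)
  refine ⟨σ, fun i => ?_⟩
  have := hσ i
  rw [Prod.mk.injEq] at this
  exact this

theorem labP_of_equiv {t t' : ℕ} {p : Fin t → F[X]} {e : Fin t → ℕ} {p' : Fin t' → F[X]} {e' : Fin t' → ℕ} (σ : Fin t ≃ Fin t')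
    (h : ∀ i, p' (σ i) = p i ∧ e' (σ i) = e i) (K : ℕ) : labP p e K = labP p' e' K := by
  classical
  funext i
  unfold labP
  rw [Finset.prod_filter, Finset.prod_filter]
  apply Fintype.prod_equiv σ
  intro j
  rw [(h j).1, (h j).2]

theorem HasLab.unique [Fintype F] {n : ℕ} {A B : GL (Fin n) F} (hAB : IsConj A B) {g g' : LabT (degN (F := F)) n n} (h : HasLab A g) (h' : HasLab B g') : g = g' := by
  obtain ⟨t, p, e, φ, hp, hSB, hle, hg⟩ := h
  obtain ⟨t', p', e', φ', hp', hSB', hle', hg'⟩ := h'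
  obtain ⟨κ, hκ⟩ := conj_toLin' hAB
  obtain ⟨σ, hσ⟩ := prim_unique κ hκ hp hSB hp' hSB'
  apply Subtype.ext
  funext i
  apply Subtype.ext
  rw [hg, hg', labP_of_equiv σ hσ n]

end

end Cfsg.Agent.H43
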