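import Mathlib
import Cfsg.Agent.H43.LabUniq
import Cfsg.Agent.H43.Unitary2

set_option autoImplicit false
set_option linter.unusedSectionVars false
set_option linter.unusedVariables false

/-! Reciprocal polynomials. -/

namespace Cfsg.Agent.H43

open Polynomial

section
variable {K : Type*} [Field K] (σ : K →+* K)

/-- the `σ`-reciprocal polynomial -/
noncomputable def dag (P : K[X]) : K[X] := C (σ (P.coeff 0))⁻¹ * (P.map σ).reverse

theorem dag_mul (P Q : K[X]) : dag σ (P * Q) = dag σ P * dag σ Q := by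
  unfold dag
  rw [Polynomial.map_mul, reverse_mul_of_domain, mul_coeff_zero, map_mul, mul_inv, C_mul]
  ring

theorem dag_one : dag σ (1 : K[X]) = 1 := by
  unfold dag
  rw [Polynomial.map_one, coeff_one_zero, map_one, inv_one, C_1, one_mul]
  have := reverse_C (1 : K)
  rwa [C_1] at this

theorem dag_pow (P : K[X]) (k : ℕ) : dag σ (P ^ k) = dag σ P ^ k := by
  induction k with
  | zero => rw [pow_zero, pow_zero, dag_one]
  | succ k ih => rw [pow_succ, pow_succ, dag_mul, ih]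

theorem dag_prod {ι : Type*} (s : Finset ι) (f : ι → K[X]) : dag σ (∏ i ∈ s, f i) = ∏ i ∈ s, dag σ (f i) := by
  classical
  induction s using Finset.induction_on with
  | empty => rw [Finset.prod_empty, Finset.prod_empty, dag_one]
  | insert a s ha ih => rw [Finset.prod_insert ha, Finset.prod_insert ha, dag_mul, ih]

theorem dag_ne_zero' {P : K[X]} (h : P.coeff 0 ≠ 0) : (σ (P.coeff 0))⁻¹ ≠ 0 :=
  inv_ne_zero ((map_ne_zero_iff σ σ.injective).2 h)

theorem dag_natDegree {P : K[X]} (h : P.coeff 0 ≠ 0) : (dag σ P).natDegree = P.natDegree := by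
  unfold dag
  rw [natDegree_C_mul (dag_ne_zero' σ h), reverse_natDegree, natDegree_map]
  have h1 : (P.map σ).natTrailingDegree = 0 := by
    rw [natTrailingDegree_eq_zero]
    right
    rw [coeff_map]
    exact (map_ne_zero_iff σ σ.injective).2 h
  rw [h1, Nat.sub_zero]

theorem dag_coeff {P : K[X]} (i : ℕ) (hi : i ≤ P.natDegree) :
    (dag σ P).coeff i = (σ (P.coeff 0))⁻¹ * σ (P.coeff (P.natDegree - i)) := by
  unfold dag
  rw [coeff_C_mul, coeff_reverse, natDegree_map, revAt_le hi, coeff_map]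

theorem dag_coeff_zero {P : K[X]} (hP : P.Monic) : (dag σ P).coeff 0 = (σ (P.coeff 0))⁻¹ := by
  rw [dag_coeff σ 0 (Nat.zero_le _), Nat.sub_zero, hP.coeff_natDegree, map_one, mul_one]

theorem dag_coeff_zero_ne {P : K[X]} (hP : P.Monic) (h : P.coeff 0 ≠ 0) : (dag σ P).coeff 0 ≠ 0 := by
  rw [dag_coeff_zero σ hP]; exact dag_ne_zero' σ h

theorem dag_monic {P : K[X]} (h : P.coeff 0 ≠ 0) : (dag σ P).Monic := by
  unfold Monic leadingCoeff
  rw [dag_natDegree σ h, dag_coeff σ _ le_rfl, Nat.sub_self]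
  exact inv_mul_cancel₀ ((map_ne_zero_iff σ σ.injective).2 h)

theorem dag_dag (hσ : ∀ x, σ (σ x) = x) {P : K[X]} (hP : P.Monic) (h : P.coeff 0 ≠ 0) : dag σ (dag σ P) = P := by
  have h1 := dag_coeff_zero_ne σ hP h
  apply monic_eq_of_coeff (dag_monic σ h1) hP (by rw [dag_natDegree σ h1, dag_natDegree σ h])
  intro i hi
  rw [dag_natDegree σ h1, dag_natDegree σ h] at hi
  rw [dag_coeff σ i (by rw [dag_natDegree σ h]; omega), dag_natDegree σ h, dag_coeff_zero σ hP, dag_coeff σ (P.natDegree - i) (by omega)]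
  rw [map_inv₀, hσ, inv_inv, map_mul, map_inv₀, hσ, hσ]
  have h2 : P.natDegree - (P.natDegree - i) = i := by omega
  rw [h2, ← mul_assoc, mul_inv_cancel₀ h, one_mul]

theorem dag_isUnit {P : K[X]} (h : P.coeff 0 ≠ 0) : IsUnit (dag σ P) ↔ IsUnit P := by
  have h1 : P ≠ 0 := by rintro rfl; exact h (coeff_zero 0)
  have h2 : dag σ P ≠ 0 := (dag_monic σ h).ne_zero
  rw [isUnit_iff_degree_eq_zero, isUnit_iff_degree_eq_zero, degree_eq_natDegree h1, degree_eq_natDegree h2, dag_natDegree σ h]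

theorem dag_smul {P : K[X]} (c : K) (hc : c ≠ 0) : dag σ (C c * P) = dag σ P := by
  rw [dag_mul]
  have : dag σ (C c) = 1 := by
    unfold dag
    rw [map_C, reverse_C, coeff_C_zero, ← C_mul, inv_mul_cancel₀ ((map_ne_zero_iff σ σ.injective).2 hc), C_1]
  rw [this, one_mul]

theorem dag_dag' (hσ : ∀ x, σ (σ x) = x) {P : K[X]} (h : P.coeff 0 ≠ 0) : dag σ (dag σ P) = C (P.leadingCoeff)⁻¹ * P := by
  have h1 : P ≠ 0 := by rintro rfl; exact h (coeff_zero 0)
  have h2 : P.leadingCoeff⁻¹ ≠ 0 := inv_ne_zero (leadingCoeff_ne_zero.2 h1)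
  have h3 : (C (P.leadingCoeff)⁻¹ * P).Monic := by
    rw [mul_comm]; exact monic_mul_leadingCoeff_inv h1
  have h4 : (C (P.leadingCoeff)⁻¹ * P).coeff 0 ≠ 0 := by
    rw [coeff_C_mul]; exact mul_ne_zero h2 h
  rw [← dag_dag σ hσ h3 h4, dag_smul σ _ h2]

theorem dag_irreducible (hσ : ∀ x, σ (σ x) = x) {P : K[X]} (hP : P.Monic) (h : P.coeff 0 ≠ 0) (hi : Irreducible P) : Irreducible (dag σ P) := by
  constructor
  · rw [dag_isUnit σ h]; exact hi.not_isUnit
  · intro a b hab
    have hab0 : a.coeff 0 * b.coeff 0 ≠ 0 := by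
      rw [← mul_coeff_zero, ← hab]; exact dag_coeff_zero_ne σ hP h
    have ha : a.coeff 0 ≠ 0 := left_ne_zero_of_mul hab0
    have hb : b.coeff 0 ≠ 0 := right_ne_zero_of_mul hab0
    have h1 : P = dag σ a * dag σ b := by rw [← dag_mul, ← hab, dag_dag σ hσ hP h]
    rcases hi.isUnit_or_isUnit h1 with h2 | h2
    · left; exact (dag_isUnit σ ha).1 h2
    · right; exact (dag_isUnit σ hb).1 h2

end

end Cfsg.Agent.H43
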