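import Mathlib
import Cfsg.Agent.H43.Dag

set_option autoImplicit false
set_option linter.unusedSectionVars false
set_option linter.unusedVariables false

/-! Ranks and reciprocal polynomials. -/

namespace Cfsg.Agent.H43

open Polynomial

section
variable {K ι : Type*} [Field K] [Finite K] [Fintype ι] [DecidableEq ι] (σ : K →+* K)

theorem aeval_toLin' (A : Matrix ι ι K) (Q : K[X]) :
    aeval (Matrix.toLin' A : Module.End K (ι → K)) Q = Matrix.toLin' (aeval A Q) := by
  have h := Polynomial.aeval_algHom_apply (Matrix.toLinAlgEquiv' (R := K) (n := ι)).toAlgHom A Q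
  exact h

theorem stm_sum {α : Type*} (s : Finset α) (f : α → Matrix ι ι K) : stm σ (∑ i ∈ s, f i) = ∑ i ∈ s, stm σ (f i) := by
  classical
  induction s using Finset.induction_on with
  | empty =>
    rw [Finset.sum_empty, Finset.sum_empty]
    ext i j
    simp [stm]
  | insert a s ha ih => rw [Finset.sum_insert ha, Finset.sum_insert ha, stm_add, ih]

theorem stm_pow (A : Matrix ι ι K) (k : ℕ) : stm σ (A ^ k) = stm σ A ^ k := by
  induction k with
  | zero => rw [pow_zero, pow_zero, stm_one]
  | succ k ih => rw [pow_succ, stm_mul, ih, pow_succ']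

theorem stm_smul (c : K) (A : Matrix ι ι K) : stm σ (c • A) = σ c • stm σ A := by
  ext i j
  simp [stm]

theorem stm_aeval (A : Matrix ι ι K) (Q : K[X]) : stm σ (aeval A Q) = aeval (stm σ A) (Q.map σ) := by
  rw [aeval_eq_sum_range, aeval_eq_sum_range, stm_sum, natDegree_map]
  refine Finset.sum_congr rfl fun i _ => ?_
  rw [stm_smul, stm_pow, coeff_map]

theorem aeval_reverse {R : Type*} [Ring R] [Algebra K R] (U V : R) (h : V * U = 1) (P : K[X]) :
    aeval V P.reverse = V ^ P.natDegree * aeval U P := by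
  have hdeg : P.reverse.natDegree < P.natDegree + 1 := Nat.lt_succ_of_le (reverse_natDegree_le P)
  rw [aeval_eq_sum_range' hdeg, aeval_eq_sum_range, Finset.mul_sum, ← Finset.sum_range_reflect]
  refine Finset.sum_congr rfl fun i hi => ?_
  rw [Finset.mem_range] at hi
  have hi' : i ≤ P.natDegree := by omega
  have e1 : P.natDegree + 1 - 1 - i = P.natDegree - i := by omega
  rw [e1, coeff_reverse, revAt_le (by omega), Nat.sub_sub_self hi', mul_smul_comm]
  congr 1
  obtain ⟨m, hm⟩ : ∃ m, P.natDegree = m + i := ⟨P.natDegree - i, by omega⟩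
  rw [hm, Nat.add_sub_cancel, pow_add, mul_assoc]
  have h2 : ∀ j : ℕ, V ^ j * U ^ j = 1 := by
    intro j
    induction j with
    | zero => simp
    | succ j ih => rw [pow_succ, pow_succ', mul_assoc, ← mul_assoc V U, h, one_mul, ih]
  rw [h2, mul_one]

theorem finrank_ker_transpose (M : Matrix ι ι K) :
    Module.finrank K (LinearMap.ker (Matrix.toLin' M.transpose)) = Module.finrank K (LinearMap.ker (Matrix.toLin' M)) := by
  have h1 := LinearMap.finrank_range_add_finrank_ker (Matrix.toLin' M.transpose)
  have h2 := LinearMap.finrank_range_add_finrank_ker (Matrix.toLin' M)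
  have h3 := Matrix.rank_transpose M
  unfold Matrix.rank at h3
  change Module.finrank K (LinearMap.range (Matrix.toLin' M.transpose)) = Module.finrank K (LinearMap.range (Matrix.toLin' M)) at h3
  omega

theorem finrank_ker_map (hσ : ∀ x, σ (σ x) = x) (M : Matrix ι ι K) :
    Module.finrank K (LinearMap.ker (Matrix.toLin' (M.map σ))) = Module.finrank K (LinearMap.ker (Matrix.toLin' M)) := by
  have hmul : ∀ (M : Matrix ι ι K) (v : ι → K), (M.map σ).mulVec (fun i => σ (v i)) = fun i => σ (M.mulVec v i) := by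
    intro M v
    funext i
    unfold Matrix.mulVec dotProduct
    rw [map_sum]
    refine Finset.sum_congr rfl fun j _ => ?_
    rw [map_mul]
    rfl
  have h1 : Nat.card (LinearMap.ker (Matrix.toLin' (M.map σ))) = Nat.card (LinearMap.ker (Matrix.toLin' M)) := by
    apply Nat.card_congr
    refine ⟨fun v => ⟨fun i => σ (v.1 i), ?_⟩, fun v => ⟨fun i => σ (v.1 i), ?_⟩, ?_, ?_⟩
    · have h := LinearMap.mem_ker.1 v.2
      rw [Matrix.toLin'_apply] at h
      rw [LinearMap.mem_ker, Matrix.toLin'_apply]
      have h2 := hmul (M.map σ) v.1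
      have h3 : (M.map σ).map σ = M := by ext i j; simp [hσ]
      rw [h3, h] at h2
      rw [h2]
      funext i
      rw [Pi.zero_apply, map_zero]
    · have h := LinearMap.mem_ker.1 v.2
      rw [Matrix.toLin'_apply] at h
      rw [LinearMap.mem_ker, Matrix.toLin'_apply, hmul, h]
      funext i
      rw [Pi.zero_apply, map_zero]
    · intro v; apply Subtype.ext; funext i; exact hσ _
    · intro v; apply Subtype.ext; funext i; exact hσ _
  rw [Module.natCard_eq_pow_finrank (K := K) (V := LinearMap.ker (Matrix.toLin' (M.map σ))),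
    Module.natCard_eq_pow_finrank (K := K) (V := LinearMap.ker (Matrix.toLin' M))] at h1
  exact Nat.pow_right_injective Finite.one_lt_card h1

theorem finrank_ker_stm (hσ : ∀ x, σ (σ x) = x) (M : Matrix ι ι K) :
    Module.finrank K (LinearMap.ker (Matrix.toLin' (stm σ M))) = Module.finrank K (LinearMap.ker (Matrix.toLin' M)) := by
  unfold stm
  rw [finrank_ker_transpose, finrank_ker_map σ hσ]

theorem finrank_ker_mul_left {A B : Matrix ι ι K} (hA : IsUnit A) :
    Module.finrank K (LinearMap.ker (Matrix.toLin' (A * B))) = Module.finrank K (LinearMap.ker (Matrix.toLin' B)) := by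
  obtain ⟨A, rfl⟩ := hA
  have h1 : LinearMap.ker (Matrix.toLin' ((A : Matrix ι ι K) * B)) = LinearMap.ker (Matrix.toLin' B) := by
    ext v
    rw [LinearMap.mem_ker, LinearMap.mem_ker, Matrix.toLin'_apply, Matrix.toLin'_apply]
    constructor
    · intro h
      have h2 := congrArg (fun z => ((A⁻¹ : (Matrix ι ι K)ˣ) : Matrix ι ι K).mulVec z) h
      simp only [Matrix.mulVec_mulVec, Matrix.mulVec_zero] at h2
      rw [← mul_assoc, Units.inv_mul, one_mul] at h2
      exact h2
    · intro h
      rw [← Matrix.mulVec_mulVec, h, Matrix.mulVec_zero]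
  rw [h1]

/-- rank of a polynomial in the inverse conjugate transpose -/
theorem finrank_ker_dag (hσ : ∀ x, σ (σ x) = x) (A B : Matrix ι ι K) (hAB : stm σ A * B = 1) (P : K[X]) (hP : P.coeff 0 ≠ 0) :
    Module.finrank K (LinearMap.ker (aeval (Matrix.toLin' B : Module.End K (ι → K)) P)) =
      Module.finrank K (LinearMap.ker (aeval (Matrix.toLin' A : Module.End K (ι → K)) (dag σ P))) := by
  rw [aeval_toLin', aeval_toLin']
  have h1 : stm σ (aeval A (dag σ P)) = ((σ (P.coeff 0))⁻¹ |> σ) • (stm σ A ^ P.natDegree * aeval B P) := by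
    rw [stm_aeval, dag, Polynomial.map_mul, map_C, map_mul, aeval_C, ← Algebra.smul_def]
    congr 1
    have h2 : ((P.map σ).reverse).map σ = P.reverse := by
      ext i
      rw [coeff_map, coeff_reverse, coeff_reverse, natDegree_map, coeff_map, hσ]
    rw [h2]
    exact aeval_reverse B (stm σ A) hAB P
  rw [← finrank_ker_stm σ hσ (aeval A (dag σ P)), h1]
  have hc : σ (σ (P.coeff 0))⁻¹ ≠ 0 := by
    rw [map_inv₀, hσ]; exact inv_ne_zero hP
  have h3 : IsUnit (σ (σ (P.coeff 0))⁻¹ • stm σ A ^ P.natDegree) := by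
    have h4 : IsUnit (stm σ A) := IsUnit.of_mul_eq_one _ hAB
    exact (h4.pow _).smul (Units.mk0 _ hc)
  change _ = Module.finrank K (LinearMap.ker (Matrix.toLin' (σ (σ (P.coeff 0))⁻¹ • (stm σ A ^ P.natDegree * aeval B P))))
  rw [← smul_mul_assoc, finrank_ker_mul_left h3]

end

end Cfsg.Agent.H43
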