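import Mathlib
import Cfsg.Agent.H43.DagRank

set_option autoImplicit false
set_option linter.unusedSectionVars false
set_option linter.unusedVariables false

/-! Matching of primary decompositions by dimensions of kernels. -/

namespace Cfsg.Agent.H43

open Polynomial

section
variable {F : Type*} [Field F]

/-- matching by kernel dimensions -/
theorem prim_match {V W : Type*} [AddCommGroup V] [Module F V] [FiniteDimensional F V] [AddCommGroup W] [Module F W] [FiniteDimensional F W]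
    {g : Module.End F V} {g' : Module.End F W} (Cl : F[X] → Prop) (hCl : ∀ P, Cl P → P.Monic ∧ Irreducible P)
    (D : F[X] → F[X]) (hD : ∀ P, Cl P → Cl (D P) ∧ D (D P) = P ∧ (D P).natDegree = P.natDegree)
    (hker : ∀ P, Cl P → ∀ k, Module.finrank F (LinearMap.ker (aeval g (D P ^ k))) = Module.finrank F (LinearMap.ker (aeval g' (P ^ k))))
    {t t' : ℕ} {p : Fin t → F[X]} {e : Fin t → ℕ} {p' : Fin t' → F[X]} {e' : Fin t' → ℕ}
    {φ : V ≃ₗ[F] ((i : Fin t) → F[X] ⧸ Ideal.span {p i ^ e i})} (hp : ∀ i, Cl (p i) ∧ 1 ≤ e i) (h : SB g (fun i => p i ^ e i) φ)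
    {φ' : W ≃ₗ[F] ((i : Fin t') → F[X] ⧸ Ideal.span {p' i ^ e' i})} (hp' : ∀ i, Cl (p' i) ∧ 1 ≤ e' i) (h' : SB g' (fun i => p' i ^ e' i) φ') :
    ∃ σ : Fin t ≃ Fin t', ∀ i, p' (σ i) = D (p i) ∧ e' (σ i) = e i := by
  classical
  have hsum : ∀ P : F[X], Cl P → ∀ k, ∑ i ∈ Finset.univ.filter (fun i => p i = D P), min k (e i) =
      ∑ i ∈ Finset.univ.filter (fun i => p' i = P), min k (e' i) := by
    intro P hP k
    have h1 := h.finrank_ker_pow (fun i => hCl _ (hp i).1) (D P) (hCl _ (hD P hP).1) k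
    have h2 := h'.finrank_ker_pow (fun i => hCl _ (hp' i).1) P (hCl _ hP) k
    rw [hker P hP, (hD P hP).2.2] at h1
    exact Nat.eq_of_mul_eq_mul_right (hCl _ hP).2.natDegree_pos (h1.symm.trans h2)
  have hcount : ∀ (T : ℕ) (u : Fin T → F[X]) (v : Fin T → ℕ) (P : F[X]) (k : ℕ),
      ∑ i ∈ Finset.univ.filter (fun i => u i = P), min (k + 1) (v i) = ∑ i ∈ Finset.univ.filter (fun i => u i = P), min k (v i) +
        (Finset.univ.filter (fun i => u i = P ∧ k + 1 ≤ v i)).card := by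
    intro T u v P k
    rw [Finset.card_eq_sum_ones, ← Finset.filter_filter, Finset.sum_filter (fun i => k + 1 ≤ v i), ← Finset.sum_add_distrib]
    refine Finset.sum_congr rfl fun i _ => ?_
    split_ifs with h
    · rw [Nat.min_eq_left h, Nat.min_eq_left (by omega)]
    · rw [Nat.min_eq_right (by omega), Nat.min_eq_right (by omega), add_zero]
  have hge : ∀ P : F[X], Cl P → ∀ k, (Finset.univ.filter (fun i => p i = D P ∧ k + 1 ≤ e i)).card =
      (Finset.univ.filter (fun i => p' i = P ∧ k + 1 ≤ e' i)).card := by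
    intro P hP k
    have h1 := hcount t p e (D P) k
    have h2 := hcount t' p' e' P k
    rw [hsum P hP (k + 1), hsum P hP k] at h1
    omega
  have hsplit : ∀ (T : ℕ) (u : Fin T → F[X]) (v : Fin T → ℕ) (P : F[X]) (k : ℕ),
      (Finset.univ.filter (fun i => u i = P ∧ k ≤ v i)).card = (Finset.univ.filter (fun i => u i = P ∧ v i = k)).card +
        (Finset.univ.filter (fun i => u i = P ∧ k + 1 ≤ v i)).card := by
    intro T u v P k
    rw [← Finset.card_union_of_disjoint]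
    · congr 1
      ext i
      simp only [Finset.mem_filter, Finset.mem_univ, true_and, Finset.mem_union]
      constructor
      · rintro ⟨h1, h2⟩
        rcases Nat.eq_or_lt_of_le h2 with h3 | h3
        · exact Or.inl ⟨h1, h3.symm⟩
        · exact Or.inr ⟨h1, h3⟩
      · rintro (⟨h1, h2⟩ | ⟨h1, h2⟩)
        · exact ⟨h1, h2.ge⟩
        · exact ⟨h1, by omega⟩
    · rw [Finset.disjoint_filter]
      rintro i _ ⟨_, h1⟩ ⟨_, h2⟩
      omega
  obtain ⟨σ, hσ⟩ := exists_equiv_of_fiber (fun i => (D (p i), e i)) (fun i => (p' i, e' i)) (by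
    rintro ⟨P, k⟩
    by_cases hk : Cl P ∧ 1 ≤ k
    · obtain ⟨j, rfl⟩ : ∃ j, k = j + 1 := ⟨k - 1, by omega⟩
      have h1 := hsplit t p e (D P) (j + 1)
      have h2 := hsplit t' p' e' P (j + 1)
      rw [hge P hk.1 j, hge P hk.1 (j + 1)] at h1
      have h3 : (Finset.univ.filter (fun i => p i = D P ∧ e i = j + 1)).card = (Finset.univ.filter (fun i => p' i = P ∧ e' i = j + 1)).card := by omega
      have h4 : ∀ i, (p i = D P ∧ e i = j + 1) ↔ (D (p i) = P ∧ e i = j + 1) := by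
        intro i
        constructor
        · rintro ⟨h5, h6⟩
          exact ⟨by rw [h5, (hD P hk.1).2.1], h6⟩
        · rintro ⟨h5, h6⟩
          exact ⟨by rw [← h5, (hD _ (hp i).1).2.1], h6⟩
      simp only [h4] at h3
      simpa only [Prod.mk.injEq] using h3
    · have h1 : (Finset.univ.filter (fun i => (D (p i), e i) = (P, k))) = ∅ := by
        rw [Finset.filter_eq_empty_iff]
        intro i _ hi
        apply hk
        rw [Prod.mk.injEq] at hi
        rw [← hi.2, ← hi.1]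
        exact ⟨(hD _ (hp i).1).1, (hp i).2⟩
      have h2 : (Finset.univ.filter (fun i => (p' i, e' i) = (P, k))) = ∅ := by
        rw [Finset.filter_eq_empty_iff]
        intro i _ hi
        apply hk
        rw [Prod.mk.injEq] at hi
        rw [← hi.2, ← hi.1]
        exact ⟨(hp' i).1, (hp' i).2⟩
      rw [h1, h2]; rfl)
  refine ⟨σ, fun i => ?_⟩
  have := hσ i
  rw [Prod.mk.injEq] at this
  exact this

/-- the class of monic irreducible polynomials different from `X` -/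
def ClN (P : F[X]) : Prop := P.Monic ∧ Irreducible P ∧ P.coeff 0 ≠ 0

theorem ClN_dag (σ : F →+* F) (hσ : ∀ x, σ (σ x) = x) (P : F[X]) (h : ClN P) :
    ClN (dag σ P) ∧ dag σ (dag σ P) = P ∧ (dag σ P).natDegree = P.natDegree :=
  ⟨⟨dag_monic σ h.2.2, dag_irreducible σ hσ h.1 h.2.2 h.2.1, dag_coeff_zero_ne σ h.1 h.2.2⟩, dag_dag σ hσ h.1 h.2.2, dag_natDegree σ h.2.2⟩

theorem ClN_pow_coeff {P : F[X]} (h : ClN P) (k : ℕ) : (P ^ k).coeff 0 ≠ 0 := by
  rw [coeff_zero_eq_eval_zero, eval_pow, ← coeff_zero_eq_eval_zero]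
  exact pow_ne_zero _ h.2.2

variable [Finite F] {ι : Type*} [Fintype ι] [DecidableEq ι]

theorem toLin'_injective_of_gl (A : GL ι F) : Function.Injective (Matrix.toLin' (A : Matrix ι ι F)) := by
  intro x y hxy
  rw [Matrix.toLin'_apply, Matrix.toLin'_apply] at hxy
  have h1 := congrArg (fun z => ((A⁻¹ : GL ι F) : Matrix ι ι F).mulVec z) hxy
  simp only [Matrix.mulVec_mulVec, Units.inv_mul, Matrix.one_mulVec] at h1
  exact h1

/-- primary decomposition of an invertible matrix -/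
theorem exists_prim_gl (A : GL ι F) :
    ∃ (t : ℕ) (p : Fin t → F[X]) (e : Fin t → ℕ) (φ : (ι → F) ≃ₗ[F] ((i : Fin t) → F[X] ⧸ Ideal.span {p i ^ e i})),
      (∀ i, ClN (p i) ∧ 1 ≤ e i) ∧ SB (Matrix.toLin' (A : Matrix ι ι F)) (fun i => p i ^ e i) φ := by
  obtain ⟨t, p, e, φ, hp, hSB⟩ := exists_prim (Matrix.toLin' (A : Matrix ι ι F))
  have : Fintype F := Fintype.ofFinite F
  have h0 := SB.coeff_ne (toLin'_injective_of_gl A) hp hSB
  exact ⟨t, p, e, φ, fun i => ⟨⟨(hp i).1, (hp i).2.1, h0 i⟩, (hp i).2.2⟩, hSB⟩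

/-- invertible matrices with the same kernel dimensions are conjugate -/
theorem conj_of_finrank {ι' : Type*} [Fintype ι'] [DecidableEq ι'] (A : GL ι F) (B : GL ι' F)
    (h : ∀ P : F[X], ClN P → ∀ k : ℕ, Module.finrank F (LinearMap.ker (aeval (Matrix.toLin' (A : Matrix ι ι F) : Module.End F (ι → F)) (P ^ k))) =
      Module.finrank F (LinearMap.ker (aeval (Matrix.toLin' (B : Matrix ι' ι' F) : Module.End F (ι' → F)) (P ^ k)))) :
    ∃ κ : (ι → F) ≃ₗ[F] (ι' → F), ∀ x, κ (Matrix.toLin' (A : Matrix ι ι F) x) = Matrix.toLin' (B : Matrix ι' ι' F) (κ x) := by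
  obtain ⟨t, p, e, φ, hp, hSB⟩ := exists_prim_gl A
  obtain ⟨t', p', e', φ', hp', hSB'⟩ := exists_prim_gl B
  obtain ⟨σ, hσ⟩ := prim_match (F := F) ClN (fun P h => ⟨h.1, h.2.1⟩) id (fun P h => ⟨h, rfl, rfl⟩) h hp hSB hp' hSB'
  exact hSB.exists_conj hSB' σ (fun i => by
    change p' (σ i) ^ e' (σ i) = p i ^ e i
    rw [(hσ i).1, (hσ i).2]; rfl)

theorem gl_of_conj {A B : GL ι F} (κ : (ι → F) ≃ₗ[F] (ι → F)) (hκ : ∀ x, κ (Matrix.toLin' (A : Matrix ι ι F) x) = Matrix.toLin' (B : Matrix ι ι F) (κ x)) :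
    ∃ g : GL ι F, g * A = B * g := by
  have h1 : LinearMap.toMatrix' (κ : (ι → F) →ₗ[F] (ι → F)) * LinearMap.toMatrix' (κ.symm : (ι → F) →ₗ[F] (ι → F)) = 1 := by
    rw [← LinearMap.toMatrix'_comp]
    have : (κ : (ι → F) →ₗ[F] (ι → F)) ∘ₗ (κ.symm : (ι → F) →ₗ[F] (ι → F)) = LinearMap.id := by
      ext x; simp
    rw [this, LinearMap.toMatrix'_id]
  have h2 : LinearMap.toMatrix' (κ.symm : (ι → F) →ₗ[F] (ι → F)) * LinearMap.toMatrix' (κ : (ι → F) →ₗ[F] (ι → F)) = 1 := mul_eq_one_comm.1 h1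
  refine ⟨⟨_, _, h1, h2⟩, ?_⟩
  apply Units.ext
  change LinearMap.toMatrix' (κ : (ι → F) →ₗ[F] (ι → F)) * (A : Matrix ι ι F) = (B : Matrix ι ι F) * LinearMap.toMatrix' (κ : (ι → F) →ₗ[F] (ι → F))
  apply (Matrix.toLin' (R := F) (m := ι) (n := ι)).injective
  rw [Matrix.toLin'_mul, Matrix.toLin'_mul, Matrix.toLin'_toMatrix']
  apply LinearMap.ext
  intro x
  exact hκ x

end

end Cfsg.Agent.H43
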