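import Mathlib
import Cfsg.Agent.H43.PrimMatch

set_option autoImplicit false
set_option linter.unusedSectionVars false
set_option linter.unusedVariables false

/-! Block sums of matrices. -/

namespace Cfsg.Agent.H43

open Polynomial

section
variable {K ι ι₁ ι₂ : Type*} [Field K] [Finite K] [Fintype ι] [DecidableEq ι] [Fintype ι₁] [DecidableEq ι₁] [Fintype ι₂] [DecidableEq ι₂]
  (e : ι₁ ⊕ ι₂ ≃ ι)

/-- block sum -/
def bs (M : Matrix ι₁ ι₁ K) (N : Matrix ι₂ ι₂ K) : Matrix ι ι K := (Matrix.fromBlocks M 0 0 N).submatrix e.symm e.symm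

theorem bs_mul (M M' : Matrix ι₁ ι₁ K) (N N' : Matrix ι₂ ι₂ K) : bs e M N * bs e M' N' = bs e (M * M') (N * N') := by
  unfold bs
  rw [Matrix.submatrix_mul_equiv, Matrix.fromBlocks_multiply]
  simp

theorem bs_add (M M' : Matrix ι₁ ι₁ K) (N N' : Matrix ι₂ ι₂ K) : bs e M N + bs e M' N' = bs e (M + M') (N + N') := by
  have h : Matrix.fromBlocks (M + M') 0 0 (N + N') = Matrix.fromBlocks M 0 0 N + Matrix.fromBlocks M' 0 0 N' := by
    rw [Matrix.fromBlocks_add, add_zero, add_zero]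
  unfold bs
  rw [h]
  rfl

theorem bs_one : bs e (1 : Matrix ι₁ ι₁ K) (1 : Matrix ι₂ ι₂ K) = 1 := by
  unfold bs
  rw [Matrix.fromBlocks_one, Matrix.submatrix_one_equiv]

theorem bs_zero : bs e (0 : Matrix ι₁ ι₁ K) (0 : Matrix ι₂ ι₂ K) = 0 := by
  unfold bs
  rw [Matrix.fromBlocks_zero]
  rfl

theorem bs_smul (c : K) (M : Matrix ι₁ ι₁ K) (N : Matrix ι₂ ι₂ K) : bs e (c • M) (c • N) = c • bs e M N := by
  unfold bs
  have h : Matrix.fromBlocks (c • M) 0 0 (c • N) = c • Matrix.fromBlocks M 0 0 N := by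
    rw [Matrix.fromBlocks_smul, smul_zero, smul_zero]
  rw [h]
  rfl

theorem bs_pow (M : Matrix ι₁ ι₁ K) (N : Matrix ι₂ ι₂ K) (k : ℕ) : bs e M N ^ k = bs e (M ^ k) (N ^ k) := by
  induction k with
  | zero => rw [pow_zero, pow_zero, pow_zero, bs_one]
  | succ k ih => rw [pow_succ, ih, bs_mul, pow_succ, pow_succ]

theorem bs_det (M : Matrix ι₁ ι₁ K) (N : Matrix ι₂ ι₂ K) : (bs e M N).det = M.det * N.det := by
  unfold bs
  rw [Matrix.det_submatrix_equiv_self, Matrix.det_fromBlocks_zero₂₁]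

theorem bs_transpose (M : Matrix ι₁ ι₁ K) (N : Matrix ι₂ ι₂ K) : (bs e M N).transpose = bs e M.transpose N.transpose := by
  unfold bs
  rw [Matrix.transpose_submatrix, Matrix.fromBlocks_transpose]
  simp

theorem bs_map (σ : K →+* K) (M : Matrix ι₁ ι₁ K) (N : Matrix ι₂ ι₂ K) : (bs e M N).map σ = bs e (M.map σ) (N.map σ) := by
  unfold bs
  rw [← Matrix.submatrix_map, Matrix.fromBlocks_map]
  congr 2
  · ext i j; simp
  · ext i j; simp

theorem bs_stm (σ : K →+* K) (M : Matrix ι₁ ι₁ K) (N : Matrix ι₂ ι₂ K) : stm σ (bs e M N) = bs e (stm σ M) (stm σ N) := by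
  unfold stm
  rw [bs_map, bs_transpose]

theorem bs_aeval (M : Matrix ι₁ ι₁ K) (N : Matrix ι₂ ι₂ K) (Q : K[X]) : aeval (bs e M N) Q = bs e (aeval M Q) (aeval N Q) := by
  induction Q using Polynomial.induction_on' with
  | add p q hp hq => rw [map_add, map_add, map_add, ← bs_add, hp, hq]
  | monomial m a =>
    rw [aeval_monomial, aeval_monomial, aeval_monomial, bs_pow, ← Algebra.smul_def, ← Algebra.smul_def, ← Algebra.smul_def, bs_smul]

theorem bs_mulVec (M : Matrix ι₁ ι₁ K) (N : Matrix ι₂ ι₂ K) (v : ι → K) (i : ι₁ ⊕ ι₂) :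
    (bs e M N).mulVec v (e i) = Sum.elim (M.mulVec (fun j => v (e (Sum.inl j)))) (N.mulVec (fun j => v (e (Sum.inr j)))) i := by
  unfold bs
  rw [Matrix.submatrix_mulVec_equiv]
  rw [Function.comp_apply, Equiv.symm_apply_apply, Equiv.symm_symm, Matrix.fromBlocks_mulVec]
  simp [Function.comp_def]

theorem finrank_ker_bs (M : Matrix ι₁ ι₁ K) (N : Matrix ι₂ ι₂ K) :
    Module.finrank K (LinearMap.ker (Matrix.toLin' (bs e M N))) =
      Module.finrank K (LinearMap.ker (Matrix.toLin' M)) + Module.finrank K (LinearMap.ker (Matrix.toLin' N)) := by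
  have h1 : Nat.card (LinearMap.ker (Matrix.toLin' (bs e M N))) =
      Nat.card (LinearMap.ker (Matrix.toLin' M) × LinearMap.ker (Matrix.toLin' N)) := by
    apply Nat.card_congr
    refine ⟨fun v => (⟨fun j => v.1 (e (Sum.inl j)), ?_⟩, ⟨fun j => v.1 (e (Sum.inr j)), ?_⟩),
      fun w => ⟨fun i => Sum.elim w.1.1 w.2.1 (e.symm i), ?_⟩, ?_, ?_⟩
    · have h := LinearMap.mem_ker.1 v.2
      rw [Matrix.toLin'_apply] at h
      rw [LinearMap.mem_ker, Matrix.toLin'_apply]
      funext i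
      have h2 := bs_mulVec e M N v.1 (Sum.inl i)
      rw [h] at h2
      exact h2.symm
    · have h := LinearMap.mem_ker.1 v.2
      rw [Matrix.toLin'_apply] at h
      rw [LinearMap.mem_ker, Matrix.toLin'_apply]
      funext i
      have h2 := bs_mulVec e M N v.1 (Sum.inr i)
      rw [h] at h2
      exact h2.symm
    · have h1 := LinearMap.mem_ker.1 w.1.2
      have h2 := LinearMap.mem_ker.1 w.2.2
      rw [Matrix.toLin'_apply] at h1 h2
      rw [LinearMap.mem_ker, Matrix.toLin'_apply]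
      funext i
      obtain ⟨i, rfl⟩ := e.surjective i
      rw [bs_mulVec]
      simp only [Equiv.symm_apply_apply, Sum.elim_inl, Sum.elim_inr]
      rcases i with i | i
      · rw [Sum.elim_inl]
        exact congrFun h1 i
      · rw [Sum.elim_inr]
        exact congrFun h2 i
    · intro v
      apply Subtype.ext
      funext i
      obtain ⟨i, rfl⟩ := e.surjective i
      rcases i with i | i
      · simp
      · simp
    · intro w
      apply Prod.ext
      · apply Subtype.ext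
        funext i
        simp
      · apply Subtype.ext
        funext i
        simp
  rw [Nat.card_prod, Module.natCard_eq_pow_finrank (K := K) (V := LinearMap.ker (Matrix.toLin' (bs e M N))),
    Module.natCard_eq_pow_finrank (K := K) (V := LinearMap.ker (Matrix.toLin' M)),
    Module.natCard_eq_pow_finrank (K := K) (V := LinearMap.ker (Matrix.toLin' N)), ← pow_add] at h1
  exact Nat.pow_right_injective Finite.one_lt_card h1

theorem finrank_ker_aeval_bs (M : Matrix ι₁ ι₁ K) (N : Matrix ι₂ ι₂ K) (Q : K[X]) :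
    Module.finrank K (LinearMap.ker (aeval (Matrix.toLin' (bs e M N) : Module.End K (ι → K)) Q)) =
      Module.finrank K (LinearMap.ker (aeval (Matrix.toLin' M : Module.End K (ι₁ → K)) Q)) +
      Module.finrank K (LinearMap.ker (aeval (Matrix.toLin' N : Module.End K (ι₂ → K)) Q)) := by
  rw [aeval_toLin', aeval_toLin', aeval_toLin', bs_aeval, finrank_ker_bs]

/-- block sum of invertible matrices -/
def bsGL (M : GL ι₁ K) (N : GL ι₂ K) : GL ι K :=
  ⟨bs e M N, bs e ((M⁻¹ : GL ι₁ K) : Matrix ι₁ ι₁ K) ((N⁻¹ : GL ι₂ K) : Matrix ι₂ ι₂ K),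
    by rw [bs_mul, Units.mul_inv, Units.mul_inv, bs_one], by rw [bs_mul, Units.inv_mul, Units.inv_mul, bs_one]⟩

theorem bsGL_coe (M : GL ι₁ K) (N : GL ι₂ K) : ((bsGL e M N : GL ι K) : Matrix ι ι K) = bs e M N := rfl

theorem bsGL_mul (M M' : GL ι₁ K) (N N' : GL ι₂ K) : bsGL e M N * bsGL e M' N' = bsGL e (M * M') (N * N') := by
  apply Units.ext
  exact bs_mul e _ _ _ _

end

end Cfsg.Agent.H43
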