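import Mathlib
import Cfsg.Agent.S0756
import Cfsg.Agent.H43.SympEquiv

set_option autoImplicit false
set_option linter.unusedSectionVars false
set_option linter.unusedVariables false

/-! Congruence of symmetric and alternating matrices over finite fields of odd characteristic. -/

namespace Cfsg.Agent.H43

section
variable {F : Type*} [Field F] {κ : Type*} [Fintype κ] [DecidableEq κ]

/-- bilinear form of a matrix -/
noncomputable def bf (G : Matrix κ κ F) : LinearMap.BilinForm F (κ → F) := Matrix.toBilin' G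

theorem bf_apply (G : Matrix κ κ F) (x y : κ → F) : bf G x y = dotProduct x (G.mulVec y) := Matrix.toBilin'_apply' G x y

theorem bf_single (G : Matrix κ κ F) (i j : κ) : bf G (Pi.single i 1) (Pi.single j 1) = G i j := by
  unfold bf
  rw [Matrix.toBilin'_single]

theorem bf_mulVec (G C : Matrix κ κ F) (x y : κ → F) : bf G (C.mulVec x) (C.mulVec y) = bf (C.transpose * G * C) x y := by
  have h := Matrix.toBilin'_comp G C C
  have h2 := LinearMap.congr_fun (LinearMap.congr_fun h x) y
  exact h2

theorem bf_ext {G G' : Matrix κ κ F} (h : ∀ x y, bf G x y = bf G' x y) : G = G' := by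
  ext i j
  rw [← bf_single G i j, h, bf_single]

theorem bf_symm {G : Matrix κ κ F} {ε : F} (hG : G.transpose = ε • G) (x y : κ → F) : bf G y x = ε * bf G x y := by
  rw [bf_apply, bf_apply, Matrix.dotProduct_mulVec, ← Matrix.mulVec_transpose, hG, Matrix.smul_mulVec, smul_dotProduct, smul_eq_mul, dotProduct_comm]

theorem bf_nondeg {G : Matrix κ κ F} (hG : IsUnit G.det) (v : κ → F) (h : ∀ w, bf G v w = 0) : v = 0 := by
  have h1 : G.transpose.mulVec v = 0 := by
    funext i
    have h2 := h (Pi.single i 1)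
    rw [bf_apply, Matrix.dotProduct_mulVec, ← Matrix.mulVec_transpose, dotProduct_single_one] at h2
    exact h2
  have hu : IsUnit G.transpose := (Matrix.isUnit_iff_isUnit_det _).2 (by rwa [Matrix.det_transpose])
  obtain ⟨U, hU⟩ := hu
  rw [← hU] at h1
  have h3 := congrArg (fun z => ((U⁻¹ : (Matrix κ κ F)ˣ) : Matrix κ κ F).mulVec z) h1
  simp only [Matrix.mulVec_mulVec, Units.inv_mul, Matrix.one_mulVec, Matrix.mulVec_zero] at h3
  exact h3

theorem bf_nondegenerate {G : Matrix κ κ F} (hG : IsUnit G.det) : (bf G).Nondegenerate := by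
  apply LinearMap.BilinForm.nondegenerate_toBilin'_of_det_ne_zero' G hG.ne_zero

/-- orthogonal diagonalization with last entry -/
theorem exists_diag [Finite F] (h2 : (2 : F) ≠ 0) (G : Matrix κ κ F) (hG : G.transpose = G) (hdet : IsUnit G.det) {n : ℕ} (hn : Fintype.card κ = n + 1)
    (α : F) (hα : ¬ IsSquare α) :
    ∃ (P : Matrix κ (Fin (n + 1)) F) (δ : F), (δ = 1 ∨ δ = α) ∧ P.transpose * G * P = Matrix.diagonal (fun i => if i = Fin.last n then δ else 1) ∧
      ∃ Q : Matrix (Fin (n + 1)) κ F, P * Q = 1 ∧ Q * P = 1 := by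
  have hfr : Module.finrank F (κ → F) = n + 1 := by rw [Module.finrank_fintype_fun_eq_card, hn]
  obtain ⟨b, h1, h3, h4⟩ := Cfsg.Agent.S0756.result h2 (bf G) (by
    constructor
    intro x y
    rw [bf_symm (ε := 1) (by rw [one_smul]; exact hG) y x, one_mul]) (bf_nondegenerate hdet) hfr α hα
  obtain ⟨P, hP⟩ : ∃ P : Matrix κ (Fin (n + 1)) F, P = Matrix.of fun i j => b j i := ⟨_, rfl⟩
  obtain ⟨Q, hQ⟩ : ∃ Q : Matrix (Fin (n + 1)) κ F, Q = Matrix.of fun i j => b.repr (Pi.single j 1) i := ⟨_, rfl⟩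
  have hPQ : P * Q = 1 := by
    ext i j
    have h5 := congrFun (b.sum_repr (Pi.single j 1)) i
    rw [Matrix.mul_apply, Matrix.one_apply]
    rw [Finset.sum_apply] at h5
    have h6 : ((Pi.single j (1 : F) : κ → F)) i = if i = j then 1 else 0 := Pi.single_apply _ _ _
    rw [h6] at h5
    rw [← h5]
    refine Finset.sum_congr rfl fun k _ => ?_
    rw [hP, hQ, Matrix.of_apply, Matrix.of_apply, Pi.smul_apply, smul_eq_mul, mul_comm]
  have hcard : Fintype.card (Fin (n + 1)) = Fintype.card κ := by rw [hn, Fintype.card_fin]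
  refine ⟨P, bf G (b (Fin.last n)) (b (Fin.last n)), h4, ?_, Q, hPQ, ?_⟩
  · ext i j
    have h5 : (P.transpose * G * P) i j = bf G (b i) (b j) := by
      rw [bf_apply, Matrix.mul_assoc, Matrix.mul_apply']
      congr 1
      · funext k; rw [hP]; rfl
      · rw [hP]; rfl
    rw [h5]
    by_cases hij : i = j
    · subst hij
      rw [Matrix.diagonal_apply_eq]
      split_ifs with h
      · rw [h]
      · exact h3 i h
    · rw [Matrix.diagonal_apply_ne _ hij, h1 i j hij]
  · exact (Matrix.mul_eq_one_comm_of_equiv (Fintype.equivOfCardEq hcard).symm).1 hPQ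

theorem symm_congr [Finite F] (h2 : (2 : F) ≠ 0) {G G' : Matrix κ κ F} (hG : G.transpose = G) (hG' : G'.transpose = G')
    (hdet : IsUnit G.det) (hdet' : IsUnit G'.det) (hsq : IsSquare G.det ↔ IsSquare G'.det) :
    ∃ C : Matrix κ κ F, IsUnit C.det ∧ C.transpose * G * C = G' := by
  classical
  rcases isEmpty_or_nonempty κ with hκ | hκ
  · exact ⟨1, by simp, by ext i j; exact hκ.elim i⟩
  obtain ⟨n, hn⟩ : ∃ n, Fintype.card κ = n + 1 := ⟨Fintype.card κ - 1, by have := Fintype.card_pos (α := κ); omega⟩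
  obtain ⟨α, hα⟩ : ∃ α : F, ¬ IsSquare α := FiniteField.exists_nonsquare (by
    intro h
    apply h2
    have := ringChar.spec F 2
    rw [h] at this
    exact_mod_cast this.2 dvd_rfl)
  obtain ⟨P, δ, hδ, hP, Q, hPQ, hQP⟩ := exists_diag h2 G hG hdet hn α hα
  obtain ⟨P', δ', hδ', hP', Q', hPQ', hQP'⟩ := exists_diag h2 G' hG' hdet' hn α hα
  -- determinants
  have hdd : ∀ (G : Matrix κ κ F) (P : Matrix κ (Fin (n + 1)) F) (Q : Matrix (Fin (n + 1)) κ F) (δ : F), P * Q = 1 → Q * P = 1 →
      P.transpose * G * P = Matrix.diagonal (fun i => if i = Fin.last n then δ else 1) → (IsSquare G.det ↔ IsSquare δ) := by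
    intro G P Q δ h3 h4 h5
    have e : Fin (n + 1) ≃ κ := Fintype.equivOfCardEq (by rw [hn, Fintype.card_fin])
    have h6 : (P.submatrix id e.symm).transpose * G * (P.submatrix id e.symm) = (Matrix.diagonal (fun i => if i = Fin.last n then δ else 1)).submatrix e.symm e.symm := by
      rw [← h5]
      ext i j
      simp [Matrix.mul_apply, Matrix.submatrix]
    have h7 := congrArg Matrix.det h6
    rw [Matrix.det_submatrix_equiv_self, Matrix.det_diagonal, Matrix.det_mul, Matrix.det_mul, Matrix.det_transpose] at h7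
    have h8 : ∏ i : Fin (n + 1), (if i = Fin.last n then δ else 1) = δ := by
      rw [Finset.prod_ite_eq']; simp
    rw [h8] at h7
    have h9 : (P.submatrix id e.symm).det ≠ 0 := by
      have h10 : (P.submatrix id e.symm) * (Q.submatrix e.symm id) = 1 := by
        rw [Matrix.submatrix_mul_equiv, h3]; simp
      have h11 := congrArg Matrix.det h10
      rw [Matrix.det_mul, Matrix.det_one] at h11
      exact left_ne_zero_of_mul_eq_one h11
    rw [← h7]
    constructor
    · rintro ⟨r, hr⟩
      exact ⟨(P.submatrix id e.symm).det * r, by rw [hr]; ring⟩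
    · rintro ⟨r, hr⟩
      refine ⟨r / (P.submatrix id e.symm).det, ?_⟩
      field_simp
      rw [← sq] at hr
      linear_combination hr
  have hδδ : δ = δ' := by
    have h3 := (hdd G P Q δ hPQ hQP hP).symm.trans (hsq.trans (hdd G' P' Q' δ' hPQ' hQP' hP'))
    rcases hδ with rfl | rfl <;> rcases hδ' with rfl | rfl
    · rfl
    · exact absurd (h3.1 ⟨1, by ring⟩) hα
    · exact absurd (h3.2 ⟨1, by ring⟩) hα
    · rfl
  subst hδδ
  refine ⟨P * Q', ?_, ?_⟩
  · have h3 : (P * Q') * (P' * Q) = 1 := by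
      rw [Matrix.mul_assoc, ← Matrix.mul_assoc Q', hQP', Matrix.one_mul, hPQ]
    have h4 := congrArg Matrix.det h3
    rw [Matrix.det_mul, Matrix.det_one] at h4
    exact IsUnit.of_mul_eq_one _ h4
  · have h3 : G' = Q'.transpose * (P'.transpose * G' * P') * Q' := by
      have h4 : (P' * Q').transpose = 1 := by rw [hPQ', Matrix.transpose_one]
      rw [Matrix.transpose_mul] at h4
      calc G' = (Q'.transpose * P'.transpose) * G' * (P' * Q') := by rw [h4, hPQ', Matrix.one_mul, Matrix.mul_one]
        _ = _ := by simp only [Matrix.mul_assoc]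
    rw [h3, hP', ← hP, Matrix.transpose_mul]
    simp only [Matrix.mul_assoc]

theorem even_card_of_skew (h2 : (2 : F) ≠ 0) {G : Matrix κ κ F} (hG : G.transpose = -G) (hdet : IsUnit G.det) : Even (Fintype.card κ) := by
  by_contra h
  rw [Nat.not_even_iff_odd] at h
  have h3 := congrArg Matrix.det hG
  rw [Matrix.det_transpose, Matrix.det_neg, h.neg_one_pow] at h3
  have h4 : 2 * G.det = 0 := by linear_combination h3
  rcases mul_eq_zero.1 h4 with h5 | h5
  · exact h2 h5
  · exact hdet.ne_zero h5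

theorem bf_isAlt (h2 : (2 : F) ≠ 0) {G : Matrix κ κ F} (hG : G.transpose = -G) : (bf G).IsAlt := by
  intro x
  have h := bf_symm (G := G) (ε := -1) (by rw [neg_one_smul]; exact hG) x x
  have h3 : 2 * bf G x x = 0 := by linear_combination h
  rcases mul_eq_zero.1 h3 with h5 | h5
  · exact absurd h5 h2
  · exact h5

theorem alt_congr (h2 : (2 : F) ≠ 0) {G G' : Matrix κ κ F} (hG : G.transpose = -G) (hG' : G'.transpose = -G')
    (hdet : IsUnit G.det) (hdet' : IsUnit G'.det) : ∃ C : Matrix κ κ F, IsUnit C.det ∧ C.transpose * G * C = G' := by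
  obtain ⟨g, hg⟩ := exists_alt_equiv (bf G) (bf G') (bf_isAlt h2 hG) (bf_nondeg hdet) (bf_isAlt h2 hG') (bf_nondeg hdet')
  refine ⟨LinearMap.toMatrix' (g : (κ → F) →ₗ[F] (κ → F)), ?_, ?_⟩
  · rw [LinearMap.det_toMatrix']
    exact g.isUnit_det'
  · apply bf_ext
    intro x y
    rw [← bf_mulVec, hg, ← Matrix.toLin'_apply, ← Matrix.toLin'_apply, Matrix.toLin'_toMatrix']
    rfl

end

end Cfsg.Agent.H43
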