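import Mathlib
import Cfsg.Agent.H43.Jordan2

set_option autoImplicit false
set_option linter.unusedSectionVars false
set_option linter.unusedVariables false

/-! The commutant of a nilpotent endomorphism in Jordan form. -/

namespace Cfsg.Agent.H43

variable {F : Type*} {V : Type*} [Field F] [AddCommGroup V] [Module F V] [FiniteDimensional F V]
  {ι : Type*} [Fintype ι] [DecidableEq ι] {d : ι → ℕ} {N : Module.End F V}
  {b : Module.Basis ((k : ι) × Fin (d k)) F V}

theorem repr_pow (hJ : JB N d b) (j : ℕ) (z : V) (l : ι) (i : Fin (d l)) :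
    (b.repr ((N ^ j) z)) ⟨l, i⟩ = if h : j ≤ (i : ℕ) then (b.repr z) ⟨l, ⟨(i : ℕ) - j, by have := i.2; omega⟩⟩ else 0 := by
  by_cases h : j ≤ (i : ℕ)
  · rw [dif_pos h]
    have key : (b.coord ⟨l, i⟩) ∘ₗ (N ^ j) = b.coord ⟨l, ⟨(i : ℕ) - j, by have := i.2; omega⟩⟩ := by
      apply b.ext
      rintro ⟨k, i'⟩
      rw [LinearMap.comp_apply, hJ.pow, Module.Basis.coord_apply, Module.Basis.coord_apply, Module.Basis.repr_self]
      by_cases h1 : (i' : ℕ) + j < d k
      · rw [dif_pos h1, Module.Basis.repr_self]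
        by_cases h2 : k = l
        · subst h2
          by_cases h3 : (i' : ℕ) + j = i
          · have e1 : (⟨(i' : ℕ) + j, h1⟩ : Fin (d k)) = i := Fin.ext h3
            have e2 : (⟨(i : ℕ) - j, by have := i.2; omega⟩ : Fin (d k)) = i' := Fin.ext (by simp only; omega)
            rw [e1, e2, Finsupp.single_eq_same, Finsupp.single_eq_same]
          · rw [Finsupp.single_eq_of_ne, Finsupp.single_eq_of_ne]
            · intro h4
              have h5 := congrArg Fin.val (eq_of_heq (Sigma.mk.inj h4).2)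
              simp only at h5
              omega
            · intro h4
              have h5 := congrArg Fin.val (eq_of_heq (Sigma.mk.inj h4).2)
              simp only at h5
              omega
        · rw [Finsupp.single_eq_of_ne, Finsupp.single_eq_of_ne]
          · intro h4; exact h2 (Sigma.mk.inj h4).1.symm
          · intro h4; exact h2 (Sigma.mk.inj h4).1.symm
      · rw [dif_neg h1, map_zero, Finsupp.zero_apply, Finsupp.single_eq_of_ne]
        intro h4
        have h6 := (Sigma.mk.inj h4).1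
        subst h6
        have h5 := congrArg Fin.val (eq_of_heq (Sigma.mk.inj h4).2)
        simp only at h5
        have := i.2
        omega
    exact LinearMap.congr_fun key z
  · rw [dif_neg h]
    have key : (b.coord ⟨l, i⟩) ∘ₗ (N ^ j) = 0 := by
      apply b.ext
      rintro ⟨k, i'⟩
      rw [LinearMap.comp_apply, hJ.pow, Module.Basis.coord_apply, LinearMap.zero_apply]
      by_cases h1 : (i' : ℕ) + j < d k
      · rw [dif_pos h1, Module.Basis.repr_self, Finsupp.single_eq_of_ne]
        intro h4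
        have h6 := (Sigma.mk.inj h4).1
        subst h6
        have h5 := congrArg Fin.val (eq_of_heq (Sigma.mk.inj h4).2)
        simp only at h5
        omega
      · rw [dif_neg h1, map_zero, Finsupp.zero_apply]
    exact LinearMap.congr_fun key z

/-- generators -/
noncomputable def gen (b : Module.Basis ((k : ι) × Fin (d k)) F V) (hd : ∀ k, 1 ≤ d k) (k : ι) : V := b ⟨k, ⟨0, hd k⟩⟩

theorem pow_gen (hJ : JB N d b) (hd : ∀ k, 1 ≤ d k) (k : ι) (i : Fin (d k)) : (N ^ (i : ℕ)) (gen b hd k) = b ⟨k, i⟩ := by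
  unfold gen
  rw [hJ.pow, dif_pos (by simp)]
  congr 2
  exact Fin.ext (by simp)

theorem pow_gen_zero (hJ : JB N d b) (hd : ∀ k, 1 ≤ d k) (k : ι) : (N ^ (d k)) (gen b hd k) = 0 := by
  unfold gen
  rw [hJ.pow, dif_neg (by simp)]

theorem apply_basis (hJ : JB N d b) (hd : ∀ k, 1 ≤ d k) {c : Module.End F V} (hc : Commute c N) (k : ι) (i : Fin (d k)) :
    c (b ⟨k, i⟩) = (N ^ (i : ℕ)) (c (gen b hd k)) := by
  rw [← pow_gen hJ hd, ← Module.End.mul_apply, (hc.pow_right _).eq]
  rfl

/-- leading coefficients -/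
noncomputable def leadM (b : Module.Basis ((k : ι) × Fin (d k)) F V) (hd : ∀ k, 1 ≤ d k) (c : Module.End F V) : Matrix ι ι F :=
  Matrix.of fun l k => (b.repr (c (gen b hd k))) ⟨l, ⟨0, hd l⟩⟩

theorem leadM_eq_zero (hJ : JB N d b) (hd : ∀ k, 1 ≤ d k) {c : Module.End F V} (hc : Commute c N) {l k : ι} (h : d k < d l) :
    leadM b hd c l k = 0 := by
  have h1 : (N ^ (d k)) (c (gen b hd k)) = 0 := by
    rw [← Module.End.mul_apply, ← (hc.pow_right _).eq, Module.End.mul_apply, pow_gen_zero hJ hd, map_zero]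
  have h2 := repr_pow hJ (d k) (c (gen b hd k)) l ⟨d k, h⟩
  rw [h1, dif_pos (le_refl _), map_zero] at h2
  unfold leadM
  rw [Matrix.of_apply]
  have e : (⟨((⟨d k, h⟩ : Fin (d l)) : ℕ) - d k, by simp; have := hd l; omega⟩ : Fin (d l)) = ⟨0, hd l⟩ := Fin.ext (by simp)
  rw [e] at h2
  exact h2.symm

theorem leadM_mul (hJ : JB N d b) (hd : ∀ k, 1 ≤ d k) {c c' : Module.End F V} (hc : Commute c N) :
    leadM b hd (c * c') = leadM b hd c * leadM b hd c' := by
  ext l k
  unfold leadM
  rw [Matrix.of_apply, Matrix.mul_apply, Module.End.mul_apply]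
  conv_lhs => rw [← b.sum_repr (c' (gen b hd k))]
  rw [map_sum, map_sum, Finsupp.finsetSum_apply, ← Finset.univ_sigma_univ, Finset.sum_sigma]
  refine Finset.sum_congr rfl fun l' _ => ?_
  rw [Finset.sum_eq_single ⟨0, hd l'⟩]
  · rw [map_smul, map_smul, Finsupp.smul_apply, smul_eq_mul, Matrix.of_apply, Matrix.of_apply, mul_comm]
    rfl
  · intro i _ hi
    rw [map_smul, map_smul, Finsupp.smul_apply, smul_eq_mul, apply_basis hJ hd hc, repr_pow hJ, dif_neg, mul_zero]
    simp only
    intro h
    apply hi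
    exact Fin.ext (by simp only; omega)
  · intro h; exact absurd (Finset.mem_univ _) h

/-- the diagonal block of size `j` -/
noncomputable def blockM (b : Module.Basis ((k : ι) × Fin (d k)) F V) (hd : ∀ k, 1 ≤ d k) (c : Module.End F V) (j : ℕ) :
    Matrix {k // d k = j} {k // d k = j} F := (leadM b hd c).submatrix Subtype.val Subtype.val

theorem blockM_mul (hJ : JB N d b) (hd : ∀ k, 1 ≤ d k) {c c' : Module.End F V} (hc : Commute c N) (hc' : Commute c' N) (j : ℕ) :
    blockM b hd (c * c') j = blockM b hd c j * blockM b hd c' j := by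
  ext l k
  unfold blockM
  rw [Matrix.submatrix_apply, leadM_mul hJ hd hc, Matrix.mul_apply, Matrix.mul_apply,
    ← Fintype.sum_subtype_add_sum_subtype (fun k => d k = j)]
  have h0 : ∑ i : {x // ¬ d x = j}, leadM b hd c l.1 i.1 * leadM b hd c' i.1 k.1 = 0 := by
    apply Finset.sum_eq_zero
    rintro ⟨i, hi⟩ _
    have hl := l.2
    have hk := k.2
    rcases lt_or_gt_of_ne hi with h1 | h1
    · rw [leadM_eq_zero hJ hd hc (by rw [hl]; exact h1), zero_mul]
    · rw [leadM_eq_zero hJ hd hc' (by rw [hk]; exact h1), mul_zero]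
  rw [h0, add_zero]
  rfl

theorem blockM_one (hJ : JB N d b) (hd : ∀ k, 1 ≤ d k) (j : ℕ) : blockM b hd 1 j = 1 := by
  ext l k
  unfold blockM leadM gen
  rw [Matrix.submatrix_apply, Matrix.of_apply, Module.End.one_apply, Module.Basis.repr_self, Matrix.one_apply]
  by_cases h : l = k
  · subst h
    rw [if_pos rfl, Finsupp.single_eq_same]
  · rw [if_neg h, Finsupp.single_eq_of_ne]
    intro h4
    exact h (Subtype.ext (Sigma.mk.inj h4).1)

/-- An element of the commutant is invertible iff its diagonal blocks are. -/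
theorem isUnit_iff_block (hJ : JB N d b) (hd : ∀ k, 1 ≤ d k) {c : Module.End F V} (hc : Commute c N) :
    IsUnit c ↔ ∀ j, IsUnit (blockM b hd c j) := by
  constructor
  · rintro ⟨w, rfl⟩ j
    have h1 := blockM_mul hJ hd hc hc.units_inv_left j
    rw [Units.mul_inv, blockM_one hJ] at h1
    exact IsUnit.of_mul_eq_one _ h1.symm
  · intro h
    rw [Module.End.isUnit_iff]
    have hinj : Function.Injective c := by
      rw [injective_iff_map_eq_zero]
      intro x hx
      by_contra hx0
      -- a nonzero element of ker N killed by c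
      obtain ⟨y, hy0, hyN, hyc⟩ : ∃ y, y ≠ 0 ∧ N y = 0 ∧ c y = 0 := by
        classical
        have hex : ∃ n, (N ^ n) x = 0 := ⟨∑ k, d k, by
          rw [hJ.pow_zero _ (fun k => Finset.single_le_sum (f := d) (fun _ _ => Nat.zero_le _) (Finset.mem_univ k))]; rfl⟩
        obtain ⟨n, hn, hmin⟩ : ∃ n, (N ^ n) x = 0 ∧ ∀ m < n, (N ^ m) x ≠ 0 := ⟨Nat.find hex, Nat.find_spec hex, fun m hm => Nat.find_min hex hm⟩
        have hn0 : n ≠ 0 := by
          rintro rfl
          exact hx0 hn
        refine ⟨(N ^ (n - 1)) x, hmin _ (by omega), ?_, ?_⟩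
        · rw [← Module.End.mul_apply, ← pow_succ', Nat.sub_add_cancel (by omega), hn]
        · rw [← Module.End.mul_apply, (hc.pow_right _).eq, Module.End.mul_apply, hx, map_zero]
      have hcoord : ∀ (k : ι) (i : Fin (d k)), (i : ℕ) + 1 < d k → (b.repr y) ⟨k, i⟩ = 0 := by
        intro k i hi
        have h1 := repr_pow hJ 1 y k ⟨(i : ℕ) + 1, hi⟩
        rw [pow_one, hyN, dif_pos (by simp), map_zero] at h1
        have e : (⟨((⟨(i : ℕ) + 1, hi⟩ : Fin (d k)) : ℕ) - 1, by simp⟩ : Fin (d k)) = i := Fin.ext (by simp)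
        rw [e] at h1
        exact h1.symm
      have hlast : ∀ k, (d k - 1) < d k := fun k => by have := hd k; omega
      obtain ⟨a, ha⟩ : ∃ a : ι → F, ∀ k, a k = (b.repr y) ⟨k, ⟨d k - 1, hlast k⟩⟩ := ⟨_, fun _ => rfl⟩
      have hyexp : y = ∑ k, a k • b ⟨k, ⟨d k - 1, hlast k⟩⟩ := by
        conv_lhs => rw [← b.sum_repr y, ← Finset.univ_sigma_univ, Finset.sum_sigma]
        refine Finset.sum_congr rfl fun k _ => ?_
        rw [Finset.sum_eq_single ⟨d k - 1, hlast k⟩]
        · rw [ha]
        · intro i _ hi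
          rw [hcoord, zero_smul]
          have : (i : ℕ) ≠ d k - 1 := fun h => hi (Fin.ext h)
          have := i.2
          omega
        · intro h; exact absurd (Finset.mem_univ _) h
      have hex : ∃ j k, d k = j ∧ a k ≠ 0 := by
        by_contra hcon
        push Not at hcon
        apply hy0
        rw [hyexp]
        apply Finset.sum_eq_zero
        intro k _
        rw [hcon (d k) k rfl, zero_smul]
      classical
      obtain ⟨j, ⟨k0, hk0, hak0⟩, hmin⟩ : ∃ j, (∃ k, d k = j ∧ a k ≠ 0) ∧ ∀ m < j, ¬ ∃ k, d k = m ∧ a k ≠ 0 :=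
        ⟨Nat.find hex, Nat.find_spec hex, fun m hm => Nat.find_min hex hm⟩
      have hmin' : ∀ k, d k < j → a k = 0 := by
        intro k hk
        by_contra h1
        exact hmin _ hk ⟨k, rfl, h1⟩
      have hj1 : 1 ≤ j := by rw [← hk0]; exact hd k0
      have hzero : ∀ l : {k // d k = j}, ∑ k : {k // d k = j}, leadM b hd c l.1 k.1 * a k.1 = 0 := by
        rintro ⟨l, hl⟩
        have h1 : (b.repr (c y)) ⟨l, ⟨j - 1, by omega⟩⟩ = 0 := by rw [hyc, map_zero]; rfl
        rw [hyexp, map_sum, map_sum, Finsupp.finsetSum_apply] at h1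
        rw [← Fintype.sum_subtype_add_sum_subtype (fun k => d k = j)] at h1
        have h2 : ∑ i : {x // ¬ d x = j}, (b.repr (c (a i.1 • b ⟨i.1, ⟨d i.1 - 1, hlast i.1⟩⟩))) ⟨l, ⟨j - 1, by omega⟩⟩ = 0 := by
          apply Finset.sum_eq_zero
          rintro ⟨i, hi⟩ _
          rw [map_smul, map_smul, Finsupp.smul_apply, smul_eq_mul]
          rcases lt_or_gt_of_ne hi with h3 | h3
          · rw [hmin' i h3, zero_mul]
          · rw [apply_basis hJ hd hc, repr_pow hJ, dif_neg (by simp only; omega), mul_zero]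
        rw [h2, add_zero] at h1
        rw [← h1]
        refine Finset.sum_congr rfl ?_
        rintro ⟨k, hk⟩ _
        rw [map_smul, map_smul, Finsupp.smul_apply, smul_eq_mul, apply_basis hJ hd hc, repr_pow hJ, dif_pos (by simp only; omega),
          mul_comm]
        have e : ∀ h, (⟨j - 1 - (d k - 1), h⟩ : Fin (d l)) = ⟨0, hd l⟩ := fun h => Fin.ext (show j - 1 - (d k - 1) = 0 by omega)
        unfold leadM
        rw [Matrix.of_apply, e]
      have h1 : (blockM b hd c j).mulVec (fun k => a k.1) = 0 := by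
        funext l
        exact hzero l
      obtain ⟨w, hw⟩ := h j
      have h2 := congrArg (fun z => ((w⁻¹ : (Matrix {k // d k = j} {k // d k = j} F)ˣ) : Matrix {k // d k = j} {k // d k = j} F).mulVec z) h1
      rw [← hw, Matrix.mulVec_mulVec, Units.inv_mul, Matrix.one_mulVec, Matrix.mulVec_zero] at h2
      exact hak0 (congrFun h2 ⟨k0, hk0⟩)
    exact ⟨hinj, LinearMap.surjective_of_injective hinj⟩

end Cfsg.Agent.H43
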