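import Mathlib
import Cfsg.Agent.H43.NilBase
import Cfsg.Agent.H43.SympReg
import Cfsg.Agent.H43.FormCongr
import Cfsg.Agent.H43.Hilbert90

set_option autoImplicit false
set_option linter.unusedSectionVars false
set_option linter.unusedVariables false

/-! Forms with a nilpotent skew-adjoint endomorphism. -/

namespace Cfsg.Agent.H43

open Polynomial

section
variable {F : Type*} {V : Type*} [Field F] [AddCommGroup V] [Module F V] [FiniteDimensional F V]
  {ι : Type*} [Fintype ι] [DecidableEq ι] {d : ι → ℕ} {N : Module.End F V}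
  {b : Module.Basis ((k : ι) × Fin (d k)) F V}

/-- Gram matrix of the form on the `j`-th layer -/
noncomputable def GM (b : Module.Basis ((k : ι) × Fin (d k)) F V) (hd : ∀ k, 1 ≤ d k) (N : Module.End F V) (B : LinearMap.BilinForm F V) (j : ℕ) :
    Matrix {k // d k = j} {k // d k = j} F := Matrix.of fun k l => B (gen b hd k.1) ((N ^ (j - 1)) (gen b hd l.1))

/-- standard form -/
noncomputable def B0 (b : Module.Basis ((k : ι) × Fin (d k)) F V) : LinearMap.BilinForm F V :=
  Matrix.toBilin b (Matrix.of fun x y => if x.1 = y.1 ∧ (x.2 : ℕ) + (y.2 : ℕ) + 1 = d x.1 then (-1) ^ (x.2 : ℕ) else 0)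

theorem B0_apply (x y : (k : ι) × Fin (d k)) :
    B0 b (b x) (b y) = if x.1 = y.1 ∧ (x.2 : ℕ) + (y.2 : ℕ) + 1 = d x.1 then (-1) ^ (x.2 : ℕ) else 0 := by
  have h := LinearMap.BilinForm.toMatrix_apply b (B0 b) x y
  unfold B0 at h
  rw [LinearMap.BilinForm.toMatrix_toBilin, Matrix.of_apply] at h
  exact h.symm

theorem B0_left (z : V) (k : ι) (i : Fin (d k)) : B0 b z (b ⟨k, i⟩) = (-1) ^ (d k - 1 - (i : ℕ)) * (b.repr z) ⟨k, i.rev⟩ := by
  have key : (LinearMap.flip (B0 b)) (b ⟨k, i⟩) = ((-1) ^ (d k - 1 - (i : ℕ)) : F) • b.coord ⟨k, i.rev⟩ := by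
    apply b.ext
    rintro ⟨l, i'⟩
    rw [LinearMap.flip_apply, B0_apply, LinearMap.smul_apply, Module.Basis.coord_apply, Module.Basis.repr_self, smul_eq_mul]
    have hi := i.2
    have hi' := i'.2
    by_cases h : l = k
    · subst h
      by_cases h2 : i' = i.rev
      · subst h2
        rw [Finsupp.single_eq_same, mul_one, if_pos ⟨rfl, by simp only [Fin.val_rev]; omega⟩]
        congr 1
        simp only [Fin.val_rev]; omega
      · rw [Finsupp.single_eq_of_ne, mul_zero, if_neg]
        · rintro ⟨_, h3⟩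
          apply h2
          apply Fin.ext
          simp only [Fin.val_rev] at h3 ⊢
          omega
        · intro h4
          exact h2 (eq_of_heq (Sigma.mk.inj h4).2).symm
    · rw [Finsupp.single_eq_of_ne, mul_zero, if_neg (fun h2 => h h2.1)]
      intro h4
      exact h (Sigma.mk.inj h4).1.symm
  have h := LinearMap.congr_fun key z
  rw [LinearMap.flip_apply, LinearMap.smul_apply, Module.Basis.coord_apply, smul_eq_mul] at h
  exact h

theorem B0_right (z : V) (k : ι) (i : Fin (d k)) : B0 b (b ⟨k, i⟩) z = (-1) ^ (i : ℕ) * (b.repr z) ⟨k, i.rev⟩ := by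
  have key : (B0 b) (b ⟨k, i⟩) = ((-1) ^ (i : ℕ) : F) • b.coord ⟨k, i.rev⟩ := by
    apply b.ext
    rintro ⟨l, i'⟩
    rw [B0_apply, LinearMap.smul_apply, Module.Basis.coord_apply, Module.Basis.repr_self, smul_eq_mul]
    have hi := i.2
    have hi' := i'.2
    by_cases h : k = l
    · subst h
      by_cases h2 : i' = i.rev
      · subst h2
        rw [Finsupp.single_eq_same, mul_one, if_pos ⟨rfl, by simp only [Fin.val_rev]; omega⟩]
      · rw [Finsupp.single_eq_of_ne, mul_zero, if_neg]
        · rintro ⟨_, h3⟩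
          apply h2
          apply Fin.ext
          simp only [Fin.val_rev] at h3 ⊢
          omega
        · intro h4
          exact h2 (eq_of_heq (Sigma.mk.inj h4).2).symm
    · rw [Finsupp.single_eq_of_ne, mul_zero, if_neg (fun h2 => h h2.1)]
      intro h4
      exact h (Sigma.mk.inj h4).1
  have h := LinearMap.congr_fun key z
  rw [LinearMap.smul_apply, Module.Basis.coord_apply, smul_eq_mul] at h
  exact h

theorem B0_nondeg (z : V) (h : ∀ y, B0 b z y = 0) : z = 0 := by
  apply b.repr.injective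
  rw [map_zero]
  ext ⟨k, i⟩
  rw [Finsupp.zero_apply]
  have h1 := B0_left (b := b) z k i.rev
  rw [h, Fin.rev_rev] at h1
  rcases mul_eq_zero.1 h1.symm with h2 | h2
  · exact absurd h2 (pow_ne_zero _ (neg_ne_zero.2 one_ne_zero))
  · exact h2

theorem B0_skew (hJ : JB N d b) : IsAdj (B0 b) N (-N) := by
  have key : (B0 b) ∘ₗ N = LinearMap.compl₂ (B0 b) (-N) := by
    apply b.ext
    rintro ⟨k, i⟩
    apply b.ext
    rintro ⟨l, i'⟩
    rw [LinearMap.comp_apply, LinearMap.compl₂_apply, LinearMap.neg_apply, map_neg, hJ, hJ]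
    have hi := i.2
    have hi' := i'.2
    by_cases h1 : (i : ℕ) + 1 < d k
    · rw [dif_pos h1, B0_apply]
      by_cases h2 : (i' : ℕ) + 1 < d l
      · rw [dif_pos h2, B0_apply]
        simp only
        by_cases h3 : k = l ∧ (i : ℕ) + 1 + (i' : ℕ) + 1 = d k
        · rw [if_pos h3, if_pos ⟨h3.1, by omega⟩, pow_succ]; ring
        · rw [if_neg h3, if_neg (fun h4 => h3 ⟨h4.1, by omega⟩), neg_zero]
      · rw [dif_neg h2, map_zero, neg_zero, if_neg]
        simp only
        rintro ⟨h3, h4⟩
        subst h3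
        omega
    · rw [dif_neg h1, map_zero, LinearMap.zero_apply]
      by_cases h2 : (i' : ℕ) + 1 < d l
      · rw [dif_pos h2, B0_apply, if_neg, neg_zero]
        simp only
        rintro ⟨h3, h4⟩
        subst h3
        omega
      · rw [dif_neg h2, map_zero, neg_zero]
  intro x y
  exact LinearMap.congr_fun (LinearMap.congr_fun key x) y

/-- representing a map by the standard form -/
theorem exists_repr (f : V →ₗ[F] V →ₗ[F] F) : ∃ a : Module.End F V, ∀ x y, f x y = B0 b (a x) y := by
  have hinj : Function.Injective (B0 b : V →ₗ[F] Module.Dual F V) := by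
    rw [injective_iff_map_eq_zero]
    intro z hz
    exact B0_nondeg (b := b) z (fun y => by rw [hz]; rfl)
  have hdim : Module.finrank F V = Module.finrank F (Module.Dual F V) := (Subspace.dual_finrank_eq).symm
  let e : V ≃ₗ[F] Module.Dual F V := LinearMap.linearEquivOfInjective (B0 b : V →ₗ[F] Module.Dual F V) hinj hdim
  have he : ∀ z, e z = B0 b z := fun z => rfl
  refine ⟨(e.symm : Module.Dual F V →ₗ[F] V) ∘ₗ f, fun x y => ?_⟩
  have h1 : B0 b (((e.symm : Module.Dual F V →ₗ[F] V) ∘ₗ f) x) = f x := by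
    rw [← he]
    exact e.apply_symm_apply (f x)
  rw [h1]

theorem B0_unique {a a' : Module.End F V} (h : ∀ x y, B0 b (a x) y = B0 b (a' x) y) : a = a' := by
  apply LinearMap.ext
  intro x
  rw [← sub_eq_zero]
  apply B0_nondeg (b := b)
  intro y
  rw [map_sub, LinearMap.sub_apply, h, sub_self]

theorem repr_commute (hJ : JB N d b) {B : LinearMap.BilinForm F V} (hB : IsAdj B N (-N)) {a : Module.End F V} (ha : ∀ x y, B x y = B0 b (a x) y) :
    Commute a N := by
  apply B0_unique (b := b)
  intro x y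
  rw [Module.End.mul_apply, Module.End.mul_apply, ← ha, hB, ha, B0_skew hJ]

theorem repr_inj {B : LinearMap.BilinForm F V} (hnd : ∀ x, (∀ y, B x y = 0) → x = 0) {a : Module.End F V} (ha : ∀ x y, B x y = B0 b (a x) y) :
    IsUnit a := by
  rw [Module.End.isUnit_iff]
  have hinj : Function.Injective a := by
    rw [injective_iff_map_eq_zero]
    intro x hx
    apply hnd
    intro y
    rw [ha, hx, map_zero, LinearMap.zero_apply]
  exact ⟨hinj, LinearMap.surjective_of_injective hinj⟩

theorem GM_eq (hJ : JB N d b) (hd : ∀ k, 1 ≤ d k) {B : LinearMap.BilinForm F V} {a : Module.End F V} (ha : ∀ x y, B x y = B0 b (a x) y) (j : ℕ) :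
    GM b hd N B j = (blockM b hd a j).transpose := by
  ext k l
  have hl := l.2
  have hj : j - 1 < d l.1 := by have := hd l.1; omega
  unfold GM blockM leadM
  rw [Matrix.of_apply, Matrix.transpose_apply, Matrix.submatrix_apply, Matrix.of_apply, ha]
  have h1 := pow_gen hJ hd l.1 ⟨j - 1, hj⟩
  simp only at h1
  rw [h1, B0_left]
  have e : (Fin.rev (⟨j - 1, hj⟩ : Fin (d l.1))) = ⟨0, hd l.1⟩ := by
    apply Fin.ext
    simp only [Fin.val_rev]
    have := hd l.1
    omega
  rw [e]
  simp only
  have e2 : d l.1 - 1 - (j - 1) = 0 := by omega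
  rw [e2, pow_zero, one_mul]

theorem blockM_adj (hJ : JB N d b) (hd : ∀ k, 1 ≤ d k) {c c' : Module.End F V} (hc : Commute c N) (h : IsAdj (B0 b) c' c) (j : ℕ) :
    blockM b hd c' j = (blockM b hd c j).transpose := by
  ext l k
  have hl := l.2
  have hk := k.2
  have hj : j - 1 < d l.1 := by have := hd l.1; omega
  have hj' : j - 1 < d k.1 := by have := hd k.1; omega
  unfold blockM leadM
  rw [Matrix.transpose_apply, Matrix.submatrix_apply, Matrix.of_apply, Matrix.submatrix_apply, Matrix.of_apply]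
  have h1 := pow_gen hJ hd l.1 ⟨j - 1, hj⟩
  have h2 := pow_gen hJ hd k.1 ⟨j - 1, hj'⟩
  simp only at h1 h2
  have e : (Fin.rev (⟨j - 1, hj⟩ : Fin (d l.1))) = ⟨0, hd l.1⟩ := by
    apply Fin.ext
    simp only [Fin.val_rev]
    have := hd l.1
    omega
  have e' : (Fin.rev (⟨j - 1, hj'⟩ : Fin (d k.1))) = ⟨0, hd k.1⟩ := by
    apply Fin.ext
    simp only [Fin.val_rev]
    have := hd k.1
    omega
  have h3 := B0_left (b := b) (c' (gen b hd k.1)) l.1 ⟨j - 1, hj⟩
  rw [e] at h3
  have e2 : d l.1 - 1 - (j - 1) = 0 := by omega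
  simp only [e2, pow_zero, one_mul] at h3
  rw [← h3, ← h1, h, ← Module.End.mul_apply, (hc.pow_right _).eq, Module.End.mul_apply]
  have h4 := (B0_skew hJ).pow (j - 1) (gen b hd k.1) (c (gen b hd l.1))
  have h5 : ((-N) ^ (j - 1)) = ((-1 : F) ^ (j - 1)) • N ^ (j - 1) := by
    rw [← neg_one_smul F N, _root_.smul_pow]
  rw [h5, LinearMap.smul_apply, map_smul, smul_eq_mul, h2, B0_right, e'] at h4
  simp only at h4
  exact (mul_left_cancel₀ (pow_ne_zero _ (neg_ne_zero.2 one_ne_zero)) h4).symm

end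

end Cfsg.Agent.H43
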