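import Mathlib
import Cfsg.Agent.H43.NilForm

set_option autoImplicit false
set_option linter.unusedSectionVars false
set_option linter.unusedVariables false

/-! Classification of forms with a nilpotent skew-adjoint endomorphism. -/

namespace Cfsg.Agent.H43

open Polynomial

/-- unipotent elements have square roots among their powers -/
theorem exists_sqrt_unipR {F R : Type*} [Field F] [Finite F] [Ring R] [Algebra F R] (h2 : (2 : F) ≠ 0) (r : R) (h : IsNilpotent (r - 1)) :
    ∃ m : ℕ, r ^ m * r ^ m = r := by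
  obtain ⟨p, hp⟩ := CharP.exists F
  have hp' : p.Prime := CharP.char_is_prime F p
  have : Fact p.Prime := ⟨hp'⟩
  have hodd : p ≠ 2 := by
    rintro rfl
    apply h2
    have := CharP.cast_eq_zero F 2
    exact_mod_cast this
  obtain ⟨M, hM⟩ := h
  have h1 : (X - 1 : F[X]) ^ (p ^ M) = X ^ (p ^ M) - 1 := by
    have := sub_pow_char_pow (R := F[X]) (p := p) (n := M) X 1
    rw [one_pow] at this
    exact this
  have h3 := congrArg (Polynomial.aeval r) h1
  rw [map_pow, map_sub, map_sub, aeval_X, map_one, map_pow, aeval_X] at h3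
  have h4 : (r - 1) ^ (p ^ M) = 0 := by
    obtain ⟨e, he⟩ : ∃ e, p ^ M = M + e := ⟨p ^ M - M, by have := Nat.lt_pow_self hp'.one_lt (n := M); omega⟩
    rw [he, pow_add, hM, zero_mul]
  rw [h4] at h3
  have h5 : r ^ (p ^ M) = 1 := (sub_eq_zero.1 h3.symm)
  have h6 : Odd (p ^ M) := (hp'.odd_of_ne_two hodd).pow
  obtain ⟨m, hm⟩ := h6
  refine ⟨m + 1, ?_⟩
  rw [← pow_add]
  have h7 : m + 1 + (m + 1) = p ^ M + 1 := by omega
  rw [h7, pow_succ, h5, one_mul]

section
variable {F : Type*} {V : Type*} [Field F] [AddCommGroup V] [Module F V] [FiniteDimensional F V]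
  {ι : Type*} [Fintype ι] [DecidableEq ι] {d : ι → ℕ} {N : Module.End F V}
  {b : Module.Basis ((k : ι) × Fin (d k)) F V}

theorem blockM_sub (b : Module.Basis ((k : ι) × Fin (d k)) F V) (hd : ∀ k, 1 ≤ d k) (c c' : Module.End F V) (j : ℕ) :
    blockM b hd (c - c') j = blockM b hd c j - blockM b hd c' j := by
  ext l k
  change (b.repr ((c - c') (gen b hd k.1))) ⟨l.1, ⟨0, hd l.1⟩⟩ = _
  rw [LinearMap.sub_apply, map_sub]
  rfl

theorem blockM_pow (hJ : JB N d b) (hd : ∀ k, 1 ≤ d k) {c : Module.End F V} (hc : Commute c N) (j n : ℕ) :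
    blockM b hd (c ^ n) j = blockM b hd c j ^ n := by
  induction n with
  | zero => rw [pow_zero, pow_zero, blockM_one hJ]
  | succ n ih => rw [pow_succ, pow_succ, blockM_mul hJ hd (hc.pow_left n) hc, ih]

/-- elements of the commutant with vanishing blocks are nilpotent -/
theorem nilpotent_of_blocks [Finite F] (hJ : JB N d b) (hd : ∀ k, 1 ≤ d k) {c : Module.End F V} (hc : Commute c N)
    (h : ∀ j, blockM b hd c j = 0) : IsNilpotent c := by
  have hfin : Finite (Module.End F V) := by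
    have : Finite V := Module.finite_of_finite F
    exact Finite.of_injective (fun f : Module.End F V => (f : V → V)) DFunLike.coe_injective
  -- an idempotent power
  obtain ⟨n, hn, he⟩ : ∃ n : ℕ, 1 ≤ n ∧ c ^ n * c ^ n = c ^ n := by
    have hR : Finite (Algebra.adjoin F {c}) := Subtype.finite
    let R := Algebra.adjoinCommRingOfComm F (s := {c}) (by
      intro a ha b hb
      rw [Set.mem_singleton_iff.1 ha, Set.mem_singleton_iff.1 hb])
    obtain ⟨n, hn, he⟩ := @exists_idem_pow _ R hR (⟨c, Algebra.subset_adjoin rfl⟩ : Algebra.adjoin F {c})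
    exact ⟨n, hn, congrArg Subtype.val he⟩
  refine ⟨n, ?_⟩
  have h1 : ∀ j, blockM b hd (c ^ n) j = 0 := by
    intro j
    rw [blockM_pow hJ hd hc, h, zero_pow (by omega)]
  have h2 : IsUnit (1 - c ^ n) := by
    rw [isUnit_iff_block hJ hd ((Commute.one_left N).sub_left (hc.pow_left n))]
    intro j
    rw [blockM_sub, blockM_one hJ, h1, sub_zero]
    exact isUnit_one
  have h3 : (1 - c ^ n) * c ^ n = 0 := by rw [sub_mul, one_mul, he, sub_self]
  exact (h2.mul_right_eq_zero).1 h3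

/-- congruent layers give isometric forms -/
theorem nil_congr [Finite F] (h2 : (2 : F) ≠ 0) (hJ : JB N d b) (hd : ∀ k, 1 ≤ d k) {ε : F} (hε : ε * ε = 1) {B B' : LinearMap.BilinForm F V}
    (hs : ∀ x y, B y x = ε * B x y) (hs' : ∀ x y, B' y x = ε * B' x y)
    (hnd : ∀ x, (∀ y, B x y = 0) → x = 0) (hnd' : ∀ x, (∀ y, B' x y = 0) → x = 0)
    (hB : IsAdj B N (-N)) (hB' : IsAdj B' N (-N))
    (h : ∀ j, ∃ C : Matrix {k // d k = j} {k // d k = j} F, IsUnit C.det ∧ C.transpose * GM b hd N B j * C = GM b hd N B' j) :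
    ∃ c : Module.End F V, IsUnit c ∧ Commute c N ∧ ∀ x y, B' x y = B (c x) (c y) := by
  obtain ⟨a, ha⟩ := exists_repr (b := b) B
  obtain ⟨a', ha'⟩ := exists_repr (b := b) B'
  have hac := repr_commute hJ hB ha
  have hac' := repr_commute hJ hB' ha'
  have hau := repr_inj hnd ha
  have hau' := repr_inj hnd' ha'
  choose C hC1 hC2 using h
  obtain ⟨D, hD⟩ : ∃ D, ∀ k, d k < D := ⟨∑ k, d k + 1, fun k => Nat.lt_succ_of_le (Finset.single_le_sum (f := d) (fun _ _ => Nat.zero_le _) (Finset.mem_univ k))⟩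
  obtain ⟨⟨c₀, hc₀⟩, hc₀'⟩ := piN_surjective hJ hd D hD (fun j => C j)
  have hc₀N : Commute c₀ N := hc₀
  have hblock : ∀ j, blockM b hd c₀ j = C j := by
    intro j
    by_cases hj : j < D
    · exact congrFun hc₀' ⟨j, hj⟩
    · have : IsEmpty {k // d k = j} := ⟨fun k => hj (k.2 ▸ hD k.1)⟩
      ext l
      exact this.elim l
  have hc₀u : IsUnit c₀ := by
    rw [isUnit_iff_block hJ hd hc₀N]
    intro j
    rw [hblock, Matrix.isUnit_iff_isUnit_det]
    exact hC1 j
  -- adjoint of c₀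
  obtain ⟨c₁, hc₁⟩ := exists_repr (b := b) ((B0 b).compl₂ c₀)
  have hadj : IsAdj (B0 b) c₁ c₀ := by
    intro x y
    rw [← hc₁]; rfl
  have hc₁N : Commute c₁ N := by
    apply B0_unique (b := b)
    intro x y
    rw [Module.End.mul_apply, Module.End.mul_apply, hadj, B0_skew hJ, B0_skew hJ, hadj]
    congr 1
    rw [LinearMap.neg_apply, LinearMap.neg_apply, map_neg, ← Module.End.mul_apply, ← Module.End.mul_apply, hc₀N.eq]
  obtain ⟨a₂, ha₂⟩ : ∃ a₂, a₂ = c₁ * a * c₀ := ⟨_, rfl⟩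
  have ha₂B : ∀ x y, B (c₀ x) (c₀ y) = B0 b (a₂ x) y := by
    intro x y
    rw [ha, ha₂, Module.End.mul_apply, Module.End.mul_apply, hadj]
  have ha₂c : Commute a₂ N := by rw [ha₂]; exact (hc₁N.mul_left hac).mul_left hc₀N
  have hnd₂ : ∀ x, (∀ y, B (c₀ x) (c₀ y) = 0) → x = 0 := by
    intro x hx
    have hbij := (Module.End.isUnit_iff _).1 hc₀u
    have h3 : c₀ x = 0 := hnd _ (fun y => by
      obtain ⟨y, rfl⟩ := hbij.2 y
      exact hx y)
    exact hbij.1 (h3.trans (map_zero c₀).symm)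
  have ha₂u : IsUnit a₂ := by
    rw [Module.End.isUnit_iff]
    have hinj : Function.Injective a₂ := by
      rw [injective_iff_map_eq_zero]
      intro x hx
      apply hnd₂
      intro y
      rw [ha₂B, hx, map_zero, LinearMap.zero_apply]
    exact ⟨hinj, LinearMap.surjective_of_injective hinj⟩
  have hblocks : ∀ j, blockM b hd a₂ j = blockM b hd a' j := by
    intro j
    have e1 := GM_eq hJ hd ha j
    have e2 := GM_eq hJ hd ha' j
    have e3 := hC2 j
    rw [e1, e2] at e3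
    have e4 := congrArg Matrix.transpose e3
    rw [Matrix.transpose_mul, Matrix.transpose_mul, Matrix.transpose_transpose, Matrix.transpose_transpose, Matrix.transpose_transpose] at e4
    rw [ha₂, blockM_mul hJ hd (hc₁N.mul_left hac) hc₀N, blockM_mul hJ hd hc₁N hac, blockM_adj hJ hd hc₀N hadj, hblock, ← e4, Matrix.mul_assoc]
  obtain ⟨u₂, rfl⟩ := ha₂u
  obtain ⟨r, hr⟩ : ∃ r : Module.End F V, r = ((u₂⁻¹ : (Module.End F V)ˣ) : Module.End F V) * a' := ⟨_, rfl⟩
  have hru : (u₂ : Module.End F V) * r = a' := by rw [hr, ← mul_assoc, Units.mul_inv, one_mul]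
  have hrN : Commute r N := by
    rw [hr]
    exact (ha₂c.units_inv_left).mul_left hac'
  have hrblock : ∀ j, blockM b hd r j = 1 := by
    intro j
    have e1 : blockM b hd ((u₂ : Module.End F V) * r) j = blockM b hd a' j := by rw [hru]
    rw [blockM_mul hJ hd ha₂c hrN, ← hblocks] at e1
    have e2 : IsUnit (blockM b hd (u₂ : Module.End F V) j) := (isUnit_iff_block hJ hd ha₂c).1 u₂.isUnit j
    have e3 : blockM b hd (u₂ : Module.End F V) j * blockM b hd r j = blockM b hd (u₂ : Module.End F V) j * 1 := by rw [e1, mul_one]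
    exact e2.mul_left_cancel e3
  have hrnil : IsNilpotent (r - 1) := by
    apply nilpotent_of_blocks hJ hd (hrN.sub_left (Commute.one_left N))
    intro j
    rw [blockM_sub, blockM_one hJ, hrblock, sub_self]
  have hBr : ∀ x y, B' x y = B (c₀ (r x)) (c₀ y) := by
    intro x y
    rw [ha₂B, ← Module.End.mul_apply, hru, ha']
  have hself : ∀ x y, B (c₀ (r x)) (c₀ y) = B (c₀ x) (c₀ (r y)) := by
    intro x y
    rw [← hBr, hs', hBr, ← hs]
  have hselfp : ∀ (m : ℕ) x y, B (c₀ ((r ^ m) x)) (c₀ y) = B (c₀ x) (c₀ ((r ^ m) y)) := by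
    intro m
    induction m with
    | zero => intro x y; rfl
    | succ m ih =>
      intro x y
      have e1 : (r ^ (m + 1)) x = (r ^ m) (r x) := by rw [pow_succ]; rfl
      have e2 : (r ^ (m + 1)) y = r ((r ^ m) y) := by rw [pow_succ']; rfl
      rw [e1, e2, ih, hself]
  obtain ⟨m, hm⟩ := exists_sqrt_unipR (F := F) h2 r hrnil
  have hruu : IsUnit r := by
    rw [hr]
    exact (u₂⁻¹).isUnit.mul hau'
  refine ⟨c₀ * r ^ m, hc₀u.mul (hruu.pow m), hc₀N.mul_left (hrN.pow_left m), ?_⟩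
  intro x y
  rw [hBr, Module.End.mul_apply, Module.End.mul_apply, ← hselfp]
  conv_lhs => rw [← hm]
  rw [Module.End.mul_apply]

/-- symmetry of the layers -/
theorem GM_transpose (hd : ∀ k, 1 ≤ d k) {ε : F} {B : LinearMap.BilinForm F V}
    (hs : ∀ x y, B y x = ε * B x y) (hB : IsAdj B N (-N)) (j : ℕ) : (GM b hd N B j).transpose = (ε * (-1) ^ (j - 1)) • GM b hd N B j := by
  ext k l
  unfold GM
  rw [Matrix.transpose_apply, Matrix.of_apply, Matrix.smul_apply, Matrix.of_apply, smul_eq_mul, hs]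
  have h4 := hB.pow (j - 1) (gen b hd k.1) (gen b hd l.1)
  have h5 : ((-N) ^ (j - 1)) = ((-1 : F) ^ (j - 1)) • N ^ (j - 1) := by
    rw [← neg_one_smul F N, _root_.smul_pow]
  rw [h5, LinearMap.smul_apply, map_smul, smul_eq_mul] at h4
  rw [h4, mul_assoc]

theorem GM_det_isUnit (hJ : JB N d b) (hd : ∀ k, 1 ≤ d k) {B : LinearMap.BilinForm F V}
    (hnd : ∀ x, (∀ y, B x y = 0) → x = 0) (hB : IsAdj B N (-N)) (j : ℕ) : IsUnit (GM b hd N B j).det := by
  obtain ⟨a, ha⟩ := exists_repr (b := b) B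
  rw [GM_eq hJ hd ha j, Matrix.det_transpose, ← Matrix.isUnit_iff_isUnit_det]
  exact (isUnit_iff_block hJ hd (repr_commute hJ hB ha)).1 (repr_inj hnd ha) j

/-- classification by discriminants -/
theorem nil_classify [Finite F] (h2 : (2 : F) ≠ 0) (hJ : JB N d b) (hd : ∀ k, 1 ≤ d k) {ε : F} (hε : ε = 1 ∨ ε = -1) {B B' : LinearMap.BilinForm F V}
    (hs : ∀ x y, B y x = ε * B x y) (hs' : ∀ x y, B' y x = ε * B' x y)
    (hnd : ∀ x, (∀ y, B x y = 0) → x = 0) (hnd' : ∀ x, (∀ y, B' x y = 0) → x = 0)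
    (hB : IsAdj B N (-N)) (hB' : IsAdj B' N (-N))
    (h : ∀ j, ε * (-1) ^ (j - 1) = 1 → (IsSquare (GM b hd N B j).det ↔ IsSquare (GM b hd N B' j).det)) :
    ∃ c : Module.End F V, IsUnit c ∧ Commute c N ∧ ∀ x y, B' x y = B (c x) (c y) := by
  apply nil_congr h2 hJ hd (by rcases hε with rfl | rfl <;> ring) hs hs' hnd hnd' hB hB'
  intro j
  have h3 : ε * (-1) ^ (j - 1) = 1 ∨ ε * (-1) ^ (j - 1) = -1 := by
    rcases hε with rfl | rfl <;> rcases neg_one_pow_eq_or F (j - 1) with h4 | h4 <;> rw [h4]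
    · left; ring
    · right; ring
    · right; ring
    · left; ring
  have t1 := GM_transpose (b := b) hd hs hB j
  have t2 := GM_transpose (b := b) hd hs' hB' j
  rcases h3 with h3 | h3
  · rw [h3, one_smul] at t1 t2
    exact symm_congr h2 t1 t2 (GM_det_isUnit hJ hd hnd hB j) (GM_det_isUnit hJ hd hnd' hB' j) (h j h3)
  · rw [h3, neg_one_smul] at t1 t2
    exact alt_congr h2 t1 t2 (GM_det_isUnit hJ hd hnd hB j) (GM_det_isUnit hJ hd hnd' hB' j)

theorem even_layer (h2 : (2 : F) ≠ 0) (hJ : JB N d b) (hd : ∀ k, 1 ≤ d k) {ε : F} {B : LinearMap.BilinForm F V}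
    (hs : ∀ x y, B y x = ε * B x y) (hnd : ∀ x, (∀ y, B x y = 0) → x = 0) (hB : IsAdj B N (-N)) (j : ℕ) (h : ε * (-1) ^ (j - 1) = -1) :
    Even (Fintype.card {k // d k = j}) := by
  have t1 := GM_transpose (b := b) hd hs hB j
  rw [h, neg_one_smul] at t1
  exact even_card_of_skew h2 t1 (GM_det_isUnit hJ hd hnd hB j)

end

end Cfsg.Agent.H43
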