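import Mathlib
import Cfsg.Agent.H43.NilForm2

set_option autoImplicit false
set_option linter.unusedSectionVars false
set_option linter.unusedVariables false

/-! Determinants of elements commuting with a nilpotent endomorphism. -/

namespace Cfsg.Agent.H43

section
variable {F : Type*} {V : Type*} [Field F] [AddCommGroup V] [Module F V] [FiniteDimensional F V]
  {ι : Type*} [Fintype ι] [DecidableEq ι] {d : ι → ℕ} {N : Module.End F V}
  {b : Module.Basis ((k : ι) × Fin (d k)) F V}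

/-- ordering of the Jordan basis -/
def bet (d : ι → ℕ) (x : (k : ι) × Fin (d k)) : ℤ ×ₗ ℤ := toLex ((d x.1 : ℤ) - 2 * ((x.2 : ℕ) : ℤ), (d x.1 : ℤ))

theorem bet_eq_iff (x y : (k : ι) × Fin (d k)) : bet d x = bet d y ↔ d x.1 = d y.1 ∧ (x.2 : ℕ) = (y.2 : ℕ) := by
  unfold bet
  rw [EmbeddingLike.apply_eq_iff_eq, Prod.mk.injEq]
  omega

theorem repr_comm_zero (hJ : JB N d b) (hd : ∀ k, 1 ≤ d k) {c : Module.End F V} (hc : Commute c N) (k l : ι) (i : Fin (d l))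
    (h : (i : ℕ) + d k < d l) : (b.repr (c (gen b hd k))) ⟨l, i⟩ = 0 := by
  have h1 : (N ^ (d k)) (c (gen b hd k)) = 0 := by
    rw [← Module.End.mul_apply, ← (hc.pow_right _).eq, Module.End.mul_apply, pow_gen_zero hJ hd, map_zero]
  have h2 := repr_pow hJ (d k) (c (gen b hd k)) l ⟨(i : ℕ) + d k, h⟩
  rw [h1, dif_pos (Nat.le_add_left _ _), map_zero] at h2
  have e : (⟨((⟨(i : ℕ) + d k, h⟩ : Fin (d l)) : ℕ) - d k, by simp⟩ : Fin (d l)) = i := Fin.ext (by simp)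
  rw [e] at h2
  exact h2.symm

theorem toMatrix_comm (hJ : JB N d b) (hd : ∀ k, 1 ≤ d k) {c : Module.End F V} (hc : Commute c N) (x y : (k : ι) × Fin (d k)) :
    LinearMap.toMatrix b b c x y = if h : (y.2 : ℕ) ≤ (x.2 : ℕ) then (b.repr (c (gen b hd y.1))) ⟨x.1, ⟨(x.2 : ℕ) - (y.2 : ℕ), by have := x.2.2; omega⟩⟩ else 0 := by
  rw [LinearMap.toMatrix_apply]
  obtain ⟨k, i⟩ := y
  obtain ⟨l, m⟩ := x
  rw [apply_basis hJ hd hc, repr_pow hJ]

theorem blockTriangular_comm (hJ : JB N d b) (hd : ∀ k, 1 ≤ d k) {c : Module.End F V} (hc : Commute c N) :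
    Matrix.BlockTriangular (LinearMap.toMatrix b b c) (bet d) := by
  intro x y hxy
  rw [toMatrix_comm hJ hd hc]
  split_ifs with h
  · by_contra h1
    have h2 : ¬ (((x.2 : ℕ) - (y.2 : ℕ)) + d y.1 < d x.1) := by
      intro h3
      exact h1 (repr_comm_zero hJ hd hc y.1 x.1 ⟨(x.2 : ℕ) - (y.2 : ℕ), by have := x.2.2; omega⟩ h3)
    unfold bet at hxy
    rw [Prod.Lex.toLex_lt_toLex] at hxy
    simp only at hxy
    omega
  · rfl

theorem det_block (hJ : JB N d b) (hd : ∀ k, 1 ≤ d k) {c : Module.End F V} (hc : Commute c N) (k₀ : ι) (i₀ : Fin (d k₀)) :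
    (Matrix.toSquareBlock (LinearMap.toMatrix b b c) (bet d) (bet d ⟨k₀, i₀⟩)).det = (blockM b hd c (d k₀)).det := by
  have hlt : ∀ k : {k // d k = d k₀}, (i₀ : ℕ) < d k.1 := fun k => by have := k.2; have := i₀.2; omega
  let e : {k // d k = d k₀} ≃ {x // bet d x = bet d ⟨k₀, i₀⟩} :=
    { toFun := fun k => ⟨⟨k.1, ⟨(i₀ : ℕ), hlt k⟩⟩, (bet_eq_iff _ _).2 ⟨k.2, rfl⟩⟩
      invFun := fun x => ⟨x.1.1, ((bet_eq_iff _ _).1 x.2).1⟩
      left_inv := fun k => rfl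
      right_inv := fun x => by
        apply Subtype.ext
        obtain ⟨⟨k, i⟩, hx⟩ := x
        have h1 := ((bet_eq_iff _ _).1 hx).2
        simp only at h1 ⊢
        congr 1
        exact Fin.ext h1.symm }
  rw [← Matrix.det_submatrix_equiv_self e]
  congr 1
  ext l k
  rw [Matrix.submatrix_apply, Matrix.toSquareBlock_def, Matrix.of_apply, toMatrix_comm hJ hd hc]
  have hle : ((e k).1.2 : ℕ) ≤ ((e l).1.2 : ℕ) := le_refl _
  rw [dif_pos hle]
  have e3 : (⟨((e l).1.2 : ℕ) - ((e k).1.2 : ℕ), by have := (e l).1.2.2; omega⟩ : Fin (d (e l).1.1)) = ⟨0, hd (e l).1.1⟩ :=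
    Fin.ext (Nat.sub_self _)
  rw [e3]
  rfl

theorem det_comm (hJ : JB N d b) (hd : ∀ k, 1 ≤ d k) {c : Module.End F V} (hc : Commute c N) (D : ℕ) (hD : ∀ k, d k < D) :
    LinearMap.det c = ∏ j ∈ Finset.range D, (blockM b hd c j).det ^ j := by
  classical
  rw [← LinearMap.det_toMatrix b, (blockTriangular_comm hJ hd hc).det]
  have h1 : ∀ j ∈ Finset.range D, (blockM b hd c j).det ^ j = ∏ i ∈ Finset.range j, (blockM b hd c j).det := by
    intro j _
    rw [Finset.prod_const, Finset.card_range]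
  rw [Finset.prod_congr rfl h1, Finset.prod_sigma']
  symm
  -- restrict to the layers that occur
  obtain ⟨S, hS⟩ : ∃ S : Finset ((_ : ℕ) × ℕ), S = ((Finset.range D).sigma (fun j => Finset.range j)).filter (fun x => ∃ k, d k = x.1) := ⟨_, rfl⟩
  have h2 : ∏ x ∈ (Finset.range D).sigma (fun j => Finset.range j), (blockM b hd c x.1).det = ∏ x ∈ S, (blockM b hd c x.1).det := by
    symm
    rw [hS]
    apply Finset.prod_subset (Finset.filter_subset _ _)
    intro x hx hx'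
    have : IsEmpty {k // d k = x.1} := ⟨fun k => hx' (Finset.mem_filter.2 ⟨hx, k.1, k.2⟩)⟩
    exact Matrix.det_isEmpty
  rw [h2]
  refine Finset.prod_bij (fun x _ => (toLex ((x.1 : ℤ) - 2 * (x.2 : ℤ), (x.1 : ℤ)) : ℤ ×ₗ ℤ)) ?_ ?_ ?_ ?_
  · intro x hx
    rw [hS, Finset.mem_filter, Finset.mem_sigma, Finset.mem_range, Finset.mem_range] at hx
    obtain ⟨⟨h3, h4⟩, k, hk⟩ := hx
    rw [Finset.mem_image]
    refine ⟨⟨k, ⟨x.2, by omega⟩⟩, Finset.mem_univ _, ?_⟩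
    unfold bet
    simp only [hk]
  · intro x hx y hy hxy
    rw [EmbeddingLike.apply_eq_iff_eq, Prod.mk.injEq] at hxy
    obtain ⟨x1, x2⟩ := x
    obtain ⟨y1, y2⟩ := y
    simp only at hxy
    have e1 : x1 = y1 := by omega
    have e2 : x2 = y2 := by omega
    rw [e1, e2]
  · intro v hv
    rw [Finset.mem_image] at hv
    obtain ⟨⟨k, i⟩, _, rfl⟩ := hv
    refine ⟨⟨d k, (i : ℕ)⟩, ?_, rfl⟩
    rw [hS, Finset.mem_filter, Finset.mem_sigma, Finset.mem_range, Finset.mem_range]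
    exact ⟨⟨hD k, i.2⟩, k, rfl⟩
  · intro x hx
    rw [hS, Finset.mem_filter, Finset.mem_sigma, Finset.mem_range, Finset.mem_range] at hx
    obtain ⟨⟨h3, h4⟩, k, hk⟩ := hx
    have h5 := det_block hJ hd hc k ⟨x.2, by omega⟩
    have h6 : (toLex ((x.1 : ℤ) - 2 * (x.2 : ℤ), (x.1 : ℤ)) : ℤ ×ₗ ℤ) = bet d ⟨k, ⟨x.2, by omega⟩⟩ := by
      unfold bet
      simp only [hk]
    rw [h6, h5, hk]

end

end Cfsg.Agent.H43
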