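import Mathlib
import Cfsg.Agent.H43.NilDet
import Cfsg.Agent.H43.BlockSum

set_option autoImplicit false
set_option linter.unusedSectionVars false
set_option linter.unusedVariables false

/-! Invariant forms of unipotent matrices. -/

namespace Cfsg.Agent.H43

section
variable {F : Type*} [Field F] {ι : Type*} [Fintype ι] [DecidableEq ι]

/-- invertible `ε`-symmetric forms invariant under `A` -/
def InvForm (ε : F) (A : GL ι F) (J : Matrix ι ι F) : Prop :=
  J.transpose = ε • J ∧ IsUnit J.det ∧ (A : Matrix ι ι F).transpose * J * (A : Matrix ι ι F) = J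

/-- `D` separates the orbits of the centralizer on invariant forms -/
def DProp (ε : F) (A : GL ι F) {β : Type*} (D : Matrix ι ι F → β) : Prop :=
  ∀ J J', InvForm ε A J → InvForm ε A J' → D J = D J' →
    ∃ c : GL ι F, c * A = A * c ∧ (c : Matrix ι ι F).transpose * J * (c : Matrix ι ι F) = J'

theorem quad_lemma [Fintype F] [DecidableEq F] (D : ℕ) (r : ℕ → F) (hr : ∀ j, r j ≠ 0) (j₀ : ℕ) (hj₀ : j₀ < D) (hodd : Odd j₀)
    (hns : ¬ IsSquare (r j₀)) (hs : ∀ j, Odd j → j ≠ j₀ → IsSquare (r j)) : ¬ IsSquare (∏ j ∈ Finset.range D, r j ^ j) := by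
  intro hsq
  have h1 : quadraticChar F (∏ j ∈ Finset.range D, r j ^ j) = -1 := by
    rw [map_prod, Finset.prod_eq_single j₀]
    · rw [map_pow, quadraticChar_neg_one_iff_not_isSquare.2 hns, hodd.neg_one_pow]
    · intro j _ hj
      rw [map_pow]
      rcases Nat.even_or_odd j with h2 | h2
      · obtain ⟨m, rfl⟩ := h2
        rw [pow_add, ← mul_pow, ← sq, quadraticChar_sq_one (hr _), one_pow]
      · rw [(quadraticChar_one_iff_isSquare (hr j)).2 (hs j h2 hj), one_pow]
    · intro h
      exact absurd (Finset.mem_range.2 hj₀) h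
  rw [quadraticChar_neg_one_iff_not_isSquare] at h1
  exact h1 hsq

theorem sq_ratio [Fintype F] [DecidableEq F] {x y r : F} (hx : x ≠ 0) (hr : r ≠ 0) (h : y = x * r) : (IsSquare x ↔ IsSquare y) ↔ IsSquare r := by
  have hy : y ≠ 0 := by rw [h]; exact mul_ne_zero hx hr
  have h1 : quadraticChar F y = quadraticChar F x * quadraticChar F r := by rw [h, map_mul]
  rw [← quadraticChar_one_iff_isSquare hx, ← quadraticChar_one_iff_isSquare hy, ← quadraticChar_one_iff_isSquare hr, h1]
  rcases quadraticChar_dichotomy hx with h2 | h2 <;> rcases quadraticChar_dichotomy hr with h3 | h3 <;> rw [h2, h3] <;> norm_num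

theorem bool_iff {a b : Bool} {p q r : Prop} (ha : a = true ↔ (p ∧ ¬ q)) (hb : b = true ↔ (p ∧ ¬ r)) (hp : p) : (a = b) ↔ (q ↔ r) := by
  rw [Bool.eq_iff_iff, ha, hb]
  constructor
  · intro h
    constructor
    · intro hq
      by_contra hr
      exact (h.2 ⟨hp, hr⟩).2 hq
    · intro hr
      by_contra hq
      exact (h.1 ⟨hp, hq⟩).2 hr
  · intro h
    constructor
    · rintro ⟨h1, h2⟩
      exact ⟨hp, fun h3 => h2 (h.2 h3)⟩
    · rintro ⟨h1, h2⟩
      exact ⟨hp, fun h3 => h2 (h.1 h3)⟩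

set_option maxHeartbeats 4000000 in
theorem unip_forms [Finite F] (h2 : (2 : F) ≠ 0) {ε : F} (hε : ε = 1 ∨ ε = -1) (A : GL ι F) (hA : IsNilpotent ((A : Matrix ι ι F) - 1)) :
    ∃ (t : ℕ) (d : Fin t → ℕ) (D : Matrix ι ι F → ℕ → Bool), (∀ k, 1 ≤ d k) ∧
      (∀ k, Module.finrank F (LinearMap.ker (Matrix.toLin' (((A : Matrix ι ι F) - 1) ^ k))) = ∑ l, min (d l) k) ∧
      DProp ε A D ∧ (∀ J j, D J j = true → (∃ k, d k = j) ∧ ε * (-1) ^ (j - 1) = 1) ∧
      (∀ J, InvForm ε A J → ∀ j, ε * (-1) ^ (j - 1) = -1 → Even (Fintype.card {k // d k = j})) ∧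
      (ε = 1 → ∀ J J', InvForm ε A J → InvForm ε A J' → ∀ j₀, D J j₀ ≠ D J' j₀ → (∀ j, j ≠ j₀ → D J j = D J' j) →
        ¬ IsSquare (J.det * J'.det)) := by
  classical
  have : Fintype F := Fintype.ofFinite F
  -- Cayley transform
  obtain ⟨M, hM⟩ : ∃ M : Matrix ι ι F, M = (A : Matrix ι ι F) := ⟨_, rfl⟩
  rw [← hM] at hA ⊢
  have hu2 : IsUnit ((2 : F) • (1 : Matrix ι ι F)) := by
    rw [← Algebra.algebraMap_eq_smul_one]
    exact (h2.isUnit).map _
  have hU : IsUnit (M + 1) := by
    have e1 : M + 1 = (2 : F) • (1 : Matrix ι ι F) + (M - 1) := by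
      rw [two_smul]; abel
    rw [e1]
    exact hA.isUnit_add_left_of_commute hu2 ((Commute.one_right _).smul_right _)
  obtain ⟨U, hU⟩ := hU
  have hUM : Commute (U : Matrix ι ι F) (M - 1) := by
    rw [hU]
    exact ((Commute.refl M).add_left (Commute.one_left M)).sub_right (Commute.one_right _)
  have hUM' : Commute ((U⁻¹ : (Matrix ι ι F)ˣ) : Matrix ι ι F) (M - 1) := hUM.units_inv_left
  obtain ⟨S, hS⟩ : ∃ S : Matrix ι ι F, S = (M - 1) * ((U⁻¹ : (Matrix ι ι F)ˣ) : Matrix ι ι F) := ⟨_, rfl⟩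
  have hSU : S * (U : Matrix ι ι F) = M - 1 := by rw [hS, mul_assoc, Units.inv_mul, mul_one]
  have hSUc : Commute (U : Matrix ι ι F) S := by
    rw [hS]
    exact hUM.mul_right ((Commute.refl _).units_inv_right)
  have hSn : IsNilpotent S := by
    rw [hS]
    exact hUM'.symm.isNilpotent_mul_right hA
  obtain ⟨N, hN⟩ : ∃ N : Module.End F (ι → F), N = Matrix.toLin' S := ⟨_, rfl⟩
  have hNn : IsNilpotent N := by
    obtain ⟨k, hk⟩ := hSn
    refine ⟨k, ?_⟩
    rw [hN, ← Matrix.toLin'_pow, hk, map_zero]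
  obtain ⟨t, d, b, hd, hJ⟩ := exists_JB N hNn
  -- skewness
  have hskew : ∀ J, InvForm ε A J → S.transpose * J = - (J * S) := by
    intro J hJ'
    have h3 := hJ'.2.2
    rw [← hM] at h3
    have h4 : ((U : Matrix ι ι F)).transpose * (S.transpose * J + J * S) * (U : Matrix ι ι F) = 0 := by
      have e1 : ((U : Matrix ι ι F)).transpose * S.transpose = (M - 1).transpose := by
        rw [← Matrix.transpose_mul, hSU]
      calc ((U : Matrix ι ι F)).transpose * (S.transpose * J + J * S) * (U : Matrix ι ι F)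
          = (((U : Matrix ι ι F)).transpose * S.transpose) * J * (U : Matrix ι ι F) + ((U : Matrix ι ι F)).transpose * J * (S * (U : Matrix ι ι F)) := by
            simp only [mul_add, add_mul, mul_assoc]
        _ = (M - 1).transpose * J * (M + 1) + (M + 1).transpose * J * (M - 1) := by rw [e1, hSU, hU]
        _ = (M.transpose * J * M - J) + (M.transpose * J * M - J) := by
            rw [Matrix.transpose_sub, Matrix.transpose_add, Matrix.transpose_one]
            noncomm_ring
        _ = 0 := by rw [h3, sub_self, add_zero]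
    have h5 : IsUnit ((U : Matrix ι ι F)).transpose := by
      rw [Matrix.isUnit_transpose]
      exact U.isUnit
    have h6 : ((U : Matrix ι ι F)).transpose * (S.transpose * J + J * S) = 0 := by
      have := congrArg (fun z => z * ((U⁻¹ : (Matrix ι ι F)ˣ) : Matrix ι ι F)) h4
      simp only [mul_assoc, Units.mul_inv, mul_one, zero_mul] at this
      exact this
    have h7 : S.transpose * J + J * S = 0 := (h5.mul_right_eq_zero).1 h6
    exact eq_neg_of_add_eq_zero_left h7
  have hadj : ∀ J, InvForm ε A J → IsAdj (bf J) N (-N) := by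
    intro J hJ' x y
    have h3 := hskew J hJ'
    rw [LinearMap.neg_apply, map_neg, hN, Matrix.toLin'_apply, Matrix.toLin'_apply, bf_apply, bf_apply, Matrix.mulVec_mulVec]
    have h4 : dotProduct (S.mulVec x) (J.mulVec y) = dotProduct x ((S.transpose * J).mulVec y) := by
      rw [← Matrix.mulVec_mulVec, Matrix.dotProduct_mulVec x, Matrix.vecMul_transpose]
    rw [h4, h3, Matrix.neg_mulVec, dotProduct_neg]
  have hsym : ∀ J, InvForm ε A J → ∀ x y, bf J y x = ε * bf J x y := fun J hJ' x y => bf_symm hJ'.1 x y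
  have hnd : ∀ J, InvForm ε A J → ∀ x, (∀ y, bf J x y = 0) → x = 0 := fun J hJ' x hx => bf_nondeg hJ'.2.1 x hx
  obtain ⟨D, hD⟩ : ∃ D : Matrix ι ι F → ℕ → Bool, ∀ J j, D J j = true ↔ (ε * (-1) ^ (j - 1) = 1 ∧ ¬ IsSquare (GM b hd N (bf J) j).det) :=
    ⟨fun J j => decide (ε * (-1) ^ (j - 1) = 1 ∧ ¬ IsSquare (GM b hd N (bf J) j).det), fun J j => by rw [decide_eq_true_iff]⟩
  have hDk : ∀ J j, D J j = true → (∃ k, d k = j) ∧ ε * (-1) ^ (j - 1) = 1 := by
    intro J j h
    obtain ⟨h3, h4⟩ := (hD J j).1 h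
    refine ⟨?_, h3⟩
    by_contra hcon
    have : IsEmpty {k // d k = j} := ⟨fun k => hcon ⟨k.1, k.2⟩⟩
    apply h4
    rw [Matrix.det_isEmpty]
    exact ⟨1, by ring⟩
  refine ⟨t, d, D, hd, ?_, ?_, hDk, ?_, ?_⟩
  · intro k
    rw [← finrank_ker_powN hJ k, hN, ← Matrix.toLin'_pow]
    have e1 : (M - 1) ^ k = (U : Matrix ι ι F) ^ k * S ^ k := by
      rw [← hSUc.mul_pow, hSUc.eq, hSU]
    rw [e1]
    exact finrank_ker_mul_left (U.isUnit.pow k)
  · intro J J' hJ1 hJ2 hDD
    obtain ⟨c, hc1, hc2, hc3⟩ := nil_classify h2 hJ hd hε (hsym J hJ1) (hsym J' hJ2) (hnd J hJ1) (hnd J' hJ2) (hadj J hJ1) (hadj J' hJ2) (by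
      intro j hj
      exact (bool_iff (hD J j) (hD J' j) hj).1 (congrFun hDD j))
    obtain ⟨C, hC⟩ : ∃ C : Matrix ι ι F, Matrix.toLin' C = c := ⟨LinearMap.toMatrix' c, Matrix.toLin'_toMatrix' c⟩
    have hCu : IsUnit C := by
      rw [Matrix.isUnit_iff_isUnit_det, ← LinearMap.det_toLin', hC]
      exact hc1.map LinearMap.det
    obtain ⟨C, rfl⟩ := hCu
    refine ⟨C, ?_, ?_⟩
    · have h3 : (C : Matrix ι ι F) * S = S * (C : Matrix ι ι F) := by
        apply (Matrix.toLin' (R := F) (m := ι) (n := ι)).injective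
        rw [Matrix.toLin'_mul, Matrix.toLin'_mul, hC, ← hN]
        exact hc2
      -- (1 - S) M = 1 + S
      have h4 : (1 - S) * M = 1 + S := by
        have h5 := hSU
        rw [hU, mul_add, mul_one] at h5
        rw [sub_mul, one_mul]
        have h6 : S * M = M - 1 - S := by rw [← h5]; abel
        rw [h6]; abel
      have h5 : IsUnit (1 - S) := hSn.isUnit_one_sub
      apply Units.ext
      rw [Units.val_mul, Units.val_mul, ← hM]
      have h6 : (1 - S) * ((C : Matrix ι ι F) * M - M * (C : Matrix ι ι F)) = 0 := by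
        calc (1 - S) * ((C : Matrix ι ι F) * M - M * (C : Matrix ι ι F))
            = (C : Matrix ι ι F) * ((1 - S) * M) - (S * (C : Matrix ι ι F) - (C : Matrix ι ι F) * S) * M - ((1 - S) * M) * (C : Matrix ι ι F) := by noncomm_ring
          _ = (C : Matrix ι ι F) * (1 + S) - (1 + S) * (C : Matrix ι ι F) := by rw [h4, h3, sub_self, zero_mul, sub_zero]
          _ = (C : Matrix ι ι F) * S - S * (C : Matrix ι ι F) := by noncomm_ring
          _ = 0 := by rw [h3, sub_self]
      exact sub_eq_zero.1 ((h5.mul_right_eq_zero).1 h6)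
    · apply bf_ext
      intro x y
      rw [← bf_mulVec, hc3, ← hC]
      rfl
  · intro J hJ1 j hj
    exact even_layer h2 hJ hd (hsym J hJ1) (hnd J hJ1) (hadj J hJ1) j hj
  · intro hε1 J J' hJ1 hJ2 j₀ hne hsame
    -- representing endomorphisms
    obtain ⟨a, ha⟩ := exists_repr (b := b) (bf J)
    obtain ⟨a', ha'⟩ := exists_repr (b := b) (bf J')
    have hac := repr_commute hJ (hadj J hJ1) ha
    have hac' := repr_commute hJ (hadj J' hJ2) ha'
    have hau := repr_inj (hnd J hJ1) ha
    have hau' := repr_inj (hnd J' hJ2) ha'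
    obtain ⟨u, rfl⟩ := hau
    obtain ⟨r, hr⟩ : ∃ r : Module.End F (ι → F), r = ((u⁻¹ : (Module.End F (ι → F))ˣ) : Module.End F (ι → F)) * a' := ⟨_, rfl⟩
    have hru : (u : Module.End F (ι → F)) * r = a' := by rw [hr, ← mul_assoc, Units.mul_inv, one_mul]
    have hrN : Commute r N := by
      rw [hr]
      exact (hac.units_inv_left).mul_left hac'
    have hruu : IsUnit r := by
      rw [hr]
      exact (u⁻¹).isUnit.mul hau'
    have hB : ∀ x y, bf J' x y = bf J (r x) y := by
      intro x y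
      rw [ha', ha, ← Module.End.mul_apply, hru]
    have hdet : J'.det = LinearMap.det r * J.det := by
      have e1 : J' = (LinearMap.toMatrix' r).transpose * J := by
        apply bf_ext
        intro x y
        have e2 : (LinearMap.toMatrix' r).mulVec x = r x := by rw [← Matrix.toLin'_apply, Matrix.toLin'_toMatrix']
        rw [hB, bf_apply, bf_apply, ← Matrix.mulVec_mulVec, Matrix.dotProduct_mulVec x, Matrix.vecMul_transpose, e2]
      rw [e1, Matrix.det_mul, Matrix.det_transpose, LinearMap.det_toMatrix']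
    obtain ⟨E, hE⟩ : ∃ E, ∀ k, d k < E := ⟨∑ k, d k + 1, fun k => Nat.lt_succ_of_le (Finset.single_le_sum (f := d) (fun _ _ => Nat.zero_le _) (Finset.mem_univ k))⟩
    have hGM : ∀ j, (GM b hd N (bf J') j).det = (GM b hd N (bf J) j).det * (blockM b hd r j).det := by
      intro j
      rw [GM_eq hJ hd ha j, GM_eq hJ hd ha' j, Matrix.det_transpose, Matrix.det_transpose, ← hru, blockM_mul hJ hd hac hrN, Matrix.det_mul]
    have hrj : ∀ j, (blockM b hd r j).det ≠ 0 := by
      intro j
      have h3 := (isUnit_iff_block hJ hd hrN).1 hruu j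
      rw [Matrix.isUnit_iff_isUnit_det] at h3
      exact h3.ne_zero
    have hGj : ∀ j, (GM b hd N (bf J) j).det ≠ 0 := fun j => (GM_det_isUnit hJ hd (hnd J hJ1) (hadj J hJ1) j).ne_zero
    have hpar : ∀ j : ℕ, 1 ≤ j → (ε * (-1) ^ (j - 1) = 1 ↔ Odd j) := by
      intro j hj
      rw [hε1, one_mul]
      obtain ⟨m, rfl⟩ : ∃ m, j = m + 1 := ⟨j - 1, by omega⟩
      rw [Nat.add_sub_cancel]
      rcases Nat.even_or_odd m with h3 | h3
      · rw [h3.neg_one_pow]
        exact ⟨fun _ => h3.add_one, fun _ => rfl⟩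
      · rw [h3.neg_one_pow]
        constructor
        · intro h4
          exfalso
          apply h2
          have : (2 : F) = 1 - (-1) := by ring
          rw [this, h4, sub_self]
        · intro h4
          rw [Nat.odd_add_one] at h4
          exact absurd h3 h4
    have hj₀ : (∃ k, d k = j₀) ∧ ε * (-1) ^ (j₀ - 1) = 1 := by
      by_cases h3 : D J j₀ = true
      · exact hDk J j₀ h3
      · have h4 : D J' j₀ = true := by
          rw [Bool.not_eq_true] at h3
          rw [h3] at hne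
          cases h5 : D J' j₀
          · exact absurd h5.symm hne
          · rfl
        exact hDk J' j₀ h4
    obtain ⟨⟨k₀, hk₀⟩, hj₀'⟩ := hj₀
    have hj1 : 1 ≤ j₀ := hk₀ ▸ hd k₀
    have hj₀odd := (hpar j₀ hj1).1 hj₀'
    have hns : ¬ IsSquare (LinearMap.det r) := by
      rw [det_comm hJ hd hrN E hE]
      apply quad_lemma E _ hrj j₀ (hk₀ ▸ hE k₀) hj₀odd
      · intro h3
        exact hne ((bool_iff (hD J j₀) (hD J' j₀) hj₀').2 ((sq_ratio (hGj j₀) (hrj j₀) (hGM j₀)).2 h3))
      · intro j hjo hjne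
        have h3 := hsame j hjne
        have hj1 : 1 ≤ j := hjo.pos
        exact (sq_ratio (hGj j) (hrj j) (hGM j)).1 ((bool_iff (hD J j) (hD J' j) ((hpar j hj1).2 hjo)).1 h3)
    intro hsq
    apply hns
    rw [hdet] at hsq
    obtain ⟨x, hx⟩ := hsq
    refine ⟨x / J.det, ?_⟩
    have h0 := hJ1.2.1.ne_zero
    field_simp
    rw [← sq] at hx
    linear_combination hx

end

end Cfsg.Agent.H43
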