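import Mathlib
import Cfsg.Agent.H43.UniForm

set_option autoImplicit false
set_option linter.unusedSectionVars false
set_option linter.unusedVariables false

/-! Invariant forms of matrices without eigenvalues `±1`, and block sums. -/

namespace Cfsg.Agent.H43

section
variable {F : Type*} [Field F] {ι : Type*} [Fintype ι] [DecidableEq ι]

theorem stm_id (M : Matrix ι ι F) [Finite F] : stm (RingHom.id F) M = M.transpose := by
  unfold stm
  congr 1

/-- forms of matrices without eigenvalues `±1` are equivalent under the centralizer -/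
theorem gen_forms [Finite F] {ε : F} (A : GL ι F) (hA : IsUnit ((A : Matrix ι ι F) - ((A⁻¹ : GL ι F) : Matrix ι ι F))) (J J' : Matrix ι ι F)
    (hJ : InvForm ε A J) (hJ' : InvForm ε A J') : ∃ c : GL ι F, c * A = A * c ∧ (c : Matrix ι ι F).transpose * J * (c : Matrix ι ι F) = J' := by
  obtain ⟨hs, hu, hinv⟩ := hJ
  obtain ⟨hs', hu', hinv'⟩ := hJ'
  obtain ⟨K, hK⟩ := (Matrix.isUnit_iff_isUnit_det _).2 hu
  subst hK
  obtain ⟨Ki, hKi⟩ : ∃ Ki : Matrix ι ι F, Ki = ((K⁻¹ : (Matrix ι ι F)ˣ) : Matrix ι ι F) := ⟨_, rfl⟩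
  have hK1 : Ki * (K : Matrix ι ι F) = 1 := by rw [hKi]; exact Units.inv_mul K
  have hK2 : (K : Matrix ι ι F) * Ki = 1 := by rw [hKi]; exact Units.mul_inv K
  obtain ⟨M, hM⟩ : ∃ M : Matrix ι ι F, M = (A : Matrix ι ι F) := ⟨_, rfl⟩
  obtain ⟨Mi, hMi⟩ : ∃ Mi : Matrix ι ι F, Mi = ((A⁻¹ : GL ι F) : Matrix ι ι F) := ⟨_, rfl⟩
  have hM1 : Mi * M = 1 := by rw [hM, hMi]; exact Units.inv_mul A
  have hM2 : M * Mi = 1 := by rw [hM, hMi]; exact Units.mul_inv A
  rw [← hM] at hinv hinv'
  rw [← hM, ← hMi] at hA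
  -- ε ≠ 0 (or the type is empty)
  rcases isEmpty_or_nonempty ι with hι | hι
  · refine ⟨1, by rw [one_mul, mul_one], ?_⟩
    ext i; exact hι.elim i
  have hεε : ε * ε = 1 := by
    have h1 := congrArg Matrix.transpose hs
    rw [Matrix.transpose_transpose, Matrix.transpose_smul, hs, smul_smul] at h1
    have h2 : (1 - ε * ε) • (K : Matrix ι ι F) = 0 := by rw [sub_smul, one_smul, ← h1, sub_self]
    have h3 := congrArg (fun z => z * Ki) h2
    simp only [smul_mul_assoc, hK2, zero_mul] at h3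
    obtain ⟨i⟩ := hι
    have h4 := congrFun (congrFun h3 i) i
    rw [Matrix.smul_apply, Matrix.one_apply_eq, smul_eq_mul, mul_one, Matrix.zero_apply] at h4
    exact (sub_eq_zero.1 h4).symm
  -- the involution
  obtain ⟨τ, hτ⟩ : ∃ τ : Matrix ι ι F → Matrix ι ι F, ∀ x, τ x = Ki * x.transpose * (K : Matrix ι ι F) := ⟨_, fun _ => rfl⟩
  have hτmul : ∀ x y, τ (x * y) = τ y * τ x := by
    intro x y
    rw [hτ, hτ, hτ, Matrix.transpose_mul]
    calc Ki * (y.transpose * x.transpose) * (K : Matrix ι ι F) = Ki * y.transpose * 1 * (x.transpose * (K : Matrix ι ι F)) := by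
          rw [mul_one]; simp only [mul_assoc]
      _ = Ki * y.transpose * ((K : Matrix ι ι F) * Ki) * (x.transpose * (K : Matrix ι ι F)) := by rw [hK2]
      _ = _ := by simp only [mul_assoc]
  have hτadd : ∀ x y, τ (x + y) = τ x + τ y := by
    intro x y
    rw [hτ, hτ, hτ, Matrix.transpose_add, mul_add, add_mul]
  have hτ1 : τ 1 = 1 := by rw [hτ, Matrix.transpose_one, mul_one, hK1]
  have hτinj : Function.Injective τ := by
    intro x y h
    rw [hτ, hτ] at h
    have h1 := congrArg (fun z => (K : Matrix ι ι F) * z * Ki) h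
    simp only [mul_assoc, hK2, mul_one] at h1
    rw [← mul_assoc, ← mul_assoc, hK2, one_mul, one_mul] at h1
    exact Matrix.transpose_injective h1
  have hKiT : Ki.transpose = ε • Ki := by
    have h1 : Ki.transpose * (K : Matrix ι ι F).transpose = 1 := by rw [← Matrix.transpose_mul, hK2, Matrix.transpose_one]
    rw [hs, mul_smul_comm] at h1
    calc Ki.transpose = (ε * ε) • Ki.transpose := by rw [hεε, one_smul]
      _ = ε • ((ε • (Ki.transpose * (K : Matrix ι ι F))) * Ki) := by rw [smul_mul_assoc, mul_assoc, hK2, mul_one, smul_smul]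
      _ = ε • Ki := by rw [h1, one_mul]
  have hττ : ∀ x, τ (τ x) = x := by
    intro x
    rw [hτ, hτ, Matrix.transpose_mul, Matrix.transpose_mul, Matrix.transpose_transpose, hs, hKiT]
    simp only [smul_mul_assoc, mul_smul_comm, smul_smul, hεε, one_smul]
    calc Ki * ((K : Matrix ι ι F) * (x * Ki)) * (K : Matrix ι ι F) = (Ki * (K : Matrix ι ι F)) * x * (Ki * (K : Matrix ι ι F)) := by simp only [mul_assoc]
      _ = x := by rw [hK1, one_mul, mul_one]
  have hτM : τ M = Mi := by
    rw [hτ]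
    calc Ki * M.transpose * (K : Matrix ι ι F) = Ki * (M.transpose * (K : Matrix ι ι F) * M) * Mi := by
          simp only [mul_assoc, hM2, mul_one]
      _ = Mi := by rw [hinv, hK1, one_mul]
  -- the comparison element
  obtain ⟨a, ha⟩ : ∃ a : Matrix ι ι F, a = Ki * J' := ⟨_, rfl⟩
  have hKa : (K : Matrix ι ι F) * a = J' := by rw [ha, ← mul_assoc, hK2, one_mul]
  have hτa : τ a = a := by
    rw [hτ, ha, Matrix.transpose_mul, hs', hKiT]
    simp only [smul_mul_assoc, mul_smul_comm, smul_smul, hεε, one_smul]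
    rw [mul_assoc, mul_assoc, hK1, mul_one]
  have hau : IsUnit a := by
    rw [ha]
    exact (IsUnit.of_mul_eq_one _ hK1).mul ((Matrix.isUnit_iff_isUnit_det _).2 hu')
  have haM : a * M = M * a := by
    -- Mᵀ K a M = K a and Mᵀ K M = K
    have h1 : M.transpose * ((K : Matrix ι ι F) * a) * M = (K : Matrix ι ι F) * a := by rw [hKa]; exact hinv'
    have h2 : M.transpose * (K : Matrix ι ι F) = (K : Matrix ι ι F) * Mi := by
      calc M.transpose * (K : Matrix ι ι F) = (M.transpose * (K : Matrix ι ι F) * M) * Mi := by rw [mul_assoc _ M Mi, hM2, mul_one]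
        _ = _ := by rw [hinv]
    have h3 : (K : Matrix ι ι F) * (Mi * (a * M)) = (K : Matrix ι ι F) * a := by
      rw [← h1, ← mul_assoc M.transpose, h2]
      simp only [mul_assoc]
    have h4 : M * (Ki * ((K : Matrix ι ι F) * (Mi * (a * M)))) = M * (Ki * ((K : Matrix ι ι F) * a)) := by rw [h3]
    rw [← mul_assoc Ki, hK1, one_mul, ← mul_assoc M, hM2, one_mul, ← mul_assoc Ki, hK1, one_mul] at h4
    exact h4
  have haMi : a * Mi = Mi * a := by
    calc a * Mi = Mi * (M * a) * Mi := by rw [← mul_assoc, hM1, one_mul]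
      _ = Mi * (a * M) * Mi := by rw [haM]
      _ = Mi * a := by rw [mul_assoc, mul_assoc, hM2, mul_one]
  obtain ⟨X, hX⟩ : ∃ X : Set (Matrix ι ι F), X = {a, M, Mi} := ⟨_, rfl⟩
  have hXc : ∀ x ∈ X, ∀ y ∈ X, x * y = y * x := by
    intro x hx y hy
    rw [hX] at hx hy
    rcases hx with rfl | rfl | hx
    · rcases hy with rfl | rfl | hy
      · rfl
      · exact haM
      · rw [Set.mem_singleton_iff.1 hy]; exact haMi
    · rcases hy with rfl | rfl | hy
      · exact haM.symm
      · rfl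
      · rw [Set.mem_singleton_iff.1 hy, hM1, hM2]
    · rw [Set.mem_singleton_iff.1 hx]
      rcases hy with rfl | rfl | hy
      · exact haMi.symm
      · rw [hM1, hM2]
      · rw [Set.mem_singleton_iff.1 hy]
  have hbs := bic_star X τ hτmul hτinj (by
    intro x hx z hz
    have hz' : ∀ x ∈ X, x * z = z * x := hz
    rw [hX] at hx hz'
    rcases hx with rfl | rfl | hx
    · have h1 := hz' x (by simp)
      have h2 := congrArg τ h1
      rw [hτmul, hτmul, hτa] at h2
      exact h2.symm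
    · have h1 := hz' Mi (by simp)
      have h2 := congrArg τ h1
      rw [hτmul, hτmul, ← hτM, hττ] at h2
      exact h2.symm
    · rw [Set.mem_singleton_iff.1 hx]
      have h1 := hz' M (by simp)
      have h2 := congrArg τ h1
      rw [hτmul, hτmul, hτM] at h2
      exact h2.symm)
  have hMX : M ∈ bic X := subset_bic X (by rw [hX]; simp)
  obtain ⟨_, hN⟩ := norm_package (bic X) (bic_comm X hXc) τ hbs (fun x _ y _ => hτadd x y)
    (fun x _ y _ => hτmul x y) hτ1 (fun x _ => hττ x) M hMX (by rw [hτM]; exact hA)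
  obtain ⟨c, hc, hcu, hca⟩ := hN a (subset_bic X (by rw [hX]; simp)) hau hτa
  obtain ⟨c, rfl⟩ := hcu
  have hca' : τ (c : Matrix ι ι F) * (c : Matrix ι ι F) = a := by
    rw [← hca]
    exact bic_comm X hXc _ (hbs _ hc) _ hc
  refine ⟨c, ?_, ?_⟩
  · apply Units.ext
    rw [Units.val_mul, Units.val_mul, ← hM]
    exact bic_comm X hXc _ hc _ hMX
  · rw [← hKa, ← hca', hτ]
    have h5 : (K : Matrix ι ι F) * (Ki * (c : Matrix ι ι F).transpose * (K : Matrix ι ι F) * (c : Matrix ι ι F)) =
        ((K : Matrix ι ι F) * Ki) * ((c : Matrix ι ι F).transpose * (K : Matrix ι ι F) * (c : Matrix ι ι F)) := by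
      simp only [mul_assoc]
    rw [h5, hK2, one_mul]

/-- existence of invariant forms -/
theorem gen_exists [Finite F] {ε : F} (hε : ε * ε = 1) (A g : GL ι F) (hA : IsUnit ((A : Matrix ι ι F) - ((A⁻¹ : GL ι F) : Matrix ι ι F)))
    (hg : (A : Matrix ι ι F).transpose * (g : Matrix ι ι F) * (A : Matrix ι ι F) = (g : Matrix ι ι F)) : ∃ J : Matrix ι ι F, InvForm ε A J := by
  obtain ⟨gi, hgi⟩ : ∃ gi : Matrix ι ι F, gi = ((g⁻¹ : GL ι F) : Matrix ι ι F) := ⟨_, rfl⟩
  have hgi1 : gi * (g : Matrix ι ι F) = 1 := by rw [hgi]; exact Units.inv_mul g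
  have hgi2 : (g : Matrix ι ι F) * gi = 1 := by rw [hgi]; exact Units.mul_inv g
  have hsg1 : gi.transpose * (g : Matrix ι ι F).transpose = 1 := by rw [← Matrix.transpose_mul, hgi2, Matrix.transpose_one]
  have hsg2 : (g : Matrix ι ι F).transpose * gi.transpose = 1 := by rw [← Matrix.transpose_mul, hgi1, Matrix.transpose_one]
  obtain ⟨M, hM⟩ : ∃ M : Matrix ι ι F, M = (A : Matrix ι ι F) := ⟨_, rfl⟩
  obtain ⟨Mi, hMi⟩ : ∃ Mi : Matrix ι ι F, Mi = ((A⁻¹ : GL ι F) : Matrix ι ι F) := ⟨_, rfl⟩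
  have hM1 : Mi * M = 1 := by rw [hM, hMi]; exact Units.inv_mul A
  have hM2 : M * Mi = 1 := by rw [hM, hMi]; exact Units.mul_inv A
  rw [← hM] at hg
  rw [← hM, ← hMi] at hA
  obtain ⟨c, hc⟩ : ∃ c : Matrix ι ι F, c = gi * (g : Matrix ι ι F).transpose := ⟨_, rfl⟩
  obtain ⟨ci, hci⟩ : ∃ ci : Matrix ι ι F, ci = gi.transpose * (g : Matrix ι ι F) := ⟨_, rfl⟩
  have hcc : c * ci = 1 := by
    rw [hc, hci, mul_assoc, ← mul_assoc (g : Matrix ι ι F).transpose, hsg2, one_mul, hgi1]
  have hcc' : ci * c = 1 := mul_eq_one_comm.1 hcc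
  obtain ⟨τ, hτ⟩ : ∃ τ : Matrix ι ι F → Matrix ι ι F, ∀ x, τ x = gi * x.transpose * (g : Matrix ι ι F) := ⟨_, fun _ => rfl⟩
  have hτmul : ∀ x y, τ (x * y) = τ y * τ x := by
    intro x y
    rw [hτ, hτ, hτ, Matrix.transpose_mul]
    calc gi * (y.transpose * x.transpose) * (g : Matrix ι ι F) = gi * y.transpose * 1 * (x.transpose * (g : Matrix ι ι F)) := by
          rw [mul_one]; simp only [mul_assoc]
      _ = gi * y.transpose * ((g : Matrix ι ι F) * gi) * (x.transpose * (g : Matrix ι ι F)) := by rw [hgi2]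
      _ = _ := by simp only [mul_assoc]
  have hτadd : ∀ x y, τ (x + y) = τ x + τ y := by
    intro x y
    rw [hτ, hτ, hτ, Matrix.transpose_add, mul_add, add_mul]
  have hτ1 : τ 1 = 1 := by rw [hτ, Matrix.transpose_one, mul_one, hgi1]
  have hτinj : Function.Injective τ := by
    intro x y h
    rw [hτ, hτ] at h
    have h1 := congrArg (fun z => (g : Matrix ι ι F) * z * gi) h
    simp only [mul_assoc, hgi2, mul_one] at h1
    rw [← mul_assoc, ← mul_assoc, hgi2, one_mul, one_mul] at h1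
    exact Matrix.transpose_injective h1
  have hτc : τ c = ci := by
    rw [hτ, hc, Matrix.transpose_mul, Matrix.transpose_transpose, hci, ← mul_assoc, hgi1, one_mul]
  have hτcτ : ∀ x, τ (τ x) = c * x * ci := by
    intro x
    rw [hτ, hτ, Matrix.transpose_mul, Matrix.transpose_mul, Matrix.transpose_transpose, hc, hci]
    simp only [mul_assoc]
  have hτM : τ M = Mi := by
    rw [hτ]
    calc gi * M.transpose * (g : Matrix ι ι F) = gi * (M.transpose * (g : Matrix ι ι F) * M) * Mi := by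
          simp only [mul_assoc, hM2, mul_one]
      _ = Mi := by rw [hg, hgi1, one_mul]
  have hτMi : τ Mi = M := by
    have h1 : τ M * τ Mi = 1 := by rw [← hτmul, hM1, hτ1]
    rw [hτM] at h1
    calc τ Mi = M * (Mi * τ Mi) := by rw [← mul_assoc, hM2, one_mul]
      _ = M := by rw [h1, mul_one]
  have hMc : M * c = c * M := by
    have h1 := hτcτ M
    rw [hτM, hτMi] at h1
    calc M * c = (c * M * ci) * c := by rw [← h1]
      _ = c * M := by rw [mul_assoc, hcc', mul_one]
  have hMic : Mi * c = c * Mi := by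
    calc Mi * c = Mi * (c * M) * Mi := by rw [mul_assoc, mul_assoc, hM2, mul_one]
      _ = Mi * (M * c) * Mi := by rw [hMc]
      _ = c * Mi := by rw [← mul_assoc Mi, hM1, one_mul]
  obtain ⟨X, hX⟩ : ∃ X : Set (Matrix ι ι F), X = {c, M, Mi} := ⟨_, rfl⟩
  have hXc : ∀ x ∈ X, ∀ y ∈ X, x * y = y * x := by
    intro x hx y hy
    rw [hX] at hx hy
    rcases hx with rfl | rfl | hx
    · rcases hy with rfl | rfl | hy
      · rfl
      · exact hMc.symm
      · rw [Set.mem_singleton_iff.1 hy]; exact hMic.symm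
    · rcases hy with rfl | rfl | hy
      · exact hMc
      · rfl
      · rw [Set.mem_singleton_iff.1 hy, hM1, hM2]
    · rw [Set.mem_singleton_iff.1 hx]
      rcases hy with rfl | rfl | hy
      · exact hMic
      · rw [hM1, hM2]
      · rw [Set.mem_singleton_iff.1 hy]
  have hcX : c ∈ bic X := subset_bic X (by rw [hX]; simp)
  have hMX : M ∈ bic X := subset_bic X (by rw [hX]; simp)
  have hbs := bic_star X τ hτmul hτinj (by
    intro x hx z hz
    have hz' : ∀ x ∈ X, x * z = z * x := hz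
    rw [hX] at hx hz'
    rcases hx with rfl | rfl | hx
    · have h1 := hz' x (by simp)
      have h2 := congrArg τ h1
      rw [hτmul, hτmul, hτc] at h2
      calc x * τ z = x * (τ z * ci) * x := by rw [mul_assoc, mul_assoc, hcc', mul_one]
        _ = x * (ci * τ z) * x := by rw [h2]
        _ = (x * ci) * τ z * x := by simp only [mul_assoc]
        _ = τ z * x := by rw [hcc, one_mul]
    · have h1 := hz' Mi (by simp)
      have h2 := congrArg τ h1
      rw [hτmul, hτmul, hτMi] at h2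
      exact h2.symm
    · rw [Set.mem_singleton_iff.1 hx]
      have h1 := hz' M (by simp)
      have h2 := congrArg τ h1
      rw [hτmul, hτmul, hτM] at h2
      exact h2.symm)
  obtain ⟨h90, _⟩ := norm_package (bic X) (bic_comm X hXc) τ hbs (fun x _ y _ => hτadd x y)
    (fun x _ y _ => hτmul x y) hτ1 (fun x hx => by
      rw [hτcτ, bic_comm X hXc c hcX x hx, mul_assoc, hcc, mul_one]) M hMX (by rw [hτM]; exact hA)
  -- twist by ε
  have hεX : ∀ x ∈ bic X, ε • x ∈ bic X := by
    intro x hx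
    have h1 : ε • (1 : Matrix ι ι F) ∈ bic X := by
      intro z _
      rw [smul_mul_assoc, one_mul, mul_smul_comm, mul_one]
    have h2 := (bic X).mul_mem h1 hx
    rwa [smul_mul_assoc, one_mul] at h2
  have hτε : τ (ε • c) = ε • ci := by rw [hτ, Matrix.transpose_smul, mul_smul_comm, smul_mul_assoc, ← hτ, hτc]
  obtain ⟨y, hy, hyu, hyc⟩ := h90 (ε • c) (hεX c hcX) (by rw [hτε, smul_mul_smul_comm, hε, hcc, one_smul])
  obtain ⟨y, rfl⟩ := hyu
  refine ⟨(g : Matrix ι ι F) * (y : Matrix ι ι F), ?_, ?_, ?_⟩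
  · rw [Matrix.transpose_mul]
    have h1 : (y : Matrix ι ι F).transpose = (g : Matrix ι ι F) * τ (y : Matrix ι ι F) * gi := by
      rw [hτ]
      simp only [mul_assoc, hgi2, mul_one]
      rw [← mul_assoc, hgi2, one_mul]
    have h2 : (y : Matrix ι ι F) = ε • (τ (y : Matrix ι ι F) * c) := by
      rw [bic_comm X hXc _ (hbs _ hy) _ hcX, ← smul_mul_assoc]
      exact hyc
    rw [h1]
    conv_rhs => rw [h2]
    rw [hc, mul_smul_comm, smul_smul, hε, one_smul]
    simp only [mul_assoc]
  · rw [Matrix.det_mul]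
    exact ((Matrix.isUnit_iff_isUnit_det _).1 g.isUnit).mul ((Matrix.isUnit_iff_isUnit_det _).1 y.isUnit)
  · rw [← hM]
    have hAy : M * (y : Matrix ι ι F) = (y : Matrix ι ι F) * M := bic_comm X hXc _ hMX _ hy
    calc M.transpose * ((g : Matrix ι ι F) * (y : Matrix ι ι F)) * M
        = M.transpose * (g : Matrix ι ι F) * ((y : Matrix ι ι F) * M) := by simp only [mul_assoc]
      _ = M.transpose * (g : Matrix ι ι F) * M * (y : Matrix ι ι F) := by
          rw [← hAy]; simp only [mul_assoc]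
      _ = _ := by rw [hg]

end

end Cfsg.Agent.H43
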