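import Mathlib
import Cfsg.Agent.H43.GenForm

set_option autoImplicit false
set_option linter.unusedSectionVars false
set_option linter.unusedVariables false

/-! Invariant forms of block sums. -/

namespace Cfsg.Agent.H43

section
variable {F : Type*} [Field F] [Finite F] {ι ι₁ ι₂ : Type*} [Fintype ι] [DecidableEq ι] [Fintype ι₁] [DecidableEq ι₁] [Fintype ι₂] [DecidableEq ι₂]

/-- `D` separates the orbits of the centralizer, and single changes change the discriminant -/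
def GoodD (ε : F) (A : GL ι F) {S : Type*} (D : Matrix ι ι F → S → Bool) : Prop :=
  DProp ε A D ∧ (ε = 1 → ∀ J J', InvForm ε A J → InvForm ε A J' → ∀ s₀, D J s₀ ≠ D J' s₀ → (∀ s, s ≠ s₀ → D J s = D J' s) →
    ¬ IsSquare (J.det * J'.det))

theorem InvForm.neg {ε : F} {A : GL ι F} {J : Matrix ι ι F} (h : InvForm ε A J) : InvForm ε (-A) J := by
  refine ⟨h.1, h.2.1, ?_⟩
  rw [Units.val_neg, Matrix.transpose_neg, neg_mul, neg_mul_neg]
  exact h.2.2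

theorem InvForm.neg_iff {ε : F} {A : GL ι F} {J : Matrix ι ι F} : InvForm ε (-A) J ↔ InvForm ε A J :=
  ⟨fun h => by have := h.neg; rwa [neg_neg] at this, fun h => h.neg⟩

theorem GoodD.neg {ε : F} {A : GL ι F} {S : Type*} {D : Matrix ι ι F → S → Bool} (h : GoodD ε (-A) D) : GoodD ε A D := by
  refine ⟨?_, ?_⟩
  · intro J J' hJ hJ' hD
    obtain ⟨c, hc1, hc2⟩ := h.1 J J' hJ.neg hJ'.neg hD
    refine ⟨c, ?_, hc2⟩
    rw [mul_neg, neg_mul] at hc1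
    exact neg_injective hc1
  · intro hε J J' hJ hJ'
    exact h.2 hε J J' hJ.neg hJ'.neg

theorem GoodD_gen {ε : F} {A : GL ι F} (hA : IsUnit ((A : Matrix ι ι F) - ((A⁻¹ : GL ι F) : Matrix ι ι F))) :
    GoodD ε A (fun (_ : Matrix ι ι F) (s : Empty) => false) := by
  refine ⟨?_, ?_⟩
  · intro J J' hJ hJ' _
    exact gen_forms A hA J J' hJ hJ'
  · intro _ J J' _ _ s₀
    exact s₀.elim

theorem InvForm.conj {ε : F} {A A' : GL ι F} {J : Matrix ι ι F} (g : GL ι F) (hg : g * A = A' * g) (h : InvForm ε A J) :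
    InvForm ε A' (((g⁻¹ : GL ι F) : Matrix ι ι F).transpose * J * ((g⁻¹ : GL ι F) : Matrix ι ι F)) := by
  refine ⟨?_, ?_, ?_⟩
  · rw [Matrix.transpose_mul, Matrix.transpose_mul, Matrix.transpose_transpose, h.1, smul_mul_assoc, mul_smul_comm, mul_assoc]
  · rw [Matrix.det_mul, Matrix.det_mul, Matrix.det_transpose]
    have h1 : IsUnit ((g⁻¹ : GL ι F) : Matrix ι ι F).det := (Matrix.isUnit_iff_isUnit_det _).1 (g⁻¹).isUnit
    exact (h1.mul h.2.1).mul h1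
  · have h1 : ((g⁻¹ : GL ι F) : Matrix ι ι F) * (A' : Matrix ι ι F) = (A : Matrix ι ι F) * ((g⁻¹ : GL ι F) : Matrix ι ι F) := by
      have : g⁻¹ * A' = A * g⁻¹ := by rw [inv_mul_eq_iff_eq_mul, ← mul_assoc, hg, mul_assoc, mul_inv_cancel, mul_one]
      exact congrArg Units.val this
    have h2 := congrArg Matrix.transpose h1
    rw [Matrix.transpose_mul, Matrix.transpose_mul] at h2
    calc (A' : Matrix ι ι F).transpose * (((g⁻¹ : GL ι F) : Matrix ι ι F).transpose * J * ((g⁻¹ : GL ι F) : Matrix ι ι F)) * (A' : Matrix ι ι F)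
        = ((A' : Matrix ι ι F).transpose * ((g⁻¹ : GL ι F) : Matrix ι ι F).transpose) * J * (((g⁻¹ : GL ι F) : Matrix ι ι F) * (A' : Matrix ι ι F)) := by
          simp only [mul_assoc]
      _ = ((g⁻¹ : GL ι F) : Matrix ι ι F).transpose * ((A : Matrix ι ι F).transpose * J * (A : Matrix ι ι F)) * ((g⁻¹ : GL ι F) : Matrix ι ι F) := by
          rw [h1, h2]; simp only [mul_assoc]
      _ = _ := by rw [h.2.2]

theorem GoodD.conj {ε : F} {A A' : GL ι F} (g : GL ι F) (hg : g * A = A' * g) {S : Type*} {D : Matrix ι ι F → S → Bool} (h : GoodD ε A' D) :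
    GoodD ε A (fun J => D (((g⁻¹ : GL ι F) : Matrix ι ι F).transpose * J * ((g⁻¹ : GL ι F) : Matrix ι ι F))) := by
  have hgi : ((g⁻¹ : GL ι F) : Matrix ι ι F) * (g : Matrix ι ι F) = 1 := Units.inv_mul g
  have hgi' : (g : Matrix ι ι F).transpose * ((g⁻¹ : GL ι F) : Matrix ι ι F).transpose = 1 := by rw [← Matrix.transpose_mul, hgi, Matrix.transpose_one]
  refine ⟨?_, ?_⟩
  · intro J J' hJ hJ' hD
    obtain ⟨c, hc1, hc2⟩ := h.1 _ _ (hJ.conj g hg) (hJ'.conj g hg) hD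
    refine ⟨g⁻¹ * c * g, ?_, ?_⟩
    · calc g⁻¹ * c * g * A = g⁻¹ * c * (g * A) := by group
        _ = g⁻¹ * (c * A') * g := by rw [hg]; group
        _ = g⁻¹ * (A' * g) * g⁻¹ * c * g := by rw [hc1]; group
        _ = A * (g⁻¹ * c * g) := by rw [← hg]; group
    · rw [Units.val_mul, Units.val_mul, Matrix.transpose_mul, Matrix.transpose_mul]
      calc (g : Matrix ι ι F).transpose * ((c : Matrix ι ι F).transpose * ((g⁻¹ : GL ι F) : Matrix ι ι F).transpose) * J *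
            (((g⁻¹ : GL ι F) : Matrix ι ι F) * (c : Matrix ι ι F) * (g : Matrix ι ι F))
          = (g : Matrix ι ι F).transpose * ((c : Matrix ι ι F).transpose * (((g⁻¹ : GL ι F) : Matrix ι ι F).transpose * J *
            ((g⁻¹ : GL ι F) : Matrix ι ι F)) * (c : Matrix ι ι F)) * (g : Matrix ι ι F) := by simp only [mul_assoc]
        _ = ((g : Matrix ι ι F).transpose * ((g⁻¹ : GL ι F) : Matrix ι ι F).transpose) * J' * (((g⁻¹ : GL ι F) : Matrix ι ι F) * (g : Matrix ι ι F)) := by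
            rw [hc2]; simp only [mul_assoc]
        _ = J' := by rw [hgi, hgi', one_mul, mul_one]
  · intro hε J J' hJ hJ' s₀ h1 h2 hsq
    apply h.2 hε _ _ (hJ.conj g hg) (hJ'.conj g hg) s₀ h1 h2
    obtain ⟨x, hx⟩ := hsq
    refine ⟨((g⁻¹ : GL ι F) : Matrix ι ι F).det ^ 2 * x, ?_⟩
    rw [Matrix.det_mul, Matrix.det_mul, Matrix.det_mul, Matrix.det_mul, Matrix.det_transpose]
    linear_combination (((g⁻¹ : GL ι F) : Matrix ι ι F).det ^ 4) * hx

variable (e : ι₁ ⊕ ι₂ ≃ ι)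

/-- first diagonal block -/
def toB1 (J : Matrix ι ι F) : Matrix ι₁ ι₁ F := J.submatrix (fun i => e (Sum.inl i)) (fun i => e (Sum.inl i))

/-- second diagonal block -/
def toB2 (J : Matrix ι ι F) : Matrix ι₂ ι₂ F := J.submatrix (fun i => e (Sum.inr i)) (fun i => e (Sum.inr i))

theorem bs_apply_inl_inl (M : Matrix ι₁ ι₁ F) (N : Matrix ι₂ ι₂ F) (i j : ι₁) : bs e M N (e (Sum.inl i)) (e (Sum.inl j)) = M i j := by
  unfold bs
  rw [Matrix.submatrix_apply, Equiv.symm_apply_apply, Equiv.symm_apply_apply, Matrix.fromBlocks_apply₁₁]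

theorem bs_apply_inr_inr (M : Matrix ι₁ ι₁ F) (N : Matrix ι₂ ι₂ F) (i j : ι₂) : bs e M N (e (Sum.inr i)) (e (Sum.inr j)) = N i j := by
  unfold bs
  rw [Matrix.submatrix_apply, Equiv.symm_apply_apply, Equiv.symm_apply_apply, Matrix.fromBlocks_apply₂₂]

theorem InvForm.bs {ε : F} {A₁ : GL ι₁ F} {A₂ : GL ι₂ F} {J₁ : Matrix ι₁ ι₁ F} {J₂ : Matrix ι₂ ι₂ F} (h₁ : InvForm ε A₁ J₁) (h₂ : InvForm ε A₂ J₂) :
    InvForm ε (bsGL e A₁ A₂) (Cfsg.Agent.H43.bs e J₁ J₂) := by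
  refine ⟨?_, ?_, ?_⟩
  · rw [bs_transpose, h₁.1, h₂.1, bs_smul]
  · rw [bs_det]; exact h₁.2.1.mul h₂.2.1
  · rw [bsGL_coe, bs_transpose, bs_mul, bs_mul, h₁.2.2, h₂.2.2]

theorem InvForm.of_bs {ε : F} {A₁ : GL ι₁ F} {A₂ : GL ι₂ F} (h12 : ∀ X : Matrix ι₁ ι₂ F, (A₁ : Matrix ι₁ ι₁ F).transpose * X * (A₂ : Matrix ι₂ ι₂ F) = X → X = 0)
    {J : Matrix ι ι F} (h : InvForm ε (bsGL e A₁ A₂) J) :
    J = Cfsg.Agent.H43.bs e (toB1 e J) (toB2 e J) ∧ InvForm ε A₁ (toB1 e J) ∧ InvForm ε A₂ (toB2 e J) := by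
  obtain ⟨hs, hu, hinv⟩ := h
  -- block form
  obtain ⟨J', hJ'⟩ : ∃ J' : Matrix (ι₁ ⊕ ι₂) (ι₁ ⊕ ι₂) F, J' = J.submatrix e e := ⟨_, rfl⟩
  have hJ'' : J = J'.submatrix e.symm e.symm := by rw [hJ']; ext i j; simp
  have hblocks : J' = Matrix.fromBlocks (toB1 e J) (J'.toBlocks₁₂) (J'.toBlocks₂₁) (toB2 e J) := by
    conv_lhs => rw [← Matrix.fromBlocks_toBlocks J']
    rw [hJ']
    rfl
  have hinv' : (Matrix.fromBlocks (A₁ : Matrix ι₁ ι₁ F) 0 0 (A₂ : Matrix ι₂ ι₂ F)).transpose * J' * Matrix.fromBlocks (A₁ : Matrix ι₁ ι₁ F) 0 0 (A₂ : Matrix ι₂ ι₂ F) = J' := by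
    have h1 : ((((bsGL e A₁ A₂ : GL ι F) : Matrix ι ι F).transpose * J * ((bsGL e A₁ A₂ : GL ι F) : Matrix ι ι F)).submatrix e e) = J' := by rw [hinv, hJ']
    rw [bsGL_coe, bs_transpose] at h1
    refine Eq.trans ?_ h1
    unfold Cfsg.Agent.H43.bs
    rw [Matrix.fromBlocks_transpose, Matrix.transpose_zero, Matrix.transpose_zero]
    conv_rhs => rw [hJ'']
    rw [Matrix.submatrix_mul_equiv, Matrix.submatrix_mul_equiv]
    ext i j
    simp
  have hs' : J'.transpose = ε • J' := by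
    rw [hJ', Matrix.transpose_submatrix, hs]; rfl
  rw [Matrix.fromBlocks_transpose, Matrix.transpose_zero, Matrix.transpose_zero] at hinv'
  have h12' : J'.toBlocks₁₂ = 0 := by
    apply h12
    have h1 := congrArg Matrix.toBlocks₁₂ hinv'
    rw [hblocks] at h1
    rw [Matrix.fromBlocks_multiply, Matrix.fromBlocks_multiply, Matrix.toBlocks_fromBlocks₁₂, Matrix.toBlocks_fromBlocks₁₂] at h1
    simpa using h1
  have h21' : J'.toBlocks₂₁ = 0 := by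
    have h1 := congrArg Matrix.toBlocks₂₁ hs'
    ext i j
    have h2 := congrFun (congrFun h1 i) j
    have h3 := congrFun (congrFun h12' j) i
    change J' (Sum.inl j) (Sum.inr i) = ε * J' (Sum.inr i) (Sum.inl j) at h2
    change J' (Sum.inl j) (Sum.inr i) = 0 at h3
    change J' (Sum.inr i) (Sum.inl j) = 0
    rcases eq_or_ne ε 0 with h4 | h4
    · -- degenerate case: J = 0
      exfalso
      rw [h4, zero_smul] at hs
      have h5 : J = 0 := by rw [← Matrix.transpose_transpose J, hs, Matrix.transpose_zero]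
      have : Nonempty ι := ⟨e (Sum.inr i)⟩
      rw [h5, Matrix.det_zero] at hu
      exact not_isUnit_zero hu
    · rw [h3] at h2
      rcases mul_eq_zero.1 h2.symm with h5 | h5
      · exact absurd h5 h4
      · exact h5
  rw [h12', h21'] at hblocks
  have hJ : J = Cfsg.Agent.H43.bs e (toB1 e J) (toB2 e J) := by
    conv_lhs => rw [hJ'', hblocks]
    rfl
  refine ⟨hJ, ⟨?_, ?_, ?_⟩, ⟨?_, ?_, ?_⟩⟩
  · ext i j
    exact congrFun (congrFun hs (e (Sum.inl i))) (e (Sum.inl j))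
  · rw [hJ, bs_det] at hu
    exact isUnit_of_mul_isUnit_left hu
  · rw [hJ, bsGL_coe, bs_transpose, bs_mul, bs_mul] at hinv
    ext i j
    have h1 := congrFun (congrFun hinv (e (Sum.inl i))) (e (Sum.inl j))
    rw [bs_apply_inl_inl, bs_apply_inl_inl] at h1
    exact h1
  · ext i j
    exact congrFun (congrFun hs (e (Sum.inr i))) (e (Sum.inr j))
  · rw [hJ, bs_det] at hu
    exact isUnit_of_mul_isUnit_right hu
  · rw [hJ, bsGL_coe, bs_transpose, bs_mul, bs_mul] at hinv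
    ext i j
    have h1 := congrFun (congrFun hinv (e (Sum.inr i))) (e (Sum.inr j))
    rw [bs_apply_inr_inr, bs_apply_inr_inr] at h1
    exact h1

theorem sylvester (A₁ : GL ι₁ F) (A₂ : GL ι₂ F) (h1 : IsNilpotent ((A₁ : Matrix ι₁ ι₁ F) - 1)) (h2 : IsUnit ((A₂ : Matrix ι₂ ι₂ F) - 1))
    (X : Matrix ι₁ ι₂ F) (hX : (A₁ : Matrix ι₁ ι₁ F).transpose * X * (A₂ : Matrix ι₂ ι₂ F) = X) : X = 0 := by
  obtain ⟨U, hU⟩ := h2
  obtain ⟨Ui, hUi⟩ : ∃ Ui : Matrix ι₂ ι₂ F, Ui = ((U⁻¹ : (Matrix ι₂ ι₂ F)ˣ) : Matrix ι₂ ι₂ F) := ⟨_, rfl⟩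
  have hUU : ((A₂ : Matrix ι₂ ι₂ F) - 1) * Ui = 1 := by rw [← hU, hUi, Units.mul_inv]
  obtain ⟨P, hP⟩ : ∃ P : Matrix ι₁ ι₁ F, P = (A₁ : Matrix ι₁ ι₁ F).transpose - 1 := ⟨_, rfl⟩
  have hA1 : (A₁ : Matrix ι₁ ι₁ F).transpose = P + 1 := by rw [hP]; abel
  have hPn : IsNilpotent P := by
    obtain ⟨n, hn⟩ := h1
    refine ⟨n, ?_⟩
    have h3 : P = ((A₁ : Matrix ι₁ ι₁ F) - 1).transpose := by rw [hP, Matrix.transpose_sub, Matrix.transpose_one]
    rw [h3, ← Matrix.transpose_pow, hn, Matrix.transpose_zero]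
  have key : X = P * X * (-((A₂ : Matrix ι₂ ι₂ F) * Ui)) := by
    have h3 : X * ((A₂ : Matrix ι₂ ι₂ F) - 1) = -(P * X * (A₂ : Matrix ι₂ ι₂ F)) := by
      rw [hA1, Matrix.add_mul, Matrix.add_mul, Matrix.one_mul] at hX
      rw [Matrix.mul_sub, Matrix.mul_one]
      have h4 : X * (A₂ : Matrix ι₂ ι₂ F) = X - P * X * (A₂ : Matrix ι₂ ι₂ F) := by
        rw [eq_sub_iff_add_eq, add_comm]; exact hX
      rw [h4]; abel
    calc X = X * (((A₂ : Matrix ι₂ ι₂ F) - 1) * Ui) := by rw [hUU, Matrix.mul_one]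
      _ = -(P * X * (A₂ : Matrix ι₂ ι₂ F)) * Ui := by rw [← Matrix.mul_assoc, h3]
      _ = _ := by rw [Matrix.neg_mul, Matrix.mul_neg, Matrix.mul_assoc]
  have hiter : ∀ n : ℕ, X = P ^ n * X * (-((A₂ : Matrix ι₂ ι₂ F) * Ui)) ^ n := by
    intro n
    induction n with
    | zero => rw [pow_zero, pow_zero, Matrix.one_mul, Matrix.mul_one]
    | succ n ih =>
      conv_lhs => rw [ih, key]
      rw [pow_succ, pow_succ']
      simp only [Matrix.mul_assoc]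
  obtain ⟨n, hn⟩ := hPn
  rw [hiter n, hn, Matrix.zero_mul, Matrix.zero_mul]

theorem det_congr_sq (J J' : Matrix ι ι F) (c : Matrix ι ι F) (h : c.transpose * J * c = J') : J.det * J'.det = (J.det * c.det) ^ 2 := by
  rw [← h, Matrix.det_mul, Matrix.det_mul, Matrix.det_transpose]; ring

theorem GoodD.bs {ε : F} {A₁ : GL ι₁ F} {A₂ : GL ι₂ F} (h12 : ∀ X : Matrix ι₁ ι₂ F, (A₁ : Matrix ι₁ ι₁ F).transpose * X * (A₂ : Matrix ι₂ ι₂ F) = X → X = 0)
    {S₁ S₂ : Type*} {D₁ : Matrix ι₁ ι₁ F → S₁ → Bool} {D₂ : Matrix ι₂ ι₂ F → S₂ → Bool} (h₁ : GoodD ε A₁ D₁) (h₂ : GoodD ε A₂ D₂) :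
    GoodD ε (bsGL e A₁ A₂) (fun J => Sum.elim (D₁ (toB1 e J)) (D₂ (toB2 e J))) := by
  refine ⟨?_, ?_⟩
  · intro J J' hJ hJ' hD
    obtain ⟨e1, i1, i2⟩ := hJ.of_bs e h12
    obtain ⟨e1', i1', i2'⟩ := hJ'.of_bs e h12
    obtain ⟨c₁, hc1, hc2⟩ := h₁.1 _ _ i1 i1' (by funext s; exact congrFun hD (Sum.inl s))
    obtain ⟨c₂, hd1, hd2⟩ := h₂.1 _ _ i2 i2' (by funext s; exact congrFun hD (Sum.inr s))
    refine ⟨bsGL e c₁ c₂, ?_, ?_⟩
    · rw [bsGL_mul, bsGL_mul, hc1, hd1]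
    · rw [e1, e1', bsGL_coe, bs_transpose, bs_mul, bs_mul, hc2, hd2]
  · intro hε J J' hJ hJ' s₀ hne hsame hsq
    obtain ⟨e1, i1, i2⟩ := hJ.of_bs e h12
    obtain ⟨e1', i1', i2'⟩ := hJ'.of_bs e h12
    have hdet : J.det * J'.det = ((toB1 e J).det * (toB1 e J').det) * ((toB2 e J).det * (toB2 e J').det) := by
      conv_lhs => rw [e1, e1', bs_det, bs_det]
      ring
    rcases s₀ with s₀ | s₀
    · obtain ⟨c₂, hd1, hd2⟩ := h₂.1 _ _ i2 i2' (by funext s; exact hsame (Sum.inr s) (by simp))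
      apply h₁.2 hε _ _ i1 i1' s₀ hne (fun s hs => hsame (Sum.inl s) (by simpa using hs))
      obtain ⟨x, hx⟩ := hsq
      rw [hdet, det_congr_sq _ _ _ hd2] at hx
      have h0 : (toB2 e J).det * (c₂ : Matrix ι₂ ι₂ F).det ≠ 0 := mul_ne_zero i2.2.1.ne_zero ((Matrix.isUnit_iff_isUnit_det _).1 c₂.isUnit).ne_zero
      refine ⟨x / ((toB2 e J).det * (c₂ : Matrix ι₂ ι₂ F).det), ?_⟩
      rw [div_mul_div_comm, eq_div_iff (mul_ne_zero h0 h0), ← hx]; ring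
    · obtain ⟨c₁, hd1, hd2⟩ := h₁.1 _ _ i1 i1' (by funext s; exact hsame (Sum.inl s) (by simp))
      apply h₂.2 hε _ _ i2 i2' s₀ hne (fun s hs => hsame (Sum.inr s) (by simpa using hs))
      obtain ⟨x, hx⟩ := hsq
      rw [hdet, det_congr_sq _ _ _ hd2] at hx
      have h0 : (toB1 e J).det * (c₁ : Matrix ι₁ ι₁ F).det ≠ 0 := mul_ne_zero i1.2.1.ne_zero ((Matrix.isUnit_iff_isUnit_det _).1 c₁.isUnit).ne_zero
      refine ⟨x / ((toB1 e J).det * (c₁ : Matrix ι₁ ι₁ F).det), ?_⟩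
      rw [div_mul_div_comm, eq_div_iff (mul_ne_zero h0 h0), ← hx]; ring

end

end Cfsg.Agent.H43
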