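import Mathlib

set_option autoImplicit false
set_option linter.unusedSectionVars false
set_option linter.unusedVariables false

/-! Classes of a central quotient. -/

namespace Cfsg.Agent.H43

variable {G : Type*} [Group G] [Finite G]

/-- classes fixed by a central element -/
def FixC (z : G) : Type _ := {C : ConjClasses G // ∃ x : G, ConjClasses.mk x = C ∧ IsConj (z * x) x}

theorem isConj_mul_central {z x y : G} (hz : z ∈ Subgroup.center G) (h : IsConj x y) : IsConj (z * x) (z * y) := by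
  obtain ⟨c, hc⟩ := isConj_iff.1 h
  rw [isConj_iff]
  refine ⟨c, ?_⟩
  rw [← hc]
  have h1 := Subgroup.mem_center_iff.1 hz
  rw [← mul_assoc c z x, h1 c]
  group

/-- number of classes of `G/Z(G)` -/
theorem card_conj_quotient_center [Fintype (Subgroup.center G)] :
    Nat.card (ConjClasses (G ⧸ Subgroup.center G)) * Nat.card (Subgroup.center G) =
      ∑ z : Subgroup.center G, Nat.card (FixC (z : G)) := by
  classical
  let act : MulAction (Subgroup.center G) (ConjClasses G) :=
    { smul := fun z C => Quotient.map' (s₁ := IsConj.setoid G) (s₂ := IsConj.setoid G) (fun x => (z : G) * x)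
        (fun x y h => isConj_mul_central z.2 h) C
      one_smul := fun C => by
        obtain ⟨x, rfl⟩ := ConjClasses.exists_rep C
        change ConjClasses.mk (((1 : Subgroup.center G) : G) * x) = _
        rw [Subgroup.coe_one, one_mul]
      mul_smul := fun z w C => by
        obtain ⟨x, rfl⟩ := ConjClasses.exists_rep C
        change ConjClasses.mk (((z * w : Subgroup.center G) : G) * x) = ConjClasses.mk ((z : G) * ((w : G) * x))
        rw [Subgroup.coe_mul, mul_assoc] }
  have hact : ∀ (z : Subgroup.center G) (x : G), z • ConjClasses.mk x = ConjClasses.mk ((z : G) * x) := fun _ _ => rfl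
  have hfin : Finite (ConjClasses G) := inferInstance
  let i1 : Fintype (ConjClasses G) := Fintype.ofFinite _
  have hb := MulAction.sum_card_fixedBy_eq_card_orbits_mul_card_group (Subgroup.center G) (ConjClasses G)
  have h1 : ∀ z : Subgroup.center G, Fintype.card (MulAction.fixedBy (ConjClasses G) z) = Nat.card (FixC (z : G)) := by
    intro z
    rw [← Nat.card_eq_fintype_card]
    refine Nat.card_congr (Equiv.subtypeEquivRight fun C => ?_)
    obtain ⟨x, rfl⟩ := ConjClasses.exists_rep C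
    rw [MulAction.mem_fixedBy, hact, ConjClasses.mk_eq_mk_iff_isConj]
    constructor
    · intro h
      exact ⟨x, rfl, h⟩
    · rintro ⟨y, hy, h⟩
      rw [ConjClasses.mk_eq_mk_iff_isConj] at hy
      exact ((isConj_mul_central z.2 hy.symm).trans h).trans hy
  rw [Finset.sum_congr rfl (fun z _ => h1 z)] at hb
  rw [hb, Nat.card_eq_fintype_card (α := Subgroup.center G), ← Nat.card_eq_fintype_card (α := Quotient _)]
  congr 1
  symm
  -- orbits are classes of the quotient
  let Φ : ConjClasses G → ConjClasses (G ⧸ Subgroup.center G) := ConjClasses.map (QuotientGroup.mk' (Subgroup.center G))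
  have hΦ : ∀ x : G, Φ (ConjClasses.mk x) = ConjClasses.mk ((x : G ⧸ Subgroup.center G)) := fun _ => rfl
  have hΦs : ∀ C C' : ConjClasses G, Φ C = Φ C' ↔ (MulAction.orbitRel (Subgroup.center G) (ConjClasses G)) C C' := by
    intro C C'
    obtain ⟨x, rfl⟩ := ConjClasses.exists_rep C
    obtain ⟨y, rfl⟩ := ConjClasses.exists_rep C'
    rw [hΦ, hΦ, ConjClasses.mk_eq_mk_iff_isConj, MulAction.orbitRel_apply]
    constructor
    · intro h
      obtain ⟨c, hc⟩ := isConj_iff.1 h
      obtain ⟨c, rfl⟩ := QuotientGroup.mk_surjective c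
      have h2 : (((c * x * c⁻¹ : G)) : G ⧸ Subgroup.center G) = (y : G ⧸ Subgroup.center G) := hc
      rw [QuotientGroup.eq] at h2
      refine ⟨⟨(c * x * c⁻¹)⁻¹ * y, h2⟩⁻¹, ?_⟩
      change ConjClasses.mk ((((⟨(c * x * c⁻¹)⁻¹ * y, h2⟩⁻¹ : Subgroup.center G)) : G) * y) = ConjClasses.mk x
      rw [ConjClasses.mk_eq_mk_iff_isConj]
      have e1 : (((⟨(c * x * c⁻¹)⁻¹ * y, h2⟩⁻¹ : Subgroup.center G)) : G) * y = c * x * c⁻¹ := by
        change ((c * x * c⁻¹)⁻¹ * y)⁻¹ * y = _
        have h3 := Subgroup.mem_center_iff.1 (Subgroup.inv_mem _ h2) y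
        rw [← h3]; group
      rw [e1]
      exact (isConj_iff.2 ⟨c, rfl⟩).symm
    · rintro ⟨z, hz⟩
      have h1 : ConjClasses.mk ((z : G) * y) = ConjClasses.mk x := hz
      rw [ConjClasses.mk_eq_mk_iff_isConj] at h1
      have h2 := MonoidHom.map_isConj (QuotientGroup.mk' (Subgroup.center G)) h1
      rw [map_mul] at h2
      have h3 : (QuotientGroup.mk' (Subgroup.center G)) (z : G) = 1 := (QuotientGroup.eq_one_iff _).2 z.2
      rw [h3, one_mul] at h2
      exact h2.symm
  refine Nat.card_congr (Equiv.ofBijective (Quotient.lift Φ (fun C C' h => (hΦs C C').2 h)) ⟨?_, ?_⟩)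
  · rintro ⟨C⟩ ⟨C'⟩ h
    exact Quotient.sound ((hΦs C C').1 h)
  · intro D
    obtain ⟨x, rfl⟩ := ConjClasses.exists_rep D
    obtain ⟨x, rfl⟩ := QuotientGroup.mk_surjective x
    exact ⟨Quotient.mk _ (ConjClasses.mk x), rfl⟩

theorem card_FixC_one : Nat.card (FixC (1 : G)) = Nat.card (ConjClasses G) := by
  refine Nat.card_congr ⟨fun C => C.1, fun C => ⟨C, ?_⟩, fun _ => rfl, fun _ => rfl⟩
  obtain ⟨x, rfl⟩ := ConjClasses.exists_rep C
  exact ⟨x, rfl, by rw [one_mul]⟩

/-- classes of a normal subgroup with abelian quotient, restricted to a subset -/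
theorem card_conj_le_of {N G A L : Type*} [Group N] [Group G] [CommGroup A] [Finite A] [Fintype L] (ι : N →* G) (hι : Function.Injective ι)
    (d : G →* A) (hd : ∀ x, d x = 1 → x ∈ ι.range) (H : G → L → Prop) (P : L → Subgroup A) (Q : N → Prop)
    (h1 : ∀ x : N, Q x → ∃ g, H (ι x) g) (h2 : ∀ x y g, H x g → H y g → IsConj x y)
    (h3 : ∀ x g, H x g → ∀ a ∈ P g, ∃ c, Commute c x ∧ d c = a) :
    Nat.card {C : ConjClasses N // ∃ x, ConjClasses.mk x = C ∧ Q x} ≤ ∑ g : L, (P g).index := by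
  classical
  have hc : ∀ c : {C : ConjClasses N // ∃ x, ConjClasses.mk x = C ∧ Q x}, ∃ (x : N) (g : L), ConjClasses.mk x = c.1 ∧ H (ι x) g := by
    rintro ⟨c, x, hx, hQ⟩
    obtain ⟨g, hg⟩ := h1 x hQ
    exact ⟨x, g, hx, hg⟩
  choose x g hx hg using hc
  have hb : ∀ g : L, ∃ b : N, (∃ y : N, H (ι y) g) → H (ι b) g := by
    intro g
    by_cases h : ∃ y : N, H (ι y) g
    · obtain ⟨y, hy⟩ := h
      exact ⟨y, fun _ => hy⟩
    · exact ⟨1, fun h' => absurd h' h⟩
  choose b hb using hb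
  have hh : ∀ c, ∃ h : G, h * ι (b (g c)) * h⁻¹ = ι (x c) := by
    intro c
    exact isConj_iff.1 (h2 _ _ (g c) (hb (g c) ⟨_, hg c⟩) (hg c))
  choose h hh using hh
  have hfin : ∀ g, Finite (A ⧸ P g) := fun g => inferInstance
  let τ : {C : ConjClasses N // ∃ x, ConjClasses.mk x = C ∧ Q x} → (g : L) × (A ⧸ P g) := fun c => ⟨g c, (d (h c) : A ⧸ P (g c))⟩
  have hτ : Function.Injective τ := by
    intro c c' hcc
    have e1 : g c = g c' := congrArg Sigma.fst hcc
    have e2 : (d (h c))⁻¹ * d (h c') ∈ P (g c') := by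
      have e3 : ∀ (g₀ g₁ : L) (h : g₀ = g₁) (a b : A), (⟨g₀, (a : A ⧸ P g₀)⟩ : (g : L) × (A ⧸ P g)) = ⟨g₁, (b : A ⧸ P g₁)⟩ → a⁻¹ * b ∈ P g₁ := by
        intro g₀ g₁ h a b hab
        subst h
        rw [Sigma.mk.injEq] at hab
        exact QuotientGroup.eq.1 (eq_of_heq hab.2)
      exact e3 _ _ e1 _ _ hcc
    obtain ⟨z, hz1, hz2⟩ := h3 _ _ (hb (g c') ⟨_, hg c'⟩) _ e2
    have hk : d (h c' * z⁻¹ * (h c)⁻¹) = 1 := by
      rw [map_mul, map_mul, map_inv, map_inv, hz2]
      rw [mul_inv_rev, inv_inv]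
      rw [mul_comm (d (h c'))⁻¹, ← mul_assoc, mul_comm (d (h c'))]
      group
    obtain ⟨k, hk'⟩ := hd _ hk
    apply Subtype.ext
    rw [← hx c, ← hx c', ConjClasses.mk_eq_mk_iff_isConj, isConj_iff]
    refine ⟨k, hι ?_⟩
    rw [map_mul, map_mul, map_inv, hk', ← hh c, ← hh c', e1]
    have hz3 : z⁻¹ * ι (b (g c')) * z = ι (b (g c')) := by
      rw [mul_assoc, ← hz1.eq, inv_mul_cancel_left]
    calc h c' * z⁻¹ * (h c)⁻¹ * (h c * ι (b (g c')) * (h c)⁻¹) * (h c' * z⁻¹ * (h c)⁻¹)⁻¹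
        = h c' * (z⁻¹ * ι (b (g c')) * z) * (h c')⁻¹ := by group
      _ = _ := by rw [hz3]
  refine (Nat.card_le_card_of_injective τ hτ).trans ?_
  rw [Nat.card_sigma]
  exact le_of_eq (Finset.sum_congr rfl fun g _ => rfl)

end Cfsg.Agent.H43
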