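import Mathlib

set_option autoImplicit false
set_option linter.unusedSectionVars false
set_option linter.unusedVariables false

/-! Conjugacy classes and subgroups of index two. -/

namespace Cfsg.Agent.H43

section
variable {G : Type*} [Group G] [Finite G]

theorem card_class_mul_comm (g : G) : Nat.card {x : G // IsConj g x} * Nat.card {y : G // Commute g y} = Nat.card G := by
  have h1 := (MulAction.stabilizer (ConjAct G) g).card_mul_index
  rw [MulAction.index_stabilizer, Nat.card_congr (ConjAct.toConjAct (G := G)).toEquiv.symm] at h1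
  have h2 : (MulAction.orbit (ConjAct G) g).ncard = Nat.card {x : G // IsConj g x} := by
    rw [← Nat.card_coe_set_eq]
    apply Nat.card_congr
    apply Equiv.subtypeEquivRight
    intro x
    rw [ConjAct.mem_orbit_conjAct]
    exact isConj_comm
  have h3 : Nat.card (MulAction.stabilizer (ConjAct G) g) = Nat.card {y : G // Commute g y} := by
    apply Nat.card_congr
    refine (ConjAct.ofConjAct (G := G)).toEquiv.subtypeEquiv ?_
    intro x
    rw [MulAction.mem_stabilizer_iff, ConjAct.smul_def]
    constructor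
    · intro h
      have h4 : ConjAct.ofConjAct x * g = g * ConjAct.ofConjAct x := mul_inv_eq_iff_eq_mul.1 h
      exact h4.symm
    · intro h
      have h4 : g * ConjAct.ofConjAct x = ConjAct.ofConjAct x * g := h
      rw [mul_inv_eq_iff_eq_mul]; exact h4.symm
  rw [h2, h3] at h1
  rw [mul_comm]; exact h1

theorem sum_comm_class [Fintype G] (Q : ConjClasses G → Prop) [DecidablePred Q] :
    ∑ x ∈ Finset.univ.filter (fun x : G => Q (ConjClasses.mk x)), Nat.card {y : G // Commute x y} = Nat.card {c // Q c} * Nat.card G := by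
  classical
  have : Fintype (ConjClasses G) := Fintype.ofFinite _
  have h1 : ∑ x ∈ Finset.univ.filter (fun x : G => Q (ConjClasses.mk x)), Nat.card {y : G // Commute x y} =
      ∑ c ∈ Finset.univ.filter Q, ∑ x ∈ (Finset.univ.filter (fun x : G => Q (ConjClasses.mk x))).filter (fun x => ConjClasses.mk x = c), Nat.card {y : G // Commute x y} :=
    (Finset.sum_fiberwise_of_maps_to (fun x hx => by
      rw [Finset.mem_filter] at hx ⊢
      exact ⟨Finset.mem_univ _, hx.2⟩) _).symm
  rw [h1]
  have h2 : ∀ c ∈ Finset.univ.filter Q, ∑ x ∈ (Finset.univ.filter (fun x : G => Q (ConjClasses.mk x))).filter (fun x => ConjClasses.mk x = c), Nat.card {y : G // Commute x y} = Nat.card G := by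
    intro c hc
    rw [Finset.mem_filter] at hc
    obtain ⟨g, rfl⟩ := ConjClasses.exists_rep c
    have h3 : ∀ x ∈ (Finset.univ.filter (fun x : G => Q (ConjClasses.mk x))).filter (fun x => ConjClasses.mk x = ConjClasses.mk g), Nat.card {y : G // Commute x y} = Nat.card {y : G // Commute g y} := by
      intro x hx
      rw [Finset.mem_filter] at hx
      have h4 : IsConj x g := ConjClasses.mk_eq_mk_iff_isConj.1 hx.2
      obtain ⟨z, hz⟩ := isConj_iff.1 h4
      apply Nat.card_congr
      refine (MulAut.conj z).toEquiv.subtypeEquiv ?_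
      intro y
      change Commute x y ↔ Commute g (z * y * z⁻¹)
      rw [← hz]
      constructor
      · intro h
        have h5 : x * y = y * x := h
        change z * x * z⁻¹ * (z * y * z⁻¹) = z * y * z⁻¹ * (z * x * z⁻¹)
        calc z * x * z⁻¹ * (z * y * z⁻¹) = z * (x * y) * z⁻¹ := by group
          _ = z * (y * x) * z⁻¹ := by rw [h5]
          _ = _ := by group
      · intro h
        have h5 : z * x * z⁻¹ * (z * y * z⁻¹) = z * y * z⁻¹ * (z * x * z⁻¹) := h
        change x * y = y * x
        calc x * y = z⁻¹ * (z * x * z⁻¹ * (z * y * z⁻¹)) * z := by group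
          _ = z⁻¹ * (z * y * z⁻¹ * (z * x * z⁻¹)) * z := by rw [h5]
          _ = _ := by group
    rw [Finset.sum_congr rfl h3, Finset.sum_const, smul_eq_mul, ← card_class_mul_comm g]
    congr 1
    rw [Nat.card_eq_fintype_card, Fintype.card_subtype]
    congr 1
    ext x
    simp only [Finset.mem_filter, Finset.mem_univ, true_and]
    rw [ConjClasses.mk_eq_mk_iff_isConj]
    constructor
    · rintro ⟨_, h⟩; exact h.symm
    · intro h
      refine ⟨?_, h.symm⟩
      rw [ConjClasses.mk_eq_mk_iff_isConj.2 h.symm]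
      exact hc.2
  rw [Finset.sum_congr rfl h2, Finset.sum_const, smul_eq_mul]
  congr 1
  rw [Nat.card_eq_fintype_card, Fintype.card_subtype]

theorem class_index_two (H : Subgroup G) (hH : H.index = 2) (Q : ConjClasses G → Prop)
    (hQ : ∀ g ∈ H, (∀ x, Commute g x → x ∈ H) → Q (ConjClasses.mk g)) :
    2 * Nat.card (ConjClasses H) ≤ Nat.card (ConjClasses G) + 3 * Nat.card {c // Q c} ∧ Nat.card (ConjClasses G) ≤ 2 * Nat.card (ConjClasses H) := by
  classical
  have : Fintype G := Fintype.ofFinite G
  have hmul : ∀ a b : G, a * b ∈ H ↔ (a ∈ H ↔ b ∈ H) := fun a b => Subgroup.mul_mem_iff_of_index_two hH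
  obtain ⟨c, hc⟩ : ∃ c : G → ℕ, ∀ x, c x = Nat.card {y : G // Commute x y} := ⟨_, fun _ => rfl⟩
  obtain ⟨cH, hcH⟩ : ∃ cH : G → ℕ, ∀ x, cH x = Nat.card {y : G // Commute x y ∧ y ∈ H} := ⟨_, fun _ => rfl⟩
  obtain ⟨cN, hcN⟩ : ∃ cN : G → ℕ, ∀ x, cN x = Nat.card {y : G // Commute x y ∧ y ∉ H} := ⟨_, fun _ => rfl⟩
  have hsum : ∀ x, c x = cH x + cN x := by
    intro x
    rw [hc, hcH, hcN, Nat.card_eq_fintype_card, Nat.card_eq_fintype_card, Nat.card_eq_fintype_card, Fintype.card_subtype, Fintype.card_subtype, Fintype.card_subtype,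
      ← Finset.card_filter_add_card_filter_not (s := Finset.univ.filter (fun y => Commute x y)) (fun y => y ∈ H), Finset.filter_filter, Finset.filter_filter]
  -- total counts
  have hG : ∑ x : G, c x = Nat.card (ConjClasses G) * Nat.card G := by
    have h1 := sum_comm_class (G := G) (fun _ => True)
    simp only [Finset.filter_true] at h1
    have h2 : Nat.card {c : ConjClasses G // True} = Nat.card (ConjClasses G) := Nat.card_congr (Equiv.subtypeUnivEquiv (fun _ => trivial))
    rw [h2] at h1
    rw [← h1]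
    exact Finset.sum_congr rfl fun x _ => hc x
  have hHc : ∑ x ∈ Finset.univ.filter (fun x : G => x ∈ H), cH x = Nat.card (ConjClasses H) * Nat.card H := by
    have h1 := sum_comm_class (G := H) (fun _ => True)
    simp only [Finset.filter_true] at h1
    have h2 : Nat.card {c : ConjClasses H // True} = Nat.card (ConjClasses H) := Nat.card_congr (Equiv.subtypeUnivEquiv (fun _ => trivial))
    rw [h2] at h1
    rw [← h1]
    symm
    refine Finset.sum_bij (fun (x : H) _ => (x : G)) ?_ ?_ ?_ ?_
    · intro x _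
      rw [Finset.mem_filter]; exact ⟨Finset.mem_univ _, x.2⟩
    · intro x _ y _ h; exact Subtype.ext h
    · intro x hx
      rw [Finset.mem_filter] at hx
      exact ⟨⟨x, hx.2⟩, Finset.mem_univ _, rfl⟩
    · intro x _
      rw [hcH]
      apply Nat.card_congr
      refine ⟨fun y => ⟨(y.1 : G), ⟨congrArg Subtype.val y.2.eq, y.1.2⟩⟩, fun y => ⟨⟨y.1, y.2.2⟩, Subtype.ext y.2.1.eq⟩, fun y => rfl, fun y => rfl⟩
  have hswap : ∑ x ∈ Finset.univ.filter (fun x : G => x ∉ H), cH x = ∑ x ∈ Finset.univ.filter (fun x : G => x ∈ H), cN x := by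
    have e1 : ∀ x, cH x = ∑ y : G, if Commute x y ∧ y ∈ H then 1 else 0 := by
      intro x; rw [hcH, Nat.card_eq_fintype_card, Fintype.card_subtype, Finset.card_filter]
    have e2 : ∀ x, cN x = ∑ y : G, if Commute x y ∧ y ∉ H then 1 else 0 := by
      intro x; rw [hcN, Nat.card_eq_fintype_card, Fintype.card_subtype, Finset.card_filter]
    simp only [e1, e2, Finset.sum_filter]
    have e3 : ∑ x : G, (if x ∉ H then ∑ y : G, (if Commute x y ∧ y ∈ H then 1 else 0) else 0) = ∑ x : G, ∑ y : G, (if x ∉ H ∧ Commute x y ∧ y ∈ H then 1 else 0) := by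
      apply Finset.sum_congr rfl
      intro x _
      by_cases hx : x ∉ H
      · rw [if_pos hx]
        apply Finset.sum_congr rfl
        intro y _
        simp only [hx, not_false_iff, true_and]
      · rw [if_neg hx]
        simp only [hx, false_and, if_false, Finset.sum_const_zero]
    have e4 : ∑ x : G, (if x ∈ H then ∑ y : G, (if Commute x y ∧ y ∉ H then 1 else 0) else 0) = ∑ x : G, ∑ y : G, (if x ∈ H ∧ Commute x y ∧ y ∉ H then 1 else 0) := by
      apply Finset.sum_congr rfl
      intro x _
      by_cases hx : x ∈ H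
      · rw [if_pos hx]
        apply Finset.sum_congr rfl
        intro y _
        simp only [hx, true_and]
      · rw [if_neg hx]
        simp only [hx, false_and, if_false, Finset.sum_const_zero]
    rw [e3, e4, Finset.sum_comm]
    apply Finset.sum_congr rfl
    intro y _
    apply Finset.sum_congr rfl
    intro x _
    have : (x ∉ H ∧ Commute x y ∧ y ∈ H) ↔ (y ∈ H ∧ Commute y x ∧ x ∉ H) := by
      constructor
      · rintro ⟨a, b, c⟩; exact ⟨c, b.symm, a⟩
      · rintro ⟨a, b, c⟩; exact ⟨c, b.symm, a⟩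
    simp only [this]
  have hcoset : ∀ x z, z ∉ H → Commute x z → cN x = cH x := by
    intro x z hz hxz
    rw [hcN, hcH]
    apply Nat.card_congr
    refine ⟨fun y => ⟨z * y.1, hxz.mul_right y.2.1, ?_⟩, fun y => ⟨z⁻¹ * y.1, (hxz.inv_right).mul_right y.2.1, ?_⟩, fun y => ?_, fun y => ?_⟩
    · rw [hmul]
      exact ⟨fun h => absurd h hz, fun h => absurd h y.2.2⟩
    · rw [hmul, H.inv_mem_iff]
      exact fun h => hz (h.2 y.2.2)
    · apply Subtype.ext; change z⁻¹ * (z * y.1) = y.1; group
    · apply Subtype.ext; change z * (z⁻¹ * y.1) = y.1; group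
  have hNN : ∑ x ∈ Finset.univ.filter (fun x : G => x ∉ H), cN x = ∑ x ∈ Finset.univ.filter (fun x : G => x ∉ H), cH x := by
    apply Finset.sum_congr rfl
    intro x hx
    rw [Finset.mem_filter] at hx
    exact hcoset x x hx.2 (Commute.refl x)
  have hHN : ∀ x, cN x + (if ∀ z, Commute x z → z ∈ H then cH x else 0) = cH x := by
    intro x
    split_ifs with h
    · have : cN x = 0 := by
        rw [hcN, Nat.card_eq_zero]
        left
        exact ⟨fun y => y.2.2 (h y.1 y.2.1)⟩
      rw [this, zero_add]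
    · push Not at h
      obtain ⟨z, hz1, hz2⟩ := h
      rw [hcoset x z hz2 hz1, add_zero]
  obtain ⟨S, hS⟩ : ∃ S, S = ∑ x ∈ Finset.univ.filter (fun x : G => x ∈ H), (if ∀ z, Commute x z → z ∈ H then cH x else 0) := ⟨_, rfl⟩
  have hS1 : ∑ x ∈ Finset.univ.filter (fun x : G => x ∈ H), cN x + S = ∑ x ∈ Finset.univ.filter (fun x : G => x ∈ H), cH x := by
    rw [hS, ← Finset.sum_add_distrib]
    exact Finset.sum_congr rfl fun x _ => hHN x
  have hS2 : S ≤ Nat.card {c // Q c} * Nat.card G := by
    rw [← sum_comm_class Q, hS, Finset.sum_filter, Finset.sum_filter]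
    apply Finset.sum_le_sum
    intro x _
    by_cases hx : x ∈ H
    · rw [if_pos hx]
      by_cases h : ∀ z, Commute x z → z ∈ H
      · rw [if_pos h, if_pos (hQ x hx h), ← hc, hsum]
        exact Nat.le_add_right _ _
      · rw [if_neg h]; exact Nat.zero_le _
    · rw [if_neg hx]; exact Nat.zero_le _
  have htot : ∑ x : G, c x = ∑ x ∈ Finset.univ.filter (fun x : G => x ∈ H), cH x + 3 * ∑ x ∈ Finset.univ.filter (fun x : G => x ∈ H), cN x := by
    rw [← Finset.sum_filter_add_sum_filter_not Finset.univ (fun x : G => x ∈ H)]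
    have e1 : ∑ x ∈ Finset.univ.filter (fun x : G => x ∈ H), c x = ∑ x ∈ Finset.univ.filter (fun x : G => x ∈ H), cH x + ∑ x ∈ Finset.univ.filter (fun x : G => x ∈ H), cN x := by
      rw [← Finset.sum_add_distrib]; exact Finset.sum_congr rfl fun x _ => hsum x
    have e2 : ∑ x ∈ Finset.univ.filter (fun x : G => x ∉ H), c x = ∑ x ∈ Finset.univ.filter (fun x : G => x ∉ H), cH x + ∑ x ∈ Finset.univ.filter (fun x : G => x ∉ H), cN x := by
      rw [← Finset.sum_add_distrib]; exact Finset.sum_congr rfl fun x _ => hsum x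
    rw [e1, e2, hNN, hswap]; ring
  have hcard : Nat.card G = 2 * Nat.card H := by
    rw [← H.card_mul_index, hH, mul_comm]
  have hHpos : 0 < Nat.card H := Nat.card_pos
  rw [hG] at htot
  rw [hHc] at htot hS1
  rw [hcard] at htot hS2
  constructor
  · apply Nat.le_of_mul_le_mul_right (c := 2 * Nat.card H) _ (by omega)
    nlinarith
  · apply Nat.le_of_mul_le_mul_right (c := 2 * Nat.card H) _ (by omega)
    nlinarith

end

end Cfsg.Agent.H43
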