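import Mathlib
import Cfsg.Agent.H43.BlockSum

set_option autoImplicit false
set_option linter.unusedSectionVars false
set_option linter.unusedVariables false

/-! Unitary matrices with prescribed primary decomposition. -/

namespace Cfsg.Agent.H43

open Polynomial

section
variable {K : Type*} [Field K] [Finite K]

theorem SB.kdim [DecidableEq K[X]] {V : Type*} [AddCommGroup V] [Module K V] [FiniteDimensional K V] {t : ℕ} {g : Module.End K V} {p : Fin t → K[X]} {e : Fin t → ℕ}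
    {φ : V ≃ₗ[K] ((i : Fin t) → K[X] ⧸ Ideal.span {p i ^ e i})} (hp : ∀ i, ClN (p i) ∧ 1 ≤ e i) (h : SB g (fun i => p i ^ e i) φ)
    (P : K[X]) (hP : ClN P) (k : ℕ) :
    Module.finrank K (LinearMap.ker (Polynomial.aeval g (P ^ k))) = (∑ i, if p i = P then min k (e i) else 0) * P.natDegree := by
  rw [h.finrank_ker_pow (fun i => ⟨(hp i).1.1, (hp i).1.2.1⟩) P ⟨hP.1, hP.2.1⟩ k, Finset.sum_filter]

theorem SB.det_aeval {V : Type*} [AddCommGroup V] [Module K V] [FiniteDimensional K V] {t : ℕ} {g : Module.End K V} {p : Fin t → K[X]} {e : Fin t → ℕ}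
    {φ : V ≃ₗ[K] ((i : Fin t) → K[X] ⧸ Ideal.span {p i ^ e i})} (hp : ∀ i, (p i).Monic) (h : SB g (fun i => p i ^ e i) φ) (Q : K[X]) :
    LinearMap.det (Polynomial.aeval g Q) = ∏ i, dQ (p i) Q ^ e i := by
  rw [det_diag φ (fun i => LinearMap.mulLeft K (Ideal.Quotient.mk _ Q)) (Polynomial.aeval g Q) (fun v i => h.aeval Q v i)]
  refine Finset.prod_congr rfl fun i _ => ?_
  rw [← dQ_pow _ _ (hp i)]
  rfl

theorem SB.of_conj {V W ι : Type*} [AddCommGroup V] [Module K V] [AddCommGroup W] [Module K W] {g : Module.End K V} {g' : Module.End K W}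
    {c : ι → K[X]} {φ : V ≃ₗ[K] ((i : ι) → K[X] ⧸ Ideal.span {c i})} (h : SB g c φ) (κ : V ≃ₗ[K] W) (hκ : ∀ x, κ (g x) = g' (κ x)) :
    SB g' c (κ.symm.trans φ) := by
  intro v i
  obtain ⟨x, rfl⟩ := κ.surjective v
  rw [← hκ, LinearEquiv.trans_apply, LinearEquiv.trans_apply, LinearEquiv.symm_apply_apply, LinearEquiv.symm_apply_apply, h]

variable {ι : Type*} [Fintype ι] [DecidableEq ι] (σ : K →+* K) (hσ : ∀ x, σ (σ x) = x)

include hσ in
/-- the multiset of elementary divisors of a unitary matrix is self-dual -/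
theorem exists_perm_of_unitary {A : GL ι K} (hA : stm σ (A : Matrix ι ι K) * (A : Matrix ι ι K) = 1)
    {t : ℕ} {p : Fin t → K[X]} {e : Fin t → ℕ}
    {φ : (ι → K) ≃ₗ[K] ((i : Fin t) → K[X] ⧸ Ideal.span {p i ^ e i})} (hp : ∀ i, ClN (p i) ∧ 1 ≤ e i)
    (h : SB (Matrix.toLin' (A : Matrix ι ι K)) (fun i => p i ^ e i) φ) :
    ∃ s : Fin t ≃ Fin t, ∀ i, p (s i) = dag σ (p i) ∧ e (s i) = e i := by
  apply prim_match ClN (fun P h => ⟨h.1, h.2.1⟩) (dag σ) (ClN_dag σ hσ) ?_ hp h hp h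
  intro P hP k
  rw [← dag_pow]
  exact (finrank_ker_dag σ hσ _ _ hA (P ^ k) (ClN_pow_coeff hP k)).symm

theorem conj_mulVec {A P : GL ι K} : ∃ κ : (ι → K) ≃ₗ[K] (ι → K), ∀ x, κ (Matrix.toLin' (A : Matrix ι ι K) x) =
    Matrix.toLin' ((P * A * P⁻¹ : GL ι K) : Matrix ι ι K) (κ x) := by
  refine ⟨LinearEquiv.ofLinearMap (Matrix.toLin' (P : Matrix ι ι K)) (Matrix.toLin' ((P⁻¹ : GL ι K) : Matrix ι ι K)) ?_ ?_, ?_⟩
  · rw [← Matrix.toLin'_mul, Units.mul_inv, Matrix.toLin'_one]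
  · rw [← Matrix.toLin'_mul, Units.inv_mul, Matrix.toLin'_one]
  · intro x
    change Matrix.toLin' _ _ = Matrix.toLin' _ (Matrix.toLin' _ _)
    rw [← LinearMap.comp_apply, ← LinearMap.comp_apply, ← Matrix.toLin'_mul, ← Matrix.toLin'_mul, ← Units.val_mul, ← Units.val_mul]
    congr 3
    group

include hσ in
/-- a self-dual multiset of elementary divisors is realized by a unitary matrix -/
theorem exists_unitary_of_perm (hne : σ ≠ RingHom.id K) {t : ℕ} {p : Fin t → K[X]} {e : Fin t → ℕ} (hp : ∀ i, ClN (p i) ∧ 1 ≤ e i)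
    (s : Fin t ≃ Fin t) (hs : ∀ i, p (s i) = dag σ (p i) ∧ e (s i) = e i) (n : ℕ) (hn : ∑ i, e i * (p i).natDegree = n) :
    ∃ (B : GL (Fin n) K) (φ : (Fin n → K) ≃ₗ[K] ((i : Fin t) → K[X] ⧸ Ideal.span {p i ^ e i})),
      stm σ (B : Matrix (Fin n) (Fin n) K) * (B : Matrix (Fin n) (Fin n) K) = 1 ∧ SB (Matrix.toLin' (B : Matrix (Fin n) (Fin n) K)) (fun i => p i ^ e i) φ := by
  classical
  obtain ⟨A, φ, hA⟩ := exists_SB_gl (κ := Fin t) (fun i => p i ^ e i) (fun i => (hp i).1.1.pow _)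
    (fun i => isCoprime_X_of_coeff (ClN_pow_coeff (hp i).1 (e i))) (n := n) (by
      rw [← hn]
      exact Finset.sum_congr rfl fun i _ => (hp i).1.1.natDegree_pow _)
  obtain ⟨B, hB⟩ : ∃ B : GL (Fin n) K, (B : Matrix (Fin n) (Fin n) K) = stm σ ((A⁻¹ : GL (Fin n) K) : Matrix (Fin n) (Fin n) K) :=
    ⟨⟨stm σ ((A⁻¹ : GL (Fin n) K) : Matrix (Fin n) (Fin n) K), stm σ (A : Matrix (Fin n) (Fin n) K), stm_units σ A, stm_units' σ A⟩, rfl⟩
  have hAB : stm σ (A : Matrix (Fin n) (Fin n) K) * (B : Matrix (Fin n) (Fin n) K) = 1 := by rw [hB]; exact stm_units' σ A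
  obtain ⟨κ, hκ⟩ := conj_of_finrank A B (by
    intro P hP k
    have h1 := finrank_ker_dag σ hσ _ _ hAB (P ^ k) (ClN_pow_coeff hP k)
    rw [h1, dag_pow, hA.kdim hp P hP, hA.kdim hp (dag σ P) (ClN_dag σ hσ P hP).1, (ClN_dag σ hσ P hP).2.2]
    congr 1
    symm
    apply Fintype.sum_equiv s
    intro i
    rw [(hs i).1, (hs i).2]
    have h2 : (p i = dag σ P) ↔ (dag σ (p i) = P) := by
      constructor
      · intro h; rw [h, (ClN_dag σ hσ P hP).2.1]
      · intro h; rw [← h, (ClN_dag σ hσ _ (hp i).1).2.1]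
    simp only [h2])
  obtain ⟨g, hg⟩ := gl_of_conj κ hκ
  have hg' : (g : Matrix (Fin n) (Fin n) K) * (A : Matrix (Fin n) (Fin n) K) = (B : Matrix (Fin n) (Fin n) K) * (g : Matrix (Fin n) (Fin n) K) := congrArg Units.val hg
  obtain ⟨P, hP⟩ := unitary_exists σ hσ hne A g (by rw [mul_assoc, hg', ← mul_assoc, hAB, one_mul])
  obtain ⟨κ', hκ'⟩ := conj_mulVec (A := A) (P := P)
  exact ⟨P * A * P⁻¹, _, hP, hA.of_conj κ' hκ'⟩

end

end Cfsg.Agent.H43
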