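import Mathlib
import Cfsg.Agent.H43.DagUnit

set_option autoImplicit false
set_option linter.unusedSectionVars false
set_option linter.unusedVariables false

/-! Determinants of the centralizer of a unitary matrix. -/

namespace Cfsg.Agent.H43

open Polynomial

section
variable {K : Type*} [Field K] [Finite K] (σ : K →+* K) (hσ : ∀ x, σ (σ x) = x)

theorem dQ_congr (p Q Q' : K[X]) (h : p ∣ Q - Q') : dQ p Q = dQ p Q' := by
  unfold dQ
  have : Ideal.Quotient.mk (Ideal.span {p}) Q = Ideal.Quotient.mk (Ideal.span {p}) Q' :=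
    Ideal.Quotient.eq.2 (Ideal.mem_span_singleton.2 h)
  rw [this]

theorem dQ_self_one (p : K[X]) : dQ p 1 = 1 := by
  unfold dQ
  rw [map_one, LinearMap.mulLeft_one, LinearMap.det_id]

/-- a closed pair -/
theorem exists_involutive_at {t : ℕ} {p : Fin t → K[X]} {e : Fin t → ℕ} (hp : ∀ i, ClN (p i) ∧ 1 ≤ e i) (hσ : ∀ x, σ (σ x) = x)
    (s : Fin t ≃ Fin t) (hs : ∀ i, p (s i) = dag σ (p i) ∧ e (s i) = e i) (j : Fin t) :
    ∃ s' : Fin t ≃ Fin t, (∀ i, p (s' i) = dag σ (p i) ∧ e (s' i) = e i) ∧ s' (s' j) = j ∧ (dag σ (p j) = p j → s' j = j) := by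
  classical
  have key : ∀ a b : Fin t, p a = p b → e a = e b → ∀ x, p (Equiv.swap a b x) = p x ∧ e (Equiv.swap a b x) = e x := by
    intro a b h1 h2 x
    by_cases ha : x = a
    · subst ha; rw [Equiv.swap_apply_left]; exact ⟨h1.symm, h2.symm⟩
    · by_cases hb : x = b
      · subst hb; rw [Equiv.swap_apply_right]; exact ⟨h1, h2⟩
      · rw [Equiv.swap_apply_of_ne_of_ne ha hb]; exact ⟨rfl, rfl⟩
  by_cases h : dag σ (p j) = p j
  · refine ⟨s.trans (Equiv.swap j (s j)), ?_, ?_, ?_⟩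
    · intro i
      rw [Equiv.trans_apply, (key j (s j) (by rw [(hs j).1, h]) (hs j).2.symm _).1, (key j (s j) (by rw [(hs j).1, h]) (hs j).2.symm _).2]
      exact hs i
    · rw [Equiv.trans_apply, Equiv.trans_apply, Equiv.swap_apply_right, Equiv.swap_apply_right]
    · intro _
      rw [Equiv.trans_apply, Equiv.swap_apply_right]
  · have h1 : p j = p (s (s j)) := by rw [(hs _).1, (hs _).1, dag_dag σ hσ (hp j).1.1 (hp j).1.2.2]
    have h2 : e j = e (s (s j)) := by rw [(hs _).2, (hs _).2]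
    refine ⟨s.trans (Equiv.swap j (s (s j))), ?_, ?_, ?_⟩
    · intro i
      rw [Equiv.trans_apply, (key _ _ h1 h2 _).1, (key _ _ h1 h2 _).2]
      exact hs i
    · have h3 : s j ≠ j := by
        intro h4
        apply h
        rw [← (hs j).1, h4]
      have h4 : s j ≠ s (s j) := fun h5 => h3 (s.injective h5).symm
      rw [Equiv.trans_apply, Equiv.trans_apply, Equiv.swap_apply_of_ne_of_ne h3 h4, Equiv.swap_apply_right]
    · intro h'; exact absurd h' h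

include hσ in
/-- unitary elements commuting with `A` of prescribed determinant -/
theorem exists_unitary_commute (hne : σ ≠ RingHom.id K) {n : ℕ} {A : GL (Fin n) K} (hA : stm σ (A : Matrix (Fin n) (Fin n) K) * (A : Matrix (Fin n) (Fin n) K) = 1)
    {t : ℕ} {p : Fin t → K[X]} {e : Fin t → ℕ}
    {φ : (Fin n → K) ≃ₗ[K] ((i : Fin t) → K[X] ⧸ Ideal.span {p i ^ e i})} (hp : ∀ i, ClN (p i) ∧ 1 ≤ e i)
    (h : SB (Matrix.toLin' (A : Matrix (Fin n) (Fin n) K)) (fun i => p i ^ e i) φ) (j : Fin t) (v : K) (hv : v ≠ 0) :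
    ∃ c : GL (Fin n) K, stm σ (c : Matrix (Fin n) (Fin n) K) * (c : Matrix (Fin n) (Fin n) K) = 1 ∧ c * A = A * c ∧
      (c : Matrix (Fin n) (Fin n) K).det = (v / σ v) ^ e j := by
  classical
  obtain ⟨s₀, hs₀⟩ := exists_perm_of_unitary σ hσ hA hp h
  obtain ⟨s, hs, hsj, hsj'⟩ := exists_involutive_at σ hp hσ s₀ hs₀ j
  -- the closed set
  let S : Finset (Fin t) := {j, s j}
  have hS : ∀ i, s i ∈ S ↔ i ∈ S := by
    intro i
    simp only [S, Finset.mem_insert, Finset.mem_singleton]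
    constructor
    · rintro (h | h)
      · right; apply s.injective; rw [h, hsj]
      · left; exact s.injective h
    · rintro (rfl | rfl)
      · right; rfl
      · left; exact hsj
  have hS' : ∀ i, s i ∉ S ↔ i ∉ S := fun i => not_congr (hS i)
  obtain ⟨ι₁, -⟩ : ∃ ι₁ : Fin (Fintype.card {i // i ∈ S}) ≃ {i // i ∈ S}, True := ⟨(Fintype.equivFin _).symm, trivial⟩
  obtain ⟨ι₂, -⟩ : ∃ ι₂ : Fin (Fintype.card {i // i ∉ S}) ≃ {i // i ∉ S}, True := ⟨(Fintype.equivFin _).symm, trivial⟩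
  generalize Fintype.card {i // i ∈ S} = t₁ at ι₁
  generalize Fintype.card {i // i ∉ S} = t₂ at ι₂
  have hp₁ : ∀ i, ClN (p (ι₁ i).1) ∧ 1 ≤ e (ι₁ i).1 := fun i => hp _
  have hp₂ : ∀ i, ClN (p (ι₂ i).1) ∧ 1 ≤ e (ι₂ i).1 := fun i => hp _
  obtain ⟨n₁, hn₁⟩ : ∃ n₁, ∑ i, e (ι₁ i).1 * (p (ι₁ i).1).natDegree = n₁ := ⟨_, rfl⟩
  obtain ⟨n₂, hn₂⟩ : ∃ n₂, ∑ i, e (ι₂ i).1 * (p (ι₂ i).1).natDegree = n₂ := ⟨_, rfl⟩
  obtain ⟨B₁, φ₁, hB₁, hSB₁⟩ := exists_unitary_of_perm σ hσ hne (p := fun i => p (ι₁ i).1) (e := fun i => e (ι₁ i).1) hp₁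
    (ι₁.trans ((Equiv.Perm.subtypePerm s hS).trans ι₁.symm)) (fun i => by simp [hs]) n₁ hn₁
  obtain ⟨B₂, φ₂, hB₂, hSB₂⟩ := exists_unitary_of_perm σ hσ hne (p := fun i => p (ι₂ i).1) (e := fun i => e (ι₂ i).1) hp₂
    (ι₂.trans ((Equiv.Perm.subtypePerm s hS').trans ι₂.symm)) (fun i => by simp [hs]) n₂ hn₂
  -- sums over the two parts
  have hsplit : ∀ f : Fin t → ℕ, ∑ i, f i = (∑ i, f (ι₁ i).1) + ∑ i, f (ι₂ i).1 := by
    intro f
    have h1 : ∑ i, f (ι₁ i).1 = ∑ x : {i // i ∈ S}, f x.1 := Fintype.sum_equiv ι₁ _ _ (fun i => rfl)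
    have h2 : ∑ i, f (ι₂ i).1 = ∑ x : {i // i ∉ S}, f x.1 := Fintype.sum_equiv ι₂ _ _ (fun i => rfl)
    rw [h1, h2]
    have h3 := Fintype.sum_subtype_add_sum_subtype (fun i => i ∈ S) f
    convert h3.symm
  have hn : n₁ + n₂ = n := by
    have h1 := SB.finrank (fun i => (hp i).1.1) h
    rw [Module.finrank_fintype_fun_eq_card, Fintype.card_fin] at h1
    rw [h1, hsplit, hn₁, hn₂]
  obtain ⟨ε, -⟩ : ∃ ε : Fin n₁ ⊕ Fin n₂ ≃ Fin n, True := ⟨finSumFinEquiv.trans (finCongr hn), trivial⟩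
  obtain ⟨κ, hκ⟩ := conj_of_finrank A (bsGL ε B₁ B₂) (by
    intro P hP k
    rw [bsGL_coe, finrank_ker_aeval_bs, h.kdim hp P hP, hSB₁.kdim hp₁ P hP, hSB₂.kdim hp₂ P hP, ← add_mul]
    congr 1
    exact hsplit _)
  obtain ⟨g, hg⟩ := gl_of_conj κ hκ
  have hC : stm σ (bsGL ε B₁ B₂ : Matrix (Fin n) (Fin n) K) * (bsGL ε B₁ B₂ : Matrix (Fin n) (Fin n) K) = 1 := by
    rw [bsGL_coe, bs_stm, bs_mul, hB₁, hB₂, bs_one]
  obtain ⟨k, hk, hkA⟩ := unitary_conj σ hσ hne A (bsGL ε B₁ B₂) hA hC g hg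
  -- the polynomial
  obtain ⟨Q, hQ1, hQ2⟩ : ∃ Q : K[X], dQ (p j) Q = v ∧ (dag σ (p j) ≠ p j → dQ (dag σ (p j)) Q = 1) := by
    obtain ⟨a, ha, -⟩ := exists_det_mul (p j) (hp j).1.2.1 1 rfl v hv
    obtain ⟨Q, rfl⟩ := Ideal.Quotient.mk_surjective a
    have hdQ : dQ (p j) Q = v := by
      have h1 : dQ (p j ^ 1) Q = v := ha
      rwa [pow_one] at h1
    by_cases hd : dag σ (p j) = p j
    · exact ⟨Q, hdQ, fun h => absurd hd h⟩
    · have hcop : IsCoprime (p j) (dag σ (p j)) := by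
        rw [(hp j).1.2.1.coprime_iff_not_dvd]
        intro hdvd
        apply hd
        have h2 : Associated (p j) (dag σ (p j)) := ((hp j).1.2.1.dvd_irreducible_iff_associated (ClN_dag σ hσ _ (hp j).1).1.2.1).1 hdvd
        exact (eq_of_monic_of_associated (hp j).1.1 (ClN_dag σ hσ _ (hp j).1).1.1 h2).symm
      obtain ⟨a, b, hab⟩ := hcop
      refine ⟨1 + (Q - 1) * (b * dag σ (p j)), ?_, fun _ => ?_⟩
      · rw [← hdQ]
        apply dQ_congr
        refine ⟨-(a * (Q - 1)), ?_⟩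
        have : b * dag σ (p j) = 1 - a * p j := by rw [← hab]; ring
        rw [this]; ring
      · rw [← dQ_self_one (dag σ (p j))]
        apply dQ_congr
        exact ⟨(Q - 1) * b, by ring⟩
  -- its value
  obtain ⟨M, hM⟩ : ∃ M : Matrix (Fin n₁) (Fin n₁) K, M = aeval (B₁ : Matrix (Fin n₁) (Fin n₁) K) Q := ⟨_, rfl⟩
  have hMdet : M.det = v ^ e j := by
    rw [← LinearMap.det_toLin', hM, ← aeval_toLin', hSB₁.det_aeval (fun i => (hp₁ i).1.1)]
    have h1 : ∏ i, dQ (p (ι₁ i).1) Q ^ e (ι₁ i).1 = ∏ x : {i // i ∈ S}, dQ (p x.1) Q ^ e x.1 := Fintype.prod_equiv ι₁ _ _ (fun i => rfl)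
    rw [h1, Finset.prod_coe_sort S (fun i => dQ (p i) Q ^ e i)]
    by_cases hd : dag σ (p j) = p j
    · have h2 : S = {j} := by simp only [S]; rw [hsj' hd, Finset.pair_eq_singleton]
      rw [h2, Finset.prod_singleton, hQ1]
    · have h2 : j ≠ s j := by
        intro h3
        apply hd
        rw [← (hs j).1, ← h3]
      rw [Finset.prod_pair h2, hQ1, (hs j).1, hQ2 hd, one_pow, mul_one]
  have hMu : IsUnit M := (Matrix.isUnit_iff_isUnit_det _).2 (by rw [hMdet]; exact (pow_ne_zero _ hv).isUnit)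
  obtain ⟨M, rfl⟩ := hMu
  have hB₁' : stm σ (B₁ : Matrix (Fin n₁) (Fin n₁) K) = ((B₁⁻¹ : GL (Fin n₁) K) : Matrix (Fin n₁) (Fin n₁) K) := by
    calc stm σ (B₁ : Matrix (Fin n₁) (Fin n₁) K) = stm σ (B₁ : Matrix (Fin n₁) (Fin n₁) K) * ((B₁ : Matrix (Fin n₁) (Fin n₁) K) * ((B₁⁻¹ : GL (Fin n₁) K) : Matrix (Fin n₁) (Fin n₁) K)) := by
          rw [Units.mul_inv, mul_one]
      _ = _ := by rw [← mul_assoc, hB₁, one_mul]
  obtain ⟨N, hN⟩ : ∃ N : GL (Fin n₁) K, (N : Matrix (Fin n₁) (Fin n₁) K) = stm σ (M : Matrix (Fin n₁) (Fin n₁) K) :=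
    ⟨⟨stm σ (M : Matrix (Fin n₁) (Fin n₁) K), stm σ ((M⁻¹ : GL (Fin n₁) K) : Matrix (Fin n₁) (Fin n₁) K), stm_units' σ M, stm_units σ M⟩, rfl⟩
  have hMB : M * B₁ = B₁ * M := by
    apply Units.ext
    change (M : Matrix (Fin n₁) (Fin n₁) K) * (B₁ : Matrix (Fin n₁) (Fin n₁) K) = (B₁ : Matrix (Fin n₁) (Fin n₁) K) * (M : Matrix (Fin n₁) (Fin n₁) K)
    rw [hM]
    have h1 : aeval (B₁ : Matrix (Fin n₁) (Fin n₁) K) (Q * X) = aeval (B₁ : Matrix (Fin n₁) (Fin n₁) K) Q * (B₁ : Matrix (Fin n₁) (Fin n₁) K) := by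
      rw [map_mul, aeval_X]
    have h2 : aeval (B₁ : Matrix (Fin n₁) (Fin n₁) K) (X * Q) = (B₁ : Matrix (Fin n₁) (Fin n₁) K) * aeval (B₁ : Matrix (Fin n₁) (Fin n₁) K) Q := by
      rw [map_mul, aeval_X]
    rw [← h1, ← h2, mul_comm]
  have hNB : N * B₁ = B₁ * N := by
    have h1 : N * B₁⁻¹ = B₁⁻¹ * N := by
      apply Units.ext
      rw [Units.val_mul, Units.val_mul, hN, ← hB₁', ← stm_mul, ← stm_mul]
      congr 1
      exact (congrArg Units.val hMB).symm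
    calc N * B₁ = B₁ * (B₁⁻¹ * N) * B₁ := by group
      _ = B₁ * N := by rw [← h1]; group
  have hMN : M * N = N * M := by
    -- N is a polynomial in B₁⁻¹
    have h1 : Commute (M : Matrix (Fin n₁) (Fin n₁) K) (((B₁⁻¹ : GL (Fin n₁) K)) : Matrix (Fin n₁) (Fin n₁) K) := by
      have h2 : M * B₁⁻¹ = B₁⁻¹ * M := by
        calc M * B₁⁻¹ = B₁⁻¹ * (B₁ * M) * B₁⁻¹ := by group
          _ = _ := by rw [← hMB]; group
      exact congrArg Units.val h2
    apply Units.ext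
    rw [Units.val_mul, Units.val_mul, hN]
    have h2 : stm σ (M : Matrix (Fin n₁) (Fin n₁) K) = aeval (((B₁⁻¹ : GL (Fin n₁) K)) : Matrix (Fin n₁) (Fin n₁) K) (Q.map σ) := by
      rw [hM, stm_aeval, hB₁']
    rw [h2]
    have h3 : ∀ R : K[X], Commute (M : Matrix (Fin n₁) (Fin n₁) K) (aeval (((B₁⁻¹ : GL (Fin n₁) K)) : Matrix (Fin n₁) (Fin n₁) K) R) := by
      intro R
      induction R using Polynomial.induction_on' with
      | add p q hp hq => rw [map_add]; exact hp.add_right hq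
      | monomial m a =>
        rw [aeval_monomial, ← Algebra.smul_def]
        exact (h1.pow_right m).smul_right a
    exact h3 _
  -- the element
  obtain ⟨c₁, hc₁⟩ : ∃ c₁ : GL (Fin n₁) K, c₁ = M * N⁻¹ := ⟨_, rfl⟩
  have hc₁u : stm σ (c₁ : Matrix (Fin n₁) (Fin n₁) K) * (c₁ : Matrix (Fin n₁) (Fin n₁) K) = 1 := by
    have h1 : stm σ (c₁ : Matrix (Fin n₁) (Fin n₁) K) * (stm σ (N : Matrix (Fin n₁) (Fin n₁) K) ) = stm σ ((N * c₁ : GL (Fin n₁) K) : Matrix (Fin n₁) (Fin n₁) K) := by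
      rw [Units.val_mul, stm_mul]
    have h2 : N * c₁ = M := by
      rw [hc₁, ← mul_assoc, ← hMN, mul_assoc, mul_inv_cancel, mul_one]
    rw [h2, hN, stm_stm σ hσ, ← hN] at h1
    have h3 : (c₁ : Matrix (Fin n₁) (Fin n₁) K) = (M : Matrix (Fin n₁) (Fin n₁) K) * ((N⁻¹ : GL (Fin n₁) K) : Matrix (Fin n₁) (Fin n₁) K) := by
      rw [hc₁]; rfl
    rw [h3, ← mul_assoc]
    rw [h3] at h1
    rw [h1, Units.mul_inv]
  have hc₁B : c₁ * B₁ = B₁ * c₁ := by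
    have h2 : N⁻¹ * B₁ = B₁ * N⁻¹ := by
      calc N⁻¹ * B₁ = N⁻¹ * (B₁ * N) * N⁻¹ := by group
        _ = _ := by rw [← hNB]; group
    rw [hc₁, mul_assoc, h2, ← mul_assoc, hMB, mul_assoc]
  have hNdet : (N : Matrix (Fin n₁) (Fin n₁) K).det = σ v ^ e j := by
    rw [hN]
    unfold stm
    rw [Matrix.det_transpose, ← RingHom.mapMatrix_apply, ← RingHom.map_det, hMdet, map_pow]
  have hc₁det : (c₁ : Matrix (Fin n₁) (Fin n₁) K).det = (v / σ v) ^ e j := by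
    have hσv : σ v ≠ 0 := (map_ne_zero_iff σ σ.injective).2 hv
    have h1 : (c₁ : Matrix (Fin n₁) (Fin n₁) K).det * (N : Matrix (Fin n₁) (Fin n₁) K).det = v ^ e j := by
      rw [← Matrix.det_mul, ← hMdet]
      congr 1
      have : c₁ * N = M := by rw [hc₁]; group
      exact congrArg Units.val this
    rw [hNdet] at h1
    rw [div_pow, eq_div_iff (pow_ne_zero _ hσv), h1]
  refine ⟨k⁻¹ * bsGL ε c₁ 1 * k, ?_, ?_, ?_⟩
  · have h1 : stm σ (bsGL ε c₁ 1 : Matrix (Fin n) (Fin n) K) * (bsGL ε c₁ 1 : Matrix (Fin n) (Fin n) K) = 1 := by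
      rw [bsGL_coe, bs_stm, bs_mul, hc₁u, Units.val_one, stm_one, mul_one, bs_one]
    have hk' : stm σ (((k⁻¹ : GL (Fin n) K)) : Matrix (Fin n) (Fin n) K) * (((k⁻¹ : GL (Fin n) K)) : Matrix (Fin n) (Fin n) K) = 1 := by
      have h2 : stm σ (k : Matrix (Fin n) (Fin n) K) = ((k⁻¹ : GL (Fin n) K) : Matrix (Fin n) (Fin n) K) := by
        calc stm σ (k : Matrix (Fin n) (Fin n) K) = stm σ (k : Matrix (Fin n) (Fin n) K) * ((k : Matrix (Fin n) (Fin n) K) * ((k⁻¹ : GL (Fin n) K) : Matrix (Fin n) (Fin n) K)) := by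
              rw [Units.mul_inv, mul_one]
          _ = _ := by rw [← mul_assoc, hk, one_mul]
      rw [← h2, stm_stm σ hσ]
      exact mul_eq_one_comm.1 hk
    rw [Units.val_mul, Units.val_mul, stm_mul, stm_mul]
    calc _ = stm σ (k : Matrix (Fin n) (Fin n) K) * (stm σ (bsGL ε c₁ 1 : Matrix (Fin n) (Fin n) K) * (stm σ (((k⁻¹ : GL (Fin n) K)) : Matrix (Fin n) (Fin n) K) * (((k⁻¹ : GL (Fin n) K)) : Matrix (Fin n) (Fin n) K)) * (bsGL ε c₁ 1 : Matrix (Fin n) (Fin n) K)) * (k : Matrix (Fin n) (Fin n) K) := by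
          simp only [mul_assoc]
      _ = 1 := by rw [hk', mul_one, h1, mul_one, hk]
  · have h1 : bsGL ε c₁ 1 * bsGL ε B₁ B₂ = bsGL ε B₁ B₂ * bsGL ε c₁ 1 := by
      rw [bsGL_mul, bsGL_mul, hc₁B, one_mul, mul_one]
    calc k⁻¹ * bsGL ε c₁ 1 * k * A = k⁻¹ * bsGL ε c₁ 1 * (k * A) := by group
      _ = k⁻¹ * (bsGL ε c₁ 1 * bsGL ε B₁ B₂) * k := by rw [hkA]; group
      _ = k⁻¹ * (bsGL ε B₁ B₂ * k) * k⁻¹ * bsGL ε c₁ 1 * k := by rw [h1]; group
      _ = A * (k⁻¹ * bsGL ε c₁ 1 * k) := by rw [← hkA]; group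
  · rw [Units.val_mul, Units.val_mul, Matrix.det_mul, Matrix.det_mul, mul_right_comm, ← Matrix.det_mul, Units.inv_mul, Matrix.det_one, one_mul,
      bsGL_coe, bs_det, hc₁det, Units.val_one, Matrix.det_one, mul_one]

end

end Cfsg.Agent.H43
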