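import Mathlib
import Cfsg.Agent.H43.DagCent

set_option autoImplicit false
set_option linter.unusedSectionVars false
set_option linter.unusedVariables false

/-! Counting self-dual polynomials. -/

namespace Cfsg.Agent.H43

open Polynomial

section
variable {K : Type*} [Field K] (σ : K →+* K) (hσ : ∀ x, σ (σ x) = x) (hne : σ ≠ RingHom.id K)

include hσ hne in
theorem exists_hilbert (a : K) (ha : a * σ a = 1) : ∃ b : K, b ≠ 0 ∧ b = a * σ b := by
  by_cases h : ∀ c, c + a * σ c = 0
  · exfalso
    have h1 := h 1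
    rw [map_one, mul_one] at h1
    have h2 : a = -1 := by linear_combination h1
    apply hne
    apply RingHom.ext
    intro c
    have h3 := h c
    rw [h2] at h3
    rw [RingHom.id_apply]
    linear_combination -h3
  · push Not at h
    obtain ⟨c, hc⟩ := h
    refine ⟨c + a * σ c, hc, ?_⟩
    rw [map_add, map_mul, hσ]
    linear_combination (-c) * ha

include hσ hne in
/-- fixed points of a semilinear involution -/
theorem card_fix_semilinear [Finite K] {q : ℕ} (hK : Nat.card K = q ^ 2) (m : ℕ) (T : (Fin m → K) → (Fin m → K)) (hT : ∀ v w, T (v + w) = T v + T w)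
    (hT' : ∀ (c : K) v, T (c • v) = σ c • T v) (hTT : ∀ v, T (T v) = v) : Nat.card {v : Fin m → K // T v = v} = q ^ m := by
  obtain ⟨ω, hω⟩ : ∃ ω, σ ω ≠ ω := by
    by_contra h
    push Not at h
    exact hne (RingHom.ext h)
  have hd : ω - σ ω ≠ 0 := sub_ne_zero.2 (Ne.symm hω)
  have hTs : ∀ v w, T (v - w) = T v - T w := by
    intro v w
    have h1 := hT (v - w) w
    rw [sub_add_cancel] at h1
    rw [h1, add_sub_cancel_right]
  let f : {v : Fin m → K // T v = v} × {v : Fin m → K // T v = v} → (Fin m → K) := fun x => x.1.1 + ω • x.2.1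
  have hf : Function.Bijective f := by
    constructor
    · rintro ⟨x, y⟩ ⟨x', y'⟩ h
      have h1 : x.1 + ω • y.1 = x'.1 + ω • y'.1 := h
      have h2 := congrArg T h1
      rw [hT, hT, hT', hT', x.2, y.2, x'.2, y'.2] at h2
      have h3 : (ω - σ ω) • y.1 = (ω - σ ω) • y'.1 := by
        rw [sub_smul, sub_smul]
        have h4 : ω • y.1 - σ ω • y.1 = (x.1 + ω • y.1) - (x.1 + σ ω • y.1) := by abel
        rw [h4, h1, h2]; abel
      have h4 : y = y' := by
        apply Subtype.ext
        funext i
        have h5 := congrFun h3 i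
        exact mul_left_cancel₀ hd h5
      subst h4
      have h5 : x = x' := Subtype.ext (add_right_cancel h1)
      rw [h5]
    · intro v
      obtain ⟨y, hy⟩ : ∃ y, y = (ω - σ ω)⁻¹ • (v - T v) := ⟨_, rfl⟩
      have hy1 : (ω - σ ω) • y = v - T v := by rw [hy, smul_smul, mul_inv_cancel₀ hd, one_smul]
      have hTy : T y = y := by
        have h1 := congrArg T hy1
        rw [hT', hTs, hTT, map_sub, hσ] at h1
        have h2 : (ω - σ ω) • T y = (ω - σ ω) • y := by
          rw [hy1]
          have h3 : (ω - σ ω) • T y = -((σ ω - ω) • T y) := by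
            rw [← neg_smul, neg_sub]
          rw [h3, h1, neg_sub]
        funext i
        exact mul_left_cancel₀ hd (congrFun h2 i)
      have hTx : T (v - ω • y) = v - ω • y := by
        rw [hTs, hT', hTy]
        have h1 : ω • y - σ ω • y = v - T v := by rw [← sub_smul, hy1]
        have h2 : v - ω • y - (T v - σ ω • y) = 0 := by
          have : v - ω • y - (T v - σ ω • y) = (v - T v) - (ω • y - σ ω • y) := by abel
          rw [this, h1, sub_self]
        exact (sub_eq_zero.1 h2).symm
      exact ⟨(⟨v - ω • y, hTx⟩, ⟨y, hTy⟩), by change v - ω • y + ω • y = v; abel⟩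
  have h1 := Nat.card_congr (Equiv.ofBijective f hf)
  rw [Nat.card_prod, Nat.card_fun, Nat.card_fin, hK] at h1
  have h2 : Nat.card {v : Fin m → K // T v = v} ^ 2 = (q ^ m) ^ 2 := by
    rw [sq, h1]; ring
  exact Nat.pow_left_injective (by norm_num : 2 ≠ 0) h2

include hσ hne in
/-- middle coefficients of self-dual polynomials -/
theorem card_middle [Finite K] {q : ℕ} (hK : Nat.card K = q ^ 2) (m : ℕ) (c : K) (hc : c * σ c = 1) :
    Nat.card {v : Fin m → K // ∀ i, v i = c * σ (v i.rev)} = q ^ m := by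
  rw [← card_fix_semilinear σ hσ hne hK m (fun v i => c * σ (v i.rev)) (by
    intro v w; funext i; simp only [Pi.add_apply, map_add, mul_add]) (by
    intro d v; funext i; simp only [Pi.smul_apply, smul_eq_mul, map_mul]; ring) (by
    intro v; funext i; simp only [map_mul, hσ, Fin.rev_rev]
    rw [← mul_assoc, hc, one_mul])]
  apply Nat.card_congr
  apply Equiv.subtypeEquivRight
  intro v
  constructor
  · intro h; funext i; exact (h i).symm
  · intro h i; exact (congrFun h i).symm

/-- self-dual polynomials -/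
def PolU := {f : K[X] // f.Monic ∧ f.coeff 0 ≠ 0 ∧ dag σ f = f}

/-- degree -/
def degU (f : PolU σ) : ℕ := f.1.natDegree

theorem PolU.coeff {f : PolU σ} (i : ℕ) (hi : i ≤ f.1.natDegree) : f.1.coeff i = f.1.coeff 0 * σ (f.1.coeff (f.1.natDegree - i)) := by
  have h0 := dag_coeff_zero σ f.2.1
  rw [f.2.2.2] at h0
  have h := dag_coeff σ (P := f.1) i hi
  rw [f.2.2.2] at h
  rw [h, ← h0]

theorem PolU.norm {f : PolU σ} : f.1.coeff 0 * σ (f.1.coeff 0) = 1 := by
  have h0 := dag_coeff_zero σ f.2.1
  rw [f.2.2.2] at h0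
  have h1 : σ (f.1.coeff 0) ≠ 0 := (map_ne_zero_iff σ σ.injective).2 f.2.2.1
  conv_lhs => rw [h0]
  rw [← h0]
  conv_lhs => arg 1; rw [h0]
  exact inv_mul_cancel₀ h1

/-- criterion for self-duality -/
theorem dag_eq_self {f : K[X]} (hf : f.Monic) (h0 : f.coeff 0 * σ (f.coeff 0) = 1)
    (h : ∀ i, 0 < i → i < f.natDegree → f.coeff i = f.coeff 0 * σ (f.coeff (f.natDegree - i))) : dag σ f = f := by
  have hne : f.coeff 0 ≠ 0 := left_ne_zero_of_mul_eq_one h0
  have hinv : (σ (f.coeff 0))⁻¹ = f.coeff 0 := by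
    rw [inv_eq_iff_eq_inv]
    exact eq_inv_of_mul_eq_one_right h0
  apply monic_eq_of_coeff (dag_monic σ hne) hf (dag_natDegree σ hne)
  intro i hi
  rw [dag_natDegree σ hne] at hi
  rw [dag_coeff σ i hi.le, hinv]
  rcases Nat.eq_zero_or_pos i with rfl | h1
  · rw [Nat.sub_zero, hf.coeff_natDegree, map_one, mul_one]
  · exact (h i h1 hi).symm

/-- the trivial self-dual polynomial -/
noncomputable def oneU : PolU σ := ⟨1, monic_one, by simp, dag_one σ⟩

theorem degU_one : degU σ (oneU σ) = 0 := natDegree_one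

theorem eq_oneU (f : PolU σ) (h : degU σ f = 0) : f = oneU σ := Subtype.ext (f.2.1.natDegree_eq_zero.1 h)

end

end Cfsg.Agent.H43
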