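import Mathlib
import Cfsg.Agent.H43.DagCount

set_option autoImplicit false
set_option linter.unusedSectionVars false
set_option linter.unusedVariables false

/-! Counting self-dual polynomials, II. -/

namespace Cfsg.Agent.H43

open Polynomial

section
variable {K : Type*} [Field K] (σ : K →+* K) (hσ : ∀ x, σ (σ x) = x) (hne : σ ≠ RingHom.id K)

/-- norm one units -/
def nO : Subgroup Kˣ := (MonoidHom.id Kˣ * (Units.map (σ : K →* K))).ker

theorem mem_nO (u : Kˣ) : u ∈ nO σ ↔ (u : K) * σ u = 1 := by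
  unfold nO
  rw [MonoidHom.mem_ker]
  constructor
  · intro h
    exact congrArg Units.val h
  · intro h
    exact Units.ext h

theorem card_nO [Fintype K] {q : ℕ} (hK : Fintype.card K = q ^ 2) :
    Nat.card (nO (Cfsg.Agent.ClGeo.frob hK)) = q + 1 := by
  have h1 : nO (Cfsg.Agent.ClGeo.frob hK) = (powMonoidHom (q + 1) : Kˣ →* Kˣ).ker := by
    ext u
    rw [mem_nO, MonoidHom.mem_ker, powMonoidHom_apply, Units.ext_iff, Units.val_pow_eq_pow_val, Units.val_one, pow_succ', Cfsg.Agent.ClGeo.frob_apply]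
  have hq : 2 ≤ q := by
    have h2 : 1 < Fintype.card K := Fintype.one_lt_card
    rw [hK] at h2
    by_contra h3
    have : q ≤ 1 := by omega
    have h4 : q ^ 2 ≤ 1 ^ 2 := Nat.pow_le_pow_left this 2
    omega
  rw [h1, IsCyclic.card_powMonoidHom_ker, Nat.card_units, Nat.card_eq_fintype_card, hK]
  have h3 : q ^ 2 - 1 = (q + 1) * (q - 1) := by
    obtain ⟨r, rfl⟩ : ∃ r, q = r + 1 := ⟨q - 1, by omega⟩
    rw [Nat.add_sub_cancel]
    have : (r + 1) ^ 2 = (r + 1 + 1) * r + 1 := by ring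
    omega
  rw [h3]
  exact Nat.gcd_eq_right (dvd_mul_right _ _)

/-- the determinant of a self-dual polynomial -/
noncomputable def delU (f : PolU σ) : nO σ :=
  ⟨Units.mk0 ((-1) ^ f.1.natDegree * f.1.coeff 0) (mul_ne_zero (pow_ne_zero _ (neg_ne_zero.2 one_ne_zero)) f.2.2.1), by
    rw [mem_nO, Units.val_mk0, map_mul, map_pow, map_neg, map_one]
    have h1 : f.1.coeff 0 * σ (f.1.coeff 0) = 1 := PolU.norm σ
    have h2 : ((-1 : K) ^ f.1.natDegree) * ((-1 : K) ^ f.1.natDegree) = 1 := by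
      rw [← mul_pow]; simp
    linear_combination ((-1 : K) ^ f.1.natDegree * (-1 : K) ^ f.1.natDegree) * h1 + h2⟩

theorem delU_coe (f : PolU σ) : (((delU σ f : nO σ) : Kˣ) : K) = (-1) ^ f.1.natDegree * f.1.coeff 0 := rfl

theorem delU_one (f : PolU σ) (h : degU σ f = 0) : delU σ f = 1 := by
  rw [eq_oneU σ f h]
  apply Subtype.ext
  apply Units.ext
  rw [delU_coe]
  simp [oneU]

include hσ hne in
theorem card_PolU [Finite K] {q : ℕ} (hK : Nat.card K = q ^ 2) (hN : Nat.card (nO σ) = q + 1) (d : ℕ) :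
    Finite {x : PolU σ // degU σ x = d + 1} ∧ Nat.card {x : PolU σ // degU σ x = d + 1} ≤ (q + 1) * q ^ d := by
  classical
  have hfc : ∀ c : nO σ, ((c : Kˣ) : K) * σ ((c : Kˣ) : K) = 1 := fun c => (mem_nO σ _).1 c.2
  let f : {x : PolU σ // degU σ x = d + 1} → (c : nO σ) × {v : Fin d → K // ∀ i, v i = ((c : Kˣ) : K) * σ (v i.rev)} :=
    fun x => ⟨⟨Units.mk0 _ x.1.2.2.1, (mem_nO σ _).2 (PolU.norm σ)⟩, ⟨fun i => x.1.1.coeff (i + 1), by
      intro i
      have hd : x.1.1.natDegree = d + 1 := x.2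
      have h := PolU.coeff σ (f := x.1) (i + 1) (by rw [hd]; have := i.2; omega)
      change x.1.1.coeff (i + 1) = x.1.1.coeff 0 * σ (x.1.1.coeff ((i.rev : ℕ) + 1))
      rw [h, Fin.val_rev, hd]
      have : d + 1 - (i + 1) = d - (i + 1) + 1 := by have := i.2; omega
      rw [this]⟩⟩
  have hf : Function.Injective f := by
    intro a b hab
    apply Subtype.ext
    apply Subtype.ext
    have hda : a.1.1.natDegree = d + 1 := a.2
    have hdb : b.1.1.natDegree = d + 1 := b.2
    apply monic_eq_of_coeff a.1.2.1 b.1.2.1 (by rw [hda, hdb])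
    intro i hi
    rw [hda] at hi
    rcases i with _ | i
    · exact congrArg (fun z : (c : nO σ) × {v : Fin d → K // ∀ i, v i = ((c : Kˣ) : K) * σ (v i.rev)} => ((z.1 : Kˣ) : K)) hab
    · exact congrFun (congrArg (fun z : (c : nO σ) × {v : Fin d → K // ∀ i, v i = ((c : Kˣ) : K) * σ (v i.rev)} => z.2.1) hab) ⟨i, by omega⟩
  have : Fintype (nO σ) := Fintype.ofFinite _
  refine ⟨Finite.of_injective f hf, (Nat.card_le_card_of_injective f hf).trans ?_⟩
  rw [Nat.card_sigma, Finset.sum_congr rfl (fun c _ => card_middle σ hσ hne hK d _ (hfc c)), Finset.sum_const, smul_eq_mul, Finset.card_univ,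
    ← Nat.card_eq_fintype_card, hN]

theorem card_PolU_zero : Finite {x : PolU σ // degU σ x = 0} ∧ Nat.card {x : PolU σ // degU σ x = 0} ≤ 1 := by
  have hsub : Subsingleton {x : PolU σ // degU σ x = 0} := ⟨fun a b => Subtype.ext ((eq_oneU σ a.1 a.2).trans (eq_oneU σ b.1 b.2).symm)⟩
  exact ⟨inferInstance, Finite.card_le_one_iff_subsingleton.2 hsub⟩

theorem scal_natDegree {f : K[X]} (hf : f.Monic) (hd : f.natDegree ≠ 0) (b c : K) :
    ((C b * f + C (1 - b) * X ^ f.natDegree + C c).Monic ∧ (C b * f + C (1 - b) * X ^ f.natDegree + C c).natDegree = f.natDegree) := by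
  have h1 : (C b * f + C (1 - b) * X ^ f.natDegree + C c).coeff f.natDegree = 1 := by
    rw [coeff_add, coeff_add, coeff_C_mul, coeff_C_mul, coeff_X_pow, if_pos rfl, hf.coeff_natDegree, coeff_C, if_neg hd]
    ring
  have h2 : (C b * f + C (1 - b) * X ^ f.natDegree + C c).natDegree ≤ f.natDegree := by
    apply (natDegree_add_le _ _).trans
    rw [natDegree_C, max_le_iff]
    refine ⟨(natDegree_add_le _ _).trans ?_, Nat.zero_le _⟩
    rw [max_le_iff]
    exact ⟨natDegree_C_mul_le _ _, (natDegree_C_mul_le _ _).trans (natDegree_X_pow_le _)⟩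
  exact ⟨monic_of_natDegree_le_of_coeff_eq_one _ h2 h1, natDegree_eq_of_le_of_coeff_ne_zero h2 (by rw [h1]; exact one_ne_zero)⟩

theorem scal_coeff_zero {f : K[X]} (hd : f.natDegree ≠ 0) (b c : K) :
    (C b * f + C (1 - b) * X ^ f.natDegree + C c).coeff 0 = b * f.coeff 0 + c := by
  rw [coeff_add, coeff_add, coeff_C_mul, coeff_C_mul, coeff_X_pow, if_neg (Ne.symm hd), coeff_C_zero]
  ring

theorem scal_coeff {f : K[X]} (b c : K) (i : ℕ) (h0 : 0 < i) (hi : i < f.natDegree) :
    (C b * f + C (1 - b) * X ^ f.natDegree + C c).coeff i = b * f.coeff i := by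
  rw [coeff_add, coeff_add, coeff_C_mul, coeff_C_mul, coeff_X_pow, if_neg (by omega), coeff_C, if_neg (by omega)]
  ring

include hσ hne in
/-- scaling the constant term of self-dual polynomials -/
theorem exists_scalingU : ∃ sc : nO σ → PolU σ → PolU σ, (∀ a x, degU σ (sc a x) = degU σ x) ∧ (∀ a, Function.Injective (sc a)) ∧
    (∀ a x, degU σ x ≠ 0 → delU σ (sc a x) = a * delU σ x) := by
  classical
  have hb : ∀ a : nO σ, ∃ b : K, b ≠ 0 ∧ b = ((a : Kˣ) : K) * σ b := fun a => exists_hilbert σ hσ hne _ ((mem_nO σ _).1 a.2)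
  choose b hb0 hb using hb
  have hval : ∀ (a : nO σ) (x : PolU σ), degU σ x ≠ 0 →
      (C (b a) * x.1 + C (1 - b a) * X ^ x.1.natDegree + C ((((a : Kˣ) : K) - b a) * x.1.coeff 0)).Monic ∧
      (C (b a) * x.1 + C (1 - b a) * X ^ x.1.natDegree + C ((((a : Kˣ) : K) - b a) * x.1.coeff 0)).coeff 0 = ((a : Kˣ) : K) * x.1.coeff 0 ∧
      dag σ (C (b a) * x.1 + C (1 - b a) * X ^ x.1.natDegree + C ((((a : Kˣ) : K) - b a) * x.1.coeff 0)) =
        (C (b a) * x.1 + C (1 - b a) * X ^ x.1.natDegree + C ((((a : Kˣ) : K) - b a) * x.1.coeff 0)) := by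
    intro a x hx
    obtain ⟨h1, h2⟩ := scal_natDegree x.2.1 hx (b a) ((((a : Kˣ) : K) - b a) * x.1.coeff 0)
    have h3 := scal_coeff_zero (f := x.1) hx (b a) ((((a : Kˣ) : K) - b a) * x.1.coeff 0)
    have h4 : b a * x.1.coeff 0 + (((a : Kˣ) : K) - b a) * x.1.coeff 0 = ((a : Kˣ) : K) * x.1.coeff 0 := by ring
    rw [h4] at h3
    refine ⟨h1, h3, ?_⟩
    apply dag_eq_self σ h1
    · rw [h3, map_mul]
      have h5 : x.1.coeff 0 * σ (x.1.coeff 0) = 1 := PolU.norm σ
      have h6 := (mem_nO σ _).1 a.2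
      linear_combination (((a : Kˣ) : K) * σ ((a : Kˣ) : K)) * h5 + h6
    · intro i hi1 hi2
      rw [h2] at hi2 ⊢
      rw [scal_coeff _ _ i hi1 hi2, scal_coeff _ _ (x.1.natDegree - i) (by omega) (by omega), h3, PolU.coeff σ (f := x) i hi2.le, map_mul]
      have h5 := hb a
      linear_combination (x.1.coeff 0 * σ (x.1.coeff (x.1.natDegree - i))) * h5
  obtain ⟨sc, hsc1, hsc2⟩ : ∃ sc : nO σ → PolU σ → PolU σ, (∀ a x, degU σ x = 0 → sc a x = x) ∧
      (∀ a x, degU σ x ≠ 0 → (sc a x).1 = C (b a) * x.1 + C (1 - b a) * X ^ x.1.natDegree + C ((((a : Kˣ) : K) - b a) * x.1.coeff 0)) := by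
    refine ⟨fun a x => if h : degU σ x = 0 then x else
      ⟨C (b a) * x.1 + C (1 - b a) * X ^ x.1.natDegree + C ((((a : Kˣ) : K) - b a) * x.1.coeff 0), (hval a x h).1, by
        rw [(hval a x h).2.1]; exact mul_ne_zero (Units.ne_zero _) x.2.2.1, (hval a x h).2.2⟩, ?_, ?_⟩
    · intro a x h; exact dif_pos h
    · intro a x h; exact congrArg Subtype.val (dif_neg h)
  have hd : ∀ a x, degU σ (sc a x) = degU σ x := by
    intro a x
    by_cases h : degU σ x = 0
    · rw [hsc1 a x h]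
    · unfold degU
      rw [hsc2 a x h]
      exact (scal_natDegree x.2.1 h _ _).2
  refine ⟨sc, hd, ?_, ?_⟩
  · intro a x y hxy
    have h1 : degU σ x = degU σ y := by rw [← hd a x, hxy, hd]
    have h1' : x.1.natDegree = y.1.natDegree := h1
    by_cases h : degU σ x = 0
    · rw [eq_oneU σ x h, eq_oneU σ y (h1 ▸ h)]
    · have hy : degU σ y ≠ 0 := fun h' => h (h1.trans h')
      have h2 : (sc a x).1 = (sc a y).1 := by rw [hxy]
      rw [hsc2 a x h, hsc2 a y hy] at h2
      apply Subtype.ext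
      apply monic_eq_of_coeff x.2.1 y.2.1 h1'
      intro i hi
      have h3 := congrArg (fun f => coeff f i) h2
      change coeff _ i = coeff _ i at h3
      rcases Nat.eq_zero_or_pos i with rfl | h4
      · rw [(hval a x h).2.1, (hval a y hy).2.1] at h3
        exact mul_left_cancel₀ (Units.ne_zero _) h3
      · rw [scal_coeff _ _ i h4 hi, scal_coeff _ _ i h4 (h1' ▸ hi)] at h3
        exact mul_left_cancel₀ (hb0 a) h3
  · intro a x h
    apply Subtype.ext
    apply Units.ext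
    rw [Subgroup.coe_mul, Units.val_mul, delU_coe, delU_coe]
    have h1 : (sc a x).1.natDegree = x.1.natDegree := hd a x
    rw [h1, hsc2 a x h, (hval a x h).2.1]
    ring

end

end Cfsg.Agent.H43
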