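import Mathlib
import Cfsg.Agent.H43.DagCount2

set_option autoImplicit false
set_option linter.unusedSectionVars false
set_option linter.unusedVariables false

/-! Classes of `SU_n(q)` via self-dual labels. -/

namespace Cfsg.Agent.H43

open Polynomial

section
variable {K : Type*} [Field K] [Fintype K] (σ : K →+* K) (hσ : ∀ x, σ (σ x) = x) (hne : σ ≠ RingHom.id K)

/-- forget self-duality -/
def toN (f : PolU σ) : PolN K := ⟨f.1, f.2.1, f.2.2.1⟩

/-- forget self-duality of labels -/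
def toNL {n : ℕ} (g : LabT (degU σ) n n) : LabT (degN (F := K)) n n := ⟨fun i => toN σ (g.1 i), g.2⟩

include hσ in
theorem exists_labU {n : ℕ} (A : GL (Fin n) K) (hA : stm σ (A : Matrix (Fin n) (Fin n) K) * (A : Matrix (Fin n) (Fin n) K) = 1) :
    ∃ g : LabT (degU σ) n n, HasLab A (toNL σ g) := by
  classical
  obtain ⟨g, t, p, e, φ, hp, hSB, hle, hg⟩ := exists_lab A
  have h0 := SB.coeff_ne (toLin'_injective_of_gl A) hp hSB
  have hp' : ∀ i, ClN (p i) ∧ 1 ≤ e i := fun i => ⟨⟨(hp i).1, (hp i).2.1, h0 i⟩, (hp i).2.2⟩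
  obtain ⟨s, hs⟩ := exists_perm_of_unitary σ hσ hA hp' hSB
  have hself : ∀ i, dag σ (g.1 i).1 = (g.1 i).1 := by
    intro i
    rw [hg, labP, dag_prod, Finset.prod_filter, Finset.prod_filter]
    apply Fintype.prod_equiv s
    intro j
    rw [(hs j).1, (hs j).2]
  refine ⟨⟨fun i => ⟨(g.1 i).1, (g.1 i).2.1, (g.1 i).2.2, hself i⟩, g.2⟩, t, p, e, φ, hp, hSB, hle, fun i => hg i⟩

include hσ hne in
theorem HasLab.commuteU {n : ℕ} {A : GL (Fin n) K} (hA : stm σ (A : Matrix (Fin n) (Fin n) K) * (A : Matrix (Fin n) (Fin n) K) = 1)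
    {g : LabT (degU σ) n n} (h : HasLab A (toNL σ g)) (a : nO σ)
    (ha : a ∈ PS (nO σ) (suppL (degU σ) g.1)) : ∃ c : GL (Fin n) K, stm σ (c : Matrix (Fin n) (Fin n) K) * (c : Matrix (Fin n) (Fin n) K) = 1 ∧
      c * A = A * c ∧ (c : Matrix (Fin n) (Fin n) K).det = ((a : Kˣ) : K) := by
  classical
  obtain ⟨t, p, e, φ, hp, hSB, hle, hg⟩ := h
  have h0 := SB.coeff_ne (toLin'_injective_of_gl A) hp hSB
  have hp' : ∀ i, ClN (p i) ∧ 1 ≤ e i := fun i => ⟨⟨(hp i).1, (hp i).2.1, h0 i⟩, (hp i).2.2⟩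
  unfold PS at ha
  induction ha using Subgroup.closure_induction with
  | mem x hx =>
    obtain ⟨i, hi, d, rfl⟩ := hx
    obtain ⟨j, hj⟩ : ∃ j, e j = (i : ℕ) + 1 := by
      by_contra hcon
      push Not at hcon
      apply hi
      change (toN σ (g.1 i)).1.natDegree = 0
      have h1 := hg i
      change (toN σ (g.1 i)).1 = _ at h1
      rw [h1, labP, Finset.filter_eq_empty_iff.2 (fun j _ => hcon j), Finset.prod_empty, natDegree_one]
    obtain ⟨b, hb0, hb⟩ := exists_hilbert σ hσ hne _ ((mem_nO σ _).1 d.2)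
    obtain ⟨c, hc1, hc2, hc3⟩ := exists_unitary_commute σ hσ hne hA hp' hSB j b hb0
    refine ⟨c, hc1, hc2, ?_⟩
    have hσb : σ b ≠ 0 := (map_ne_zero_iff σ σ.injective).2 hb0
    have h1 : b / σ b = ((d : Kˣ) : K) := by rw [div_eq_iff hσb]; exact hb
    rw [hc3, h1, hj]
    simp
  | one => exact ⟨1, by rw [Units.val_one, stm_one, mul_one], by rw [one_mul, mul_one], by simp⟩
  | mul x y _ _ hx hy =>
    obtain ⟨c, hc1, hc2, hc3⟩ := hx
    obtain ⟨d, hd1, hd2, hd3⟩ := hy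
    refine ⟨c * d, ?_, ?_, ?_⟩
    · rw [Units.val_mul, stm_mul, mul_assoc, ← mul_assoc (stm σ (c : Matrix (Fin n) (Fin n) K)), hc1, one_mul, hd1]
    · rw [mul_assoc, hd2, ← mul_assoc, hc2, mul_assoc]
    · rw [Units.val_mul, Matrix.det_mul, hc3, hd3, Subgroup.coe_mul, Units.val_mul]
  | inv x _ hx =>
    obtain ⟨c, hc1, hc2, hc3⟩ := hx
    have hc4 : stm σ (c : Matrix (Fin n) (Fin n) K) = ((c⁻¹ : GL (Fin n) K) : Matrix (Fin n) (Fin n) K) := by
      calc stm σ (c : Matrix (Fin n) (Fin n) K) = stm σ (c : Matrix (Fin n) (Fin n) K) * ((c : Matrix (Fin n) (Fin n) K) * ((c⁻¹ : GL (Fin n) K) : Matrix (Fin n) (Fin n) K)) := by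
            rw [Units.mul_inv, mul_one]
        _ = _ := by rw [← mul_assoc, hc1, one_mul]
    refine ⟨c⁻¹, ?_, ?_, ?_⟩
    · rw [← hc4, stm_stm σ hσ]
      exact mul_eq_one_comm.1 hc1
    · rw [inv_mul_eq_iff_eq_mul, ← mul_assoc, hc2, mul_assoc, mul_inv_cancel, mul_one]
    · have h1 : ((c⁻¹ : GL (Fin n) K) : Matrix (Fin n) (Fin n) K).det * (c : Matrix (Fin n) (Fin n) K).det = 1 := by
        rw [← Matrix.det_mul, Units.inv_mul, Matrix.det_one]
      rw [hc3] at h1
      rw [Subgroup.coe_inv, Units.val_inv_eq_inv_val]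
      exact eq_inv_of_mul_eq_one_left h1

theorem HasLab.detU {n : ℕ} {A : GL (Fin n) K} {g : LabT (degU σ) n n} (h : HasLab A (toNL σ g)) :
    (A : Matrix (Fin n) (Fin n) K).det = (((detL (delU σ) g.1 : nO σ) : Kˣ) : K) := by
  have h1 := congrArg (Units.val) h.det
  change (A : Matrix (Fin n) (Fin n) K).det = _ at h1
  rw [h1, detL, detL, Units.coe_prod, Subgroup.val_finset_prod, Units.coe_prod]
  refine Finset.prod_congr rfl fun i _ => ?_
  rw [Units.val_pow_eq_pow_val, Subgroup.coe_pow, Units.val_pow_eq_pow_val, delN_coe, delU_coe]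
  rfl

end

section
variable {K : Type*} [Field K] [Fintype K] {q : ℕ} (hK : Fintype.card K = q ^ 2)

/-- the determinant on `GU` -/
noncomputable def detGU (n : ℕ) : Cfsg.GU n K q →* nO (Cfsg.Agent.ClGeo.frob hK) :=
  (Matrix.GeneralLinearGroup.det.comp (Cfsg.GU n K q).subtype).codRestrict _ (by
    intro x
    rw [mem_nO]
    have h1 := (mem_GU_iff hK _).1 x.2
    have h2 := congrArg Matrix.det h1
    rw [Matrix.det_mul, Matrix.det_one] at h2
    unfold stm at h2
    rw [Matrix.det_transpose, ← RingHom.mapMatrix_apply, ← RingHom.map_det] at h2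
    rw [mul_comm] at h2
    exact h2)

theorem detGU_coe (n : ℕ) (x : Cfsg.GU n K q) : (((detGU hK n x : nO (Cfsg.Agent.ClGeo.frob hK)) : Kˣ) : K) = ((x : GL (Fin n) K) : Matrix (Fin n) (Fin n) K).det := rfl

/-- `SU → GU` -/
noncomputable def suGU (n : ℕ) (K : Type*) [Field K] (q : ℕ) : Cfsg.SU n K q →* Cfsg.GU n K q :=
  (Matrix.SpecialLinearGroup.toGL.comp (Cfsg.SU n K q).subtype).codRestrict _ (fun x => x.2)

theorem suGU_injective (n : ℕ) (K : Type*) [Field K] (q : ℕ) : Function.Injective (suGU n K q) := by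
  intro x y h
  have h1 : Matrix.SpecialLinearGroup.toGL x.1 = Matrix.SpecialLinearGroup.toGL y.1 := congrArg Subtype.val h
  exact Subtype.ext (Matrix.SpecialLinearGroup.toGL_injective h1)

theorem card_conjClasses_SU_le (n : ℕ) (hn : 1 ≤ n) (b : ℕ → ℕ)
    (hb : ∀ m, Finite (LabT (degU (Cfsg.Agent.ClGeo.frob hK)) n m) ∧ Nat.card (LabT (degU (Cfsg.Agent.ClGeo.frob hK)) n m) ≤ b m) :
    Nat.card (ConjClasses (Cfsg.SU n K q)) * (q + 1) ≤
      b n + ∑ f ∈ (Finset.Icc 2 n).filter (fun f => f ∣ n ∧ f ∣ q + 1), (f ^ 2 - 1) * b (n / f) := by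
  classical
  obtain ⟨σ, hσd⟩ : ∃ σ, σ = Cfsg.Agent.ClGeo.frob hK := ⟨_, rfl⟩
  have hσ : ∀ x, σ (σ x) = x := by rw [hσd]; exact Cfsg.Agent.ClGeo.frob_frob hK
  have hne : σ ≠ RingHom.id K := by rw [hσd]; exact Cfsg.Agent.ClGeo.frob_ne_id hK
  have hN : Nat.card (nO σ) = q + 1 := by rw [hσd]; exact card_nO hK
  have hfinT : ∀ m, Finite (LabT (degU σ) n m) := fun m => by rw [hσd]; exact (hb m).1
  have hbT : ∀ m, Nat.card (LabT (degU σ) n m) ≤ b m := fun m => by rw [hσd]; exact (hb m).2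
  let i1 : Fintype (LabT (degU σ) n n) := Fintype.ofFinite _
  let i2 : Fintype {g : LabT (degU σ) n n // detL (delU σ) g.1 = 1} := Fintype.ofFinite _
  obtain ⟨sc, h1, h2, h3⟩ := exists_scalingU σ hσ hne
  have hA : Nat.card (ConjClasses (Cfsg.SU n K q)) ≤ ∑ g : {g : LabT (degU σ) n n // detL (delU σ) g.1 = 1}, (PS (nO σ) (suppL (degU σ) g.1.1)).index := by
    subst hσd
    exact card_conj_le (N := Cfsg.SU n K q) (G := Cfsg.GU n K q) (A := nO (Cfsg.Agent.ClGeo.frob hK))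
      (L := {g : LabT (degU (Cfsg.Agent.ClGeo.frob hK)) n n // detL (delU (Cfsg.Agent.ClGeo.frob hK)) g.1 = 1}) (suGU n K q) (suGU_injective n K q)
      (detGU hK n)
      (by
        intro x hx
        have hdet : ((x : GL (Fin n) K) : Matrix (Fin n) (Fin n) K).det = 1 := by
          rw [← detGU_coe hK, hx]; rfl
        have hx2 := x.2
        refine ⟨⟨⟨((x : GL (Fin n) K) : Matrix (Fin n) (Fin n) K), hdet⟩, ?_⟩, ?_⟩
        · exact hx2
        · apply Subtype.ext
          apply Units.ext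
          rfl)
      (by
        intro x
        apply Subtype.ext
        apply Units.ext
        rw [detGU_coe]
        exact x.1.2)
      (fun x g => HasLab (x : GL (Fin n) K) (toNL (Cfsg.Agent.ClGeo.frob hK) g.1)) (fun g => PS (nO (Cfsg.Agent.ClGeo.frob hK)) (suppL (degU (Cfsg.Agent.ClGeo.frob hK)) g.1.1))
      (by
        intro x
        obtain ⟨g, hg⟩ := exists_labU (Cfsg.Agent.ClGeo.frob hK) hσ (suGU n K q x : GL (Fin n) K) ((mem_GU_iff hK _).1 (suGU n K q x).2)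
        refine ⟨⟨g, ?_⟩, hg⟩
        apply Subtype.ext
        apply Units.ext
        rw [← hg.detU]
        exact x.1.2)
      (fun x y g hx hy => (isConj_GU_iff hK x y).2 (hx.isConj hy))
      (fun x g hx a ha => by
        obtain ⟨c, hc1, hc2, hc3⟩ := hx.commuteU (Cfsg.Agent.ClGeo.frob hK) hσ hne ((mem_GU_iff hK _).1 x.2) a ha
        refine ⟨⟨c, (mem_GU_iff hK _).2 hc1⟩, Subtype.ext hc2, ?_⟩
        apply Subtype.ext
        apply Units.ext
        rw [detGU_coe]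
        exact hc3)
  have hB := sum_det_le (degU σ) (delU σ) sc h1 h2 h3 (delU_one σ) n n (1 : nO σ)
  have hC := sum_ind_sq_le (A := nO σ) (degU σ) (oneU σ) (degU_one σ) (eq_oneU σ) n n hn hfinT
  rw [hN] at hC hB
  calc Nat.card (ConjClasses (Cfsg.SU n K q)) * (q + 1)
      ≤ (∑ g : {g : LabT (degU σ) n n // detL (delU σ) g.1 = 1}, indL (degU σ) (nO σ) g.1.1) * (q + 1) :=
        Nat.mul_le_mul_right _ hA
    _ = ∑ g : {g : LabT (degU σ) n n // detL (delU σ) g.1 = 1}, indL (degU σ) (nO σ) g.1.1 * (q + 1) := Finset.sum_mul _ _ _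
    _ ≤ _ := hB
    _ ≤ _ := hC
    _ ≤ _ := by
      apply Nat.add_le_add (hbT n)
      apply Finset.sum_le_sum
      intro f _
      exact Nat.mul_le_mul_left _ (hbT (n / f))

end

end Cfsg.Agent.H43
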