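import Mathlib
import Cfsg.Agent.H43.BlockForm
import Cfsg.Agent.H43.DagUnit

set_option autoImplicit false
set_option linter.unusedSectionVars false
set_option linter.unusedVariables false

/-! Invariant forms and primary decompositions. -/

namespace Cfsg.Agent.H43

open Polynomial

section
variable {F : Type*} [Field F] [Finite F] {ι : Type*} [Fintype ι] [DecidableEq ι]

theorem GoodD.reindex {ε : F} {A : GL ι F} {S S' : Type*} {D : Matrix ι ι F → S → Bool} (h : GoodD ε A D) (E : S' ≃ S) :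
    GoodD ε A (fun J s => D J (E s)) := by
  refine ⟨?_, ?_⟩
  · intro J J' hJ hJ' hD
    apply h.1 J J' hJ hJ'
    funext s
    obtain ⟨s, rfl⟩ := E.surjective s
    exact congrFun hD s
  · intro hε J J' hJ hJ' s₀ hne hsame
    apply h.2 hε J J' hJ hJ' (E s₀) hne
    intro s hs
    obtain ⟨s, rfl⟩ := E.surjective s
    exact hsame s (fun h => hs (by rw [h]))

theorem aeval_X_sub (B : Matrix ι ι F) (a : F) : aeval B (X - C a) = B - a • 1 := by
  rw [map_sub, aeval_X, aeval_C, Algebra.algebraMap_eq_smul_one]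

theorem ClN_X_sub {a : F} (ha : a ≠ 0) : ClN (X - C a) :=
  ⟨monic_X_sub_C a, irreducible_X_sub_C a, by simpa using ha⟩

/-- nilpotency from elementary divisors -/
theorem nilp_of_SB {B : GL ι F} {t : ℕ} {p : Fin t → F[X]} {e : Fin t → ℕ} {a : F}
    {φ : (ι → F) ≃ₗ[F] ((i : Fin t) → F[X] ⧸ Ideal.span {p i ^ e i})} (h : SB (Matrix.toLin' (B : Matrix ι ι F)) (fun i => p i ^ e i) φ)
    (hp : ∀ i, p i = X - C a) : IsNilpotent ((B : Matrix ι ι F) - a • 1) := by
  refine ⟨∑ i, e i, ?_⟩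
  have h1 : aeval (Matrix.toLin' (B : Matrix ι ι F) : Module.End F (ι → F)) ((X - C a) ^ (∑ i, e i)) = 0 := by
    apply LinearMap.ext
    intro v
    apply φ.injective
    funext i
    rw [h.aeval, LinearMap.zero_apply, map_zero, Pi.zero_apply, Ideal.Quotient.eq_zero_iff_mem.2, zero_mul]
    rw [Ideal.mem_span_singleton]
    change p i ^ e i ∣ _
    rw [hp]
    exact pow_dvd_pow _ (Finset.single_le_sum (f := e) (fun _ _ => Nat.zero_le _) (Finset.mem_univ i))
  rw [aeval_toLin', map_pow, aeval_X_sub] at h1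
  exact (Matrix.toLin' (R := F) (m := ι) (n := ι)).injective (h1.trans (map_zero _).symm)

theorem unit_of_finrank {B : Matrix ι ι F} {a : F}
    (h : Module.finrank F (LinearMap.ker (aeval (Matrix.toLin' B : Module.End F (ι → F)) ((X - C a) ^ 1))) = 0) : IsUnit (B - a • 1) := by
  rw [pow_one, aeval_toLin', aeval_X_sub, Submodule.finrank_eq_zero] at h
  rw [Matrix.isUnit_iff_isUnit_det, ← LinearMap.det_toLin', isUnit_iff_ne_zero]
  intro h1
  have h2 := LinearMap.bot_lt_ker_of_det_eq_zero h1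
  rw [h] at h2
  exact lt_irrefl _ h2

theorem counts_eq {t t' : ℕ} (d : Fin t → ℕ) (e : Fin t' → ℕ) (h : ∀ k, ∑ l, min (d l) k = ∑ i, min k (e i)) (j : ℕ) (hj : 1 ≤ j) :
    (Finset.univ.filter (fun k => d k = j)).card = (Finset.univ.filter (fun k => e k = j)).card := by
  have hs : ∑ l, d l = ∑ i, e i := by
    have h1 := h (∑ l, d l + ∑ i, e i)
    have e1 : ∑ l, min (d l) (∑ l, d l + ∑ i, e i) = ∑ l, d l := by
      refine Finset.sum_congr rfl fun l _ => min_eq_left ?_
      exact (Finset.single_le_sum (f := d) (fun _ _ => Nat.zero_le _) (Finset.mem_univ l)).trans (Nat.le_add_right _ _)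
    have e2 : ∑ i, min (∑ l, d l + ∑ i, e i) (e i) = ∑ i, e i := by
      refine Finset.sum_congr rfl fun l _ => min_eq_right ?_
      exact (Finset.single_le_sum (f := e) (fun _ _ => Nat.zero_le _) (Finset.mem_univ l)).trans (Nat.le_add_left _ _)
    rw [e1, e2] at h1
    exact h1
  apply card_eq_of_sums d e _ j hj
  intro k
  have h1 : ∑ l, (d l - k) + ∑ l, min (d l) k = ∑ l, d l := by
    rw [← Finset.sum_add_distrib]
    refine Finset.sum_congr rfl fun l _ => ?_
    omega
  have h2 : ∑ l, (e l - k) + ∑ l, min k (e l) = ∑ l, e l := by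
    rw [← Finset.sum_add_distrib]
    refine Finset.sum_congr rfl fun l _ => ?_
    omega
  have h3 := h k
  omega

/-- the unipotent piece (up to sign) -/
theorem piece (h2 : (2 : F) ≠ 0) {ε : F} (hε : ε = 1 ∨ ε = -1) {B : GL ι F} {t : ℕ} {e : Fin t → ℕ} {a : F} (ha : a = 1 ∨ a = -1)
    {p : Fin t → F[X]} (hpa : ∀ i, p i = X - C a) (he : ∀ i, 1 ≤ e i)
    {φ : (ι → F) ≃ₗ[F] ((i : Fin t) → F[X] ⧸ Ideal.span {p i ^ e i})} (h : SB (Matrix.toLin' (B : Matrix ι ι F)) (fun i => p i ^ e i) φ) :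
    ∃ D : Matrix ι ι F → ℕ → Bool, GoodD ε B D ∧ (∀ J j, D J j = true → (∃ i, e i = j) ∧ ε * (-1) ^ (j - 1) = 1) ∧
      (∀ J, InvForm ε B J → ∀ j, ε * (-1) ^ (j - 1) = -1 → Even (Finset.univ.filter (fun i => e i = j)).card) := by
  classical
  have ha0 : a ≠ 0 := by rcases ha with rfl | rfl; exact one_ne_zero; exact neg_ne_zero.2 one_ne_zero
  have hp : ∀ i, ClN (p i) ∧ 1 ≤ e i := fun i => ⟨by rw [hpa]; exact ClN_X_sub ha0, he i⟩
  have hnil := nilp_of_SB h hpa
  have hk : ∀ k, Module.finrank F (LinearMap.ker (Matrix.toLin' (((B : Matrix ι ι F) - a • 1) ^ k))) = ∑ i, min k (e i) := by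
    intro k
    have h1 := h.kdim hp (X - C a) (ClN_X_sub ha0) k
    rw [aeval_toLin', map_pow, aeval_X_sub, natDegree_X_sub_C, mul_one] at h1
    rw [h1]
    refine Finset.sum_congr rfl fun i _ => ?_
    rw [if_pos (hpa i)]
  -- reduce to a unipotent matrix
  obtain ⟨B', hB', hBn, hBk, hBG⟩ : ∃ B' : GL ι F, (∀ J, InvForm ε B J → InvForm ε B' J) ∧ IsNilpotent ((B' : Matrix ι ι F) - 1) ∧
      (∀ k, Module.finrank F (LinearMap.ker (Matrix.toLin' (((B' : Matrix ι ι F) - 1) ^ k))) = ∑ i, min k (e i)) ∧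
      (∀ D : Matrix ι ι F → ℕ → Bool, GoodD ε B' D → GoodD ε B D) := by
    rcases ha with rfl | rfl
    · rw [one_smul] at hnil hk
      exact ⟨B, fun J hJ => hJ, hnil, hk, fun D h => h⟩
    · have e1 : ((-B : GL ι F) : Matrix ι ι F) - 1 = -((B : Matrix ι ι F) - (-1 : F) • 1) := by
        rw [Units.val_neg, neg_one_smul]; abel
      refine ⟨-B, fun J hJ => hJ.neg, ?_, ?_, fun D h => h.neg⟩
      · rw [e1]; exact hnil.neg
      · intro k
        rw [e1, neg_pow, ← hk k]
        exact finrank_ker_mul_left ((isUnit_one.neg).pow k)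
  obtain ⟨t', d, D, hd, hdk, hD, hDk, hev, hfl⟩ := unip_forms h2 hε B' hBn
  have hcnt := counts_eq d e (fun k => (hdk k).symm.trans (hBk k))
  refine ⟨D, hBG D ⟨hD, fun hε J J' hJ hJ' s₀ => hfl hε J J' hJ hJ' s₀⟩, ?_, ?_⟩
  · intro J j hj
    obtain ⟨⟨k, hk'⟩, h3⟩ := hDk J j hj
    refine ⟨?_, h3⟩
    have hj1 : 1 ≤ j := hk' ▸ hd k
    have h4 : 0 < (Finset.univ.filter (fun k => e k = j)).card := by
      rw [← hcnt j hj1, Finset.card_pos]
      exact ⟨k, Finset.mem_filter.2 ⟨Finset.mem_univ _, hk'⟩⟩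
    obtain ⟨i, hi⟩ := Finset.card_pos.1 h4
    exact ⟨i, (Finset.mem_filter.1 hi).2⟩
  · intro J hJ j hj
    rcases Nat.eq_zero_or_pos j with rfl | hj1
    · have : (Finset.univ.filter (fun i => e i = 0)) = ∅ := by
        rw [Finset.filter_eq_empty_iff]
        intro i _ h3
        have := he i
        omega
      rw [this, Finset.card_empty]
      exact Even.zero
    · rw [← hcnt j hj1, ← Fintype.card_subtype]
      exact hev J (hB' J hJ) j hj

end

end Cfsg.Agent.H43
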