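import Mathlib
import Cfsg.Agent.H43.FormLab

set_option autoImplicit false
set_option linter.unusedSectionVars false
set_option linter.unusedVariables false

/-! Separating invariants of invariant forms. -/

namespace Cfsg.Agent.H43

open Polynomial

section
variable {F : Type*} [Field F] [Finite F]

/-- sublist of a primary decomposition -/
theorem exists_sub_SB {t : ℕ} {p : Fin t → F[X]} {e : Fin t → ℕ} (hp : ∀ i, ClN (p i) ∧ 1 ≤ e i) (S : Fin t → Prop) :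
    ∃ (t₁ : ℕ) (ι₁ : Fin t₁ ≃ {i // S i}) (n₁ : ℕ) (B : GL (Fin n₁) F) (φ : (Fin n₁ → F) ≃ₗ[F] ((i : Fin t₁) → F[X] ⧸ Ideal.span {p (ι₁ i).1 ^ e (ι₁ i).1})),
      SB (Matrix.toLin' (B : Matrix (Fin n₁) (Fin n₁) F)) (fun i => p (ι₁ i).1 ^ e (ι₁ i).1) φ := by
  classical
  obtain ⟨B, φ, h⟩ := exists_SB_gl (κ := Fin (Fintype.card {i // S i})) (fun i => p ((Fintype.equivFin {i // S i}).symm i).1 ^ e ((Fintype.equivFin {i // S i}).symm i).1)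
    (fun i => (hp _).1.1.pow _) (fun i => isCoprime_X_of_coeff (ClN_pow_coeff (hp _).1 _)) rfl
  exact ⟨_, (Fintype.equivFin {i // S i}).symm, _, B, φ, h⟩

theorem card_sub {t : ℕ} {e : Fin t → ℕ} {S : Fin t → Prop} [DecidablePred S] {t₁ : ℕ} (ι₁ : Fin t₁ ≃ {i // S i}) (j : ℕ) :
    (Finset.univ.filter (fun i => e (ι₁ i).1 = j)).card = (Finset.univ.filter (fun i => S i ∧ e i = j)).card := by
  classical
  rw [← Fintype.card_subtype, ← Fintype.card_subtype]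
  apply Fintype.card_congr
  exact (ι₁.subtypeEquiv (fun i => Iff.rfl)).trans (Equiv.subtypeSubtypeEquivSubtypeInter S (fun i => e i = j))

theorem form_main (h2 : (2 : F) ≠ 0) {ε : F} (hε : ε = 1 ∨ ε = -1) {n : ℕ} {A : GL (Fin n) F} {t : ℕ} {p : Fin t → F[X]} {e : Fin t → ℕ}
    (hp : ∀ i, ClN (p i) ∧ 1 ≤ e i)
    {φ : (Fin n → F) ≃ₗ[F] ((i : Fin t) → F[X] ⧸ Ideal.span {p i ^ e i})} (h : SB (Matrix.toLin' (A : Matrix (Fin n) (Fin n) F)) (fun i => p i ^ e i) φ) :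
    ∃ D : Matrix (Fin n) (Fin n) F → ℕ ⊕ ℕ → Bool, GoodD ε A D ∧
      (∀ J j, D J (Sum.inl j) = true → (∃ i, p i = X - C 1 ∧ e i = j) ∧ ε * (-1) ^ (j - 1) = 1) ∧
      (∀ J j, D J (Sum.inr j) = true → (∃ i, p i = X - C (-1) ∧ e i = j) ∧ ε * (-1) ^ (j - 1) = 1) ∧
      (∀ J, InvForm ε A J → ∀ (P : F[X]), P = X - C 1 ∨ P = X - C (-1) → ∀ j, ε * (-1) ^ (j - 1) = -1 → Even (Nat.card {i // p i = P ∧ e i = j})) := by
  classical
  have hne : (X - C 1 : F[X]) ≠ X - C (-1) := by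
    intro h3
    have h4 := congrArg (fun f => coeff f 0) h3
    simp only [coeff_sub, coeff_X_zero, coeff_C_zero] at h4
    apply h2
    linear_combination -h4
  obtain ⟨t₁, ι₁, n₁, B₁, φ₁, hSB₁⟩ := exists_sub_SB hp (fun i => p i = X - C 1)
  obtain ⟨t₂, ι₂, n₂, B₂, φ₂, hSB₂⟩ := exists_sub_SB hp (fun i => p i = X - C (-1))
  obtain ⟨t₃, ι₃, n₃, B₃, φ₃, hSB₃⟩ := exists_sub_SB hp (fun i => p i ≠ X - C 1 ∧ p i ≠ X - C (-1))
  obtain ⟨D₁, hD₁, hD₁', hD₁''⟩ := piece h2 hε (a := 1) (Or.inl rfl) (fun i => (ι₁ i).2) (fun i => (hp _).2) hSB₁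
  obtain ⟨D₂, hD₂, hD₂', hD₂''⟩ := piece h2 hε (a := -1) (Or.inr rfl) (fun i => (ι₂ i).2) (fun i => (hp _).2) hSB₂
  -- sums over the three parts
  have hsplit : ∀ f : Fin t → ℕ, ∑ i, f i = (∑ i, f (ι₁ i).1) + ((∑ i, f (ι₂ i).1) + ∑ i, f (ι₃ i).1) := by
    intro f
    have h1 : ∑ i, f (ι₁ i).1 = ∑ x : {i // p i = X - C 1}, f x.1 := Fintype.sum_equiv ι₁ _ _ (fun i => rfl)
    have h3 : ∑ i, f (ι₂ i).1 = ∑ x : {i // p i = X - C (-1)}, f x.1 := Fintype.sum_equiv ι₂ _ _ (fun i => rfl)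
    have h4 : ∑ i, f (ι₃ i).1 = ∑ x : {i // p i ≠ X - C 1 ∧ p i ≠ X - C (-1)}, f x.1 := Fintype.sum_equiv ι₃ _ _ (fun i => rfl)
    rw [h1, h3, h4, ← Finset.sum_subtype (Finset.univ.filter (fun i => p i = X - C 1)) (fun i => by simp) f,
      ← Finset.sum_subtype (Finset.univ.filter (fun i => p i = X - C (-1))) (fun i => by simp) f,
      ← Finset.sum_subtype (Finset.univ.filter (fun i => p i ≠ X - C 1 ∧ p i ≠ X - C (-1))) (fun i => by simp) f,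
      Finset.sum_filter, Finset.sum_filter, Finset.sum_filter, ← Finset.sum_add_distrib, ← Finset.sum_add_distrib]
    refine Finset.sum_congr rfl fun i _ => ?_
    by_cases h5 : p i = X - C 1
    · rw [if_pos h5, if_neg (fun h6 => hne (h5.symm.trans h6)), if_neg (fun h6 => h6.1 h5)]; ring
    · by_cases h6 : p i = X - C (-1)
      · rw [if_neg h5, if_pos h6, if_neg (fun h7 => h7.2 h6)]; ring
      · rw [if_neg h5, if_neg h6, if_pos ⟨h5, h6⟩, zero_add, zero_add]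
  have hp₁ : ∀ i, ClN (p (ι₁ i).1) ∧ 1 ≤ e (ι₁ i).1 := fun i => hp _
  have hp₂ : ∀ i, ClN (p (ι₂ i).1) ∧ 1 ≤ e (ι₂ i).1 := fun i => hp _
  have hp₃ : ∀ i, ClN (p (ι₃ i).1) ∧ 1 ≤ e (ι₃ i).1 := fun i => hp _
  have hf₁ := SB.finrank (fun i => (hp₁ i).1.1) hSB₁
  have hf₂ := SB.finrank (fun i => (hp₂ i).1.1) hSB₂
  have hf₃ := SB.finrank (fun i => (hp₃ i).1.1) hSB₃
  have hf := SB.finrank (fun i => (hp i).1.1) h
  rw [Module.finrank_fintype_fun_eq_card, Fintype.card_fin] at hf hf₁ hf₂ hf₃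
  have hn : n₁ + (n₂ + n₃) = n := by rw [hf, hf₁, hf₂, hf₃, hsplit]
  obtain ⟨ε₁, -⟩ : ∃ ε₁ : Fin n₁ ⊕ (Fin n₂ ⊕ Fin n₃) ≃ Fin n, True :=
    ⟨(Equiv.sumCongr (Equiv.refl _) finSumFinEquiv).trans (finSumFinEquiv.trans (finCongr hn)), trivial⟩
  -- the block sum
  have hBker : ∀ P : F[X], ClN P → ∀ k : ℕ, Module.finrank F (LinearMap.ker (aeval (Matrix.toLin' (bsGL (Equiv.refl (Fin n₂ ⊕ Fin n₃)) B₂ B₃ : Matrix (Fin n₂ ⊕ Fin n₃) (Fin n₂ ⊕ Fin n₃) F) : Module.End F ((Fin n₂ ⊕ Fin n₃) → F)) (P ^ k))) =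
      ((∑ i, if p (ι₂ i).1 = P then min k (e (ι₂ i).1) else 0) + (∑ i, if p (ι₃ i).1 = P then min k (e (ι₃ i).1) else 0)) * P.natDegree := by
    intro P hP k
    rw [bsGL_coe, finrank_ker_aeval_bs, hSB₂.kdim hp₂ P hP, hSB₃.kdim hp₃ P hP, ← add_mul]
  obtain ⟨κ, hκ⟩ := conj_of_finrank A (bsGL ε₁ B₁ (bsGL (Equiv.refl _) B₂ B₃)) (by
    intro P hP k
    rw [bsGL_coe ε₁, finrank_ker_aeval_bs, hBker P hP k, h.kdim hp P hP, hSB₁.kdim hp₁ P hP, ← add_mul]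
    congr 1
    exact hsplit _)
  obtain ⟨g, hg⟩ := gl_of_conj κ hκ
  have hX1 : ClN (X - C 1 : F[X]) := ClN_X_sub one_ne_zero
  have hX2 : ClN (X - C (-1) : F[X]) := ClN_X_sub (neg_ne_zero.2 one_ne_zero)
  -- nilpotent and invertible pieces
  have hB₁n : IsNilpotent ((B₁ : Matrix (Fin n₁) (Fin n₁) F) - 1) := by
    have := nilp_of_SB hSB₁ (fun i => (ι₁ i).2)
    rwa [one_smul] at this
  have hB₂₃ : IsUnit ((bsGL (Equiv.refl (Fin n₂ ⊕ Fin n₃)) B₂ B₃ : Matrix (Fin n₂ ⊕ Fin n₃) (Fin n₂ ⊕ Fin n₃) F) - 1) := by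
    have h3 := unit_of_finrank (B := (bsGL (Equiv.refl (Fin n₂ ⊕ Fin n₃)) B₂ B₃ : Matrix (Fin n₂ ⊕ Fin n₃) (Fin n₂ ⊕ Fin n₃) F)) (a := 1) (by
      have z1 : (∑ i, if p (ι₂ i).1 = X - C 1 then min 1 (e (ι₂ i).1) else 0) = 0 := Finset.sum_eq_zero fun i _ =>
        if_neg (fun h3 => hne (h3.symm.trans (ι₂ i).2))
      have z2 : (∑ i, if p (ι₃ i).1 = X - C 1 then min 1 (e (ι₃ i).1) else 0) = 0 := Finset.sum_eq_zero fun i _ => if_neg (ι₃ i).2.1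
      rw [hBker _ hX1 1, z1, z2]
      ring)
    rwa [one_smul] at h3
  have hB₂n : IsNilpotent (((-B₂ : GL (Fin n₂) F) : Matrix (Fin n₂) (Fin n₂) F) - 1) := by
    have h3 := nilp_of_SB hSB₂ (fun i => (ι₂ i).2)
    have e1 : ((-B₂ : GL (Fin n₂) F) : Matrix (Fin n₂) (Fin n₂) F) - 1 = -((B₂ : Matrix (Fin n₂) (Fin n₂) F) - (-1 : F) • 1) := by
      rw [Units.val_neg, neg_one_smul]; abel
    rw [e1]; exact h3.neg
  have hB₃1 : IsUnit ((B₃ : Matrix (Fin n₃) (Fin n₃) F) - (1 : F) • 1) := unit_of_finrank (by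
    have z2 : (∑ i, if p (ι₃ i).1 = X - C 1 then min 1 (e (ι₃ i).1) else 0) = 0 := Finset.sum_eq_zero fun i _ => if_neg (ι₃ i).2.1
    rw [hSB₃.kdim hp₃ _ hX1 1, z2, zero_mul])
  have hB₃2 : IsUnit ((B₃ : Matrix (Fin n₃) (Fin n₃) F) - (-1 : F) • 1) := unit_of_finrank (by
    have z2 : (∑ i, if p (ι₃ i).1 = X - C (-1) then min 1 (e (ι₃ i).1) else 0) = 0 := Finset.sum_eq_zero fun i _ => if_neg (ι₃ i).2.2
    rw [hSB₃.kdim hp₃ _ hX2 1, z2, zero_mul])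
  have hB₃u : IsUnit ((B₃ : Matrix (Fin n₃) (Fin n₃) F) - ((B₃⁻¹ : GL (Fin n₃) F) : Matrix (Fin n₃) (Fin n₃) F)) := by
    have e1 : (B₃ : Matrix (Fin n₃) (Fin n₃) F) - ((B₃⁻¹ : GL (Fin n₃) F) : Matrix (Fin n₃) (Fin n₃) F) =
        ((B₃ : Matrix (Fin n₃) (Fin n₃) F) - (1 : F) • 1) * (((B₃ : Matrix (Fin n₃) (Fin n₃) F) - (-1 : F) • 1) * ((B₃⁻¹ : GL (Fin n₃) F) : Matrix (Fin n₃) (Fin n₃) F)) := by
      have e2 : (B₃ : Matrix (Fin n₃) (Fin n₃) F) * ((B₃⁻¹ : GL (Fin n₃) F) : Matrix (Fin n₃) (Fin n₃) F) = 1 := Units.mul_inv B₃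
      rw [one_smul, neg_one_smul, sub_neg_eq_add, add_mul, e2, one_mul, sub_mul, mul_add, mul_one, e2, one_mul]
      abel
    rw [e1]
    exact hB₃1.mul (hB₃2.mul (B₃⁻¹).isUnit)
  -- assemble
  have hD₃ : GoodD ε B₃ (fun (_ : Matrix (Fin n₃) (Fin n₃) F) (s : Empty) => false) := GoodD_gen hB₃u
  have h23 : ∀ X : Matrix (Fin n₂) (Fin n₃) F, (B₂ : Matrix (Fin n₂) (Fin n₂) F).transpose * X * (B₃ : Matrix (Fin n₃) (Fin n₃) F) = X → X = 0 := by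
    intro Y hY
    apply sylvester (-B₂) (-B₃) hB₂n
    · have e1 : ((-B₃ : GL (Fin n₃) F) : Matrix (Fin n₃) (Fin n₃) F) - 1 = -((B₃ : Matrix (Fin n₃) (Fin n₃) F) - (-1 : F) • 1) := by
        rw [Units.val_neg, neg_one_smul]; abel
      rw [e1]; exact hB₃2.neg
    · rw [Units.val_neg, Units.val_neg, Matrix.transpose_neg, Matrix.neg_mul, Matrix.neg_mul, Matrix.mul_neg, neg_neg]
      exact hY
  have h1 := GoodD.bs ε₁ (sylvester B₁ (bsGL (Equiv.refl _) B₂ B₃) hB₁n hB₂₃) hD₁ (GoodD.bs (Equiv.refl _) h23 hD₂ hD₃)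
  have hfin := (h1.conj g hg).reindex (Equiv.sumCongr (Equiv.refl ℕ) (Equiv.sumEmpty ℕ Empty).symm)
  refine ⟨_, hfin, ?_, ?_, ?_⟩
  · intro J j hj
    obtain ⟨⟨i, hi⟩, h3⟩ := hD₁' _ j hj
    exact ⟨⟨(ι₁ i).1, (ι₁ i).2, hi⟩, h3⟩
  · intro J j hj
    obtain ⟨⟨i, hi⟩, h3⟩ := hD₂' _ j hj
    exact ⟨⟨(ι₂ i).1, (ι₂ i).2, hi⟩, h3⟩
  · intro J hJ P hP j hj
    obtain ⟨-, i1, i2⟩ := (hJ.conj g hg).of_bs ε₁ (sylvester B₁ (bsGL (Equiv.refl _) B₂ B₃) hB₁n hB₂₃)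
    obtain ⟨-, i3, -⟩ := i2.of_bs (Equiv.refl _) h23
    rw [Nat.card_eq_fintype_card, Fintype.card_subtype]
    rcases hP with rfl | rfl
    · have h3 := hD₁'' _ i1 j hj
      rwa [card_sub ι₁ j] at h3
    · have h3 := hD₂'' _ i3 j hj
      rwa [card_sub ι₂ j] at h3

end

end Cfsg.Agent.H43
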