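import Mathlib
import Cfsg.Agent.H43.FormLab2
import Cfsg.Agent.H43.DagSU

set_option autoImplicit false
set_option linter.unusedSectionVars false
set_option linter.unusedVariables false

/-! The label map on classes of an isometry group. -/

namespace Cfsg.Agent.H43

open Polynomial

section
variable {F : Type*} [Field F] [Fintype F]

/-- the local condition on a label -/
def ConsF (ε : F) (i : ℕ) (x : PolU (RingHom.id F) × Bool × Bool) : Prop :=
  (x.2.1 = true → (X - C 1 : F[X]) ∣ x.1.1 ∧ ε * (-1) ^ i = 1) ∧ (x.2.2 = true → (X - C (-1) : F[X]) ∣ x.1.1 ∧ ε * (-1) ^ i = 1) ∧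
  (ε * (-1) ^ i = -1 → Even (rootMultiplicity 1 x.1.1) ∧ Even (rootMultiplicity (-1) x.1.1))

/-- labels -/
def LabF (ε : F) (N : ℕ) := {x : Fin N → PolU (RingHom.id F) × Bool × Bool //
  (∀ i : Fin N, ConsF ε i (x i)) ∧ ∑ i : Fin N, ((i : ℕ) + 1) * degU (RingHom.id F) (x i).1 = N}

/-- labels differing in exactly one bit -/
def OneDiff {N : ℕ} (x y : Fin N → PolU (RingHom.id F) × Bool × Bool) : Prop :=
  ∃ i, (x i).1 = (y i).1 ∧ (((x i).2.1 ≠ (y i).2.1 ∧ (x i).2.2 = (y i).2.2) ∨ ((x i).2.1 = (y i).2.1 ∧ (x i).2.2 ≠ (y i).2.2)) ∧ ∀ j, j ≠ i → x j = y j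

theorem rootMultiplicity_labP {t : ℕ} {p : Fin t → F[X]} {e : Fin t → ℕ} (hp : ∀ i, ClN (p i)) {N : ℕ} (i : Fin N) (a : F) :
    rootMultiplicity a (labP p e N i) = Nat.card {k // p k = X - C a ∧ e k = (i : ℕ) + 1} := by
  classical
  have hroot : ∀ k, rootMultiplicity a (p k) = if p k = X - C a then 1 else 0 := by
    intro k
    split_ifs with h
    · rw [h, rootMultiplicity_X_sub_C_self]
    · rw [rootMultiplicity_eq_zero_iff]
      intro hr
      exfalso
      apply h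
      rw [← dvd_iff_isRoot] at hr
      have h1 : Associated (X - C a) (p k) := ((irreducible_X_sub_C a).dvd_irreducible_iff_associated (hp k).2.1).1 hr
      exact (eq_of_monic_of_associated (monic_X_sub_C a) (hp k).1 h1).symm
  have key : ∀ s : Finset (Fin t), rootMultiplicity a (∏ k ∈ s, p k) = ∑ k ∈ s, rootMultiplicity a (p k) := by
    intro s
    induction s using Finset.induction_on with
    | empty =>
      rw [Finset.prod_empty, Finset.sum_empty]
      have := rootMultiplicity_C (1 : F) a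
      rwa [C_1] at this
    | insert k s hk ih =>
      rw [Finset.prod_insert hk, Finset.sum_insert hk, rootMultiplicity_mul, ih]
      exact mul_ne_zero (hp k).1.ne_zero (monic_prod_of_monic _ _ fun j _ => (hp j).1).ne_zero
  unfold labP
  rw [key, Finset.sum_congr rfl (fun k _ => hroot k), ← Finset.sum_filter, Finset.filter_filter, Finset.sum_const, smul_eq_mul, mul_one,
    Nat.card_eq_fintype_card, Fintype.card_subtype]
  congr 1
  ext k
  simp only [Finset.mem_filter, Finset.mem_univ, true_and]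
  exact and_comm

theorem exists_perm_of_form {N : ℕ} {ε : F} {A : GL (Fin N) F} {J : Matrix (Fin N) (Fin N) F} (hJ : InvForm ε A J) {t : ℕ} {p : Fin t → F[X]} {e : Fin t → ℕ}
    {φ : (Fin N → F) ≃ₗ[F] ((i : Fin t) → F[X] ⧸ Ideal.span {p i ^ e i})} (hp : ∀ i, ClN (p i) ∧ 1 ≤ e i)
    (h : SB (Matrix.toLin' (A : Matrix (Fin N) (Fin N) F)) (fun i => p i ^ e i) φ) :
    ∃ s : Fin t ≃ Fin t, ∀ i, p (s i) = dag (RingHom.id F) (p i) ∧ e (s i) = e i := by
  have hσ : ∀ x : F, (RingHom.id F) ((RingHom.id F) x) = x := fun x => rfl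
  apply prim_match ClN (fun P h => ⟨h.1, h.2.1⟩) (dag (RingHom.id F)) (ClN_dag (RingHom.id F) hσ) ?_ hp h hp h
  intro P hP k
  obtain ⟨K, hK⟩ := (Matrix.isUnit_iff_isUnit_det _).2 hJ.2.1
  have h1 := hJ.2.2
  rw [← hK] at h1
  have h2 : stm (RingHom.id F) (A : Matrix (Fin N) (Fin N) F) * ((K * A * K⁻¹ : GL (Fin N) F) : Matrix (Fin N) (Fin N) F) = 1 := by
    rw [stm_id, Units.val_mul, Units.val_mul, ← mul_assoc, ← mul_assoc, h1, Units.mul_inv]
  rw [← dag_pow, ← finrank_ker_dag (RingHom.id F) hσ _ _ h2 (P ^ k) (ClN_pow_coeff hP k)]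
  exact (finrank_ker_aeval_of_isConj (isConj_iff.2 ⟨K, rfl⟩) (P ^ k)).symm

theorem exists_labF {N : ℕ} {ε : F} {A : GL (Fin N) F} {J : Matrix (Fin N) (Fin N) F} (hJ : InvForm ε A J) :
    ∃ g : LabT (degU (RingHom.id F)) N N, HasLab A (toNL (RingHom.id F) g) := by
  classical
  obtain ⟨g, t, p, e, φ, hp, hSB, hle, hg⟩ := exists_lab A
  have h0 := SB.coeff_ne (toLin'_injective_of_gl A) hp hSB
  have hp' : ∀ i, ClN (p i) ∧ 1 ≤ e i := fun i => ⟨⟨(hp i).1, (hp i).2.1, h0 i⟩, (hp i).2.2⟩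
  obtain ⟨s, hs⟩ := exists_perm_of_form hJ hp' hSB
  have hself : ∀ i, dag (RingHom.id F) (g.1 i).1 = (g.1 i).1 := by
    intro i
    rw [hg, labP, dag_prod, Finset.prod_filter, Finset.prod_filter]
    apply Fintype.prod_equiv s
    intro j
    rw [(hs j).1, (hs j).2]
  refine ⟨⟨fun i => ⟨(g.1 i).1, (g.1 i).2.1, (g.1 i).2.2, hself i⟩, g.2⟩, t, p, e, φ, hp, hSB, hle, fun i => hg i⟩

/-- for each label a separating invariant -/
theorem exists_sep (h2 : (2 : F) ≠ 0) {ε : F} (hε : ε = 1 ∨ ε = -1) {N : ℕ} (g : LabT (degU (RingHom.id F)) N N) :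
    ∃ (A : GL (Fin N) F) (D : Matrix (Fin N) (Fin N) F → ℕ ⊕ ℕ → Bool), ((∃ A' : GL (Fin N) F, HasLab A' (toNL (RingHom.id F) g)) → HasLab A (toNL (RingHom.id F) g) ∧
      GoodD ε A D ∧ (∀ J s, D J s = true → ∃ i : Fin N, s = Sum.inl ((i : ℕ) + 1) ∨ s = Sum.inr ((i : ℕ) + 1)) ∧
      (∀ J, InvForm ε A J → ∀ i : Fin N, ConsF ε i (g.1 i, D J (Sum.inl ((i : ℕ) + 1)), D J (Sum.inr ((i : ℕ) + 1))))) := by
  classical
  by_cases hex : ∃ A' : GL (Fin N) F, HasLab A' (toNL (RingHom.id F) g)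
  · obtain ⟨A, hA⟩ := hex
    have hA' := hA
    obtain ⟨t, p, e, φ, hp, hSB, hle, hg⟩ := hA'
    have h0 := SB.coeff_ne (toLin'_injective_of_gl A) hp hSB
    have hp' : ∀ i, ClN (p i) ∧ 1 ≤ e i := fun i => ⟨⟨(hp i).1, (hp i).2.1, h0 i⟩, (hp i).2.2⟩
    have hg' : ∀ i, (g.1 i).1 = labP p e N i := fun i => hg i
    obtain ⟨D, hD, hD1, hD2, hD3⟩ := form_main h2 hε hp' hSB
    refine ⟨A, D, fun _ => ⟨hA, hD, ?_, ?_⟩⟩
    · rintro J (j | j) hj
      · obtain ⟨⟨i, hi1, hi2⟩, _⟩ := hD1 J j hj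
        have h3 := (hp i).2.2
        have h4 := hle i
        exact ⟨⟨j - 1, by omega⟩, Or.inl (by simp only; congr 1; omega)⟩
      · obtain ⟨⟨i, hi1, hi2⟩, _⟩ := hD2 J j hj
        have h3 := (hp i).2.2
        have h4 := hle i
        exact ⟨⟨j - 1, by omega⟩, Or.inr (by simp only; congr 1; omega)⟩
    · intro J hJ i
      refine ⟨?_, ?_, ?_⟩
      · intro hi
        obtain ⟨⟨k, hk1, hk2⟩, h3⟩ := hD1 J _ hi
        rw [Nat.add_sub_cancel] at h3
        refine ⟨?_, h3⟩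
        change (X - C 1 : F[X]) ∣ (g.1 i).1
        rw [hg', labP, ← hk1]
        exact Finset.dvd_prod_of_mem _ (Finset.mem_filter.2 ⟨Finset.mem_univ _, hk2⟩)
      · intro hi
        obtain ⟨⟨k, hk1, hk2⟩, h3⟩ := hD2 J _ hi
        rw [Nat.add_sub_cancel] at h3
        refine ⟨?_, h3⟩
        change (X - C (-1) : F[X]) ∣ (g.1 i).1
        rw [hg', labP, ← hk1]
        exact Finset.dvd_prod_of_mem _ (Finset.mem_filter.2 ⟨Finset.mem_univ _, hk2⟩)
      · intro hi
        have e1 : ∀ a : F, rootMultiplicity a (g.1 i).1 = Nat.card {k // p k = X - C a ∧ e k = (i : ℕ) + 1} := by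
          intro a
          rw [hg', rootMultiplicity_labP (fun k => (hp' k).1)]
        change Even (rootMultiplicity 1 (g.1 i).1) ∧ Even (rootMultiplicity (-1) (g.1 i).1)
        rw [e1, e1]
        exact ⟨hD3 J hJ _ (Or.inl rfl) _ (by rw [Nat.add_sub_cancel]; exact hi), hD3 J hJ _ (Or.inr rfl) _ (by rw [Nat.add_sub_cancel]; exact hi)⟩
  · exact ⟨1, fun _ _ => false, fun h => absurd h hex⟩

/-- the label map -/
theorem exists_label_map (h2 : (2 : F) ≠ 0) {ε : F} (hε : ε = 1 ∨ ε = -1) {N : ℕ} {G : Type*} [Group G] (J : Matrix (Fin N) (Fin N) F)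
    (ρ : G → GL (Fin N) F) (hρ : ∀ x, InvForm ε (ρ x) J)
    (hconj : ∀ x y, ∀ c : GL (Fin N) F, (c : Matrix (Fin N) (Fin N) F).transpose * J * (c : Matrix (Fin N) (Fin N) F) = J → c * ρ x = ρ y * c → IsConj x y) :
    ∃ lab : ConjClasses G → LabF ε N, Function.Injective lab ∧ (ε = 1 → ∀ c c', ¬ OneDiff (lab c).1 (lab c').1) := by
  classical
  have hsep := fun g => exists_sep h2 hε (N := N) g
  choose A D hAD using hsep
  -- data for the classes
  have hcl : ∀ c : ConjClasses G, ∃ (x : G) (g : LabT (degU (RingHom.id F)) N N) (h : GL (Fin N) F), ConjClasses.mk x = c ∧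
      HasLab (ρ x) (toNL (RingHom.id F) g) ∧ h * ρ x = A g * h := by
    intro c
    obtain ⟨x, rfl⟩ := ConjClasses.exists_rep c
    obtain ⟨g, hg⟩ := exists_labF (hρ x)
    obtain ⟨h, hh⟩ := isConj_iff.1 (hg.isConj (hAD g ⟨_, hg⟩).1)
    exact ⟨x, g, h, rfl, hg, mul_inv_eq_iff_eq_mul.1 hh⟩
  choose x g h hx hg hh using hcl
  obtain ⟨Jx, hJx⟩ : ∃ Jx : ConjClasses G → Matrix (Fin N) (Fin N) F, ∀ c, Jx c =
      (((h c)⁻¹ : GL (Fin N) F) : Matrix (Fin N) (Fin N) F).transpose * J * (((h c)⁻¹ : GL (Fin N) F) : Matrix (Fin N) (Fin N) F) := ⟨_, fun _ => rfl⟩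
  have hJinv : ∀ c, InvForm ε (A (g c)) (Jx c) := by
    intro c
    rw [hJx]
    exact (hρ (x c)).conj (h c) (hh c)
  let lab : ConjClasses G → LabF ε N := fun c => ⟨fun i => ((g c).1 i, D (g c) (Jx c) (Sum.inl ((i : ℕ) + 1)), D (g c) (Jx c) (Sum.inr ((i : ℕ) + 1))),
    fun i => (hAD (g c) ⟨_, hg c⟩).2.2.2 _ (hJinv c) i, (g c).2⟩
  have hlab : ∀ c i, (lab c).1 i = ((g c).1 i, D (g c) (Jx c) (Sum.inl ((i : ℕ) + 1)), D (g c) (Jx c) (Sum.inr ((i : ℕ) + 1))) := fun c i => rfl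
  refine ⟨lab, ?_, ?_⟩
  · intro c c' hcc
    have h3 : ∀ i, (lab c).1 i = (lab c').1 i := fun i => by rw [hcc]
    have hgg : g c = g c' := by
      apply Subtype.ext
      funext i
      have h4 := h3 i
      rw [hlab, hlab] at h4
      exact congrArg Prod.fst h4
    have hD : D (g c) (Jx c) = D (g c) (Jx c') := by
      funext s
      have key : ∀ i : Fin N, D (g c) (Jx c) (Sum.inl ((i : ℕ) + 1)) = D (g c) (Jx c') (Sum.inl ((i : ℕ) + 1)) ∧
          D (g c) (Jx c) (Sum.inr ((i : ℕ) + 1)) = D (g c) (Jx c') (Sum.inr ((i : ℕ) + 1)) := by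
        intro i
        have h4 := h3 i
        rw [hlab, hlab, ← hgg] at h4
        exact ⟨congrArg (fun z => z.2.1) h4, congrArg (fun z => z.2.2) h4⟩
      have hsupp := (hAD (g c) ⟨_, hg c⟩).2.2.1
      rw [Bool.eq_iff_iff]
      constructor
      · intro h4
        obtain ⟨i, rfl | rfl⟩ := hsupp _ _ h4
        · rw [← (key i).1]; exact h4
        · rw [← (key i).2]; exact h4
      · intro h4
        obtain ⟨i, rfl | rfl⟩ := hsupp _ _ h4
        · rw [(key i).1]; exact h4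
        · rw [(key i).2]; exact h4
    have hJ1 := hJinv c
    have hJ2 := hJinv c'
    rw [← hgg] at hJ2
    obtain ⟨k, hk1, hk2⟩ := (hAD (g c) ⟨_, hg c⟩).2.1.1 _ _ hJ1 hJ2 hD
    have hhc := hh c
    have hhc' := hh c'
    rw [← hgg] at hhc'
    rw [← hx c, ← hx c']
    rw [ConjClasses.mk_eq_mk_iff_isConj]
    apply IsConj.symm
    apply hconj _ _ ((h c)⁻¹ * k * h c')
    · have e1 : (((h c') : GL (Fin N) F) : Matrix (Fin N) (Fin N) F).transpose * (((h c')⁻¹ : GL (Fin N) F) : Matrix (Fin N) (Fin N) F).transpose = 1 := by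
        rw [← Matrix.transpose_mul, Units.inv_mul, Matrix.transpose_one]
      rw [Units.val_mul, Units.val_mul, Matrix.transpose_mul, Matrix.transpose_mul]
      calc _ = (h c' : Matrix (Fin N) (Fin N) F).transpose * ((k : Matrix (Fin N) (Fin N) F).transpose * ((((h c)⁻¹ : GL (Fin N) F) : Matrix (Fin N) (Fin N) F).transpose * J *
              (((h c)⁻¹ : GL (Fin N) F) : Matrix (Fin N) (Fin N) F)) * (k : Matrix (Fin N) (Fin N) F)) * (h c' : Matrix (Fin N) (Fin N) F) := by simp only [mul_assoc]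
        _ = (h c' : Matrix (Fin N) (Fin N) F).transpose * ((((h c')⁻¹ : GL (Fin N) F) : Matrix (Fin N) (Fin N) F).transpose * J *
              (((h c')⁻¹ : GL (Fin N) F) : Matrix (Fin N) (Fin N) F)) * (h c' : Matrix (Fin N) (Fin N) F) := by rw [← hJx, hk2, hJx]
        _ = ((h c' : Matrix (Fin N) (Fin N) F).transpose * (((h c')⁻¹ : GL (Fin N) F) : Matrix (Fin N) (Fin N) F).transpose) * J *
              ((((h c')⁻¹ : GL (Fin N) F) : Matrix (Fin N) (Fin N) F) * (h c' : Matrix (Fin N) (Fin N) F)) := by simp only [mul_assoc]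
        _ = J := by rw [e1, Units.inv_mul, one_mul, mul_one]
    · calc (h c)⁻¹ * k * h c' * ρ (x c') = (h c)⁻¹ * k * (h c' * ρ (x c')) := by group
        _ = (h c)⁻¹ * (k * A (g c)) * h c' := by rw [hhc']; group
        _ = (h c)⁻¹ * (A (g c) * h c) * (h c)⁻¹ * k * h c' := by rw [hk1]; group
        _ = ρ (x c) * ((h c)⁻¹ * k * h c') := by rw [← hhc]; group
  · rintro hε1 c c' ⟨i, hi1, hi2, hi3⟩
    have hgg : g c = g c' := by
      apply Subtype.ext
      funext j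
      by_cases hj : j = i
      · subst hj
        rw [hlab, hlab] at hi1
        exact hi1
      · have h4 := hi3 j hj
        rw [hlab, hlab] at h4
        exact congrArg Prod.fst h4
    have hJ1 := hJinv c
    have hJ2 := hJinv c'
    rw [← hgg] at hJ2
    have hsq : IsSquare ((Jx c).det * (Jx c').det) := by
      refine ⟨(((h c)⁻¹ : GL (Fin N) F) : Matrix (Fin N) (Fin N) F).det * J.det * (((h c')⁻¹ : GL (Fin N) F) : Matrix (Fin N) (Fin N) F).det, ?_⟩
      rw [hJx, hJx, Matrix.det_mul, Matrix.det_mul, Matrix.det_mul, Matrix.det_mul, Matrix.det_transpose, Matrix.det_transpose]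
      ring
    have hsupp := (hAD (g c) ⟨_, hg c⟩).2.2.1
    rw [hlab, hlab, ← hgg] at hi2
    have hoth : ∀ j : Fin N, j ≠ i → D (g c) (Jx c) (Sum.inl ((j : ℕ) + 1)) = D (g c) (Jx c') (Sum.inl ((j : ℕ) + 1)) ∧
        D (g c) (Jx c) (Sum.inr ((j : ℕ) + 1)) = D (g c) (Jx c') (Sum.inr ((j : ℕ) + 1)) := by
      intro j hj
      have h4 := hi3 j hj
      rw [hlab, hlab, ← hgg] at h4
      exact ⟨congrArg (fun z => z.2.1) h4, congrArg (fun z => z.2.2) h4⟩
    have hgen : ∀ s, (∀ j : Fin N, (s = Sum.inl ((j : ℕ) + 1) ∨ s = Sum.inr ((j : ℕ) + 1)) → D (g c) (Jx c) s = D (g c) (Jx c') s) →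
        D (g c) (Jx c) s = D (g c) (Jx c') s := by
      intro s hs
      rw [Bool.eq_iff_iff]
      constructor
      · intro h4
        obtain ⟨j, hj⟩ := hsupp _ _ h4
        rw [← hs j hj]; exact h4
      · intro h4
        obtain ⟨j, hj⟩ := hsupp _ _ h4
        rw [hs j hj]; exact h4
    rcases hi2 with ⟨h4, h5⟩ | ⟨h4, h5⟩
    · apply (hAD (g c) ⟨_, hg c⟩).2.1.2 hε1 _ _ hJ1 hJ2 (Sum.inl ((i : ℕ) + 1)) h4 _ hsq
      intro s hs
      apply hgen
      rintro j (rfl | rfl)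
      · exact (hoth j (fun h6 => hs (by rw [h6]))).1
      · by_cases h6 : j = i
        · subst h6; exact h5
        · exact (hoth j h6).2
    · apply (hAD (g c) ⟨_, hg c⟩).2.1.2 hε1 _ _ hJ1 hJ2 (Sum.inr ((i : ℕ) + 1)) h5 _ hsq
      intro s hs
      apply hgen
      rintro j (rfl | rfl)
      · by_cases h6 : j = i
        · subst h6; exact h4
        · exact (hoth j h6).1
      · exact (hoth j (fun h6 => hs (by rw [h6]))).2

end

end Cfsg.Agent.H43
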