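import Mathlib
import Cfsg.Agent.H43.FormMap

set_option autoImplicit false
set_option linter.unusedSectionVars false
set_option linter.unusedVariables false

/-! Self-dual polynomials over a field of odd characteristic. -/

namespace Cfsg.Agent.H43

open Polynomial

section
variable {F : Type*} [Field F]

theorem dag_X_sub_C (c : F) (hc : c * c = 1) : dag (RingHom.id F) (X - C c) = X - C c := by
  have hc0 : c ≠ 0 := left_ne_zero_of_mul_eq_one hc
  have h1 : (X - C c).coeff 0 = -c := by rw [coeff_sub, coeff_X_zero, coeff_C_zero, zero_sub]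
  apply dag_eq_self (RingHom.id F) (monic_X_sub_C c)
  · rw [h1, RingHom.id_apply]; linear_combination hc
  · intro i hi hi2
    rw [natDegree_X_sub_C] at hi2
    omega

theorem dag_cancel {P Q : F[X]} (hP : P ≠ 0) (h1 : dag (RingHom.id F) P = P) (h2 : dag (RingHom.id F) (P * Q) = P * Q) : dag (RingHom.id F) Q = Q := by
  rw [dag_mul, h1] at h2
  exact mul_left_cancel₀ hP h2

theorem reverse_eval_one (f : F[X]) : eval 1 f.reverse = eval 1 f := by
  have : Invertible (1 : F) := invertibleOne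
  have h := eval₂_reverse_mul_pow (RingHom.id F) (1 : F) f
  rw [one_pow, mul_one, invOf_one] at h
  exact h

theorem reverse_eval_neg_one (f : F[X]) : eval (-1) f.reverse * (-1) ^ f.natDegree = eval (-1) f := by
  have : Invertible (-1 : F) := ⟨-1, by ring, by ring⟩
  have h := eval₂_reverse_mul_pow (RingHom.id F) (-1 : F) f
  have h2 : ⅟(-1 : F) = -1 := by
    apply invOf_eq_right_inv; ring
  rw [h2] at h
  exact h

/-- self-dual polynomials with no roots `±1` -/
theorem sd_noroot (h2 : (2 : F) ≠ 0) {f : F[X]} (hd : dag (RingHom.id F) f = f) (h0 : f.coeff 0 ≠ 0) (h1 : eval 1 f ≠ 0) (h1' : eval (-1) f ≠ 0) :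
    f.coeff 0 = 1 ∧ Even f.natDegree := by
  have e1 : eval 1 (dag (RingHom.id F) f) = (f.coeff 0)⁻¹ * eval 1 f := by
    unfold dag
    rw [eval_mul, eval_C, Polynomial.map_id, reverse_eval_one, RingHom.id_apply]
  rw [hd] at e1
  have e2 : f.coeff 0 = 1 := by
    have h3 : (f.coeff 0)⁻¹ = 1 := by
      apply mul_right_cancel₀ h1
      rw [one_mul, ← e1]
    rw [← inv_inv (f.coeff 0), h3, inv_one]
  refine ⟨e2, ?_⟩
  have e3 : eval (-1) (dag (RingHom.id F) f) * (-1) ^ f.natDegree = (f.coeff 0)⁻¹ * eval (-1) f := by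
    unfold dag
    rw [eval_mul, eval_C, Polynomial.map_id, RingHom.id_apply, mul_assoc, reverse_eval_neg_one]
  rw [hd, e2, inv_one, one_mul] at e3
  by_contra hodd
  rw [Nat.not_even_iff_odd] at hodd
  rw [hodd.neg_one_pow] at e3
  apply h2
  have h4 : (2 : F) * eval (-1) f = 0 := by linear_combination -e3
  exact (mul_eq_zero.1 h4).resolve_right h1'

/-- splitting off the roots `±1` -/
theorem sd_split {f : F[X]} (h2 : (2 : F) ≠ 0) (hf : f.Monic) (hd : dag (RingHom.id F) f = f) (h0 : f.coeff 0 ≠ 0) :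
    ∃ h : F[X], f = (X - C 1) ^ (rootMultiplicity 1 f) * ((X - C (-1)) ^ (rootMultiplicity (-1) f) * h) ∧ h.Monic ∧ h.coeff 0 ≠ 0 ∧
      dag (RingHom.id F) h = h ∧ eval 1 h ≠ 0 ∧ eval (-1) h ≠ 0 := by
  have hne1 : (1 : F) ≠ -1 := by
    intro h; apply h2; linear_combination h
  obtain ⟨g, hg1, hg2⟩ := exists_eq_pow_rootMultiplicity_mul_and_not_dvd f hf.ne_zero 1
  have hg0 : g ≠ 0 := by rintro rfl; exact hg2 (dvd_zero _)
  obtain ⟨h, hh1, hh2⟩ := exists_eq_pow_rootMultiplicity_mul_and_not_dvd g hg0 (-1)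
  have hh0 : h ≠ 0 := by rintro rfl; exact hh2 (dvd_zero _)
  have hp1 : (X - C (1 : F)) ^ (rootMultiplicity 1 f) ≠ 0 := pow_ne_zero _ (X_sub_C_ne_zero _)
  have hp2 : ∀ k : ℕ, (X - C (-1 : F)) ^ k ≠ 0 := fun k => pow_ne_zero _ (X_sub_C_ne_zero _)
  have hmul : rootMultiplicity (-1) f = rootMultiplicity (-1) g := by
    conv_lhs => rw [hg1]
    rw [rootMultiplicity_mul (mul_ne_zero hp1 hg0)]
    have h3 : rootMultiplicity (-1 : F) ((X - C 1) ^ (rootMultiplicity 1 f)) = 0 := by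
      rw [rootMultiplicity_eq_zero_iff]
      intro h4
      rw [IsRoot.def, eval_pow, eval_sub, eval_X, eval_C] at h4
      exact absurd h4 (pow_ne_zero _ (sub_ne_zero.2 hne1.symm))
    rw [h3, zero_add]
  have heq : f = (X - C 1) ^ (rootMultiplicity 1 f) * ((X - C (-1)) ^ (rootMultiplicity (-1) f) * h) := by
    rw [hmul, ← hh1]; exact hg1
  refine ⟨h, heq, ?_, ?_, ?_, ?_, ?_⟩
  · have h3 : ((X - C (1 : F)) ^ (rootMultiplicity 1 f) * ((X - C (-1)) ^ (rootMultiplicity (-1) f) * h)).Monic := heq ▸ hf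
    have h4 := Monic.of_mul_monic_left ((monic_X_sub_C (1 : F)).pow _) h3
    exact Monic.of_mul_monic_left ((monic_X_sub_C (-1 : F)).pow _) h4
  · intro h3
    apply h0
    rw [heq, mul_coeff_zero, mul_coeff_zero, h3, mul_zero, mul_zero]
  · have h3 : dag (RingHom.id F) ((X - C (1 : F)) ^ (rootMultiplicity 1 f)) = (X - C (1 : F)) ^ (rootMultiplicity 1 f) := by
      rw [dag_pow, dag_X_sub_C _ (by ring)]
    have h4 : dag (RingHom.id F) ((X - C (-1 : F)) ^ (rootMultiplicity (-1) f)) = (X - C (-1 : F)) ^ (rootMultiplicity (-1) f) := by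
      rw [dag_pow, dag_X_sub_C _ (by ring)]
    have h5 := dag_cancel (P := (X - C (1 : F)) ^ (rootMultiplicity 1 f)) hp1 h3 (Q := (X - C (-1)) ^ (rootMultiplicity (-1) f) * h) (by
      rw [← heq]
      exact hd)
    exact dag_cancel (hp2 _) h4 h5
  · intro h3
    apply hg2
    rw [hh1]
    exact Dvd.dvd.mul_left (dvd_iff_isRoot.2 h3) _
  · intro h3
    exact hh2 (dvd_iff_isRoot.2 h3)

theorem sd_even (h2 : (2 : F) ≠ 0) {f : F[X]} (hf : f.Monic) (hd : dag (RingHom.id F) f = f) (h0 : f.coeff 0 ≠ 0)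
    (h1 : Even (rootMultiplicity 1 f)) (h1' : Even (rootMultiplicity (-1) f)) : f.coeff 0 = 1 ∧ Even f.natDegree := by
  obtain ⟨h, hh, hm, hh0, hhd, hr1, hr2⟩ := sd_split h2 hf hd h0
  obtain ⟨h3, h4⟩ := sd_noroot h2 hhd hh0 hr1 hr2
  have e1 : (X - C (1 : F)).coeff 0 = -1 := by rw [coeff_sub, coeff_X_zero, coeff_C_zero, zero_sub]
  have e2 : (X - C (-1 : F)).coeff 0 = 1 := by rw [coeff_sub, coeff_X_zero, coeff_C_zero]; ring
  constructor
  · rw [hh, mul_coeff_zero, mul_coeff_zero, h3, coeff_zero_eq_eval_zero, eval_pow, ← coeff_zero_eq_eval_zero, e1,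
      coeff_zero_eq_eval_zero, eval_pow, ← coeff_zero_eq_eval_zero, e2, h1.neg_one_pow, one_pow]
    ring
  · rw [hh, natDegree_mul (pow_ne_zero _ (X_sub_C_ne_zero _)) (mul_ne_zero (pow_ne_zero _ (X_sub_C_ne_zero _)) hm.ne_zero),
      natDegree_mul (pow_ne_zero _ (X_sub_C_ne_zero _)) hm.ne_zero, natDegree_pow, natDegree_pow, natDegree_X_sub_C, natDegree_X_sub_C, mul_one, mul_one]
    exact h1.add (h1'.add h4)

end

end Cfsg.Agent.H43
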