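import Mathlib
import Cfsg.Agent.H43.SdPoly
import Cfsg.Agent.H43.LabGL2

set_option autoImplicit false
set_option linter.unusedSectionVars false
set_option linter.unusedVariables false

/-! Counting self-dual polynomials of even degree. -/

namespace Cfsg.Agent.H43

open Polynomial

section
variable {F : Type*} [Field F]

/-- self-dual polynomials of degree `2k` with constant term `1` -/
def SDp (F : Type*) [Field F] (k : ℕ) : Set F[X] := {f | f.Monic ∧ f.coeff 0 = 1 ∧ dag (RingHom.id F) f = f ∧ f.natDegree = 2 * k}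

theorem SDp_coeff {k : ℕ} {f : F[X]} (hf : f ∈ SDp F k) (i : ℕ) (hi : i ≤ 2 * k) : f.coeff i = f.coeff (2 * k - i) := by
  obtain ⟨h1, h2, h3, h4⟩ := hf
  have h5 : f.coeff 0 ≠ 0 := by rw [h2]; exact one_ne_zero
  have h6 := PolU.coeff (RingHom.id F) (f := ⟨f, h1, h5, h3⟩) i (by rw [h4]; exact hi)
  simp only [h2, one_mul, RingHom.id_apply] at h6
  rw [h4] at h6
  exact h6

theorem SDp_inj (k : ℕ) : Function.Injective (fun (f : SDp F k) (i : Fin k) => f.1.coeff ((i : ℕ) + 1)) := by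
  intro f g h
  have key : ∀ i, i ≤ k → f.1.coeff i = g.1.coeff i := by
    intro i hi
    rcases i with _ | i
    · rw [f.2.2.1, g.2.2.1]
    · exact congrFun h ⟨i, by omega⟩
  apply Subtype.ext
  apply monic_eq_of_coeff f.2.1 g.2.1 (by rw [f.2.2.2.2, g.2.2.2.2])
  intro i hi
  rw [f.2.2.2.2] at hi
  rcases Nat.lt_or_ge k i with h1 | h1
  · rw [SDp_coeff f.2 i hi.le, SDp_coeff g.2 i hi.le]
    exact key _ (by omega)
  · exact key i h1

/-- the polynomial with given coefficients -/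
noncomputable def sdOf {k : ℕ} (v : Fin k → F) : F[X] :=
  polV (fun i : Fin (2 * k) => if h : (i : ℕ) = 0 then (1 : F) else if h1 : (i : ℕ) ≤ k then v ⟨(i : ℕ) - 1, by omega⟩ else v ⟨2 * k - (i : ℕ) - 1, by omega⟩)

theorem sdOf_coeff_zero {k : ℕ} (v : Fin k → F) : (sdOf v).coeff 0 = 1 := by
  rcases k with _ | k
  · have h1 : (sdOf v).natDegree = 0 := polV_natDegree _
    have h2 : (sdOf v).Monic := polV_monic _
    rw [Monic, leadingCoeff, h1] at h2
    exact h2
  · unfold sdOf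
    have := polV_coeff (fun i : Fin (2 * (k + 1)) => if h : (i : ℕ) = 0 then (1 : F) else if h1 : (i : ℕ) ≤ (k + 1) then v ⟨(i : ℕ) - 1, by omega⟩ else v ⟨2 * (k + 1) - (i : ℕ) - 1, by omega⟩) ⟨0, by omega⟩
    rw [dif_pos rfl] at this
    exact this

theorem sdOf_coeff {k : ℕ} (v : Fin k → F) (i : ℕ) (hi : 0 < i) (hi2 : i < 2 * k) :
    (sdOf v).coeff i = if h1 : i ≤ k then v ⟨i - 1, by omega⟩ else v ⟨2 * k - i - 1, by omega⟩ := by
  unfold sdOf
  have := polV_coeff (fun i : Fin (2 * k) => if h : (i : ℕ) = 0 then (1 : F) else if h1 : (i : ℕ) ≤ k then v ⟨(i : ℕ) - 1, by omega⟩ else v ⟨2 * k - (i : ℕ) - 1, by omega⟩) ⟨i, hi2⟩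
  rw [dif_neg (by change ¬ (i = 0); omega)] at this
  exact this

theorem sdOf_mem {k : ℕ} (v : Fin k → F) : sdOf v ∈ SDp F k := by
  have hm : (sdOf v).Monic := polV_monic _
  have hn : (sdOf v).natDegree = 2 * k := polV_natDegree _
  refine ⟨hm, sdOf_coeff_zero v, ?_, hn⟩
  apply dag_eq_self (RingHom.id F) hm
  · rw [sdOf_coeff_zero, RingHom.id_apply, one_mul]
  · intro i hi hi2
    rw [hn] at hi2 ⊢
    rw [sdOf_coeff_zero, one_mul, RingHom.id_apply, sdOf_coeff v i hi hi2, sdOf_coeff v (2 * k - i) (by omega) (by omega)]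
    split_ifs with h1 h2
    · have : i = 2 * k - i := by omega
      congr 2
      omega
    · congr 2; omega
    · congr 2
    · omega

theorem sdOf_injective {k : ℕ} : Function.Injective (sdOf : (Fin k → F) → F[X]) := by
  intro v w h
  funext i
  rcases Nat.lt_or_ge ((i : ℕ) + 1) (2 * k) with h1 | h1
  · have e1 := sdOf_coeff v ((i : ℕ) + 1) (Nat.succ_pos _) h1
    have e2 := sdOf_coeff w ((i : ℕ) + 1) (Nat.succ_pos _) h1
    rw [dif_pos (by omega)] at e1 e2
    rw [h] at e1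
    exact e1.symm.trans e2
  · -- k = 1, i = 0 is excluded: i + 1 ≤ k < 2k
    exfalso; omega

theorem card_SDp [Finite F] (k : ℕ) : Finite (SDp F k) ∧ Nat.card (SDp F k) = Nat.card F ^ k := by
  have : Fintype F := Fintype.ofFinite F
  have hf : Finite (SDp F k) := Finite.of_injective _ (SDp_inj k)
  refine ⟨hf, le_antisymm ?_ ?_⟩
  · have h1 := Nat.card_le_card_of_injective _ (SDp_inj (F := F) k)
    rwa [Nat.card_fun, Nat.card_eq_fintype_card (α := Fin k), Fintype.card_fin] at h1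
  · have h1 := Nat.card_le_card_of_injective (fun v : Fin k → F => (⟨sdOf v, sdOf_mem v⟩ : SDp F k)) (fun v w h => sdOf_injective (congrArg Subtype.val h))
    rwa [Nat.card_fun, Nat.card_eq_fintype_card (α := Fin k), Fintype.card_fin] at h1

/-- exponents removed -/
def eB (a p : Bool) : ℕ := if a then (if p then 1 else 2) else (if p then 1 else 0)

theorem sd_factor (h2 : (2 : F) ≠ 0) {g : F[X]} (hg : g.Monic) (hd : dag (RingHom.id F) g = g) (h0 : g.coeff 0 ≠ 0) (a b : Bool)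
    (ha : a = true → (X - C 1 : F[X]) ∣ g) (hb : b = true → (X - C (-1) : F[X]) ∣ g) :
    ∃ k, ∃ f ∈ SDp F k, g = (X - C 1) ^ (eB a (decide (Odd (rootMultiplicity 1 g)))) * ((X - C (-1)) ^ (eB b (decide (Odd (rootMultiplicity (-1) g)))) * f) ∧
      g.natDegree = eB a (decide (Odd (rootMultiplicity 1 g))) + eB b (decide (Odd (rootMultiplicity (-1) g))) + 2 * k := by
  obtain ⟨h, hh, hm, hh0, hhd, hr1, hr2⟩ := sd_split h2 hg hd h0
  have key : ∀ (c : F) (a : Bool), (a = true → (X - C c : F[X]) ∣ g) → eB a (decide (Odd (rootMultiplicity c g))) ≤ rootMultiplicity c g ∧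
      Even (rootMultiplicity c g - eB a (decide (Odd (rootMultiplicity c g)))) := by
    intro c a ha
    have h3 : a = true → 1 ≤ rootMultiplicity c g := fun h => (rootMultiplicity_pos hg.ne_zero).2 (dvd_iff_isRoot.1 (ha h))
    unfold eB
    rcases Nat.even_or_odd (rootMultiplicity c g) with he | ho
    · rw [decide_eq_false (Nat.not_odd_iff_even.2 he)]
      cases a
      · simpa using he
      · have h4 := h3 rfl
        simp only [if_true]
        obtain ⟨m, hm⟩ := he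
        constructor
        · simp; omega
        · simp; exact ⟨m - 1, by omega⟩
    · rw [decide_eq_true ho]
      obtain ⟨m, hm⟩ := ho
      cases a
      · simp only [if_true, Bool.false_eq_true, if_false]
        exact ⟨by omega, ⟨m, by omega⟩⟩
      · simp only [if_true]
        exact ⟨by omega, ⟨m, by omega⟩⟩
  obtain ⟨k1, k2⟩ := key 1 a ha
  obtain ⟨k3, k4⟩ := key (-1) b hb
  obtain ⟨e1, he1⟩ : ∃ e1, e1 = eB a (decide (Odd (rootMultiplicity 1 g))) := ⟨_, rfl⟩
  obtain ⟨e2, he2⟩ : ∃ e2, e2 = eB b (decide (Odd (rootMultiplicity (-1) g))) := ⟨_, rfl⟩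
  rw [← he1] at k1 k2
  rw [← he2] at k3 k4
  rw [← he1, ← he2]
  obtain ⟨α, hα⟩ : ∃ α, rootMultiplicity 1 g = e1 + α := ⟨rootMultiplicity 1 g - e1, by omega⟩
  obtain ⟨β, hβ⟩ : ∃ β, rootMultiplicity (-1) g = e2 + β := ⟨rootMultiplicity (-1) g - e2, by omega⟩
  rw [hα, Nat.add_sub_cancel_left] at k2
  rw [hβ, Nat.add_sub_cancel_left] at k4
  rw [hα, hβ] at hh
  obtain ⟨h3, h4⟩ := sd_noroot h2 hhd hh0 hr1 hr2
  obtain ⟨k, hk⟩ : ∃ k, α + β + h.natDegree = 2 * k := by
    obtain ⟨k, hk⟩ := (k2.add k4).add h4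
    exact ⟨k, by omega⟩
  have c1 : (X - C (1 : F)).coeff 0 = -1 := by rw [coeff_sub, coeff_X_zero, coeff_C_zero, zero_sub]
  have c2 : (X - C (-1 : F)).coeff 0 = 1 := by rw [coeff_sub, coeff_X_zero, coeff_C_zero]; ring
  refine ⟨k, (X - C 1) ^ α * ((X - C (-1)) ^ β * h), ⟨?_, ?_, ?_, ?_⟩, ?_, ?_⟩
  · exact ((monic_X_sub_C _).pow _).mul (((monic_X_sub_C _).pow _).mul hm)
  · rw [mul_coeff_zero, mul_coeff_zero, h3, coeff_zero_eq_eval_zero, eval_pow, ← coeff_zero_eq_eval_zero, c1,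
      coeff_zero_eq_eval_zero, eval_pow, ← coeff_zero_eq_eval_zero, c2, k2.neg_one_pow, one_pow]
    ring
  · rw [dag_mul, dag_mul, dag_pow, dag_pow, dag_X_sub_C _ (by ring), dag_X_sub_C _ (by ring), hhd]
  · rw [natDegree_mul (pow_ne_zero _ (X_sub_C_ne_zero _)) (mul_ne_zero (pow_ne_zero _ (X_sub_C_ne_zero _)) hm.ne_zero),
      natDegree_mul (pow_ne_zero _ (X_sub_C_ne_zero _)) hm.ne_zero, natDegree_pow, natDegree_pow, natDegree_X_sub_C, natDegree_X_sub_C, mul_one, mul_one, ← hk]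
    ring
  · conv_lhs => rw [hh]
    rw [pow_add, pow_add]; ring
  · conv_lhs => rw [hh]
    rw [natDegree_mul (pow_ne_zero _ (X_sub_C_ne_zero _)) (mul_ne_zero (pow_ne_zero _ (X_sub_C_ne_zero _)) hm.ne_zero),
      natDegree_mul (pow_ne_zero _ (X_sub_C_ne_zero _)) hm.ne_zero, natDegree_pow, natDegree_pow, natDegree_X_sub_C, natDegree_X_sub_C, mul_one, mul_one, ← hk]
    ring

end

end Cfsg.Agent.H43
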