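import Mathlib
import Cfsg.Agent.H43.SdCount
import Cfsg.Agent.H43.BlockForm

set_option autoImplicit false
set_option linter.unusedSectionVars false
set_option linter.unusedVariables false

/-! Companion matrices of self-dual polynomials. -/

namespace Cfsg.Agent.H43

open Polynomial

section
variable {F : Type*} [Field F]

theorem reverse_of_sd {k : F[X]} (h0 : k.coeff 0 = 1) (hd : dag (RingHom.id F) k = k) : k.reverse = k := by
  unfold dag at hd
  rw [h0, RingHom.id_apply, inv_one, C_1, one_mul, Polynomial.map_id] at hd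
  exact hd

/-- the canonical involution on the companion algebra -/
theorem exists_invol {k : F[X]} (hk : k.Monic) (h0 : k.coeff 0 = 1) (hd : dag (RingHom.id F) k = k) :
    ∃ (β : AdjoinRoot k) (τ : AdjoinRoot k →ₐ[F] AdjoinRoot k), AdjoinRoot.root k * β = 1 ∧ τ (AdjoinRoot.root k) = β ∧ ∀ x, τ (τ x) = x := by
  obtain ⟨α, hα⟩ : ∃ α, α = AdjoinRoot.root k := ⟨_, rfl⟩
  obtain ⟨β, hβ⟩ : ∃ β, β = -(AdjoinRoot.mk k (divX k)) := ⟨_, rfl⟩
  have hαβ : α * β = 1 := by
    have h1 := divX_mul_X_add k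
    have h2 := congrArg (AdjoinRoot.mk k) h1
    rw [map_add, map_mul, AdjoinRoot.mk_X, AdjoinRoot.mk_self, h0, C_1, map_one, ← hα] at h2
    rw [hβ]
    linear_combination -h2
  have hβα : β * α = 1 := by rw [mul_comm]; exact hαβ
  have hev : k.eval₂ (algebraMap F (AdjoinRoot k)) β = 0 := by
    let inst : Invertible α := ⟨β, hβα, hαβ⟩
    have h1 := eval₂_reverse_mul_pow (algebraMap F (AdjoinRoot k)) α k
    rw [reverse_of_sd h0 hd] at h1
    have h2 : k.eval₂ (algebraMap F (AdjoinRoot k)) α = 0 := by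
      rw [hα]
      exact AdjoinRoot.eval₂_root k
    rw [h2] at h1
    have h3 : ⅟α = β := rfl
    rw [h3] at h1
    have h4 : α ^ k.natDegree * β ^ k.natDegree = 1 := by rw [← mul_pow, hαβ, one_pow]
    calc k.eval₂ (algebraMap F (AdjoinRoot k)) β = k.eval₂ (algebraMap F (AdjoinRoot k)) β * (α ^ k.natDegree * β ^ k.natDegree) := by rw [h4, mul_one]
      _ = (k.eval₂ (algebraMap F (AdjoinRoot k)) β * α ^ k.natDegree) * β ^ k.natDegree := by ring
      _ = 0 := by rw [h1, zero_mul]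
  have hev' : k.eval₂ ((Algebra.ofId F (AdjoinRoot k) : F →ₐ[F] AdjoinRoot k) : F →+* AdjoinRoot k) β = 0 := hev
  obtain ⟨τ, hτ⟩ : ∃ τ : AdjoinRoot k →ₐ[F] AdjoinRoot k, τ α = β := by
    refine ⟨AdjoinRoot.liftAlgHom k (Algebra.ofId F (AdjoinRoot k)) β hev', ?_⟩
    rw [hα]
    exact AdjoinRoot.liftAlgHom_root k (Algebra.ofId F (AdjoinRoot k)) β hev'
  refine ⟨β, τ, by rw [← hα]; exact hαβ, by rw [← hα]; exact hτ, ?_⟩
  have h5 : τ β = α := by
    have h6 : β * τ β = 1 := by
      have h7 := congrArg τ hαβ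
      rwa [map_mul, hτ, map_one] at h7
    calc τ β = (α * β) * τ β := by rw [hαβ, one_mul]
      _ = α * (β * τ β) := by ring
      _ = α := by rw [h6, mul_one]
  have h8 : τ.comp τ = AlgHom.id F (AdjoinRoot k) := by
    apply AdjoinRoot.algHom_ext
    rw [AlgHom.comp_apply, ← hα, hτ, h5]
    rfl
  intro x
  have := congrArg (fun φ : AdjoinRoot k →ₐ[F] AdjoinRoot k => φ x) h8
  exact this

/-- the companion matrix with an invariant form -/
theorem exists_companion {k : F[X]} (hk : k.Monic) (h0 : k.coeff 0 = 1) (hd : dag (RingHom.id F) k = k) :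
    ∃ (A g : GL (Fin k.natDegree) F), (A : Matrix (Fin k.natDegree) (Fin k.natDegree) F).charpoly = k ∧
      (A : Matrix (Fin k.natDegree) (Fin k.natDegree) F).transpose * (g : Matrix (Fin k.natDegree) (Fin k.natDegree) F) * (A : Matrix (Fin k.natDegree) (Fin k.natDegree) F) =
        (g : Matrix (Fin k.natDegree) (Fin k.natDegree) F) := by
  classical
  obtain ⟨β, τ, hαβ, hτ, hττ⟩ := exists_invol hk h0 hd
  have hβα : β * AdjoinRoot.root k = 1 := by rw [mul_comm]; exact hαβ
  obtain ⟨pb, hpb⟩ : ∃ pb, pb = AdjoinRoot.powerBasis hk.ne_zero := ⟨_, rfl⟩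
  let b : Module.Basis (Fin k.natDegree) F (AdjoinRoot k) := (AdjoinRoot.powerBasis hk.ne_zero).basis
  have hchar : (Algebra.leftMulMatrix b (AdjoinRoot.root k)).charpoly = k := by
    have h1 := charpoly_leftMulMatrix (AdjoinRoot.powerBasis hk.ne_zero)
    rw [AdjoinRoot.minpoly_powerBasis_gen_of_monic hk hk.ne_zero] at h1
    exact h1
  obtain ⟨A, hA⟩ : ∃ A : GL (Fin k.natDegree) F, (A : Matrix (Fin k.natDegree) (Fin k.natDegree) F) = Algebra.leftMulMatrix b (AdjoinRoot.root k) := by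
    refine ⟨⟨Algebra.leftMulMatrix b (AdjoinRoot.root k), Algebra.leftMulMatrix b β, ?_, ?_⟩, rfl⟩
    · rw [← map_mul, hαβ, map_one]
    · rw [← map_mul, hβα, map_one]
  -- the functional
  obtain ⟨c, hc⟩ : ∃ c : AdjoinRoot k →ₗ[F] F, ∀ r : F[X], r.degree < k.degree → c (AdjoinRoot.mk k r) = r.coeff (k.natDegree - 1) := by
    refine ⟨(lcoeff F (k.natDegree - 1)).comp (AdjoinRoot.modByMonicHom hk), ?_⟩
    intro r hr
    rw [LinearMap.comp_apply, AdjoinRoot.modByMonicHom_mk, (modByMonic_eq_self_iff hk).2 hr, lcoeff_apply]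
  have hnd : ∀ u : AdjoinRoot k, (∀ w, c (u * w) = 0) → u = 0 := by
    intro u hu
    obtain ⟨r, hr, hrd⟩ : ∃ r : F[X], AdjoinRoot.mk k r = u ∧ r.degree < k.degree := by
      obtain ⟨r, hr⟩ := AdjoinRoot.mk_surjective u
      refine ⟨r %ₘ k, ?_, degree_modByMonic_lt _ hk⟩
      rw [← hr, AdjoinRoot.mk_eq_mk]
      rw [modByMonic_eq_sub_mul_div]
      exact ⟨-(r /ₘ k), by ring⟩
    by_contra hne
    have hr0 : r ≠ 0 := by
      rintro rfl
      apply hne
      rw [← hr, map_zero]
    have hnat : r.natDegree < k.natDegree := natDegree_lt_natDegree hr0 hrd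
    have h1 := hu (AdjoinRoot.mk k (X ^ (k.natDegree - 1 - r.natDegree)))
    rw [← hr, ← map_mul, hc] at h1
    · have h2 : k.natDegree - 1 = r.natDegree + (k.natDegree - 1 - r.natDegree) := by omega
      conv_lhs at h1 => rw [h2]
      rw [← h2] at h1
      have h3 : (r * X ^ (k.natDegree - 1 - r.natDegree)).coeff (r.natDegree + (k.natDegree - 1 - r.natDegree)) = r.leadingCoeff := by
        rw [coeff_mul_X_pow]; rfl
      rw [← h2] at h3
      rw [h3] at h1
      exact hr0 (leadingCoeff_eq_zero.1 h1)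
    · rw [degree_mul, degree_X_pow, degree_eq_natDegree hr0, degree_eq_natDegree hk.ne_zero]
      exact_mod_cast (by omega : r.natDegree + (k.natDegree - 1 - r.natDegree) < k.natDegree)
  -- the form
  obtain ⟨B, hB⟩ : ∃ B : AdjoinRoot k →ₗ[F] AdjoinRoot k →ₗ[F] F, ∀ u v, B u v = c (u * τ v) := by
    refine ⟨LinearMap.mk₂ F (fun u v => c (u * τ v)) ?_ ?_ ?_ ?_, fun u v => rfl⟩
    · intro u u' v; rw [add_mul, map_add]
    · intro a u v; rw [smul_mul_assoc, map_smul]
    · intro u v v'; rw [map_add, mul_add, map_add]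
    · intro a u v; rw [map_smul, mul_smul_comm, map_smul]
  have hinv : B.compl₁₂ (LinearMap.mulLeft F (AdjoinRoot.root k)) (LinearMap.mulLeft F (AdjoinRoot.root k)) = B := by
    apply LinearMap.ext₂
    intro u v
    rw [LinearMap.compl₁₂_apply, LinearMap.mulLeft_apply, LinearMap.mulLeft_apply, hB, hB, map_mul τ, hτ]
    congr 1
    calc AdjoinRoot.root k * u * (β * τ v) = (AdjoinRoot.root k * β) * (u * τ v) := by ring
      _ = u * τ v := by rw [hαβ, one_mul]
  have hmat : (Algebra.leftMulMatrix b (AdjoinRoot.root k)).transpose * LinearMap.toMatrix₂ b b B * Algebra.leftMulMatrix b (AdjoinRoot.root k) = LinearMap.toMatrix₂ b b B := by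
    have h1 := LinearMap.toMatrix₂_compl₁₂ b b b b B (LinearMap.mulLeft F (AdjoinRoot.root k)) (LinearMap.mulLeft F (AdjoinRoot.root k))
    rw [hinv, Algebra.toMatrix_lmul_eq] at h1
    exact h1.symm
  have hdet : (LinearMap.toMatrix₂ b b B).det ≠ 0 := by
    apply (LinearMap.separatingLeft_iff_det_ne_zero b).1
    intro u hu
    apply hnd
    intro w
    have h6 := hu (τ w)
    rw [hB, hττ] at h6
    exact h6
  obtain ⟨g, hg⟩ := (Matrix.isUnit_iff_isUnit_det _).2 (isUnit_iff_ne_zero.2 hdet)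
  refine ⟨A, g, by rw [hA]; exact hchar, ?_⟩
  rw [hA, hg]
  exact hmat

end

end Cfsg.Agent.H43
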