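import Mathlib
import Cfsg.Agent.H43.Comp
import Cfsg.Agent.H43.GenForm
import Cfsg.Agent.H43.FormCongr

set_option autoImplicit false
set_option linter.unusedSectionVars false
set_option linter.unusedVariables false

/-! Isometries with prescribed characteristic polynomial. -/

namespace Cfsg.Agent.H43

open Polynomial

section
variable {F : Type*} [Field F]

theorem det_J_eq_one (m : ℕ) : (Matrix.J (Fin m) F).det = 1 := by
  have h1 : Matrix.J (Fin m) F = Matrix.fromBlocks 1 (-1) 0 1 * Matrix.fromBlocks 1 0 1 1 * Matrix.fromBlocks 1 (-1) 0 1 := by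
    rw [Matrix.J, Matrix.fromBlocks_multiply, Matrix.fromBlocks_multiply]
    simp
  rw [h1, Matrix.det_mul, Matrix.det_mul, Matrix.det_fromBlocks_zero₂₁, Matrix.det_fromBlocks_zero₁₂]
  simp

variable {κ : Type*} [Fintype κ] [DecidableEq κ]

theorem isSquare_det_skew (h2 : (2 : F) ≠ 0) {G : Matrix κ κ F} (hG : G.transpose = -G) (hdet : IsUnit G.det) : IsSquare G.det := by
  obtain ⟨m, hm⟩ := even_card_of_skew h2 hG hdet
  have hcard : Fintype.card (Fin m ⊕ Fin m) = Fintype.card κ := by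
    rw [Fintype.card_sum, Fintype.card_fin, hm]
  let e : Fin m ⊕ Fin m ≃ κ := Fintype.equivOfCardEq hcard
  have hdet' : ((Matrix.J (Fin m) F).submatrix e.symm e.symm).det = 1 := by
    rw [Matrix.det_submatrix_equiv_self, det_J_eq_one]
  have hsk : ((Matrix.J (Fin m) F).submatrix e.symm e.symm).transpose = -((Matrix.J (Fin m) F).submatrix e.symm e.symm) := by
    rw [Matrix.transpose_submatrix, Matrix.J_transpose]
    rfl
  obtain ⟨C, hC, hCG⟩ := alt_congr h2 hsk hG (by rw [hdet']; exact isUnit_one) hdet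
  rw [← hCG, Matrix.det_mul, Matrix.det_mul, Matrix.det_transpose, hdet', mul_one]
  exact ⟨_, rfl⟩

theorem sub_inv_eq (A : GL κ F) : (A : Matrix κ κ F) - ((A⁻¹ : GL κ F) : Matrix κ κ F) =
    ((A⁻¹ : GL κ F) : Matrix κ κ F) * ((Matrix.scalar κ (1 : F) - (A : Matrix κ κ F)) * (Matrix.scalar κ (-1 : F) - (A : Matrix κ κ F))) := by
  obtain ⟨Ai, hAi⟩ : ∃ Ai : Matrix κ κ F, Ai = ((A⁻¹ : GL κ F) : Matrix κ κ F) := ⟨_, rfl⟩
  have h1 : Ai * (A : Matrix κ κ F) = 1 := by rw [hAi]; exact Units.inv_mul A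
  have e1 : Matrix.scalar κ (1 : F) = 1 := map_one _
  have e2 : Matrix.scalar κ (-1 : F) = -1 := by rw [map_neg, map_one]
  rw [← hAi, e1, e2]
  calc (A : Matrix κ κ F) - Ai = (Ai * A) * A - Ai := by rw [h1, one_mul]
    _ = _ := by noncomm_ring

theorem det_sub_inv (A : GL κ F) (hdet : (A : Matrix κ κ F).det = 1) : ((A : Matrix κ κ F) - ((A⁻¹ : GL κ F) : Matrix κ κ F)).det =
    eval 1 (A : Matrix κ κ F).charpoly * eval (-1) (A : Matrix κ κ F).charpoly := by
  have h1 : ((A⁻¹ : GL κ F) : Matrix κ κ F).det = 1 := by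
    have h3 : ((A⁻¹ : GL κ F) : Matrix κ κ F).det * (A : Matrix κ κ F).det = 1 := by rw [← Matrix.det_mul, Units.inv_mul, Matrix.det_one]
    rwa [hdet, mul_one] at h3
  rw [sub_inv_eq, Matrix.det_mul, Matrix.det_mul, h1, one_mul, Matrix.eval_charpoly, Matrix.eval_charpoly]

/-- `J(A - A⁻¹)` is skew -/
theorem skew_sub_inv {A : GL κ F} {J : Matrix κ κ F} (h : InvForm 1 A J) :
    (J * ((A : Matrix κ κ F) - ((A⁻¹ : GL κ F) : Matrix κ κ F))).transpose = -(J * ((A : Matrix κ κ F) - ((A⁻¹ : GL κ F) : Matrix κ κ F))) := by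
  obtain ⟨h1, h2, h3⟩ := h
  rw [one_smul] at h1
  obtain ⟨Ai, hAi⟩ : ∃ Ai : Matrix κ κ F, Ai = ((A⁻¹ : GL κ F) : Matrix κ κ F) := ⟨_, rfl⟩
  have e1 : Ai * (A : Matrix κ κ F) = 1 := by rw [hAi]; exact Units.inv_mul A
  have e2 : (A : Matrix κ κ F) * Ai = 1 := by rw [hAi]; exact Units.mul_inv A
  have e3 : (A : Matrix κ κ F).transpose * J = J * Ai := by
    calc (A : Matrix κ κ F).transpose * J = ((A : Matrix κ κ F).transpose * J * A) * Ai := by rw [mul_assoc, e2, mul_one]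
      _ = J * Ai := by rw [h3]
  have e4 : Ai.transpose * J = J * A := by
    calc Ai.transpose * J = Ai.transpose * ((A : Matrix κ κ F).transpose * J * A) := by rw [h3]
      _ = (Ai.transpose * (A : Matrix κ κ F).transpose) * J * A := by noncomm_ring
      _ = J * A := by rw [← Matrix.transpose_mul, e2, Matrix.transpose_one, one_mul]
  rw [← hAi, Matrix.transpose_mul, Matrix.transpose_sub, h1, sub_mul, e3, e4, mul_sub, neg_sub]

/-- the regular part -/
theorem exists_core [Finite F] (h2 : (2 : F) ≠ 0) {ε : F} (hε : ε * ε = 1) {m : ℕ} {k : F[X]} (hk : k ∈ SDp F m) (h1 : eval 1 k ≠ 0) (h1' : eval (-1) k ≠ 0) :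
    ∃ (A : GL (Fin k.natDegree) F) (J : Matrix (Fin k.natDegree) (Fin k.natDegree) F), InvForm ε A J ∧
      (A : Matrix (Fin k.natDegree) (Fin k.natDegree) F).charpoly = k ∧ (ε = 1 → IsSquare (J.det * (eval 1 k * eval (-1) k))) := by
  obtain ⟨hm, h0, hd, hn⟩ := hk
  obtain ⟨A, g, hA, hg⟩ := exists_companion hm h0 hd
  have hdetA : (A : Matrix (Fin k.natDegree) (Fin k.natDegree) F).det = 1 := by
    rw [Matrix.det_eq_sign_charpoly_coeff, hA, h0, mul_one, Fintype.card_fin, hn, pow_mul]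
    simp
  have hsub := det_sub_inv A hdetA
  rw [hA] at hsub
  obtain ⟨J, hJ⟩ := gen_exists hε A g ((Matrix.isUnit_iff_isUnit_det _).2 (by
    rw [hsub]; exact isUnit_iff_ne_zero.2 (mul_ne_zero h1 h1'))) hg
  refine ⟨A, J, hJ, hA, ?_⟩
  intro hε1
  subst hε1
  have h3 := isSquare_det_skew h2 (skew_sub_inv hJ) (by
    rw [Matrix.det_mul, hsub]
    exact hJ.2.1.mul (isUnit_iff_ne_zero.2 (mul_ne_zero h1 h1')))
  rw [Matrix.det_mul, hsub] at h3
  exact h3

end

section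
variable {F : Type*} [Field F] {ι₁ ι₂ ι : Type*} [Fintype ι₁] [DecidableEq ι₁] [Fintype ι₂] [DecidableEq ι₂] [Fintype ι] [DecidableEq ι] (e : ι₁ ⊕ ι₂ ≃ ι)

theorem bs_charpoly (M : Matrix ι₁ ι₁ F) (N : Matrix ι₂ ι₂ F) : (bs e M N).charpoly = M.charpoly * N.charpoly := by
  have h1 : bs e M N = Matrix.reindex e e (Matrix.fromBlocks M 0 0 N) := rfl
  rw [h1, Matrix.charpoly_reindex, Matrix.charpoly_fromBlocks_zero₂₁]

theorem InvForm.reindex' {ε : F} {A : GL ι₁ F} {J : Matrix ι₁ ι₁ F} (e : ι₁ ≃ ι) (h : InvForm ε A J) :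
    ∃ (A' : GL ι F), InvForm ε A' (J.submatrix e.symm e.symm) ∧ (A' : Matrix ι ι F).charpoly = (A : Matrix ι₁ ι₁ F).charpoly := by
  refine ⟨⟨(A : Matrix ι₁ ι₁ F).submatrix e.symm e.symm, ((A⁻¹ : GL ι₁ F) : Matrix ι₁ ι₁ F).submatrix e.symm e.symm, ?_, ?_⟩, ⟨?_, ?_, ?_⟩, ?_⟩
  · rw [Matrix.submatrix_mul_equiv, Units.mul_inv, Matrix.submatrix_one_equiv]
  · rw [Matrix.submatrix_mul_equiv, Units.inv_mul, Matrix.submatrix_one_equiv]
  · rw [Matrix.transpose_submatrix, h.1]; rfl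
  · rw [Matrix.det_submatrix_equiv_self]; exact h.2.1
  · change ((A : Matrix ι₁ ι₁ F).submatrix e.symm e.symm).transpose * J.submatrix e.symm e.symm * (A : Matrix ι₁ ι₁ F).submatrix e.symm e.symm = _
    rw [Matrix.transpose_submatrix, Matrix.submatrix_mul_equiv, Matrix.submatrix_mul_equiv, h.2.2]
  · have h1 : (A : Matrix ι₁ ι₁ F).submatrix e.symm e.symm = Matrix.reindex e e (A : Matrix ι₁ ι₁ F) := rfl
    change ((A : Matrix ι₁ ι₁ F).submatrix e.symm e.symm).charpoly = _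
    rw [h1, Matrix.charpoly_reindex]

end

section
variable {F : Type*} [Field F]

theorem one_charpoly {ι : Type*} [Fintype ι] [DecidableEq ι] : ((1 : Matrix ι ι F)).charpoly = (X - C 1) ^ Fintype.card ι := by
  rw [Matrix.charpoly_one, C_1]

theorem neg_one_charpoly {ι : Type*} [Fintype ι] [DecidableEq ι] : ((-1 : Matrix ι ι F)).charpoly = (X - C (-1)) ^ Fintype.card ι := by
  have h1 : (-1 : Matrix ι ι F) = Matrix.scalar ι (-1 : F) := by rw [map_neg, map_one]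
  rw [h1, Matrix.charpoly, Matrix.charmatrix]
  have h2 : (C.mapMatrix (Matrix.scalar ι (-1 : F)) : Matrix ι ι F[X]) = Matrix.scalar ι (C (-1)) := by
    ext i j
    by_cases hij : i = j
    · subst hij; simp
    · simp [hij]
  rw [h2, ← map_sub, Matrix.scalar_apply, Matrix.det_diagonal, Finset.prod_const, Finset.card_univ]

theorem invForm_one {ι : Type*} [Fintype ι] [DecidableEq ι] {ε : F} {J : Matrix ι ι F} (h1 : J.transpose = ε • J) (h2 : IsUnit J.det) : InvForm ε (1 : GL ι F) J :=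
  ⟨h1, h2, by rw [Units.val_one, Matrix.transpose_one, one_mul, mul_one]⟩

/-- assembling -/
theorem exists_assemble [Finite F] (h2 : (2 : F) ≠ 0) {ε : F} (hε : ε * ε = 1) {n : ℕ} {f : F[X]} (hf : f ∈ SDp F n) :
    ∃ (a b m : ℕ) (k : F[X]), k ∈ SDp F m ∧ a + b + m = n ∧ f = (X - C 1) ^ (2 * a) * ((X - C (-1)) ^ (2 * b) * k) ∧ (eval 1 f ≠ 0 → a = 0) ∧ (eval 1 f = 0 → 0 < a) ∧
      (eval (-1) f ≠ 0 → b = 0) ∧ ∃ (d : F), d ≠ 0 ∧ (ε = 1 → eval 1 f ≠ 0 → eval (-1) f ≠ 0 → IsSquare (d * (eval 1 f * eval (-1) f))) ∧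
      ∀ (J₁ : Matrix (Fin a ⊕ Fin a) (Fin a ⊕ Fin a) F) (J₂ : Matrix (Fin b ⊕ Fin b) (Fin b ⊕ Fin b) F), J₁.transpose = ε • J₁ → IsUnit J₁.det → J₂.transpose = ε • J₂ → IsUnit J₂.det →
        ∃ (A : GL (Fin (2 * n)) F) (J : Matrix (Fin (2 * n)) (Fin (2 * n)) F), InvForm ε A J ∧ (A : Matrix (Fin (2 * n)) (Fin (2 * n)) F).charpoly = f ∧ J.det = J₁.det * J₂.det * d := by
  obtain ⟨hm, h0, hd, hn⟩ := hf
  have h0' : f.coeff 0 ≠ 0 := by rw [h0]; exact one_ne_zero
  obtain ⟨k, hk, hkm, hk0, hkd, hr1, hr2⟩ := sd_split h2 hm hd h0'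
  obtain ⟨hk1, hk2⟩ := sd_noroot h2 hkd hk0 hr1 hr2
  have hne : (1 : F) ≠ -1 := by intro h; apply h2; linear_combination h
  have c1 : (X - C (1 : F)).coeff 0 = -1 := by rw [coeff_sub, coeff_X_zero, coeff_C_zero, zero_sub]
  have c2 : (X - C (-1 : F)).coeff 0 = 1 := by rw [coeff_sub, coeff_X_zero, coeff_C_zero]; ring
  have hdeg := congrArg natDegree hk
  rw [natDegree_mul (pow_ne_zero _ (X_sub_C_ne_zero _)) (mul_ne_zero (pow_ne_zero _ (X_sub_C_ne_zero _)) hkm.ne_zero),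
      natDegree_mul (pow_ne_zero _ (X_sub_C_ne_zero _)) hkm.ne_zero, natDegree_pow, natDegree_pow, natDegree_X_sub_C, natDegree_X_sub_C, mul_one, mul_one, hn] at hdeg
  have heven1 : Even (rootMultiplicity 1 f) := by
    by_contra h
    rw [Nat.not_even_iff_odd] at h
    have h3 := h0
    rw [hk, mul_coeff_zero, mul_coeff_zero, hk1, coeff_zero_eq_eval_zero, eval_pow, ← coeff_zero_eq_eval_zero, c1,
      coeff_zero_eq_eval_zero, eval_pow, ← coeff_zero_eq_eval_zero, c2, h.neg_one_pow, one_pow] at h3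
    apply hne
    linear_combination -h3
  obtain ⟨a, ha⟩ := heven1
  obtain ⟨m, hm'⟩ := hk2
  have hb : ∃ b, rootMultiplicity (-1) f = 2 * b := by
    have : Even (rootMultiplicity (-1) f) := by
      by_contra h
      rw [Nat.not_even_iff_odd] at h
      obtain ⟨b, hb⟩ := h
      omega
    obtain ⟨b, hb⟩ := this
    exact ⟨b, by omega⟩
  obtain ⟨b, hb⟩ := hb
  have ha' : rootMultiplicity 1 f = 2 * a := by omega
  rw [ha', hb] at hk
  have hev1 : eval 1 f ≠ 0 → a = 0 := by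
    intro h
    have h3 : rootMultiplicity 1 f = 0 := rootMultiplicity_eq_zero h
    omega
  have hev2 : eval (-1) f ≠ 0 → b = 0 := by
    intro h
    have h3 : rootMultiplicity (-1) f = 0 := rootMultiplicity_eq_zero h
    omega
  have hev3 : eval 1 f = 0 → 0 < a := by
    intro h
    have h3 := (rootMultiplicity_pos hm.ne_zero).2 h
    omega
  have hkS : k ∈ SDp F m := ⟨hkm, hk1, hkd, by omega⟩
  obtain ⟨A, J, hJ, hA, hsq⟩ := exists_core h2 hε hkS hr1 hr2
  refine ⟨a, b, m, k, hkS, by omega, hk, hev1, hev3, hev2, J.det, hJ.2.1.ne_zero, ?_, ?_⟩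
  · intro hε1 h3 h4
    have h5 : f = k := by
      rw [hk, hev1 h3, hev2 h4]; simp
    rw [h5]
    exact hsq hε1
  · intro J₁ J₂ hJ1 hJ1' hJ2 hJ2'
    have i1 : InvForm ε (1 : GL (Fin a ⊕ Fin a) F) J₁ := invForm_one hJ1 hJ1'
    have i2 : InvForm ε (-1 : GL (Fin b ⊕ Fin b) F) J₂ := (invForm_one hJ2 hJ2').neg
    have i3 := InvForm.bs (Equiv.refl _) i1 (InvForm.bs (Equiv.refl _) i2 hJ)
    have hcard : Fintype.card ((Fin a ⊕ Fin a) ⊕ ((Fin b ⊕ Fin b) ⊕ Fin k.natDegree)) = Fintype.card (Fin (2 * n)) := by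
      simp only [Fintype.card_sum, Fintype.card_fin]
      omega
    obtain ⟨A', hA', hA'c⟩ := i3.reindex' (Fintype.equivOfCardEq hcard)
    refine ⟨A', _, hA', ?_, ?_⟩
    · rw [hA'c, bsGL_coe, bsGL_coe, bs_charpoly, bs_charpoly, hA, Units.val_one, one_charpoly, Units.val_neg, Units.val_one, neg_one_charpoly]
      conv_rhs => rw [hk]
      simp only [Fintype.card_sum, Fintype.card_fin]
      rw [← two_mul, ← two_mul]
    · rw [Matrix.det_submatrix_equiv_self, bs_det, bs_det]; ring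

end

end Cfsg.Agent.H43
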