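import Mathlib
import Cfsg.Agent.H43.DagSU

set_option autoImplicit false
set_option linter.unusedSectionVars false
set_option linter.unusedVariables false

/-! Lower bound for the number of classes of `SU_n(q)`. -/

namespace Cfsg.Agent.H43

open Polynomial

section
variable {K : Type*} [Field K]

theorem exists_factors (f : K[X]) (hf : f.Monic) (h0 : f.coeff 0 ≠ 0) :
    ∃ (t : ℕ) (p : Fin t → K[X]), (∀ i, ClN (p i)) ∧ ∏ i, p i = f := by
  classical
  obtain ⟨l, hl⟩ : ∃ l : List K[X], l = (UniqueFactorizationMonoid.normalizedFactors f).toList := ⟨_, rfl⟩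
  have hprod : l.prod = f := by
    rw [hl, ← Multiset.prod_coe, Multiset.coe_toList, UniqueFactorizationMonoid.prod_normalizedFactors_eq hf.ne_zero, hf.normalize_eq_self]
  have hmem : ∀ x ∈ l, x.Monic ∧ Irreducible x := by
    intro x hx
    rw [hl, Multiset.mem_toList] at hx
    refine ⟨?_, UniqueFactorizationMonoid.irreducible_of_normalized_factor x hx⟩
    have h1 := UniqueFactorizationMonoid.normalize_normalized_factor x hx
    rw [← h1]
    exact monic_normalize (UniqueFactorizationMonoid.irreducible_of_normalized_factor x hx).ne_zero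
  have hdvd : ∀ x ∈ l, x ∣ f := fun x hx => hprod ▸ List.dvd_prod hx
  refine ⟨l.length, fun i => l.get i, fun i => ?_, ?_⟩
  · have h1 := hmem _ (l.get_mem i)
    refine ⟨h1.1, h1.2, ?_⟩
    intro h2
    apply h0
    obtain ⟨c, hc⟩ := hdvd _ (l.get_mem i)
    rw [hc, mul_coeff_zero, h2, zero_mul]
  · rw [← List.prod_ofFn, List.ofFn_get, hprod]

/-- permutation of the irreducible factors of a self-dual polynomial -/
theorem exists_perm_factors (σ : K →+* K) (hσ : ∀ x, σ (σ x) = x) {t : ℕ} {p : Fin t → K[X]} (hp : ∀ i, ClN (p i)) (h : dag σ (∏ i, p i) = ∏ i, p i) :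
    ∃ s : Fin t ≃ Fin t, ∀ i, p (s i) = dag σ (p i) := by
  classical
  rw [dag_prod] at h
  exact exists_equiv_of_fiber (fun i => dag σ (p i)) p (fun P =>
    prod_monic_injective Finset.univ Finset.univ (fun i => dag σ (p i)) p (fun i _ => ⟨(ClN_dag σ hσ _ (hp i)).1.1, (ClN_dag σ hσ _ (hp i)).1.2.1⟩)
      (fun i _ => ⟨(hp i).1, (hp i).2.1⟩) h P)

/-- semisimple unitary matrices -/
theorem exists_semisimple_unitary [Finite K] (σ : K →+* K) (hσ : ∀ x, σ (σ x) = x) (hne : σ ≠ RingHom.id K) (n : ℕ) (f : K[X]) (hf : f.Monic) (h0 : f.coeff 0 ≠ 0)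
    (hd : dag σ f = f) (hn : f.natDegree = n) :
    ∃ (B : GL (Fin n) K) (t : ℕ) (p : Fin t → K[X]) (φ : (Fin n → K) ≃ₗ[K] ((i : Fin t) → K[X] ⧸ Ideal.span {p i ^ 1})),
      (∀ i, ClN (p i)) ∧ ∏ i, p i = f ∧ SB (Matrix.toLin' (B : Matrix (Fin n) (Fin n) K)) (fun i => p i ^ 1) φ ∧
      stm σ (B : Matrix (Fin n) (Fin n) K) * (B : Matrix (Fin n) (Fin n) K) = 1 ∧ (B : Matrix (Fin n) (Fin n) K).det = (-1) ^ n * f.coeff 0 := by
  obtain ⟨t, p, hp, hpf⟩ := exists_factors f hf h0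
  obtain ⟨s, hs⟩ := exists_perm_factors σ hσ hp (by rw [hpf]; exact hd)
  obtain ⟨B, φ, hB, hSB⟩ := exists_unitary_of_perm σ hσ hne (p := p) (e := fun _ => 1) (fun i => ⟨hp i, le_rfl⟩) s (fun i => ⟨hs i, rfl⟩) n (by
    simp only [one_mul]
    rw [← hn, ← hpf, natDegree_prod_of_monic _ _ (fun i _ => (hp i).1)])
  refine ⟨B, t, p, φ, hp, hpf, hSB, hB, ?_⟩
  have h1 := hSB.det (fun i => (hp i).1)
  rw [← LinearMap.det_toLin', h1]
  simp only [pow_one]
  rw [← dQ_prod _ _ _ (fun i => (hp i).1), hpf, dQ_X f hf, hn]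

theorem factors_unique {n : ℕ} {B B' : GL (Fin n) K} (hB : IsConj B B') {t t' : ℕ} {p : Fin t → K[X]} {p' : Fin t' → K[X]}
    {φ : (Fin n → K) ≃ₗ[K] ((i : Fin t) → K[X] ⧸ Ideal.span {p i ^ 1})} {φ' : (Fin n → K) ≃ₗ[K] ((i : Fin t') → K[X] ⧸ Ideal.span {p' i ^ 1})}
    (hp : ∀ i, ClN (p i)) (hp' : ∀ i, ClN (p' i)) (h : SB (Matrix.toLin' (B : Matrix (Fin n) (Fin n) K)) (fun i => p i ^ 1) φ)
    (h' : SB (Matrix.toLin' (B' : Matrix (Fin n) (Fin n) K)) (fun i => p' i ^ 1) φ') : ∏ i, p i = ∏ i, p' i := by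
  obtain ⟨κ, hκ⟩ := conj_toLin' hB
  obtain ⟨s, hs⟩ := prim_unique (e := fun _ => 1) (e' := fun _ => 1) κ hκ (fun i => ⟨(hp i).1, (hp i).2.1, le_rfl⟩) h (fun i => ⟨(hp' i).1, (hp' i).2.1, le_rfl⟩) h'
  apply Fintype.prod_equiv s
  intro i
  rw [(hs i).1]

end

section
variable {K : Type*} [Field K] [Fintype K] {q : ℕ} (hK : Fintype.card K = q ^ 2)

include hK in
theorem card_conjClasses_SU_ge (n : ℕ) (hn : 1 ≤ n) : q ^ (n - 1) ≤ Nat.card (ConjClasses (Cfsg.SU n K q)) := by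
  classical
  obtain ⟨σ, hσd⟩ : ∃ σ, σ = Cfsg.Agent.ClGeo.frob hK := ⟨_, rfl⟩
  have hσ : ∀ x, σ (σ x) = x := by rw [hσd]; exact Cfsg.Agent.ClGeo.frob_frob hK
  have hne : σ ≠ RingHom.id K := by rw [hσd]; exact Cfsg.Agent.ClGeo.frob_ne_id hK
  obtain ⟨m, rfl⟩ : ∃ m, n = m + 1 := ⟨n - 1, by omega⟩
  rw [Nat.add_sub_cancel]
  obtain ⟨c, hc⟩ : ∃ c : K, c = (-1) ^ (m + 1) := ⟨_, rfl⟩
  have hcc : c * σ c = 1 := by
    rw [hc, map_pow, map_neg, map_one, ← mul_pow]; simp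
  have hc0 : c ≠ 0 := left_ne_zero_of_mul_eq_one hcc
  rw [← card_middle σ hσ hne (q := q) (by rw [Nat.card_eq_fintype_card, hK]) m c hcc]
  let f : {v : Fin m → K // ∀ i, v i = c * σ (v i.rev)} → K[X] := fun v => polV (Fin.cons c v.1 : Fin (m + 1) → K)
  have hf : Function.Injective f := by
    intro x y h
    have h1 := polV_injective h
    apply Subtype.ext
    funext i
    simpa using congrFun h1 i.succ
  have hdeg : ∀ v, (f v).natDegree = m + 1 := fun v => polV_natDegree _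
  have hmon : ∀ v, (f v).Monic := fun v => polV_monic _
  have h0 : ∀ x, (f x).coeff 0 = c := by
    intro x
    have h1 := polV_coeff (Fin.cons c x.1 : Fin (m + 1) → K) 0
    exact h1
  have h1 : ∀ x (i : Fin m), (f x).coeff (i + 1) = x.1 i := by
    intro x i
    have h1 := polV_coeff (Fin.cons c x.1 : Fin (m + 1) → K) i.succ
    exact h1
  have hself : ∀ x, dag σ (f x) = f x := by
    intro x
    apply dag_eq_self σ (hmon x)
    · rw [h0, hcc]
    · intro i hi1 hi2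
      rw [hdeg] at hi2 ⊢
      obtain ⟨j, rfl⟩ : ∃ j, i = j + 1 := ⟨i - 1, by omega⟩
      have e1 := h1 x ⟨j, by omega⟩
      have e2 := h1 x (Fin.rev ⟨j, by omega⟩)
      rw [Fin.val_rev] at e2
      simp only at e1 e2
      have e3 : m + 1 - (j + 1) = m - (j + 1) + 1 := by omega
      rw [h0, e1, e3, e2]
      exact x.2 _
  have hex := fun x => exists_semisimple_unitary σ hσ hne (m + 1) (f x) (hmon x) (by rw [h0]; exact hc0) (hself x) (hdeg x)
  choose B t p φ hp hpf hSB hB hdet using hex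
  have hdet1 : ∀ x, (B x : Matrix (Fin (m + 1)) (Fin (m + 1)) K).det = 1 := by
    intro x
    rw [hdet, h0, hc, ← mul_pow]; simp
  let s : {v : Fin m → K // ∀ i, v i = c * σ (v i.rev)} → Cfsg.SU (m + 1) K q := fun x =>
    ⟨⟨(B x : Matrix (Fin (m + 1)) (Fin (m + 1)) K), hdet1 x⟩, by
      have h2 := hB x
      rw [hσd] at h2
      exact (mem_GU_iff hK (B x)).2 h2⟩
  have hs : ∀ x, (suGU (m + 1) K q (s x) : GL (Fin (m + 1)) K) = B x := fun x => Units.ext rfl
  apply Nat.card_le_card_of_injective (fun x => ConjClasses.mk (s x))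
  intro x y hxy
  have h2 : IsConj (s x) (s y) := ConjClasses.mk_eq_mk_iff_isConj.1 hxy
  have h3 : IsConj (B x) (B y) := by
    rw [← hs x, ← hs y]
    exact MonoidHom.map_isConj (((Cfsg.GU (m + 1) K q).subtype).comp (suGU (m + 1) K q)) h2
  apply hf
  rw [← hpf x, ← hpf y]
  exact factors_unique h3 (hp x) (hp y) (hSB x) (hSB y)

end

end Cfsg.Agent.H43
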