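import Mathlib

set_option autoImplicit false
set_option linter.unusedSectionVars false
set_option linter.unusedVariables false

/-! Numerical estimates for the masses of isometry groups. -/

namespace Cfsg.Agent.H43

/-- symplectic masses -/
noncomputable def mS (r : ℝ) (i : ℕ) : ℝ := if Even i then (1 + r ^ (i + 2)) ^ 4 / (1 - r ^ (2 * (i + 1))) else 1 / (1 - r ^ (2 * (i + 1)))

/-- orthogonal masses -/
noncomputable def mO (r : ℝ) (i : ℕ) : ℝ := if Even i then 1 / (1 - r ^ (2 * (i + 1))) else (1 + r ^ (i + 2)) ^ 4 / (1 - r ^ (2 * (i + 1)))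

/-- masses without roots -/
noncomputable def mN (r : ℝ) (i : ℕ) : ℝ := 1 / (1 - r ^ (2 * (i + 1)))

theorem pow_le_third {r : ℝ} (hr : 0 < r) (hr3 : r ^ 2 ≤ 1 / 3) (k : ℕ) : r ^ (2 * k) ≤ (1 / 3) ^ k := by
  rw [pow_mul]
  exact pow_le_pow_left₀ (by positivity) hr3 k

theorem third_le (k m : ℕ) (h : m ≤ k) : ((1 : ℝ) / 3) ^ k ≤ (1 / 3) ^ m := pow_le_pow_of_le_one (by norm_num) (by norm_num) h

theorem one_sub_pos {r : ℝ} (hr : 0 < r) (hr3 : r ^ 2 ≤ 1 / 3) (k : ℕ) : 0 < 1 - r ^ (2 * (k + 1)) := by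
  have h1 := pow_le_third hr hr3 (k + 1)
  have h2 := third_le (k + 1) 1 (by omega)
  rw [pow_one] at h2
  linarith

theorem one_le_inv {r : ℝ} (hr : 0 < r) (hr3 : r ^ 2 ≤ 1 / 3) (k : ℕ) : 1 ≤ 1 / (1 - r ^ (2 * (k + 1))) := by
  rw [le_div_iff₀ (one_sub_pos hr hr3 k)]
  have : 0 < r ^ (2 * (k + 1)) := by positivity
  linarith

theorem one_le_orth {r : ℝ} (hr : 0 < r) (hr3 : r ^ 2 ≤ 1 / 3) (k j : ℕ) : 1 ≤ (1 + r ^ j) ^ 4 / (1 - r ^ (2 * (k + 1))) := by
  rw [le_div_iff₀ (one_sub_pos hr hr3 k)]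
  have h1 : 0 < r ^ (2 * (k + 1)) := by positivity
  have h2 : 0 < r ^ j := by positivity
  have h3 : 1 ≤ (1 + r ^ j) ^ 4 := one_le_pow₀ (by linarith)
  linarith

theorem one_le_mS {r : ℝ} (hr : 0 < r) (hr3 : r ^ 2 ≤ 1 / 3) (i : ℕ) : 1 ≤ mS r i := by
  unfold mS
  split_ifs
  · exact one_le_orth hr hr3 i _
  · exact one_le_inv hr hr3 i

theorem one_le_mO {r : ℝ} (hr : 0 < r) (hr3 : r ^ 2 ≤ 1 / 3) (i : ℕ) : 1 ≤ mO r i := by
  unfold mO
  split_ifs
  · exact one_le_inv hr hr3 i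
  · exact one_le_orth hr hr3 i _

theorem prod_mN {r : ℝ} (hr : 0 < r) (hr3 : r ^ 2 ≤ 1 / 3) (K : ℕ) : ∏ i ∈ Finset.range K, mN r i ≤ 2 * (1 - (1 / 3) ^ K / 2) := by
  induction K with
  | zero => norm_num
  | succ K ih =>
    rw [Finset.prod_range_succ]
    obtain ⟨x, hx⟩ : ∃ x : ℝ, x = (1 / 3) ^ (K + 1) := ⟨_, rfl⟩
    have hx3 : ((1 : ℝ) / 3) ^ K = 3 * x := by rw [hx, pow_succ]; ring
    have hx0 : 0 < x := by rw [hx]; positivity
    have hx1 : x ≤ 1 / 3 := by
      rw [hx]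
      have := third_le (K + 1) 1 (by omega)
      rwa [pow_one] at this
    rw [hx3] at ih
    rw [← hx]
    have h1 : mN r K ≤ 1 / (1 - x) := by
      unfold mN
      apply one_div_le_one_div_of_le (by linarith)
      have := pow_le_third hr hr3 (K + 1)
      rw [← hx] at this
      linarith
    have h2 : 0 ≤ mN r K := by
      have := one_le_inv hr hr3 K
      unfold mN
      linarith
    calc (∏ i ∈ Finset.range K, mN r i) * mN r K ≤ (2 * (1 - 3 * x / 2)) * (1 / (1 - x)) := by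
          apply mul_le_mul ih h1 h2
          nlinarith
      _ ≤ 2 * (1 - x / 2) := by
          rw [mul_one_div, div_le_iff₀ (by linarith)]
          nlinarith

/-- pairs of factors, symplectic case -/
theorem pair_mS {r : ℝ} (hr : 0 < r) (hr3 : r ^ 2 ≤ 1 / 3) (n : ℕ) :
    mS r (2 * n) * mS r (2 * n + 1) ≤ (1 + (1 / 3) ^ (n + 1)) ^ 4 / ((1 - 3 * ((1 / 3) ^ (n + 1)) ^ 2) * (1 - ((1 / 3) ^ (n + 1)) ^ 2)) := by
  obtain ⟨x, hx⟩ : ∃ x : ℝ, x = (1 / 3) ^ (n + 1) := ⟨_, rfl⟩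
  have hx0 : 0 < x := by rw [hx]; positivity
  have hx1 : x ≤ 1 / 3 := by
    rw [hx]
    have := third_le (n + 1) 1 (by omega)
    rwa [pow_one] at this
  rw [← hx]
  have e1 : mS r (2 * n) = (1 + r ^ (2 * n + 2)) ^ 4 / (1 - r ^ (2 * (2 * n + 1))) := by
    unfold mS; rw [if_pos (even_two_mul n)]
  have e2 : mS r (2 * n + 1) = 1 / (1 - r ^ (2 * (2 * n + 1 + 1))) := by
    unfold mS; rw [if_neg (by rw [Nat.not_even_iff_odd]; exact odd_two_mul_add_one n)]
  rw [e1, e2, div_mul_div_comm, mul_one]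
  have h1 : r ^ (2 * n + 2) ≤ x := by
    have := pow_le_third hr hr3 (n + 1)
    rw [← hx] at this
    exact this
  have h2 : r ^ (2 * (2 * n + 1)) ≤ 3 * x ^ 2 := by
    have := pow_le_third hr hr3 (2 * n + 1)
    refine this.trans (le_of_eq ?_)
    rw [hx, ← pow_mul]
    have : (n + 1) * 2 = 2 * n + 1 + 1 := by ring
    rw [this, pow_succ _ (2 * n + 1)]; ring
  have h3 : r ^ (2 * (2 * n + 1 + 1)) ≤ x ^ 2 := by
    have := pow_le_third hr hr3 (2 * n + 1 + 1)
    refine this.trans (le_of_eq ?_)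
    rw [hx, ← pow_mul]
    congr 1; ring
  have hp : 0 < r ^ (2 * n + 2) := by positivity
  have hx2 : x ^ 2 ≤ 1 / 9 := by nlinarith
  apply div_le_div₀
  · positivity
  · exact pow_le_pow_left₀ (by linarith) (by linarith) 4
  · exact mul_pos (by linarith) (by linarith)
  · apply mul_le_mul (by linarith) (by linarith) (by linarith)
    have := one_sub_pos hr hr3 (2 * n)
    exact this.le

theorem pair_mO {r : ℝ} (hr : 0 < r) (hr3 : r ^ 2 ≤ 1 / 3) (n : ℕ) :
    mO r (2 * n) * mO r (2 * n + 1) ≤ (1 + 578 / 1000 * (1 / 3) ^ (n + 1)) ^ 4 / ((1 - 3 * ((1 / 3) ^ (n + 1)) ^ 2) * (1 - ((1 / 3) ^ (n + 1)) ^ 2)) := by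
  obtain ⟨x, hx⟩ : ∃ x : ℝ, x = (1 / 3) ^ (n + 1) := ⟨_, rfl⟩
  have hx0 : 0 < x := by rw [hx]; positivity
  have hx1 : x ≤ 1 / 3 := by
    rw [hx]
    have := third_le (n + 1) 1 (by omega)
    rwa [pow_one] at this
  rw [← hx]
  have e1 : mO r (2 * n) = 1 / (1 - r ^ (2 * (2 * n + 1))) := by
    unfold mO; rw [if_pos (even_two_mul n)]
  have e2 : mO r (2 * n + 1) = (1 + r ^ (2 * n + 1 + 2)) ^ 4 / (1 - r ^ (2 * (2 * n + 1 + 1))) := by
    unfold mO; rw [if_neg (by rw [Nat.not_even_iff_odd]; exact odd_two_mul_add_one n)]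
  rw [e1, e2, div_mul_div_comm, one_mul]
  have hr1 : r ≤ 578 / 1000 := by nlinarith
  have h1 : r ^ (2 * n + 1 + 2) ≤ 578 / 1000 * x := by
    have := pow_le_third hr hr3 (n + 1)
    rw [← hx] at this
    have e3 : r ^ (2 * n + 1 + 2) = r * r ^ (2 * (n + 1)) := by
      rw [← pow_succ']; congr 1
    rw [e3]
    exact mul_le_mul hr1 this (by positivity) (by norm_num)
  have h2 : r ^ (2 * (2 * n + 1)) ≤ 3 * x ^ 2 := by
    have := pow_le_third hr hr3 (2 * n + 1)
    refine this.trans (le_of_eq ?_)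
    rw [hx, ← pow_mul]
    have : (n + 1) * 2 = 2 * n + 1 + 1 := by ring
    rw [this, pow_succ _ (2 * n + 1)]; ring
  have h3 : r ^ (2 * (2 * n + 1 + 1)) ≤ x ^ 2 := by
    have := pow_le_third hr hr3 (2 * n + 1 + 1)
    refine this.trans (le_of_eq ?_)
    rw [hx, ← pow_mul]
    congr 1; ring
  have hp : 0 < r ^ (2 * n + 1 + 2) := by positivity
  have hx2 : x ^ 2 ≤ 1 / 9 := by nlinarith
  apply div_le_div₀
  · positivity
  · exact pow_le_pow_left₀ (by linarith) (by linarith) 4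
  · exact mul_pos (by linarith) (by linarith)
  · apply mul_le_mul (by linarith) (by linarith) (by linarith)
    have := one_sub_pos hr hr3 (2 * n)
    exact this.le

theorem prod_mS {r : ℝ} (hr : 0 < r) (hr3 : r ^ 2 ≤ 1 / 3) (n : ℕ) : ∏ i ∈ Finset.range (2 * n), mS r i ≤ 54 / 5 := by
  have hnn : ∀ K, 0 ≤ ∏ i ∈ Finset.range K, mS r i := fun K => Finset.prod_nonneg fun i _ => by linarith [one_le_mS hr hr3 i]
  have hstep : ∀ n, ∏ i ∈ Finset.range (2 * (n + 1)), mS r i ≤ (∏ i ∈ Finset.range (2 * n), mS r i) *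
      ((1 + (1 / 3) ^ (n + 1)) ^ 4 / ((1 - 3 * ((1 / 3) ^ (n + 1)) ^ 2) * (1 - ((1 / 3) ^ (n + 1)) ^ 2))) := by
    intro n
    have : 2 * (n + 1) = 2 * n + 1 + 1 := by ring
    rw [this, Finset.prod_range_succ, Finset.prod_range_succ, mul_assoc]
    exact mul_le_mul_of_nonneg_left (pair_mS hr hr3 n) (hnn _)
  have h1 := hstep 0
  have h2 := hstep 1
  have h3 := hstep 2
  norm_num at h1 h2 h3
  have hpos : ∀ K, 0 < ∏ i ∈ Finset.range K, mS r i := fun K => Finset.prod_pos fun i _ => by linarith [one_le_mS hr hr3 i]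
  have key : ∀ n, 3 ≤ n → ∏ i ∈ Finset.range (2 * n), mS r i ≤ 54 / 5 * (1 - 2 * (1 / 3) ^ n) := by
    intro n hn
    induction n, hn using Nat.le_induction with
    | base => norm_num; linarith
    | succ n hn ih =>
      refine (hstep n).trans ?_
      obtain ⟨x, hx⟩ : ∃ x : ℝ, x = (1 / 3) ^ (n + 1) := ⟨_, rfl⟩
      have hx3 : ((1 : ℝ) / 3) ^ n = 3 * x := by rw [hx, pow_succ]; ring
      have hx0 : 0 < x := by rw [hx]; positivity
      have hx1 : x ≤ 1 / 81 := by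
        rw [hx]
        have := third_le (n + 1) 4 (by omega)
        norm_num at this ⊢
        exact this
      rw [hx3] at ih
      rw [← hx]
      have hd : 0 < (1 - 3 * x ^ 2) * (1 - x ^ 2) := mul_pos (by nlinarith) (by nlinarith)
      calc (∏ i ∈ Finset.range (2 * n), mS r i) * ((1 + x) ^ 4 / ((1 - 3 * x ^ 2) * (1 - x ^ 2)))
          ≤ (54 / 5 * (1 - 2 * (3 * x))) * ((1 + x) ^ 4 / ((1 - 3 * x ^ 2) * (1 - x ^ 2))) := mul_le_mul_of_nonneg_right ih (by positivity)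
        _ ≤ 54 / 5 * (1 - 2 * x) := by
            rw [mul_assoc]
            apply mul_le_mul_of_nonneg_left _ (by norm_num)
            rw [← mul_div_assoc, div_le_iff₀ hd]
            have : 0 ≤ 14 * x ^ 2 + 40 * x ^ 3 + 26 * x ^ 4 := by positivity
            nlinarith [this]
  rcases Nat.lt_or_ge n 3 with h | h
  · interval_cases n
    · norm_num
    · linarith
    · linarith
  · refine (key n h).trans ?_
    have : (0 : ℝ) < (1 / 3) ^ n := by positivity
    nlinarith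

theorem prod_mO {r : ℝ} (hr : 0 < r) (hr3 : r ^ 2 ≤ 1 / 3) (n : ℕ) : ∏ i ∈ Finset.range (2 * n), mO r i ≤ 535 / 100 := by
  have hnn : ∀ K, 0 ≤ ∏ i ∈ Finset.range K, mO r i := fun K => Finset.prod_nonneg fun i _ => by linarith [one_le_mO hr hr3 i]
  have hstep : ∀ n, ∏ i ∈ Finset.range (2 * (n + 1)), mO r i ≤ (∏ i ∈ Finset.range (2 * n), mO r i) *
      ((1 + 578 / 1000 * (1 / 3) ^ (n + 1)) ^ 4 / ((1 - 3 * ((1 / 3) ^ (n + 1)) ^ 2) * (1 - ((1 / 3) ^ (n + 1)) ^ 2))) := by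
    intro n
    have : 2 * (n + 1) = 2 * n + 1 + 1 := by ring
    rw [this, Finset.prod_range_succ, Finset.prod_range_succ, mul_assoc]
    exact mul_le_mul_of_nonneg_left (pair_mO hr hr3 n) (hnn _)
  have h1 := hstep 0
  have h2 := hstep 1
  norm_num at h1 h2
  have hpos : ∀ K, 0 < ∏ i ∈ Finset.range K, mO r i := fun K => Finset.prod_pos fun i _ => by linarith [one_le_mO hr hr3 i]
  have key : ∀ n, 2 ≤ n → ∏ i ∈ Finset.range (2 * n), mO r i ≤ 535 / 100 * (1 - 12 / 10 * (1 / 3) ^ n) := by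
    intro n hn
    induction n, hn using Nat.le_induction with
    | base => norm_num; linarith
    | succ n hn ih =>
      refine (hstep n).trans ?_
      obtain ⟨x, hx⟩ : ∃ x : ℝ, x = (1 / 3) ^ (n + 1) := ⟨_, rfl⟩
      have hx3 : ((1 : ℝ) / 3) ^ n = 3 * x := by rw [hx, pow_succ]; ring
      have hx0 : 0 < x := by rw [hx]; positivity
      have hx1 : x ≤ 1 / 27 := by
        rw [hx]
        have := third_le (n + 1) 3 (by omega)
        norm_num at this ⊢
        exact this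
      rw [hx3] at ih
      rw [← hx]
      have hd : 0 < (1 - 3 * x ^ 2) * (1 - x ^ 2) := mul_pos (by nlinarith) (by nlinarith)
      calc (∏ i ∈ Finset.range (2 * n), mO r i) * ((1 + 578 / 1000 * x) ^ 4 / ((1 - 3 * x ^ 2) * (1 - x ^ 2)))
          ≤ (535 / 100 * (1 - 12 / 10 * (3 * x))) * ((1 + 578 / 1000 * x) ^ 4 / ((1 - 3 * x ^ 2) * (1 - x ^ 2))) := mul_le_mul_of_nonneg_right ih (by positivity)
        _ ≤ 535 / 100 * (1 - 12 / 10 * x) := by
            rw [mul_assoc]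
            apply mul_le_mul_of_nonneg_left _ (by norm_num)
            rw [← mul_div_assoc, div_le_iff₀ hd]
            have h3 : 0 ≤ x ^ 2 := by positivity
            have h4 : 0 ≤ x ^ 3 := by positivity
            have h5 : 0 ≤ x ^ 4 := by positivity
            have h6 : x ^ 5 ≤ x ^ 4 := by
              have : x ^ 5 = x ^ 4 * x := by ring
              rw [this]; nlinarith
            have h7 : 0 ≤ x ^ 5 := by positivity
            nlinarith [h3, h4, h5, h6, h7]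
  rcases Nat.lt_or_ge n 2 with h | h
  · interval_cases n
    · norm_num
    · linarith
  · refine (key n h).trans ?_
    have : (0 : ℝ) < (1 / 3) ^ n := by positivity
    nlinarith

end Cfsg.Agent.H43
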