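import Mathlib
import Cfsg.Agent.H43.LabCount

set_option autoImplicit false
set_option linter.unusedSectionVars false
set_option linter.unusedVariables false

/-! Bounds for the number of label sequences. -/

namespace Cfsg.Agent.H43

section
universe u
variable {Λ : Type u} (deg : Λ → ℕ)

theorem geom_bound (x : ℝ) (h0 : 0 ≤ x) (h1 : x < 1) (D : ℕ) : ∑ d ∈ Finset.range D, x ^ (d + 1) ≤ x / (1 - x) := by
  rw [le_div_iff₀ (by linarith)]
  induction D with
  | zero => simpa using h0
  | succ D ih =>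
    rw [Finset.sum_range_succ, add_mul]
    have h2 : ∀ D : ℕ, (∑ d ∈ Finset.range D, x ^ (d + 1)) * (1 - x) = x - x ^ (D + 1) := by
      intro D
      induction D with
      | zero => simp
      | succ D ih2 => rw [Finset.sum_range_succ, add_mul, ih2]; ring
    rw [h2]
    have h3 : 0 ≤ x ^ (D + 2) := pow_nonneg h0 _
    have h4 : x ^ (D + 1) * (1 - x) = x ^ (D + 1) - x ^ (D + 2) := by ring
    rw [h4]; linarith

/-- the last coordinate -/
theorem card_LabT_succ (c : ℕ → ℕ) (hc : ∀ d, Finite {x // deg x = d} ∧ Nat.card {x // deg x = d} ≤ c d) (K n : ℕ)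
    (hfin : ∀ m, Finite (LabT deg K m)) :
    Finite (LabT deg (K + 1) n) ∧ Nat.card (LabT deg (K + 1) n) ≤ ∑ d ∈ Finset.range (n / (K + 1) + 1), c d * Nat.card (LabT deg K (n - (K + 1) * d)) := by
  have key : ∀ g : LabT deg (K + 1) n, (K + 1) * deg (g.1 (Fin.last K)) ≤ n ∧
      ∑ i : Fin K, ((i : ℕ) + 1) * deg (g.1 i.castSucc) = n - (K + 1) * deg (g.1 (Fin.last K)) := by
    intro g
    have h1 := g.2
    rw [Fin.sum_univ_castSucc] at h1
    simp only [Fin.val_castSucc, Fin.val_last] at h1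
    constructor <;> omega
  let f : LabT deg (K + 1) n → (d : Fin (n / (K + 1) + 1)) × ({x // deg x = (d : ℕ)} × LabT deg K (n - (K + 1) * d)) :=
    fun g => ⟨⟨deg (g.1 (Fin.last K)), Nat.lt_succ_of_le ((Nat.le_div_iff_mul_le (by omega)).2 (by rw [mul_comm]; exact (key g).1))⟩,
      ⟨g.1 (Fin.last K), rfl⟩, ⟨fun i => g.1 i.castSucc, (key g).2⟩⟩
  have hf : Function.Injective f := by
    intro a b hab
    have h1 : a.1 (Fin.last K) = b.1 (Fin.last K) :=
      congrArg (fun x : (d : Fin (n / (K + 1) + 1)) × ({x // deg x = (d : ℕ)} × LabT deg K (n - (K + 1) * d)) => x.2.1.1) hab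
    have h2 : (fun i : Fin K => a.1 i.castSucc) = fun i : Fin K => b.1 i.castSucc :=
      congrArg (fun x : (d : Fin (n / (K + 1) + 1)) × ({x // deg x = (d : ℕ)} × LabT deg K (n - (K + 1) * d)) => x.2.2.1) hab
    apply Subtype.ext
    funext i
    refine Fin.lastCases h1 (fun j => congrFun h2 j) i
  have hfin' : ∀ (d : Fin (n / (K + 1) + 1)), Finite ({x // deg x = (d : ℕ)} × LabT deg K (n - (K + 1) * d)) := by
    intro d
    have := (hc d).1
    have := hfin (n - (K + 1) * d)
    infer_instance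
  refine ⟨Finite.of_injective f hf, ?_⟩
  refine (Nat.card_le_card_of_injective f hf).trans ?_
  rw [Nat.card_sigma, Finset.sum_range]
  apply Finset.sum_le_sum
  intro d _
  rw [Nat.card_prod]
  exact Nat.mul_le_mul_right _ (hc d).2

/-- truncation -/
theorem card_LabT_trunc (hfin0 : Finite {x // deg x = 0}) (hc0 : Nat.card {x // deg x = 0} ≤ 1) (K n : ℕ) (hn : n ≤ K) (hfin : Finite (LabT deg K n)) :
    Nat.card (LabT deg (K + 1) n) ≤ Nat.card (LabT deg K n) := by
  have hsub : Subsingleton {x // deg x = 0} := Finite.card_le_one_iff_subsingleton.1 hc0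
  have key : ∀ g : LabT deg (K + 1) n, deg (g.1 (Fin.last K)) = 0 ∧
      ∑ i : Fin K, ((i : ℕ) + 1) * deg (g.1 i.castSucc) = n := by
    intro g
    have h1 := g.2
    rw [Fin.sum_univ_castSucc] at h1
    simp only [Fin.val_castSucc, Fin.val_last] at h1
    have h2 : deg (g.1 (Fin.last K)) = 0 := by
      by_contra h3
      have h4 : (K + 1) * 1 ≤ (K + 1) * deg (g.1 (Fin.last K)) := Nat.mul_le_mul_left _ (Nat.pos_of_ne_zero h3)
      omega
    rw [h2, mul_zero, add_zero] at h1
    exact ⟨h2, h1⟩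
  let f : LabT deg (K + 1) n → LabT deg K n := fun g => ⟨fun i => g.1 i.castSucc, (key g).2⟩
  apply Nat.card_le_card_of_injective f
  intro a b hab
  have h2 : (fun i : Fin K => a.1 i.castSucc) = fun i : Fin K => b.1 i.castSucc := congrArg Subtype.val hab
  have h1 : a.1 (Fin.last K) = b.1 (Fin.last K) :=
    congrArg Subtype.val (Subsingleton.elim (⟨_, (key a).1⟩ : {x // deg x = 0}) ⟨_, (key b).1⟩)
  apply Subtype.ext
  funext i
  refine Fin.lastCases h1 (fun j => congrFun h2 j) i

/-- mass bound -/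
theorem card_LabT_mass (q : ℕ) (hq : 2 ≤ q) (h0 : Finite {x // deg x = 0} ∧ Nat.card {x // deg x = 0} ≤ 1)
    (hc : ∀ d, Finite {x // deg x = d + 1} ∧ Nat.card {x // deg x = d + 1} ≤ (q + 1) * q ^ d) (M : ℕ → ℝ)
    (hM0 : 1 ≤ M 0) (hM1 : 1 + 1 / (q : ℝ) ≤ M 1)
    (hM : ∀ K, 1 ≤ K → M K * (1 + (1 + 1 / (q : ℝ)) * ((1 / (q : ℝ) ^ K) / (1 - 1 / (q : ℝ) ^ K))) ≤ M (K + 1)) (hpos : ∀ K, 0 ≤ M K) (K : ℕ) :
    ∀ n, Finite (LabT deg K n) ∧ (Nat.card (LabT deg K n) : ℝ) ≤ M K * (q : ℝ) ^ n := by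
  have hq0 : (0 : ℝ) < q := by exact_mod_cast (by omega : 0 < q)
  have hcc : ∀ d, Finite {x // deg x = d} ∧ Nat.card {x // deg x = d} ≤ (fun d => if d = 0 then 1 else (q + 1) * q ^ (d - 1)) d := by
    intro d
    rcases d with _ | d
    · simpa using h0
    · simpa using hc d
  induction K with
  | zero =>
    intro n
    have hsub : Subsingleton (LabT deg 0 n) := ⟨fun a b => Subtype.ext (Subsingleton.elim _ _)⟩
    refine ⟨inferInstance, ?_⟩
    have h1 : Nat.card (LabT deg 0 n) ≤ 1 := Finite.card_le_one_iff_subsingleton.2 hsub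
    have h2 : (Nat.card (LabT deg 0 n) : ℝ) ≤ 1 := by exact_mod_cast h1
    have h3 : (1 : ℝ) ≤ (q : ℝ) ^ n := one_le_pow₀ (by exact_mod_cast (by omega : 1 ≤ q))
    calc (Nat.card (LabT deg 0 n) : ℝ) ≤ 1 * 1 := by linarith
      _ ≤ _ := mul_le_mul hM0 h3 zero_le_one (hpos 0)
  | succ K ih =>
    intro n
    obtain ⟨hA, hB⟩ := card_LabT_succ deg _ hcc K n (fun m => (ih m).1)
    refine ⟨hA, ?_⟩
    rcases Nat.eq_zero_or_pos K with rfl | hK
    · -- one coordinate
      have h1 : ∀ m, Nat.card (LabT deg 0 m) ≤ if m = 0 then 1 else 0 := by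
        intro m
        split_ifs with h
        · have hsub : Subsingleton (LabT deg 0 m) := ⟨fun a b => Subtype.ext (Subsingleton.elim _ _)⟩
          exact Finite.card_le_one_iff_subsingleton.2 hsub
        · have : IsEmpty (LabT deg 0 m) := ⟨fun g => h (by have := g.2; simpa using this.symm)⟩
          rw [Nat.card_of_isEmpty]
      have h2 : Nat.card (LabT deg (0 + 1) n) ≤ if n = 0 then 1 else (q + 1) * q ^ (n - 1) := by
        refine hB.trans ?_
        have h3 : n / (0 + 1) + 1 = n + 1 := by simp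
        rw [h3]
        calc _ ≤ ∑ d ∈ Finset.range (n + 1), (if d = n then (if n = 0 then 1 else (q + 1) * q ^ (n - 1)) else 0) := by
              apply Finset.sum_le_sum
              intro d hd
              rw [Finset.mem_range] at hd
              by_cases h : d = n
              · subst h
                rw [if_pos rfl]
                have h4 := h1 (d - (0 + 1) * d)
                have h5 : d - (0 + 1) * d = 0 := by simp
                rw [if_pos h5] at h4
                calc _ ≤ (if d = 0 then 1 else (q + 1) * q ^ (d - 1)) * 1 := Nat.mul_le_mul_left _ h4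
                  _ = _ := mul_one _
              · rw [if_neg h]
                have h4 := h1 (n - (0 + 1) * d)
                have h5 : n - (0 + 1) * d ≠ 0 := by omega
                rw [if_neg h5] at h4
                rw [Nat.le_zero.1 h4, mul_zero]
          _ = _ := by rw [Finset.sum_ite_eq']; simp
      rcases n with _ | n
      · rw [if_pos rfl] at h2
        have h3 : (Nat.card (LabT deg (0 + 1) 0) : ℝ) ≤ 1 := by exact_mod_cast h2
        rw [pow_zero, mul_one]
        have h4 : (0 : ℝ) ≤ 1 / q := by positivity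
        have h5 : M (0 + 1) = M 1 := rfl
        rw [h5]; linarith
      · rw [if_neg (Nat.succ_ne_zero n), Nat.add_sub_cancel] at h2
        have h3 : (Nat.card (LabT deg (0 + 1) (n + 1)) : ℝ) ≤ (q + 1) * (q : ℝ) ^ n := by exact_mod_cast h2
        refine h3.trans ?_
        have h4 : ((q : ℝ) + 1) * (q : ℝ) ^ n = (1 + 1 / q) * (q : ℝ) ^ (n + 1) := by
          field_simp
          ring
        rw [h4]
        exact mul_le_mul_of_nonneg_right hM1 (by positivity)
    · have hx : (1 / (q : ℝ) ^ K) < 1 := by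
        rw [div_lt_one (by positivity)]
        exact one_lt_pow₀ (by exact_mod_cast (by omega : 1 < q)) (by omega)
      have hx0 : (0 : ℝ) ≤ 1 / (q : ℝ) ^ K := by positivity
      have hB' : (Nat.card (LabT deg (K + 1) n) : ℝ) ≤
          ∑ d ∈ Finset.range (n / (K + 1) + 1), ((if d = 0 then 1 else (q + 1) * q ^ (d - 1) : ℕ) : ℝ) * (M K * (q : ℝ) ^ (n - (K + 1) * d)) := by
        calc (Nat.card (LabT deg (K + 1) n) : ℝ) ≤ ((∑ d ∈ Finset.range (n / (K + 1) + 1), (if d = 0 then 1 else (q + 1) * q ^ (d - 1)) * Nat.card (LabT deg K (n - (K + 1) * d)) : ℕ) : ℝ) := by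
              exact_mod_cast hB
          _ = ∑ d ∈ Finset.range (n / (K + 1) + 1), ((if d = 0 then 1 else (q + 1) * q ^ (d - 1) : ℕ) : ℝ) * (Nat.card (LabT deg K (n - (K + 1) * d)) : ℝ) := by
              push_cast; rfl
          _ ≤ _ := by
              apply Finset.sum_le_sum
              intro d _
              exact mul_le_mul_of_nonneg_left (ih _).2 (Nat.cast_nonneg _)
      refine hB'.trans ?_
      rw [Finset.sum_range_succ']
      have h1 : ∀ d ∈ Finset.range (n / (K + 1)), ((if d + 1 = 0 then 1 else (q + 1) * q ^ (d + 1 - 1) : ℕ) : ℝ) * (M K * (q : ℝ) ^ (n - (K + 1) * (d + 1))) =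
          M K * (q : ℝ) ^ n * ((1 + 1 / (q : ℝ)) * (1 / (q : ℝ) ^ K) ^ (d + 1)) := by
        intro d hd
        rw [Finset.mem_range] at hd
        have h2 : (K + 1) * (d + 1) ≤ n := by
          rw [mul_comm]
          exact (Nat.le_div_iff_mul_le (by omega)).1 hd
        obtain ⟨m, hm⟩ : ∃ m, n = m + (K + 1) * (d + 1) := ⟨n - (K + 1) * (d + 1), by omega⟩
        rw [if_neg (Nat.succ_ne_zero d), Nat.add_sub_cancel, hm, Nat.add_sub_cancel]
        push_cast
        have h3 : (q : ℝ) ^ (m + (K + 1) * (d + 1)) = (q : ℝ) ^ m * ((q : ℝ) ^ K) ^ (d + 1) * (q : ℝ) ^ d * q := by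
          rw [← pow_mul, ← pow_add, ← pow_add, ← pow_succ]
          congr 1; ring
        rw [h3, one_div_pow]
        field_simp
      rw [Finset.sum_congr rfl h1, ← Finset.mul_sum, ← Finset.mul_sum]
      rw [if_pos rfl, mul_zero, Nat.sub_zero]
      have h2 := geom_bound _ hx0 hx (n / (K + 1))
      have h3 : (0 : ℝ) ≤ M K * (q : ℝ) ^ n := mul_nonneg (hpos K) (by positivity)
      have h4 : (0 : ℝ) ≤ 1 + 1 / (q : ℝ) := by positivity
      calc M K * (q : ℝ) ^ n * ((1 + 1 / (q : ℝ)) * ∑ d ∈ Finset.range (n / (K + 1)), (1 / (q : ℝ) ^ K) ^ (d + 1)) + ((1 : ℕ) : ℝ) * (M K * (q : ℝ) ^ n)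
          ≤ M K * (q : ℝ) ^ n * ((1 + 1 / (q : ℝ)) * ((1 / (q : ℝ) ^ K) / (1 - 1 / (q : ℝ) ^ K))) + ((1 : ℕ) : ℝ) * (M K * (q : ℝ) ^ n) := by
            gcongr
        _ = M K * (1 + (1 + 1 / (q : ℝ)) * ((1 / (q : ℝ) ^ K) / (1 - 1 / (q : ℝ) ^ K))) * (q : ℝ) ^ n := by push_cast; ring
        _ ≤ _ := mul_le_mul_of_nonneg_right (hM K hK) (by positivity)

end

end Cfsg.Agent.H43
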