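import Mathlib
import Cfsg.Agent.H43.LabMass

set_option autoImplicit false
set_option linter.unusedSectionVars false
set_option linter.unusedVariables false

/-! Mass bounds for label sequences. -/

namespace Cfsg.Agent.H43

section
variable {X : Type*}

/-- the mass of a family is at most `M` -/
def MassLE (C : X → Prop) (w : X → ℕ) (r M : ℝ) : Prop := ∀ S : Finset X, (∀ x ∈ S, C x) → ∑ x ∈ S, r ^ w x ≤ M

theorem MassLE.nonneg {C : X → Prop} {w : X → ℕ} {r M : ℝ} (h : MassLE C w r M) : 0 ≤ M := by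
  have := h ∅ (by simp)
  rwa [Finset.sum_empty] at this

theorem mass_main {K : ℕ} (C : Fin (K + 1) → X → Prop) (w : Fin (K + 1) → X → ℕ) (r : ℝ) (hr : 0 < r) (c0 : ℝ)
    (h0 : ∀ S : Finset X, ∀ m, (∀ x ∈ S, C 0 x ∧ w 0 x = m) → (S.card : ℝ) * r ^ m ≤ c0) (M : Fin K → ℝ)
    (hM : ∀ i, MassLE (C i.succ) (w i.succ) r (M i)) (T : Finset (Fin (K + 1) → X)) (N : ℕ)
    (hT : ∀ x ∈ T, (∀ i, C i (x i)) ∧ ∑ i, w i (x i) = N) : (T.card : ℝ) * r ^ N ≤ c0 * ∏ i, M i := by
  classical
  have hc0 : 0 ≤ c0 := by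
    have := h0 ∅ 0 (by simp)
    simpa using this
  obtain ⟨I, hI⟩ : ∃ I, I = T.image (fun x (i : Fin K) => x i.succ) := ⟨_, rfl⟩
  have h1 : (T.card : ℝ) = ∑ y ∈ I, (((T.filter (fun x => (fun i : Fin K => x i.succ) = y)).card : ℕ) : ℝ) := by
    rw [hI, Finset.card_eq_sum_card_image (fun x (i : Fin K) => x i.succ) T]
    push_cast
    rfl
  have h2 : ∀ y ∈ I, (((T.filter (fun x => (fun i : Fin K => x i.succ) = y)).card : ℕ) : ℝ) * r ^ N ≤ c0 * ∏ i, r ^ w i.succ (y i) := by
    intro y hy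
    obtain ⟨U, hU⟩ : ∃ U, U = T.filter (fun x => (fun i : Fin K => x i.succ) = y) := ⟨_, rfl⟩
    rw [← hU]
    have hUx : ∀ x ∈ U, (∀ i, C i (x i)) ∧ w 0 (x 0) + ∑ i : Fin K, w i.succ (y i) = N ∧ (fun i : Fin K => x i.succ) = y := by
      intro x hx
      rw [hU, Finset.mem_filter] at hx
      obtain ⟨h3, h4⟩ := hT x hx.1
      refine ⟨h3, ?_, hx.2⟩
      rw [Fin.sum_univ_succ] at h4
      rw [← h4]
      congr 1
      apply Finset.sum_congr rfl
      intro i _
      rw [← hx.2]
    have hinj : Set.InjOn (fun x : Fin (K + 1) → X => x 0) U := by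
      intro x hx x' hx' h3
      have h4 := (hUx x hx).2.2
      have h5 := (hUx x' hx').2.2
      funext i
      refine Fin.cases h3 (fun j => ?_) i
      exact congrFun (h4.trans h5.symm) j
    have hcard : (U.image (fun x : Fin (K + 1) → X => x 0)).card = U.card := Finset.card_image_of_injOn hinj
    rcases U.eq_empty_or_nonempty with hE | ⟨x0, hx0⟩
    · rw [hE, Finset.card_empty]
      simp only [CharP.cast_eq_zero, zero_mul]
      exact mul_nonneg hc0 (Finset.prod_nonneg fun i _ => pow_nonneg hr.le _)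
    · obtain ⟨m, hm⟩ : ∃ m, m = w 0 (x0 0) := ⟨_, rfl⟩
      have h3 := (hUx x0 hx0).2.1
      rw [← hm] at h3
      have h4 := h0 (U.image (fun x : Fin (K + 1) → X => x 0)) m (by
        intro z hz
        rw [Finset.mem_image] at hz
        obtain ⟨x, hx, rfl⟩ := hz
        exact ⟨(hUx x hx).1 0, by have := (hUx x hx).2.1; omega⟩)
      rw [hcard] at h4
      rw [← h3, pow_add, Finset.prod_pow_eq_pow_sum, ← mul_assoc]
      exact mul_le_mul_of_nonneg_right h4 (pow_nonneg hr.le _)
  rw [h1, Finset.sum_mul]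
  refine (Finset.sum_le_sum h2).trans ?_
  rw [← Finset.mul_sum]
  apply mul_le_mul_of_nonneg_left _ hc0
  obtain ⟨S, hS⟩ : ∃ S : Fin K → Finset X, ∀ i, S i = T.image (fun x => x i.succ) := ⟨_, fun _ => rfl⟩
  calc ∑ y ∈ I, ∏ i, r ^ w i.succ (y i) ≤ ∑ y ∈ Fintype.piFinset S, ∏ i, r ^ w i.succ (y i) := by
        apply Finset.sum_le_sum_of_subset_of_nonneg
        · intro y hy
          rw [hI, Finset.mem_image] at hy
          obtain ⟨x, hx, rfl⟩ := hy
          rw [Fintype.mem_piFinset]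
          intro i
          rw [hS]
          exact Finset.mem_image_of_mem _ hx
        · intro y _ _
          exact Finset.prod_nonneg fun i _ => pow_nonneg hr.le _
    _ = ∏ i, ∑ z ∈ S i, r ^ w i.succ z := (Finset.prod_univ_sum S fun i z => r ^ w i.succ z).symm
    _ ≤ ∏ i, M i := by
        apply Finset.prod_le_prod
        · intro i _
          exact Finset.sum_nonneg fun z _ => pow_nonneg hr.le _
        · intro i _
          apply hM
          intro z hz
          rw [hS, Finset.mem_image] at hz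
          obtain ⟨x, hx, rfl⟩ := hz
          exact (hT x hx).1 _

theorem geom_bound' (y : ℝ) (h0 : 0 ≤ y) (h1 : y < 1) (D : ℕ) : ∑ d ∈ Finset.range D, y ^ d ≤ 1 / (1 - y) := by
  rcases D with _ | D
  · simp only [Finset.range_zero, Finset.sum_empty]
    exact div_nonneg zero_le_one (by linarith)
  · rw [Finset.sum_range_succ', pow_zero]
    have h2 := geom_bound y h0 h1 D
    have h3 : (1 : ℝ) / (1 - y) = y / (1 - y) + 1 := by
      have : (1 : ℝ) - y ≠ 0 := by linarith
      field_simp; ring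
    rw [h3]; linarith

/-- a family with degrees `e + 2k` -/
theorem fiber_mass (S : Finset X) (deg : X → ℕ) (e c : ℕ) (q : ℕ) (r : ℝ) (hr : 0 < r) (hq : (q : ℝ) * r ^ (2 * c) < 1)
    (h1 : ∀ x ∈ S, ∃ k, deg x = e + 2 * k) (h2 : ∀ k, (S.filter (fun x => deg x = e + 2 * k)).card ≤ q ^ k) :
    ∑ x ∈ S, r ^ (c * deg x) ≤ r ^ (c * e) / (1 - q * r ^ (2 * c)) := by
  classical
  obtain ⟨D, hD⟩ : ∃ D, ∀ x ∈ S, ∃ k < D, deg x = e + 2 * k := by
    refine ⟨S.sup deg + 1, fun x hx => ?_⟩
    obtain ⟨k, hk⟩ := h1 x hx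
    have := Finset.le_sup (f := deg) hx
    exact ⟨k, by omega, hk⟩
  have hy0 : (0 : ℝ) ≤ q * r ^ (2 * c) := by positivity
  calc ∑ x ∈ S, r ^ (c * deg x) = ∑ k ∈ Finset.range D, ∑ x ∈ S.filter (fun x => deg x = e + 2 * k), r ^ (c * deg x) := by
        rw [← Finset.sum_biUnion]
        · apply Finset.sum_congr _ (fun _ _ => rfl)
          ext x
          simp only [Finset.mem_biUnion, Finset.mem_range, Finset.mem_filter]
          constructor
          · intro hx
            obtain ⟨k, hk1, hk2⟩ := hD x hx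
            exact ⟨k, hk1, hx, hk2⟩
          · rintro ⟨k, _, hx, _⟩
            exact hx
        · intro k _ k' _ hkk
          rw [Function.onFun, Finset.disjoint_left]
          intro x hx hx'
          rw [Finset.mem_filter] at hx hx'
          apply hkk
          have := hx.2.symm.trans hx'.2
          omega
    _ ≤ ∑ k ∈ Finset.range D, r ^ (c * e) * (q * r ^ (2 * c)) ^ k := by
        apply Finset.sum_le_sum
        intro k _
        have h3 : ∀ x ∈ S.filter (fun x => deg x = e + 2 * k), r ^ (c * deg x) = r ^ (c * e) * (r ^ (2 * c)) ^ k := by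
          intro x hx
          rw [Finset.mem_filter] at hx
          rw [hx.2, ← pow_mul, ← pow_add]
          congr 1; ring
        rw [Finset.sum_congr rfl h3, Finset.sum_const, nsmul_eq_mul, mul_pow]
        have h4 : ((S.filter (fun x => deg x = e + 2 * k)).card : ℝ) ≤ (q : ℝ) ^ k := by exact_mod_cast h2 k
        have h5 : (0 : ℝ) ≤ r ^ (c * e) * (r ^ (2 * c)) ^ k := by positivity
        calc ((S.filter (fun x => deg x = e + 2 * k)).card : ℝ) * (r ^ (c * e) * (r ^ (2 * c)) ^ k) ≤ (q : ℝ) ^ k * (r ^ (c * e) * (r ^ (2 * c)) ^ k) :=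
              mul_le_mul_of_nonneg_right h4 h5
          _ = _ := by ring
    _ = r ^ (c * e) * ∑ k ∈ Finset.range D, (q * r ^ (2 * c)) ^ k := by rw [Finset.mul_sum]
    _ ≤ r ^ (c * e) * (1 / (1 - q * r ^ (2 * c))) := mul_le_mul_of_nonneg_left (geom_bound' _ hy0 hq D) (by positivity)
    _ = _ := by ring

end

end Cfsg.Agent.H43
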