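import Mathlib
import Cfsg.Agent.H43.SdCount
import Cfsg.Agent.H43.MassB

set_option autoImplicit false
set_option linter.unusedSectionVars false
set_option linter.unusedVariables false

/-! Masses of the local labels of isometry groups. -/

namespace Cfsg.Agent.H43

open Polynomial

section
variable {F : Type*} [Field F] [Fintype F]

theorem card_fiber (S : Finset (PolU (RingHom.id F) × Bool × Bool)) (c : F[X]) (hc : c ≠ 0) (bits : Bool × Bool) (e : ℕ)
    (h : ∀ x ∈ S, x.2 = bits ∧ ∃ k, ∃ f ∈ SDp F k, x.1.1 = c * f ∧ x.1.1.natDegree = e + 2 * k) :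
    (∀ x ∈ S, ∃ k, degU (RingHom.id F) x.1 = e + 2 * k) ∧ ∀ k, (S.filter (fun x => degU (RingHom.id F) x.1 = e + 2 * k)).card ≤ Fintype.card F ^ k := by
  classical
  constructor
  · intro x hx
    obtain ⟨_, k, f, _, _, hk⟩ := h x hx
    exact ⟨k, hk⟩
  · intro k
    obtain ⟨hfin, hcard⟩ := card_SDp (F := F) k
    rw [Nat.card_eq_fintype_card (α := F)] at hcard
    obtain ⟨U, hU⟩ : ∃ U, U = S.filter (fun x => degU (RingHom.id F) x.1 = e + 2 * k) := ⟨_, rfl⟩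
    have hUm : ∀ x ∈ U, x ∈ S ∧ degU (RingHom.id F) x.1 = e + 2 * k := by
      intro x hx
      rw [hU, Finset.mem_filter] at hx
      exact hx
    have hex : ∀ x : U, ∃ f : SDp F k, x.1.1.1 = c * f.1 := by
      intro x
      have hx := hUm x.1 x.2
      obtain ⟨_, k', f, hf, hf1, hf2⟩ := h x.1 hx.1
      have h3 : x.1.1.1.natDegree = e + 2 * k := hx.2
      have h4 : k' = k := by omega
      subst h4
      exact ⟨⟨f, hf⟩, hf1⟩
    choose g hg using hex
    have hinj : Function.Injective g := by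
      intro x y hxy
      have h3 : x.1.1.1 = y.1.1.1 := by rw [hg, hg, hxy]
      have hx := hUm x.1 x.2
      have hy := hUm y.1 y.2
      have h4 : x.1.2 = y.1.2 := (h _ hx.1).1.trans (h _ hy.1).1.symm
      exact Subtype.ext (Prod.ext (Subtype.ext h3) h4)
    have h5 := Nat.card_le_card_of_injective g hinj
    rw [hcard, Nat.card_eq_fintype_card, Fintype.card_coe] at h5
    rw [← hU]
    exact h5

/-- symplectic coordinates -/
theorem fiber_symp (h2 : (2 : F) ≠ 0) {ε : F} {i : ℕ} (hi : ε * (-1) ^ i = -1) (S : Finset (PolU (RingHom.id F) × Bool × Bool)) (hS : ∀ x ∈ S, ConsF ε i x) :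
    (∀ x ∈ S, ∃ k, degU (RingHom.id F) x.1 = 0 + 2 * k) ∧ ∀ k, (S.filter (fun x => degU (RingHom.id F) x.1 = 0 + 2 * k)).card ≤ Fintype.card F ^ k := by
  apply card_fiber S 1 one_ne_zero (false, false)
  intro x hx
  obtain ⟨h3, h4, h5⟩ := hS x hx
  have hne : ¬ (ε * (-1) ^ i = 1) := by
    rw [hi]; intro h; apply h2; linear_combination -h
  obtain ⟨h6, h7⟩ := h5 hi
  obtain ⟨h8, h9⟩ := sd_even h2 x.1.2.1 x.1.2.2.2 x.1.2.2.1 h6 h7
  refine ⟨?_, ?_⟩
  · apply Prod.ext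
    · change x.2.1 = false
      rw [← Bool.not_eq_true]
      exact fun h => hne (h3 h).2
    · change x.2.2 = false
      rw [← Bool.not_eq_true]
      exact fun h => hne (h4 h).2
  · obtain ⟨k, hk⟩ := h9
    exact ⟨k, x.1.1, ⟨x.1.2.1, h8, x.1.2.2.2, by omega⟩, by rw [one_mul], by omega⟩

/-- coordinates without roots `±1` -/
theorem fiber_noroot (h2 : (2 : F) ≠ 0) {ε : F} {i : ℕ} (hε : ε * (-1) ^ i = 1 ∨ ε * (-1) ^ i = -1) (S : Finset (PolU (RingHom.id F) × Bool × Bool))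
    (hS : ∀ x ∈ S, ConsF ε i x ∧ (ε * (-1) ^ i = 1 → ¬ (X - C 1 : F[X]) ∣ x.1.1 ∧ ¬ (X - C (-1) : F[X]) ∣ x.1.1)) :
    (∀ x ∈ S, ∃ k, degU (RingHom.id F) x.1 = 0 + 2 * k) ∧ ∀ k, (S.filter (fun x => degU (RingHom.id F) x.1 = 0 + 2 * k)).card ≤ Fintype.card F ^ k := by
  rcases hε with hi | hi
  · apply card_fiber S 1 one_ne_zero (false, false)
    intro x hx
    obtain ⟨⟨h3, h4, h5⟩, h6⟩ := hS x hx
    obtain ⟨h7, h8⟩ := h6 hi
    have h9 : eval 1 x.1.1 ≠ 0 := fun h => h7 (dvd_iff_isRoot.2 h)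
    have h10 : eval (-1) x.1.1 ≠ 0 := fun h => h8 (dvd_iff_isRoot.2 h)
    obtain ⟨h11, h12⟩ := sd_noroot h2 x.1.2.2.2 x.1.2.2.1 h9 h10
    refine ⟨?_, ?_⟩
    · apply Prod.ext
      · change x.2.1 = false
        rw [← Bool.not_eq_true]
        exact fun h => h7 (h3 h).1
      · change x.2.2 = false
        rw [← Bool.not_eq_true]
        exact fun h => h8 (h4 h).1
    · obtain ⟨k, hk⟩ := h12
      exact ⟨k, x.1.1, ⟨x.1.2.1, h11, x.1.2.2.2, by omega⟩, by rw [one_mul], by omega⟩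
  · exact fiber_symp h2 hi S (fun x hx => (hS x hx).1)

/-- the code of an orthogonal coordinate -/
noncomputable def codeF (x : PolU (RingHom.id F) × Bool × Bool) : (Bool × Bool) × (Bool × Bool) :=
  ((x.2.1, @decide (Odd (rootMultiplicity 1 x.1.1)) (Classical.propDecidable _)), (x.2.2, @decide (Odd (rootMultiplicity (-1) x.1.1)) (Classical.propDecidable _)))

/-- the exponent of a code -/
def eK (κ : (Bool × Bool) × (Bool × Bool)) : ℕ := eB κ.1.1 κ.1.2 + eB κ.2.1 κ.2.2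

theorem fiber_orth (h2 : (2 : F) ≠ 0) {ε : F} {i : ℕ} (κ : (Bool × Bool) × (Bool × Bool)) (S : Finset (PolU (RingHom.id F) × Bool × Bool))
    (hS : ∀ x ∈ S, ConsF ε i x ∧ codeF x = κ) :
    (∀ x ∈ S, ∃ k, degU (RingHom.id F) x.1 = eK κ + 2 * k) ∧ ∀ k, (S.filter (fun x => degU (RingHom.id F) x.1 = eK κ + 2 * k)).card ≤ Fintype.card F ^ k := by
  classical
  apply card_fiber S ((X - C 1) ^ (eB κ.1.1 κ.1.2) * (X - C (-1)) ^ (eB κ.2.1 κ.2.2)) (mul_ne_zero (pow_ne_zero _ (X_sub_C_ne_zero _)) (pow_ne_zero _ (X_sub_C_ne_zero _)))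
    (κ.1.1, κ.2.1)
  intro x hx
  obtain ⟨⟨h3, h4, h5⟩, rfl⟩ := hS x hx
  refine ⟨rfl, ?_⟩
  obtain ⟨k, f, hf, hf1, hf2⟩ := sd_factor h2 x.1.2.1 x.1.2.2.2 x.1.2.2.1 x.2.1 x.2.2 (fun h => (h3 h).1) (fun h => (h4 h).1)
  have e1 : (codeF x).1.1 = x.2.1 := rfl
  have e2 : (codeF x).2.1 = x.2.2 := rfl
  have e3 : (codeF x).1.2 = decide (Odd (rootMultiplicity 1 x.1.1)) := by unfold codeF; simp
  have e4 : (codeF x).2.2 = decide (Odd (rootMultiplicity (-1) x.1.1)) := by unfold codeF; simp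
  refine ⟨k, f, hf, ?_, ?_⟩
  · rw [e1, e2, e3, e4, mul_assoc]; convert hf1
  · unfold eK
    rw [e1, e2, e3, e4]; convert hf2

theorem mass_symp (h2 : (2 : F) ≠ 0) {ε : F} {i : ℕ} (hi : ε * (-1) ^ i = -1) (r : ℝ) (hr : 0 < r) (hq : (Fintype.card F : ℝ) * r ^ (2 * (i + 1)) < 1) :
    MassLE (ConsF ε i) (fun x => (i + 1) * degU (RingHom.id F) x.1) r (1 / (1 - Fintype.card F * r ^ (2 * (i + 1)))) := by
  intro S hS
  obtain ⟨h3, h4⟩ := fiber_symp h2 hi S hS
  have := fiber_mass S (fun x => degU (RingHom.id F) x.1) 0 (i + 1) (Fintype.card F) r hr hq h3 h4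
  rwa [mul_zero, pow_zero] at this

theorem mass_noroot (h2 : (2 : F) ≠ 0) {ε : F} {i : ℕ} (hε : ε * (-1) ^ i = 1 ∨ ε * (-1) ^ i = -1) (r : ℝ) (hr : 0 < r) (hq : (Fintype.card F : ℝ) * r ^ (2 * (i + 1)) < 1) :
    MassLE (fun x => ConsF ε i x ∧ (ε * (-1) ^ i = 1 → ¬ (X - C 1 : F[X]) ∣ x.1.1 ∧ ¬ (X - C (-1) : F[X]) ∣ x.1.1))
      (fun x => (i + 1) * degU (RingHom.id F) x.1) r (1 / (1 - Fintype.card F * r ^ (2 * (i + 1)))) := by
  intro S hS
  obtain ⟨h3, h4⟩ := fiber_noroot h2 hε S hS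
  have := fiber_mass S (fun x => degU (RingHom.id F) x.1) 0 (i + 1) (Fintype.card F) r hr hq h3 h4
  rwa [mul_zero, pow_zero] at this

theorem mass_orth (h2 : (2 : F) ≠ 0) {ε : F} {i : ℕ} (r : ℝ) (hr : 0 < r) (hq : (Fintype.card F : ℝ) * r ^ (2 * (i + 1)) < 1) :
    MassLE (ConsF ε i) (fun x => (i + 1) * degU (RingHom.id F) x.1) r ((1 + r ^ (i + 1)) ^ 4 / (1 - Fintype.card F * r ^ (2 * (i + 1)))) := by
  classical
  intro S hS
  have h3 : ∑ x ∈ S, r ^ ((i + 1) * degU (RingHom.id F) x.1) = ∑ κ : (Bool × Bool) × (Bool × Bool), ∑ x ∈ S.filter (fun x => codeF x = κ), r ^ ((i + 1) * degU (RingHom.id F) x.1) :=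
    (Finset.sum_fiberwise S codeF _).symm
  rw [h3]
  have h4 : ∀ κ : (Bool × Bool) × (Bool × Bool), ∑ x ∈ S.filter (fun x => codeF x = κ), r ^ ((i + 1) * degU (RingHom.id F) x.1) ≤
      (r ^ (i + 1)) ^ eK κ / (1 - Fintype.card F * r ^ (2 * (i + 1))) := by
    intro κ
    obtain ⟨h5, h6⟩ := fiber_orth h2 (ε := ε) (i := i) κ (S.filter (fun x => codeF x = κ)) (fun x hx => by
      rw [Finset.mem_filter] at hx
      exact ⟨hS x hx.1, hx.2⟩)
    have := fiber_mass (S.filter (fun x => codeF x = κ)) (fun x => degU (RingHom.id F) x.1) (eK κ) (i + 1) (Fintype.card F) r hr hq h5 h6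
    rwa [pow_mul] at this
  refine (Finset.sum_le_sum fun κ _ => h4 κ).trans ?_
  rw [← Finset.sum_div]
  apply div_le_div_of_nonneg_right _ (by linarith)
  apply le_of_eq
  obtain ⟨y, hy⟩ : ∃ y, y = r ^ (i + 1) := ⟨_, rfl⟩
  rw [← hy]
  simp only [Fintype.sum_prod_type, Fintype.sum_bool, eK, eB]
  simp
  ring

/-- first coordinate, symplectic or without roots -/
theorem first_noroot (h2 : (2 : F) ≠ 0) {ε : F} {i : ℕ} (hε : ε * (-1) ^ i = 1 ∨ ε * (-1) ^ i = -1) (r : ℝ) (hr : 0 < r) (hq : (Fintype.card F : ℝ) * r ^ 2 = 1)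
    (S : Finset (PolU (RingHom.id F) × Bool × Bool)) (m : ℕ)
    (hS : ∀ x ∈ S, (ConsF ε i x ∧ (ε * (-1) ^ i = 1 → ¬ (X - C 1 : F[X]) ∣ x.1.1 ∧ ¬ (X - C (-1) : F[X]) ∣ x.1.1)) ∧ degU (RingHom.id F) x.1 = m) :
    (S.card : ℝ) * r ^ m ≤ 1 := by
  classical
  obtain ⟨h3, h4⟩ := fiber_noroot h2 hε S (fun x hx => (hS x hx).1)
  rcases S.eq_empty_or_nonempty with hE | ⟨x, hx⟩
  · rw [hE]; simp
  · obtain ⟨k, hk⟩ := h3 x hx
    rw [(hS x hx).2, zero_add] at hk
    have h5 := h4 k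
    rw [Finset.filter_true_of_mem (fun y hy => by rw [(hS y hy).2, hk, zero_add])] at h5
    have h6 : (S.card : ℝ) ≤ (Fintype.card F : ℝ) ^ k := by exact_mod_cast h5
    rw [hk, pow_mul]
    calc (S.card : ℝ) * (r ^ 2) ^ k ≤ (Fintype.card F : ℝ) ^ k * (r ^ 2) ^ k := mul_le_mul_of_nonneg_right h6 (by positivity)
      _ = ((Fintype.card F : ℝ) * r ^ 2) ^ k := by rw [mul_pow]
      _ = 1 := by rw [hq, one_pow]

/-- first coordinate, orthogonal -/
theorem first_orth (h2 : (2 : F) ≠ 0) {ε : F} {i : ℕ} (r : ℝ) (hr : 0 < r) (hq : (Fintype.card F : ℝ) * r ^ 2 = 1)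
    (S : Finset (PolU (RingHom.id F) × Bool × Bool)) (m : ℕ)
    (hS : ∀ x ∈ S, ConsF ε i x ∧ degU (RingHom.id F) x.1 = m) :
    (S.card : ℝ) * r ^ m ≤ 1 + 6 * r ^ 2 + r ^ 4 := by
  classical
  have h3 : (S.card : ℝ) = ∑ κ : (Bool × Bool) × (Bool × Bool), ((S.filter (fun x => codeF x = κ)).card : ℝ) := by
    rw [Finset.card_eq_sum_card_fiberwise (f := codeF) (t := Finset.univ) (fun x _ => Finset.mem_coe.2 (Finset.mem_univ _))]
    push_cast
    rfl
  rw [h3, Finset.sum_mul]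
  have h4 : ∀ κ : (Bool × Bool) × (Bool × Bool), ((S.filter (fun x => codeF x = κ)).card : ℝ) * r ^ m ≤ if Even (m + eK κ) then r ^ eK κ else 0 := by
    intro κ
    obtain ⟨h5, h6⟩ := fiber_orth h2 (ε := ε) (i := i) κ (S.filter (fun x => codeF x = κ)) (fun x hx => by
      rw [Finset.mem_filter] at hx
      exact ⟨(hS x hx.1).1, hx.2⟩)
    rcases (S.filter (fun x => codeF x = κ)).eq_empty_or_nonempty with hE | ⟨x, hx⟩
    · rw [hE]
      simp only [Finset.card_empty, CharP.cast_eq_zero, zero_mul]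
      split_ifs
      · positivity
      · exact le_rfl
    · obtain ⟨k, hk⟩ := h5 x hx
      have hxm : ∀ y ∈ S.filter (fun x => codeF x = κ), degU (RingHom.id F) y.1 = m := fun y hy => (hS y (Finset.mem_filter.1 hy).1).2
      rw [hxm x hx] at hk
      have h7 := h6 k
      rw [Finset.filter_true_of_mem (fun y hy => by rw [hxm y hy, hk])] at h7
      rw [if_pos ⟨eK κ + k, by omega⟩]
      have h8 : ((S.filter (fun x => codeF x = κ)).card : ℝ) ≤ (Fintype.card F : ℝ) ^ k := by exact_mod_cast h7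
      rw [hk, pow_add, pow_mul]
      calc ((S.filter (fun x => codeF x = κ)).card : ℝ) * (r ^ eK κ * (r ^ 2) ^ k) ≤ (Fintype.card F : ℝ) ^ k * (r ^ eK κ * (r ^ 2) ^ k) := mul_le_mul_of_nonneg_right h8 (by positivity)
        _ = r ^ eK κ * ((Fintype.card F : ℝ) * r ^ 2) ^ k := by rw [mul_pow]; ring
        _ = r ^ eK κ := by rw [hq, one_pow, mul_one]
  refine (Finset.sum_le_sum fun κ _ => h4 κ).trans ?_
  have hr4 : 0 ≤ (1 - r) ^ 4 := by positivity
  simp only [Fintype.sum_prod_type, Fintype.sum_bool, eK, eB]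
  rcases Nat.even_or_odd m with hm | hm
  · have e0 : Even (m + 0) := by simpa using hm
    have e1 : ¬ Even (m + 1) := by rw [Nat.not_even_iff_odd]; exact hm.add_one
    have e2 : Even (m + 2) := hm.add even_two
    have e3 : ¬ Even (m + 3) := by rw [Nat.not_even_iff_odd]; exact e2.add_one
    have e4 : Even (m + 4) := e2.add even_two
    simp [e1, e2, e3, e4, hm]
    apply le_of_eq; ring
  · have e0 : ¬ Even (m + 0) := by rw [Nat.not_even_iff_odd]; simpa using hm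
    have e1 : Even (m + 1) := hm.add_one
    have e2 : ¬ Even (m + 2) := by rw [Nat.not_even_iff_odd]; exact e1.add_one
    have e3 : Even (m + 3) := e1.add even_two
    have e4 : ¬ Even (m + 4) := by rw [Nat.not_even_iff_odd]; exact e3.add_one
    have e0' : ¬ Even m := by rw [Nat.not_even_iff_odd]; exact hm
    simp [e1, e2, e3, e4, e0']
    nlinarith [hr4]

end

end Cfsg.Agent.H43
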