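import Mathlib
import Cfsg.Agent.H43.SdMass
import Cfsg.Agent.H43.NumForm

set_option autoImplicit false
set_option linter.unusedSectionVars false
set_option linter.unusedVariables false

/-! Counting labels of isometry groups. -/

namespace Cfsg.Agent.H43

open Polynomial

section
variable {F : Type*} [Field F] [Fintype F]

theorem exists_root_q (hq : 3 ≤ Fintype.card F) : ∃ r : ℝ, 0 < r ∧ (Fintype.card F : ℝ) * r ^ 2 = 1 ∧ r ^ 2 ≤ 1 / 3 := by
  have h3 : (3 : ℝ) ≤ Fintype.card F := by exact_mod_cast hq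
  have h1 : Real.sqrt (1 / (Fintype.card F : ℝ)) ^ 2 = 1 / (Fintype.card F : ℝ) := Real.sq_sqrt (by positivity)
  refine ⟨Real.sqrt (1 / (Fintype.card F : ℝ)), Real.sqrt_pos.2 (by positivity), ?_, ?_⟩
  · rw [h1]; field_simp
  · rw [h1]; exact one_div_le_one_div_of_le (by norm_num) h3

theorem mass_aux {q r : ℝ} (hr : 0 < r) (hq : q * r ^ 2 = 1) (i : ℕ) : q * r ^ (2 * (i + 1 + 1)) = r ^ (2 * (i + 1)) := by
  have : 2 * (i + 1 + 1) = 2 * (i + 1) + 2 := by ring
  rw [this, pow_add]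
  linear_combination (r ^ (2 * (i + 1))) * hq

theorem even_of_neg_one (h2 : (2 : F) ≠ 0) (i : ℕ) : ((-1 : F) ^ i = 1 ↔ Even i) ∧ ((-1 : F) ^ i = -1 ↔ ¬ Even i) := by
  have hne : (1 : F) ≠ -1 := by intro h; apply h2; linear_combination h
  rcases Nat.even_or_odd i with h | h
  · rw [h.neg_one_pow]
    exact ⟨⟨fun _ => h, fun _ => rfl⟩, ⟨fun h' => absurd h' hne, fun h' => absurd h h'⟩⟩
  · rw [h.neg_one_pow]
    exact ⟨⟨fun h' => absurd h'.symm hne, fun h' => absurd h' (Nat.not_even_iff_odd.2 h)⟩, ⟨fun _ => Nat.not_even_iff_odd.2 h, fun _ => rfl⟩⟩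

/-- counting symplectic labels -/
theorem card_lab_sp (h2 : (2 : F) ≠ 0) (hq : 3 ≤ Fintype.card F) (n K : ℕ) (hK : 2 * n = K + 1) (T : Finset (Fin (K + 1) → PolU (RingHom.id F) × Bool × Bool))
    (hT : ∀ x ∈ T, (∀ i : Fin (K + 1), ConsF (-1 : F) i (x i)) ∧ ∑ i : Fin (K + 1), ((i : ℕ) + 1) * degU (RingHom.id F) (x i).1 = 2 * n) :
    (T.card : ℝ) ≤ 54 / 5 * (Fintype.card F : ℝ) ^ n := by
  obtain ⟨r, hr, hqr, hr3⟩ := exists_root_q hq
  have hmain := mass_main (fun i : Fin (K + 1) => ConsF (-1 : F) (i : ℕ)) (fun i x => ((i : ℕ) + 1) * degU (RingHom.id F) x.1) r hr 1 (by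
    intro S m hS
    apply first_noroot h2 (ε := (-1 : F)) (i := 0) (Or.inr (by ring)) r hr hqr S m
    intro x hx
    obtain ⟨h3, h4⟩ := hS x hx
    refine ⟨⟨h3, ?_⟩, ?_⟩
    · intro h5
      exfalso
      apply h2
      rw [pow_zero, mul_one] at h5
      linear_combination -h5
    · have h5 : (0 + 1) * degU (RingHom.id F) x.1 = m := h4
      rwa [zero_add, one_mul] at h5)
    (fun i : Fin K => mS r i) (by
      intro i
      have hlt : (Fintype.card F : ℝ) * r ^ (2 * ((i : ℕ) + 1 + 1)) < 1 := by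
        rw [mass_aux hr hqr]
        have := one_sub_pos hr hr3 (i : ℕ)
        linarith
      have hs : ((i.succ : Fin (K + 1)) : ℕ) = (i : ℕ) + 1 := Fin.val_succ i
      simp only [hs]
      by_cases he : Even (i : ℕ)
      · have h3 : (-1 : F) * (-1) ^ ((i : ℕ) + 1) = 1 := by
          rw [pow_succ, he.neg_one_pow]; ring
        have h4 := mass_orth h2 (ε := (-1 : F)) (i := (i : ℕ) + 1) r hr hlt
        rw [mass_aux hr hqr] at h4
        have h5 : mS r i = (1 + r ^ ((i : ℕ) + 1 + 1)) ^ 4 / (1 - r ^ (2 * ((i : ℕ) + 1))) := by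
          unfold mS; rw [if_pos he]
        rw [h5]; exact h4
      · have h3 : (-1 : F) * (-1) ^ ((i : ℕ) + 1) = -1 := by
          rw [pow_succ, (Nat.not_even_iff_odd.1 he).neg_one_pow]; ring
        have h4 := mass_symp h2 h3 r hr hlt
        rw [mass_aux hr hqr] at h4
        have h5 : mS r i = 1 / (1 - r ^ (2 * ((i : ℕ) + 1))) := by
          unfold mS; rw [if_neg he]
        rw [h5]; exact h4) T (2 * n) hT
  have h3 : ∏ i : Fin K, mS r i ≤ 54 / 5 := by
    rw [← Finset.prod_range (fun i => mS r i)]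
    refine le_trans ?_ (prod_mS hr hr3 n)
    rw [hK, Finset.prod_range_succ]
    have h4 : 0 ≤ ∏ i ∈ Finset.range K, mS r i := Finset.prod_nonneg fun i _ => by linarith [one_le_mS hr hr3 i]
    have h5 := one_le_mS hr hr3 K
    nlinarith
  have h4 : (T.card : ℝ) * r ^ (2 * n) ≤ 54 / 5 := by linarith
  have h5 : (Fintype.card F : ℝ) ^ n * r ^ (2 * n) = 1 := by
    rw [pow_mul, ← mul_pow, hqr, one_pow]
  have h6 : 0 < r ^ (2 * n) := by positivity
  by_contra hlt
  push Not at hlt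
  have h7 := mul_lt_mul_of_pos_right hlt h6
  nlinarith

/-- counting orthogonal labels -/
theorem card_lab_o (h2 : (2 : F) ≠ 0) (hq : 3 ≤ Fintype.card F) (n K : ℕ) (hK : 2 * n = K + 1) (T : Finset (Fin (K + 1) → PolU (RingHom.id F) × Bool × Bool))
    (hT : ∀ x ∈ T, (∀ i : Fin (K + 1), ConsF (1 : F) i (x i)) ∧ ∑ i : Fin (K + 1), ((i : ℕ) + 1) * degU (RingHom.id F) (x i).1 = 2 * n) :
    (T.card : ℝ) ≤ 28 / 9 * (535 / 100) * (Fintype.card F : ℝ) ^ n := by
  obtain ⟨r, hr, hqr, hr3⟩ := exists_root_q hq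
  have hmain := mass_main (fun i : Fin (K + 1) => ConsF (1 : F) (i : ℕ)) (fun i x => ((i : ℕ) + 1) * degU (RingHom.id F) x.1) r hr (1 + 6 * r ^ 2 + r ^ 4) (by
    intro S m hS
    apply first_orth h2 (ε := (1 : F)) (i := 0) r hr hqr S m
    intro x hx
    obtain ⟨h3, h4⟩ := hS x hx
    refine ⟨h3, ?_⟩
    have h5 : (0 + 1) * degU (RingHom.id F) x.1 = m := h4
    rwa [zero_add, one_mul] at h5)
    (fun i : Fin K => mO r i) (by
      intro i
      have hlt : (Fintype.card F : ℝ) * r ^ (2 * ((i : ℕ) + 1 + 1)) < 1 := by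
        rw [mass_aux hr hqr]
        have := one_sub_pos hr hr3 (i : ℕ)
        linarith
      have hs : ((i.succ : Fin (K + 1)) : ℕ) = (i : ℕ) + 1 := Fin.val_succ i
      simp only [hs]
      by_cases he : Even (i : ℕ)
      · have h3 : (1 : F) * (-1) ^ ((i : ℕ) + 1) = -1 := by
          rw [pow_succ, he.neg_one_pow]; ring
        have h4 := mass_symp h2 h3 r hr hlt
        rw [mass_aux hr hqr] at h4
        have h5 : mO r i = 1 / (1 - r ^ (2 * ((i : ℕ) + 1))) := by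
          unfold mO; rw [if_pos he]
        rw [h5]; exact h4
      · have h4 := mass_orth h2 (ε := (1 : F)) (i := (i : ℕ) + 1) r hr hlt
        rw [mass_aux hr hqr] at h4
        have h5 : mO r i = (1 + r ^ ((i : ℕ) + 1 + 1)) ^ 4 / (1 - r ^ (2 * ((i : ℕ) + 1))) := by
          unfold mO; rw [if_neg he]
        rw [h5]; exact h4) T (2 * n) hT
  have h3 : ∏ i : Fin K, mO r i ≤ 535 / 100 := by
    rw [← Finset.prod_range (fun i => mO r i)]
    refine le_trans ?_ (prod_mO hr hr3 n)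
    rw [hK, Finset.prod_range_succ]
    have h4 : 0 ≤ ∏ i ∈ Finset.range K, mO r i := Finset.prod_nonneg fun i _ => by linarith [one_le_mO hr hr3 i]
    have h5 := one_le_mO hr hr3 K
    nlinarith
  have h3' : 0 ≤ ∏ i : Fin K, mO r i := Finset.prod_nonneg fun i _ => by linarith [one_le_mO hr hr3 i]
  have hc : 1 + 6 * r ^ 2 + r ^ 4 ≤ 28 / 9 := by
    have : r ^ 4 = (r ^ 2) ^ 2 := by ring
    have h0 : 0 ≤ r ^ 2 := by positivity
    rw [this]; nlinarith
  have h4 : (T.card : ℝ) * r ^ (2 * n) ≤ 28 / 9 * (535 / 100) := hmain.trans (mul_le_mul hc h3 h3' (by norm_num))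
  have h5 : (Fintype.card F : ℝ) ^ n * r ^ (2 * n) = 1 := by
    rw [pow_mul, ← mul_pow, hqr, one_pow]
  have h6 : 0 < r ^ (2 * n) := by positivity
  by_contra hlt
  push Not at hlt
  have h7 := mul_lt_mul_of_pos_right hlt h6
  nlinarith

/-- counting orthogonal labels without roots -/
theorem card_lab_noroot (h2 : (2 : F) ≠ 0) (hq : 3 ≤ Fintype.card F) (n K : ℕ) (T : Finset (Fin (K + 1) → PolU (RingHom.id F) × Bool × Bool))
    (hT : ∀ x ∈ T, (∀ i : Fin (K + 1), ConsF (1 : F) i (x i) ∧ ((1 : F) * (-1) ^ (i : ℕ) = 1 → ¬ (X - C 1 : F[X]) ∣ (x i).1.1 ∧ ¬ (X - C (-1) : F[X]) ∣ (x i).1.1)) ∧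
      ∑ i : Fin (K + 1), ((i : ℕ) + 1) * degU (RingHom.id F) (x i).1 = 2 * n) :
    (T.card : ℝ) ≤ 2 * (Fintype.card F : ℝ) ^ n := by
  obtain ⟨r, hr, hqr, hr3⟩ := exists_root_q hq
  have hsgn : ∀ i : ℕ, (1 : F) * (-1) ^ i = 1 ∨ (1 : F) * (-1) ^ i = -1 := by
    intro i
    rw [one_mul]
    rcases Nat.even_or_odd i with h | h
    · left; exact h.neg_one_pow
    · right; exact h.neg_one_pow
  have hmain := mass_main (fun (i : Fin (K + 1)) (x : PolU (RingHom.id F) × Bool × Bool) => ConsF (1 : F) (i : ℕ) x ∧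
      ((1 : F) * (-1) ^ (i : ℕ) = 1 → ¬ (X - C 1 : F[X]) ∣ x.1.1 ∧ ¬ (X - C (-1) : F[X]) ∣ x.1.1)) (fun i x => ((i : ℕ) + 1) * degU (RingHom.id F) x.1) r hr 1 (by
    intro S m hS
    apply first_noroot h2 (ε := (1 : F)) (i := 0) (Or.inl (by ring)) r hr hqr S m
    intro x hx
    obtain ⟨h3, h4⟩ := hS x hx
    refine ⟨h3, ?_⟩
    have h5 : (0 + 1) * degU (RingHom.id F) x.1 = m := h4
    rwa [zero_add, one_mul] at h5)
    (fun i : Fin K => mN r i) (by
      intro i
      have hlt : (Fintype.card F : ℝ) * r ^ (2 * ((i : ℕ) + 1 + 1)) < 1 := by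
        rw [mass_aux hr hqr]
        have := one_sub_pos hr hr3 (i : ℕ)
        linarith
      have hs : ((i.succ : Fin (K + 1)) : ℕ) = (i : ℕ) + 1 := Fin.val_succ i
      simp only [hs]
      have h4 := mass_noroot h2 (ε := (1 : F)) (i := (i : ℕ) + 1) (hsgn _) r hr hlt
      rw [mass_aux hr hqr] at h4
      exact h4) T (2 * n) hT
  have h3 : ∏ i : Fin K, mN r i ≤ 2 := by
    rw [← Finset.prod_range (fun i => mN r i)]
    refine (prod_mN hr hr3 K).trans ?_
    have : (0 : ℝ) < (1 / 3) ^ K := by positivity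
    nlinarith
  have h4 : (T.card : ℝ) * r ^ (2 * n) ≤ 2 := by linarith
  have h5 : (Fintype.card F : ℝ) ^ n * r ^ (2 * n) = 1 := by
    rw [pow_mul, ← mul_pow, hqr, one_pow]
  have h6 : 0 < r ^ (2 * n) := by positivity
  by_contra hlt
  push Not at hlt
  have h7 := mul_lt_mul_of_pos_right hlt h6
  nlinarith

end

end Cfsg.Agent.H43
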