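import Mathlib
import Cfsg.Agent.H43.LabFCount

set_option autoImplicit false
set_option linter.unusedSectionVars false
set_option linter.unusedVariables false

/-! Upper bounds for class numbers of isometry groups. -/

namespace Cfsg.Agent.H43

open Polynomial

section
variable {F : Type*} [Field F] [Fintype F]

theorem upper_sp (h2 : (2 : F) ≠ 0) (hq : 3 ≤ Fintype.card F) (n : ℕ) (hn : 1 ≤ n) {N : ℕ} (hN : N = 2 * n) {G : Type*} [Group G] [Finite G] (J : Matrix (Fin N) (Fin N) F)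
    (ρ : G → GL (Fin N) F) (hρ : ∀ x, InvForm (-1) (ρ x) J)
    (hconj : ∀ x y, ∀ c : GL (Fin N) F, (c : Matrix (Fin N) (Fin N) F).transpose * J * (c : Matrix (Fin N) (Fin N) F) = J → c * ρ x = ρ y * c → IsConj x y) :
    5 * Nat.card (ConjClasses G) ≤ 54 * Fintype.card F ^ n := by
  classical
  obtain ⟨K, rfl⟩ : ∃ K, N = K + 1 := ⟨N - 1, by omega⟩
  obtain ⟨lab, hlab, -⟩ := exists_label_map h2 (Or.inr rfl) J ρ hρ hconj
  have : Fintype (ConjClasses G) := Fintype.ofFinite _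
  obtain ⟨T, hT⟩ : ∃ T, T = Finset.univ.image (fun c => (lab c).1) := ⟨_, rfl⟩
  have hcard : T.card = Nat.card (ConjClasses G) := by
    rw [hT, Finset.card_image_of_injective _ (fun a b h => hlab (Subtype.ext h)), Finset.card_univ, Nat.card_eq_fintype_card]
  have h3 := card_lab_sp h2 hq n K hN.symm T (by
    intro x hx
    rw [hT, Finset.mem_image] at hx
    obtain ⟨c, _, rfl⟩ := hx
    have h4 := (lab c).2
    exact ⟨h4.1, h4.2.trans hN⟩)
  rw [hcard] at h3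
  have h4 : (5 * Nat.card (ConjClasses G) : ℝ) ≤ 54 * (Fintype.card F : ℝ) ^ n := by linarith
  exact_mod_cast h4

/-- a flip on the labels -/
theorem exists_flip (K : ℕ) : ∃ φ : (Fin (K + 1) → PolU (RingHom.id F) × Bool × Bool) → (Fin (K + 1) → PolU (RingHom.id F) × Bool × Bool),
    (∀ x, φ (φ x) = x) ∧ (∀ x, OneDiff x (φ x)) ∧ (∀ x i, (φ x i).1 = (x i).1) ∧
    (∀ x, (∃ i : Fin (K + 1), (1 : F) * (-1) ^ (i : ℕ) = 1 ∧ ((X - C 1 : F[X]) ∣ (x i).1.1 ∨ (X - C (-1) : F[X]) ∣ (x i).1.1)) →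
      (∀ i : Fin (K + 1), ConsF (1 : F) i (x i)) → (∀ i : Fin (K + 1), ConsF (1 : F) i (φ x i))) := by
  classical
  have hex : ∀ g : Fin (K + 1) → PolU (RingHom.id F), ∃ i : Fin (K + 1),
      (∃ i : Fin (K + 1), (1 : F) * (-1) ^ (i : ℕ) = 1 ∧ ((X - C 1 : F[X]) ∣ (g i).1 ∨ (X - C (-1) : F[X]) ∣ (g i).1)) →
      (1 : F) * (-1) ^ (i : ℕ) = 1 ∧ ((X - C 1 : F[X]) ∣ (g i).1 ∨ (X - C (-1) : F[X]) ∣ (g i).1) := by
    intro g
    by_cases h : ∃ i : Fin (K + 1), (1 : F) * (-1) ^ (i : ℕ) = 1 ∧ ((X - C 1 : F[X]) ∣ (g i).1 ∨ (X - C (-1) : F[X]) ∣ (g i).1)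
    · obtain ⟨i, hi⟩ := h
      exact ⟨i, fun _ => hi⟩
    · exact ⟨0, fun h' => absurd h' h⟩
  choose idx hidx using hex
  obtain ⟨fl, hfl⟩ : ∃ fl : PolU (RingHom.id F) × Bool × Bool → PolU (RingHom.id F) × Bool × Bool, ∀ z, fl z =
      if (X - C 1 : F[X]) ∣ z.1.1 then (z.1, !z.2.1, z.2.2) else (z.1, z.2.1, !z.2.2) := ⟨_, fun _ => rfl⟩
  have hfl1 : ∀ z, (fl z).1 = z.1 := by
    intro z; rw [hfl]; split_ifs <;> rfl
  have hfl2 : ∀ z, fl (fl z) = z := by
    intro z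
    by_cases h : (X - C 1 : F[X]) ∣ z.1.1
    · have e1 : fl z = (z.1, !z.2.1, z.2.2) := by rw [hfl, if_pos h]
      rw [e1, hfl, if_pos h]
      simp
    · have e1 : fl z = (z.1, z.2.1, !z.2.2) := by rw [hfl, if_neg h]
      rw [e1, hfl, if_neg h]
      simp
  obtain ⟨φ, hφ⟩ : ∃ φ : (Fin (K + 1) → PolU (RingHom.id F) × Bool × Bool) → (Fin (K + 1) → PolU (RingHom.id F) × Bool × Bool),
      ∀ x, φ x = Function.update x (idx fun i => (x i).1) (fl (x (idx fun i => (x i).1))) := ⟨_, fun _ => rfl⟩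
  have hφ1 : ∀ x i, (φ x i).1 = (x i).1 := by
    intro x i
    rw [hφ]
    by_cases h : i = idx fun i => (x i).1
    · rw [h, Function.update_self, hfl1]
    · rw [Function.update_of_ne h]
  have hg : ∀ x, (fun i => (φ x i).1) = fun i => (x i).1 := fun x => funext (hφ1 x)
  refine ⟨φ, ?_, ?_, hφ1, ?_⟩
  · intro x
    rw [hφ (φ x), hg x]
    obtain ⟨j, hj⟩ : ∃ j, j = idx fun i => (x i).1 := ⟨_, rfl⟩
    rw [← hj]
    have e1 : φ x j = fl (x j) := by rw [hφ, ← hj, Function.update_self]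
    rw [e1, hfl2]
    funext i
    by_cases h : i = j
    · rw [h, Function.update_self]
    · rw [Function.update_of_ne h, hφ, ← hj, Function.update_of_ne h]
  · intro x
    obtain ⟨j, hj⟩ : ∃ j, j = idx fun i => (x i).1 := ⟨_, rfl⟩
    refine ⟨j, (hφ1 x j).symm, ?_, ?_⟩
    · have e1 : φ x j = fl (x j) := by rw [hφ, ← hj, Function.update_self]
      rw [e1, hfl]
      split_ifs with h
      · left; simp
      · right; simp
    · intro i hi
      rw [hφ, ← hj, Function.update_of_ne hi]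
  · intro x hx hcons i
    obtain ⟨j, hj⟩ : ∃ j, j = idx fun i => (x i).1 := ⟨_, rfl⟩
    have h3 := hidx (fun i => (x i).1) hx
    rw [← hj] at h3
    by_cases h : i = j
    · subst h
      have e1 : φ x i = fl (x i) := by rw [hφ, ← hj, Function.update_self]
      rw [e1]
      obtain ⟨h4, h5, h6⟩ := hcons i
      rw [hfl]
      split_ifs with h7
      · exact ⟨fun _ => ⟨h7, h3.1⟩, h5, h6⟩
      · exact ⟨h4, fun _ => ⟨h3.2.resolve_left h7, h3.1⟩, h6⟩
    · have e1 : φ x i = x i := by rw [hφ, ← hj, Function.update_of_ne h]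
      rw [e1]; exact hcons i

theorem upper_o (h2 : (2 : F) ≠ 0) (hq : 3 ≤ Fintype.card F) (n : ℕ) (hn : 1 ≤ n) {N : ℕ} (hN : N = 2 * n) {G : Type*} [Group G] [Finite G] (J : Matrix (Fin N) (Fin N) F)
    (ρ : G → GL (Fin N) F) (hρ : ∀ x, InvForm 1 (ρ x) J)
    (hconj : ∀ x y, ∀ c : GL (Fin N) F, (c : Matrix (Fin N) (Fin N) F).transpose * J * (c : Matrix (Fin N) (Fin N) F) = J → c * ρ x = ρ y * c → IsConj x y) :
    2 * Nat.card (ConjClasses G) ≤ 19 * Fintype.card F ^ n := by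
  classical
  obtain ⟨K, rfl⟩ : ∃ K, N = K + 1 := ⟨N - 1, by omega⟩
  obtain ⟨lab, hlab, hone⟩ := exists_label_map h2 (Or.inl rfl) J ρ hρ hconj
  replace hone := hone rfl
  obtain ⟨φ, hφφ, hφ1, hφ2, hφ3⟩ := exists_flip (F := F) K
  have : Fintype (ConjClasses G) := Fintype.ofFinite _
  obtain ⟨R, hR⟩ : ∃ R, R = Finset.univ.image (fun c => (lab c).1) := ⟨_, rfl⟩
  have hcard : R.card = Nat.card (ConjClasses G) := by
    rw [hR, Finset.card_image_of_injective _ (fun a b h => hlab (Subtype.ext h)), Finset.card_univ, Nat.card_eq_fintype_card]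
  have hRm : ∀ x ∈ R, (∀ i : Fin (K + 1), ConsF (1 : F) i (x i)) ∧ ∑ i : Fin (K + 1), ((i : ℕ) + 1) * degU (RingHom.id F) (x i).1 = 2 * n := by
    intro x hx
    rw [hR, Finset.mem_image] at hx
    obtain ⟨c, _, rfl⟩ := hx
    have h4 := (lab c).2
    exact ⟨h4.1, h4.2.trans hN⟩
  have hRone : ∀ x ∈ R, ∀ y ∈ R, ¬ OneDiff x y := by
    intro x hx y hy
    rw [hR, Finset.mem_image] at hx hy
    obtain ⟨c, _, rfl⟩ := hx
    obtain ⟨c', _, rfl⟩ := hy
    exact hone c c'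
  obtain ⟨P, hP⟩ : ∃ P : (Fin (K + 1) → PolU (RingHom.id F) × Bool × Bool) → Prop, ∀ x, P x ↔
      ∃ i : Fin (K + 1), (1 : F) * (-1) ^ (i : ℕ) = 1 ∧ ((X - C 1 : F[X]) ∣ (x i).1.1 ∨ (X - C (-1) : F[X]) ∣ (x i).1.1) := ⟨_, fun _ => Iff.rfl⟩
  obtain ⟨R1, hR1⟩ : ∃ R1, R1 = R.filter P := ⟨_, rfl⟩
  obtain ⟨R2, hR2⟩ : ∃ R2, R2 = R.filter (fun x => ¬ P x) := ⟨_, rfl⟩
  have h12 : R1.card + R2.card = R.card := by rw [hR1, hR2, Finset.card_filter_add_card_filter_not]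
  have hφinj : Function.Injective φ := fun a b h => by rw [← hφφ a, h, hφφ]
  have hdisj : Disjoint R (R1.image φ) := by
    rw [Finset.disjoint_left]
    intro x hx hx'
    rw [Finset.mem_image] at hx'
    obtain ⟨y, hy, rfl⟩ := hx'
    rw [hR1, Finset.mem_filter] at hy
    exact hRone y hy.1 _ hx (hφ1 y)
  have h3 := card_lab_o h2 hq n K hN.symm (R ∪ R1.image φ) (by
    intro x hx
    rw [Finset.mem_union] at hx
    rcases hx with hx | hx
    · exact hRm x hx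
    · rw [Finset.mem_image] at hx
      obtain ⟨y, hy, rfl⟩ := hx
      rw [hR1, Finset.mem_filter, hP] at hy
      obtain ⟨h4, h5⟩ := hRm y hy.1
      refine ⟨hφ3 y hy.2 h4, ?_⟩
      rw [← h5]
      apply Finset.sum_congr rfl
      intro i _
      rw [hφ2])
  rw [Finset.card_union_of_disjoint hdisj, Finset.card_image_of_injective _ hφinj] at h3
  have h4 := card_lab_noroot h2 hq n K R2 (by
    intro x hx
    rw [hR2, Finset.mem_filter, hP] at hx
    obtain ⟨h5, h6⟩ := hRm x hx.1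
    refine ⟨fun i => ⟨h5 i, fun h7 => ?_⟩, h6⟩
    have h8 := hx.2
    push Not at h8
    exact h8 i h7)
  have h5 : (R1.card : ℝ) + (R2.card : ℝ) = (R.card : ℝ) := by exact_mod_cast h12
  have h6 : (0 : ℝ) ≤ (Fintype.card F : ℝ) ^ n := by positivity
  push_cast at h3
  rw [hcard] at h5 h3
  have h7 : (2 * Nat.card (ConjClasses G) : ℝ) ≤ 19 * (Fintype.card F : ℝ) ^ n := by
    nlinarith
  exact_mod_cast h7

end

end Cfsg.Agent.H43
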