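import Mathlib
import Cfsg.Agent.H43.Comp2
import Cfsg.Agent.H43.FormUpper

set_option autoImplicit false
set_option linter.unusedSectionVars false
set_option linter.unusedVariables false

/-! Lower bounds for class numbers of isometry groups. -/

namespace Cfsg.Agent.H43

open Polynomial

section
variable {F : Type*} [Field F] [Fintype F]

theorem exists_sp_poly (h2 : (2 : F) ≠ 0) {n : ℕ} {f : F[X]} (hf : f ∈ SDp F n) :
    ∃ (A : GL (Fin (2 * n)) F) (J : Matrix (Fin (2 * n)) (Fin (2 * n)) F), InvForm (-1) A J ∧ (A : Matrix (Fin (2 * n)) (Fin (2 * n)) F).charpoly = f := by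
  obtain ⟨a, b, m, k, hk, habm, hfk, h1, h2', h3, d, hd, hsq, hA⟩ := exists_assemble h2 (ε := (-1 : F)) (by ring) hf
  obtain ⟨A, J, hJ, hc, _⟩ := hA (Matrix.J (Fin a) F) (Matrix.J (Fin b) F) (by rw [Matrix.J_transpose, neg_one_smul]) (Matrix.isUnit_det_J _ _)
    (by rw [Matrix.J_transpose, neg_one_smul]) (Matrix.isUnit_det_J _ _)
  exact ⟨A, J, hJ, hc⟩

theorem exists_o_poly (h2 : (2 : F) ≠ 0) {n : ℕ} {f : F[X]} (hf : f ∈ SDp F n) (c : F) (hc : c ≠ 0)
    (h : eval 1 f = 0 ∨ (eval 1 f ≠ 0 ∧ eval (-1) f ≠ 0 ∧ IsSquare (eval 1 f * eval (-1) f * c))) :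
    ∃ (A : GL (Fin (2 * n)) F) (J : Matrix (Fin (2 * n)) (Fin (2 * n)) F), InvForm 1 A J ∧ (A : Matrix (Fin (2 * n)) (Fin (2 * n)) F).charpoly = f ∧ IsSquare (J.det * c) := by
  classical
  obtain ⟨a, b, m, k, hk, habm, hfk, h1, h1', h3, d, hd, hsq, hA⟩ := exists_assemble h2 (ε := (1 : F)) (by ring) hf
  rcases h with h | ⟨h4, h5, h6⟩
  · have ha := h1' h
    obtain ⟨x, hx⟩ : ∃ x : F, x = c * d := ⟨_, rfl⟩
    have hx0 : x ≠ 0 := by rw [hx]; exact mul_ne_zero hc hd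
    obtain ⟨D, hD⟩ : ∃ D : Matrix (Fin a ⊕ Fin a) (Fin a ⊕ Fin a) F, D = Matrix.diagonal (fun i => if i = Sum.inl ⟨0, ha⟩ then x else 1) := ⟨_, rfl⟩
    have hDdet : D.det = x := by
      rw [hD, Matrix.det_diagonal, Finset.prod_ite_eq']
      simp
    obtain ⟨A, J, hJ, hch, hJd⟩ := hA D 1 (by rw [hD, Matrix.diagonal_transpose, one_smul]) (by rw [hDdet]; exact isUnit_iff_ne_zero.2 hx0)
      (by rw [Matrix.transpose_one, one_smul]) (by rw [Matrix.det_one]; exact isUnit_one)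
    refine ⟨A, J, hJ, hch, ⟨c * d, ?_⟩⟩
    rw [hJd, hDdet, Matrix.det_one, hx]; ring
  · obtain ⟨A, J, hJ, hch, hJd⟩ := hA 1 1 (by rw [Matrix.transpose_one, one_smul]) (by rw [Matrix.det_one]; exact isUnit_one)
      (by rw [Matrix.transpose_one, one_smul]) (by rw [Matrix.det_one]; exact isUnit_one)
    refine ⟨A, J, hJ, hch, ?_⟩
    have h7 := hsq rfl h4 h5
    obtain ⟨y, hy⟩ := h7
    obtain ⟨z, hz⟩ := h6
    have hP : eval 1 f * eval (-1) f ≠ 0 := mul_ne_zero h4 h5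
    refine ⟨y * z / (eval 1 f * eval (-1) f), ?_⟩
    rw [hJd, Matrix.det_one, Matrix.det_one]
    have e1 : y * z / (eval 1 f * eval (-1) f) * (y * z / (eval 1 f * eval (-1) f)) = ((y * y) * (z * z)) / ((eval 1 f * eval (-1) f) * (eval 1 f * eval (-1) f)) := by
      field_simp
    rw [e1, ← hy, ← hz]
    field_simp

/-- moving into the fixed form -/
theorem mem_of_congr {N : ℕ} {ε : F} {G : Type*} [Group G] (J₀ : Matrix (Fin N) (Fin N) F) (ρ : G →* GL (Fin N) F)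
    (hr : ∀ A : GL (Fin N) F, (A : Matrix (Fin N) (Fin N) F).transpose * J₀ * (A : Matrix (Fin N) (Fin N) F) = J₀ → ∃ x, ρ x = A)
    {A : GL (Fin N) F} {J : Matrix (Fin N) (Fin N) F} (hJ : InvForm ε A J) (C : Matrix (Fin N) (Fin N) F) (hC : IsUnit C.det)
    (hCJ : C.transpose * J * C = J₀) : ∃ x, (ρ x : Matrix (Fin N) (Fin N) F).charpoly = (A : Matrix (Fin N) (Fin N) F).charpoly := by
  obtain ⟨c, hc⟩ := (Matrix.isUnit_iff_isUnit_det _).2 hC
  have h1 := hJ.conj (A' := c⁻¹ * A * c) (c⁻¹) (by group)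
  rw [inv_inv, hc, hCJ] at h1
  obtain ⟨x, hx⟩ := hr _ h1.2.2
  refine ⟨x, ?_⟩
  rw [hx, Units.val_mul, Units.val_mul, Matrix.coe_units_inv]
  exact Matrix.charpoly_units_conj' c (A : Matrix (Fin N) (Fin N) F)

theorem card_ge_of_charpoly {N : ℕ} {G : Type*} [Group G] [Finite G] (ρ : G →* GL (Fin N) F) (S : Set F[X])
    (hS : ∀ f ∈ S, ∃ x, (ρ x : Matrix (Fin N) (Fin N) F).charpoly = f) : Nat.card S ≤ Nat.card (ConjClasses G) := by
  have hex : ∀ f : S, ∃ x, (ρ x : Matrix (Fin N) (Fin N) F).charpoly = f.1 := fun f => hS f.1 f.2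
  choose x hx using hex
  have : Finite (ConjClasses G) := inferInstance
  apply Nat.card_le_card_of_injective (fun f => ConjClasses.mk (x f))
  intro f f' h
  have h1 : IsConj (x f) (x f') := ConjClasses.mk_eq_mk_iff_isConj.1 h
  obtain ⟨c, hc⟩ := isConj_iff.1 h1
  apply Subtype.ext
  rw [← hx f, ← hx f', ← hc, map_mul, map_mul, Units.val_mul, Units.val_mul, map_inv, Matrix.coe_units_inv]
  exact (Matrix.charpoly_units_conj (ρ c) _).symm

theorem lower_sp (h2 : (2 : F) ≠ 0) (n : ℕ) {G : Type*} [Group G] [Finite G] (J₀ : Matrix (Fin (2 * n)) (Fin (2 * n)) F) (hJ₀ : J₀.transpose = -J₀)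
    (hJ₀' : IsUnit J₀.det) (ρ : G →* GL (Fin (2 * n)) F)
    (hr : ∀ A : GL (Fin (2 * n)) F, (A : Matrix (Fin (2 * n)) (Fin (2 * n)) F).transpose * J₀ * (A : Matrix (Fin (2 * n)) (Fin (2 * n)) F) = J₀ → ∃ x, ρ x = A) :
    Fintype.card F ^ n ≤ Nat.card (ConjClasses G) := by
  obtain ⟨hfin, hcard⟩ := card_SDp (F := F) n
  rw [Nat.card_eq_fintype_card (α := F)] at hcard
  rw [← hcard]
  apply card_ge_of_charpoly ρ
  intro f hf
  obtain ⟨A, J, hJ, hch⟩ := exists_sp_poly h2 hf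
  obtain ⟨C, hC, hCJ⟩ := alt_congr h2 (G := J) (G' := J₀) (by rw [hJ.1, neg_one_smul]) hJ₀ hJ.2.1 hJ₀'
  obtain ⟨x, hx⟩ := mem_of_congr J₀ ρ hr hJ C hC hCJ
  exact ⟨x, hx.trans hch⟩

/-- changing the values at `±1` -/
theorem exists_adjust (h2 : (2 : F) ≠ 0) (n : ℕ) (hn : 2 ≤ n) : ∃ T : F[X] → F → F → F[X],
    (∀ f u v, f ∈ SDp F n → T f u v ∈ SDp F n) ∧ (∀ f u v, eval 1 (T f u v) = u) ∧ (∀ f u v, eval (-1) (T f u v) = v) ∧
    (∀ f u v, T (T f u v) (eval 1 f) (eval (-1) f) = f) := by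
  obtain ⟨s, hs⟩ : ∃ s : F, s = (-1) ^ n := ⟨_, rfl⟩
  have hss : s * s = 1 := by rw [hs, ← mul_pow]; simp
  obtain ⟨P, hP⟩ : ∃ P : F[X], P = X ^ n := ⟨_, rfl⟩
  obtain ⟨Q, hQ⟩ : ∃ Q : F[X], Q = X ^ (n - 1) + X ^ (n + 1) := ⟨_, rfl⟩
  have h4 : (4 : F) ≠ 0 := by
    have : (4 : F) = 2 * 2 := by norm_num
    rw [this]; exact mul_ne_zero h2 h2
  have eP1 : eval 1 P = 1 := by rw [hP]; simp
  have eP2 : eval (-1) P = s := by rw [hP, hs]; simp
  have eQ1 : eval 1 Q = 2 := by rw [hQ]; simp; norm_num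
  have eQ2 : eval (-1) Q = -(2 * s) := by
    rw [hQ, hs]
    obtain ⟨m, rfl⟩ : ∃ m, n = m + 1 := ⟨n - 1, by omega⟩
    simp only [eval_add, eval_pow, eval_X, Nat.add_sub_cancel]
    ring
  obtain ⟨x, hx⟩ : ∃ x : F[X] → F → F → F, ∀ f u v, x f u v = ((u - eval 1 f) + s * (v - eval (-1) f)) / 2 := ⟨_, fun _ _ _ => rfl⟩
  obtain ⟨y, hy⟩ : ∃ y : F[X] → F → F → F, ∀ f u v, y f u v = ((u - eval 1 f) - s * (v - eval (-1) f)) / 4 := ⟨_, fun _ _ _ => rfl⟩
  obtain ⟨T, hT⟩ : ∃ T : F[X] → F → F → F[X], ∀ f u v, T f u v = f + C (x f u v) * P + C (y f u v) * Q := ⟨_, fun _ _ _ => rfl⟩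
  have hT1 : ∀ f u v, eval 1 (T f u v) = u := by
    intro f u v
    rw [hT, eval_add, eval_add, eval_mul, eval_mul, eval_C, eval_C, eP1, eQ1, hx, hy]
    have h22 : (4 : F) = 2 * 2 := by norm_num
    rw [h22]
    field_simp
    ring
  have hT2 : ∀ f u v, eval (-1) (T f u v) = v := by
    intro f u v
    rw [hT, eval_add, eval_add, eval_mul, eval_mul, eval_C, eval_C, eP2, eQ2, hx, hy]
    have e1 : eval (-1) f + ((u - eval 1 f) + s * (v - eval (-1) f)) / 2 * s + ((u - eval 1 f) - s * (v - eval (-1) f)) / 4 * -(2 * s) =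
        eval (-1) f + (s * s) * (v - eval (-1) f) := by
      have h22 : (4 : F) = 2 * 2 := by norm_num
      rw [h22]
      field_simp
      ring
    rw [e1, hss]; ring
  refine ⟨T, ?_, hT1, hT2, ?_⟩
  · intro f u v hf
    obtain ⟨hm, h0, hd, hdeg⟩ := hf
    have hPd : P.degree < ((2 * n : ℕ) : WithBot ℕ) := by
      rw [hP, degree_X_pow]; exact_mod_cast (by omega : n < 2 * n)
    have hQd : Q.degree < ((2 * n : ℕ) : WithBot ℕ) := by
      rw [hQ]
      refine lt_of_le_of_lt (degree_add_le _ _) ?_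
      rw [degree_X_pow, degree_X_pow, max_lt_iff]
      exact ⟨by exact_mod_cast (by omega : n - 1 < 2 * n), by exact_mod_cast (by omega : n + 1 < 2 * n)⟩
    have hsum : (C (x f u v) * P + C (y f u v) * Q).degree < f.degree := by
      rw [degree_eq_natDegree hm.ne_zero, hdeg]
      refine lt_of_le_of_lt (degree_add_le _ _) ?_
      rw [max_lt_iff]
      constructor
      · exact lt_of_le_of_lt (by rw [C_mul']; exact degree_smul_le _ _) hPd
      · exact lt_of_le_of_lt (by rw [C_mul']; exact degree_smul_le _ _) hQd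
    have hTeq : T f u v = f + (C (x f u v) * P + C (y f u v) * Q) := by rw [hT, add_assoc]
    have hcoef : ∀ i, (T f u v).coeff i = f.coeff i + x f u v * (if i = n then 1 else 0) + y f u v * ((if i = n - 1 then 1 else 0) + (if i = n + 1 then 1 else 0)) := by
      intro i
      rw [hT, coeff_add, coeff_add, coeff_C_mul, coeff_C_mul, hP, hQ, coeff_add, coeff_X_pow, coeff_X_pow, coeff_X_pow]
    have hTm : (T f u v).Monic := by rw [hTeq]; exact hm.add_of_left hsum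
    have hTd : (T f u v).natDegree = 2 * n := by
      rw [hTeq, natDegree_add_eq_left_of_degree_lt hsum, hdeg]
    have hT0 : (T f u v).coeff 0 = 1 := by
      rw [hcoef, h0, if_neg (by omega), if_neg (by omega), if_neg (by omega)]; ring
    refine ⟨hTm, hT0, ?_, hTd⟩
    apply dag_eq_self (RingHom.id F) hTm
    · rw [hT0, RingHom.id_apply, one_mul]
    · intro i hi hi2
      rw [hTd] at hi2 ⊢
      rw [hT0, one_mul, RingHom.id_apply, hcoef, hcoef, SDp_coeff ⟨hm, h0, hd, hdeg⟩ i hi2.le]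
      have e1 : (2 * n - i = n) ↔ (i = n) := by omega
      have e2 : (2 * n - i = n - 1) ↔ (i = n + 1) := by omega
      have e3 : (2 * n - i = n + 1) ↔ (i = n - 1) := by omega
      simp only [e1, e2, e3]
      ring
  · intro f u v
    rw [hT (T f u v)]
    have e1 : x (T f u v) (eval 1 f) (eval (-1) f) = -(x f u v) := by
      rw [hx, hx, hT1, hT2]; ring
    have e2 : y (T f u v) (eval 1 f) (eval (-1) f) = -(y f u v) := by
      rw [hy, hy, hT1, hT2]; ring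
    rw [e1, e2, hT, C_neg, C_neg]; ring

/-- polynomials realized in a given type -/
def SO (F : Type*) [Field F] (n : ℕ) (c : F) : Set F[X] :=
  {f | f ∈ SDp F n ∧ (eval 1 f = 0 ∨ (eval 1 f ≠ 0 ∧ eval (-1) f ≠ 0 ∧ IsSquare (eval 1 f * eval (-1) f * c)))}

theorem card_SO (h2 : (2 : F) ≠ 0) (n : ℕ) (hn : 2 ≤ n) (c : F) (hc : c ≠ 0) : Fintype.card F ^ n ≤ 2 * Nat.card (SO F n c) := by
  classical
  obtain ⟨hfin, hcard⟩ := card_SDp (F := F) n
  rw [Nat.card_eq_fintype_card (α := F)] at hcard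
  obtain ⟨T, hT1, hT2, hT3, hT4⟩ := exists_adjust h2 n hn
  obtain ⟨ν, hν⟩ : ∃ ν : F, ¬ IsSquare ν := FiniteField.exists_nonsquare (by
    intro h
    have h3 : ringChar F = 2 := h
    exact h2 (by have := ringChar.Nat.cast_ringChar (R := F); rw [h3] at this; exact_mod_cast this))
  have hν0 : ν ≠ 0 := by rintro rfl; exact hν ⟨0, by ring⟩
  have hns : ∀ x y : F, x ≠ 0 → y ≠ 0 → ¬ IsSquare x → ¬ IsSquare y → IsSquare (x * y) := by
    intro x y hx hy h3 h4
    have e1 := quadraticChar_neg_one_iff_not_isSquare.2 h3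
    have e2 := quadraticChar_neg_one_iff_not_isSquare.2 h4
    rw [← quadraticChar_one_iff_isSquare (mul_ne_zero hx hy), map_mul, e1, e2]; norm_num
  obtain ⟨S, hS⟩ : ∃ S : Set F[X], S = {f | f ∈ SDp F n ∧ f ∉ SO F n c} := ⟨_, rfl⟩
  have hSfin : Finite S := by
    rw [hS]
    exact Finite.Set.subset (SDp F n) (fun f hf => hf.1)
  have hSOfin : Finite (SO F n c) := Finite.Set.subset (SDp F n) (fun f hf => hf.1)
  have hsplit : Nat.card (SDp F n) ≤ Nat.card (SO F n c) + Nat.card S := by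
    have : SDp F n ⊆ SO F n c ∪ S := by
      intro f hf
      by_cases h : f ∈ SO F n c
      · left; exact h
      · right; rw [hS]; exact ⟨hf, h⟩
    have hf2 : (SO F n c ∪ S).Finite := Set.Finite.union hSOfin hSfin
    rw [Nat.card_coe_set_eq, Nat.card_coe_set_eq, Nat.card_coe_set_eq]
    exact (Set.ncard_le_ncard this hf2).trans (Set.ncard_union_le _ _)
  have hSm : ∀ f ∈ S, f ∈ SDp F n ∧ eval 1 f ≠ 0 ∧ (eval (-1) f ≠ 0 → ¬ IsSquare (eval 1 f * eval (-1) f * c)) := by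
    intro f hf
    rw [hS] at hf
    obtain ⟨h3, h4⟩ := hf
    have h5 : eval 1 f ≠ 0 := fun h => h4 ⟨h3, Or.inl h⟩
    exact ⟨h3, h5, fun h6 h7 => h4 ⟨h3, Or.inr ⟨h5, h6, h7⟩⟩⟩
  let Φ : S → SO F n c := fun f => if h : eval (-1) f.1 = 0 then ⟨T f.1 0 (eval 1 f.1), hT1 _ _ _ (hSm f.1 f.2).1, Or.inl (hT2 _ _ _)⟩
    else ⟨T f.1 (ν * eval 1 f.1) (eval (-1) f.1), hT1 _ _ _ (hSm f.1 f.2).1, Or.inr (by
      obtain ⟨h3, h4, h5⟩ := hSm f.1 f.2
      rw [hT2, hT3]
      refine ⟨mul_ne_zero hν0 h4, h, ?_⟩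
      have := hns ν (eval 1 f.1 * eval (-1) f.1 * c) hν0 (mul_ne_zero (mul_ne_zero h4 h) hc) hν (h5 h)
      have e : ν * eval 1 f.1 * eval (-1) f.1 * c = ν * (eval 1 f.1 * eval (-1) f.1 * c) := by ring
      rw [e]; exact this)⟩
  have hΦ1 : ∀ f : S, eval (-1) f.1 = 0 → (Φ f).1 = T f.1 0 (eval 1 f.1) := by
    intro f h; simp only [Φ]; rw [dif_pos h]
  have hΦ2 : ∀ f : S, eval (-1) f.1 ≠ 0 → (Φ f).1 = T f.1 (ν * eval 1 f.1) (eval (-1) f.1) := by
    intro f h; simp only [Φ]; rw [dif_neg h]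
  have hinj : Function.Injective Φ := by
    intro f g hfg
    have h3 : (Φ f).1 = (Φ g).1 := congrArg Subtype.val hfg
    have hf1 := (hSm f.1 f.2).2.1
    have hg1 := (hSm g.1 g.2).2.1
    have key : eval 1 f.1 = eval 1 g.1 ∧ eval (-1) f.1 = eval (-1) g.1 ∧ ∃ u v, (Φ f).1 = T f.1 u v ∧ (Φ g).1 = T g.1 u v := by
      by_cases h : eval (-1) f.1 = 0
      · by_cases h' : eval (-1) g.1 = 0
        · have e1 := hΦ1 f h
          have e2 := hΦ1 g h'
          have e3 : eval 1 f.1 = eval 1 g.1 := by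
            have := congrArg (eval (-1)) h3
            rwa [e1, e2, hT3, hT3] at this
          exact ⟨e3, h.trans h'.symm, 0, eval 1 f.1, e1, by rw [e2, e3]⟩
        · exfalso
          have := congrArg (eval 1) h3
          rw [hΦ1 f h, hΦ2 g h', hT2, hT2] at this
          exact mul_ne_zero hν0 hg1 this.symm
      · by_cases h' : eval (-1) g.1 = 0
        · exfalso
          have := congrArg (eval 1) h3
          rw [hΦ2 f h, hΦ1 g h', hT2, hT2] at this
          exact mul_ne_zero hν0 hf1 this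
        · have e1 := hΦ2 f h
          have e2 := hΦ2 g h'
          have e3 : eval 1 f.1 = eval 1 g.1 := by
            have := congrArg (eval 1) h3
            rw [e1, e2, hT2, hT2] at this
            exact mul_left_cancel₀ hν0 this
          have e4 : eval (-1) f.1 = eval (-1) g.1 := by
            have := congrArg (eval (-1)) h3
            rwa [e1, e2, hT3, hT3] at this
          exact ⟨e3, e4, ν * eval 1 f.1, eval (-1) f.1, e1, by rw [e2, e3, e4]⟩
    obtain ⟨e1, e2, u, v, e3, e4⟩ := key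
    apply Subtype.ext
    rw [← hT4 f.1 u v, ← hT4 g.1 u v, ← e3, ← e4, h3, e1, e2]
  have h3 := Nat.card_le_card_of_injective Φ hinj
  rw [hcard] at hsplit
  omega

theorem lower_o (h2 : (2 : F) ≠ 0) (n : ℕ) (hn : 2 ≤ n) {G : Type*} [Group G] [Finite G] (J₀ : Matrix (Fin (2 * n)) (Fin (2 * n)) F) (hJ₀ : J₀.transpose = J₀)
    (hJ₀' : IsUnit J₀.det) (ρ : G →* GL (Fin (2 * n)) F)
    (hr : ∀ A : GL (Fin (2 * n)) F, (A : Matrix (Fin (2 * n)) (Fin (2 * n)) F).transpose * J₀ * (A : Matrix (Fin (2 * n)) (Fin (2 * n)) F) = J₀ → ∃ x, ρ x = A) :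
    Fintype.card F ^ n ≤ 2 * Nat.card (ConjClasses G) := by
  have h3 := card_SO h2 n hn J₀.det hJ₀'.ne_zero
  have h4 : Nat.card (SO F n J₀.det) ≤ Nat.card (ConjClasses G) := by
    apply card_ge_of_charpoly ρ
    intro f hf
    obtain ⟨A, J, hJ, hch, hsq⟩ := exists_o_poly h2 hf.1 J₀.det hJ₀'.ne_zero hf.2
    have hiff : IsSquare J.det ↔ IsSquare J₀.det := by
      have ha := hJ.2.1.ne_zero
      have hb := hJ₀'.ne_zero
      obtain ⟨z, hz⟩ := hsq
      constructor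
      · rintro ⟨w, hw⟩
        have hw0 : w ≠ 0 := by rintro rfl; apply ha; rw [hw, mul_zero]
        refine ⟨z / w, ?_⟩
        rw [div_mul_div_comm, ← hz, ← hw]; field_simp
      · rintro ⟨w, hw⟩
        have hw0 : w ≠ 0 := by rintro rfl; apply hb; rw [hw, mul_zero]
        refine ⟨z / w, ?_⟩
        rw [div_mul_div_comm, ← hz, ← hw]; field_simp
    obtain ⟨C, hC, hCJ⟩ := symm_congr h2 (G := J) (G' := J₀) (by rw [hJ.1, one_smul]) hJ₀ hJ.2.1 hJ₀' hiff
    obtain ⟨x, hx⟩ := mem_of_congr J₀ ρ hr hJ C hC hCJ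
    exact ⟨x, hx.trans hch⟩
  omega

end

end Cfsg.Agent.H43
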