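import Mathlib
import Cfsg.Agent.H43.FormLower
import Cfsg.Prelude.Def_Classical

set_option autoImplicit false
set_option linter.unusedSectionVars false
set_option linter.unusedVariables false

/-! Class numbers of isometry groups: final form. -/

namespace Cfsg.Agent.H43

open Polynomial

section
variable {F : Type*} [Field F] [Fintype F] {ι : Type*} [Fintype ι] [DecidableEq ι]

theorem reindex_group {N : ℕ} (hι : Fintype.card ι = N) (J : Matrix ι ι F) {G : Type*} [Group G] (φ : G →* GL ι F) (hφ : Function.Injective φ)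
    (hr : ∀ A : GL ι F, (∃ x, φ x = A) ↔ (A : Matrix ι ι F).transpose * J * (A : Matrix ι ι F) = J) :
    ∃ (J₀ : Matrix (Fin N) (Fin N) F) (ρ : G →* GL (Fin N) F), Function.Injective ρ ∧ (∀ A : GL (Fin N) F, (∃ x, ρ x = A) ↔
      (A : Matrix (Fin N) (Fin N) F).transpose * J₀ * (A : Matrix (Fin N) (Fin N) F) = J₀) ∧ J₀.det = J.det ∧ (∀ ε : F, J.transpose = ε • J → J₀.transpose = ε • J₀) := by
  obtain ⟨e⟩ : Nonempty (ι ≃ Fin N) := ⟨Fintype.equivFinOfCardEq hι⟩
  let E : GL ι F ≃* GL (Fin N) F := Units.mapEquiv (Matrix.reindexAlgEquiv F F e).toMulEquiv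
  have hE : ∀ A : GL ι F, ((E A : GL (Fin N) F) : Matrix (Fin N) (Fin N) F) = (A : Matrix ι ι F).submatrix e.symm e.symm := fun A => rfl
  refine ⟨J.submatrix e.symm e.symm, E.toMonoidHom.comp φ, ?_, ?_, ?_, ?_⟩
  · exact E.injective.comp hφ
  · intro A
    obtain ⟨B, rfl⟩ := E.surjective A
    have h1 : (∃ x, (E.toMonoidHom.comp φ) x = E B) ↔ ∃ x, φ x = B := by
      constructor
      · rintro ⟨x, hx⟩
        exact ⟨x, E.injective hx⟩
      · rintro ⟨x, hx⟩
        exact ⟨x, congrArg E hx⟩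
    rw [h1, hr, hE, Matrix.transpose_submatrix, Matrix.submatrix_mul_equiv, Matrix.submatrix_mul_equiv]
    constructor
    · intro h; rw [h]
    · intro h
      have h2 := congrArg (fun M : Matrix (Fin N) (Fin N) F => M.submatrix e e) h
      simp only [Matrix.submatrix_submatrix, Equiv.symm_comp_self, Matrix.submatrix_id_id] at h2
      exact h2
  · rw [Matrix.det_submatrix_equiv_self]
  · intro ε h
    rw [Matrix.transpose_submatrix, h]; rfl

theorem hconj_of_range {N : ℕ} {G : Type*} [Group G] (J : Matrix (Fin N) (Fin N) F) (ρ : G →* GL (Fin N) F) (hρ : Function.Injective ρ)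
    (hr : ∀ A : GL (Fin N) F, (∃ x, ρ x = A) ↔ (A : Matrix (Fin N) (Fin N) F).transpose * J * (A : Matrix (Fin N) (Fin N) F) = J) :
    ∀ x y, ∀ c : GL (Fin N) F, (c : Matrix (Fin N) (Fin N) F).transpose * J * (c : Matrix (Fin N) (Fin N) F) = J → c * ρ x = ρ y * c → IsConj x y := by
  intro x y c hc hxy
  obtain ⟨z, rfl⟩ := (hr c).2 hc
  rw [← map_mul, ← map_mul] at hxy
  have h1 := hρ hxy
  exact isConj_iff.2 ⟨z, by rw [h1]; group⟩

theorem sp_bounds (h2 : (2 : F) ≠ 0) (hq : 3 ≤ Fintype.card F) (n : ℕ) (hn : 1 ≤ n) (hι : Fintype.card ι = 2 * n) (J : Matrix ι ι F) (hJ : J.transpose = -J)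
    (hJ' : IsUnit J.det) {G : Type*} [Group G] [Finite G] (φ : G →* GL ι F) (hφ : Function.Injective φ)
    (hr : ∀ A : GL ι F, (∃ x, φ x = A) ↔ (A : Matrix ι ι F).transpose * J * (A : Matrix ι ι F) = J) :
    Fintype.card F ^ n ≤ Nat.card (ConjClasses G) ∧ 5 * Nat.card (ConjClasses G) ≤ 54 * Fintype.card F ^ n := by
  obtain ⟨J₀, ρ, hρ, hr', hdet, hsym⟩ := reindex_group hι J φ hφ hr
  have hJ0 : J₀.transpose = (-1 : F) • J₀ := hsym (-1) (by rw [hJ, neg_one_smul])
  constructor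
  · exact lower_sp h2 n J₀ (by rw [hJ0, neg_one_smul]) (by rw [hdet]; exact hJ') ρ (fun A hA => (hr' A).2 hA)
  · exact upper_sp h2 hq n hn rfl J₀ ρ (fun x => ⟨hJ0, by rw [hdet]; exact hJ', (hr' _).1 ⟨x, rfl⟩⟩) (hconj_of_range J₀ ρ hρ hr')

theorem o_bounds (h2 : (2 : F) ≠ 0) (hq : 3 ≤ Fintype.card F) (n : ℕ) (hn : 2 ≤ n) (hι : Fintype.card ι = 2 * n) (J : Matrix ι ι F) (hJ : J.transpose = J)
    (hJ' : IsUnit J.det) {G : Type*} [Group G] [Finite G] (φ : G →* GL ι F) (hφ : Function.Injective φ)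
    (hr : ∀ A : GL ι F, (∃ x, φ x = A) ↔ (A : Matrix ι ι F).transpose * J * (A : Matrix ι ι F) = J) :
    Fintype.card F ^ n ≤ 2 * Nat.card (ConjClasses G) ∧ 2 * Nat.card (ConjClasses G) ≤ 19 * Fintype.card F ^ n := by
  obtain ⟨J₀, ρ, hρ, hr', hdet, hsym⟩ := reindex_group hι J φ hφ hr
  have hJ0 : J₀.transpose = (1 : F) • J₀ := hsym 1 (by rw [hJ, one_smul])
  constructor
  · exact lower_o h2 n hn J₀ (by rw [hJ0, one_smul]) (by rw [hdet]; exact hJ') ρ (fun A hA => (hr' A).2 hA)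
  · exact upper_o h2 hq n (by omega) rfl J₀ ρ (fun x => ⟨hJ0, by rw [hdet]; exact hJ', (hr' _).1 ⟨x, rfl⟩⟩) (hconj_of_range J₀ ρ hρ hr')

end

section
variable {F : Type*} [Field F] [Fintype F]

theorem odd_card_facts (hodd : Odd (Fintype.card F)) : (2 : F) ≠ 0 ∧ 3 ≤ Fintype.card F := by
  have h1 : ringChar F ≠ 2 := by
    intro h
    rw [FiniteField.even_card_iff_char_two] at h
    exact (Nat.not_even_iff_odd.2 hodd) (Nat.even_iff.2 h)
  refine ⟨Ring.two_ne_zero h1, ?_⟩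
  have h2 : 1 < Fintype.card F := Fintype.one_lt_card
  obtain ⟨m, hm⟩ := hodd
  omega

theorem symp_final (hodd : Odd (Fintype.card F)) (n : ℕ) (hn : 1 ≤ n) :
    Fintype.card F ^ n ≤ Nat.card (ConjClasses (Matrix.symplecticGroup (Fin n) F)) ∧ 5 * Nat.card (ConjClasses (Matrix.symplecticGroup (Fin n) F)) ≤ 54 * Fintype.card F ^ n := by
  classical
  obtain ⟨h2, hq⟩ := odd_card_facts hodd
  let φ : Matrix.symplecticGroup (Fin n) F →* GL (Fin n ⊕ Fin n) F := (Submonoid.subtype (Matrix.symplecticGroup (Fin n) F)).toHomUnits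
  have hφ : ∀ x, ((φ x : GL (Fin n ⊕ Fin n) F) : Matrix (Fin n ⊕ Fin n) (Fin n ⊕ Fin n) F) = x.1 := fun x => rfl
  have hcard : Fintype.card (Fin n ⊕ Fin n) = 2 * n := by rw [Fintype.card_sum, Fintype.card_fin, two_mul]
  refine sp_bounds h2 hq n hn hcard (Matrix.J (Fin n) F) (Matrix.J_transpose _ _) (Matrix.isUnit_det_J _ _) φ ?_ ?_
  · intro x y h
    apply Subtype.ext
    rw [← hφ, ← hφ, h]
  · intro A
    rw [← SymplecticGroup.mem_iff']
    constructor
    · rintro ⟨x, rfl⟩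
      exact x.2
    · intro h
      exact ⟨⟨_, h⟩, Units.ext rfl⟩

end

section
variable {F : Type*} [Field F] [Fintype F] {ι : Type} [Fintype ι] [DecidableEq ι]

theorem mem_isometryGroup_iff (h2 : (2 : F) ≠ 0) (Q : (ι → F) → F) (J : Matrix ι ι F) (hJ : J.transpose = J) (hQ : ∀ v, 2 * Q v = dotProduct v (J.mulVec v)) (g : GL ι F) :
    g ∈ Cfsg.isometryGroup F Q ↔ (g : Matrix ι ι F).transpose * J * (g : Matrix ι ι F) = J := by
  have hmem : g ∈ Cfsg.isometryGroup F Q ↔ ∀ v, Q ((g : Matrix ι ι F).mulVec v) = Q v := by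
    constructor
    · intro h v
      exact h v v
    · intro h v w
      exact h v
  rw [hmem]
  have e1 : ∀ v, 2 * Q ((g : Matrix ι ι F).mulVec v) = bf ((g : Matrix ι ι F).transpose * J * (g : Matrix ι ι F)) v v := by
    intro v
    rw [hQ, ← bf_mulVec, bf_apply]
  have e2 : ∀ v, 2 * Q v = bf J v v := by intro v; rw [hQ, bf_apply]
  constructor
  · intro h
    obtain ⟨K, hK⟩ : ∃ K, K = (g : Matrix ι ι F).transpose * J * (g : Matrix ι ι F) := ⟨_, rfl⟩
    have hKs : K.transpose = K := by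
      rw [hK, Matrix.transpose_mul, Matrix.transpose_mul, Matrix.transpose_transpose, hJ, mul_assoc]
    rw [← hK] at e1 ⊢
    have h3 : ∀ v, bf K v v = bf J v v := by
      intro v
      rw [← e1, ← e2, h]
    have hs : ∀ (M : Matrix ι ι F), M.transpose = M → ∀ x y, bf M y x = bf M x y := by
      intro M hM x y
      have := bf_symm (G := M) (ε := 1) (by rw [one_smul]; exact hM) x y
      rw [this, one_mul]
    apply bf_ext
    intro x y
    have h4 := h3 (x + y)
    simp only [map_add, LinearMap.add_apply] at h4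
    rw [h3 x, h3 y, hs K hKs x y, hs J hJ x y] at h4
    have h5 : 2 * (bf K x y - bf J x y) = 0 := by linear_combination h4
    rcases mul_eq_zero.1 h5 with h6 | h6
    · exact absurd h6 h2
    · exact sub_eq_zero.1 h6
  · intro h v
    have h3 : 2 * (Q ((g : Matrix ι ι F).mulVec v) - Q v) = 0 := by
      rw [mul_sub, e1, e2, h, sub_self]
    rcases mul_eq_zero.1 h3 with h6 | h6
    · exact absurd h6 h2
    · exact sub_eq_zero.1 h6

theorem isometry_bounds (h2 : (2 : F) ≠ 0) (hq : 3 ≤ Fintype.card F) (n : ℕ) (hn : 2 ≤ n) (hι : Fintype.card ι = 2 * n) (Q : (ι → F) → F) (J : Matrix ι ι F) (hJ : J.transpose = J)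
    (hJ' : IsUnit J.det) (hQ : ∀ v, 2 * Q v = dotProduct v (J.mulVec v)) :
    Fintype.card F ^ n ≤ 2 * Nat.card (ConjClasses ↥(Cfsg.isometryGroup F Q)) ∧ 2 * Nat.card (ConjClasses ↥(Cfsg.isometryGroup F Q)) ≤ 19 * Fintype.card F ^ n := by
  refine o_bounds h2 hq n hn hι J hJ hJ' (Cfsg.isometryGroup F Q).subtype Subtype.coe_injective ?_
  intro A
  rw [← mem_isometryGroup_iff h2 Q J hJ hQ A]
  constructor
  · rintro ⟨x, rfl⟩
    exact x.2
  · intro h
    exact ⟨⟨A, h⟩, rfl⟩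

theorem plus_mulVec (m : ℕ) (v : Fin m ⊕ Fin m → F) :
    dotProduct v ((Matrix.fromBlocks (0 : Matrix (Fin m) (Fin m) F) 1 1 0).mulVec v) = 2 * ∑ i : Fin m, v (.inl i) * v (.inr i) := by
  rw [Matrix.fromBlocks_mulVec]
  simp only [dotProduct, Fintype.sum_sum_type, Sum.elim_inl, Sum.elim_inr, Matrix.zero_mulVec, Matrix.one_mulVec, zero_add, add_zero, Function.comp_apply]
  rw [two_mul]
  congr 1
  apply Finset.sum_congr rfl
  intro i _
  ring

theorem det_plus (m : ℕ) : IsUnit (Matrix.fromBlocks (0 : Matrix (Fin m) (Fin m) F) (1 : Matrix (Fin m) (Fin m) F) (1 : Matrix (Fin m) (Fin m) F) 0).det := by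
  have h1 : Matrix.fromBlocks (0 : Matrix (Fin m) (Fin m) F) (1 : Matrix (Fin m) (Fin m) F) (1 : Matrix (Fin m) (Fin m) F) 0 *
      Matrix.fromBlocks (0 : Matrix (Fin m) (Fin m) F) (1 : Matrix (Fin m) (Fin m) F) (1 : Matrix (Fin m) (Fin m) F) 0 = 1 := by
    rw [Matrix.fromBlocks_multiply]; simp
  have h3 := congrArg Matrix.det h1
  rw [Matrix.det_mul, Matrix.det_one] at h3
  exact IsUnit.of_mul_eq_one _ h3

theorem orth_final (hodd : Odd (Fintype.card F)) (n : ℕ) (hn : 2 ≤ n) (a b : F) (hab : ∀ z₁ z₂ : F, z₁ ^ 2 + a * z₁ * z₂ + b * z₂ ^ 2 = 0 → z₁ = 0 ∧ z₂ = 0) :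
    (Fintype.card F ^ n ≤ 2 * Nat.card (ConjClasses ↥(Cfsg.isometryGroup F (Cfsg.quadFormPlus n F))) ∧
      2 * Nat.card (ConjClasses ↥(Cfsg.isometryGroup F (Cfsg.quadFormPlus n F))) ≤ 19 * Fintype.card F ^ n) ∧
    (Fintype.card F ^ n ≤ 2 * Nat.card (ConjClasses ↥(Cfsg.isometryGroup F (Cfsg.quadFormMinus (n - 1) F a b))) ∧
      2 * Nat.card (ConjClasses ↥(Cfsg.isometryGroup F (Cfsg.quadFormMinus (n - 1) F a b))) ≤ 19 * Fintype.card F ^ n) := by
  obtain ⟨h2, hq⟩ := odd_card_facts hodd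
  constructor
  · refine isometry_bounds h2 hq n hn ?_ _ (Matrix.fromBlocks 0 1 1 0) ?_ (det_plus n) ?_
    · rw [Fintype.card_sum, Fintype.card_fin, two_mul]
    · rw [Matrix.fromBlocks_transpose]; simp
    · intro v
      rw [plus_mulVec]; rfl
  · refine isometry_bounds h2 hq n hn ?_ _ (Matrix.fromBlocks (Matrix.fromBlocks 0 1 1 0) 0 0 !![2, a; a, 2 * b]) ?_ ?_ ?_
    · rw [Fintype.card_sum, Fintype.card_sum, Fintype.card_fin, Fintype.card_fin]; omega
    · rw [Matrix.fromBlocks_transpose, Matrix.fromBlocks_transpose]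
      simp only [Matrix.transpose_zero, Matrix.transpose_one]
      congr 1
      ext i j
      fin_cases i <;> fin_cases j <;> rfl
    · rw [Matrix.det_fromBlocks_zero₂₁]
      apply (det_plus (n - 1)).mul
      rw [Matrix.det_fin_two_of, isUnit_iff_ne_zero]
      intro h
      have h3 := hab (-a) 2 (by linear_combination h)
      exact h2 h3.2
    · intro v
      rw [Matrix.fromBlocks_mulVec]
      have e1 : dotProduct v (Sum.elim ((Matrix.fromBlocks (0 : Matrix (Fin (n - 1)) (Fin (n - 1)) F) 1 1 0).mulVec (v ∘ Sum.inl) + (0 : Matrix (Fin (n - 1) ⊕ Fin (n - 1)) (Fin 2) F).mulVec (v ∘ Sum.inr))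
          ((0 : Matrix (Fin 2) (Fin (n - 1) ⊕ Fin (n - 1)) F).mulVec (v ∘ Sum.inl) + (!![2, a; a, 2 * b] : Matrix (Fin 2) (Fin 2) F).mulVec (v ∘ Sum.inr))) =
          dotProduct (v ∘ Sum.inl) ((Matrix.fromBlocks (0 : Matrix (Fin (n - 1)) (Fin (n - 1)) F) 1 1 0).mulVec (v ∘ Sum.inl)) +
          dotProduct (v ∘ Sum.inr) ((!![2, a; a, 2 * b] : Matrix (Fin 2) (Fin 2) F).mulVec (v ∘ Sum.inr)) := by
        rw [Matrix.zero_mulVec, Matrix.zero_mulVec, add_zero, zero_add]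
        simp only [dotProduct, Fintype.sum_sum_type, Sum.elim_inl, Sum.elim_inr, Function.comp_apply]
      rw [e1, plus_mulVec]
      unfold Cfsg.quadFormMinus
      simp [dotProduct, Matrix.mulVec, Fin.sum_univ_two, Matrix.vecHead, Matrix.vecTail]
      ring

end

end Cfsg.Agent.H43
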