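import Mathlib
import Cfsg.Agent.H43.FormMap

set_option autoImplicit false
set_option linter.unusedSectionVars false
set_option linter.unusedVariables false

/-! The label map with its labels. -/

namespace Cfsg.Agent.H43

open Polynomial

section
variable {F : Type*} [Field F] [Fintype F]

/-- the label map -/
theorem exists_label_map' (h2 : (2 : F) ≠ 0) {ε : F} (hε : ε = 1 ∨ ε = -1) {N : ℕ} {G : Type*} [Group G] (J : Matrix (Fin N) (Fin N) F)
    (ρ : G → GL (Fin N) F) (hρ : ∀ x, InvForm ε (ρ x) J)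
    (hconj : ∀ x y, ∀ c : GL (Fin N) F, (c : Matrix (Fin N) (Fin N) F).transpose * J * (c : Matrix (Fin N) (Fin N) F) = J → c * ρ x = ρ y * c → IsConj x y) :
    ∃ lab : ConjClasses G → LabF ε N, Function.Injective lab ∧ (ε = 1 → ∀ c c', ¬ OneDiff (lab c).1 (lab c').1) ∧
      (∀ c, ∃ (x : G) (g : LabT (degU (RingHom.id F)) N N), ConjClasses.mk x = c ∧ HasLab (ρ x) (toNL (RingHom.id F) g) ∧ ∀ i, ((lab c).1 i).1 = g.1 i) := by
  classical
  have hsep := fun g => exists_sep h2 hε (N := N) g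
  choose A D hAD using hsep
  -- data for the classes
  have hcl : ∀ c : ConjClasses G, ∃ (x : G) (g : LabT (degU (RingHom.id F)) N N) (h : GL (Fin N) F), ConjClasses.mk x = c ∧
      HasLab (ρ x) (toNL (RingHom.id F) g) ∧ h * ρ x = A g * h := by
    intro c
    obtain ⟨x, rfl⟩ := ConjClasses.exists_rep c
    obtain ⟨g, hg⟩ := exists_labF (hρ x)
    obtain ⟨h, hh⟩ := isConj_iff.1 (hg.isConj (hAD g ⟨_, hg⟩).1)
    exact ⟨x, g, h, rfl, hg, mul_inv_eq_iff_eq_mul.1 hh⟩
  choose x g h hx hg hh using hcl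
  obtain ⟨Jx, hJx⟩ : ∃ Jx : ConjClasses G → Matrix (Fin N) (Fin N) F, ∀ c, Jx c =
      (((h c)⁻¹ : GL (Fin N) F) : Matrix (Fin N) (Fin N) F).transpose * J * (((h c)⁻¹ : GL (Fin N) F) : Matrix (Fin N) (Fin N) F) := ⟨_, fun _ => rfl⟩
  have hJinv : ∀ c, InvForm ε (A (g c)) (Jx c) := by
    intro c
    rw [hJx]
    exact (hρ (x c)).conj (h c) (hh c)
  let lab : ConjClasses G → LabF ε N := fun c => ⟨fun i => ((g c).1 i, D (g c) (Jx c) (Sum.inl ((i : ℕ) + 1)), D (g c) (Jx c) (Sum.inr ((i : ℕ) + 1))),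
    fun i => (hAD (g c) ⟨_, hg c⟩).2.2.2 _ (hJinv c) i, (g c).2⟩
  have hlab : ∀ c i, (lab c).1 i = ((g c).1 i, D (g c) (Jx c) (Sum.inl ((i : ℕ) + 1)), D (g c) (Jx c) (Sum.inr ((i : ℕ) + 1))) := fun c i => rfl
  refine ⟨lab, ?_, ?_, fun c => ⟨x c, g c, hx c, hg c, fun i => rfl⟩⟩
  · intro c c' hcc
    have h3 : ∀ i, (lab c).1 i = (lab c').1 i := fun i => by rw [hcc]
    have hgg : g c = g c' := by
      apply Subtype.ext
      funext i
      have h4 := h3 i
      rw [hlab, hlab] at h4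
      exact congrArg Prod.fst h4
    have hD : D (g c) (Jx c) = D (g c) (Jx c') := by
      funext s
      have key : ∀ i : Fin N, D (g c) (Jx c) (Sum.inl ((i : ℕ) + 1)) = D (g c) (Jx c') (Sum.inl ((i : ℕ) + 1)) ∧
          D (g c) (Jx c) (Sum.inr ((i : ℕ) + 1)) = D (g c) (Jx c') (Sum.inr ((i : ℕ) + 1)) := by
        intro i
        have h4 := h3 i
        rw [hlab, hlab, ← hgg] at h4
        exact ⟨congrArg (fun z => z.2.1) h4, congrArg (fun z => z.2.2) h4⟩
      have hsupp := (hAD (g c) ⟨_, hg c⟩).2.2.1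
      rw [Bool.eq_iff_iff]
      constructor
      · intro h4
        obtain ⟨i, rfl | rfl⟩ := hsupp _ _ h4
        · rw [← (key i).1]; exact h4
        · rw [← (key i).2]; exact h4
      · intro h4
        obtain ⟨i, rfl | rfl⟩ := hsupp _ _ h4
        · rw [(key i).1]; exact h4
        · rw [(key i).2]; exact h4
    have hJ1 := hJinv c
    have hJ2 := hJinv c'
    rw [← hgg] at hJ2
    obtain ⟨k, hk1, hk2⟩ := (hAD (g c) ⟨_, hg c⟩).2.1.1 _ _ hJ1 hJ2 hD
    have hhc := hh c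
    have hhc' := hh c'
    rw [← hgg] at hhc'
    rw [← hx c, ← hx c']
    rw [ConjClasses.mk_eq_mk_iff_isConj]
    apply IsConj.symm
    apply hconj _ _ ((h c)⁻¹ * k * h c')
    · have e1 : (((h c') : GL (Fin N) F) : Matrix (Fin N) (Fin N) F).transpose * (((h c')⁻¹ : GL (Fin N) F) : Matrix (Fin N) (Fin N) F).transpose = 1 := by
        rw [← Matrix.transpose_mul, Units.inv_mul, Matrix.transpose_one]
      rw [Units.val_mul, Units.val_mul, Matrix.transpose_mul, Matrix.transpose_mul]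
      calc _ = (h c' : Matrix (Fin N) (Fin N) F).transpose * ((k : Matrix (Fin N) (Fin N) F).transpose * ((((h c)⁻¹ : GL (Fin N) F) : Matrix (Fin N) (Fin N) F).transpose * J *
              (((h c)⁻¹ : GL (Fin N) F) : Matrix (Fin N) (Fin N) F)) * (k : Matrix (Fin N) (Fin N) F)) * (h c' : Matrix (Fin N) (Fin N) F) := by simp only [mul_assoc]
        _ = (h c' : Matrix (Fin N) (Fin N) F).transpose * ((((h c')⁻¹ : GL (Fin N) F) : Matrix (Fin N) (Fin N) F).transpose * J *
              (((h c')⁻¹ : GL (Fin N) F) : Matrix (Fin N) (Fin N) F)) * (h c' : Matrix (Fin N) (Fin N) F) := by rw [← hJx, hk2, hJx]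
        _ = ((h c' : Matrix (Fin N) (Fin N) F).transpose * (((h c')⁻¹ : GL (Fin N) F) : Matrix (Fin N) (Fin N) F).transpose) * J *
              ((((h c')⁻¹ : GL (Fin N) F) : Matrix (Fin N) (Fin N) F) * (h c' : Matrix (Fin N) (Fin N) F)) := by simp only [mul_assoc]
        _ = J := by rw [e1, Units.inv_mul, one_mul, mul_one]
    · calc (h c)⁻¹ * k * h c' * ρ (x c') = (h c)⁻¹ * k * (h c' * ρ (x c')) := by group
        _ = (h c)⁻¹ * (k * A (g c)) * h c' := by rw [hhc']; group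
        _ = (h c)⁻¹ * (A (g c) * h c) * (h c)⁻¹ * k * h c' := by rw [hk1]; group
        _ = ρ (x c) * ((h c)⁻¹ * k * h c') := by rw [← hhc]; group
  · rintro hε1 c c' ⟨i, hi1, hi2, hi3⟩
    have hgg : g c = g c' := by
      apply Subtype.ext
      funext j
      by_cases hj : j = i
      · subst hj
        rw [hlab, hlab] at hi1
        exact hi1
      · have h4 := hi3 j hj
        rw [hlab, hlab] at h4
        exact congrArg Prod.fst h4
    have hJ1 := hJinv c
    have hJ2 := hJinv c'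
    rw [← hgg] at hJ2
    have hsq : IsSquare ((Jx c).det * (Jx c').det) := by
      refine ⟨(((h c)⁻¹ : GL (Fin N) F) : Matrix (Fin N) (Fin N) F).det * J.det * (((h c')⁻¹ : GL (Fin N) F) : Matrix (Fin N) (Fin N) F).det, ?_⟩
      rw [hJx, hJx, Matrix.det_mul, Matrix.det_mul, Matrix.det_mul, Matrix.det_mul, Matrix.det_transpose, Matrix.det_transpose]
      ring
    have hsupp := (hAD (g c) ⟨_, hg c⟩).2.2.1
    rw [hlab, hlab, ← hgg] at hi2
    have hoth : ∀ j : Fin N, j ≠ i → D (g c) (Jx c) (Sum.inl ((j : ℕ) + 1)) = D (g c) (Jx c') (Sum.inl ((j : ℕ) + 1)) ∧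
        D (g c) (Jx c) (Sum.inr ((j : ℕ) + 1)) = D (g c) (Jx c') (Sum.inr ((j : ℕ) + 1)) := by
      intro j hj
      have h4 := hi3 j hj
      rw [hlab, hlab, ← hgg] at h4
      exact ⟨congrArg (fun z => z.2.1) h4, congrArg (fun z => z.2.2) h4⟩
    have hgen : ∀ s, (∀ j : Fin N, (s = Sum.inl ((j : ℕ) + 1) ∨ s = Sum.inr ((j : ℕ) + 1)) → D (g c) (Jx c) s = D (g c) (Jx c') s) →
        D (g c) (Jx c) s = D (g c) (Jx c') s := by
      intro s hs
      rw [Bool.eq_iff_iff]
      constructor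
      · intro h4
        obtain ⟨j, hj⟩ := hsupp _ _ h4
        rw [← hs j hj]; exact h4
      · intro h4
        obtain ⟨j, hj⟩ := hsupp _ _ h4
        rw [hs j hj]; exact h4
    rcases hi2 with ⟨h4, h5⟩ | ⟨h4, h5⟩
    · apply (hAD (g c) ⟨_, hg c⟩).2.1.2 hε1 _ _ hJ1 hJ2 (Sum.inl ((i : ℕ) + 1)) h4 _ hsq
      intro s hs
      apply hgen
      rintro j (rfl | rfl)
      · exact (hoth j (fun h6 => hs (by rw [h6]))).1
      · by_cases h6 : j = i
        · subst h6; exact h5
        · exact (hoth j h6).2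
    · apply (hAD (g c) ⟨_, hg c⟩).2.1.2 hε1 _ _ hJ1 hJ2 (Sum.inr ((i : ℕ) + 1)) h5 _ hsq
      intro s hs
      apply hgen
      rintro j (rfl | rfl)
      · by_cases h6 : j = i
        · subst h6; exact h4
        · exact (hoth j h6).1
      · exact (hoth j (fun h6 => hs (by rw [h6]))).2

end

end Cfsg.Agent.H43
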