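import Mathlib
import Cfsg.Agent.H43.LabSL

set_option autoImplicit false
set_option linter.unusedSectionVars false
set_option linter.unusedVariables false

/-! Numerical estimates for the number of classes of `SL_n(q)`. -/

namespace Cfsg.Agent.H43

theorem geom_Icc (q J : ℕ) (hq : 1 ≤ q) : (q - 1) * ∑ j ∈ Finset.Icc 1 J, q ^ j + q = q ^ (J + 1) := by
  obtain ⟨p, rfl⟩ : ∃ p, q = p + 1 := ⟨q - 1, by omega⟩
  rw [Nat.add_sub_cancel]
  induction J with
  | zero => simp
  | succ J ih =>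
    rw [Finset.sum_Icc_succ_top (by omega), mul_add, add_right_comm, ih]
    ring

theorem sum_div_le (q n : ℕ) (hq : 1 ≤ q) (P : ℕ → Prop) [DecidablePred P] :
    ∑ f ∈ (Finset.Icc 2 n).filter (fun f => f ∣ n ∧ P f), q ^ (n / f) ≤ ∑ j ∈ Finset.Icc 1 (n / 2), q ^ j := by
  classical
  have hinj : Set.InjOn (fun f => n / f) ((Finset.Icc 2 n).filter (fun f => f ∣ n ∧ P f) : Set ℕ) := by
    intro f hf f' hf' h
    simp only [Finset.coe_filter, Finset.mem_Icc, Set.mem_setOf_eq] at hf hf'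
    simp only at h
    have h1 := Nat.div_mul_cancel hf.2.1
    have h2 := Nat.div_mul_cancel hf'.2.1
    rw [h] at h1
    have h3 : 0 < n / f' := Nat.div_pos hf'.1.2 (by omega)
    exact Nat.eq_of_mul_eq_mul_left h3 (h1.trans h2.symm)
  rw [← Finset.sum_image (f := fun j => q ^ j) hinj]
  apply Finset.sum_le_sum_of_subset
  intro j hj
  obtain ⟨f, hf, rfl⟩ := Finset.mem_image.1 hj
  rw [Finset.mem_filter, Finset.mem_Icc] at hf
  rw [Finset.mem_Icc]
  exact ⟨Nat.div_pos hf.1.2 (by omega), Nat.div_le_div_left hf.1.1 (by norm_num)⟩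

theorem extra_le (q n : ℕ) (hq : 2 ≤ q) :
    ∑ f ∈ (Finset.Icc 2 n).filter (fun f => f ∣ n ∧ f ∣ q - 1), (f ^ 2 - 1) * aN q (n / f) ≤ (q - 1) * q ^ (n / 2 + 1) := by
  calc ∑ f ∈ (Finset.Icc 2 n).filter (fun f => f ∣ n ∧ f ∣ q - 1), (f ^ 2 - 1) * aN q (n / f)
      ≤ ∑ f ∈ (Finset.Icc 2 n).filter (fun f => f ∣ n ∧ f ∣ q - 1), (q - 1) ^ 2 * q ^ (n / f) := by
        apply Finset.sum_le_sum
        intro f hf
        rw [Finset.mem_filter, Finset.mem_Icc] at hf
        apply Nat.mul_le_mul _ (aN_le q _ (by omega))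
        have h1 : f ≤ q - 1 := Nat.le_of_dvd (by omega) hf.2.2
        exact (Nat.sub_le _ _).trans (Nat.pow_le_pow_left h1 2)
    _ = (q - 1) ^ 2 * ∑ f ∈ (Finset.Icc 2 n).filter (fun f => f ∣ n ∧ f ∣ q - 1), q ^ (n / f) := by rw [Finset.mul_sum]
    _ ≤ (q - 1) ^ 2 * ∑ j ∈ Finset.Icc 1 (n / 2), q ^ j := Nat.mul_le_mul_left _ (sum_div_le q n (by omega) _)
    _ = (q - 1) * ((q - 1) * ∑ j ∈ Finset.Icc 1 (n / 2), q ^ j) := by ring
    _ ≤ _ := by
      apply Nat.mul_le_mul_left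
      have := geom_Icc q (n / 2) (by omega)
      omega

/-- the number `W` satisfies the bounds -/
theorem num_bound_two (q k : ℕ) (hq : 2 ≤ q)
    (h : k * (q - 1) ≤ aN q 2 + ∑ f ∈ (Finset.Icc 2 2).filter (fun f => f ∣ 2 ∧ f ∣ q - 1), (f ^ 2 - 1) * aN q (2 / f)) :
    k ≤ q + 4 ∧ (¬ 2 ∣ q - 1 → k ≤ q + 1) := by
  have ha := aN_le' q 2 (by omega) (by omega)
  obtain ⟨p, rfl⟩ : ∃ p, q = p + 1 := ⟨q - 1, by omega⟩
  rw [Nat.add_sub_cancel] at h ⊢
  have hp : 0 < p := by omega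
  have h1 : (Finset.Icc 2 2 : Finset ℕ) = {2} := by decide
  rw [h1, Finset.filter_singleton] at h
  have h2 : aN (p + 1) 1 = p := aN_one (p + 1)
  have h3 : (p + 1) ^ 2 = (p + 2) * p + 1 := by ring
  have key : ∀ m, k * p ≤ m * p → k ≤ m := fun m hm => Nat.le_of_mul_le_mul_right hm hp
  constructor
  · apply key
    split_ifs at h
    · rw [Finset.sum_singleton] at h
      norm_num at h
      rw [h2] at h
      nlinarith
    · rw [Finset.sum_empty] at h
      nlinarith
  · intro hn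
    apply key
    rw [if_neg (fun h => hn h.2), Finset.sum_empty] at h
    nlinarith

theorem num_bound_three (q n k : ℕ) (hq : 2 ≤ q) (hn : 3 ≤ n)
    (h : k * (q - 1) ≤ aN q n + ∑ f ∈ (Finset.Icc 2 n).filter (fun f => f ∣ n ∧ f ∣ q - 1), (f ^ 2 - 1) * aN q (n / f)) :
    k ≤ q ^ (n - 1) + 3 * q ^ (n - 2) := by
  obtain ⟨p, rfl⟩ : ∃ p, q = p + 1 := ⟨q - 1, by omega⟩
  have hp : 0 < p := by omega
  have key : ∀ m, k * p ≤ m * p → k ≤ m := fun m hm => Nat.le_of_mul_le_mul_right hm hp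
  rw [Nat.add_sub_cancel] at h
  apply key
  by_cases h3 : n = 3
  · subst h3
    have h1 : (Finset.Icc 2 3 : Finset ℕ).filter (fun f => f ∣ 3 ∧ f ∣ p) = ({3} : Finset ℕ).filter (fun f => f ∣ 3 ∧ f ∣ p) := by
      ext f
      simp only [Finset.mem_filter, Finset.mem_Icc, Finset.mem_singleton]
      constructor
      · rintro ⟨⟨h1, h2⟩, h3, h4⟩
        refine ⟨?_, h3, h4⟩
        interval_cases f
        · omega
        · rfl
      · rintro ⟨rfl, h3, h4⟩
        exact ⟨⟨by omega, by omega⟩, h3, h4⟩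
    rw [h1, Finset.filter_singleton] at h
    have ha := aN_three_le (p + 1) (by omega)
    have h2 : aN (p + 1) 1 = p := aN_one (p + 1)
    split_ifs at h with hd
    · rw [Finset.sum_singleton] at h
      norm_num at h
      rw [h2] at h
      have hp3 : 3 ≤ p := Nat.le_of_dvd hp hd.2
      norm_num
      nlinarith
    · rw [Finset.sum_empty] at h
      norm_num
      nlinarith
  · by_cases h4 : n = 4
    · subst h4
      have h1 : (Finset.Icc 2 4 : Finset ℕ).filter (fun f => f ∣ 4 ∧ f ∣ p) = ({2, 4} : Finset ℕ).filter (fun f => f ∣ 4 ∧ f ∣ p) := by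
        ext f
        simp only [Finset.mem_filter, Finset.mem_Icc, Finset.mem_insert, Finset.mem_singleton]
        constructor
        · rintro ⟨⟨h1, h2⟩, h3, h4⟩
          refine ⟨?_, h3, h4⟩
          interval_cases f
          · omega
          · omega
          · omega
        · rintro ⟨rfl | rfl, h3, h4⟩
          · exact ⟨⟨by omega, by omega⟩, h3, h4⟩
          · exact ⟨⟨by omega, by omega⟩, h3, h4⟩
      rw [h1, Finset.filter_insert, Finset.filter_singleton] at h
      have ha := aN_le' (p + 1) 4 (by omega) (by omega)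
      have ha2 := aN_le' (p + 1) 2 (by omega) (by omega)
      have h2 : aN (p + 1) 1 = p := aN_one (p + 1)
      have hd1 : (2 ∣ 4 ∧ 2 ∣ p) ↔ 2 ∣ p := by simp; 
      have hd2 : (4 ∣ 4 ∧ 4 ∣ p) ↔ 4 ∣ p := by simp
      simp only [hd1, hd2] at h
      by_cases e4 : 4 ∣ p
      · have e2 : 2 ∣ p := (show 2 ∣ 4 by norm_num).trans e4
        rw [if_pos e2, if_pos e4, Finset.sum_insert (by decide), Finset.sum_singleton] at h
        norm_num at h
        rw [h2] at h
        have hp3 : 4 ≤ p := Nat.le_of_dvd hp e4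
        norm_num
        nlinarith [Nat.mul_le_mul hp3 hp3, Nat.mul_le_mul hp3 (Nat.mul_le_mul hp3 hp3)]
      · rw [if_neg e4] at h
        by_cases e2 : 2 ∣ p
        · rw [if_pos e2] at h
          norm_num at h
          have hp3 : 2 ≤ p := Nat.le_of_dvd hp e2
          norm_num
          nlinarith [Nat.mul_le_mul hp3 hp3, Nat.mul_le_mul hp3 (Nat.mul_le_mul hp3 hp3)]
        · rw [if_neg e2] at h
          rw [Finset.sum_empty] at h
          norm_num
          nlinarith [Nat.mul_le_mul hp hp, Nat.mul_le_mul hp (Nat.mul_le_mul hp hp)]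
    · have h5 : 5 ≤ n := by omega
      have ha := aN_le (p + 1) n (by omega)
      have he := extra_le (p + 1) n hq
      rw [Nat.add_sub_cancel] at he
      have hpow : (p + 1) ^ (n / 2 + 1) ≤ (p + 1) ^ (n - 2) := Nat.pow_le_pow_right (by omega) (by omega)
      obtain ⟨m, rfl⟩ : ∃ m, n = m + 2 := ⟨n - 2, by omega⟩
      have e1 : m + 2 - 1 = m + 1 := by omega
      rw [e1, Nat.add_sub_cancel]
      rw [Nat.add_sub_cancel] at hpow
      have h6 : p * (p + 1) ^ ((m + 2) / 2 + 1) ≤ p * (p + 1) ^ m := Nat.mul_le_mul_left _ hpow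
      have h7 : k * p ≤ (p + 1) ^ (m + 2) + p * (p + 1) ^ m := by omega
      refine h7.trans ?_
      have h8 : 0 < (p + 1) ^ m := Nat.pow_pos (by omega)
      have h9 : (p + 1) ^ (m + 2) = (p + 1) ^ m * ((p + 1) * (p + 1)) := by ring
      have h10 : (p + 1) ^ (m + 1) = (p + 1) ^ m * (p + 1) := by ring
      rw [h9, h10]
      -- (p+1)^2 + p ≤ p (p + 1) + 3 p
      have h11 : (p + 1) * (p + 1) + p ≤ ((p + 1) + 3) * p := by nlinarith
      calc (p + 1) ^ m * ((p + 1) * (p + 1)) + p * (p + 1) ^ m = (p + 1) ^ m * ((p + 1) * (p + 1) + p) := by ring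
        _ ≤ (p + 1) ^ m * (((p + 1) + 3) * p) := Nat.mul_le_mul_left _ h11
        _ = _ := by ring

end Cfsg.Agent.H43
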