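import Mathlib
import Cfsg.Agent.H43.LabUniq
import Cfsg.Agent.H43.CentQuot
import Cfsg.Agent.H43.NumSL
import Cfsg.Agent.H4.CardSL

set_option autoImplicit false
set_option linter.unusedSectionVars false
set_option linter.unusedVariables false

/-! Classes of `SL_n(q)` fixed by multiplication with a central element. -/

namespace Cfsg.Agent.H43

open Polynomial

section
variable {F : Type*} [Field F]

theorem scaleRoots_eq_comp (c : F[X]) (ζ : F) (hζ : ζ ≠ 0) : c.scaleRoots ζ = C (ζ ^ c.natDegree) * c.comp (C ζ⁻¹ * X) := by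
  ext i
  rw [coeff_scaleRoots, coeff_C_mul, comp_C_mul_X_coeff]
  by_cases h : i ≤ c.natDegree
  · have h1 : ζ ^ c.natDegree = ζ ^ (c.natDegree - i) * ζ ^ i := by rw [← pow_add, Nat.sub_add_cancel h]
    rw [h1, inv_pow]
    field_simp
  · rw [coeff_eq_zero_of_natDegree_lt (by omega)]; simp

/-- the isomorphism `F[X]/(c) ≃ F[X]/(c^ζ)`, `X ↦ ζ⁻¹ X` -/
theorem exists_scale_equiv (c : F[X]) (ζ : F) (hζ : ζ ≠ 0) :
    ∃ s : (F[X] ⧸ Ideal.span {c}) ≃ₗ[F] (F[X] ⧸ Ideal.span {c.scaleRoots ζ}), ∀ y,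
      s (ζ • (Ideal.Quotient.mk _ X * y)) = Ideal.Quotient.mk _ X * s y := by
  let f : F[X] →ₐ[F] F[X] := aeval (C ζ⁻¹ * X)
  let g : F[X] →ₐ[F] F[X] := aeval (C ζ * X)
  have hfg : f.comp g = AlgHom.id F F[X] := by
    apply Polynomial.algHom_ext
    simp only [f, g, AlgHom.comp_apply, aeval_X, map_mul, AlgHom.id_apply, aeval_C]
    rw [← mul_assoc, algebraMap_eq, ← C_mul, mul_inv_cancel₀ hζ, C_1, one_mul]
  have hgf : g.comp f = AlgHom.id F F[X] := by
    apply Polynomial.algHom_ext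
    simp only [f, g, AlgHom.comp_apply, aeval_X, map_mul, AlgHom.id_apply, aeval_C]
    rw [← mul_assoc, algebraMap_eq, ← C_mul, inv_mul_cancel₀ hζ, C_1, one_mul]
  let e : F[X] ≃ₐ[F] F[X] := AlgEquiv.ofAlgHom f g hfg hgf
  have he : ∀ x, e x = x.comp (C ζ⁻¹ * X) := fun x => rfl
  have hI : Ideal.span {c.scaleRoots ζ} = (Ideal.span {c}).map (e : F[X] →+* F[X]) := by
    rw [Ideal.map_span, Set.image_singleton, Ideal.span_singleton_eq_span_singleton]
    change Associated _ (e c)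
    rw [he, scaleRoots_eq_comp c ζ hζ, mul_comm]
    have hu : IsUnit (C (ζ ^ c.natDegree) : F[X]) := isUnit_C.2 (pow_ne_zero _ hζ).isUnit
    exact (associated_mul_unit_right _ _ hu).symm
  let s := Ideal.quotientEquivAlg (Ideal.span {c}) (Ideal.span {c.scaleRoots ζ}) e hI
  have hs : ∀ x : F[X], s (Ideal.Quotient.mk _ x) = Ideal.Quotient.mk _ (e x) := fun x => rfl
  refine ⟨s.toLinearEquiv, fun y => ?_⟩
  obtain ⟨x, rfl⟩ := Ideal.Quotient.mk_surjective y
  change s (ζ • (Ideal.Quotient.mk _ X * Ideal.Quotient.mk _ x)) = Ideal.Quotient.mk _ X * s (Ideal.Quotient.mk _ x)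
  rw [map_smul, map_mul, hs, hs, he X, X_comp, ← smul_mul_assoc]
  congr 1
  change Ideal.Quotient.mk _ (ζ • (C ζ⁻¹ * X)) = _
  rw [smul_eq_C_mul, ← mul_assoc, ← C_mul, mul_inv_cancel₀ hζ, C_1, one_mul]

theorem SB.scale {V ι : Type*} [AddCommGroup V] [Module F V] {g : Module.End F V} {c : ι → F[X]}
    {φ : V ≃ₗ[F] ((i : ι) → F[X] ⧸ Ideal.span {c i})} (h : SB g c φ) (ζ : F) (hζ : ζ ≠ 0) :
    ∃ φ' : V ≃ₗ[F] ((i : ι) → F[X] ⧸ Ideal.span {(c i).scaleRoots ζ}), SB (ζ • g) (fun i => (c i).scaleRoots ζ) φ' := by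
  choose s hs using fun i => exists_scale_equiv (c i) ζ hζ
  refine ⟨φ.trans (LinearEquiv.piCongrRight s), ?_⟩
  intro v i
  change s i (φ (ζ • g v) i) = _ * s i (φ v i)
  rw [map_smul, Pi.smul_apply, h, hs]

theorem scaleRoots_irreducible {p : F[X]} (hp : Irreducible p) (ζ : F) (hζ : ζ ≠ 0) : Irreducible (p.scaleRoots ζ) := by
  rw [scaleRoots_eq_comp p ζ hζ]
  let f : F[X] →ₐ[F] F[X] := aeval (C ζ⁻¹ * X)
  let g : F[X] →ₐ[F] F[X] := aeval (C ζ * X)
  have hfg : f.comp g = AlgHom.id F F[X] := by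
    apply Polynomial.algHom_ext
    simp only [f, g, AlgHom.comp_apply, aeval_X, map_mul, AlgHom.id_apply, aeval_C]
    rw [← mul_assoc, algebraMap_eq, ← C_mul, mul_inv_cancel₀ hζ, C_1, one_mul]
  have hgf : g.comp f = AlgHom.id F F[X] := by
    apply Polynomial.algHom_ext
    simp only [f, g, AlgHom.comp_apply, aeval_X, map_mul, AlgHom.id_apply, aeval_C]
    rw [← mul_assoc, algebraMap_eq, ← C_mul, inv_mul_cancel₀ hζ, C_1, one_mul]
  let e : F[X] ≃ₐ[F] F[X] := AlgEquiv.ofAlgHom f g hfg hgf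
  have he : ∀ x, e x = x.comp (C ζ⁻¹ * X) := fun x => rfl
  rw [← he]
  have hu : IsUnit (C (ζ ^ p.natDegree) : F[X]) := isUnit_C.2 (pow_ne_zero _ hζ).isUnit
  have h1 : Irreducible (e p) := (MulEquiv.irreducible_iff e.toMulEquiv).2 hp
  exact (irreducible_isUnit_mul hu).2 h1

theorem prod_scaleRoots {ι : Type*} (s : Finset ι) (p : ι → F[X]) (ζ : F) : (∏ i ∈ s, p i).scaleRoots ζ = ∏ i ∈ s, (p i).scaleRoots ζ := by
  classical
  induction s using Finset.induction_on with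
  | empty => rw [Finset.prod_empty, Finset.prod_empty, one_scaleRoots]
  | insert i s hi ih => rw [Finset.prod_insert hi, Finset.prod_insert hi, mul_scaleRoots_of_noZeroDivisors, ih]

theorem labP_scale {t : ℕ} (p : Fin t → F[X]) (e : Fin t → ℕ) (K : ℕ) (ζ : F) (i : Fin K) :
    labP (fun j => (p j).scaleRoots ζ) e K i = (labP p e K i).scaleRoots ζ := by
  unfold labP
  rw [prod_scaleRoots]

/-- labels of `x` with `ζ x ∼ x` -/
theorem lab_scale_fixed [Fintype F] {n : ℕ} {A : GL (Fin n) F} {g : LabT (degN (F := F)) n n} (hA : HasLab A g) (ζ : F) (hζ : ζ ≠ 0)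
    (B : GL (Fin n) F) (hB : (B : Matrix (Fin n) (Fin n) F) = ζ • (A : Matrix (Fin n) (Fin n) F)) (hBA : IsConj B A) (i : Fin n) :
    (g.1 i).1.scaleRoots ζ = (g.1 i).1 := by
  obtain ⟨t, p, e, φ, hp, hSB, hle, hg⟩ := hA
  obtain ⟨φ', hφ'⟩ := hSB.scale ζ hζ
  have hfun : (fun i => (p i ^ e i).scaleRoots ζ) = fun i => (p i).scaleRoots ζ ^ e i := by
    funext i
    exact pow_scaleRoots_of_isReduced _ _ _
  have h2 : ζ • Matrix.toLin' (A : Matrix (Fin n) (Fin n) F) = Matrix.toLin' (B : Matrix (Fin n) (Fin n) F) := by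
    rw [hB, map_smul]
  have h3 : ∃ φ' : (Fin n → F) ≃ₗ[F] ((i : Fin t) → F[X] ⧸ Ideal.span {(p i).scaleRoots ζ ^ e i}),
      SB (Matrix.toLin' (B : Matrix (Fin n) (Fin n) F)) (fun i => (p i).scaleRoots ζ ^ e i) φ' := by
    have h4 : ∀ c : Fin t → F[X], c = (fun i => (p i).scaleRoots ζ ^ e i) →
        (∃ φ' : (Fin n → F) ≃ₗ[F] ((i : Fin t) → F[X] ⧸ Ideal.span {c i}), SB (Matrix.toLin' (B : Matrix (Fin n) (Fin n) F)) c φ') →
        ∃ φ' : (Fin n → F) ≃ₗ[F] ((i : Fin t) → F[X] ⧸ Ideal.span {(p i).scaleRoots ζ ^ e i}),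
        SB (Matrix.toLin' (B : Matrix (Fin n) (Fin n) F)) (fun i => (p i).scaleRoots ζ ^ e i) φ' := by
      rintro c rfl h
      exact h
    exact h4 _ hfun ⟨φ', h2 ▸ hφ'⟩
  obtain ⟨φ'', hφ''⟩ := h3
  obtain ⟨κ, hκ⟩ := conj_toLin' hBA
  obtain ⟨σ, hσ⟩ := prim_unique κ hκ (p := fun i => (p i).scaleRoots ζ)
    (fun i => ⟨(monic_scaleRoots_iff ζ).2 (hp i).1, scaleRoots_irreducible (hp i).2.1 ζ hζ, (hp i).2.2⟩) hφ'' hp hSB
  have h5 := labP_of_equiv σ hσ n
  rw [hg, ← labP_scale, h5]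

variable [Fintype F]

/-- fixed polynomials -/
def PolZ (ζ : F) := {g : PolN F // g.1.scaleRoots ζ = g.1}

theorem PolZ_coeff {ζ : F} {f : ℕ} (hf : orderOf ζ = f) (g : PolZ ζ) : f ∣ g.1.1.natDegree ∧ ∀ i, g.1.1.coeff i ≠ 0 → f ∣ i := by
  have key : ∀ i, g.1.1.coeff i ≠ 0 → i ≤ g.1.1.natDegree → f ∣ g.1.1.natDegree - i := by
    intro i hi hle
    have h1 := congrArg (fun p => coeff p i) g.2
    simp only [coeff_scaleRoots] at h1
    have h2 : ζ ^ (g.1.1.natDegree - i) = 1 := mul_left_cancel₀ hi (by rw [h1, mul_one])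
    rw [← hf]
    exact orderOf_dvd_of_pow_eq_one h2
  have h0 := key 0 g.1.2.2 (Nat.zero_le _)
  rw [Nat.sub_zero] at h0
  refine ⟨h0, fun i hi => ?_⟩
  have hle : i ≤ g.1.1.natDegree := le_natDegree_of_ne_zero hi
  have h1 := key i hi hle
  have h2 := Nat.dvd_sub h0 h1
  rwa [Nat.sub_sub_self hle] at h2

/-- degree divided by the order of `ζ` -/
noncomputable def degZ {ζ : F} (g : PolZ ζ) : ℕ := g.1.1.natDegree / orderOf ζ

theorem degZ_mul {ζ : F} (g : PolZ ζ) : orderOf ζ * degZ g = g.1.1.natDegree :=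
  Nat.mul_div_cancel' (PolZ_coeff rfl g).1

theorem card_PolZ (ζ : F) (hζ : ζ ≠ 0) (d : ℕ) :
    Finite {x : PolZ ζ // degZ x = d} ∧ Nat.card {x : PolZ ζ // degZ x = d} ≤ cN (Fintype.card F) d := by
  classical
  have hf : 0 < orderOf ζ := by
    have h1 := orderOf_pos (Units.mk0 ζ hζ)
    rwa [← orderOf_units] at h1
  rcases d with _ | d
  · have h1 : ∀ x : {x : PolZ ζ // degZ x = 0}, x.1.1.1 = 1 := by
      intro x
      have h2 := degZ_mul x.1
      rw [x.2, mul_zero] at h2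
      exact x.1.1.2.1.natDegree_eq_zero.1 h2.symm
    have hsub : Subsingleton {x : PolZ ζ // degZ x = 0} := ⟨fun a b => Subtype.ext (Subtype.ext (Subtype.ext ((h1 a).trans (h1 b).symm)))⟩
    exact ⟨inferInstance, by rw [cN_zero]; exact Finite.card_le_one_iff_subsingleton.2 hsub⟩
  · let f : {x : PolZ ζ // degZ x = d + 1} → Fˣ × (Fin d → F) := fun x =>
      (Units.mk0 _ x.1.1.2.2, fun i => x.1.1.1.coeff (orderOf ζ * (i + 1)))
    have hfi : Function.Injective f := by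
      intro a b hab
      apply Subtype.ext
      apply Subtype.ext
      apply Subtype.ext
      have hda : a.1.1.1.natDegree = orderOf ζ * (d + 1) := by rw [← degZ_mul, a.2]
      have hdb : b.1.1.1.natDegree = orderOf ζ * (d + 1) := by rw [← degZ_mul, b.2]
      apply monic_eq_of_coeff a.1.1.2.1 b.1.1.2.1 (by rw [hda, hdb])
      intro i hi
      by_cases hdvd : orderOf ζ ∣ i
      · obtain ⟨j, rfl⟩ := hdvd
        rcases j with _ | j
        · have h1 := congrArg (fun z => ((z.1 : Fˣ) : F)) hab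
          rw [mul_zero]
          exact h1
        · rw [hda] at hi
          have hj : j < d := by
            have := Nat.lt_of_mul_lt_mul_left hi
            omega
          exact congrFun (congrArg (fun z => z.2) hab) ⟨j, hj⟩
      · have h1 : a.1.1.1.coeff i = 0 := by
          by_contra h; exact hdvd ((PolZ_coeff rfl a.1).2 i h)
        have h2 : b.1.1.1.coeff i = 0 := by
          by_contra h; exact hdvd ((PolZ_coeff rfl b.1).2 i h)
        rw [h1, h2]
    refine ⟨Finite.of_injective f hfi, ?_⟩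
    refine (Nat.card_le_card_of_injective f hfi).trans ?_
    rw [Nat.card_prod, Nat.card_units, Nat.card_fun, Nat.card_fin, Nat.card_eq_fintype_card, cN_succ]

/-- scaling the constant term of a fixed polynomial -/
theorem exists_scaling_Z (ζ : F) (hζ : ζ ≠ 0) : ∃ sc : Fˣ → PolZ ζ → PolZ ζ, (∀ a x, degZ (sc a x) = degZ x) ∧ (∀ a, Function.Injective (sc a)) ∧
    (∀ a x, degZ x ≠ 0 → delN (sc a x).1 = a * delN x.1) := by
  classical
  have hf : 0 < orderOf ζ := by
    have h1 := orderOf_pos (Units.mk0 ζ hζ)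
    rwa [← orderOf_units] at h1
  have hnd : ∀ x : PolZ ζ, degZ x ≠ 0 → 0 < x.1.1.natDegree := by
    intro x hx
    rw [← degZ_mul]
    exact Nat.mul_pos hf (Nat.pos_of_ne_zero hx)
  have hdeg : ∀ (a : Fˣ) (x : PolZ ζ), degZ x ≠ 0 → (C (((a : F) - 1) * x.1.1.coeff 0)).degree < x.1.1.degree := by
    intro a x hx
    refine lt_of_le_of_lt degree_C_le ?_
    rw [degree_eq_natDegree x.1.2.1.ne_zero]
    exact_mod_cast hnd x hx
  have hcoef : ∀ (a : Fˣ) (x : PolZ ζ), (x.1.1 + C (((a : F) - 1) * x.1.1.coeff 0)).coeff 0 = a * x.1.1.coeff 0 := by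
    intro a x
    rw [coeff_add, coeff_C_zero]; ring
  have hnat : ∀ (a : Fˣ) (x : PolZ ζ), degZ x ≠ 0 → (x.1.1 + C (((a : F) - 1) * x.1.1.coeff 0)).natDegree = x.1.1.natDegree :=
    fun a x h => natDegree_eq_natDegree (degree_add_eq_left_of_degree_lt (hdeg a x h))
  have hinv : ∀ (a : Fˣ) (x : PolZ ζ), degZ x ≠ 0 →
      (x.1.1 + C (((a : F) - 1) * x.1.1.coeff 0)).scaleRoots ζ = x.1.1 + C (((a : F) - 1) * x.1.1.coeff 0) := by
    intro a x h
    ext i
    have h1 := congrArg (fun p => coeff p i) x.2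
    simp only [coeff_scaleRoots] at h1
    rw [coeff_scaleRoots, hnat a x h, coeff_add, add_mul, h1]
    congr 1
    rcases i with _ | i
    · rw [coeff_C_zero, Nat.sub_zero]
      have h2 : ζ ^ x.1.1.natDegree = 1 := by
        obtain ⟨c, hc⟩ := (PolZ_coeff rfl x).1
        rw [hc, pow_mul, pow_orderOf_eq_one, one_pow]
      rw [h2, mul_one]
    · rw [coeff_C_succ, zero_mul]
  obtain ⟨sc, hsc1, hsc2⟩ : ∃ sc : Fˣ → PolZ ζ → PolZ ζ, (∀ a x, degZ x = 0 → sc a x = x) ∧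
      (∀ a x, degZ x ≠ 0 → (sc a x).1.1 = x.1.1 + C (((a : F) - 1) * x.1.1.coeff 0)) := by
    refine ⟨fun a x => if h : degZ x = 0 then x else ⟨⟨x.1.1 + C (((a : F) - 1) * x.1.1.coeff 0), x.1.2.1.add_of_left (hdeg a x h), ?_⟩, hinv a x h⟩, ?_, ?_⟩
    · rw [hcoef]
      exact mul_ne_zero a.ne_zero x.1.2.2
    · intro a x h
      exact dif_pos h
    · intro a x h
      exact congrArg (fun z : PolZ ζ => z.1.1) (dif_neg h)
  have hd : ∀ a x, degZ (sc a x) = degZ x := by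
    intro a x
    by_cases h : degZ x = 0
    · rw [hsc1 a x h]
    · unfold degZ
      rw [hsc2 a x h, hnat a x h]
  have hzero : ∀ x : PolZ ζ, degZ x = 0 → x.1.1 = 1 := by
    intro x h
    have h2 := degZ_mul x
    rw [h, mul_zero] at h2
    exact x.1.2.1.natDegree_eq_zero.1 h2.symm
  refine ⟨sc, hd, ?_, ?_⟩
  · intro a x y hxy
    have h1 : degZ x = degZ y := by rw [← hd a x, hxy, hd]
    by_cases h : degZ x = 0
    · exact Subtype.ext (Subtype.ext ((hzero x h).trans (hzero y (h1 ▸ h)).symm))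
    · have h2 : x.1.1 + C (((a : F) - 1) * x.1.1.coeff 0) = y.1.1 + C (((a : F) - 1) * y.1.1.coeff 0) := by
        rw [← hsc2 a x h, ← hsc2 a y (fun h' => h (h1.trans h')), hxy]
      have h3 : x.1.1.coeff 0 = y.1.1.coeff 0 := by
        have h4 := congrArg (fun f => coeff f 0) h2
        simp only [hcoef] at h4
        exact mul_left_cancel₀ a.ne_zero h4
      rw [h3] at h2
      exact Subtype.ext (Subtype.ext (add_right_cancel h2))
  · intro a x h
    apply Units.ext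
    rw [Units.val_mul, delN_coe, delN_coe]
    have h1 : (sc a x).1.1.natDegree = x.1.1.natDegree := by rw [hsc2 a x h, hnat a x h]
    rw [h1, hsc2 a x h, hcoef]
    ring

/-- the number of classes of `SL_n(q)` fixed by `ζ` -/
theorem card_FixC_le (n : ℕ) (hn : 1 ≤ n) (z : Matrix.SpecialLinearGroup (Fin n) F) (ζ : F) (hζ : ζ ≠ 0)
    (hz : (z : Matrix (Fin n) (Fin n) F) = ζ • 1) (m : ℕ) (hm : orderOf ζ * m = n) :
    Nat.card (FixC z) * (Fintype.card F - 1) ≤
      aN (Fintype.card F) m + ∑ f ∈ (Finset.Icc 2 m).filter (fun f => f ∣ m ∧ f ∣ Fintype.card F - 1), (f ^ 2 - 1) * aN (Fintype.card F) (m / f) := by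
  classical
  have hpos : 0 < orderOf ζ := by
    have h1 := orderOf_pos (Units.mk0 ζ hζ)
    rwa [← orderOf_units] at h1
  have hm1 : 1 ≤ m := by
    rcases m with _ | m
    · omega
    · omega
  have hT := fun k => card_LabT (degZ (ζ := ζ)) (Fintype.card F) (fun d => (card_PolZ ζ hζ d).1) (fun d => (card_PolZ ζ hζ d).2) n k
  have hcardA : Nat.card Fˣ = Fintype.card F - 1 := by rw [Nat.card_units, Nat.card_eq_fintype_card]
  have hTf : ∀ k, Finite (LabT (degZ (ζ := ζ)) n k) := fun k => (hT k).1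
  let i1 : Fintype (LabT (degZ (ζ := ζ)) n m) := Fintype.ofFinite _
  let i2 : Fintype {g : LabT (degZ (ζ := ζ)) n m // detL (fun x : PolZ ζ => delN x.1) g.1 = 1} := Fintype.ofFinite _
  obtain ⟨sc, h1, h2, h3⟩ := exists_scaling_Z ζ hζ
  -- conversion of labels
  have hconv : ∀ g : LabT (degZ (ζ := ζ)) n m, ∑ i : Fin n, ((i : ℕ) + 1) * degN (g.1 i).1 = n := by
    intro g
    have e1 : ∀ i : Fin n, ((i : ℕ) + 1) * degN (g.1 i).1 = orderOf ζ * (((i : ℕ) + 1) * degZ (g.1 i)) := by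
      intro i
      have := degZ_mul (g.1 i)
      change ((i : ℕ) + 1) * (g.1 i).1.1.natDegree = _
      rw [← this]; ring
    rw [Finset.sum_congr rfl (fun i _ => e1 i), ← Finset.mul_sum]
    have e2 : ∑ i : Fin n, ((i : ℕ) + 1) * degZ (g.1 i) = m := g.2
    rw [e2, hm]
  let cv : LabT (degZ (ζ := ζ)) n m → LabT (degN (F := F)) n n := fun g => ⟨fun i => (g.1 i).1, hconv g⟩
  have hsupp : ∀ g : LabT (degZ (ζ := ζ)) n m, suppL degN (cv g).1 = suppL degZ g.1 := by
    intro g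
    ext i
    change degN (g.1 i).1 ≠ 0 ↔ degZ (g.1 i) ≠ 0
    have h4 := degZ_mul (g.1 i)
    change (g.1 i).1.1.natDegree ≠ 0 ↔ _
    rw [← h4, Nat.mul_ne_zero_iff]
    exact ⟨fun h => h.2, fun h => ⟨hpos.ne', h⟩⟩
  have hA := card_conj_le_of (N := Matrix.SpecialLinearGroup (Fin n) F) (G := GL (Fin n) F) (A := Fˣ)
    (L := {g : LabT (degZ (ζ := ζ)) n m // detL (fun x : PolZ ζ => delN x.1) g.1 = 1}) Matrix.SpecialLinearGroup.toGL Matrix.SpecialLinearGroup.toGL_injective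
    Matrix.GeneralLinearGroup.det
    (by
      intro x hx
      have hdet : (x : Matrix (Fin n) (Fin n) F).det = 1 := congrArg Units.val hx
      exact ⟨⟨x, hdet⟩, Units.ext rfl⟩)
    (fun x g => HasLab x (cv g.1)) (fun g => PS Fˣ (suppL degZ g.1.1)) (fun x => IsConj (z * x) x)
    (by
      intro x hx
      obtain ⟨g, hg⟩ := exists_lab (Matrix.SpecialLinearGroup.toGL x)
      have hfix := lab_scale_fixed hg ζ hζ (Matrix.SpecialLinearGroup.toGL (z * x)) (by
        change (z : Matrix (Fin n) (Fin n) F) * (x : Matrix (Fin n) (Fin n) F) = ζ • (x : Matrix (Fin n) (Fin n) F)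
        rw [hz, smul_mul_assoc, one_mul]) (MonoidHom.map_isConj Matrix.SpecialLinearGroup.toGL hx)
      have hwt : ∑ i : Fin n, ((i : ℕ) + 1) * degZ (ζ := ζ) (⟨g.1 i, hfix i⟩ : PolZ ζ) = m := by
        have e1 : ∀ i : Fin n, orderOf ζ * (((i : ℕ) + 1) * degZ (ζ := ζ) (⟨g.1 i, hfix i⟩ : PolZ ζ)) = ((i : ℕ) + 1) * degN (g.1 i) := by
          intro i
          have := degZ_mul (ζ := ζ) (⟨g.1 i, hfix i⟩ : PolZ ζ)
          change _ = ((i : ℕ) + 1) * (g.1 i).1.natDegree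
          have e3 : ((⟨g.1 i, hfix i⟩ : PolZ ζ)).1.1.natDegree = (g.1 i).1.natDegree := rfl
          rw [← e3, ← this]; ring
        have e2 : orderOf ζ * ∑ i : Fin n, ((i : ℕ) + 1) * degZ (ζ := ζ) (⟨g.1 i, hfix i⟩ : PolZ ζ) = orderOf ζ * m := by
          rw [Finset.mul_sum, Finset.sum_congr rfl (fun i _ => e1 i), hm]
          exact g.2
        exact Nat.eq_of_mul_eq_mul_left hpos e2
      refine ⟨⟨⟨fun i => ⟨g.1 i, hfix i⟩, hwt⟩, ?_⟩, hg⟩
      have h4 : detL delN g.1 = 1 := by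
        rw [← hg.det]
        apply Units.ext
        exact x.2
      exact h4)
    (fun x y g hx hy => hx.isConj hy) (fun x g hx a ha => hx.commute a (by rw [hsupp]; exact ha))
  have hzero : ∀ x : PolZ ζ, degZ x = 0 → x = ⟨oneN F, one_scaleRoots ζ⟩ := by
    intro x h
    have h2 := degZ_mul x
    rw [h, mul_zero] at h2
    exact Subtype.ext (Subtype.ext (x.1.2.1.natDegree_eq_zero.1 h2.symm))
  have hB := sum_det_le (degZ (ζ := ζ)) (fun x : PolZ ζ => delN x.1) sc h1 h2 h3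
    (fun x hx => by
      rw [hzero x hx]
      apply Units.ext
      rw [delN_coe]
      simp [oneN]) n m (1 : Fˣ)
  have hone : degZ (ζ := ζ) (⟨oneN F, one_scaleRoots ζ⟩ : PolZ ζ) = 0 := by
    unfold degZ
    have : ((⟨oneN F, one_scaleRoots ζ⟩ : PolZ ζ)).1.1.natDegree = 0 := natDegree_one
    rw [this, Nat.zero_div]
  have hC := sum_ind_sq_le (A := Fˣ) (degZ (ζ := ζ)) _ hone hzero n m hm1 hTf
  rw [hcardA] at hC hB
  calc Nat.card (FixC z) * (Fintype.card F - 1)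
      ≤ (∑ g : {g : LabT (degZ (ζ := ζ)) n m // detL (fun x : PolZ ζ => delN x.1) g.1 = 1}, indL degZ Fˣ g.1.1) * (Fintype.card F - 1) :=
        Nat.mul_le_mul_right _ hA
    _ = ∑ g : {g : LabT (degZ (ζ := ζ)) n m // detL (fun x : PolZ ζ => delN x.1) g.1 = 1}, indL degZ Fˣ g.1.1 * (Fintype.card F - 1) := Finset.sum_mul _ _ _
    _ ≤ _ := hB
    _ ≤ _ := hC
    _ ≤ _ := by
      apply Nat.add_le_add (hT m).2
      apply Finset.sum_le_sum
      intro f _
      exact Nat.mul_le_mul_left _ (hT (m / f)).2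

end

end Cfsg.Agent.H43
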