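import Mathlib
import Cfsg.Agent.H43.LabSL

set_option autoImplicit false
set_option linter.unusedSectionVars false
set_option linter.unusedVariables false

/-! Lower bound for the number of classes of `SL_n(q)`. -/

namespace Cfsg.Agent.H43

open Polynomial

section
variable {F : Type*} [Field F] [Fintype F]

theorem det_of_SB_unit {n : ℕ} {A : GL (Fin n) F} {f : F[X]} (hf : f.Monic)
    {φ : (Fin n → F) ≃ₗ[F] ((k : Unit) → F[X] ⧸ Ideal.span {f})}
    (h : SB (Matrix.toLin' (A : Matrix (Fin n) (Fin n) F)) (fun _ : Unit => f) φ) :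
    (A : Matrix (Fin n) (Fin n) F).det = (-1) ^ f.natDegree * f.coeff 0 := by
  rw [← dQ_X f hf, ← LinearMap.det_toLin']
  let ψ : (Fin n → F) ≃ₗ[F] (F[X] ⧸ Ideal.span {f}) := φ.trans (LinearEquiv.funUnique Unit F (F[X] ⧸ Ideal.span {f}))
  have hψ : ∀ v, ψ v = φ v () := fun v => rfl
  have h1 := LinearMap.det_conj (Matrix.toLin' (A : Matrix (Fin n) (Fin n) F)) ψ
  rw [← h1]
  unfold dQ
  congr 1
  apply LinearMap.ext
  intro z
  obtain ⟨y, rfl⟩ := ψ.surjective z
  rw [LinearMap.comp_apply, LinearMap.comp_apply, LinearEquiv.coe_coe, LinearEquiv.coe_coe, LinearEquiv.symm_apply_apply, hψ, hψ, h,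
    LinearMap.mulLeft_apply]

theorem card_conjClasses_SL_ge (n : ℕ) (hn : 2 ≤ n) :
    Fintype.card F ^ (n - 1) + 1 ≤ Nat.card (ConjClasses (Matrix.SpecialLinearGroup (Fin n) F)) := by
  classical
  obtain ⟨m, rfl⟩ : ∃ m, n = m + 1 := ⟨n - 1, by omega⟩
  rw [Nat.add_sub_cancel]
  let f : (Fin m → F) → F[X] := fun x => polV (Fin.cons ((-1) ^ (m + 1) : F) x : Fin (m + 1) → F)
  have hf : Function.Injective f := by
    intro x y h
    have h1 := polV_injective h
    funext i
    simpa using congrFun h1 i.succ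
  have h0 : ∀ x, (f x).coeff 0 = (-1) ^ (m + 1) := by
    intro x
    have h1 := polV_coeff (Fin.cons ((-1) ^ (m + 1) : F) x : Fin (m + 1) → F) 0
    exact h1
  have hne : ∀ x, (f x).coeff 0 ≠ 0 := fun x => by rw [h0]; exact pow_ne_zero _ (neg_ne_zero.2 one_ne_zero)
  have hex : ∀ x, ∃ g : GL (Fin (m + 1)) F, ∃ φ : (Fin (m + 1) → F) ≃ₗ[F] ((k : Unit) → F[X] ⧸ Ideal.span {f x}),
      SB (Matrix.toLin' (g : Matrix (Fin (m + 1)) (Fin (m + 1)) F)) (fun _ : Unit => f x) φ :=
    fun x => exists_cyclic_gl (f x) (polV_monic _) (polV_natDegree _) (hne x)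
  choose g φ hg using hex
  have hdet : ∀ x, ((g x : GL (Fin (m + 1)) F) : Matrix (Fin (m + 1)) (Fin (m + 1)) F).det = 1 := by
    intro x
    rw [det_of_SB_unit (polV_monic _) (hg x), polV_natDegree]
    have h1 := h0 x
    change (-1) ^ (m + 1) * (f x).coeff 0 = 1
    rw [h1, ← mul_pow]
    simp
  let s : (Fin m → F) → Matrix.SpecialLinearGroup (Fin (m + 1)) F := fun x => ⟨g x, hdet x⟩
  have hs : ∀ x, Matrix.SpecialLinearGroup.toGL (s x) = g x := fun x => Units.ext rfl
  have hfin : Finite (ConjClasses (Matrix.SpecialLinearGroup (Fin (m + 1)) F)) := inferInstance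
  have hcard : Nat.card (Option (Fin m → F)) = Fintype.card F ^ m + 1 := by
    rw [Finite.card_option, Nat.card_fun, Nat.card_fin, Nat.card_eq_fintype_card]
  rw [← hcard]
  let τ : Option (Fin m → F) → ConjClasses (Matrix.SpecialLinearGroup (Fin (m + 1)) F) := fun o =>
    match o with
    | none => ConjClasses.mk 1
    | some x => ConjClasses.mk (s x)
  have hone : ∀ x, ConjClasses.mk (s x) ≠ ConjClasses.mk 1 := by
    intro x h
    rw [ConjClasses.mk_eq_mk_iff_isConj, isConj_comm, isConj_one_right] at h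
    have h1 : g x = 1 := by rw [← hs x, h, map_one]
    have h2 : aeval (Matrix.toLin' ((g x : GL (Fin (m + 1)) F) : Matrix (Fin (m + 1)) (Fin (m + 1)) F)) (X - 1 : F[X]) = 0 := by
      rw [h1, map_sub, aeval_X, map_one, Units.val_one, Matrix.toLin'_one]
      exact sub_self _
    rw [aeval_eq_zero_iff_of_SB (hg x)] at h2
    have h3 : (X - 1 : F[X]) ≠ 0 := by
      have := X_sub_C_ne_zero (1 : F)
      rwa [map_one] at this
    have h4 := natDegree_le_of_dvd h2 h3
    have h5 : (X - 1 : F[X]).natDegree = 1 := by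
      have := natDegree_X_sub_C (1 : F)
      rwa [map_one] at this
    rw [h5] at h4
    have h6 : (f x).natDegree = m + 1 := polV_natDegree _
    omega
  apply Nat.card_le_card_of_injective τ
  intro a b hab
  rcases a with _ | x <;> rcases b with _ | y
  · rfl
  · exact absurd hab.symm (hone y)
  · exact absurd hab (hone x)
  · congr 1
    have h1 : IsConj (s x) (s y) := ConjClasses.mk_eq_mk_iff_isConj.1 hab
    have h2 : IsConj (g x) (g y) := by
      rw [← hs x, ← hs y]
      exact MonoidHom.map_isConj (Matrix.SpecialLinearGroup.toGL (n := Fin (m + 1)) (R := F)) h1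
    obtain ⟨k, hk⟩ := conj_toLin' h2
    exact hf (eq_of_conj_of_SB k hk (polV_monic _) (polV_monic _) (hg x) (hg y))

end

end Cfsg.Agent.H43
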