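import Mathlib
import Cfsg.Agent.H43.NumForm

set_option autoImplicit false
set_option linter.unusedSectionVars false
set_option linter.unusedVariables false

/-! Numerical estimates for odd-dimensional orthogonal groups. -/

namespace Cfsg.Agent.H43

/-- masses of the coordinates from the third on, `s = 1/q` -/
noncomputable def mW (s : ℝ) (i : ℕ) : ℝ :=
  if Even i then (1 + 6 * s ^ (i + 3) + s ^ (2 * i + 6) + 7 / 3 * (s ^ (i / 2 + 1) + s ^ (3 * (i / 2) + 4))) / (1 - s ^ (i + 2)) else 1 / (1 - s ^ (i + 2))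

theorem pow_third {s : ℝ} (hs : 0 < s) (hs3 : s ≤ 1 / 3) (k : ℕ) : s ^ k ≤ (1 / 3) ^ k := pow_le_pow_left₀ hs.le hs3 k

theorem one_sub_pos' {s : ℝ} (hs : 0 < s) (hs3 : s ≤ 1 / 3) (k : ℕ) : 0 < 1 - s ^ (k + 1) := by
  have h1 := pow_third hs hs3 (k + 1)
  have h2 := third_le (k + 1) 1 (by omega)
  rw [pow_one] at h2
  linarith

theorem one_le_mW {s : ℝ} (hs : 0 < s) (hs3 : s ≤ 1 / 3) (i : ℕ) : 1 ≤ mW s i := by
  have h0 := one_sub_pos' hs hs3 (i + 1)
  have h1 : 0 < s ^ (i + 2) := by positivity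
  unfold mW
  split_ifs
  · rw [le_div_iff₀ h0]
    have h2 : 0 < 6 * s ^ (i + 3) + s ^ (2 * i + 6) + 7 / 3 * (s ^ (i / 2 + 1) + s ^ (3 * (i / 2) + 4)) := by positivity
    linarith
  · rw [le_div_iff₀ h0]; linarith

theorem pair_mW {s : ℝ} (hs : 0 < s) (hs3 : s ≤ 1 / 3) (n : ℕ) :
    mW s (2 * n) * mW s (2 * n + 1) ≤ (1 + 7 / 3 * (1 / 3) ^ (n + 1) + 2 * ((1 / 3) ^ (n + 1)) ^ 2 + 7 / 9 * ((1 / 3) ^ (n + 1)) ^ 3 + 1 / 9 * ((1 / 3) ^ (n + 1)) ^ 4) /
      ((1 - ((1 / 3) ^ (n + 1)) ^ 2) * (1 - 1 / 3 * ((1 / 3) ^ (n + 1)) ^ 2)) := by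
  obtain ⟨x, hx⟩ : ∃ x : ℝ, x = (1 / 3) ^ (n + 1) := ⟨_, rfl⟩
  have hx0 : 0 < x := by rw [hx]; positivity
  have hx1 : x ≤ 1 / 3 := by
    rw [hx]
    have := third_le (n + 1) 1 (by omega)
    rwa [pow_one] at this
  have hx2 : x ^ 2 ≤ 1 / 9 := by nlinarith
  rw [← hx]
  have e1 : mW s (2 * n) = (1 + 6 * s ^ (2 * n + 3) + s ^ (2 * (2 * n) + 6) + 7 / 3 * (s ^ (n + 1) + s ^ (3 * n + 4))) / (1 - s ^ (2 * n + 2)) := by
    unfold mW
    rw [if_pos (even_two_mul n)]
    have : 2 * n / 2 = n := by omega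
    rw [this]
  have e2 : mW s (2 * n + 1) = 1 / (1 - s ^ (2 * n + 1 + 2)) := by
    unfold mW; rw [if_neg (by rw [Nat.not_even_iff_odd]; exact odd_two_mul_add_one n)]
  rw [e1, e2, div_mul_div_comm, mul_one]
  have h1 : s ^ (n + 1) ≤ x := by rw [hx]; exact pow_third hs hs3 _
  have h2 : s ^ (2 * n + 3) ≤ x ^ 2 / 3 := by
    refine (pow_third hs hs3 _).trans (le_of_eq ?_)
    rw [hx, ← pow_mul]
    have : 2 * n + 3 = (n + 1) * 2 + 1 := by ring
    rw [this, pow_succ]; ring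
  have h3 : s ^ (2 * (2 * n) + 6) ≤ x ^ 4 / 9 := by
    refine (pow_third hs hs3 _).trans (le_of_eq ?_)
    rw [hx, ← pow_mul]
    have : 2 * (2 * n) + 6 = (n + 1) * 4 + 1 + 1 := by ring
    rw [this, pow_succ, pow_succ]; ring
  have h4 : s ^ (3 * n + 4) ≤ x ^ 3 / 3 := by
    refine (pow_third hs hs3 _).trans (le_of_eq ?_)
    rw [hx, ← pow_mul]
    have : 3 * n + 4 = (n + 1) * 3 + 1 := by ring
    rw [this, pow_succ]; ring
  have h5 : s ^ (2 * n + 2) ≤ x ^ 2 := by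
    refine (pow_third hs hs3 _).trans (le_of_eq ?_)
    rw [hx, ← pow_mul]
    congr 1; ring
  have h6 : s ^ (2 * n + 1 + 2) ≤ 1 / 3 * x ^ 2 := by
    have : 2 * n + 1 + 2 = 2 * n + 3 := by ring
    rw [this]; linarith
  apply div_le_div₀
  · positivity
  · linarith
  · exact mul_pos (by linarith) (by linarith)
  · apply mul_le_mul (by linarith) (by linarith) (by linarith)
    have := one_sub_pos' hs hs3 (2 * n + 1)
    exact this.le

theorem prod_mW {s : ℝ} (hs : 0 < s) (hs3 : s ≤ 1 / 3) (n : ℕ) : ∏ i ∈ Finset.range (2 * n), mW s i ≤ 365 / 100 := by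
  have hnn : ∀ K, 0 ≤ ∏ i ∈ Finset.range K, mW s i := fun K => Finset.prod_nonneg fun i _ => by linarith [one_le_mW hs hs3 i]
  have hstep : ∀ n, ∏ i ∈ Finset.range (2 * (n + 1)), mW s i ≤ (∏ i ∈ Finset.range (2 * n), mW s i) *
      ((1 + 7 / 3 * (1 / 3) ^ (n + 1) + 2 * ((1 / 3) ^ (n + 1)) ^ 2 + 7 / 9 * ((1 / 3) ^ (n + 1)) ^ 3 + 1 / 9 * ((1 / 3) ^ (n + 1)) ^ 4) /
      ((1 - ((1 / 3) ^ (n + 1)) ^ 2) * (1 - 1 / 3 * ((1 / 3) ^ (n + 1)) ^ 2))) := by
    intro n
    have : 2 * (n + 1) = 2 * n + 1 + 1 := by ring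
    rw [this, Finset.prod_range_succ, Finset.prod_range_succ, mul_assoc]
    exact mul_le_mul_of_nonneg_left (pair_mW hs hs3 n) (hnn _)
  have h1 := hstep 0
  have h2 := hstep 1
  norm_num at h1 h2
  have key : ∀ n, 2 ≤ n → ∏ i ∈ Finset.range (2 * n), mW s i ≤ 365 / 100 * (1 - 12 / 10 * (1 / 3) ^ n) := by
    intro n hn
    induction n, hn using Nat.le_induction with
    | base => norm_num; linarith
    | succ n hn ih =>
      refine (hstep n).trans ?_
      obtain ⟨x, hx⟩ : ∃ x : ℝ, x = (1 / 3) ^ (n + 1) := ⟨_, rfl⟩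
      have hx3 : ((1 : ℝ) / 3) ^ n = 3 * x := by rw [hx, pow_succ]; ring
      have hx0 : 0 < x := by rw [hx]; positivity
      have hx1 : x ≤ 1 / 27 := by
        rw [hx]
        have := third_le (n + 1) 3 (by omega)
        norm_num at this ⊢
        exact this
      rw [hx3] at ih
      rw [← hx]
      have hd : 0 < (1 - x ^ 2) * (1 - 1 / 3 * x ^ 2) := mul_pos (by nlinarith) (by nlinarith)
      calc (∏ i ∈ Finset.range (2 * n), mW s i) * ((1 + 7 / 3 * x + 2 * x ^ 2 + 7 / 9 * x ^ 3 + 1 / 9 * x ^ 4) / ((1 - x ^ 2) * (1 - 1 / 3 * x ^ 2)))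
          ≤ (365 / 100 * (1 - 12 / 10 * (3 * x))) * ((1 + 7 / 3 * x + 2 * x ^ 2 + 7 / 9 * x ^ 3 + 1 / 9 * x ^ 4) / ((1 - x ^ 2) * (1 - 1 / 3 * x ^ 2))) :=
            mul_le_mul_of_nonneg_right ih (by positivity)
        _ ≤ 365 / 100 * (1 - 12 / 10 * x) := by
            rw [mul_assoc]
            apply mul_le_mul_of_nonneg_left _ (by norm_num)
            rw [← mul_div_assoc, div_le_iff₀ hd]
            have h3 : 0 ≤ x ^ 2 := by positivity
            have h4 : 0 ≤ x ^ 3 := by positivity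
            have h5 : 0 ≤ x ^ 4 := by positivity
            have h7 : 0 ≤ x ^ 5 := by positivity
            have h8 : x ^ 5 ≤ x ^ 4 := by
              have : x ^ 5 = x ^ 4 * x := by ring
              rw [this]; nlinarith
            have h9 : x ^ 4 ≤ x ^ 3 := by
              have : x ^ 4 = x ^ 3 * x := by ring
              rw [this]; nlinarith
            have h10 : x ^ 3 ≤ x ^ 2 := by
              have : x ^ 3 = x ^ 2 * x := by ring
              rw [this]; nlinarith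
            nlinarith [h3, h4, h5, h7, h8, h9, h10]
  rcases Nat.lt_or_ge n 2 with h | h
  · interval_cases n
    · norm_num
    · linarith
  · refine (key n h).trans ?_
    have : (0 : ℝ) < (1 / 3) ^ n := by positivity
    nlinarith

/-- the pair bound -/
theorem pair_rec (q : ℕ) (hq : 3 ≤ q) (A D : ℕ → ℝ) (hA0 : A 0 ≤ 4) (hA1 : A 1 ≤ 16) (hA2 : A 2 ≤ 4 * q + 12) (hA3 : A 3 ≤ 16 * q)
    (hAe : ∀ k, q * A (2 * (k + 2)) ≤ (q : ℝ) ^ k * (4 * q ^ 3 + 12 * q ^ 2 - 20 * q + 12))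
    (hAo : ∀ k, q * A (2 * (k + 2) + 1) ≤ (q : ℝ) ^ (k + 1) * (16 * q ^ 2 - 20 * q + 12))
    (hD : ∀ m, m < 4 → D m ≤ A m) (hDr : ∀ m, D (m + 4) ≤ A (m + 4) + q * D m) (k : ℕ) :
    D (2 * k) ≤ 28 / 3 * (q : ℝ) ^ k ∧ D (2 * k + 1) ≤ 16 * (q : ℝ) ^ k := by
  have hq3 : (3 : ℝ) ≤ q := by exact_mod_cast hq
  have hq0 : (0 : ℝ) < q := by linarith
  induction k using Nat.strong_induction_on with
  | _ k ih =>
    rcases k with _ | _ | k
    · have h0 := hD 0 (by norm_num)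
      have h1 := hD 1 (by norm_num)
      norm_num
      constructor <;> linarith
    · have h0 := hD 2 (by norm_num)
      have h1 := hD 3 (by norm_num)
      norm_num
      constructor <;> linarith
    · obtain ⟨ih1, ih2⟩ := ih k (by omega)
      obtain ⟨Z, hZ⟩ : ∃ Z : ℝ, Z = (q : ℝ) ^ k := ⟨_, rfl⟩
      have hZ0 : 0 < Z := by rw [hZ]; positivity
      have h1 := hDr (2 * k)
      have h2 := hDr (2 * k + 1)
      have h3 := hAe k
      have h4 := hAo k
      have e1 : 2 * (k + 1 + 1) = 2 * k + 4 := by ring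
      have e2 : 2 * (k + 2) = 2 * k + 4 := by ring
      have e3 : 2 * k + 1 + 4 = 2 * k + 4 + 1 := by ring
      rw [e1]
      rw [e2] at h3 h4
      rw [e3] at h2
      have p1 : (q : ℝ) ^ (k + 1 + 1) = Z * q ^ 2 := by rw [hZ]; ring
      have p2 : (q : ℝ) ^ (k + 1) = Z * q := by rw [hZ]; ring
      rw [p1]
      rw [p2] at h4
      rw [← hZ] at ih1 ih2 h3
      constructor
      · -- multiply by q
        apply le_of_mul_le_mul_left _ hq0
        calc (q : ℝ) * D (2 * k + 4) ≤ q * (A (2 * k + 4) + q * D (2 * k)) := mul_le_mul_of_nonneg_left h1 hq0.le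
          _ = q * A (2 * k + 4) + q * q * D (2 * k) := by ring
          _ ≤ Z * (4 * q ^ 3 + 12 * q ^ 2 - 20 * q + 12) + q * q * (28 / 3 * Z) := by
              apply add_le_add h3
              exact mul_le_mul_of_nonneg_left ih1 (by positivity)
          _ = Z * (4 * q ^ 3 + 12 * q ^ 2 - 20 * q + 12 + 28 / 3 * q ^ 2) := by ring
          _ ≤ Z * (28 / 3 * q ^ 3) := by
              apply mul_le_mul_of_nonneg_left _ hZ0.le
              obtain ⟨t, ht⟩ : ∃ t : ℝ, (q : ℝ) = t + 3 := ⟨q - 3, by ring⟩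
              have ht0 : 0 ≤ t := by linarith
              rw [ht]
              nlinarith [mul_nonneg ht0 ht0, mul_nonneg ht0 (mul_nonneg ht0 ht0)]
          _ = q * (28 / 3 * (Z * q ^ 2)) := by ring
      · apply le_of_mul_le_mul_left _ hq0
        calc (q : ℝ) * D (2 * k + 4 + 1) ≤ q * (A (2 * k + 4 + 1) + q * D (2 * k + 1)) := mul_le_mul_of_nonneg_left h2 hq0.le
          _ = q * A (2 * k + 4 + 1) + q * q * D (2 * k + 1) := by ring
          _ ≤ Z * q * (16 * q ^ 2 - 20 * q + 12) + q * q * (16 * Z) := by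
              apply add_le_add h4
              exact mul_le_mul_of_nonneg_left ih2 (by positivity)
          _ = Z * q * (16 * q ^ 2 - 4 * q + 12) := by ring
          _ ≤ Z * q * (16 * q ^ 2) := by
              apply mul_le_mul_of_nonneg_left _ (by positivity)
              nlinarith
          _ = q * (16 * (Z * q ^ 2)) := by ring

end Cfsg.Agent.H43
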