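import Mathlib
import Cfsg.Agent.H43.LabPSL
import Cfsg.Agent.H43.LabSL2

set_option autoImplicit false
set_option linter.unusedSectionVars false
set_option linter.unusedVariables false

/-! The number of classes of `PSL_n(q)`. -/

namespace Cfsg.Agent.H43

theorem fix_bound (q m k : ℕ) (hq : 3 ≤ q) (hm : 1 ≤ m)
    (h : k * (q - 1) ≤ aN q m + ∑ f ∈ (Finset.Icc 2 m).filter (fun f => f ∣ m ∧ f ∣ q - 1), (f ^ 2 - 1) * aN q (m / f)) :
    2 * k ≤ 5 * q ^ (m - 1) ∧ (m = 1 → k ≤ 1) ∧ (m = 2 → k ≤ q + 4) := by
  have h1 : m = 1 → k ≤ 1 := by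
    rintro rfl
    have e1 : (Finset.Icc 2 1 : Finset ℕ) = ∅ := by decide
    rw [e1, Finset.filter_empty, Finset.sum_empty, add_zero, aN_one] at h
    exact Nat.le_of_mul_le_mul_right (by rw [one_mul]; exact h) (by omega : 0 < q - 1)
  have h2 : m = 2 → k ≤ q + 4 := by
    rintro rfl
    exact (num_bound_two q k (by omega) h).1
  refine ⟨?_, h1, h2⟩
  by_cases e1 : m = 1
  · have := h1 e1
    subst e1
    rw [Nat.sub_self, pow_zero]; omega
  · by_cases e2 : m = 2
    · have := h2 e2
      subst e2
      have e3 : (2 : ℕ) - 1 = 1 := rfl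
      rw [e3, pow_one]; omega
    · have h3 := num_bound_three q m k (by omega) (by omega) h
      obtain ⟨j, rfl⟩ : ∃ j, m = j + 2 := ⟨m - 2, by omega⟩
      have e3 : j + 2 - 1 = j + 1 := by omega
      rw [e3, Nat.add_sub_cancel] at h3
      rw [e3]
      have h5 : 3 * q ^ j ≤ q ^ (j + 1) := by
        rw [pow_succ, mul_comm 3]
        exact Nat.mul_le_mul_left _ hq
      omega

section
variable {F : Type*} [Field F] [Fintype F]

theorem card_FixC_bound (hq : 3 ≤ Fintype.card F) (n : ℕ) (hn : 2 ≤ n) (z : Matrix.SpecialLinearGroup (Fin n) F)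
    (hz : z ∈ Subgroup.center (Matrix.SpecialLinearGroup (Fin n) F)) (hz1 : z ≠ 1) :
    ∃ f m, 2 ≤ f ∧ 1 ≤ m ∧ f * m = n ∧ 2 * Nat.card (FixC z) ≤ 5 * Fintype.card F ^ (m - 1) ∧ (m = 1 → Nat.card (FixC z) ≤ 1) ∧
      (m = 2 → Nat.card (FixC z) ≤ Fintype.card F + 4) := by
  obtain ⟨r, hr1, hr2⟩ := Matrix.SpecialLinearGroup.mem_center_iff.1 hz
  rw [Fintype.card_fin] at hr1
  have hr0 : r ≠ 0 := by
    rintro rfl
    rw [zero_pow (by omega)] at hr1
    exact zero_ne_one hr1
  have hzr : (z : Matrix (Fin n) (Fin n) F) = r • 1 := by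
    rw [← hr2, Matrix.scalar_apply, Matrix.smul_one_eq_diagonal]
  have hne : r ≠ 1 := by
    rintro rfl
    apply hz1
    apply Subtype.ext
    rw [hzr, one_smul]; rfl
  obtain ⟨m, hm⟩ := orderOf_dvd_of_pow_eq_one hr1
  have hpos : 0 < orderOf r := by
    rcases Nat.eq_zero_or_pos (orderOf r) with h | h
    · rw [h, zero_mul] at hm; omega
    · exact h
  have h2 : orderOf r ≠ 1 := fun h => hne (orderOf_eq_one_iff.1 h)
  have hm1 : 1 ≤ m := by
    rcases m with _ | m
    · omega
    · omega
  have h3 := card_FixC_le n (by omega) z r hr0 hzr m hm.symm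
  obtain ⟨h4, h5, h6⟩ := fix_bound _ m _ hq hm1 h3
  exact ⟨orderOf r, m, by omega, hm1, hm.symm, h4, h5, h6⟩

theorem psl_bounds (n : ℕ) (hn : 2 ≤ n) :
    Fintype.card F ^ (n - 1) ≤ Nat.gcd n (Fintype.card F - 1) * Nat.card (ConjClasses (Matrix.ProjectiveSpecialLinearGroup (Fin n) F)) ∧
      Nat.gcd n (Fintype.card F - 1) * Nat.card (ConjClasses (Matrix.ProjectiveSpecialLinearGroup (Fin n) F)) ≤ Fintype.card F ^ (n - 1) + 5 * Fintype.card F ^ (n - 2) := by
  classical
  have hq : 2 ≤ Fintype.card F := Fintype.one_lt_card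
  let i1 : Fintype (Subgroup.center (Matrix.SpecialLinearGroup (Fin n) F)) := Fintype.ofFinite _
  have h1 := card_conj_quotient_center (G := Matrix.SpecialLinearGroup (Fin n) F)
  rw [← Cfsg.Agent.H4.card_center_SL (F := F) n (by omega), mul_comm (Nat.card (Subgroup.center _))]
  obtain ⟨d, hd⟩ : ∃ d, d = Nat.card (Subgroup.center (Matrix.SpecialLinearGroup (Fin n) F)) := ⟨_, rfl⟩
  have hd' : d = Nat.gcd n (Fintype.card F - 1) := by rw [hd, Cfsg.Agent.H4.card_center_SL n (by omega)]
  have h2 : Nat.card (ConjClasses (Matrix.ProjectiveSpecialLinearGroup (Fin n) F)) * Nat.card (Subgroup.center (Matrix.SpecialLinearGroup (Fin n) F)) =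
      Nat.card (ConjClasses (Matrix.SpecialLinearGroup (Fin n) F)) +
      ∑ z ∈ Finset.univ.erase (1 : Subgroup.center (Matrix.SpecialLinearGroup (Fin n) F)), Nat.card (FixC (z : Matrix.SpecialLinearGroup (Fin n) F)) := by
    refine h1.trans ?_
    rw [← Finset.add_sum_erase Finset.univ _ (Finset.mem_univ (1 : Subgroup.center (Matrix.SpecialLinearGroup (Fin n) F)))]
    congr 1
    exact card_FixC_one
  rw [h2]
  have hlow := card_conjClasses_SL_ge (F := F) n hn
  refine ⟨by omega, ?_⟩
  have hcard : (Finset.univ.erase (1 : Subgroup.center (Matrix.SpecialLinearGroup (Fin n) F))).card = d - 1 := by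
    rw [Finset.card_erase_of_mem (Finset.mem_univ _), Finset.card_univ, ← Nat.card_eq_fintype_card, ← hd]
  have hbig : ∀ M : ℕ, (∀ z : Matrix.SpecialLinearGroup (Fin n) F, z ∈ Subgroup.center (Matrix.SpecialLinearGroup (Fin n) F) → z ≠ 1 → Nat.card (FixC z) ≤ M) →
      ∑ z ∈ Finset.univ.erase (1 : Subgroup.center (Matrix.SpecialLinearGroup (Fin n) F)), Nat.card (FixC (z : Matrix.SpecialLinearGroup (Fin n) F)) ≤ (d - 1) * M := by
    intro M hM
    rw [← hcard, ← smul_eq_mul]
    apply Finset.sum_le_card_nsmul
    intro z hz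
    apply hM _ z.2
    intro h
    exact (Finset.mem_erase.1 hz).1 (Subtype.ext h)
  have hup := card_conjClasses_SL_le (F := F) n (by omega)
  by_cases hd1 : d = 1
  · have h3 := hbig 0 (by
      intro z hz hz1
      exfalso
      apply hz1
      have h4 : Subgroup.center (Matrix.SpecialLinearGroup (Fin n) F) = ⊥ := Subgroup.card_eq_one.1 (hd ▸ hd1)
      rw [h4] at hz
      exact Subgroup.mem_bot.1 hz)
    rw [mul_zero] at h3
    rcases Nat.lt_or_ge 2 n with hn2 | hn2
    · have h4 := num_bound_three _ n _ hq (by omega) hup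
      omega
    · obtain rfl : n = 2 := by omega
      obtain ⟨h4, h5⟩ := num_bound_two _ _ hq hup
      have e1 : (2 : ℕ) - 1 = 1 := rfl
      rw [e1, pow_one]
      simp only [Nat.sub_self, pow_zero]
      omega
  · have hdpos : 0 < d := by rw [hd']; exact Nat.gcd_pos_of_pos_left _ (by omega)
    have hdq : d ≤ Fintype.card F - 1 := Nat.le_of_dvd (by omega) (hd' ▸ Nat.gcd_dvd_right _ _)
    have hdn : d ∣ n := hd' ▸ Nat.gcd_dvd_left _ _
    have hdn' : d ≤ n := Nat.le_of_dvd (by omega) hdn
    have hq3 : 3 ≤ Fintype.card F := by omega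
    have hF := card_FixC_bound hq3 n hn
    generalize hqd : Fintype.card F = q at *
    rcases Nat.lt_or_ge 2 n with hn2 | hn2
    · have h4 := num_bound_three _ n _ hq (by omega) hup
      have key : ∑ z ∈ Finset.univ.erase (1 : Subgroup.center (Matrix.SpecialLinearGroup (Fin n) F)), Nat.card (FixC (z : Matrix.SpecialLinearGroup (Fin n) F)) ≤
          2 * q ^ (n - 2) := by
        by_cases e3 : n = 3
        · subst e3
          refine (hbig 1 ?_).trans ?_
          · intro z hz hz1
            obtain ⟨f, m, hf, hm, hfm, -, h6, -⟩ := hF z hz hz1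
            apply h6
            have : m < 2 := by
              by_contra hcon
              push Not at hcon
              have := Nat.mul_le_mul hf hcon
              omega
            omega
          · have e4 : (3 : ℕ) - 2 = 1 := rfl
            rw [e4, pow_one]; omega
        · by_cases e4 : n = 4
          · subst e4
            refine (hbig (q + 4) ?_).trans ?_
            · intro z hz hz1
              obtain ⟨f, m, hf, hm, hfm, -, h6, h7⟩ := hF z hz hz1
              have : m < 3 := by
                by_contra hcon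
                push Not at hcon
                have := Nat.mul_le_mul hf hcon
                omega
              rcases Nat.lt_or_ge m 2 with h8 | h8
              · have := h6 (by omega)
                omega
              · exact h7 (by omega)
            · have e5 : (4 : ℕ) - 2 = 2 := rfl
              rw [e5]
              rcases Nat.lt_or_ge 3 q with h8 | h8
              · have h9 : (d - 1) * (q + 4) ≤ 3 * (q + 4) := Nat.mul_le_mul_right _ (by omega)
                nlinarith
              · obtain rfl : q = 3 := by omega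
                have h9 : (d - 1) * (3 + 4) ≤ 1 * (3 + 4) := Nat.mul_le_mul_right _ (by omega)
                omega
          · obtain ⟨j, rfl⟩ : ∃ j, n = j + 5 := ⟨n - 5, by omega⟩
            have h5 := hbig ((5 * q ^ (j + 1)) / 2) (by
              intro z hz hz1
              obtain ⟨f, m, hf, hm, hfm, h6, -, -⟩ := hF z hz hz1
              rw [Nat.le_div_iff_mul_le (by norm_num)]
              have h7 : m - 1 ≤ j + 1 := by
                have : 2 * m ≤ f * m := Nat.mul_le_mul_right _ hf
                omega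
              have h8 : q ^ (m - 1) ≤ q ^ (j + 1) := Nat.pow_le_pow_right (by omega) h7
              omega)
            have h6 : (d - 1) * ((5 * q ^ (j + 1)) / 2) ≤ q * ((5 * q ^ (j + 1)) / 2) := Nat.mul_le_mul_right _ (by omega)
            have h7 : 2 * ((5 * q ^ (j + 1)) / 2) ≤ 5 * q ^ (j + 1) := Nat.mul_div_le _ _
            have h8 : 2 * (q * ((5 * q ^ (j + 1)) / 2)) ≤ q * (5 * q ^ (j + 1)) := by
              calc 2 * (q * ((5 * q ^ (j + 1)) / 2)) = q * (2 * ((5 * q ^ (j + 1)) / 2)) := by ring
                _ ≤ _ := Nat.mul_le_mul_left _ h7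
            have e6 : j + 5 - 2 = j + 3 := by omega
            rw [e6]
            have h9 : q * (5 * q ^ (j + 1)) = 5 * q ^ (j + 2) := by ring
            have h10 : 3 * q ^ (j + 2) ≤ q ^ (j + 3) := by
              rw [pow_succ q (j + 2), mul_comm 3]
              exact Nat.mul_le_mul_left _ hq3
            omega
      omega
    · obtain rfl : n = 2 := by omega
      obtain ⟨h4, h5⟩ := num_bound_two _ _ hq hup
      have h6 := hbig 1 (by
        intro z hz hz1
        obtain ⟨f, m, hf, hm, hfm, -, h6, -⟩ := hF z hz hz1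
        apply h6
        have : m < 2 := by
          by_contra hcon
          push Not at hcon
          have := Nat.mul_le_mul hf hcon
          omega
        omega)
      have e1 : (2 : ℕ) - 1 = 1 := rfl
      rw [e1, pow_one]
      simp only [Nat.sub_self, pow_zero]
      omega

end

end Cfsg.Agent.H43
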