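import Mathlib
import Cfsg.Agent.H43.LabMass
import Cfsg.Agent.H43.NumSL

set_option autoImplicit false
set_option linter.unusedSectionVars false
set_option linter.unusedVariables false

/-! Numerical estimates for `SU_n(q)`. -/

namespace Cfsg.Agent.H43

section
universe u
variable {Λ : Type u} (deg : Λ → ℕ)

theorem mass_two (h0 : Finite {x // deg x = 0} ∧ Nat.card {x // deg x = 0} ≤ 1)
    (hc : ∀ d, Finite {x // deg x = d + 1} ∧ Nat.card {x // deg x = d + 1} ≤ (2 + 1) * 2 ^ d) (K n : ℕ) :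
    Finite (LabT deg K n) ∧ Nat.card (LabT deg K n) ≤ 9 * 2 ^ n ∧ (K = 1 → Nat.card (LabT deg K n) ≤ 3 * 2 ^ (n - 1) ∨ n = 0) ∧
      (K = 2 → 4 * Nat.card (LabT deg K n) ≤ 15 * 2 ^ n) := by
  obtain ⟨M, hM⟩ : ∃ M : ℕ → ℝ, ∀ K, M K = if K = 0 then 1 else if K = 1 then 3 / 2 else if K = 2 then 15 / 4 else 9 * (1 - 3 / 2 ^ K) := ⟨_, fun _ => rfl⟩
  have hpow : ∀ K : ℕ, (0 : ℝ) < 2 ^ K := fun K => by positivity
  have hpow3 : ∀ K : ℕ, 3 ≤ K → (8 : ℝ) ≤ 2 ^ K := by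
    intro K hK
    calc (8 : ℝ) = 2 ^ 3 := by norm_num
      _ ≤ 2 ^ K := pow_le_pow_right₀ (by norm_num) hK
  have hpos : ∀ K, 0 ≤ M K := by
    intro K
    rw [hM]
    split_ifs with h1 h2 h3
    · norm_num
    · norm_num
    · norm_num
    · have h4 := hpow3 K (by omega)
      have h5 : (3 : ℝ) / 2 ^ K ≤ 1 := by rw [div_le_one (hpow K)]; linarith
      linarith
  have hle : ∀ K, M K ≤ 9 := by
    intro K
    rw [hM]
    split_ifs with h1 h2 h3
    · norm_num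
    · norm_num
    · norm_num
    · have h5 : (0 : ℝ) ≤ 3 / 2 ^ K := by positivity
      linarith
  have key := card_LabT_mass deg 2 le_rfl h0 hc M (by rw [hM]; simp) (by rw [hM]; norm_num) (by
    intro K hK
    rcases Nat.lt_or_ge K 3 with h | h
    · interval_cases K
      · rw [hM, hM]; norm_num
      · rw [hM, hM]; norm_num
    · rw [hM, hM, if_neg (by omega), if_neg (by omega), if_neg (by omega), if_neg (by omega), if_neg (by omega), if_neg (by omega)]
      have h1 := hpow3 K h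
      obtain ⟨y, hy⟩ : ∃ y : ℝ, y = 2 ^ K := ⟨_, rfl⟩
      push_cast
      rw [pow_succ, ← hy]
      rw [← hy] at h1
      have hy0 : 0 < y := by linarith
      have hy1 : y - 1 ≠ 0 := by linarith
      have e1 : (1 / y) / (1 - 1 / y) = 1 / (y - 1) := by field_simp
      rw [e1]
      have e2 : 9 * (1 - 3 / y) * (1 + (1 + 1 / 2) * (1 / (y - 1))) = 9 * ((y - 3) * (y + 1 / 2)) / (y * (y - 1)) := by
        field_simp; ring
      have e3 : 9 * (1 - 3 / (y * 2)) = 9 * ((y - 3 / 2) * (y - 1)) / (y * (y - 1)) := by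
        field_simp
      rw [e2, e3]
      apply div_le_div_of_nonneg_right _ (by nlinarith)
      nlinarith) hpos
  have hreal : ∀ a b : ℕ, ((a : ℕ) : ℝ) ≤ b → a ≤ b := fun a b h => by exact_mod_cast h
  obtain ⟨hf, hb⟩ := key K n
  refine ⟨hf, ?_, ?_, ?_⟩
  · apply hreal
    refine hb.trans ?_
    push_cast
    exact mul_le_mul_of_nonneg_right (hle K) (by positivity)
  · rintro rfl
    rcases n with _ | n
    · right; rfl
    · left
      apply hreal
      refine hb.trans ?_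
      rw [hM, Nat.add_sub_cancel]
      have h9 : (2 : ℝ) ^ (n + 1) = 2 ^ n * 2 := pow_succ 2 n
      push_cast
      rw [h9]
      norm_num
      linarith
  · rintro rfl
    apply hreal
    push_cast
    have h1 : M 2 = 15 / 4 := by rw [hM]; norm_num
    rw [h1] at hb
    push_cast at hb
    linarith

theorem mass_three (q : ℕ) (hq : 3 ≤ q) (h0 : Finite {x // deg x = 0} ∧ Nat.card {x // deg x = 0} ≤ 1)
    (hc : ∀ d, Finite {x // deg x = d + 1} ∧ Nat.card {x // deg x = d + 1} ≤ (q + 1) * q ^ d) (K n : ℕ) :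
    Finite (LabT deg K n) ∧ Nat.card (LabT deg K n) ≤ 3 * q ^ n := by
  obtain ⟨M, hM⟩ : ∃ M : ℕ → ℝ, ∀ K, M K = if K = 0 then 1 else if K = 1 then 4 / 3 else 3 * (1 - 2 / (q : ℝ) ^ K) := ⟨_, fun _ => rfl⟩
  have hq3 : (3 : ℝ) ≤ q := by exact_mod_cast hq
  have hq0 : (0 : ℝ) < q := by linarith
  have hpow : ∀ K : ℕ, (0 : ℝ) < (q : ℝ) ^ K := fun K => by positivity
  have hpow3 : ∀ K : ℕ, 2 ≤ K → (9 : ℝ) ≤ (q : ℝ) ^ K := by
    intro K hK
    calc (9 : ℝ) = 3 ^ 2 := by norm_num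
      _ ≤ (q : ℝ) ^ 2 := pow_le_pow_left₀ (by norm_num) hq3 2
      _ ≤ (q : ℝ) ^ K := pow_le_pow_right₀ (by linarith) hK
  have hpos : ∀ K, 0 ≤ M K := by
    intro K
    rw [hM]
    split_ifs with h1 h2
    · norm_num
    · norm_num
    · have h4 := hpow3 K (by omega)
      have h5 : (2 : ℝ) / (q : ℝ) ^ K ≤ 1 := by rw [div_le_one (hpow K)]; linarith
      linarith
  have hle : ∀ K, M K ≤ 3 := by
    intro K
    rw [hM]
    split_ifs with h1 h2
    · norm_num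
    · norm_num
    · have h5 : (0 : ℝ) ≤ 2 / (q : ℝ) ^ K := by positivity
      linarith
  have key := card_LabT_mass deg q (by omega) h0 hc M (by rw [hM]; simp) (by
      rw [hM]; norm_num
      have : (q : ℝ)⁻¹ ≤ 1 / 3 := by rw [inv_eq_one_div]; exact one_div_le_one_div_of_le (by norm_num) hq3
      linarith) (by
    intro K hK
    rcases Nat.lt_or_ge K 2 with h | h
    · interval_cases K
      rw [hM, hM]
      norm_num
      -- 4/3 (1 + (1+1/q) (1/q)/(1-1/q)) ≤ 3 (1 - 2/q^2)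
      have e1 : 4 / 3 * (1 + (1 + (q : ℝ)⁻¹) * ((q : ℝ)⁻¹ / (1 - (q : ℝ)⁻¹))) = (4 * (q * (q ^ 2 + 1))) / (3 * ((q : ℝ) ^ 2 * (q - 1))) := by
        have : (q : ℝ) - 1 ≠ 0 := by linarith
        field_simp; ring
      have e2 : 3 * (1 - 2 / (q : ℝ) ^ 2) = (9 * ((q ^ 2 - 2) * (q - 1))) / (3 * ((q : ℝ) ^ 2 * (q - 1))) := by
        have : (q : ℝ) - 1 ≠ 0 := by linarith
        field_simp; ring
      rw [e1, e2]
      apply div_le_div_of_nonneg_right _ (by
        have : (0 : ℝ) ≤ (q : ℝ) - 1 := by linarith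
        positivity)
      obtain ⟨r, hr⟩ : ∃ r : ℝ, (q : ℝ) = r + 3 := ⟨q - 3, by ring⟩
      have hr0 : 0 ≤ r := by linarith
      rw [hr]
      nlinarith [mul_nonneg hr0 hr0, mul_nonneg hr0 (mul_nonneg hr0 hr0)]
    · rw [hM, hM, if_neg (by omega), if_neg (by omega), if_neg (by omega), if_neg (by omega)]
      have h1 := hpow3 K h
      obtain ⟨y, hy⟩ : ∃ y : ℝ, y = (q : ℝ) ^ K := ⟨_, rfl⟩
      rw [pow_succ, ← hy]
      rw [← hy] at h1
      have hy0 : 0 < y := by linarith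
      have hy1 : y - 1 ≠ 0 := by linarith
      have e1 : (1 / y) / (1 - 1 / y) = 1 / (y - 1) := by field_simp
      rw [e1]
      have e2 : 3 * (1 - 2 / y) * (1 + (1 + 1 / (q : ℝ)) * (1 / (y - 1))) = 3 * ((y - 2) * (y * q + 1)) / (q * y * (y - 1)) := by
        field_simp; ring
      have e3 : 3 * (1 - 2 / (y * (q : ℝ))) = 3 * ((y * q - 2) * (y - 1)) / (q * y * (y - 1)) := by
        field_simp
      rw [e2, e3]
      apply div_le_div_of_nonneg_right _ (by
        have : 0 ≤ y - 1 := by linarith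
        positivity)
      nlinarith [mul_nonneg hy0.le (sub_nonneg.2 hq3)]) hpos
  have hreal : ∀ a b : ℕ, ((a : ℕ) : ℝ) ≤ b → a ≤ b := fun a b h => by exact_mod_cast h
  obtain ⟨hf, hb⟩ := key K n
  refine ⟨hf, ?_⟩
  apply hreal
  refine hb.trans ?_
  push_cast
  exact mul_le_mul_of_nonneg_right (hle K) (by positivity)

end

/-- `q = 2` -/
theorem num_SU_two (n k : ℕ) (hn : 2 ≤ n) (B : ℕ → ℕ) (hB : ∀ m, B m ≤ 9 * 2 ^ m) (hB1 : B 1 ≤ 3) (hB2 : B 2 ≤ 15)
    (h : k * (2 + 1) ≤ B n + ∑ f ∈ (Finset.Icc 2 n).filter (fun f => f ∣ n ∧ f ∣ 2 + 1), (f ^ 2 - 1) * B (n / f)) :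
    100 * k ≤ 826 * 2 ^ (n - 1) := by
  have h2 : 2 * (826 * 2 ^ (n - 1)) = 826 * 2 ^ n := by
    obtain ⟨m, rfl⟩ : ∃ m, n = m + 1 := ⟨n - 1, by omega⟩
    rw [Nat.add_sub_cancel, pow_succ]; ring
  by_cases h3 : 3 ∣ n
  · have hs : (Finset.Icc 2 n).filter (fun f => f ∣ n ∧ f ∣ 2 + 1) = {3} := by
      ext f
      rw [Finset.mem_filter, Finset.mem_Icc, Finset.mem_singleton]
      constructor
      · rintro ⟨⟨h4, h5⟩, h6, h7⟩
        have h8 : f ≤ 3 := Nat.le_of_dvd (by norm_num) h7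
        interval_cases f
        · omega
        · rfl
      · rintro rfl
        exact ⟨⟨by norm_num, Nat.le_of_dvd (by omega) h3⟩, h3, by norm_num⟩
    rw [hs, Finset.sum_singleton] at h
    obtain ⟨m, rfl⟩ := h3
    rw [Nat.mul_div_cancel_left _ (by norm_num)] at h
    have hBn := hB (3 * m)
    have hBm := hB m
    norm_num at h
    rcases Nat.lt_or_ge m 3 with h4 | h4
    · interval_cases m
      · norm_num at hn
      · norm_num at *
        omega
      · norm_num at *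
        omega
    · have e1 : 2 ^ (3 * m) = 2 ^ (2 * m) * 2 ^ m := by rw [← pow_add]; congr 1; ring
      have e2 : 2 ^ 6 ≤ 2 ^ (2 * m) := Nat.pow_le_pow_right (by norm_num) (by omega)
      have e3 : 64 * 2 ^ m ≤ 2 ^ (3 * m) := by rw [e1]; exact Nat.mul_le_mul_right _ e2
      omega
  · have hs : (Finset.Icc 2 n).filter (fun f => f ∣ n ∧ f ∣ 2 + 1) = ∅ := by
      rw [Finset.filter_eq_empty_iff]
      intro f hf hf2
      rw [Finset.mem_Icc] at hf
      have h8 : f ≤ 3 := Nat.le_of_dvd (by norm_num) hf2.2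
      obtain ⟨h9, h10⟩ := hf2
      have h11 : 2 ≤ f := hf.1
      interval_cases f
      · norm_num at h10
      · exact h3 h9
    rw [hs, Finset.sum_empty] at h
    have hBn := hB n
    omega

/-- `q ≥ 3` -/
theorem num_SU_three (q n k : ℕ) (hq : 3 ≤ q) (hn : 2 ≤ n) (B : ℕ → ℕ) (hB : ∀ m, B m ≤ 3 * q ^ m)
    (h : k * (q + 1) ≤ B n + ∑ f ∈ (Finset.Icc 2 n).filter (fun f => f ∣ n ∧ f ∣ q + 1), (f ^ 2 - 1) * B (n / f)) :
    100 * k ≤ 826 * q ^ (n - 1) := by
  have hle : ∀ s : Finset ℕ, (Finset.Icc 2 n).filter (fun f => f ∣ n ∧ f ∣ q + 1) ⊆ s →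
      k * (q + 1) ≤ 3 * q ^ n + ∑ f ∈ s, (f ^ 2 - 1) * (3 * q ^ (n / f)) := by
    intro s hs
    refine h.trans (Nat.add_le_add (hB n) ?_)
    exact (Finset.sum_le_sum fun f _ => Nat.mul_le_mul_left _ (hB _)).trans (Finset.sum_le_sum_of_subset hs)
  have key : ∀ m, k * (q + 1) ≤ m → 100 * m ≤ 826 * q ^ (n - 1) * (q + 1) → 100 * k ≤ 826 * q ^ (n - 1) := by
    intro m h1 h2
    apply Nat.le_of_mul_le_mul_right (c := q + 1) _ (by omega)
    calc 100 * k * (q + 1) = 100 * (k * (q + 1)) := by ring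
      _ ≤ 100 * m := Nat.mul_le_mul_left _ h1
      _ ≤ _ := h2
  obtain ⟨r, rfl⟩ : ∃ r, q = r + 3 := ⟨q - 3, by omega⟩
  rcases Nat.lt_or_ge n 5 with h5 | h5
  · interval_cases n
    · refine key _ (hle {2} (by intro f hf; rw [Finset.mem_filter, Finset.mem_Icc] at hf; rw [Finset.mem_singleton]; omega)) ?_
      rw [Finset.sum_singleton]
      norm_num
      nlinarith
    · refine key _ (hle {3} (by
        intro f hf; rw [Finset.mem_filter, Finset.mem_Icc] at hf; rw [Finset.mem_singleton]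
        obtain ⟨⟨h1, h2⟩, h3, h4⟩ := hf
        interval_cases f
        · omega
        · rfl)) ?_
      rw [Finset.sum_singleton]
      norm_num
      nlinarith [Nat.zero_le (r ^ 2), Nat.zero_le (r ^ 3)]
    · refine key _ (hle {2, 4} (by
        intro f hf; rw [Finset.mem_filter, Finset.mem_Icc] at hf; rw [Finset.mem_insert, Finset.mem_singleton]
        obtain ⟨⟨h1, h2⟩, h3, h4⟩ := hf
        interval_cases f
        · left; rfl
        · omega
        · right; rfl)) ?_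
      rw [Finset.sum_pair (by norm_num)]
      norm_num
      nlinarith [Nat.zero_le (r ^ 2), Nat.zero_le (r ^ 3), Nat.zero_le (r ^ 4)]
  · -- general
    have h1 := hle _ (le_refl _)
    have h2 : ∑ f ∈ (Finset.Icc 2 n).filter (fun f => f ∣ n ∧ f ∣ r + 3 + 1), (f ^ 2 - 1) * (3 * (r + 3) ^ (n / f)) ≤
        3 * (r + 3 + 1) ^ 2 * ∑ j ∈ Finset.Icc 1 (n / 2), (r + 3) ^ j := by
      calc _ ≤ ∑ f ∈ (Finset.Icc 2 n).filter (fun f => f ∣ n ∧ f ∣ r + 3 + 1), 3 * (r + 3 + 1) ^ 2 * (r + 3) ^ (n / f) := by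
            apply Finset.sum_le_sum
            intro f hf
            rw [Finset.mem_filter, Finset.mem_Icc] at hf
            have h3 : f ≤ r + 3 + 1 := Nat.le_of_dvd (by omega) hf.2.2
            have h4 : f ^ 2 - 1 ≤ (r + 3 + 1) ^ 2 := (Nat.sub_le _ _).trans (Nat.pow_le_pow_left h3 2)
            calc (f ^ 2 - 1) * (3 * (r + 3) ^ (n / f)) ≤ (r + 3 + 1) ^ 2 * (3 * (r + 3) ^ (n / f)) := Nat.mul_le_mul_right _ h4
              _ = _ := by ring
        _ = 3 * (r + 3 + 1) ^ 2 * ∑ f ∈ (Finset.Icc 2 n).filter (fun f => f ∣ n ∧ f ∣ r + 3 + 1), (r + 3) ^ (n / f) := by rw [Finset.mul_sum]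
        _ ≤ _ := Nat.mul_le_mul_left _ (sum_div_le (r + 3) n (by omega) _)
    have h3 := geom_Icc (r + 3) (n / 2) (by omega)
    obtain ⟨S, hS⟩ : ∃ S, S = ∑ j ∈ Finset.Icc 1 (n / 2), (r + 3) ^ j := ⟨_, rfl⟩
    rw [← hS] at h2 h3
    have e0 : r + 3 - 1 = r + 2 := by omega
    rw [e0] at h3
    have h4 : (r + 2) * S ≤ (r + 3) ^ (n - 2) := by
      calc (r + 2) * S ≤ (r + 3) ^ (n / 2 + 1) := by omega
        _ ≤ _ := Nat.pow_le_pow_right (by omega) (by omega)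
    obtain ⟨m, rfl⟩ : ∃ m, n = m + 2 := ⟨n - 2, by omega⟩
    rw [Nat.add_sub_cancel] at h4
    have e1 : m + 2 - 1 = m + 1 := by omega
    rw [e1]
    obtain ⟨P, hP⟩ : ∃ P, P = (r + 3) ^ m := ⟨_, rfl⟩
    have e2 : (r + 3) ^ (m + 2) = P * (r + 3) ^ 2 := by rw [hP, pow_add]
    have e3 : (r + 3) ^ (m + 1) = P * (r + 3) := by rw [hP, pow_succ]
    rw [e2] at h1
    rw [← hP] at h4
    rw [e3]
    have h5 : k * (r + 3 + 1) ≤ 3 * (P * (r + 3) ^ 2) + 3 * (r + 3 + 1) ^ 2 * S := h1.trans (Nat.add_le_add_left h2 _)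
    apply Nat.le_of_mul_le_mul_right (c := (r + 3 + 1) * (r + 2)) _ (by positivity)
    calc 100 * k * ((r + 3 + 1) * (r + 2)) = 100 * (k * (r + 3 + 1)) * (r + 2) := by ring
      _ ≤ 100 * (3 * (P * (r + 3) ^ 2) + 3 * (r + 3 + 1) ^ 2 * S) * (r + 2) := Nat.mul_le_mul_right _ (Nat.mul_le_mul_left _ h5)
      _ = 300 * P * (r + 3) ^ 2 * (r + 2) + 300 * (r + 3 + 1) ^ 2 * ((r + 2) * S) := by ring
      _ ≤ 300 * P * (r + 3) ^ 2 * (r + 2) + 300 * (r + 3 + 1) ^ 2 * P := Nat.add_le_add_left (Nat.mul_le_mul_left _ h4) _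
      _ = P * (300 * (r + 3) ^ 2 * (r + 2) + 300 * (r + 3 + 1) ^ 2) := by ring
      _ ≤ P * (826 * (r + 3) * ((r + 3 + 1) * (r + 2))) := by
        apply Nat.mul_le_mul_left
        nlinarith [Nat.zero_le (r ^ 2), Nat.zero_le (r ^ 3)]
      _ = _ := by ring

end Cfsg.Agent.H43
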