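import Mathlib
import Cfsg.Agent.Orth.Homs
import Cfsg.Agent.Orth.Tools

set_option autoImplicit false
set_option linter.unusedSectionVars false
set_option linter.unusedVariables false

/-! Centralizers in orthogonal groups containing products of two reflections. -/

namespace Cfsg.Agent.H43

open Cfsg.Agent.Orth QuadraticMap

section
variable {F V : Type*} [Field F] [AddCommGroup V] [Module F V] [FiniteDimensional F V]

theorem ker_sq_bound {Q : QuadraticForm F V} (hQ : (polarBilin Q).Nondegenerate) (g : OGrp Q) {a : F} (ha : a * a = 1)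
    {T : V →ₗ[F] V} (hT : ∀ x, T x = (g : V ≃ₗ[F] V) x - a • x) {U : Submodule F V} (hU : U ≤ LinearMap.ker T) (hUp : U ≤ perp Q (LinearMap.ker T)) :
    Module.finrank F U + Module.finrank F (LinearMap.ker T) ≤ Module.finrank F (LinearMap.ker (T ^ 2)) := by
  have hR : LinearMap.range T = perp Q (LinearMap.ker T) := by
    apply Submodule.eq_of_le_of_finrank_eq
    · rintro _ ⟨y, rfl⟩
      rw [mem_perp]
      intro w hw
      rw [LinearMap.mem_ker, hT, sub_eq_zero] at hw
      have h1 : polar Q ((g : V ≃ₗ[F] V) w) ((g : V ≃ₗ[F] V) y) = polar Q w y := OGrp_polar g w y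
      rw [hw, psl] at h1
      rw [hT, pdr, psr]
      have h3 : polar Q w ((g : V ≃ₗ[F] V) y) = a * (a * polar Q w ((g : V ≃ₗ[F] V) y)) := by rw [← mul_assoc, ha, one_mul]
      rw [h3, h1, sub_self]
    · have h1 := LinearMap.finrank_range_add_finrank_ker T
      have h3 := finrank_perp hQ (LinearMap.ker T)
      omega
  obtain ⟨S, hS⟩ : ∃ S : LinearMap.ker (T ^ 2) →ₗ[F] V, S = T.domRestrict (LinearMap.ker (T ^ 2)) := ⟨_, rfl⟩
  have h1 := LinearMap.finrank_range_add_finrank_ker S
  have h3 : U ≤ LinearMap.range S := by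
    intro x hx
    have h4 := hUp hx
    rw [← hR] at h4
    obtain ⟨y, rfl⟩ := h4
    have h5 := hU hx
    rw [LinearMap.mem_ker] at h5
    refine ⟨⟨y, ?_⟩, ?_⟩
    · rw [LinearMap.mem_ker, pow_two, Module.End.mul_apply, h5]
    · rw [hS]; rfl
  have h4 : Module.finrank F (LinearMap.ker S) = Module.finrank F (LinearMap.ker T) := by
    have h5 : LinearMap.ker T ≤ LinearMap.ker (T ^ 2) := by
      intro x hx
      rw [LinearMap.mem_ker] at hx ⊢
      rw [pow_two, Module.End.mul_apply, hx, map_zero]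
    have h6 : LinearMap.ker S = Submodule.comap (LinearMap.ker (T ^ 2)).subtype (LinearMap.ker T) := by
      rw [hS]; rfl
    rw [h6]
    exact (Submodule.comapSubtypeEquivOfLe h5).finrank_eq
  have h5 := Submodule.finrank_mono h3
  omega

/-- a pair of orthogonal non-singular eigenvectors -/
theorem exists_comm_pair [Finite F] {Q : QuadraticForm F V} (hQ : (polarBilin Q).Nondegenerate) (h2 : (2 : F) ≠ 0) (g : OGrp Q) {a : F} (ha : a * a = 1)
    {T : V →ₗ[F] V} (hT : ∀ x, T x = (g : V ≃ₗ[F] V) x - a • x)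
    (hdim : Module.finrank F (LinearMap.ker (T ^ 2)) + 2 ≤ 2 * Module.finrank F (LinearMap.ker T)) {ν : F} (hν : ν ≠ 0) :
    ∃ (u b : V) (hu : Q u ≠ 0) (hb : Q b ≠ 0), Q b = ν * Q u ∧ Commute g (refl Q u hu * refl Q b hb) := by
  obtain ⟨u, huW, hu⟩ : ∃ u ∈ LinearMap.ker T, Q u ≠ 0 := by
    by_contra hcon
    push Not at hcon
    have h1 := ker_sq_bound hQ g ha hT (U := LinearMap.ker T) le_rfl (le_perp_of_singular hcon)
    omega
  have huu : polar Q u u ≠ 0 := by rw [pself]; exact mul_ne_zero h2 hu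
  obtain ⟨v, hvW, hv, huv⟩ : ∃ v ∈ LinearMap.ker T, Q v ≠ 0 ∧ polar Q u v = 0 := by
    by_contra hcon
    push Not at hcon
    obtain ⟨W', hW'⟩ : ∃ W', W' = LinearMap.ker T ⊓ perp Q (F ∙ u) := ⟨_, rfl⟩
    have hmem : ∀ x, x ∈ W' ↔ x ∈ LinearMap.ker T ∧ polar Q u x = 0 := by
      intro x
      rw [hW', Submodule.mem_inf, mem_perp]
      apply and_congr_right
      intro _
      constructor
      · intro h; exact h u (Submodule.mem_span_singleton_self u)
      · intro h w hw
        obtain ⟨c, rfl⟩ := Submodule.mem_span_singleton.1 hw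
        rw [psl, h, mul_zero]
    have hsing : ∀ x ∈ W', Q x = 0 := by
      intro x hx
      rw [hmem] at hx
      by_contra h
      exact hcon x hx.1 h hx.2
    have hproj : ∀ w ∈ LinearMap.ker T, w - (polar Q u w / polar Q u u) • u ∈ W' := by
      intro w hw
      rw [hmem]
      refine ⟨Submodule.sub_mem _ hw (Submodule.smul_mem _ _ huW), ?_⟩
      rw [pdr, psr]
      field_simp
      ring
    have hperp : W' ≤ perp Q (LinearMap.ker T) := by
      intro x hx
      rw [mem_perp]
      intro w hw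
      have h1 := le_perp_of_singular hsing hx
      rw [mem_perp] at h1
      have h3 := h1 _ (hproj w hw)
      rw [pdl, psl, ((hmem x).1 hx).2, mul_zero, sub_zero] at h3
      exact h3
    have h1 := ker_sq_bound hQ g ha hT (U := W') (by rw [hW']; exact inf_le_left) hperp
    have h3 : LinearMap.ker T ≤ W' ⊔ (F ∙ u) := by
      intro w hw
      have : w = (w - (polar Q u w / polar Q u u) • u) + (polar Q u w / polar Q u u) • u := by abel
      rw [this]
      exact Submodule.add_mem_sup (hproj w hw) (Submodule.smul_mem _ _ (Submodule.mem_span_singleton_self u))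
    have h4 := Submodule.finrank_mono h3
    have h5 := Submodule.finrank_add_le_finrank_add_finrank W' (F ∙ u)
    have h6 : Module.finrank F (F ∙ u) = 1 := finrank_span_singleton (by rintro rfl; exact hu (QuadraticMap.map_zero Q))
    omega
  obtain ⟨x, y, hxy⟩ := exists_sum_sq hu hv (ν * Q u)
  have hQb : Q (x • u + y • v) = ν * Q u := by
    rw [qadd, qsmul, qsmul, psl, psr, huv, ← hxy]; ring
  have hb : Q (x • u + y • v) ≠ 0 := by rw [hQb]; exact mul_ne_zero hν hu
  have ha0 : a ≠ 0 := left_ne_zero_of_mul_eq_one ha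
  have hcomm : ∀ (w : V) (hw : Q w ≠ 0), w ∈ LinearMap.ker T → Commute g (refl Q w hw) := by
    intro w hw hwT
    rw [LinearMap.mem_ker, hT, sub_eq_zero] at hwT
    have h1 := refl_conj g w hw
    have h3 : refl Q ((g : V ≃ₗ[F] V) w) (by rwa [OGrp_q]) = refl Q w hw := by
      have h4 : ∀ (z : V) (hz : Q z ≠ 0), z = a • w → refl Q z hz = refl Q w hw := by
        rintro z hz rfl
        exact refl_smul hw ha0 hz
      exact h4 _ _ hwT
    rw [h3] at h1
    exact mul_inv_eq_iff_eq_mul.1 h1
  refine ⟨u, x • u + y • v, hu, hb, hQb, ?_⟩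
  exact (hcomm u hu huW).mul_right (hcomm _ hb (Submodule.add_mem _ (Submodule.smul_mem _ _ huW) (Submodule.smul_mem _ _ hvW)))

theorem pair_not_mem [Finite F] {Q : QuadraticForm F V} (hQ : (polarBilin Q).Nondegenerate) (h2 : (2 : F) ≠ 0) {u b : V} (hu : Q u ≠ 0) (hb : Q b ≠ 0)
    {ν : F} (hν : ¬ IsSquare ν) (h : Q b = ν * Q u) : refl Q u hu * refl Q b hb ∉ commutator (OGrp Q) := by
  have h1 : refl Q u hu * refl Q b hb = reflProd Q [⟨u, hu⟩, ⟨b, hb⟩] := by
    rw [reflProd_cons, reflProd_cons, reflProd_nil, mul_one]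
  rw [h1, reflProd_mem_commutator_iff hQ (RGrp_top_of_two hQ h2)]
  rintro ⟨-, h3⟩
  rw [nrm_cons, nrm_cons, nrm_nil, mul_one, h] at h3
  obtain ⟨z, hz⟩ := h3
  apply hν
  refine ⟨z / Q u, ?_⟩
  have hz' : Q u * (ν * Q u) = z * z := hz
  field_simp
  linear_combination hz'

end

end Cfsg.Agent.H43
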