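import Mathlib
import Cfsg.Agent.H43.NumOm
import Cfsg.Agent.H43.FormLower

set_option autoImplicit false
set_option linter.unusedSectionVars false
set_option linter.unusedVariables false

/-! Weighted counting of orthogonal coordinates. -/

namespace Cfsg.Agent.H43

open Polynomial

section
variable {F : Type*} [Field F] [Fintype F]

/-- self-dual polynomials without roots `±1` -/
def Hs (F : Type*) [Field F] (k : ℕ) : Set F[X] := {f | f ∈ SDp F k ∧ eval 1 f ≠ 0 ∧ eval (-1) f ≠ 0}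

theorem Hs_finite (k : ℕ) : Finite (Hs F k) := by
  have := (card_SDp (F := F) k).1
  exact Finite.Set.subset (SDp F k) (fun f hf => hf.1)

theorem card_Hs_zero : Nat.card (Hs F 0) ≤ 1 := by
  obtain ⟨h1, h2⟩ := card_SDp (F := F) 0
  rw [pow_zero] at h2
  rw [← h2]
  exact Nat.card_le_card_of_injective (fun f : Hs F 0 => (⟨f.1, f.2.1⟩ : SDp F 0)) (fun f g h => Subtype.ext (congrArg (fun z : SDp F 0 => z.1) h))

theorem card_Hs_one (h2 : (2 : F) ≠ 0) : Nat.card (Hs F 1) ≤ Fintype.card F - 2 := by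
  classical
  have h4 : (2 : F) ≠ -2 := by
    intro h
    have : (2 : F) * 2 = 0 := by linear_combination h
    exact h2 (by rcases mul_eq_zero.1 this with h | h <;> exact h)
  let f : Hs F 1 → {t : F // t ∉ ({2, -2} : Finset F)} := fun g => ⟨g.1.coeff 1, by
    obtain ⟨⟨hm, h0, hd, hn⟩, h1, h1'⟩ := g.2
    have hdeg : g.1.degree < 3 := by
      rw [degree_eq_natDegree hm.ne_zero, hn]; norm_num
    have hc2 : g.1.coeff 2 = 1 := by
      have := hm.coeff_natDegree
      rwa [hn] at this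
    have he : ∀ x, eval x g.1 = 1 + g.1.coeff 1 * x + x ^ 2 := by
      intro x
      rw [eval_eq_sum_range, hn]
      simp [Finset.sum_range_succ, h0, hc2]
    rw [Finset.mem_insert, Finset.mem_singleton, not_or]
    constructor
    · intro h
      apply h1'
      rw [he, h]; ring
    · intro h
      apply h1
      rw [he, h]; ring⟩
  have hinj : Function.Injective f := by
    intro g g' h
    have h1 : g.1.coeff 1 = g'.1.coeff 1 := congrArg Subtype.val h
    have h2 := SDp_inj (F := F) 1 (a₁ := ⟨g.1, g.2.1⟩) (a₂ := ⟨g'.1, g'.2.1⟩) (by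
      funext i
      have hi : (i : ℕ) = 0 := by omega
      simp only [hi]
      exact h1)
    exact Subtype.ext (congrArg (fun z : SDp F 1 => z.1) h2)
  have h3 := Nat.card_le_card_of_injective f hinj
  rw [Nat.card_eq_fintype_card (α := {t : F // t ∉ ({2, -2} : Finset F)}), Fintype.card_subtype_compl, Fintype.card_coe, Finset.card_pair h4] at h3
  exact h3

theorem card_Hs_add_two (h2 : (2 : F) ≠ 0) (k : ℕ) : Nat.card (Hs F (k + 2)) ≤ (Fintype.card F - 1) ^ 2 * Fintype.card F ^ k := by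
  classical
  obtain ⟨T, hT1, hT2, hT3, hT4⟩ := exists_adjust (F := F) h2 (k + 2) (by omega)
  obtain ⟨hfin, hcard⟩ := card_SDp (F := F) (k + 2)
  rw [Nat.card_eq_fintype_card (α := F)] at hcard
  obtain ⟨Z, hZ⟩ : ∃ Z : Set F[X], Z = {f | f ∈ SDp F (k + 2) ∧ eval 1 f = 0 ∧ eval (-1) f = 0} := ⟨_, rfl⟩
  have hZm : ∀ f, f ∈ Z ↔ f ∈ SDp F (k + 2) ∧ eval 1 f = 0 ∧ eval (-1) f = 0 := by intro f; rw [hZ]; rfl
  have hZfin : Finite Z := Finite.Set.subset (SDp F (k + 2)) (fun f hf => ((hZm f).1 hf).1)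
  have hHfin := Hs_finite (F := F) (k + 2)
  have h1 : Nat.card Z * (Fintype.card F * Fintype.card F) ≤ Fintype.card F ^ (k + 2) := by
    rw [← hcard]
    have h3 := Nat.card_le_card_of_injective (fun x : Z × F × F => (⟨T x.1.1 x.2.1 x.2.2, hT1 _ _ _ ((hZm _).1 x.1.2).1⟩ : SDp F (k + 2))) (by
      intro x y h
      have h4 : T x.1.1 x.2.1 x.2.2 = T y.1.1 y.2.1 y.2.2 := congrArg Subtype.val h
      have h5 : x.2.1 = y.2.1 := by
        have := congrArg (eval 1) h4
        rwa [hT2, hT2] at this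
      have h6 : x.2.2 = y.2.2 := by
        have := congrArg (eval (-1)) h4
        rwa [hT3, hT3] at this
      have h7 : x.1.1 = y.1.1 := by
        have e1 := hT4 x.1.1 x.2.1 x.2.2
        have e2 := hT4 y.1.1 y.2.1 y.2.2
        rw [((hZm _).1 x.1.2).2.1, ((hZm _).1 x.1.2).2.2] at e1
        rw [((hZm _).1 y.1.2).2.1, ((hZm _).1 y.1.2).2.2] at e2
        rw [← e1, ← e2, h4]
      exact Prod.ext (Subtype.ext h7) (Prod.ext h5 h6))
    rw [Nat.card_prod, Nat.card_prod, Nat.card_eq_fintype_card (α := F)] at h3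
    exact h3
  have hq : 0 < Fintype.card F := Fintype.card_pos
  have h1' : Nat.card Z ≤ Fintype.card F ^ k := by
    have e1 : Fintype.card F ^ (k + 2) = Fintype.card F ^ k * (Fintype.card F * Fintype.card F) := by ring
    rw [e1] at h1
    exact Nat.le_of_mul_le_mul_right h1 (by positivity)
  have hu : Fintype.card Fˣ = Fintype.card F - 1 := Fintype.card_units F
  have h3 := Nat.card_le_card_of_injective (fun f : Hs F (k + 2) => ((⟨T f.1 0 0, (hZm _).2 ⟨hT1 _ _ _ f.2.1, hT2 _ _ _, hT3 _ _ _⟩⟩, Units.mk0 _ f.2.2.1, Units.mk0 _ f.2.2.2) : Z × Fˣ × Fˣ)) (by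
    intro f g h
    have e1 : T f.1 0 0 = T g.1 0 0 := congrArg (fun x : Z × Fˣ × Fˣ => x.1.1) h
    have e2 : eval 1 f.1 = eval 1 g.1 := congrArg (fun x : Z × Fˣ × Fˣ => (x.2.1 : F)) h
    have e3 : eval (-1) f.1 = eval (-1) g.1 := congrArg (fun x : Z × Fˣ × Fˣ => (x.2.2 : F)) h
    apply Subtype.ext
    rw [← hT4 f.1 0 0, ← hT4 g.1 0 0, e1, e2, e3])
  rw [Nat.card_prod, Nat.card_prod, Nat.card_eq_fintype_card (α := Fˣ), hu] at h3
  calc Nat.card (Hs F (k + 2)) ≤ Nat.card Z * ((Fintype.card F - 1) * (Fintype.card F - 1)) := h3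
    _ ≤ Fintype.card F ^ k * ((Fintype.card F - 1) * (Fintype.card F - 1)) := Nat.mul_le_mul_right _ h1'
    _ = _ := by ring

theorem card_Hs_succ (h2 : (2 : F) ≠ 0) (k : ℕ) : Fintype.card F * Nat.card (Hs F (k + 1)) ≤ (Fintype.card F - 1) ^ 2 * Fintype.card F ^ k := by
  have hq : 1 < Fintype.card F := Fintype.one_lt_card
  obtain ⟨t, ht⟩ : ∃ t, Fintype.card F = t + 2 := ⟨Fintype.card F - 2, by omega⟩
  rcases k with _ | k
  · have h3 := card_Hs_one (F := F) h2
    rw [ht] at h3 ⊢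
    have e1 : t + 2 - 2 = t := by omega
    have e2 : t + 2 - 1 = t + 1 := by omega
    rw [e1] at h3
    rw [e2, pow_zero, mul_one, zero_add]
    nlinarith
  · have h3 := card_Hs_add_two (F := F) h2 k
    calc Fintype.card F * Nat.card (Hs F (k + 1 + 1)) ≤ Fintype.card F * ((Fintype.card F - 1) ^ 2 * Fintype.card F ^ k) := Nat.mul_le_mul_left _ h3
      _ = _ := by ring

/-- few roots `±1` -/
def Restr (x : PolU (RingHom.id F) × Bool × Bool) : Prop := rootMultiplicity 1 x.1.1 ≤ 1 ∧ rootMultiplicity (-1) x.1.1 ≤ 1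

/-- weight of a first coordinate -/
noncomputable def vR (x : PolU (RingHom.id F) × Bool × Bool) : ℝ := 1 + 3 * @ite _ (Restr x) (Classical.propDecidable _) 1 0

theorem codeF_p1 (x : PolU (RingHom.id F) × Bool × Bool) : (codeF x).1.2 = true ↔ Odd (rootMultiplicity 1 x.1.1) := by
  unfold codeF; simp

theorem codeF_p2 (x : PolU (RingHom.id F) × Bool × Bool) : (codeF x).2.2 = true ↔ Odd (rootMultiplicity (-1) x.1.1) := by
  unfold codeF; simp

/-- the fibers of all coordinates -/
theorem fiber_all (h2 : (2 : F) ≠ 0) {i : ℕ} (κ : (Bool × Bool) × (Bool × Bool)) (m : ℕ) (S : Finset (PolU (RingHom.id F) × Bool × Bool))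
    (hS : ∀ x ∈ S, ConsF (1 : F) i x ∧ codeF x = κ ∧ degU (RingHom.id F) x.1 = m) :
    S.card ≤ if eK κ ≤ m ∧ Even (m - eK κ) then Fintype.card F ^ ((m - eK κ) / 2) else 0 := by
  classical
  obtain ⟨h5, h6⟩ := fiber_orth h2 (ε := (1 : F)) (i := i) κ S (fun x hx => ⟨(hS x hx).1, (hS x hx).2.1⟩)
  rcases S.eq_empty_or_nonempty with hE | ⟨x, hx⟩
  · rw [hE, Finset.card_empty]; exact Nat.zero_le _
  · obtain ⟨k, hk⟩ := h5 x hx
    rw [(hS x hx).2.2] at hk
    have h7 := h6 k
    rw [Finset.filter_true_of_mem (fun y hy => by rw [(hS y hy).2.2, hk])] at h7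
    have e1 : m - eK κ = k + k := by omega
    rw [if_pos ⟨by omega, ⟨k, e1⟩⟩, e1]
    have e2 : (k + k) / 2 = k := by omega
    rw [e2]; exact h7

/-- the fibers of restricted coordinates -/
theorem fiber_restr (h2 : (2 : F) ≠ 0) {i : ℕ} (κ : (Bool × Bool) × (Bool × Bool)) (m : ℕ) (S : Finset (PolU (RingHom.id F) × Bool × Bool))
    (hS : ∀ x ∈ S, (ConsF (1 : F) i x ∧ Restr x) ∧ codeF x = κ ∧ degU (RingHom.id F) x.1 = m) :
    S.card ≤ if (κ.1.1 = true → κ.1.2 = true) ∧ (κ.2.1 = true → κ.2.2 = true) ∧ eK κ ≤ m ∧ Even (m - eK κ) then Nat.card (Hs F ((m - eK κ) / 2)) else 0 := by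
  classical
  rcases S.eq_empty_or_nonempty with hE | ⟨x0, hx0⟩
  · rw [hE, Finset.card_empty]; exact Nat.zero_le _
  · have key : ∀ x ∈ S, ∃ k, ∃ f ∈ Hs F k, x.1.1 = (X - C 1) ^ (eB κ.1.1 κ.1.2) * ((X - C (-1)) ^ (eB κ.2.1 κ.2.2) * f) ∧ m = eK κ + 2 * k ∧
        (κ.1.1 = true → κ.1.2 = true) ∧ (κ.2.1 = true → κ.2.2 = true) := by
      intro x hx
      obtain ⟨⟨⟨h3, h4, h5⟩, h6, h7⟩, hκ, hm⟩ := hS x hx
      have hx1 : (codeF x).1.1 = x.2.1 := rfl
      have hx2 : (codeF x).2.1 = x.2.2 := rfl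
      have r1 : x.2.1 = true → rootMultiplicity 1 x.1.1 = 1 := by
        intro h
        have := (rootMultiplicity_pos x.1.2.1.ne_zero).2 (dvd_iff_isRoot.1 (h3 h).1)
        omega
      have r2 : x.2.2 = true → rootMultiplicity (-1) x.1.1 = 1 := by
        intro h
        have := (rootMultiplicity_pos x.1.2.1.ne_zero).2 (dvd_iff_isRoot.1 (h4 h).1)
        omega
      have i1 : κ.1.1 = true → κ.1.2 = true := by
        rw [← hκ, hx1, codeF_p1]
        intro h; rw [r1 h]; exact odd_one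
      have i2 : κ.2.1 = true → κ.2.2 = true := by
        rw [← hκ, hx2, codeF_p2]
        intro h; rw [r2 h]; exact odd_one
      have e1 : eB κ.1.1 κ.1.2 = rootMultiplicity 1 x.1.1 := by
        have hp := codeF_p1 x
        rw [hκ] at hp
        unfold eB
        cases h8 : κ.1.1
        · cases h9 : κ.1.2
          · have : ¬ Odd (rootMultiplicity 1 x.1.1) := by rw [← hp, h9]; simp
            rw [Nat.not_odd_iff_even] at this
            obtain ⟨j, hj⟩ := this
            simp; omega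
          · have : Odd (rootMultiplicity 1 x.1.1) := by rw [← hp, h9]
            obtain ⟨j, hj⟩ := this
            simp; omega
        · have h9 := i1 h8
          rw [h9]
          have : Odd (rootMultiplicity 1 x.1.1) := by rw [← hp, h9]
          obtain ⟨j, hj⟩ := this
          simp; omega
      have e2 : eB κ.2.1 κ.2.2 = rootMultiplicity (-1) x.1.1 := by
        have hp := codeF_p2 x
        rw [hκ] at hp
        unfold eB
        cases h8 : κ.2.1
        · cases h9 : κ.2.2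
          · have : ¬ Odd (rootMultiplicity (-1) x.1.1) := by rw [← hp, h9]; simp
            rw [Nat.not_odd_iff_even] at this
            obtain ⟨j, hj⟩ := this
            simp; omega
          · have : Odd (rootMultiplicity (-1) x.1.1) := by rw [← hp, h9]
            obtain ⟨j, hj⟩ := this
            simp; omega
        · have h9 := i2 h8
          rw [h9]
          have : Odd (rootMultiplicity (-1) x.1.1) := by rw [← hp, h9]
          obtain ⟨j, hj⟩ := this
          simp; omega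
      obtain ⟨h, hh, hhm, hh0, hhd, hr1, hr2⟩ := sd_split h2 x.1.2.1 x.1.2.2.2 x.1.2.2.1
      obtain ⟨hc1, k, hc2⟩ := sd_noroot h2 hhd hh0 hr1 hr2
      have hdeg := congrArg natDegree hh
      rw [natDegree_mul (pow_ne_zero _ (X_sub_C_ne_zero _)) (mul_ne_zero (pow_ne_zero _ (X_sub_C_ne_zero _)) hhm.ne_zero),
        natDegree_mul (pow_ne_zero _ (X_sub_C_ne_zero _)) hhm.ne_zero, natDegree_pow, natDegree_pow, natDegree_X_sub_C, natDegree_X_sub_C, mul_one, mul_one] at hdeg
      have hm' : x.1.1.natDegree = m := hm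
      refine ⟨k, h, ⟨⟨hhm, hc1, hhd, by omega⟩, hr1, hr2⟩, ?_, ?_, i1, i2⟩
      · rw [e1, e2]; exact hh
      · unfold eK
        rw [e1, e2]; omega
    obtain ⟨k, f, hf, hf1, hf2, i1, i2⟩ := key x0 hx0
    have e1 : m - eK κ = k + k := by omega
    have e2 : (k + k) / 2 = k := by omega
    rw [if_pos ⟨i1, i2, by omega, ⟨k, e1⟩⟩, e1, e2]
    have hfin := Hs_finite (F := F) k
    have hex : ∀ x : S, ∃ f : Hs F k, x.1.1.1 = (X - C 1) ^ (eB κ.1.1 κ.1.2) * ((X - C (-1)) ^ (eB κ.2.1 κ.2.2) * f.1) := by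
      intro x
      obtain ⟨k', f', hf', hf1', hf2', _, _⟩ := key x.1 x.2
      have hkk : k' = k := by omega
      rw [hkk] at hf'
      exact ⟨⟨f', hf'⟩, hf1'⟩
    choose g hg using hex
    have hinj : Function.Injective g := by
      intro x y hxy
      have h3 : x.1.1.1 = y.1.1.1 := by rw [hg, hg, hxy]
      have h4 : codeF x.1 = codeF y.1 := (hS x.1 x.2).2.1.trans (hS y.1 y.2).2.1.symm
      have h5 : x.1.2.1 = y.1.2.1 := congrArg (fun z => z.1.1) h4
      have h6 : x.1.2.2 = y.1.2.2 := congrArg (fun z => z.2.1) h4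
      exact Subtype.ext (Prod.ext (Subtype.ext h3) (Prod.ext h5 h6))
    have h5 := Nat.card_le_card_of_injective g hinj
    rw [Nat.card_eq_fintype_card (α := S), Fintype.card_coe] at h5
    exact h5

end

end Cfsg.Agent.H43
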