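import Mathlib
import Cfsg.Agent.H43.OmCount

set_option autoImplicit false
set_option linter.unusedSectionVars false
set_option linter.unusedVariables false

/-! Weighted counting of the first two coordinates. -/

namespace Cfsg.Agent.H43

open Polynomial

theorem sum_eK (g : ℕ → ℕ) : ∑ κ : (Bool × Bool) × (Bool × Bool), g (eK κ) = g 0 + 4 * g 1 + 6 * g 2 + 4 * g 3 + g 4 := by
  simp only [Fintype.sum_prod_type, Fintype.sum_bool, eK, eB]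
  simp
  ring

theorem sum_eK_restr (g : ℕ → ℕ) : ∑ κ : (Bool × Bool) × (Bool × Bool), (if (κ.1.1 = true → κ.1.2 = true) ∧ (κ.2.1 = true → κ.2.2 = true) then g (eK κ) else 0) =
    g 0 + 4 * g 1 + 4 * g 2 := by
  simp only [Fintype.sum_prod_type, Fintype.sum_bool, eK, eB]
  simp
  ring

section
variable {F : Type*} [Field F] [Fintype F]

/-- total count -/
noncomputable def cT (F : Type*) [Field F] [Fintype F] (m : ℕ) : ℕ := ∑ κ : (Bool × Bool) × (Bool × Bool), if eK κ ≤ m ∧ Even (m - eK κ) then Fintype.card F ^ ((m - eK κ) / 2) else 0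

/-- restricted count -/
noncomputable def cR (F : Type*) [Field F] (m : ℕ) : ℕ := ∑ κ : (Bool × Bool) × (Bool × Bool),
  if (κ.1.1 = true → κ.1.2 = true) ∧ (κ.2.1 = true → κ.2.2 = true) ∧ eK κ ≤ m ∧ Even (m - eK κ) then Nat.card (Hs F ((m - eK κ) / 2)) else 0

theorem cT_eq (m : ℕ) (t : ℕ → ℕ) (ht : ∀ e, t e = if e ≤ m ∧ Even (m - e) then Fintype.card F ^ ((m - e) / 2) else 0) :
    cT F m = t 0 + 4 * t 1 + 6 * t 2 + 4 * t 3 + t 4 := by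
  rw [← sum_eK]
  unfold cT
  apply Finset.sum_congr rfl
  intro κ _
  rw [ht]

theorem cR_eq (m : ℕ) (t : ℕ → ℕ) (ht : ∀ e, t e = if e ≤ m ∧ Even (m - e) then Nat.card (Hs F ((m - e) / 2)) else 0) :
    cR F m = t 0 + 4 * t 1 + 4 * t 2 := by
  rw [← sum_eK_restr]
  unfold cR
  apply Finset.sum_congr rfl
  intro κ _
  rw [ht]
  by_cases h1 : (κ.1.1 = true → κ.1.2 = true) ∧ (κ.2.1 = true → κ.2.2 = true)
  · rw [if_pos h1]
    by_cases h2 : eK κ ≤ m ∧ Even (m - eK κ)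
    · rw [if_pos h2, if_pos ⟨h1.1, h1.2, h2.1, h2.2⟩]
    · rw [if_neg h2, if_neg (fun h => h2 ⟨h.2.2.1, h.2.2.2⟩)]
  · rw [if_neg h1, if_neg (fun h => h1 ⟨h.1, h.2.1⟩)]

theorem sum_vR_le (h2 : (2 : F) ≠ 0) {i : ℕ} (m : ℕ) (S : Finset (PolU (RingHom.id F) × Bool × Bool))
    (hS : ∀ x ∈ S, ConsF (1 : F) i x ∧ degU (RingHom.id F) x.1 = m) :
    ∑ x ∈ S, vR x ≤ (cT F m : ℝ) + 3 * (cR F m : ℝ) := by
  classical
  have h3 : ∑ x ∈ S, vR x = (S.card : ℝ) + 3 * ((S.filter (fun x => Restr x)).card : ℝ) := by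
    unfold vR
    rw [Finset.sum_add_distrib, ← Finset.mul_sum, Finset.sum_const, nsmul_eq_mul, mul_one, Finset.card_filter]
    push_cast
    congr 1
  have h4 : S.card ≤ cT F m := by
    rw [Finset.card_eq_sum_card_fiberwise (f := codeF) (t := Finset.univ) (fun x _ => Finset.mem_coe.2 (Finset.mem_univ _))]
    apply Finset.sum_le_sum
    intro κ _
    apply fiber_all h2 (i := i) κ m
    intro x hx
    rw [Finset.mem_filter] at hx
    exact ⟨(hS x hx.1).1, hx.2, (hS x hx.1).2⟩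
  have h5 : (S.filter (fun x => Restr x)).card ≤ cR F m := by
    rw [Finset.card_eq_sum_card_fiberwise (f := codeF) (t := Finset.univ) (fun x _ => Finset.mem_coe.2 (Finset.mem_univ _))]
    apply Finset.sum_le_sum
    intro κ _
    apply fiber_restr h2 (i := i) κ m
    intro x hx
    rw [Finset.mem_filter, Finset.mem_filter] at hx
    exact ⟨⟨(hS x hx.1.1).1, hx.1.2⟩, hx.2, (hS x hx.1.1).2⟩
  rw [h3]
  have h6 : (S.card : ℝ) ≤ cT F m := by exact_mod_cast h4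
  have h7 : ((S.filter (fun x => Restr x)).card : ℝ) ≤ cR F m := by exact_mod_cast h5
  linarith

/-- `A m` -/
noncomputable def AR (F : Type*) [Field F] [Fintype F] (m : ℕ) : ℝ := (cT F m : ℝ) + 3 * (cR F m : ℝ)

theorem AR_zero : AR F 0 ≤ 4 := by
  obtain ⟨t, ht⟩ : ∃ t : ℕ → ℕ, ∀ e, t e = if e ≤ 0 ∧ Even (0 - e) then Fintype.card F ^ ((0 - e) / 2) else 0 := ⟨_, fun _ => rfl⟩
  obtain ⟨u, hu⟩ : ∃ u : ℕ → ℕ, ∀ e, u e = if e ≤ 0 ∧ Even (0 - e) then Nat.card (Hs F ((0 - e) / 2)) else 0 := ⟨_, fun _ => rfl⟩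
  have h1 := cT_eq (F := F) 0 t ht
  have h2 := cR_eq (F := F) 0 u hu
  have t0 : t 0 = 1 := by rw [ht]; simp
  have t1 : t 1 = 0 := by rw [ht]; simp
  have t2 : t 2 = 0 := by rw [ht]; simp
  have t3 : t 3 = 0 := by rw [ht]; simp
  have t4 : t 4 = 0 := by rw [ht]; simp
  have u0 : u 0 = Nat.card (Hs F 0) := by rw [hu]; simp
  have u1 : u 1 = 0 := by rw [hu]; simp
  have u2 : u 2 = 0 := by rw [hu]; simp
  rw [t0, t1, t2, t3, t4] at h1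
  rw [u0, u1, u2] at h2
  have h3 := card_Hs_zero (F := F)
  have h4 : cR F 0 ≤ 1 := by omega
  have h5 : (cR F 0 : ℝ) ≤ 1 := by exact_mod_cast h4
  unfold AR
  rw [h1]
  push_cast
  linarith

theorem AR_one : AR F 1 ≤ 16 := by
  obtain ⟨t, ht⟩ : ∃ t : ℕ → ℕ, ∀ e, t e = if e ≤ 1 ∧ Even (1 - e) then Fintype.card F ^ ((1 - e) / 2) else 0 := ⟨_, fun _ => rfl⟩
  obtain ⟨u, hu⟩ : ∃ u : ℕ → ℕ, ∀ e, u e = if e ≤ 1 ∧ Even (1 - e) then Nat.card (Hs F ((1 - e) / 2)) else 0 := ⟨_, fun _ => rfl⟩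
  have h1 := cT_eq (F := F) 1 t ht
  have h2 := cR_eq (F := F) 1 u hu
  have t0 : t 0 = 0 := by rw [ht]; simp
  have t1 : t 1 = 1 := by rw [ht]; simp
  have t2 : t 2 = 0 := by rw [ht]; simp
  have t3 : t 3 = 0 := by rw [ht]; simp
  have t4 : t 4 = 0 := by rw [ht]; simp
  have u0 : u 0 = 0 := by rw [hu]; simp
  have u1 : u 1 = Nat.card (Hs F 0) := by rw [hu]; simp
  have u2 : u 2 = 0 := by rw [hu]; simp
  rw [t0, t1, t2, t3, t4] at h1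
  rw [u0, u1, u2] at h2
  have h3 := card_Hs_zero (F := F)
  have h4 : cR F 1 ≤ 4 := by omega
  have h5 : (cR F 1 : ℝ) ≤ 4 := by exact_mod_cast h4
  unfold AR
  rw [h1]
  push_cast
  linarith

theorem AR_two (h2' : (2 : F) ≠ 0) : AR F 2 ≤ 4 * (Fintype.card F : ℝ) + 12 := by
  obtain ⟨t, ht⟩ : ∃ t : ℕ → ℕ, ∀ e, t e = if e ≤ 2 ∧ Even (2 - e) then Fintype.card F ^ ((2 - e) / 2) else 0 := ⟨_, fun _ => rfl⟩
  obtain ⟨u, hu⟩ : ∃ u : ℕ → ℕ, ∀ e, u e = if e ≤ 2 ∧ Even (2 - e) then Nat.card (Hs F ((2 - e) / 2)) else 0 := ⟨_, fun _ => rfl⟩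
  have h1 := cT_eq (F := F) 2 t ht
  have h2 := cR_eq (F := F) 2 u hu
  have t0 : t 0 = Fintype.card F := by rw [ht]; simp
  have t1 : t 1 = 0 := by rw [ht]; simp
  have t2 : t 2 = 1 := by rw [ht]; simp
  have t3 : t 3 = 0 := by rw [ht]; simp
  have t4 : t 4 = 0 := by rw [ht]; simp
  have u0 : u 0 = Nat.card (Hs F 1) := by rw [hu]; simp
  have u1 : u 1 = 0 := by rw [hu]; simp
  have u2 : u 2 = Nat.card (Hs F 0) := by rw [hu]; simp
  rw [t0, t1, t2, t3, t4] at h1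
  rw [u0, u1, u2] at h2
  have h3 := card_Hs_zero (F := F)
  have h3' := card_Hs_one (F := F) h2'
  have hq : 1 < Fintype.card F := Fintype.one_lt_card
  have h4 : cR F 2 ≤ Fintype.card F + 2 := by omega
  have h5 : (cR F 2 : ℝ) ≤ Fintype.card F + 2 := by exact_mod_cast h4
  unfold AR
  rw [h1]
  push_cast
  linarith

theorem AR_three (h2' : (2 : F) ≠ 0) : AR F 3 ≤ 16 * (Fintype.card F : ℝ) := by
  obtain ⟨t, ht⟩ : ∃ t : ℕ → ℕ, ∀ e, t e = if e ≤ 3 ∧ Even (3 - e) then Fintype.card F ^ ((3 - e) / 2) else 0 := ⟨_, fun _ => rfl⟩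
  obtain ⟨u, hu⟩ : ∃ u : ℕ → ℕ, ∀ e, u e = if e ≤ 3 ∧ Even (3 - e) then Nat.card (Hs F ((3 - e) / 2)) else 0 := ⟨_, fun _ => rfl⟩
  have h1 := cT_eq (F := F) 3 t ht
  have h2 := cR_eq (F := F) 3 u hu
  have hodd3 : ¬ Even 3 := by decide
  have t0 : t 0 = 0 := by rw [ht, if_neg]; rintro ⟨_, h⟩; exact hodd3 h
  have t1 : t 1 = Fintype.card F := by rw [ht]; simp
  have t2 : t 2 = 0 := by rw [ht]; simp
  have t3 : t 3 = 1 := by rw [ht]; simp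
  have t4 : t 4 = 0 := by rw [ht]; simp
  have u0 : u 0 = 0 := by rw [hu, if_neg]; rintro ⟨_, h⟩; exact hodd3 h
  have u1 : u 1 = Nat.card (Hs F 1) := by rw [hu]; simp
  have u2 : u 2 = 0 := by rw [hu]; simp
  rw [t0, t1, t2, t3, t4] at h1
  rw [u0, u1, u2] at h2
  have h3' := card_Hs_one (F := F) h2'
  have hq : 1 < Fintype.card F := Fintype.one_lt_card
  have h4 : cR F 3 + 8 ≤ 4 * Fintype.card F := by omega
  have h5 : (cR F 3 : ℝ) + 8 ≤ 4 * Fintype.card F := by exact_mod_cast h4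
  unfold AR
  rw [h1]
  push_cast
  linarith

theorem AR_even (h2' : (2 : F) ≠ 0) (k : ℕ) : (Fintype.card F : ℝ) * AR F (2 * (k + 2)) ≤ (Fintype.card F : ℝ) ^ k * (4 * (Fintype.card F : ℝ) ^ 3 + 12 * (Fintype.card F : ℝ) ^ 2 - 20 * (Fintype.card F : ℝ) + 12) := by
  obtain ⟨m, hm⟩ : ∃ m, m = 2 * (k + 2) := ⟨_, rfl⟩
  rw [← hm]
  obtain ⟨t, ht⟩ : ∃ t : ℕ → ℕ, ∀ e, t e = if e ≤ m ∧ Even (m - e) then Fintype.card F ^ ((m - e) / 2) else 0 := ⟨_, fun _ => rfl⟩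
  obtain ⟨u, hu⟩ : ∃ u : ℕ → ℕ, ∀ e, u e = if e ≤ m ∧ Even (m - e) then Nat.card (Hs F ((m - e) / 2)) else 0 := ⟨_, fun _ => rfl⟩
  have h1 := cT_eq (F := F) m t ht
  have h2 := cR_eq (F := F) m u hu
  have d0 : (m - 0) / 2 = k + 2 := by omega
  have d2 : (m - 2) / 2 = k + 1 := by omega
  have d4 : (m - 4) / 2 = k := by omega
  have t0 : t 0 = Fintype.card F ^ (k + 2) := by rw [ht, if_pos ⟨by omega, by rw [Nat.even_iff]; omega⟩, d0]
  have t1 : t 1 = 0 := by rw [ht, if_neg]; rintro ⟨_, h⟩; rw [Nat.even_iff] at h; omega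
  have t2 : t 2 = Fintype.card F ^ (k + 1) := by rw [ht, if_pos ⟨by omega, by rw [Nat.even_iff]; omega⟩, d2]
  have t3 : t 3 = 0 := by rw [ht, if_neg]; rintro ⟨_, h⟩; rw [Nat.even_iff] at h; omega
  have t4 : t 4 = Fintype.card F ^ k := by rw [ht, if_pos ⟨by omega, by rw [Nat.even_iff]; omega⟩, d4]
  have u0 : u 0 = Nat.card (Hs F (k + 2)) := by rw [hu, if_pos ⟨by omega, by rw [Nat.even_iff]; omega⟩, d0]
  have u1 : u 1 = 0 := by rw [hu, if_neg]; rintro ⟨_, h⟩; rw [Nat.even_iff] at h; omega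
  have u2 : u 2 = Nat.card (Hs F (k + 1)) := by rw [hu, if_pos ⟨by omega, by rw [Nat.even_iff]; omega⟩, d2]
  rw [t0, t1, t2, t3, t4] at h1
  rw [u0, u1, u2] at h2
  have hq : 1 < Fintype.card F := Fintype.one_lt_card
  have h3 := card_Hs_add_two (F := F) h2' k
  have h4 := card_Hs_succ (F := F) h2' k
  obtain ⟨Q, hQ⟩ : ∃ Q : ℝ, Q = (Fintype.card F : ℝ) := ⟨_, rfl⟩
  have hsub : ((Fintype.card F - 1 : ℕ) : ℝ) = Q - 1 := by rw [Nat.cast_sub hq.le, hQ]; simp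
  have h3r : (Nat.card (Hs F (k + 2)) : ℝ) ≤ (Q - 1) ^ 2 * Q ^ k := by
    rw [← hsub, hQ]; exact_mod_cast h3
  have h4r : Q * (Nat.card (Hs F (k + 1)) : ℝ) ≤ (Q - 1) ^ 2 * Q ^ k := by
    rw [← hsub, hQ]; exact_mod_cast h4
  have hQ0 : 0 < Q := by rw [hQ]; exact_mod_cast (by omega : 0 < Fintype.card F)
  unfold AR
  rw [h1, h2, ← hQ]
  push_cast
  rw [← hQ]
  have e1 : Q ^ (k + 2) = Q ^ k * Q ^ 2 := pow_add _ _ _
  have e2 : Q ^ (k + 1) = Q ^ k * Q := pow_succ _ _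
  rw [e1, e2]
  have h5 : Q * (Nat.card (Hs F (k + 2)) : ℝ) ≤ Q * ((Q - 1) ^ 2 * Q ^ k) := mul_le_mul_of_nonneg_left h3r hQ0.le
  nlinarith [h5, h4r]

theorem AR_odd (h2' : (2 : F) ≠ 0) (k : ℕ) : (Fintype.card F : ℝ) * AR F (2 * (k + 2) + 1) ≤ (Fintype.card F : ℝ) ^ (k + 1) * (16 * (Fintype.card F : ℝ) ^ 2 - 20 * (Fintype.card F : ℝ) + 12) := by
  obtain ⟨m, hm⟩ : ∃ m, m = 2 * (k + 2) + 1 := ⟨_, rfl⟩
  rw [← hm]
  obtain ⟨t, ht⟩ : ∃ t : ℕ → ℕ, ∀ e, t e = if e ≤ m ∧ Even (m - e) then Fintype.card F ^ ((m - e) / 2) else 0 := ⟨_, fun _ => rfl⟩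
  obtain ⟨u, hu⟩ : ∃ u : ℕ → ℕ, ∀ e, u e = if e ≤ m ∧ Even (m - e) then Nat.card (Hs F ((m - e) / 2)) else 0 := ⟨_, fun _ => rfl⟩
  have h1 := cT_eq (F := F) m t ht
  have h2 := cR_eq (F := F) m u hu
  have d1 : (m - 1) / 2 = k + 2 := by omega
  have d3 : (m - 3) / 2 = k + 1 := by omega
  have t0 : t 0 = 0 := by rw [ht, if_neg]; rintro ⟨_, h⟩; rw [Nat.even_iff] at h; omega
  have t1 : t 1 = Fintype.card F ^ (k + 2) := by rw [ht, if_pos ⟨by omega, by rw [Nat.even_iff]; omega⟩, d1]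
  have t2 : t 2 = 0 := by rw [ht, if_neg]; rintro ⟨_, h⟩; rw [Nat.even_iff] at h; omega
  have t3 : t 3 = Fintype.card F ^ (k + 1) := by rw [ht, if_pos ⟨by omega, by rw [Nat.even_iff]; omega⟩, d3]
  have t4 : t 4 = 0 := by rw [ht, if_neg]; rintro ⟨_, h⟩; rw [Nat.even_iff] at h; omega
  have u0 : u 0 = 0 := by rw [hu, if_neg]; rintro ⟨_, h⟩; rw [Nat.even_iff] at h; omega
  have u1 : u 1 = Nat.card (Hs F (k + 2)) := by rw [hu, if_pos ⟨by omega, by rw [Nat.even_iff]; omega⟩, d1]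
  have u2 : u 2 = 0 := by rw [hu, if_neg]; rintro ⟨_, h⟩; rw [Nat.even_iff] at h; omega
  rw [t0, t1, t2, t3, t4] at h1
  rw [u0, u1, u2] at h2
  have hq : 1 < Fintype.card F := Fintype.one_lt_card
  have h3 := card_Hs_add_two (F := F) h2' k
  obtain ⟨Q, hQ⟩ : ∃ Q : ℝ, Q = (Fintype.card F : ℝ) := ⟨_, rfl⟩
  have hsub : ((Fintype.card F - 1 : ℕ) : ℝ) = Q - 1 := by rw [Nat.cast_sub hq.le, hQ]; simp
  have h3r : (Nat.card (Hs F (k + 2)) : ℝ) ≤ (Q - 1) ^ 2 * Q ^ k := by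
    rw [← hsub, hQ]; exact_mod_cast h3
  have hQ0 : 0 < Q := by rw [hQ]; exact_mod_cast (by omega : 0 < Fintype.card F)
  unfold AR
  rw [h1, h2, ← hQ]
  push_cast
  rw [← hQ]
  have e1 : Q ^ (k + 2) = Q ^ k * Q ^ 2 := pow_add _ _ _
  have e2 : Q ^ (k + 1) = Q ^ k * Q := pow_succ _ _
  rw [e1, e2]
  have h5 : Q * (Nat.card (Hs F (k + 2)) : ℝ) ≤ Q * ((Q - 1) ^ 2 * Q ^ k) := mul_le_mul_of_nonneg_left h3r hQ0.le
  nlinarith [h5]

end

end Cfsg.Agent.H43
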