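import Mathlib
import Cfsg.Agent.H43.OmCount2

set_option autoImplicit false
set_option linter.unusedSectionVars false
set_option linter.unusedVariables false

/-! The weighted count of the labels of odd-dimensional orthogonal groups. -/

namespace Cfsg.Agent.H43

open Polynomial

theorem sum_eK_real (g : ℕ → ℝ) : ∑ κ : (Bool × Bool) × (Bool × Bool), g (eK κ) = g 0 + 4 * g 1 + 6 * g 2 + 4 * g 3 + g 4 := by
  simp only [Fintype.sum_prod_type, Fintype.sum_bool, eK, eB]
  simp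
  ring

section
variable {F : Type*} [Field F] [Fintype F]

/-- the pair count -/
noncomputable def DR (F : Type*) [Field F] [Fintype F] (m : ℕ) : ℝ := ∑ k ∈ Finset.range (m / 4 + 1), (Fintype.card F : ℝ) ^ k * AR F (m - 4 * k)

theorem AR_nonneg (m : ℕ) : 0 ≤ AR F m := by unfold AR; positivity

theorem DR_lt (m : ℕ) (hm : m < 4) : DR F m ≤ AR F m := by
  unfold DR
  have : m / 4 + 1 = 1 := by omega
  rw [this, Finset.sum_range_one]
  simp

theorem DR_rec (m : ℕ) : DR F (m + 4) ≤ AR F (m + 4) + (Fintype.card F : ℝ) * DR F m := by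
  unfold DR
  have : (m + 4) / 4 + 1 = (m / 4 + 1) + 1 := by omega
  rw [this, Finset.sum_range_succ', pow_zero, one_mul, mul_zero, Nat.sub_zero, add_comm, Finset.mul_sum]
  apply add_le_add le_rfl
  apply le_of_eq
  apply Finset.sum_congr rfl
  intro k _
  have : m + 4 - 4 * (k + 1) = m - 4 * k := by omega
  rw [this, pow_succ]; ring

theorem DR_bound (h2 : (2 : F) ≠ 0) (hq : 3 ≤ Fintype.card F) (k : ℕ) :
    DR F (2 * k) ≤ 28 / 3 * (Fintype.card F : ℝ) ^ k ∧ DR F (2 * k + 1) ≤ 16 * (Fintype.card F : ℝ) ^ k :=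
  pair_rec (Fintype.card F) hq (AR F) (DR F) AR_zero AR_one (AR_two h2) (AR_three h2) (AR_even h2) (AR_odd h2) DR_lt DR_rec k

theorem pair_bound (h2 : (2 : F) ≠ 0) (m : ℕ) (P : Finset ((PolU (RingHom.id F) × Bool × Bool) × (PolU (RingHom.id F) × Bool × Bool)))
    (hP : ∀ z ∈ P, ConsF (1 : F) 0 z.1 ∧ ConsF (1 : F) 1 z.2 ∧ degU (RingHom.id F) z.1.1 + 2 * degU (RingHom.id F) z.2.1 = m) :
    ∑ z ∈ P, vR z.1 ≤ DR F m := by
  classical
  have hsym : (1 : F) * (-1) ^ 1 = -1 := by ring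
  have hev : ∀ z ∈ P, ∃ k, degU (RingHom.id F) z.2.1 = 2 * k := by
    intro z hz
    obtain ⟨h3, _⟩ := fiber_symp h2 hsym {z.2} (fun x hx => by
      rw [Finset.mem_singleton] at hx
      rw [hx]; exact (hP z hz).2.1)
    obtain ⟨k, hk⟩ := h3 z.2 (Finset.mem_singleton_self _)
    exact ⟨k, by omega⟩
  have h3 : ∑ z ∈ P, vR z.1 = ∑ k ∈ Finset.range (m / 4 + 1), ∑ z ∈ P.filter (fun z => degU (RingHom.id F) z.2.1 = 2 * k), vR z.1 := by
    rw [← Finset.sum_biUnion]
    · apply Finset.sum_congr _ (fun _ _ => rfl)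
      ext z
      simp only [Finset.mem_biUnion, Finset.mem_range, Finset.mem_filter]
      constructor
      · intro hz
        obtain ⟨k, hk⟩ := hev z hz
        have := (hP z hz).2.2
        exact ⟨k, by omega, hz, hk⟩
      · rintro ⟨k, _, hz, _⟩
        exact hz
    · intro k _ k' _ hkk
      rw [Function.onFun, Finset.disjoint_left]
      intro x hx hx'
      rw [Finset.mem_filter] at hx hx'
      apply hkk
      have := hx.2.symm.trans hx'.2
      omega
  rw [h3]
  unfold DR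
  apply Finset.sum_le_sum
  intro k _
  obtain ⟨Pk, hPk⟩ : ∃ Pk, Pk = P.filter (fun z => degU (RingHom.id F) z.2.1 = 2 * k) := ⟨_, rfl⟩
  have hPkm : ∀ z ∈ Pk, z ∈ P ∧ degU (RingHom.id F) z.2.1 = 2 * k := by
    intro z hz
    rw [hPk, Finset.mem_filter] at hz
    exact hz
  rw [← hPk]
  have h4 : ∑ z ∈ Pk, vR z.1 = ∑ y ∈ Pk.image Prod.snd, ∑ z ∈ Pk.filter (fun z => z.2 = y), vR z.1 :=
    (Finset.sum_fiberwise_of_maps_to (fun z hz => Finset.mem_image_of_mem Prod.snd hz) _).symm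
  rw [h4]
  have h5 : ∀ y ∈ Pk.image Prod.snd, ∑ z ∈ Pk.filter (fun z => z.2 = y), vR z.1 ≤ AR F (m - 4 * k) := by
    intro y hy
    have h6 : ∑ z ∈ Pk.filter (fun z => z.2 = y), vR z.1 = ∑ x ∈ (Pk.filter (fun z => z.2 = y)).image Prod.fst, vR x := by
      rw [Finset.sum_image]
      intro z hz z' hz' h
      have hz1 := (Finset.mem_filter.1 hz).2
      have hz2 := (Finset.mem_filter.1 hz').2
      exact Prod.ext h (hz1.trans hz2.symm)
    rw [h6]
    apply sum_vR_le h2 (i := 0)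
    intro x hx
    rw [Finset.mem_image] at hx
    obtain ⟨z, hz, rfl⟩ := hx
    rw [Finset.mem_filter] at hz
    obtain ⟨hz1, hz2⟩ := hPkm z hz.1
    obtain ⟨h7, _, h8⟩ := hP z hz1
    exact ⟨h7, by omega⟩
  have h6 : (Pk.image Prod.snd).card ≤ Fintype.card F ^ k := by
    obtain ⟨_, h7⟩ := fiber_symp h2 hsym (Pk.image Prod.snd) (fun x hx => by
      rw [Finset.mem_image] at hx
      obtain ⟨z, hz, rfl⟩ := hx
      exact (hP z (hPkm z hz).1).2.1)
    have h8 := h7 k
    rw [Finset.filter_true_of_mem (fun y hy => by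
      rw [Finset.mem_image] at hy
      obtain ⟨z, hz, rfl⟩ := hy
      rw [(hPkm z hz).2, zero_add])] at h8
    exact h8
  have h7 : ((Pk.image Prod.snd).card : ℝ) ≤ (Fintype.card F : ℝ) ^ k := by exact_mod_cast h6
  calc ∑ y ∈ Pk.image Prod.snd, ∑ z ∈ Pk.filter (fun z => z.2 = y), vR z.1 ≤ ∑ y ∈ Pk.image Prod.snd, AR F (m - 4 * k) := Finset.sum_le_sum h5
    _ = ((Pk.image Prod.snd).card : ℝ) * AR F (m - 4 * k) := by rw [Finset.sum_const, nsmul_eq_mul]
    _ ≤ _ := mul_le_mul_of_nonneg_right h7 (AR_nonneg _)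

/-- the parity weight -/
noncomputable def tau (τ : ℝ) (w : ℕ) : ℝ := if Odd w then τ else 1

theorem tau_prod {τ : ℝ} (hτ : 1 ≤ τ) {ι : Type*} (s : Finset ι) (w : ι → ℕ) : tau τ (∑ i ∈ s, w i) ≤ ∏ i ∈ s, tau τ (w i) := by
  classical
  have hpos : ∀ a, 1 ≤ tau τ a := by
    intro a; unfold tau; split_ifs <;> linarith
  induction s using Finset.induction_on with
  | empty => simp [tau]
  | insert a s ha ih =>
    rw [Finset.sum_insert ha, Finset.prod_insert ha]
    have h1 : tau τ (w a + ∑ i ∈ s, w i) ≤ tau τ (w a) * tau τ (∑ i ∈ s, w i) := by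
      unfold tau
      rcases Nat.even_or_odd (w a) with h1 | h1 <;> rcases Nat.even_or_odd (∑ i ∈ s, w i) with h2 | h2
      · have h3 : ¬ Odd (w a) := Nat.not_odd_iff_even.2 h1
        have h4 : ¬ Odd (∑ i ∈ s, w i) := Nat.not_odd_iff_even.2 h2
        rw [if_neg h3, if_neg h4, if_neg (Nat.not_odd_iff_even.2 (h1.add h2))]; norm_num
      · have h3 : ¬ Odd (w a) := Nat.not_odd_iff_even.2 h1
        rw [if_neg h3, if_pos h2, if_pos (h1.add_odd h2)]; linarith
      · have h4 : ¬ Odd (∑ i ∈ s, w i) := Nat.not_odd_iff_even.2 h2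
        rw [if_pos h1, if_neg h4, if_pos (h1.add_even h2)]; linarith
      · rw [if_pos h1, if_pos h2, if_neg (Nat.not_odd_iff_even.2 (h1.add_odd h2))]; nlinarith
    exact h1.trans (mul_le_mul_of_nonneg_left ih (by linarith [hpos (w a)]))

theorem rest_mass (h2 : (2 : F) ≠ 0) {r : ℝ} (hr : 0 < r) (hqr : (Fintype.card F : ℝ) * r ^ 2 = 1) (hr3 : r ^ 2 ≤ 1 / 3) (i : ℕ)
    (S : Finset (PolU (RingHom.id F) × Bool × Bool)) (hS : ∀ x ∈ S, ConsF (1 : F) (i + 2) x) :
    ∑ x ∈ S, r ^ ((i + 3) * degU (RingHom.id F) x.1) * tau (7 / (12 * r)) ((i + 3) * degU (RingHom.id F) x.1) ≤ mW (r ^ 2) i := by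
  classical
  have hden : (Fintype.card F : ℝ) * r ^ (2 * (i + 2 + 1)) = (r ^ 2) ^ (i + 2) := by
    rw [mass_aux hr hqr, ← pow_mul]
  have hpos : 0 < 1 - (r ^ 2) ^ (i + 2) := by
    have := one_sub_pos' (s := r ^ 2) (by positivity) hr3 (i + 1)
    exact this
  have hlt : (Fintype.card F : ℝ) * r ^ (2 * (i + 2 + 1)) < 1 := by rw [hden]; linarith
  by_cases he : Even i
  · -- orthogonal
    have hj : Odd (i + 3) := by obtain ⟨k, hk⟩ := he; exact ⟨k + 1, by omega⟩
    rw [← Finset.sum_fiberwise S codeF]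
    have h4 : ∀ κ : (Bool × Bool) × (Bool × Bool), ∑ x ∈ S.filter (fun x => codeF x = κ), r ^ ((i + 3) * degU (RingHom.id F) x.1) * tau (7 / (12 * r)) ((i + 3) * degU (RingHom.id F) x.1) ≤
        (tau (7 / (12 * r)) (eK κ) * (r ^ (i + 3)) ^ eK κ) / (1 - (r ^ 2) ^ (i + 2)) := by
      intro κ
      obtain ⟨h5, h6⟩ := fiber_orth h2 (ε := (1 : F)) (i := i + 2) κ (S.filter (fun x => codeF x = κ)) (fun x hx => by
        rw [Finset.mem_filter] at hx
        exact ⟨hS x hx.1, hx.2⟩)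
      have h7 := fiber_mass (S.filter (fun x => codeF x = κ)) (fun x => degU (RingHom.id F) x.1) (eK κ) (i + 2 + 1) (Fintype.card F) r hr hlt h5 h6
      rw [hden] at h7
      have h8 : ∀ x ∈ S.filter (fun x => codeF x = κ), r ^ ((i + 3) * degU (RingHom.id F) x.1) * tau (7 / (12 * r)) ((i + 3) * degU (RingHom.id F) x.1) =
          tau (7 / (12 * r)) (eK κ) * r ^ ((i + 2 + 1) * degU (RingHom.id F) x.1) := by
        intro x hx
        obtain ⟨k, hk⟩ := h5 x hx
        have h9 : Odd ((i + 3) * degU (RingHom.id F) x.1) ↔ Odd (eK κ) := by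
          rw [Nat.odd_mul, hk]
          constructor
          · rintro ⟨_, h⟩
            rw [Nat.odd_iff] at h ⊢
            omega
          · intro h
            refine ⟨hj, ?_⟩
            rw [Nat.odd_iff] at h ⊢
            omega
        unfold tau
        simp only [h9]
        ring
      rw [Finset.sum_congr rfl h8, ← Finset.mul_sum, mul_div_assoc]
      apply mul_le_mul_of_nonneg_left
      · rw [← pow_mul]; exact h7
      · unfold tau; split_ifs
        · positivity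
        · norm_num
    refine (Finset.sum_le_sum fun κ _ => h4 κ).trans ?_
    rw [← Finset.sum_div, sum_eK_real (fun e => tau (7 / (12 * r)) e * (r ^ (i + 3)) ^ e)]
    unfold mW
    rw [if_pos he]
    apply div_le_div_of_nonneg_right _ hpos.le
    apply le_of_eq
    have t0 : tau (7 / (12 * r)) 0 = 1 := by unfold tau; simp
    have t1 : tau (7 / (12 * r)) 1 = 7 / (12 * r) := by unfold tau; simp
    have t2 : tau (7 / (12 * r)) 2 = 1 := by unfold tau; rw [if_neg (by decide)]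
    have t3 : tau (7 / (12 * r)) 3 = 7 / (12 * r) := by unfold tau; rw [if_pos (by decide)]
    have t4 : tau (7 / (12 * r)) 4 = 1 := by unfold tau; rw [if_neg (by decide)]
    rw [t0, t1, t2, t3, t4]
    obtain ⟨k, hk⟩ := he
    have hk2 : i / 2 = k := by omega
    rw [hk2]
    have e1 : (r ^ (i + 3)) ^ 1 = r * (r ^ 2) ^ (k + 1) := by
      rw [pow_one, ← pow_mul, ← pow_succ']; congr 1; omega
    have e2 : (r ^ (i + 3)) ^ 2 = (r ^ 2) ^ (i + 3) := by
      rw [← pow_mul, ← pow_mul]; congr 1; ring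
    have e3 : (r ^ (i + 3)) ^ 3 = r * (r ^ 2) ^ (3 * k + 4) := by
      rw [← pow_mul, ← pow_mul, ← pow_succ']; congr 1; omega
    have e4 : (r ^ (i + 3)) ^ 4 = (r ^ 2) ^ (2 * i + 6) := by
      rw [← pow_mul, ← pow_mul]; congr 1; ring
    rw [e1, e2, e3, e4, pow_zero]
    field_simp
    ring
  · -- symplectic
    have hsym : (1 : F) * (-1) ^ (i + 2) = -1 := by
      rw [pow_add, (Nat.not_even_iff_odd.1 he).neg_one_pow]; ring
    obtain ⟨h5, h6⟩ := fiber_symp h2 hsym S hS
    have h7 := fiber_mass S (fun x => degU (RingHom.id F) x.1) 0 (i + 2 + 1) (Fintype.card F) r hr hlt h5 h6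
    rw [hden, mul_zero, pow_zero] at h7
    have h8 : ∀ x ∈ S, r ^ ((i + 3) * degU (RingHom.id F) x.1) * tau (7 / (12 * r)) ((i + 3) * degU (RingHom.id F) x.1) =
        r ^ ((i + 2 + 1) * degU (RingHom.id F) x.1) := by
      intro x hx
      obtain ⟨k, hk⟩ := h5 x hx
      have h9 : ¬ Odd ((i + 3) * degU (RingHom.id F) x.1) := by
        rw [Nat.odd_mul, hk]
        rintro ⟨_, h⟩
        rw [Nat.odd_iff] at h
        omega
      unfold tau
      rw [if_neg h9, mul_one]
    rw [Finset.sum_congr rfl h8]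
    unfold mW
    rw [if_neg he]
    exact h7

/-- the weighted count -/
theorem card_lab_omega (h2 : (2 : F) ≠ 0) (hq : 3 ≤ Fintype.card F) (n K : ℕ) (hK : 2 * n + 1 = K + 1 + 1) (T : Finset (Fin (K + 1 + 1) → PolU (RingHom.id F) × Bool × Bool))
    (hT : ∀ x ∈ T, (∀ i : Fin (K + 1 + 1), ConsF (1 : F) i (x i)) ∧ ∑ i : Fin (K + 1 + 1), ((i : ℕ) + 1) * degU (RingHom.id F) (x i).1 = 2 * n + 1) :
    ∑ x ∈ T, vR (x 0) ≤ 584 / 10 * (Fintype.card F : ℝ) ^ n := by
  classical
  obtain ⟨r, hr, hqr, hr3⟩ := exists_root_q hq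
  have hr1 : r ≤ 7 / 12 := by nlinarith
  obtain ⟨τ, hτ⟩ : ∃ τ : ℝ, τ = 7 / (12 * r) := ⟨_, rfl⟩
  have hτ1 : 1 ≤ τ := by rw [hτ, le_div_iff₀ (by positivity)]; linarith
  have hτr : τ * r = 7 / 12 := by rw [hτ]; field_simp
  have hQ : (0 : ℝ) < Fintype.card F := by exact_mod_cast (by omega : 0 < Fintype.card F)
  obtain ⟨W, hW⟩ : ∃ W : (Fin K → PolU (RingHom.id F) × Bool × Bool) → ℕ, ∀ z, W z = ∑ i : Fin K, ((i : ℕ) + 3) * degU (RingHom.id F) (z i).1 := ⟨_, fun _ => rfl⟩
  obtain ⟨μ, hμ⟩ : ∃ μ : ℕ → (PolU (RingHom.id F) × Bool × Bool) → ℝ, ∀ i x, μ i x = r ^ ((i + 3) * degU (RingHom.id F) x.1) * tau τ ((i + 3) * degU (RingHom.id F) x.1) :=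
    ⟨_, fun _ _ => rfl⟩
  have hμ0 : ∀ i x, 0 ≤ μ i x := by
    intro i x; rw [hμ]
    have : 0 ≤ tau τ ((i + 3) * degU (RingHom.id F) x.1) := by unfold tau; split_ifs <;> linarith
    positivity
  -- fibering over the rest
  obtain ⟨I, hI⟩ : ∃ I, I = T.image (fun x (i : Fin K) => x i.succ.succ) := ⟨_, rfl⟩
  have h1 : ∑ x ∈ T, vR (x 0) = ∑ z ∈ I, ∑ x ∈ T.filter (fun x => (fun i : Fin K => x i.succ.succ) = z), vR (x 0) := by
    rw [hI]
    exact (Finset.sum_fiberwise_of_maps_to (fun x hx => Finset.mem_image_of_mem (fun x (i : Fin K) => x i.succ.succ) hx) _).symm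
  have h3 : ∀ z ∈ I, ∑ x ∈ T.filter (fun x => (fun i : Fin K => x i.succ.succ) = z), vR (x 0) ≤ 16 * (Fintype.card F : ℝ) ^ n * ∏ i : Fin K, μ i (z i) := by
    intro z hz
    obtain ⟨U, hU⟩ : ∃ U, U = T.filter (fun x => (fun i : Fin K => x i.succ.succ) = z) := ⟨_, rfl⟩
    have hUm : ∀ x ∈ U, (∀ i : Fin (K + 1 + 1), ConsF (1 : F) i (x i)) ∧ degU (RingHom.id F) (x 0).1 + 2 * degU (RingHom.id F) (x 1).1 + W z = 2 * n + 1 ∧
        (fun i : Fin K => x i.succ.succ) = z := by
      intro x hx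
      rw [hU, Finset.mem_filter] at hx
      obtain ⟨h4, h5⟩ := hT x hx.1
      refine ⟨h4, ?_, hx.2⟩
      rw [Fin.sum_univ_succ, Fin.sum_univ_succ] at h5
      rw [hW, ← h5, ← hx.2]
      have e0 : ((0 : Fin (K + 1 + 1)) : ℕ) = 0 := rfl
      have e1 : ((Fin.succ (0 : Fin (K + 1)) : Fin (K + 1 + 1)) : ℕ) = 1 := rfl
      have e2 : (Fin.succ (0 : Fin (K + 1)) : Fin (K + 1 + 1)) = 1 := rfl
      rw [e0, e1, e2]
      have e3 : ∀ i : Fin K, ((i.succ.succ : Fin (K + 1 + 1)) : ℕ) = (i : ℕ) + 2 := fun i => by simp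
      simp only [e3]
      ring
    rw [← hU]
    have hz' : ∃ x, x ∈ U := by
      rw [hI, Finset.mem_image] at hz
      obtain ⟨x, hx, hxz⟩ := hz
      exact ⟨x, by rw [hU, Finset.mem_filter]; exact ⟨hx, hxz⟩⟩
    obtain ⟨x0, hx0⟩ := hz'
    obtain ⟨m, hm⟩ : ∃ m, m + W z = 2 * n + 1 := ⟨_, (hUm x0 hx0).2.1⟩
    have h4 : ∑ x ∈ U, vR (x 0) = ∑ y ∈ U.image (fun x => (x 0, x 1)), vR y.1 := by
      rw [Finset.sum_image]
      intro x hx x' hx' h
      have e1 : x 0 = x' 0 := congrArg Prod.fst h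
      have e2 : x 1 = x' 1 := congrArg Prod.snd h
      have e3 := (hUm x hx).2.2.trans (hUm x' hx').2.2.symm
      funext i
      refine Fin.cases e1 (fun j => ?_) i
      refine Fin.cases e2 (fun k => ?_) j
      exact congrFun e3 k
    have h5 : ∑ y ∈ U.image (fun x => (x 0, x 1)), vR y.1 ≤ DR F m := by
      apply pair_bound h2
      intro y hy
      rw [Finset.mem_image] at hy
      obtain ⟨x, hx, rfl⟩ := hy
      obtain ⟨h6, h7, _⟩ := hUm x hx
      exact ⟨h6 0, h6 1, by simp only; omega⟩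
    rw [h4]
    refine h5.trans ?_
    have h6 : ∏ i : Fin K, μ i (z i) = r ^ W z * ∏ i : Fin K, tau τ (((i : ℕ) + 3) * degU (RingHom.id F) (z i).1) := by
      rw [hW, ← Finset.prod_pow_eq_pow_sum, ← Finset.prod_mul_distrib]
      apply Finset.prod_congr rfl
      intro i _
      rw [hμ]
    have h7 : r ^ W z * tau τ (W z) ≤ ∏ i : Fin K, μ i (z i) := by
      rw [h6]
      apply mul_le_mul_of_nonneg_left _ (by positivity)
      rw [hW]
      exact tau_prod hτ1 _ _
    have hqn : ∀ u v : ℕ, (Fintype.card F : ℝ) ^ (u + v) * r ^ (2 * v) = (Fintype.card F : ℝ) ^ u := by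
      intro u v
      rw [pow_add, pow_mul, mul_assoc, ← mul_pow, hqr, one_pow, mul_one]
    rcases Nat.even_or_odd (W z) with he | ho
    · obtain ⟨v, hv⟩ := he
      obtain ⟨u, hu⟩ : ∃ u, n = u + v := ⟨n - v, by omega⟩
      have hm2 : m = 2 * u + 1 := by omega
      have h8 := (DR_bound h2 hq u).2
      rw [← hm2] at h8
      have h9 : tau τ (W z) = 1 := by unfold tau; rw [if_neg (Nat.not_odd_iff_even.2 ⟨v, hv⟩)]
      rw [h9, mul_one] at h7
      have e1 : W z = 2 * v := by omega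
      calc DR F m ≤ 16 * (Fintype.card F : ℝ) ^ u := h8
        _ = 16 * (Fintype.card F : ℝ) ^ n * r ^ W z := by rw [hu, e1, mul_assoc, hqn]
        _ ≤ _ := mul_le_mul_of_nonneg_left h7 (by positivity)
    · obtain ⟨v, hv⟩ := ho
      obtain ⟨u, hu⟩ : ∃ u, n = u + v := ⟨n - v, by omega⟩
      have hm2 : m = 2 * u := by omega
      have h8 := (DR_bound h2 hq u).1
      rw [← hm2] at h8
      have h9 : tau τ (W z) = τ := by unfold tau; rw [if_pos ⟨v, hv⟩]
      rw [h9] at h7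
      calc DR F m ≤ 28 / 3 * (Fintype.card F : ℝ) ^ u := h8
        _ = 16 * (Fintype.card F : ℝ) ^ n * (r ^ W z * τ) := by
            rw [hv, pow_succ]
            have : 16 * (Fintype.card F : ℝ) ^ n * (r ^ (2 * v) * r * τ) = 16 * ((Fintype.card F : ℝ) ^ n * r ^ (2 * v)) * (τ * r) := by ring
            rw [this, hu, hqn, hτr]; ring
        _ ≤ _ := mul_le_mul_of_nonneg_left h7 (by positivity)
  rw [h1]
  refine (Finset.sum_le_sum h3).trans ?_
  rw [← Finset.mul_sum]
  obtain ⟨S, hS⟩ : ∃ S : Fin K → Finset (PolU (RingHom.id F) × Bool × Bool), ∀ i, S i = T.image (fun x => x i.succ.succ) := ⟨_, fun _ => rfl⟩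
  have h4 : ∑ z ∈ I, ∏ i : Fin K, μ i (z i) ≤ ∏ i : Fin K, mW (r ^ 2) i := by
    calc ∑ z ∈ I, ∏ i : Fin K, μ i (z i) ≤ ∑ z ∈ Fintype.piFinset S, ∏ i : Fin K, μ i (z i) := by
          apply Finset.sum_le_sum_of_subset_of_nonneg
          · intro z hz
            rw [hI, Finset.mem_image] at hz
            obtain ⟨x, hx, rfl⟩ := hz
            rw [Fintype.mem_piFinset]
            intro i
            rw [hS]
            exact Finset.mem_image_of_mem _ hx
          · intro z _ _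
            exact Finset.prod_nonneg fun i _ => hμ0 _ _
      _ = ∏ i : Fin K, ∑ y ∈ S i, μ i y := (Finset.prod_univ_sum S fun i y => μ i y).symm
      _ ≤ _ := by
          apply Finset.prod_le_prod
          · intro i _
            exact Finset.sum_nonneg fun y _ => hμ0 _ _
          · intro i _
            have h5 := rest_mass h2 hr hqr hr3 (i : ℕ) (S i) (by
              intro y hy
              rw [hS, Finset.mem_image] at hy
              obtain ⟨x, hx, rfl⟩ := hy
              have h6 := (hT x hx).1 i.succ.succ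
              have e3 : ((i.succ.succ : Fin (K + 1 + 1)) : ℕ) = (i : ℕ) + 2 := by simp
              rw [e3] at h6
              exact h6)
            refine le_trans (le_of_eq ?_) h5
            apply Finset.sum_congr rfl
            intro y _
            rw [hμ, hτ]
  have h5 : ∏ i : Fin K, mW (r ^ 2) i ≤ 365 / 100 := by
    rw [← Finset.prod_range (fun i => mW (r ^ 2) i)]
    refine le_trans ?_ (prod_mW (s := r ^ 2) (by positivity) hr3 n)
    have hKn : 2 * n = K + 1 := by omega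
    rw [hKn, Finset.prod_range_succ]
    have h6 : 0 ≤ ∏ i ∈ Finset.range K, mW (r ^ 2) i := Finset.prod_nonneg fun i _ => by linarith [one_le_mW (s := r ^ 2) (by positivity) hr3 i]
    have h7 := one_le_mW (s := r ^ 2) (by positivity) hr3 K
    nlinarith
  calc 16 * (Fintype.card F : ℝ) ^ n * ∑ z ∈ I, ∏ i : Fin K, μ i (z i) ≤ 16 * (Fintype.card F : ℝ) ^ n * (365 / 100) :=
        mul_le_mul_of_nonneg_left (h4.trans h5) (by positivity)
    _ = _ := by ring

end

end Cfsg.Agent.H43
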