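import Mathlib
import Cfsg.Agent.H43.OmCent
import Cfsg.Agent.H43.ConjDouble
import Cfsg.Agent.H43.ClassTwo
import Cfsg.Agent.H43.OmCount3
import Cfsg.Agent.H43.FormMap2
import Cfsg.Agent.H43.FormFinal
import Cfsg.Agent.H43.FormUpper

set_option autoImplicit false
set_option linter.unusedSectionVars false
set_option linter.unusedVariables false

/-! Upper bound for the class number of `Ω_{2n+1}(q)`. -/

namespace Cfsg.Agent.H43

open Polynomial Cfsg.Agent.Orth QuadraticMap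

section
variable {F : Type*} [Field F] [Fintype F] {N : ℕ}

theorem finrank_from_label {A : GL (Fin N) F} {t : ℕ} {p : Fin t → F[X]} {e : Fin t → ℕ}
    {φ : (Fin N → F) ≃ₗ[F] ((i : Fin t) → F[X] ⧸ Ideal.span {p i ^ e i})} (hp : ∀ i, ClN (p i) ∧ 1 ≤ e i)
    (h : SB (Matrix.toLin' (A : Matrix (Fin N) (Fin N) F)) (fun i => p i ^ e i) φ) {a : F} (ha0 : a ≠ 0) (i0 : Fin N) (hi0 : (i0 : ℕ) = 0) :
    Module.finrank F (LinearMap.ker ((Polynomial.aeval (Matrix.toLin' (A : Matrix (Fin N) (Fin N) F)) (X - C a)) ^ 2)) + rootMultiplicity a (labP p e N i0) =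
      2 * Module.finrank F (LinearMap.ker (Polynomial.aeval (Matrix.toLin' (A : Matrix (Fin N) (Fin N) F)) (X - C a))) := by
  classical
  have h1 := h.kdim hp (X - C a) (ClN_X_sub ha0) 1
  have h2 := h.kdim hp (X - C a) (ClN_X_sub ha0) 2
  rw [natDegree_X_sub_C, mul_one] at h1 h2
  rw [pow_one] at h1
  rw [map_pow] at h2
  rw [h1, h2, rootMultiplicity_labP (fun k => (hp k).1), hi0, Nat.card_eq_fintype_card, Fintype.card_subtype, Finset.card_filter, Finset.mul_sum,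
    ← Finset.sum_add_distrib]
  apply Finset.sum_congr rfl
  intro i _
  have h3 := (hp i).2
  by_cases h4 : p i = X - C a
  · by_cases h5 : e i = 0 + 1
    · simp [h4, h5]
    · simp only [h4, h5, if_true, and_false, if_false]
      omega
  · simp [h4]

/-- an element outside in the centralizer -/
theorem exists_outside (h2 : (2 : F) ≠ 0) (Q : QuadraticForm F (Fin N → F)) (hQ : (polarBilin Q).Nondegenerate) (x : ↥(Cfsg.isometryGroup F ⇑Q))
    {t : ℕ} {p : Fin t → F[X]} {e : Fin t → ℕ}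
    {φ : (Fin N → F) ≃ₗ[F] ((i : Fin t) → F[X] ⧸ Ideal.span {p i ^ e i})} (hp : ∀ i, ClN (p i) ∧ 1 ≤ e i)
    (h : SB (Matrix.toLin' ((x : GL (Fin N) F) : Matrix (Fin N) (Fin N) F)) (fun i => p i ^ e i) φ) {a : F} (ha : a * a = 1) (i0 : Fin N) (hi0 : (i0 : ℕ) = 0)
    (hmult : 2 ≤ rootMultiplicity a (labP p e N i0)) :
    ∃ y : ↥(Cfsg.isometryGroup F ⇑Q), Commute x y ∧ y ∉ Cfsg.Omega F ⇑Q ∧ ((y : GL (Fin N) F) : Matrix (Fin N) (Fin N) F).det = 1 := by
  obtain ⟨ν, hν⟩ : ∃ ν : F, ¬ IsSquare ν := FiniteField.exists_nonsquare (by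
    intro h
    have h3 : ringChar F = 2 := h
    exact h2 (by have := ringChar.Nat.cast_ringChar (R := F); rw [h3] at this; exact_mod_cast this))
  have hν0 : ν ≠ 0 := by rintro rfl; exact hν ⟨0, by ring⟩
  have h3 := finrank_from_label hp h (left_ne_zero_of_mul_eq_one ha) i0 hi0
  obtain ⟨T, hT⟩ : ∃ T, T = Polynomial.aeval (Matrix.toLin' ((x : GL (Fin N) F) : Matrix (Fin N) (Fin N) F)) (X - C a) := ⟨_, rfl⟩
  rw [← hT] at h3
  obtain ⟨u, b, hu, hb, hub, hcomm⟩ := exists_comm_pair hQ h2 (bridge Q x) ha (T := T) (by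
    intro v
    rw [hT, bridge_apply]
    simp) (by omega) hν0
  refine ⟨(bridge Q).symm (refl Q u hu * refl Q b hb), ?_, ?_, ?_⟩
  · have h4 := hcomm.map (bridge Q).symm
    rwa [MulEquiv.symm_apply_apply] at h4
  · rw [mem_Omega_iff, MulEquiv.apply_symm_apply]
    exact pair_not_mem hQ h2 hu hb hν hub
  · have h4 := det_of_reflProd Q ((bridge Q).symm (refl Q u hu * refl Q b hb)) [⟨u, hu⟩, ⟨b, hb⟩] (by
      rw [MulEquiv.apply_symm_apply, reflProd_cons, reflProd_cons, reflProd_nil, mul_one])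
    rw [h4]; simp

/-- the Gram matrix of a quadratic form -/
theorem exists_gram (h2 : (2 : F) ≠ 0) (Q : QuadraticForm F (Fin N → F)) (hQ : (polarBilin Q).Nondegenerate) :
    ∃ J : Matrix (Fin N) (Fin N) F, J.transpose = J ∧ IsUnit J.det ∧ (∀ v, 2 * Q v = dotProduct v (J.mulVec v)) := by
  classical
  obtain ⟨J, hJ⟩ : ∃ J, J = LinearMap.BilinForm.toMatrix' (polarBilin Q) := ⟨_, rfl⟩
  have h1 : ∀ v w, polarBilin Q v w = dotProduct v (J.mulVec w) := by
    intro v w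
    have h3 : polarBilin Q = Matrix.toBilin' J := by rw [hJ, Matrix.toBilin'_toMatrix']
    rw [h3, Matrix.toBilin'_apply']
  refine ⟨J, ?_, ?_, ?_⟩
  · ext i j
    rw [Matrix.transpose_apply, hJ, LinearMap.BilinForm.toMatrix'_apply, LinearMap.BilinForm.toMatrix'_apply]
    exact pc Q _ _
  · rw [isUnit_iff_ne_zero, ← Matrix.nondegenerate_iff_det_ne_zero, hJ, LinearMap.BilinForm.nondegenerate_toMatrix'_iff]
    exact hQ
  · intro v
    rw [← h1, pbil, pself]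

/-- centrally doubled commutator subgroup -/
theorem exists_K (h2 : (2 : F) ≠ 0) (n : ℕ) (hn : 1 ≤ n) (hN : N = 2 * n + 1) (Q : QuadraticForm F (Fin N → F)) (hQ : (polarBilin Q).Nondegenerate) :
    ∃ K : Subgroup ↥(Cfsg.isometryGroup F ⇑Q), K.index = 2 ∧ Nat.card (ConjClasses K) = 2 * Nat.card (ConjClasses (Cfsg.Omega F ⇑Q)) ∧
      ∀ y : ↥(Cfsg.isometryGroup F ⇑Q), y ∉ Cfsg.Omega F ⇑Q → ((y : GL (Fin N) F) : Matrix (Fin N) (Fin N) F).det = 1 → y ∉ K := by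
  have hzmem : (-1 : GL (Fin N) F) ∈ Cfsg.isometryGroup F ⇑Q := by
    intro v _
    change Q ((((-1 : GL (Fin N) F)) : Matrix (Fin N) (Fin N) F).mulVec v) = Q v
    rw [Units.val_neg, Units.val_one, Matrix.neg_mulVec, Matrix.one_mulVec, QuadraticMap.map_neg]
  obtain ⟨z, hz⟩ : ∃ z : ↥(Cfsg.isometryGroup F ⇑Q), z = ⟨-1, hzmem⟩ := ⟨_, rfl⟩
  have hzc : ∀ g, z * g = g * z := by
    intro g
    apply Subtype.ext
    rw [hz]
    change (-1 : GL (Fin N) F) * (g : GL (Fin N) F) = (g : GL (Fin N) F) * (-1 : GL (Fin N) F)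
    rw [neg_one_mul, mul_neg_one]
  have hz2 : z * z = 1 := by
    apply Subtype.ext
    rw [hz]
    change (-1 : GL (Fin N) F) * (-1 : GL (Fin N) F) = 1
    rw [neg_one_mul, neg_neg]
  have hdet : ∀ y ∈ Cfsg.Omega F ⇑Q, ((y : GL (Fin N) F) : Matrix (Fin N) (Fin N) F).det = 1 := by
    intro y hy
    obtain ⟨f, hf⟩ : ∃ f : ↥(Cfsg.isometryGroup F ⇑Q) →* Fˣ, f = (Matrix.GeneralLinearGroup.det).comp (Cfsg.isometryGroup F ⇑Q).subtype := ⟨_, rfl⟩
    have h1 : commutator ↥(Cfsg.isometryGroup F ⇑Q) ≤ f.ker := Abelianization.commutator_subset_ker f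
    have h3 := h1 hy
    rw [MonoidHom.mem_ker, hf] at h3
    exact congrArg Units.val h3
  have hzdet : ∀ y : ↥(Cfsg.isometryGroup F ⇑Q), (((z * y : ↥(Cfsg.isometryGroup F ⇑Q)) : GL (Fin N) F) : Matrix (Fin N) (Fin N) F).det =
      -((y : GL (Fin N) F) : Matrix (Fin N) (Fin N) F).det := by
    intro y
    rw [hz]
    change ((-1 : GL (Fin N) F).val * (y : GL (Fin N) F).val).det = _
    have h9 : (-1 : F) ^ N = -1 := by rw [hN, pow_succ, pow_mul]; simp
    rw [Units.val_neg, Units.val_one, Matrix.det_mul, Matrix.det_neg, Matrix.det_one, Fintype.card_fin, h9]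
    simp
  have hne : (-1 : F) ≠ 1 := by intro h; apply h2; linear_combination -h
  obtain ⟨K, hK⟩ := exists_double (Cfsg.Omega F ⇑Q) z hzc hz2
  have hzn : z ∉ Cfsg.Omega F ⇑Q := by
    intro h
    have h1 := hdet z h
    have h3 := hzdet 1
    rw [mul_one, h1] at h3
    have h4 : (((1 : ↥(Cfsg.isometryGroup F ⇑Q)) : GL (Fin N) F) : Matrix (Fin N) (Fin N) F).det = 1 := Matrix.det_one
    rw [h4] at h3
    exact hne h3.symm
  obtain ⟨h5, h6⟩ := card_conj_double (Cfsg.Omega F ⇑Q) z hzc hz2 hzn K hK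
  refine ⟨K, ?_, h5, ?_⟩
  · apply index_double (Cfsg.Omega F ⇑Q) K _ h6
    rw [index_Omega, index_commutator_odd hQ h2]
    rw [Module.finrank_fintype_fun_eq_card, Fintype.card_fin, hN]
    omega
  · intro y hy hy1 hyK
    rw [hK] at hyK
    rcases hyK with h | h
    · exact hy h
    · have h7 := hdet _ h
      rw [hzdet, hy1] at h7
      exact hne h7

theorem flippable (h2 : (2 : F) ≠ 0) {n K : ℕ} (x : Fin (K + 1) → PolU (RingHom.id F) × Bool × Bool)
    (hx : ∑ i : Fin (K + 1), ((i : ℕ) + 1) * degU (RingHom.id F) (x i).1 = 2 * n + 1) :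
    ∃ i : Fin (K + 1), (1 : F) * (-1) ^ (i : ℕ) = 1 ∧ ((X - C 1 : F[X]) ∣ (x i).1.1 ∨ (X - C (-1) : F[X]) ∣ (x i).1.1) := by
  by_contra hcon
  push Not at hcon
  have h1 : ∀ i : Fin (K + 1), Even (((i : ℕ) + 1) * degU (RingHom.id F) (x i).1) := by
    intro i
    rcases Nat.even_or_odd (i : ℕ) with hi | hi
    · have h3 := hcon i (by rw [hi.neg_one_pow, mul_one])
      have h4 := (x i).1.2
      have h5 := (sd_noroot h2 h4.2.2 h4.2.1 (fun h => h3.1 (dvd_iff_isRoot.2 h)) (fun h => h3.2 (dvd_iff_isRoot.2 h))).2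
      exact Nat.even_mul.2 (Or.inr h5)
    · exact Nat.even_mul.2 (Or.inl hi.add_one)
  have h3 : Even (∑ i : Fin (K + 1), ((i : ℕ) + 1) * degU (RingHom.id F) (x i).1) := Finset.even_sum _ (fun i _ => h1 i)
  rw [hx, Nat.even_iff] at h3
  omega

theorem omega_upper (h2 : (2 : F) ≠ 0) (hq : 3 ≤ Fintype.card F) (n : ℕ) (hn : 1 ≤ n) (hN : N = 2 * n + 1) (Q : QuadraticForm F (Fin N → F))
    (hQ : (polarBilin Q).Nondegenerate) : 10 * Nat.card (ConjClasses (Cfsg.Omega F ⇑Q)) ≤ 73 * Fintype.card F ^ n := by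
  classical
  obtain ⟨K, hKi, hKc, hKn⟩ := exists_K h2 n hn hN Q hQ
  obtain ⟨J, hJs, hJd, hJQ⟩ := exists_gram h2 Q hQ
  obtain ⟨M, rfl⟩ : ∃ M, N = M + 1 + 1 := ⟨2 * n - 1, by omega⟩
  have hKnorm : K.Normal := Subgroup.normal_of_index_eq_two hKi
  have hr : ∀ A : GL (Fin (M + 1 + 1)) F, (∃ x, (Cfsg.isometryGroup F ⇑Q).subtype x = A) ↔
      (A : Matrix (Fin (M + 1 + 1)) (Fin (M + 1 + 1)) F).transpose * J * (A : Matrix (Fin (M + 1 + 1)) (Fin (M + 1 + 1)) F) = J := by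
    intro A
    rw [← mem_isometryGroup_iff h2 (⇑Q) J hJs hJQ A]
    constructor
    · rintro ⟨x, rfl⟩
      exact x.2
    · intro h
      exact ⟨⟨A, h⟩, rfl⟩
  obtain ⟨lab, hlab, hone, hthird⟩ := exists_label_map' h2 (ε := 1) (Or.inl rfl) J (fun x : ↥(Cfsg.isometryGroup F ⇑Q) => (Cfsg.isometryGroup F ⇑Q).subtype x)
    (fun x => ⟨by rw [hJs, one_smul], hJd, (hr _).1 ⟨x, rfl⟩⟩) (hconj_of_range J _ Subtype.coe_injective hr)
  replace hone := hone rfl
  have hcls := (class_index_two K hKi (fun c => Restr ((lab c).1 0)) (by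
    intro g hg hcent
    obtain ⟨x, g', hx, hlx, hfirst⟩ := hthird (ConjClasses.mk g)
    obtain ⟨c, hc⟩ := isConj_iff.1 (ConjClasses.mk_eq_mk_iff_isConj.1 hx)
    have hno : ∀ y, Commute x y → y ∉ Cfsg.Omega F ⇑Q → ((y : GL (Fin (M + 1 + 1)) F) : Matrix (Fin (M + 1 + 1)) (Fin (M + 1 + 1)) F).det = 1 → False := by
      intro y hxy hy1 hy2
      have h3 : c * y * c⁻¹ ∈ K := by
        apply hcent
        rw [← hc]
        have h4 : x * y = y * x := hxy
        change c * x * c⁻¹ * (c * y * c⁻¹) = c * y * c⁻¹ * (c * x * c⁻¹)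
        calc c * x * c⁻¹ * (c * y * c⁻¹) = c * (x * y) * c⁻¹ := by group
          _ = c * (y * x) * c⁻¹ := by rw [h4]
          _ = _ := by group
      apply hKn y hy1 hy2
      have h4 := hKnorm.conj_mem _ h3 c⁻¹
      have h5 : c⁻¹ * (c * y * c⁻¹) * c⁻¹⁻¹ = y := by group
      rwa [h5] at h4
    obtain ⟨t, p, e, φ, hp, hSB, hle, hg⟩ := hlx
    have h0 := SB.coeff_ne (toLin'_injective_of_gl _) hp hSB
    have hp' : ∀ i, ClN (p i) ∧ 1 ≤ e i := fun i => ⟨⟨(hp i).1, (hp i).2.1, h0 i⟩, (hp i).2.2⟩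
    have hg' : ((lab (ConjClasses.mk g)).1 0).1.1 = labP p e (M + 1 + 1) 0 := by
      rw [hfirst 0]; exact hg 0
    have key : ∀ a : F, a * a = 1 → rootMultiplicity a ((lab (ConjClasses.mk g)).1 0).1.1 ≤ 1 := by
      intro a ha
      by_contra hcon
      rw [hg'] at hcon
      obtain ⟨y, hy1, hy2, hy3⟩ := exists_outside h2 Q hQ x hp' hSB ha 0 rfl (by omega)
      exact hno y hy1 hy2 hy3
    exact ⟨key 1 (by ring), key (-1) (by ring)⟩)).1
  obtain ⟨φ, hφφ, hφ1, hφ2, hφ3⟩ := exists_flip (F := F) (M + 1)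
  have : Fintype (ConjClasses ↥(Cfsg.isometryGroup F ⇑Q)) := Fintype.ofFinite _
  obtain ⟨R, hR⟩ : ∃ R, R = Finset.univ.image (fun c => (lab c).1) := ⟨_, rfl⟩
  have hRm : ∀ x ∈ R, (∀ i : Fin (M + 1 + 1), ConsF (1 : F) i (x i)) ∧ ∑ i : Fin (M + 1 + 1), ((i : ℕ) + 1) * degU (RingHom.id F) (x i).1 = 2 * n + 1 := by
    intro x hx
    rw [hR, Finset.mem_image] at hx
    obtain ⟨c, _, rfl⟩ := hx
    have h4 := (lab c).2
    exact ⟨h4.1, h4.2.trans hN⟩
  have hRone : ∀ x ∈ R, ∀ y ∈ R, ¬ OneDiff x y := by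
    intro x hx y hy
    rw [hR, Finset.mem_image] at hx hy
    obtain ⟨c, _, rfl⟩ := hx
    obtain ⟨c', _, rfl⟩ := hy
    exact hone c c'
  have hφinj : Function.Injective φ := fun a b h => by rw [← hφφ a, h, hφφ]
  have hdisj : Disjoint R (R.image φ) := by
    rw [Finset.disjoint_left]
    intro x hx hx'
    rw [Finset.mem_image] at hx'
    obtain ⟨y, hy, rfl⟩ := hx'
    exact hRone y hy _ hx (hφ1 y)
  have h3 := card_lab_omega h2 hq n M hN.symm (R ∪ R.image φ) (by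
    intro x hx
    rw [Finset.mem_union] at hx
    rcases hx with hx | hx
    · exact hRm x hx
    · rw [Finset.mem_image] at hx
      obtain ⟨y, hy, rfl⟩ := hx
      obtain ⟨h4, h5⟩ := hRm y hy
      refine ⟨hφ3 y (flippable h2 y h5) h4, ?_⟩
      rw [← h5]
      apply Finset.sum_congr rfl
      intro i _
      rw [hφ2])
  have hvφ : ∀ x, vR (φ x 0) = vR (x 0) := by
    intro x
    unfold vR Restr
    rw [hφ2]
  rw [Finset.sum_union hdisj, Finset.sum_image (fun a _ b _ h => hφinj h), Finset.sum_congr rfl (fun x _ => hvφ x)] at h3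
  have hsum : ∑ x ∈ R, vR (x 0) = (Nat.card (ConjClasses ↥(Cfsg.isometryGroup F ⇑Q)) : ℝ) +
      3 * (Nat.card {c : ConjClasses ↥(Cfsg.isometryGroup F ⇑Q) // Restr ((lab c).1 0)} : ℝ) := by
    rw [hR, Finset.sum_image (fun a _ b _ h => hlab (Subtype.ext h))]
    unfold vR
    rw [Finset.sum_add_distrib, Finset.sum_const, nsmul_eq_mul, mul_one, Finset.card_univ, Nat.card_eq_fintype_card, ← Finset.mul_sum, Finset.sum_boole,
      Nat.card_eq_fintype_card, Fintype.card_subtype]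
  rw [hsum] at h3
  have h4 : (2 * Nat.card (ConjClasses K) : ℝ) ≤ (Nat.card (ConjClasses ↥(Cfsg.isometryGroup F ⇑Q)) : ℝ) +
      3 * (Nat.card {c : ConjClasses ↥(Cfsg.isometryGroup F ⇑Q) // Restr ((lab c).1 0)} : ℝ) := by exact_mod_cast hcls
  rw [hKc] at h4
  push_cast at h4
  have h5 : (10 * Nat.card (ConjClasses (Cfsg.Omega F ⇑Q)) : ℝ) ≤ 73 * (Fintype.card F : ℝ) ^ n := by linarith
  exact_mod_cast h5

end

end Cfsg.Agent.H43
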