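import Mathlib
import Cfsg.Agent.H43.OmTop
import Cfsg.Agent.H43.FormLower

set_option autoImplicit false
set_option linter.unusedSectionVars false
set_option linter.unusedVariables false

/-! Lower bound for the class number of `Ω_{2n+1}(q)`. -/

namespace Cfsg.Agent.H43

open Polynomial Cfsg.Agent.Orth QuadraticMap

section
variable {F : Type*} [Field F] [Fintype F]

theorem exists_odd_poly (h2 : (2 : F) ≠ 0) {n : ℕ} {f : F[X]} (hf : f ∈ SDp F n) (c : F) (hc : c ≠ 0) {s : F} (hs : s = 1 ∨ s = -1) :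
    ∃ (A : GL (Fin (2 * n + 1)) F) (J : Matrix (Fin (2 * n + 1)) (Fin (2 * n + 1)) F), InvForm 1 A J ∧
      (A : Matrix (Fin (2 * n + 1)) (Fin (2 * n + 1)) F).charpoly = (X - C s) * f ∧ IsSquare (J.det * c) := by
  obtain ⟨a, b, m, k, hk, habm, hfk, h1, h1', h3, d, hd, hsq, hA⟩ := exists_assemble h2 (ε := (1 : F)) (by ring) hf
  obtain ⟨A, J, hJ, hch, hJd⟩ := hA 1 1 (by rw [Matrix.transpose_one, one_smul]) (by rw [Matrix.det_one]; exact isUnit_one)
      (by rw [Matrix.transpose_one, one_smul]) (by rw [Matrix.det_one]; exact isUnit_one)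
  obtain ⟨D, hD⟩ : ∃ D : Matrix (Fin 1) (Fin 1) F, D = Matrix.diagonal (fun _ => J.det * c) := ⟨_, rfl⟩
  have hJ0 := hJ.2.1.ne_zero
  have hDdet : D.det = J.det * c := by
    rw [hD, Matrix.det_diagonal]; simp
  have hDT : D.transpose = (1 : F) • D := by rw [hD, Matrix.diagonal_transpose, one_smul]
  have hDu : IsUnit D.det := by rw [hDdet]; exact isUnit_iff_ne_zero.2 (mul_ne_zero hJ0 hc)
  have hS : ∃ S : GL (Fin 1) F, InvForm 1 S D ∧ (S : Matrix (Fin 1) (Fin 1) F).charpoly = X - C s := by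
    rcases hs with rfl | rfl
    · refine ⟨1, invForm_one hDT hDu, ?_⟩
      rw [Units.val_one, one_charpoly, Fintype.card_fin, pow_one]
    · refine ⟨-1, (invForm_one hDT hDu).neg, ?_⟩
      rw [Units.val_neg, Units.val_one, neg_one_charpoly, Fintype.card_fin, pow_one]
  obtain ⟨S, hS1, hS2⟩ := hS
  have i3 := InvForm.bs (Equiv.refl _) hS1 hJ
  have hcard : Fintype.card (Fin 1 ⊕ Fin (2 * n)) = Fintype.card (Fin (2 * n + 1)) := by
    simp only [Fintype.card_sum, Fintype.card_fin]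
    omega
  obtain ⟨A', hA', hA'c⟩ := i3.reindex' (Fintype.equivOfCardEq hcard)
  refine ⟨A', _, hA', ?_, ?_⟩
  · rw [hA'c, bsGL_coe, bs_charpoly, hS2, hch]
  · rw [Matrix.det_submatrix_equiv_self, bs_det, hDdet]
    exact ⟨J.det * c, by ring⟩

theorem lower_odd (h2 : (2 : F) ≠ 0) (n : ℕ) {G : Type*} [Group G] [Finite G] (J₀ : Matrix (Fin (2 * n + 1)) (Fin (2 * n + 1)) F) (hJ₀ : J₀.transpose = J₀)
    (hJ₀' : IsUnit J₀.det) (ρ : G →* GL (Fin (2 * n + 1)) F)
    (hr : ∀ A : GL (Fin (2 * n + 1)) F, (A : Matrix (Fin (2 * n + 1)) (Fin (2 * n + 1)) F).transpose * J₀ * (A : Matrix (Fin (2 * n + 1)) (Fin (2 * n + 1)) F) = J₀ → ∃ x, ρ x = A) :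
    2 * Fintype.card F ^ n ≤ Nat.card (ConjClasses G) := by
  classical
  obtain ⟨hfin, hcard⟩ := card_SDp (F := F) n
  rw [Nat.card_eq_fintype_card (α := F)] at hcard
  obtain ⟨S, hS⟩ : ∃ S : F → Set F[X], ∀ s, S s = (fun f => (X - C s) * f) '' SDp F n := ⟨_, fun _ => rfl⟩
  have hSfin : ∀ s, (S s).Finite := fun s => by rw [hS]; exact Set.Finite.image _ (Set.toFinite _)
  have hSc : ∀ s, (S s).ncard = Fintype.card F ^ n := by
    intro s
    rw [hS, Set.ncard_image_of_injective, ← hcard, Nat.card_coe_set_eq]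
    intro a b hab
    exact mul_left_cancel₀ (X_sub_C_ne_zero s) hab
  have hdisj : Disjoint (S 1) (S (-1)) := by
    rw [Set.disjoint_left]
    intro g hg hg'
    rw [hS] at hg hg'
    obtain ⟨f, hf, rfl⟩ := hg
    obtain ⟨f', hf', h⟩ := hg'
    have h3 := congrArg (fun p => coeff p 0) h
    simp only [mul_coeff_zero, coeff_sub, coeff_X_zero, coeff_C_zero, hf.2.1, hf'.2.1] at h3
    apply h2
    linear_combination h3
  have h3 : Nat.card ↥(S 1 ∪ S (-1)) ≤ Nat.card (ConjClasses G) := by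
    apply card_ge_of_charpoly ρ
    have key : ∀ s : F, (s = 1 ∨ s = -1) → ∀ g ∈ S s, ∃ x, (ρ x : Matrix (Fin (2 * n + 1)) (Fin (2 * n + 1)) F).charpoly = g := by
      intro s hs g hg
      rw [hS] at hg
      obtain ⟨f, hf, rfl⟩ := hg
      obtain ⟨A, J, hJ, hch, hsq⟩ := exists_odd_poly h2 hf J₀.det hJ₀'.ne_zero hs
      have hiff : IsSquare J.det ↔ IsSquare J₀.det := by
        have ha := hJ.2.1.ne_zero
        have hb := hJ₀'.ne_zero
        obtain ⟨z, hz⟩ := hsq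
        constructor
        · rintro ⟨w, hw⟩
          have hw0 : w ≠ 0 := by rintro rfl; apply ha; rw [hw, mul_zero]
          refine ⟨z / w, ?_⟩
          rw [div_mul_div_comm, ← hz, ← hw]; field_simp
        · rintro ⟨w, hw⟩
          have hw0 : w ≠ 0 := by rintro rfl; apply hb; rw [hw, mul_zero]
          refine ⟨z / w, ?_⟩
          rw [div_mul_div_comm, ← hz, ← hw]; field_simp
      obtain ⟨C, hC, hCJ⟩ := symm_congr h2 (G := J) (G' := J₀) (by rw [hJ.1, one_smul]) hJ₀ hJ.2.1 hJ₀' hiff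
      obtain ⟨x, hx⟩ := mem_of_congr J₀ ρ hr hJ C hC hCJ
      exact ⟨x, hx.trans hch⟩
    rintro f (hf | hf)
    · exact key 1 (Or.inl rfl) f hf
    · exact key (-1) (Or.inr rfl) f hf
  rw [Nat.card_coe_set_eq, Set.ncard_union_eq hdisj (hSfin _) (hSfin _), hSc, hSc] at h3
  omega

theorem omega_lower (h2 : (2 : F) ≠ 0) (n : ℕ) (hn : 1 ≤ n) (Q : QuadraticForm F (Fin (2 * n + 1) → F))
    (hQ : (polarBilin Q).Nondegenerate) : Fintype.card F ^ n ≤ 2 * Nat.card (ConjClasses (Cfsg.Omega F ⇑Q)) := by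
  classical
  obtain ⟨K, hKi, hKc, hKn⟩ := exists_K h2 n hn rfl Q hQ
  obtain ⟨J, hJs, hJd, hJQ⟩ := exists_gram h2 Q hQ
  have h3 := lower_odd h2 n J hJs hJd (Cfsg.isometryGroup F ⇑Q).subtype (by
    intro A hA
    rw [← mem_isometryGroup_iff h2 (⇑Q) J hJs hJQ A] at hA
    exact ⟨⟨A, hA⟩, rfl⟩)
  have h4 := (class_index_two K hKi (fun _ => True) (fun _ _ _ => trivial)).2
  rw [hKc] at h4
  omega

/-- transfer along a reindexing -/
theorem omega_bounds {ι : Type} [Fintype ι] [DecidableEq ι] (h2 : (2 : F) ≠ 0) (hq : 3 ≤ Fintype.card F) (n : ℕ) (hn : 1 ≤ n) (hι : Fintype.card ι = 2 * n + 1)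
    (Q : QuadraticForm F (ι → F)) (hQ : (polarBilin Q).Nondegenerate) :
    Fintype.card F ^ n ≤ 2 * Nat.card (ConjClasses (Cfsg.Omega F ⇑Q)) ∧ 10 * Nat.card (ConjClasses (Cfsg.Omega F ⇑Q)) ≤ 73 * Fintype.card F ^ n := by
  classical
  obtain ⟨e⟩ : Nonempty (ι ≃ Fin (2 * n + 1)) := ⟨Fintype.equivFinOfCardEq hι⟩
  obtain ⟨L, hL⟩ : ∃ L : (Fin (2 * n + 1) → F) ≃ₗ[F] (ι → F), ∀ v i, L v i = v (e i) := ⟨LinearEquiv.funCongrLeft F F e, fun v i => rfl⟩
  obtain ⟨Q', hQ'⟩ : ∃ Q' : QuadraticForm F (Fin (2 * n + 1) → F), ∀ v, Q' v = Q (L v) := ⟨Q.comp (L : (Fin (2 * n + 1) → F) →ₗ[F] (ι → F)), fun v => rfl⟩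
  have hpol : ∀ v w, polar Q' v w = polar Q (L v) (L w) := by
    intro v w
    simp only [QuadraticMap.polar, hQ', map_add]
  have hQ'n : (polarBilin Q').Nondegenerate := by
    constructor
    · intro v hv
      have h3 : L v = 0 := by
        apply hQ.1
        intro y
        obtain ⟨w, rfl⟩ := L.surjective y
        rw [pbil, ← hpol]
        exact hv w
      exact L.map_eq_zero_iff.1 h3
    · intro v hv
      have h3 : L v = 0 := by
        apply hQ.2
        intro y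
        obtain ⟨w, rfl⟩ := L.surjective y
        rw [pbil, ← hpol]
        exact hv w
      exact L.map_eq_zero_iff.1 h3
  let E : GL ι F ≃* GL (Fin (2 * n + 1)) F := Units.mapEquiv (Matrix.reindexAlgEquiv F F e).toMulEquiv
  have hE : ∀ A : GL ι F, ((E A : GL (Fin (2 * n + 1)) F) : Matrix (Fin (2 * n + 1)) (Fin (2 * n + 1)) F) = (A : Matrix ι ι F).submatrix e.symm e.symm := fun A => rfl
  have hEL : ∀ (A : GL ι F) v, L (((E A : GL (Fin (2 * n + 1)) F) : Matrix (Fin (2 * n + 1)) (Fin (2 * n + 1)) F).mulVec v) = (A : Matrix ι ι F).mulVec (L v) := by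
    intro A v
    ext i
    rw [hL, hE, Matrix.mulVec, Matrix.mulVec, dotProduct, dotProduct, ← Equiv.sum_comp e]
    apply Finset.sum_congr rfl
    intro j _
    rw [Matrix.submatrix_apply, Equiv.symm_apply_apply, Equiv.symm_apply_apply, hL]
  have hmap : (Cfsg.isometryGroup F ⇑Q).map (E : GL ι F →* GL (Fin (2 * n + 1)) F) = Cfsg.isometryGroup F ⇑Q' := by
    ext B
    obtain ⟨A, rfl⟩ := E.surjective B
    have h3 : E A ∈ (Cfsg.isometryGroup F ⇑Q).map (E : GL ι F →* GL (Fin (2 * n + 1)) F) ↔ A ∈ Cfsg.isometryGroup F ⇑Q := by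
      rw [Subgroup.mem_map]
      constructor
      · rintro ⟨A', hA', h⟩
        rwa [← E.injective h]
      · intro h
        exact ⟨A, h, rfl⟩
    rw [h3]
    constructor
    · intro h v _
      change Q' (((E A : GL (Fin (2 * n + 1)) F) : Matrix (Fin (2 * n + 1)) (Fin (2 * n + 1)) F).mulVec v) = Q' v
      rw [hQ', hQ', hEL]
      exact h (L v) (L v)
    · intro h w _
      obtain ⟨v, rfl⟩ := L.surjective w
      change Q ((A : Matrix ι ι F).mulVec (L v)) = Q (L v)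
      rw [← hEL, ← hQ', ← hQ']
      exact h v v
  have e1 : ↥(Cfsg.isometryGroup F ⇑Q) ≃* ↥(Cfsg.isometryGroup F ⇑Q') := (E.subgroupMap (Cfsg.isometryGroup F ⇑Q)).trans (MulEquiv.subgroupCongr hmap)
  have h5 : Nat.card (ConjClasses (Cfsg.Omega F ⇑Q)) = Nat.card (ConjClasses (Cfsg.Omega F ⇑Q')) := card_commutator_congr e1
  rw [h5]
  exact ⟨omega_lower h2 n hn Q' hQ'n, omega_upper h2 hq n hn rfl Q' hQ'n⟩

theorem omega_odd_final (hodd : Odd (Fintype.card F)) (n : ℕ) (hn : 1 ≤ n) :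
    Fintype.card F ^ n ≤ 2 * Nat.card (ConjClasses ↥(Cfsg.Omega F (Cfsg.quadFormOdd n F))) ∧
      10 * Nat.card (ConjClasses ↥(Cfsg.Omega F (Cfsg.quadFormOdd n F))) ≤ 73 * Fintype.card F ^ n := by
  classical
  obtain ⟨h2, hq⟩ := odd_card_facts hodd
  have h := omega_bounds h2 hq n hn (ι := Unit ⊕ (Fin n ⊕ Fin n)) (by simp only [Fintype.card_sum, Fintype.card_fin, Fintype.card_unit]; omega)
    (qfOdd n F) (qfOdd_nondegenerate n F h2)
  rwa [coe_qfOdd] at h

end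

end Cfsg.Agent.H43
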